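import Mathlib
import Cfsg.Prelude.Def_Local

namespace Cfsg.Agent.H26.Lf

open Subgroup

/-- Abstract description of a Sylow 2-subgroup of type `L₃(4)`. -/
structure St {G : Type*} [Group G] (S A B : Subgroup G) : Prop where
  sup : A ⊔ B = S
  cS : Nat.card S = 64
  cA : Nat.card A = 16
  cB : Nat.card B = 16
  cZ : Nat.card ↥(A ⊓ B) = 4
  sqA : ∀ a ∈ A, a * a = 1
  sqB : ∀ b ∈ B, b * b = 1
  com : ∀ a ∈ A, ∀ b ∈ B, a * b * a⁻¹ * b⁻¹ ∈ A ⊓ B
  nd : ∀ a ∈ A, ∀ b ∈ B, a * b = b * a → a ∈ B ∨ b ∈ A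
  odd : ¬ 2 ∣ S.index

variable {G : Type*} [Group G] {S A B : Subgroup G}

theorem comm_of_sq {H : Subgroup G} (h : ∀ a ∈ H, a * a = 1) {a b : G} (ha : a ∈ H) (hb : b ∈ H) :
    a * b = b * a := by
  have h1 := h _ (H.mul_mem ha hb)
  have e1 : a⁻¹ = a := inv_eq_of_mul_eq_one_right (h a ha)
  have e2 : b⁻¹ = b := inv_eq_of_mul_eq_one_right (h b hb)
  have e3 : (a * b)⁻¹ = a * b := inv_eq_of_mul_eq_one_right h1
  rw [← e3, mul_inv_rev, e1, e2]

namespace St

theorem symm (h : St S A B) : St S B A where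
  sup := by rw [sup_comm]; exact h.sup
  cS := h.cS
  cA := h.cB
  cB := h.cA
  cZ := by rw [inf_comm]; exact h.cZ
  sqA := h.sqB
  sqB := h.sqA
  com := fun b hb a ha => by
    have := (A ⊓ B).inv_mem (h.com a ha b hb)
    rw [inf_comm]
    simpa [mul_assoc] using this
  nd := fun b hb a ha e => (h.nd a ha b hb e.symm).symm
  odd := h.odd

theorem leA (h : St S A B) : A ≤ S := h.sup ▸ le_sup_left
theorem leB (h : St S A B) : B ≤ S := h.sup ▸ le_sup_right
theorem leZ (h : St S A B) : A ⊓ B ≤ S := inf_le_left.trans h.leA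

theorem invA (h : St S A B) {a : G} (ha : a ∈ A) : a⁻¹ = a := inv_eq_of_mul_eq_one_right (h.sqA a ha)
theorem invB (h : St S A B) {a : G} (ha : a ∈ B) : a⁻¹ = a := inv_eq_of_mul_eq_one_right (h.sqB a ha)
theorem commA (h : St S A B) {a b : G} (ha : a ∈ A) (hb : b ∈ A) : a * b = b * a :=
  comm_of_sq h.sqA ha hb
theorem commB (h : St S A B) {a b : G} (ha : a ∈ B) (hb : b ∈ B) : a * b = b * a :=
  comm_of_sq h.sqB ha hb

theorem pS (h : St S A B) : IsPGroup 2 S := IsPGroup.of_card (n := 6) (by rw [h.cS]; norm_num)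

/-- `S` as a Sylow subgroup. -/
noncomputable def syl [Finite G] (h : St S A B) : Sylow 2 G := h.pS.toSylow h.odd

@[simp] theorem coe_syl [Finite G] (h : St S A B) : (h.syl : Subgroup G) = S := rfl

theorem conjAB (h : St S A B) {a b : G} (ha : a ∈ A) (hb : b ∈ B) : b * a * b⁻¹ ∈ A := by
  have := (h.symm.com b hb a ha).2
  have h2 := A.mul_mem this ha
  simpa [mul_assoc] using h2

theorem mem_iff (h : St S A B) {s : G} : s ∈ S ↔ ∃ a ∈ A, ∃ b ∈ B, s = a * b := by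
  constructor
  · intro hs
    rw [← h.sup, sup_eq_closure] at hs
    induction hs using closure_induction with
    | mem x hx =>
      rcases hx with hx | hx
      · exact ⟨x, hx, 1, B.one_mem, by simp⟩
      · exact ⟨1, A.one_mem, x, hx, by simp⟩
    | one => exact ⟨1, A.one_mem, 1, B.one_mem, by simp⟩
    | mul x y _ _ hx hy =>
      obtain ⟨a, ha, b, hb, rfl⟩ := hx
      obtain ⟨a', ha', b', hb', rfl⟩ := hy
      exact ⟨a * (b * a' * b⁻¹), A.mul_mem ha (h.conjAB ha' hb), b * b', B.mul_mem hb hb', by group⟩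
    | inv x _ hx =>
      obtain ⟨a, ha, b, hb, rfl⟩ := hx
      exact ⟨b⁻¹ * a⁻¹ * b⁻¹⁻¹, h.conjAB (A.inv_mem ha) (B.inv_mem hb), b⁻¹, B.inv_mem hb, by group⟩
  · rintro ⟨a, ha, b, hb, rfl⟩
    exact S.mul_mem (h.leA ha) (h.leB hb)

/-- `A` is normal in `S`. -/
theorem conjA (h : St S A B) {s a : G} (hs : s ∈ S) (ha : a ∈ A) : s * a * s⁻¹ ∈ A := by
  obtain ⟨a', ha', b, hb, rfl⟩ := h.mem_iff.1 hs
  have := A.mul_mem (A.mul_mem ha' (h.conjAB ha hb)) (A.inv_mem ha')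
  simpa [mul_assoc] using this

theorem conjB (h : St S A B) {s a : G} (hs : s ∈ S) (ha : a ∈ B) : s * a * s⁻¹ ∈ B :=
  h.symm.conjA hs ha

/-- `Z = A ⊓ B` is central in `S`. -/
theorem cenZ (h : St S A B) {s z : G} (hs : s ∈ S) (hz : z ∈ A ⊓ B) : s * z = z * s := by
  obtain ⟨a, ha, b, hb, rfl⟩ := h.mem_iff.1 hs
  rw [mul_assoc, h.commB hb hz.2, ← mul_assoc, h.commA ha hz.1, mul_assoc]

/-- commutators of `S` with `A` lie in `Z`. -/
theorem comSA (h : St S A B) {s a : G} (hs : s ∈ S) (ha : a ∈ A) : s * a * s⁻¹ * a⁻¹ ∈ A ⊓ B := by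
  obtain ⟨a', ha', b, hb, rfl⟩ := h.mem_iff.1 hs
  have h1 : b * a * b⁻¹ * a⁻¹ ∈ A ⊓ B := by
    have := h.symm.com b hb a ha
    rwa [inf_comm] at this
  have h2 := h.commA ha' (h.conjAB ha hb)
  have : a' * b * a * (a' * b)⁻¹ * a⁻¹ = b * a * b⁻¹ * a⁻¹ := by
    calc a' * b * a * (a' * b)⁻¹ * a⁻¹ = (a' * (b * a * b⁻¹)) * a'⁻¹ * a⁻¹ := by group
      _ = _ := by rw [h2]; group
  rw [this]; exact h1

/-- `S/Z` is abelian. -/
theorem comS (h : St S A B) {s t : G} (hs : s ∈ S) (ht : t ∈ S) : s * t * s⁻¹ * t⁻¹ ∈ A ⊓ B := by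
  obtain ⟨a, ha, b, hb, rfl⟩ := h.mem_iff.1 ht
  have h1 := h.comSA hs ha
  have h2 : s * b * s⁻¹ * b⁻¹ ∈ A ⊓ B := by
    have := h.symm.comSA hs hb
    rwa [inf_comm] at this
  have h3 := h.cenZ (h.leA ha) h2
  have : s * (a * b) * s⁻¹ * (a * b)⁻¹ = (s * a * s⁻¹ * a⁻¹) * (s * b * s⁻¹ * b⁻¹) := by
    calc s * (a * b) * s⁻¹ * (a * b)⁻¹
        = (s * a * s⁻¹ * a⁻¹) * (a * (s * b * s⁻¹ * b⁻¹)) * a⁻¹ := by group
      _ = _ := by rw [h3]; group
  rw [this]; exact (A ⊓ B).mul_mem h1 h2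

theorem sq_eq (h : St S A B) {a b : G} (ha : a ∈ A) (hb : b ∈ B) :
    a * b * (a * b) = a * b * a⁻¹ * b⁻¹ := by
  rw [h.invA ha, h.invB hb]; group

theorem sqS (h : St S A B) {s : G} (hs : s ∈ S) : s * s ∈ A ⊓ B := by
  obtain ⟨a, ha, b, hb, rfl⟩ := h.mem_iff.1 hs
  rw [h.sq_eq ha hb]; exact h.com a ha b hb

/-- all involutions of `S` lie in `A ∪ B`. -/
theorem invol (h : St S A B) {s : G} (hs : s ∈ S) (h2 : s * s = 1) : s ∈ A ∨ s ∈ B := by
  obtain ⟨a, ha, b, hb, rfl⟩ := h.mem_iff.1 hs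
  rw [h.sq_eq ha hb] at h2
  have : a * b = b * a := by
    calc a * b = (a * b * a⁻¹ * b⁻¹) * (b * a) := by group
      _ = _ := by rw [h2, one_mul]
  rcases h.nd a ha b hb this with h3 | h3
  · exact Or.inr (B.mul_mem h3 hb)
  · exact Or.inl (A.mul_mem ha h3)

/-- `C_S(a) = A` for `a ∈ A \ Z`. -/
theorem cenA (h : St S A B) {a s : G} (ha : a ∈ A) (haB : a ∉ B) (hs : s ∈ S)
    (e : s * a = a * s) : s ∈ A := by
  obtain ⟨a', ha', b, hb, rfl⟩ := h.mem_iff.1 hs
  have : a * b = b * a := by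
    have h1 := h.commA ha' ha
    have h2 : a' * (b * a) = a' * (a * b) := by
      rw [← mul_assoc, e, ← mul_assoc, ← mul_assoc, h1]
    exact (mul_left_cancel h2).symm
  rcases h.nd a ha b hb this with h3 | h3
  · exact absurd h3 haB
  · exact A.mul_mem ha' h3

/-- `Z(S) = Z`. -/
theorem mem_Z_of_cen [Finite G] (h : St S A B) {s : G} (hs : s ∈ S) (e : ∀ t ∈ S, t * s = s * t) :
    s ∈ A ⊓ B := by
  have key : ∀ {A B : Subgroup G}, St S A B → s ∈ A := by
    intro A B h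
    have : ¬ A ≤ B := by
      intro hle
      have := h.cZ
      rw [inf_eq_left.2 hle, h.cA] at this
      norm_num at this
    obtain ⟨a, ha, haB⟩ := SetLike.not_le_iff_exists.1 this
    exact h.cenA ha haB hs (e a (h.leA ha)).symm
  exact ⟨key h, key h.symm⟩

theorem exA (h : St S A B) : ∃ a ∈ A, a ∉ B := by
  have : ¬ A ≤ B := by
    intro hle
    have := h.cZ
    rw [inf_eq_left.2 hle, h.cA] at this
    norm_num at this
  exact SetLike.not_le_iff_exists.1 this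

theorem exZ (h : St S A B) : ∃ z ∈ A ⊓ B, z ≠ 1 := by
  by_contra hc
  push Not at hc
  have : A ⊓ B = ⊥ := (eq_bot_iff_forall _).2 hc
  have h2 := h.cZ
  rw [this] at h2
  simp at h2

/-- `b ↦ [a, b]` maps `B` onto `Z` for `a ∈ A \ Z`. -/
theorem onto [Finite G] (h : St S A B) {a z : G} (ha : a ∈ A) (haB : a ∉ B) (hz : z ∈ A ⊓ B) :
    ∃ b ∈ B, a * b * a⁻¹ * b⁻¹ = z := by
  let f : B →* ↥(A ⊓ B) :=
    { toFun := fun b => ⟨a * b * a⁻¹ * (b : G)⁻¹, h.com a ha b b.2⟩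
      map_one' := by ext; simp
      map_mul' := fun b c => by
        ext
        have h3 := h.cenZ (h.leB b.2) (h.com a ha c c.2)
        simp only [coe_mul, MulMemClass.mk_mul_mk]
        calc a * (b * c) * a⁻¹ * ((b : G) * c)⁻¹
            = (a * b * a⁻¹ * (b : G)⁻¹) * (b * (a * c * a⁻¹ * (c : G)⁻¹)) * (b : G)⁻¹ := by group
          _ = _ := by rw [h3]; group }
  have hker : f.ker = (A ⊓ B).subgroupOf B := by
    ext b
    simp only [MonoidHom.mem_ker, mem_subgroupOf, mem_inf]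
    constructor
    · intro e
      have e1 : a * b * a⁻¹ * (b : G)⁻¹ = 1 := congrArg Subtype.val e
      have : a * b = b * a := by
        calc a * b = (a * b * a⁻¹ * (b : G)⁻¹) * (b * a) := by group
          _ = _ := by rw [e1, one_mul]
      rcases h.nd a ha b b.2 this with h3 | h3
      · exact absurd h3 haB
      · exact ⟨h3, b.2⟩
    · rintro ⟨h1, -⟩
      ext
      show a * b * a⁻¹ * (b : G)⁻¹ = 1
      rw [h.commA ha h1]; group
  have hc : Nat.card f.ker = 4 := by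
    rw [hker, Nat.card_congr (subgroupOfEquivOfLe inf_le_right).toEquiv, h.cZ]
  have hr : Nat.card f.range = 4 := by
    have := f.ker.card_mul_index
    rw [hc, h.cB, index_ker] at this
    omega
  have : f.range = ⊤ := eq_top_of_card_eq _ (by rw [hr, h.cZ])
  obtain ⟨b, hb⟩ : (⟨z, hz⟩ : ↥(A ⊓ B)) ∈ f.range := this ▸ mem_top _
  exact ⟨b, b.2, congrArg Subtype.val hb⟩

/-- transport along a surjective homomorphism that is injective on `S`. -/
theorem map [Finite G] {H : Type*} [Group H] (h : St S A B) (f : G →* H)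
    (hf : Function.Surjective f) (hi : ∀ s ∈ S, f s = 1 → s = 1) :
    St (S.map f) (A.map f) (B.map f) := by
  have inj : ∀ s ∈ S, ∀ t ∈ S, f s = f t → s = t := fun s hs t ht e => by
    have := hi (s * t⁻¹) (S.mul_mem hs (S.inv_mem ht)) (by rw [map_mul, map_inv, e, mul_inv_cancel])
    exact mul_inv_eq_one.1 this
  have hc : ∀ K : Subgroup G, K ≤ S → Nat.card (K.map f) = Nat.card K := fun K hK => by
    have : Set.InjOn f (K : Set G) := fun s hs t ht e => inj s (hK hs) t (hK ht) e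
    exact Nat.card_image_of_injOn this
  have hZ : A.map f ⊓ B.map f = (A ⊓ B).map f := by
    apply le_antisymm
    · rintro x ⟨⟨a, ha, rfl⟩, ⟨b, hb, e⟩⟩
      have := inj b (h.leB hb) a (h.leA ha) e
      exact ⟨a, ⟨ha, this ▸ hb⟩, rfl⟩
    · exact map_inf_le _ _ _
  refine ⟨by rw [← Subgroup.map_sup, h.sup], by rw [hc S le_rfl, h.cS], by rw [hc A h.leA, h.cA],
    by rw [hc B h.leB, h.cB], by rw [hZ, hc _ h.leZ, h.cZ], ?_, ?_, ?_, ?_, ?_⟩
  · rintro _ ⟨a, ha, rfl⟩; rw [← map_mul, h.sqA a ha, map_one]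
  · rintro _ ⟨a, ha, rfl⟩; rw [← map_mul, h.sqB a ha, map_one]
  · rintro _ ⟨a, ha, rfl⟩ _ ⟨b, hb, rfl⟩
    rw [hZ]
    exact ⟨_, h.com a ha b hb, by simp⟩
  · rintro _ ⟨a, ha, rfl⟩ _ ⟨b, hb, rfl⟩ e
    have := inj _ (S.mul_mem (h.leA ha) (h.leB hb)) _ (S.mul_mem (h.leB hb) (h.leA ha))
      (by rw [map_mul, map_mul, e])
    rcases h.nd a ha b hb this with h3 | h3
    · exact Or.inl ⟨a, h3, rfl⟩
    · exact Or.inr ⟨b, h3, rfl⟩
  · exact fun hd => h.odd (hd.trans (index_map_dvd S hf))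

/-- transport to a quotient by a normal subgroup of odd order. -/
theorem quot [Finite G] (h : St S A B) (N : Subgroup G) [N.Normal] (hN : Odd (Nat.card N)) :
    St (S.map (QuotientGroup.mk' N)) (A.map (QuotientGroup.mk' N)) (B.map (QuotientGroup.mk' N)) := by
  refine h.map _ (QuotientGroup.mk'_surjective N) fun s hs e => ?_
  have hsN : s ∈ N := by simpa using e
  have h1 : orderOf s ∣ Nat.card N := N.orderOf_dvd_natCard hsN
  have h2 : orderOf s ∣ Nat.card S := S.orderOf_dvd_natCard hs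
  rw [h.cS] at h2
  have : Nat.Coprime (Nat.card N) 64 := by
    have : Nat.Coprime (Nat.card N) 2 := (Nat.coprime_two_right).2 hN
    simpa using this.pow_right 6
  exact orderOf_eq_one_iff.1 (Nat.eq_one_of_dvd_coprimes this h1 h2)

/-- transport to a subgroup containing `S`. -/
theorem sub [Finite G] (h : St S A B) (K : Subgroup G) (hK : S ≤ K) :
    St (S.subgroupOf K) (A.subgroupOf K) (B.subgroupOf K) := by
  have hc : ∀ L : Subgroup G, L ≤ S → Nat.card (L.subgroupOf K) = Nat.card L := fun L hL =>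
    Nat.card_congr (subgroupOfEquivOfLe (hL.trans hK)).toEquiv
  have hZ : A.subgroupOf K ⊓ B.subgroupOf K = (A ⊓ B).subgroupOf K := by
    ext; simp [mem_subgroupOf]
  refine ⟨?_, by rw [hc S le_rfl, h.cS], by rw [hc A h.leA, h.cA],
    by rw [hc B h.leB, h.cB], by rw [hZ, hc _ h.leZ, h.cZ], ?_, ?_, ?_, ?_, ?_⟩
  · rw [← h.sup]
    exact subgroupOf_sup (h.leA.trans hK) (h.leB.trans hK) |>.symm
  · intro a ha; ext; exact h.sqA a ha
  · intro a ha; ext; exact h.sqB a ha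
  · intro a ha b hb
    exact h.com a ha b hb
  · intro a ha b hb e
    exact h.nd a ha b hb (congrArg Subtype.val e)
  · intro hd
    exact h.odd (hd.trans (relIndex_dvd_index_of_le hK))

/-- conjugation invariance. -/
theorem conj [Finite G] (h : St S A B) (g : G) :
    St (S.map (MulAut.conj g).toMonoidHom) (A.map (MulAut.conj g).toMonoidHom)
      (B.map (MulAut.conj g).toMonoidHom) :=
  h.map _ (MulAut.conj g).surjective fun s _ e => (MulAut.conj g).injective (by simpa using e)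

end St

end Cfsg.Agent.H26.Lf
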