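import Cfsg.Agent.H26.Lf0

namespace Cfsg.Agent.H26.Lf
open Subgroup

theorem four_exh {α : Type*} [Finite α] (h : Nat.card α = 4) {a b c d : α} (h1 : a ≠ b) (h2 : a ≠ c)
    (h3 : a ≠ d) (h4 : b ≠ c) (h5 : b ≠ d) (h6 : c ≠ d) (y : α) :
    y = a ∨ y = b ∨ y = c ∨ y = d := by
  classical
  have := Fintype.ofFinite α
  have hc : ({a, b, c, d} : Finset α).card = 4 := by
    rw [Finset.card_insert_of_notMem (by simp [h1, h2, h3]), Finset.card_insert_of_notMem (by simp [h4, h5]),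
      Finset.card_pair h6]
  have : ({a, b, c, d} : Finset α) = Finset.univ :=
    Finset.eq_univ_of_card _ (by rw [hc, ← h, Nat.card_eq_fintype_card])
  have hy : y ∈ ({a, b, c, d} : Finset α) := this ▸ Finset.mem_univ y
  simpa using hy

variable {G : Type*} [Group G] [Finite G] {S A B : Subgroup G}

omit [Finite G] in
theorem mem_of_sq (H : Subgroup G) {ρ : G} (ho : Odd (orderOf ρ)) (h : ρ * ρ ∈ H) : ρ ∈ H := by
  obtain ⟨k, hk⟩ := ho
  have : ρ = (ρ * ρ) ^ (k + 1) := by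
    rw [← pow_two, ← pow_mul, show 2 * (k + 1) = (2 * k + 1) + 1 by ring, ← hk, pow_succ,
      pow_orderOf_eq_one, one_mul]
  rw [this]; exact H.pow_mem h _

theorem decomp (x : G) : ∃ ρ ∈ zpowers x, ∃ t ∈ zpowers x, Odd (orderOf ρ) ∧
    IsPGroup 2 (zpowers t) ∧ x = ρ * t := by
  obtain ⟨a, o, ho, hm⟩ := Nat.exists_eq_two_pow_mul_odd (orderOf_pos x).ne'
  have hc : Nat.Coprime (2 ^ a) o := (Nat.coprime_two_left.2 ho).pow_left a
  have hb := Nat.gcd_eq_gcd_ab (2 ^ a) o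
  rw [hc.gcd_eq_one] at hb
  have hx : x ^ (((2 ^ a : ℕ) : ℤ) * (o : ℤ)) = 1 := by
    rw [← Nat.cast_mul, ← hm, zpow_natCast, pow_orderOf_eq_one]
  refine ⟨x ^ (((2 ^ a : ℕ) : ℤ) * Nat.gcdA (2 ^ a) o), zpow_mem_zpowers _ _,
    x ^ ((o : ℤ) * Nat.gcdB (2 ^ a) o), zpow_mem_zpowers _ _, ?_, ?_, ?_⟩
  · apply ho.of_dvd_nat
    apply orderOf_dvd_of_pow_eq_one
    rw [← zpow_natCast, ← zpow_mul, mul_right_comm, zpow_mul, hx, one_zpow]
  · have : orderOf (x ^ ((o : ℤ) * Nat.gcdB (2 ^ a) o)) ∣ 2 ^ a := by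
      apply orderOf_dvd_of_pow_eq_one
      rw [← zpow_natCast, ← zpow_mul, mul_right_comm, mul_comm (o : ℤ), zpow_mul, hx, one_zpow]
    obtain ⟨k, -, hk⟩ := (Nat.dvd_prime_pow Nat.prime_two).1 this
    exact IsPGroup.of_card (n := k) (by rw [Nat.card_zpowers, hk])
  · rw [← zpow_add, ← hb]; simp

omit [Finite G] in
theorem cj_cen {R : Subgroup G} {n c : G} (hn : n ∈ normalizer (R : Set G))
    (hc : c ∈ centralizer (R : Set G)) : n * c * n⁻¹ ∈ centralizer (R : Set G) := by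
  rw [mem_centralizer_iff] at hc ⊢
  intro r hr
  have h1 : n⁻¹ * r * n ∈ R := by
    have := (mem_normalizer_iff''.1 hn r).1 hr
    exact this
  have := hc _ h1
  calc r * (n * c * n⁻¹) = n * ((n⁻¹ * r * n) * c) * n⁻¹ := by group
    _ = _ := by rw [this]; group

omit [Finite G] in
theorem nm {R : Subgroup G} {n r : G} (hn : n ∈ normalizer (R : Set G)) (hr : r ∈ R) :
    n * r * n⁻¹ ∈ R := (mem_normalizer_iff.1 hn r).1 hr

omit [Finite G] in
theorem nm' {R : Subgroup G} {n r : G} (hn : n ∈ normalizer (R : Set G)) (hr : n * r * n⁻¹ ∈ R) :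
    r ∈ R := (mem_normalizer_iff.1 hn r).2 hr

theorem nm_of {R : Subgroup G} {n : G} (h : ∀ r ∈ R, n * r * n⁻¹ ∈ R) :
    n ∈ normalizer (R : Set G) := mem_normalizer_fintype h

theorem pg_two {t : G} (h : t * t = 1) : IsPGroup 2 (zpowers t) := by
  have : orderOf t ∣ 2 ^ 1 := orderOf_dvd_of_pow_eq_one (by rw [pow_one, pow_two, h])
  obtain ⟨k, -, hk⟩ := (Nat.dvd_prime_pow Nat.prime_two).1 this
  exact IsPGroup.of_card (n := k) (by rw [Nat.card_zpowers, hk])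

namespace St

theorem sylconj (h : St S A B) (K : Subgroup G) (hS : S ≤ K) (P : Subgroup G) (hP : P ≤ K)
    (hp : IsPGroup 2 P) : ∃ k ∈ K, ∀ x ∈ P, k * x * k⁻¹ ∈ S := by
  have h1 : IsPGroup 2 (P.subgroupOf K) := hp.comap_of_injective K.subtype K.subtype_injective
  obtain ⟨Q, hQ⟩ := h1.exists_le_sylow
  obtain ⟨k, hk⟩ := MulAction.exists_smul_eq K Q (h.sub K hS).syl
  refine ⟨k, k.2, fun x hx => ?_⟩
  have h2 : (⟨x, hP hx⟩ : K) ∈ (Q : Subgroup K) := hQ hx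
  have h3 : k * ⟨x, hP hx⟩ * k⁻¹ ∈ ((k • Q : Sylow 2 K) : Subgroup K) := by
    rw [Sylow.coe_subgroup_smul]
    exact ⟨_, h2, rfl⟩
  rw [hk] at h3
  exact h3

theorem twosyl (h : St S A B) (K P Q : Subgroup G) (hP : P ≤ K) (hQ : Q ≤ K) (hp : IsPGroup 2 P)
    (hq : IsPGroup 2 Q) : ∃ k ∈ K, ∃ x : G, (∀ p ∈ P, x * p * x⁻¹ ∈ S) ∧
      ∀ q ∈ Q, x * (k * q * k⁻¹) * x⁻¹ ∈ S := by
  obtain ⟨P', hP'⟩ := (hp.comap_of_injective K.subtype K.subtype_injective).exists_le_sylow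
  obtain ⟨Q', hQ'⟩ := (hq.comap_of_injective K.subtype K.subtype_injective).exists_le_sylow
  obtain ⟨k, hk⟩ := MulAction.exists_smul_eq K Q' P'
  obtain ⟨x, -, hx⟩ := h.sylconj ⊤ le_top ((P' : Subgroup K).map K.subtype) le_top
    (P'.isPGroup'.map _)
  refine ⟨k, k.2, x, fun p hp => hx _ ⟨⟨p, hP hp⟩, hP' hp, rfl⟩, fun q hq => hx _ ?_⟩
  have h2 : (⟨q, hQ hq⟩ : K) ∈ (Q' : Subgroup K) := hQ' hq
  have h3 : k * ⟨q, hQ hq⟩ * k⁻¹ ∈ ((k • Q' : Sylow 2 K) : Subgroup K) := by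
    rw [Sylow.coe_subgroup_smul]
    exact ⟨_, h2, rfl⟩
  rw [hk] at h3
  exact ⟨_, h3, rfl⟩

theorem mem_of_two (h : St S A B) {t : G} (ht : t ∈ normalizer (S : Set G))
    (hp : IsPGroup 2 (zpowers t)) : t ∈ S := by
  obtain ⟨k, hk, hx⟩ := h.sylconj _ le_normalizer _ ((zpowers_le).2 ht) hp
  exact nm' hk (hx t (mem_zpowers t))

theorem oddpart (h : St S A B) {n : G} (hn : n ∈ normalizer (S : Set G)) :
    ∃ ρ ∈ zpowers n, ∃ s ∈ S, Odd (orderOf ρ) ∧ n = ρ * s := by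
  obtain ⟨ρ, hρ, t, ht, ho, hp, e⟩ := decomp n
  exact ⟨ρ, hρ, t, h.mem_of_two ((zpowers_le).2 hn ht) hp, ho, e⟩

theorem elem16 (h : St S A B) {E : Subgroup G} (hE : E ≤ S) (sq : ∀ e ∈ E, e * e = 1)
    (hc : Nat.card E = 16) : E = A ∨ E = B := by
  by_cases hA : E ≤ A
  · exact Or.inl (eq_of_le_of_card_ge hA (by rw [hc, h.cA]))
  · obtain ⟨e, he, heA⟩ := SetLike.not_le_iff_exists.1 hA
    have heB : e ∈ B := (h.invol (hE he) (sq e he)).resolve_left heA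
    refine Or.inr (eq_of_le_of_card_ge (fun f hf => ?_) (by rw [hc, h.cB]))
    exact h.symm.cenA heB heA (hE hf) (comm_of_sq sq hf he)

theorem pA (h : St S A B) : IsPGroup 2 A := h.pS.to_le h.leA

theorem wc (h : St S A B) (g : G) (hg : ∀ a ∈ A, g * a * g⁻¹ ∈ S) : g ∈ normalizer (A : Set G) := by
  have key : ∀ {A B : Subgroup G}, St S A B → ∀ g : G, (∀ a ∈ A, g * a * g⁻¹ ∈ S) →
      (∀ a ∈ A, g * a * g⁻¹ ∈ A) ∨ (A.map (MulAut.conj g).toMonoidHom = B) := by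
    intro A B h g hg
    rcases h.elem16 (E := A.map (MulAut.conj g).toMonoidHom) (by rintro _ ⟨a, ha, rfl⟩; exact hg a ha)
      (h.conj g).sqA (h.conj g).cA with h1 | h1
    · exact Or.inl fun a ha => h1 ▸ ⟨a, ha, rfl⟩
    · exact Or.inr h1
  rcases key h g hg with h1 | h1
  · exact nm_of h1
  exfalso
  have hSB : S ≤ normalizer (B : Set G) := fun s hs => nm_of fun b hb => h.conjB hs hb
  have hSA : S ≤ normalizer (A : Set G) := fun s hs => nm_of fun b hb => h.conjA hs hb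
  have hS' : S.map (MulAut.conj g).toMonoidHom ≤ normalizer (B : Set G) := fun s hs =>
    nm_of fun b hb => by rw [← h1] at hb ⊢; exact (h.conj g).conjA hs hb
  obtain ⟨n, hn, hx⟩ := h.sylconj _ hSB _ hS' (h.conj g).pS
  have hk : n * g ∈ normalizer (S : Set G) := nm_of fun s hs => by
    have := hx _ ⟨s, hs, rfl⟩
    simpa [mul_assoc] using this
  obtain ⟨ρ, hρ, s, hs, ho, e⟩ := h.oddpart hk
  have hρS : ρ ∈ normalizer (S : Set G) := (zpowers_le).2 hk hρ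
  have hρA : ∀ a ∈ A, ρ * a * ρ⁻¹ ∈ B := fun a ha => by
    have h2 : g * (s⁻¹ * a * s⁻¹⁻¹) * g⁻¹ ∈ B := h1 ▸ ⟨_, h.conjA (S.inv_mem hs) ha, rfl⟩
    have h3 := nm hn h2
    have : ρ = n * g * s⁻¹ := by rw [e]; group
    rw [this]; simpa [mul_assoc] using h3
  obtain ⟨a, ha, haB⟩ := h.exA
  rcases key h.symm ρ (fun b hb => nm hρS (h.leB hb)) with h2 | h2
  · exact haB (nm' (nm_of h2) (hρA a ha))
  · have : ρ * ρ ∈ normalizer (A : Set G) := nm_of fun a ha => by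
      have h3 : ρ * (ρ * a * ρ⁻¹) * ρ⁻¹ ∈ A := h2 ▸ ⟨_, hρA a ha, rfl⟩
      simpa [mul_assoc] using h3
    have h4 := mem_of_sq _ ho this
    have h5 : ρ⁻¹ * a * ρ⁻¹⁻¹ ∈ A := nm (inv_mem h4) ha
    have := hρA _ h5
    exact haB (by simpa [mul_assoc] using this)

theorem nA (h : St S A B) {g : G} (hg : g ∈ normalizer (S : Set G)) : g ∈ normalizer (A : Set G) :=
  h.wc g fun _ ha => nm hg (h.leA ha)

theorem nB (h : St S A B) {g : G} (hg : g ∈ normalizer (S : Set G)) : g ∈ normalizer (B : Set G) :=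
  h.symm.nA hg

theorem nZ (h : St S A B) {g : G} (hg : g ∈ normalizer (S : Set G)) :
    g ∈ normalizer ((A ⊓ B : Subgroup G) : Set G) :=
  nm_of fun _ hz => ⟨nm (h.nA hg) hz.1, nm (h.nB hg) hz.2⟩

theorem fusA (h : St S A B) {a a' : G} (ha : a ∈ A) (ha' : a' ∈ A) (hc : IsConj a a') :
    ∃ g ∈ normalizer (A : Set G), g * a * g⁻¹ = a' := by
  obtain ⟨g, hg⟩ := isConj_iff.1 hc
  obtain ⟨k, hk, x, h1, h2⟩ := h.twosyl (centralizer {a'}) A (A.map (MulAut.conj g).toMonoidHom)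
    (fun y hy => mem_centralizer_singleton_iff.2 (h.commA hy ha'))
    (fun y hy => mem_centralizer_singleton_iff.2 ((h.conj g).commA hy ⟨a, ha, hg⟩)) h.pA (h.conj g).pA
  have h3 := h.wc x h1
  have h4 := h.wc (x * k * g) fun y hy => by simpa [mul_assoc] using h2 _ ⟨y, hy, rfl⟩
  refine ⟨k * g, by simpa [mul_assoc] using mul_mem (inv_mem h3) h4, ?_⟩
  have := mem_centralizer_singleton_iff.1 hk
  calc k * g * a * (k * g)⁻¹ = k * (g * a * g⁻¹) * k⁻¹ := by group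
    _ = a' := by rw [hg, this]; group

theorem notfus (h : St S A B) {a b : G} (ha : a ∈ A) (hb : b ∈ B) (hc : IsConj a b) :
    ∃ z ∈ A ⊓ B, IsConj a z := by
  obtain ⟨g, hg⟩ := isConj_iff.1 hc
  obtain ⟨k, hk, x, h1, h2⟩ := h.twosyl (centralizer {b}) B (A.map (MulAut.conj g).toMonoidHom)
    (fun y hy => mem_centralizer_singleton_iff.2 (h.commB hy hb))
    (fun y hy => mem_centralizer_singleton_iff.2 ((h.conj g).commA hy ⟨a, ha, hg⟩)) h.symm.pA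
    (h.conj g).pA
  have h3 := h.symm.wc x h1
  have h4 := h.wc (x * k * g) fun y hy => by simpa [mul_assoc] using h2 _ ⟨y, hy, rfl⟩
  have e : x * k * g * a * (x * k * g)⁻¹ = x * b * x⁻¹ := by
    have := mem_centralizer_singleton_iff.1 hk
    calc x * k * g * a * (x * k * g)⁻¹ = x * (k * (g * a * g⁻¹)) * k⁻¹ * x⁻¹ := by group
      _ = _ := by rw [hg, this]; group
  exact ⟨x * b * x⁻¹, ⟨e ▸ nm h4 ha, nm h3 hb⟩, isConj_iff.2 ⟨_, e⟩⟩

/-- the four elements of `Z`. -/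
theorem exhZ (h : St S A B) {z w y : G} (hz : z ∈ A ⊓ B) (hw : w ∈ A ⊓ B) (hy : y ∈ A ⊓ B)
    (hz1 : z ≠ 1) (hw1 : w ≠ 1) (hzw : z ≠ w) : y = 1 ∨ y = z ∨ y = w ∨ y = z * w := by
  have h5 : z * w ≠ 1 := fun e => hzw (by rw [← h.invA hw.1]; exact eq_inv_of_mul_eq_one_left e)
  have := four_exh h.cZ (a := 1) (b := ⟨z, hz⟩) (c := ⟨w, hw⟩) (d := ⟨z * w, mul_mem hz hw⟩)
    (fun e => hz1 (congrArg Subtype.val e).symm) (fun e => hw1 (congrArg Subtype.val e).symm)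
    (fun e => h5 (congrArg Subtype.val e).symm) (fun e => hzw (congrArg Subtype.val e))
    (fun e => hw1 (by have := congrArg Subtype.val e; simpa using this))
    (fun e => hz1 (by have := congrArg Subtype.val e; simpa using this)) ⟨y, hy⟩
  simpa [Subtype.ext_iff] using this

/-- the four cosets of `Z` in `A`. -/
theorem cosA (h : St S A B) {a a' y : G} (ha : a ∈ A) (ha' : a' ∈ A) (hy : y ∈ A)
    (h1 : a ∉ B) (h2 : a' ∉ B) (h3 : a * a' ∉ B) :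
    y ∈ B ∨ a * y ∈ B ∨ a' * y ∈ B ∨ a * a' * y ∈ B := by
  have hc : Nat.card (A ⧸ B.subgroupOf A) = 4 := by
    have h4 := (B.subgroupOf A).card_mul_index
    have h5 : Nat.card (B.subgroupOf A) = 4 := by
      rw [← inf_subgroupOf_left, Nat.card_congr (subgroupOfEquivOfLe inf_le_left).toEquiv, h.cZ]
    rw [h5, h.cA] at h4
    rw [← index_eq_card]; omega
  have i1 := h.invA ha
  have i2 := h.invA ha'
  have i3 := h.invA (mul_mem ha ha')
  have := four_exh hc (a := ((1 : A) : A ⧸ B.subgroupOf A)) (b := ((⟨a, ha⟩ : A) : _))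
    (c := ((⟨a', ha'⟩ : A) : _)) (d := ((⟨a * a', mul_mem ha ha'⟩ : A) : _))
    (by rw [Ne, QuotientGroup.eq, mem_subgroupOf]; simpa using h1)
    (by rw [Ne, QuotientGroup.eq, mem_subgroupOf]; simpa using h2)
    (by rw [Ne, QuotientGroup.eq, mem_subgroupOf]; simpa using h3)
    (by rw [Ne, QuotientGroup.eq, mem_subgroupOf]; simpa [i1] using h3)
    (by rw [Ne, QuotientGroup.eq, mem_subgroupOf]; simpa using h2)
    (by
      rw [Ne, QuotientGroup.eq, mem_subgroupOf]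
      have : a'⁻¹ * (a * a') = a := by rw [h.commA ha ha']; group
      simpa [this] using h1) ((⟨y, hy⟩ : A) : _)
  simp only [eq_comm (a := ((⟨y, hy⟩ : A) : A ⧸ B.subgroupOf A)), QuotientGroup.eq,
    mem_subgroupOf] at this
  simp only [inv_one, one_mul, coe_mul, InvMemClass.coe_inv, i1, i2, i3] at this
  exact this

theorem ti' {S' B' : Subgroup G} (h : St S A B) (h' : St S' A B') {z : G} (hz : z ∈ A ⊓ B)
    (hz' : z ∈ B') (hz1 : z ≠ 1) : A ⊓ B' ≤ B := by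
  intro w hw
  by_contra hwB
  obtain ⟨b, hb, e⟩ := h.onto hw.1 hwB hz
  have hbz : b * z = z * b := h.commB hb hz.2
  have hbw : b * w * b⁻¹ = w * z := by
    rw [← e, ← mul_assoc, ← mul_assoc, ← mul_assoc, h.sqA w hw.1, h.invA hw.1]; group
  have hn : b ∈ normalizer ((A ⊓ B' : Subgroup G) : Set G) := nm_of fun y hy => by
    rcases h'.exhZ ⟨hz.1, hz'⟩ hw hy hz1 (fun e => hwB (e ▸ B.one_mem)) (fun e => hwB (e ▸ hz.2))
      with rfl | rfl | rfl | rfl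
    · simp
    · rw [hbz]; simpa using hy
    · rw [hbw]; exact mul_mem hy ⟨hz.1, hz'⟩
    · have : b * (z * w) * b⁻¹ = z * (b * w * b⁻¹) := by rw [← mul_assoc, hbz]; group
      rw [this, hbw]; exact mul_mem ⟨hz.1, hz'⟩ (mul_mem hw ⟨hz.1, hz'⟩)
  obtain ⟨k, hk, hx⟩ := h'.sylconj _ (fun s hs => h'.nZ (le_normalizer hs)) _ ((zpowers_le).2 hn)
    (pg_two (h.sqB b hb))
  have h3 := h'.cenZ (hx b (mem_zpowers b)) (nm hk hw)
  have h4 : b * w = w * b := by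
    have : k * (b * w) * k⁻¹ = k * (w * b) * k⁻¹ := by
      calc k * (b * w) * k⁻¹ = k * b * k⁻¹ * (k * w * k⁻¹) := by group
        _ = _ := by rw [h3]; group
    simpa using this
  rw [h4] at hbw
  exact hz1 (by simpa using hbw.symm)

theorem map_eq {g : G} (hg : g ∈ normalizer (A : Set G)) :
    A.map (MulAut.conj g).toMonoidHom = A := by
  ext x
  constructor
  · rintro ⟨a, ha, rfl⟩; exact nm hg ha
  · intro hx
    exact ⟨g⁻¹ * x * g⁻¹⁻¹, nm (inv_mem hg) hx, by simp [mul_assoc]⟩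

theorem ti (h : St S A B) {g z : G} (hg : g ∈ normalizer (A : Set G)) (hz : z ∈ A ⊓ B) (hz1 : z ≠ 1)
    (hgz : g * z * g⁻¹ ∈ A ⊓ B) : g ∈ normalizer ((A ⊓ B : Subgroup G) : Set G) := by
  have h' := h.conj g
  rw [map_eq hg] at h'
  have := h.ti' h' hgz ⟨z, hz.2, rfl⟩ (by simpa using hz1)
  exact nm_of fun y hy => ⟨nm hg hy.1, this ⟨nm hg hy.1, ⟨y, hy.2, rfl⟩⟩⟩

theorem chain (h : St S A B) {R : Subgroup G} (hZR : A ⊓ B ≤ R) (hRS : R ≤ S) {g : G}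
    (hg : g ∈ normalizer (R : Set G)) (hgZ : g ∈ normalizer ((A ⊓ B : Subgroup G) : Set G)) :
    ∃ n ∈ normalizer (S : Set G), ∃ c ∈ centralizer (R : Set G), g = n * c := by
  let D : Subgroup G :=
    { carrier := {x | x ∈ normalizer (R : Set G) ∧ x ∈ centralizer ((A ⊓ B : Subgroup G) : Set G) ∧
        ∀ r ∈ R, x * r * x⁻¹ * r⁻¹ ∈ A ⊓ B}
      one_mem' := ⟨one_mem _, one_mem _, fun r _ => by simp⟩
      mul_mem' := by
        rintro x y ⟨x1, x2, x3⟩ ⟨y1, y2, y3⟩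
        refine ⟨mul_mem x1 y1, mul_mem x2 y2, fun r hr => ?_⟩
        have e := x2 _ (y3 r hr)
        have : x * y * r * (x * y)⁻¹ * r⁻¹ = (y * r * y⁻¹ * r⁻¹) * (x * r * x⁻¹ * r⁻¹) := by
          calc x * y * r * (x * y)⁻¹ * r⁻¹ = (x * (y * r * y⁻¹ * r⁻¹)) * (r * x⁻¹ * r⁻¹) := by group
            _ = _ := by rw [← e]; group
        rw [this]; exact mul_mem (y3 r hr) (x3 r hr)
      inv_mem' := by
        rintro x ⟨x1, x2, x3⟩
        refine ⟨inv_mem x1, inv_mem x2, fun r hr => ?_⟩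
        have e := x2 _ (inv_mem (x3 r hr))
        have : x⁻¹ * r * x⁻¹⁻¹ * r⁻¹ = (x * r * x⁻¹ * r⁻¹)⁻¹ := by
          calc x⁻¹ * r * x⁻¹⁻¹ * r⁻¹ = x⁻¹ * ((x * r * x⁻¹ * r⁻¹)⁻¹ * x) := by group
            _ = _ := by rw [e]; group
        rw [this]; exact inv_mem (x3 r hr) }
  have hSR : S ≤ normalizer (R : Set G) := fun s hs => nm_of fun r hr => by
    have := mul_mem (hZR (h.comS hs (hRS hr))) hr
    simpa using this
  have hSD : S ≤ D := fun s hs =>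
    ⟨hSR hs, fun z hz => (h.cenZ hs hz).symm, fun r hr => h.comS hs (hRS hr)⟩
  have hsq : ∀ x ∈ D, x * x ∈ centralizer (R : Set G) := by
    rintro x ⟨x1, x2, x3⟩ r hr
    have h1 := x3 r hr
    have e := x2 _ h1
    have e2 := h.sqA _ h1.1
    set z := x * r * x⁻¹ * r⁻¹ with hz
    have e3 : x * r = z * r * x := by rw [hz]; group
    calc r * (x * x) = z * z * r * (x * x) := by rw [e2, one_mul]
      _ = z * (z * r * x) * x := by group
      _ = z * x * (r * x) := by rw [← e3]; group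
      _ = x * (z * r * x) := by rw [e]; group
      _ = _ := by rw [← e3]; group
  have hD : ∀ x ∈ D, ∃ s ∈ S, ∃ c ∈ centralizer (R : Set G), x = s * c := by
    intro x hx
    obtain ⟨ρ, hρ, t, ht, ho, hp, e⟩ := decomp x
    have hρD : ρ ∈ D := (zpowers_le).2 hx hρ
    have htD : t ∈ D := (zpowers_le).2 hx ht
    obtain ⟨k, hk, hkx⟩ := h.sylconj D hSD _ ((zpowers_le).2 htD) hp
    have hs := hkx t (mem_zpowers t)
    set s := k * t * k⁻¹ with hsd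
    have hsD := hSD hs
    refine ⟨s, hs, (s⁻¹ * ρ * s⁻¹⁻¹) * ((s⁻¹ * s⁻¹) * ((s * k⁻¹) * (s * k⁻¹)) * (k * k)), ?_, ?_⟩
    · exact mul_mem (cj_cen (inv_mem (hSR hs)) (mem_of_sq _ ho (hsq ρ hρD)))
        (mul_mem (mul_mem (hsq _ (inv_mem hsD)) (hsq _ (mul_mem hsD (inv_mem hk)))) (hsq k hk))
    · rw [e, hsd]; group
  have hgS : S.map (MulAut.conj g).toMonoidHom ≤ D := by
    rintro _ ⟨s, hs, rfl⟩
    obtain ⟨s1, s2, s3⟩ := hSD hs
    refine ⟨mul_mem (mul_mem hg s1) (inv_mem hg), cj_cen hgZ s2, fun r hr => ?_⟩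
    have := nm hgZ (s3 _ (nm (inv_mem hg) hr))
    simpa [mul_assoc] using this
  obtain ⟨d, hd, hx⟩ := h.sylconj D hSD _ hgS (h.conj g).pS
  have hk : d * g ∈ normalizer (S : Set G) := nm_of fun s hs => by
    have := hx _ ⟨s, hs, rfl⟩
    simpa [mul_assoc] using this
  obtain ⟨s, hs, c, hc, e⟩ := hD d⁻¹ (inv_mem hd)
  have hR : d * g ∈ normalizer (R : Set G) := mul_mem hd.1 hg
  refine ⟨s * (d * g), mul_mem (le_normalizer hs) hk, (d * g)⁻¹ * c * (d * g)⁻¹⁻¹,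
    cj_cen (inv_mem hR) hc, ?_⟩
  calc g = d⁻¹ * (d * g) := by group
    _ = _ := by rw [e]; group

omit [Finite G] in
theorem com_shift (h : St S A B) {a b z z' : G} (ha : a ∈ A) (hb : b ∈ B) (hz : z ∈ A ⊓ B)
    (hz' : z' ∈ A ⊓ B) : (z * a) * (z' * b) * (z * a)⁻¹ * (z' * b)⁻¹ = a * b * a⁻¹ * b⁻¹ := by
  have e1 := h.cenZ (mul_mem (mul_mem (h.leA ha) (mul_mem (h.leZ hz') (h.leB hb)))
    (inv_mem (h.leA ha))) hz
  have e2 := h.cenZ (h.leA ha) hz'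
  have e3 := h.cenZ (mul_mem (mul_mem (mul_mem (h.leA ha) (h.leB hb)) (inv_mem (h.leA ha)))
    (inv_mem (h.leB hb))) hz'
  calc (z * a) * (z' * b) * (z * a)⁻¹ * (z' * b)⁻¹
      = (z * (a * (z' * b) * a⁻¹)) * z⁻¹ * (z' * b)⁻¹ := by group
    _ = (a * z') * b * a⁻¹ * (z' * b)⁻¹ := by rw [← e1]; group
    _ = (z' * (a * b * a⁻¹ * b⁻¹)) * z'⁻¹ := by rw [e2]; group
    _ = _ := by rw [← e3]; group

theorem triAB (h : St S A B) {ρ : G} (hρ : ρ ∈ normalizer (S : Set G)) (ho : Odd (orderOf ρ))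
    (hA : ∀ a ∈ A, ρ * a * ρ⁻¹ * a⁻¹ ∈ B) (hB : ∀ b ∈ B, ρ * b * ρ⁻¹ * b⁻¹ ∈ A) :
    ∀ s ∈ S, ρ * s = s * ρ := by
  have hA' : ∀ a ∈ A, ρ * a * ρ⁻¹ * a⁻¹ ∈ A ⊓ B := fun a ha =>
    ⟨A.mul_mem (nm (h.nA hρ) ha) (A.inv_mem ha), hA a ha⟩
  have hB' : ∀ a ∈ B, ρ * a * ρ⁻¹ * a⁻¹ ∈ A ⊓ B := fun a ha =>
    ⟨hB a ha, B.mul_mem (nm (h.nB hρ) ha) (B.inv_mem ha)⟩
  have hZ : ∀ z ∈ A ⊓ B, ρ * z * ρ⁻¹ = z := fun z hz => by
    obtain ⟨a, ha, haB⟩ := h.exA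
    obtain ⟨b, hb, rfl⟩ := h.onto ha haB hz
    have := h.com_shift ha hb (hA' a ha) (hB' b hb)
    conv_rhs => rw [← this]
    group
  have h1 : ∀ r ∈ S, ρ * r * ρ⁻¹ * r⁻¹ ∈ A ⊓ B → ρ * r = r * ρ := fun r hr h1 => by
    have : ρ * ρ ∈ centralizer ({r} : Set G) := by
      rw [mem_centralizer_singleton_iff]
      have e := hZ _ h1
      have e2 := h.sqA _ h1.1
      set z := ρ * r * ρ⁻¹ * r⁻¹ with hz
      have e3 : ρ * r = z * r * ρ := by rw [hz]; group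
      calc ρ * ρ * r = ρ * (z * r * ρ) := by rw [← e3]; group
        _ = (ρ * z * ρ⁻¹) * (ρ * r) * ρ := by group
        _ = (z * z) * r * (ρ * ρ) := by rw [e, e3]; group
        _ = _ := by rw [e2, one_mul]
    exact mem_centralizer_singleton_iff.1 (mem_of_sq _ ho this)
  intro s hs
  obtain ⟨a, ha, b, hb, rfl⟩ := h.mem_iff.1 hs
  rw [← mul_assoc, h1 a (h.leA ha) (hA' a ha), mul_assoc, h1 b (h.leB hb) (hB' b hb), mul_assoc]

theorem triAZ (h : St S A B) {ρ : G} (hρ : ρ ∈ normalizer (S : Set G)) (ho : Odd (orderOf ρ))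
    (hA : ∀ a ∈ A, ρ * a * ρ⁻¹ * a⁻¹ ∈ B) (hZ : ∀ z ∈ A ⊓ B, ρ * z = z * ρ) :
    ∀ s ∈ S, ρ * s = s * ρ := by
  refine h.triAB hρ ho hA fun b hb => ?_
  obtain ⟨a, ha, haB⟩ := h.exA
  have hb' := nm (h.nB hρ) hb
  set b' := ρ * b * ρ⁻¹ with hbd
  have e1 := hZ _ (h.com a ha b hb)
  have e2 := h.com_shift ha hb' ⟨A.mul_mem (nm (h.nA hρ) ha) (A.inv_mem ha), hA a ha⟩ (one_mem _)
  have e3 : a * b' * a⁻¹ * b'⁻¹ = a * b * a⁻¹ * b⁻¹ := by
    rw [← e2, hbd]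
    calc _ = ρ * (a * b * a⁻¹ * b⁻¹) * ρ⁻¹ := by group
      _ = _ := by rw [e1]; group
  have e4 : (b'⁻¹ * b) * a = a * (b'⁻¹ * b) := by
    have : b' * a⁻¹ * b'⁻¹ = b * a⁻¹ * b⁻¹ := by
      have := congrArg (fun x => a⁻¹ * x) e3
      simpa [mul_assoc] using this
    rw [h.invA ha] at this
    calc (b'⁻¹ * b) * a = b'⁻¹ * (b * a * b⁻¹) * b := by group
      _ = _ := by rw [← this]; group
  have := h.cenA ha haB (h.leB (mul_mem (inv_mem hb') hb)) e4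
  rwa [h.invB hb', ← h.invB hb] at this

theorem fourA (h : St S A B) {ρ : G} (hρ : ρ ∈ normalizer (S : Set G)) (ho : Odd (orderOf ρ))
    {a : G} (ha : a ∈ A) (haB : a ∉ B) (e : ρ * a * ρ⁻¹ * a⁻¹ ∈ B) :
    ∀ a ∈ A, ρ * a * ρ⁻¹ * a⁻¹ ∈ B := by
  intro a' ha'
  have nA := h.nA hρ
  have nB := h.nB hρ
  let D : Subgroup G :=
    { carrier := {x | x ∈ normalizer (B : Set G) ∧ x * a' * x⁻¹ * a'⁻¹ ∈ B}
      one_mem' := ⟨one_mem _, by simp⟩
      mul_mem' := by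
        rintro x y ⟨x1, x3⟩ ⟨y1, y3⟩
        refine ⟨mul_mem x1 y1, ?_⟩
        have := mul_mem (nm x1 y3) x3
        simpa [mul_assoc] using this
      inv_mem' := by
        rintro x ⟨x1, x3⟩
        refine ⟨inv_mem x1, ?_⟩
        have := nm (inv_mem x1) (inv_mem x3)
        simpa [mul_assoc] using this }
  suffices ρ * ρ ∈ D from (mem_of_sq D ho this).2
  refine ⟨mul_mem nB nB, ?_⟩
  by_cases h2 : a' ∈ B
  · exact mul_mem (nm (mul_mem nB nB) h2) (inv_mem h2)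
  have c1 := nm nA ha
  have c2 := nm nA ha'
  by_cases h3 : a * a' ∈ B
  · have h4 : ρ * a' * ρ⁻¹ * a'⁻¹ ∈ B := by
      have := mul_mem (mul_mem (nm nB h3) e) h3
      have e5 : ρ * (a * a') * ρ⁻¹ * (ρ * a * ρ⁻¹ * a⁻¹) * (a * a') = ρ * a' * ρ⁻¹ * a'⁻¹ := by
        rw [h.invA ha', h.commA ha ha']
        calc _ = ρ * a' * (a * a) * ρ⁻¹ * (a⁻¹ * a') * a := by group
          _ = ρ * a' * ρ⁻¹ * (a' * a⁻¹) * a := by
            rw [h.sqA a ha, h.commA (inv_mem ha) ha']; group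
          _ = _ := by group
      rwa [e5] at this
    exact (D.mul_mem ⟨nB, h4⟩ ⟨nB, h4⟩).2
  rcases h.cosA ha ha' c2 haB h2 h3 with h4 | h4 | h4 | h4
  · exact absurd (nm' nB h4) h2
  · exfalso
    apply h3
    apply nm' nB
    have := mul_mem e h4
    simpa [mul_assoc] using this
  · have h5 : ρ * a' * ρ⁻¹ * a'⁻¹ ∈ B := by
      rw [h.invA ha', ← h.commA ha' c2]; exact h4
    exact (D.mul_mem ⟨nB, h5⟩ ⟨nB, h5⟩).2
  · have h5 := mul_mem (mul_mem e (nm nB h4)) h4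
    have c3 := nm nA c2
    set u := ρ * a * ρ⁻¹
    set v := ρ * a' * ρ⁻¹
    have e6 : ρ * (a * a' * v) * ρ⁻¹ = u * v * (ρ * v * ρ⁻¹) := by simp only [u, v]; group
    have e7 : ρ * ρ * a' * (ρ * ρ)⁻¹ = ρ * v * ρ⁻¹ := by simp only [v]; group
    rw [e6] at h5
    rw [e7]
    set w := ρ * v * ρ⁻¹
    have : u * a⁻¹ * (u * v * w) * (a * a' * v) = w * a'⁻¹ := by
      rw [h.invA ha, h.invA ha']
      have q1 := h.commA c1 ha
      have q2 := h.commA (mul_mem c2 c3) ha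
      have q3 := h.commA c2 (mul_mem c3 ha')
      calc u * a * (u * v * w) * (a * a' * v) = a * (u * u) * ((v * w) * a) * a' * v := by
            rw [q1]; group
        _ = (a * a) * (v * (w * a')) * v := by rw [h.sqA u c1, q2]; group
        _ = w * a' * (v * v) := by rw [h.sqA a ha, q3]; group
        _ = _ := by rw [h.sqA v c2, mul_one]
    rwa [this] at h5

theorem fourZ (h : St S A B) {ρ : G} (hρ : ρ ∈ normalizer ((A ⊓ B : Subgroup G) : Set G))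
    (ho : Odd (orderOf ρ)) {z : G} (hz : z ∈ A ⊓ B) (hz1 : z ≠ 1) (e : ρ * z = z * ρ) :
    ∀ z ∈ A ⊓ B, ρ * z = z * ρ := by
  intro w hw
  suffices ρ * ρ ∈ centralizer ({w} : Set G) from
    mem_centralizer_singleton_iff.1 (mem_of_sq _ ho this)
  rw [mem_centralizer_singleton_iff]
  by_cases hw1 : w = 1
  · simp [hw1]
  by_cases hzw : z = w
  · rw [← hzw, mul_assoc, e, ← mul_assoc, e, mul_assoc]
  have e' : ρ * z * ρ⁻¹ = z := by rw [e]; group
  rcases h.exhZ hz hw (nm hρ hw) hz1 hw1 hzw with h4 | h4 | h4 | h4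
  · exact absurd (by simpa using h4) hw1
  · exact absurd (by rw [← e'] at h4; simpa using h4.symm) hzw
  · have : ρ * w = w * ρ := by
      calc ρ * w = (ρ * w * ρ⁻¹) * ρ := by group
        _ = _ := by rw [h4]
    rw [mul_assoc, this, ← mul_assoc, this, mul_assoc]
  · calc ρ * ρ * w = ρ * (ρ * w * ρ⁻¹) * ρ := by group
      _ = ρ * (z * w) * ρ := by rw [h4]
      _ = (ρ * z * ρ⁻¹) * (ρ * w * ρ⁻¹) * (ρ * ρ) := by group
      _ = (z * z) * w * (ρ * ρ) := by rw [e', h4]; group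
      _ = _ := by rw [h.sqA z hz.1, one_mul]

end St
end Cfsg.Agent.H26.Lf
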