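import Mathlib

/-! Matrix units, Skolem-Noether for full matrix algebras, Kronecker normalisers. -/

set_option autoImplicit false

namespace Cfsg.Agent.H26

open Matrix
open scoped Kronecker

variable {ι κ β : Type} [Fintype ι] [DecidableEq ι] [Fintype κ] [DecidableEq κ]
  [Fintype β] [DecidableEq β] {F : Type*} [Field F]

/-- An algebra map from a full matrix algebra into a full matrix algebra is `x ↦ P (x ⊗ 1) P⁻¹`. -/
theorem exists_conj_kronecker' [Nonempty κ] (φ : Matrix κ κ F →ₐ[F] Matrix ι ι F) :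
    ∃ b : ℕ, Fintype.card ι = Fintype.card κ * b ∧ ∀ e : ι ≃ κ × Fin b, ∃ P : GL ι F, ∀ x,
      φ x = (P : Matrix ι ι F) * (x ⊗ₖ (1 : Matrix (Fin b) (Fin b) F)).submatrix e e *
        ((P⁻¹ : GL ι F) : Matrix ι ι F) := by
  classical
  obtain ⟨k₀⟩ := ‹Nonempty κ›
  let W : Submodule F (ι → F) := LinearMap.range (Matrix.toLin' (φ (single k₀ k₀ 1)))
  let b := Module.finrank F W
  let w : Module.Basis (Fin b) F W := Module.finBasis F W
  let u : κ × Fin b → (ι → F) := fun p => φ (single p.1 k₀ 1) *ᵥ (w p.2 : ι → F)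
  have hW : ∀ v ∈ W, φ (single k₀ k₀ 1) *ᵥ v = v := by
    rintro _ ⟨v, rfl⟩
    simp [Matrix.mulVec_mulVec, ← map_mul]
  have hu : ∀ (x : Matrix κ κ F) (k : κ) (j : Fin b), φ x *ᵥ u (k, j) = ∑ l, x l k • u (l, j) := by
    intro x k j
    have : x * single k k₀ (1 : F) = ∑ l, x l k • single l k₀ (1 : F) := by
      ext a c
      simp only [Matrix.sum_apply, Matrix.smul_apply, smul_eq_mul, Matrix.mul_apply, Matrix.single,
        Matrix.of_apply]
      by_cases hc : k₀ = c <;> simp [hc]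
    simp only [u, Matrix.mulVec_mulVec, ← map_mul, this, map_sum, map_smul, Matrix.sum_mulVec,
      Matrix.smul_mulVec]
  have hli : LinearIndependent F u := by
    rw [Fintype.linearIndependent_iff]
    intro c hc ⟨l, j⟩
    have h1 : φ (single k₀ l 1) *ᵥ (∑ p, c p • u p) = 0 := by rw [hc, Matrix.mulVec_zero]
    rw [Matrix.mulVec_sum, Fintype.sum_prod_type_right] at h1
    have h2 : ∀ j' : Fin b, ∑ k, φ (single k₀ l 1) *ᵥ (c (k, j') • u (k, j')) =
        c (l, j') • (w j' : ι → F) := by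
      intro j'
      rw [Finset.sum_eq_single l]
      · rw [Matrix.mulVec_smul]
        simp only [u, Matrix.mulVec_mulVec, ← map_mul, Matrix.single_mul_single_same, one_mul]
        rw [hW _ (w j').2]
      · intro k _ hk
        rw [Matrix.mulVec_smul]
        simp only [u, Matrix.mulVec_mulVec, ← map_mul]
        rw [Matrix.single_mul_single_of_ne _ _ _ _ hk.symm]
        simp
      · simp
    simp only [h2] at h1
    have h3 : ∑ j', c (l, j') • w j' = 0 := by
      apply Subtype.ext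
      simpa using h1
    exact Fintype.linearIndependent_iff.1 w.linearIndependent (fun j' => c (l, j')) h3 j
  have hsp : ⊤ ≤ Submodule.span F (Set.range u) := by
    intro v _
    have h1 : v = ∑ k, φ (single k k₀ 1) *ᵥ (φ (single k₀ k 1) *ᵥ v) := by
      simp only [Matrix.mulVec_mulVec, ← map_mul, Matrix.single_mul_single_same, one_mul]
      rw [← Matrix.sum_mulVec, ← map_sum, Matrix.sum_single_one, map_one, Matrix.one_mulVec]
    rw [h1]
    refine Submodule.sum_mem _ fun k _ => ?_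
    have hm : φ (single k₀ k 1) *ᵥ v ∈ W := ⟨φ (single k₀ k 1) *ᵥ v, by
      simp [Matrix.mulVec_mulVec, ← map_mul]⟩
    have h2 : φ (single k₀ k 1) *ᵥ v = ∑ j, w.repr ⟨_, hm⟩ j • (w j : ι → F) := by
      have := congrArg Subtype.val (w.sum_repr ⟨_, hm⟩)
      rw [Submodule.coe_sum] at this
      exact this.symm
    rw [h2, Matrix.mulVec_sum]
    refine Submodule.sum_mem _ fun j _ => ?_
    rw [Matrix.mulVec_smul]
    exact Submodule.smul_mem _ _ (Submodule.subset_span ⟨(k, j), rfl⟩)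
  have hcard : Fintype.card ι = Fintype.card (κ × Fin b) := by
    have := Module.finrank_eq_card_basis (Module.Basis.mk hli hsp)
    simpa using this
  refine ⟨b, by simpa using hcard, fun e => ?_⟩
  let P : Matrix ι ι F := Matrix.of fun i i' => u (e i') i
  have hP : IsUnit P := by
    rw [← Matrix.linearIndependent_cols_iff_isUnit]
    exact hli.comp e e.injective
  refine ⟨hP.unit, fun x => ?_⟩
  have key : φ x * P = P * (x ⊗ₖ (1 : Matrix (Fin b) (Fin b) F)).submatrix e e := by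
    ext i i'
    have h1 := congrFun (hu x (e i').1 (e i').2) i
    have h2 : (φ x * P) i i' = (φ x *ᵥ u (e i')) i := by
      simp [Matrix.mul_apply, Matrix.mulVec, dotProduct, P]
    rw [h2, h1, Matrix.mul_apply, ← e.symm.sum_comp, Fintype.sum_prod_type]
    simp [P, Matrix.one_apply, mul_comm]
  rw [IsUnit.unit_spec, ← key, mul_assoc, IsUnit.mul_val_inv, mul_one]

theorem exists_conj_kronecker [Nonempty κ] (φ : Matrix κ κ F →ₐ[F] Matrix ι ι F) :
    ∃ (b : ℕ) (e : ι ≃ κ × Fin b) (P : GL ι F), ∀ x,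
      φ x = (P : Matrix ι ι F) * (x ⊗ₖ (1 : Matrix (Fin b) (Fin b) F)).submatrix e e *
        ((P⁻¹ : GL ι F) : Matrix ι ι F) := by
  obtain ⟨b, hb, h⟩ := exists_conj_kronecker' φ
  let e : ι ≃ κ × Fin b := Fintype.equivOfCardEq (by simpa using hb)
  exact ⟨b, e, h e⟩

/-- Skolem-Noether: an algebra map between full matrix algebras of the same size is inner. -/
theorem exists_conj_submatrix_of_algHom [Nonempty κ] (φ : Matrix κ κ F →ₐ[F] Matrix ι ι F)
    (e : ι ≃ κ) :
    ∃ P : GL ι F, ∀ x, φ x = (P : Matrix ι ι F) * x.submatrix e e *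
      ((P⁻¹ : GL ι F) : Matrix ι ι F) := by
  obtain ⟨b, hb, h⟩ := exists_conj_kronecker' φ
  have hb1 : b = 1 := by
    rw [Fintype.card_congr e] at hb
    have : 0 < Fintype.card κ := Fintype.card_pos
    nlinarith
  subst hb1
  obtain ⟨P, hP⟩ := h (e.trans (Equiv.prodUnique κ (Fin 1)).symm)
  refine ⟨P, fun x => ?_⟩
  rw [hP]
  congr 2
  ext i j
  simp

/-- Skolem-Noether: an algebra endomorphism of a full matrix algebra is inner. -/
theorem exists_conj_of_algHom [Nonempty ι] (φ : Matrix ι ι F →ₐ[F] Matrix ι ι F) :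
    ∃ P : GL ι F, ∀ x, φ x = (P : Matrix ι ι F) * x * ((P⁻¹ : GL ι F) : Matrix ι ι F) := by
  simpa using exists_conj_submatrix_of_algHom φ (Equiv.refl ι)

/-- a matrix commuting with all matrices is scalar -/
theorem exists_eq_smul_one_of_comm (y : Matrix ι ι F) (h : ∀ x : Matrix ι ι F, x * y = y * x) :
    ∃ c : F, y = c • (1 : Matrix ι ι F) := by
  obtain ⟨c, hc⟩ := (Matrix.mem_range_scalar_iff_commute_single (M := y)).2 (fun i j _ => h _)
  exact ⟨c, by rw [← hc, Matrix.scalar_apply, Matrix.smul_one_eq_diagonal]⟩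

/-- a matrix commuting with all `x ⊗ 1` has the form `1 ⊗ z` -/
theorem exists_eq_one_kronecker [Nonempty κ] (y : Matrix (κ × β) (κ × β) F)
    (h : ∀ x : Matrix κ κ F, (x ⊗ₖ (1 : Matrix β β F)) * y = y * (x ⊗ₖ (1 : Matrix β β F))) :
    ∃ z : Matrix β β F, y = (1 : Matrix κ κ F) ⊗ₖ z := by
  obtain ⟨k₀⟩ := ‹Nonempty κ›
  refine ⟨Matrix.of fun i j => y (k₀, i) (k₀, j), ?_⟩
  ext ⟨a, i⟩ ⟨c, j⟩
  have h1 := congrFun (congrFun (h (single k₀ a 1)) (k₀, i)) (c, j)
  simp only [Matrix.mul_apply, Fintype.sum_prod_type, kroneckerMap_apply, Matrix.single,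
    Matrix.of_apply, Matrix.one_apply] at h1
  by_cases hac : a = c
  · subst hac
    simpa using h1
  · simpa [hac] using h1

/-- a matrix commuting with all `1 ⊗ z` has the form `x ⊗ 1` -/
theorem exists_eq_kronecker_one [Nonempty β] (y : Matrix (κ × β) (κ × β) F)
    (h : ∀ z : Matrix β β F, ((1 : Matrix κ κ F) ⊗ₖ z) * y = y * ((1 : Matrix κ κ F) ⊗ₖ z)) :
    ∃ x : Matrix κ κ F, y = x ⊗ₖ (1 : Matrix β β F) := by
  obtain ⟨k₀⟩ := ‹Nonempty β›
  refine ⟨Matrix.of fun i j => y (i, k₀) (j, k₀), ?_⟩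
  ext ⟨i, a⟩ ⟨j, c⟩
  have h1 := congrFun (congrFun (h (single k₀ a 1)) (i, k₀)) (j, c)
  simp only [Matrix.mul_apply, Fintype.sum_prod_type, kroneckerMap_apply, Matrix.single,
    Matrix.of_apply, Matrix.one_apply] at h1
  by_cases hac : a = c
  · subst hac
    simpa using h1
  · simpa [hac] using h1

theorem kronecker_one_injective [Nonempty β] {x y : Matrix κ κ F}
    (h : x ⊗ₖ (1 : Matrix β β F) = y ⊗ₖ (1 : Matrix β β F)) : x = y := by
  obtain ⟨k₀⟩ := ‹Nonempty β›
  ext i j
  simpa using congrFun (congrFun h (i, k₀)) (j, k₀)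

theorem one_kronecker_injective [Nonempty κ] {x y : Matrix β β F}
    (h : (1 : Matrix κ κ F) ⊗ₖ x = (1 : Matrix κ κ F) ⊗ₖ y) : x = y := by
  obtain ⟨k₀⟩ := ‹Nonempty κ›
  ext i j
  simpa using congrFun (congrFun h (k₀, i)) (k₀, j)

/-- An invertible matrix normalising `M ⊗ 1` is a Kronecker product. -/
theorem exists_eq_kronecker_of_normalizes [Nonempty κ] [Nonempty β] (g : GL (κ × β) F)
    (h : ∀ x : Matrix κ κ F, ∃ y : Matrix κ κ F,
      (g : Matrix (κ × β) (κ × β) F) * (x ⊗ₖ (1 : Matrix β β F)) *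
        ((g⁻¹ : GL (κ × β) F) : Matrix (κ × β) (κ × β) F) = y ⊗ₖ (1 : Matrix β β F)) :
    ∃ (a : GL κ F) (b : GL β F),
      (g : Matrix (κ × β) (κ × β) F) = (a : Matrix κ κ F) ⊗ₖ (b : Matrix β β F) := by
  choose θ hθ using h
  let φ : Matrix κ κ F →ₐ[F] Matrix κ κ F :=
    { toFun := θ
      map_one' := kronecker_one_injective (β := β) (by rw [← hθ]; simp)
      map_mul' := fun x y => kronecker_one_injective (β := β) (by
        have : (θ x * θ y) ⊗ₖ (1 : Matrix β β F) = (θ x ⊗ₖ (1 : Matrix β β F)) * (θ y ⊗ₖ 1) := by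
          rw [← Matrix.mul_kronecker_mul, one_mul]
        have h2 : (x * y) ⊗ₖ (1 : Matrix β β F) = (x ⊗ₖ (1 : Matrix β β F)) * (y ⊗ₖ 1) := by
          rw [← Matrix.mul_kronecker_mul, one_mul]
        rw [this, ← hθ, ← hθ, ← hθ, h2]
        simp [mul_assoc])
      map_zero' := kronecker_one_injective (β := β) (by rw [← hθ]; simp)
      map_add' := fun x y => kronecker_one_injective (β := β) (by
        rw [Matrix.add_kronecker, ← hθ, ← hθ, ← hθ, Matrix.add_kronecker, mul_add, add_mul])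
      commutes' := fun c => kronecker_one_injective (β := β) (by
        rw [← hθ, Algebra.algebraMap_eq_smul_one, Matrix.smul_kronecker]
        simp) }
  obtain ⟨a, ha⟩ := exists_conj_of_algHom φ
  have ha' : ∀ x, θ x = (a : Matrix κ κ F) * x * ((a⁻¹ : GL κ F) : Matrix κ κ F) := ha
  obtain ⟨z, hz⟩ := exists_eq_one_kronecker
    ((((a⁻¹ : GL κ F) : Matrix κ κ F) ⊗ₖ (1 : Matrix β β F)) * (g : Matrix (κ × β) (κ × β) F))
    (fun x => by
      have h1 := hθ x
      rw [Units.mul_inv_eq_iff_eq_mul, ha'] at h1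
      rw [mul_assoc, h1, ← mul_assoc, ← mul_assoc, ← Matrix.mul_kronecker_mul,
        ← Matrix.mul_kronecker_mul]
      simp [← mul_assoc])
  have hg : (g : Matrix (κ × β) (κ × β) F) = (a : Matrix κ κ F) ⊗ₖ z := by
    have : ((a : Matrix κ κ F) ⊗ₖ (1 : Matrix β β F)) *
        ((((a⁻¹ : GL κ F) : Matrix κ κ F) ⊗ₖ (1 : Matrix β β F)) * (g : Matrix (κ × β) (κ × β) F))
        = (g : Matrix (κ × β) (κ × β) F) := by
      rw [← mul_assoc, ← Matrix.mul_kronecker_mul]
      simp
    rw [← this, hz, ← Matrix.mul_kronecker_mul]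
    simp
  have hzu : IsUnit z := by
    rw [Matrix.isUnit_iff_isUnit_det, isUnit_iff_ne_zero]
    intro h0
    have h1 : (g : Matrix (κ × β) (κ × β) F).det ≠ 0 := (Matrix.isUnits_det_units g).ne_zero
    rw [hg, Matrix.det_kronecker, h0, zero_pow Fintype.card_ne_zero, mul_zero] at h1
    exact h1 rfl
  exact ⟨a, hzu.unit, by rw [hg, IsUnit.unit_spec]⟩

/-- uniqueness of Kronecker factors up to scalars -/
theorem exists_smul_of_kronecker_eq {a a' : Matrix κ κ F} {b b' : Matrix β β F}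
    (h : a ⊗ₖ b = a' ⊗ₖ b') (ha : a ≠ 0) (hb : b ≠ 0) :
    ∃ c : F, c ≠ 0 ∧ a' = c • a ∧ b = c • b' := by
  obtain ⟨i, j, hij⟩ : ∃ i j, a i j ≠ 0 := by
    by_contra! h0
    exact ha (Matrix.ext h0)
  obtain ⟨k, l, hkl⟩ : ∃ k l, b k l ≠ 0 := by
    by_contra! h0
    exact hb (Matrix.ext h0)
  have hh : ∀ i j k l, a i j * b k l = a' i j * b' k l := fun i j k l =>
    congrFun (congrFun h (i, k)) (j, l)
  have h0 := hh i j k l
  have h1 : a' i j ≠ 0 := fun h => by simp [h, hij, hkl] at h0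
  have h2 : b' k l ≠ 0 := fun h => by simp [h, hij, hkl] at h0
  refine ⟨a' i j / a i j, div_ne_zero h1 hij, ?_, ?_⟩
  · ext x y
    have h3 := hh x y k l
    simp only [Matrix.smul_apply, smul_eq_mul]
    field_simp
    apply mul_right_cancel₀ h2
    linear_combination (-(a i j)) * h3 + a x y * h0
  · ext x y
    have h3 := hh i j x y
    simp only [Matrix.smul_apply, smul_eq_mul]
    field_simp
    linear_combination h3

end Cfsg.Agent.H26
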