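import Mathlib
import Cfsg.Prelude.Def_GeometricClasses
import Cfsg.Agent.H26.MatUnits

/-! Stable subalgebras of matrix algebras over finite fields. -/

set_option autoImplicit false

namespace Cfsg.Agent.H26

open Matrix Cfsg.Geo
open scoped Kronecker

variable {ι : Type} [Fintype ι] [DecidableEq ι] {F : Type*} [Field F]

/-- conjugation by an invertible matrix -/
def cj (g : GL ι F) : Matrix ι ι F ≃ₐ[F] Matrix ι ι F where
  toFun x := (g : Matrix ι ι F) * x * ((g⁻¹ : GL ι F) : Matrix ι ι F)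
  invFun x := ((g⁻¹ : GL ι F) : Matrix ι ι F) * x * (g : Matrix ι ι F)
  left_inv x := by simp [← mul_assoc]
  right_inv x := by simp [← mul_assoc]
  map_mul' x y := by simp [mul_assoc]
  map_add' x y := by simp [mul_add, add_mul]
  commutes' c := by simp [Algebra.algebraMap_eq_smul_one]

theorem cj_apply (g : GL ι F) (x : Matrix ι ι F) :
    cj g x = (g : Matrix ι ι F) * x * ((g⁻¹ : GL ι F) : Matrix ι ι F) := rfl

theorem cj_mul (g h : GL ι F) (x : Matrix ι ι F) : cj (g * h) x = cj g (cj h x) := by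
  simp [cj_apply, mul_assoc]

@[simp] theorem cj_one (x : Matrix ι ι F) : cj (1 : GL ι F) x = x := by simp [cj_apply]

@[simp] theorem cj_inv_cj (g : GL ι F) (x : Matrix ι ι F) : cj g⁻¹ (cj g x) = x := by
  rw [← cj_mul]; simp

@[simp] theorem cj_cj_inv (g : GL ι F) (x : Matrix ι ι F) : cj g (cj g⁻¹ x) = x := by
  rw [← cj_mul]; simp

theorem cj_coe (g h : GL ι F) :
    cj g (h : Matrix ι ι F) = ((g * h * g⁻¹ : GL ι F) : Matrix ι ι F) := by
  simp [cj_apply]

theorem cj_mul_coe (g : GL ι F) (x : Matrix ι ι F) : cj g x * g = g * x := by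
  simp [cj_apply]

theorem cj_mulVec (g : GL ι F) (x : Matrix ι ι F) (v : ι → F) :
    cj g x *ᵥ ((g : Matrix ι ι F) *ᵥ v) = (g : Matrix ι ι F) *ᵥ (x *ᵥ v) := by
  rw [Matrix.mulVec_mulVec, cj_mul_coe, Matrix.mulVec_mulVec]

theorem trace_cj (g : GL ι F) (x : Matrix ι ι F) : (cj g x).trace = x.trace := by
  rw [cj_apply, Matrix.trace_mul_cycle]; simp

theorem cj_eq_self_iff (g : GL ι F) (x : Matrix ι ι F) : cj g x = x ↔ g * x = x * g := by
  rw [cj_apply, Units.mul_inv_eq_iff_eq_mul]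

@[simp] theorem inv_mulVec_mulVec (g : GL ι F) (v : ι → F) :
    ((g⁻¹ : GL ι F) : Matrix ι ι F) *ᵥ ((g : Matrix ι ι F) *ᵥ v) = v := by
  rw [Matrix.mulVec_mulVec]; simp

@[simp] theorem mulVec_inv_mulVec (g : GL ι F) (v : ι → F) :
    (g : Matrix ι ι F) *ᵥ (((g⁻¹ : GL ι F) : Matrix ι ι F) *ᵥ v) = v := by
  rw [Matrix.mulVec_mulVec]; simp

theorem eq_zero_of_mulVec_eq_zero' {x : Matrix ι ι F} (h : ∀ v, x *ᵥ v = 0) : x = 0 := by
  ext i j
  simpa using congrFun (h (Pi.single j 1)) i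

theorem matrix_ext_mulVec {x y : Matrix ι ι F} (h : ∀ v, x *ᵥ v = y *ᵥ v) : x = y := by
  ext i j
  simpa using congrFun (h (Pi.single j 1)) i

/-- the group acts irreducibly -/
def Irr (H : Subgroup (GL ι F)) : Prop :=
  ∀ W : Submodule F (ι → F), (∀ h ∈ H, ∀ v ∈ W, (h : Matrix ι ι F) *ᵥ v ∈ W) → W = ⊥ ∨ W = ⊤

/-- the subalgebra is stable under conjugation by the group -/
def Stable (H : Subgroup (GL ι F)) (A : Subalgebra F (Matrix ι ι F)) : Prop :=
  ∀ h ∈ H, ∀ x ∈ A, cj h x ∈ A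

/-- `H` normalises `N` -/
def Nrm (H N : Subgroup (GL ι F)) : Prop := ∀ h ∈ H, ∀ x ∈ N, h * x * h⁻¹ ∈ N

theorem irr_iff (H : Subgroup (GL ι F)) : Irr H ↔ ActsIrreducibly (matrixSet H) := by
  constructor
  · intro h W hW
    refine h W fun g hg v hv => hW _ ⟨g, hg, rfl⟩ ⟨v, hv, by simp⟩
  · intro h W hW
    refine h W ?_
    rintro _ ⟨g, hg, rfl⟩ _ ⟨v, hv, rfl⟩
    simpa using hW g hg v hv

theorem Irr.mono {H K : Subgroup (GL ι F)} (h : Irr H) (hle : H ≤ K) : Irr K :=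
  fun W hW => h W fun g hg => hW g (hle hg)

theorem Stable.mono {H K : Subgroup (GL ι F)} {A : Subalgebra F (Matrix ι ι F)} (h : Stable K A)
    (hle : H ≤ K) : Stable H A := fun g hg => h g (hle hg)

theorem Stable.le_normalizer {H : Subgroup (GL ι F)} {A : Subalgebra F (Matrix ι ι F)}
    (h : Stable H A) : H ≤ subalgebraNormalizer A := by
  intro g hg k
  constructor
  · exact h g hg k
  · intro hk
    have := h g⁻¹ (H.inv_mem hg) _ hk
    rwa [← cj_apply, cj_inv_cj] at this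

theorem stable_normalizer (A : Subalgebra F (Matrix ι ι F)) : Stable (subalgebraNormalizer A) A :=
  fun _ hg x hx => (hg x).1 hx

theorem Nrm.le_normalizer {H N : Subgroup (GL ι F)} (h : Nrm H N) : H ≤ subgroupNormalizer N := by
  intro g hg
  rw [subgroupNormalizer, Subgroup.mem_normalizer_iff]
  intro x
  constructor
  · exact h g hg x
  · intro hx
    simpa [mul_assoc] using h g⁻¹ (H.inv_mem hg) _ hx

/-- the span of a matrix group, as a subalgebra -/
def spanAlg (N : Subgroup (GL ι F)) : Subalgebra F (Matrix ι ι F) :=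
  (Submodule.span F (matrixSet N)).toSubalgebra (Submodule.subset_span ⟨1, N.one_mem, rfl⟩) (by
    intro x y hx hy
    refine Submodule.span_induction₂ (p := fun x y _ _ => x * y ∈ Submodule.span F (matrixSet N))
      ?_ ?_ ?_ ?_ ?_ ?_ ?_ hx hy
    · rintro _ _ ⟨a, ha, rfl⟩ ⟨b, hb, rfl⟩
      exact Submodule.subset_span ⟨a * b, N.mul_mem ha hb, rfl⟩
    · simp
    · simp
    · intro x y z _ _ _ h1 h2; rw [add_mul]; exact add_mem h1 h2
    · intro x y z _ _ _ h1 h2; rw [mul_add]; exact add_mem h1 h2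
    · intro c x y _ _ h; rw [smul_mul_assoc]; exact Submodule.smul_mem _ _ h
    · intro c x y _ _ h; rw [mul_smul_comm]; exact Submodule.smul_mem _ _ h)

theorem mem_spanAlg {N : Subgroup (GL ι F)} {x : Matrix ι ι F} :
    x ∈ spanAlg N ↔ x ∈ Submodule.span F (matrixSet N) := Iff.rfl

theorem coe_mem_spanAlg {N : Subgroup (GL ι F)} {g : GL ι F} (hg : g ∈ N) :
    (g : Matrix ι ι F) ∈ spanAlg N := Submodule.subset_span ⟨g, hg, rfl⟩

theorem spanAlg_induction {N : Subgroup (GL ι F)} {p : Matrix ι ι F → Prop}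
    (mem : ∀ g ∈ N, p (g : GL ι F)) (zero : p 0) (add : ∀ x y, p x → p y → p (x + y))
    (smul : ∀ (c : F) x, p x → p (c • x)) {x : Matrix ι ι F} (hx : x ∈ spanAlg N) : p x := by
  refine Submodule.span_induction (p := fun x _ => p x) ?_ zero (fun x y _ _ => add x y)
    (fun c x _ => smul c x) (mem_spanAlg.1 hx)
  rintro _ ⟨g, hg, rfl⟩
  exact mem g hg

theorem spanAlg_le {N : Subgroup (GL ι F)} {A : Subalgebra F (Matrix ι ι F)}
    (h : ∀ g ∈ N, (g : Matrix ι ι F) ∈ A) : spanAlg N ≤ A := fun _ hx =>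
  spanAlg_induction (p := fun x => x ∈ A) h A.zero_mem (fun _ _ => A.add_mem)
    (fun c _ hx => A.smul_mem hx c) hx

theorem spanAlg_mono {N M : Subgroup (GL ι F)} (h : N ≤ M) : spanAlg N ≤ spanAlg M :=
  spanAlg_le fun _ hg => coe_mem_spanAlg (h hg)

theorem Nrm.stable_spanAlg {H N : Subgroup (GL ι F)} (h : Nrm H N) : Stable H (spanAlg N) := by
  intro g hg x hx
  refine spanAlg_induction (p := fun x => cj g x ∈ spanAlg N) ?_ (by simp) ?_ ?_ hx
  · intro n hn
    rw [cj_coe]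
    exact coe_mem_spanAlg (h g hg n hn)
  · intro x y h1 h2; rw [map_add]; exact add_mem h1 h2
  · intro c x h1; rw [map_smul]; exact Subalgebra.smul_mem _ h1 c

theorem comm_of_mem_spanAlg {N : Subgroup (GL ι F)} {y : Matrix ι ι F}
    (h : ∀ g ∈ N, (g : Matrix ι ι F) * y = y * g) {x : Matrix ι ι F} (hx : x ∈ spanAlg N) :
    x * y = y * x :=
  spanAlg_induction (p := fun x => x * y = y * x) h (by simp)
    (fun a b h1 h2 => by rw [add_mul, mul_add, h1, h2])
    (fun c a h1 => by rw [smul_mul_assoc, mul_smul_comm, h1]) hx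

theorem scalar_of_comm {N : Subgroup (GL ι F)} (hN : spanAlg N = ⊤) {y : Matrix ι ι F}
    (h : ∀ g ∈ N, (g : Matrix ι ι F) * y = y * g) : ∃ c : F, y = c • (1 : Matrix ι ι F) :=
  exists_eq_smul_one_of_comm y fun x => comm_of_mem_spanAlg h (hN ▸ Algebra.mem_top)

theorem mem_scalars_of_eq_smul [Nonempty ι] {g : GL ι F} {c : F}
    (h : (g : Matrix ι ι F) = c • (1 : Matrix ι ι F)) : g ∈ scalars ι F := by
  rw [mem_scalars_iff]
  have hc : c ≠ 0 := by
    rintro rfl
    exact g.ne_zero (by simpa using h)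
  exact ⟨Units.mk0 c hc, h⟩

theorem mem_scalars_of_comm [Nonempty ι] {N : Subgroup (GL ι F)} (hN : spanAlg N = ⊤) {y : GL ι F}
    (h : ∀ g ∈ N, g * y = y * g) : y ∈ scalars ι F := by
  obtain ⟨c, hc⟩ := scalar_of_comm hN (y := y) fun g hg => by
    rw [← Units.val_mul, h g hg, Units.val_mul]
  exact mem_scalars_of_eq_smul hc

theorem comm_of_mem_scalars {z : GL ι F} (hz : z ∈ scalars ι F) (g : GL ι F) : z * g = g * z := by
  obtain ⟨c, hc⟩ := (mem_scalars_iff z).1 hz
  apply Units.ext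
  simp [hc]

theorem cj_of_mem_scalars {z : GL ι F} (hz : z ∈ scalars ι F) (x : Matrix ι ι F) : cj z x = x := by
  obtain ⟨c, hc⟩ := (mem_scalars_iff z).1 hz
  rw [cj_eq_self_iff, hc]
  simp

theorem invariant_of_all {W : Submodule F (ι → F)}
    (h : ∀ x : Matrix ι ι F, ∀ v ∈ W, x *ᵥ v ∈ W) : W = ⊥ ∨ W = ⊤ := by
  by_cases hW : W = ⊥
  · exact Or.inl hW
  right
  obtain ⟨v, hv, hv0⟩ := (Submodule.ne_bot_iff W).1 hW
  obtain ⟨i, hi⟩ : ∃ i, v i ≠ 0 := by
    by_contra! h0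
    exact hv0 (funext h0)
  rw [eq_top_iff]
  intro w _
  have : w = Matrix.of (fun a b => if b = i then w a / v i else 0) *ᵥ v := by
    ext a
    simp [Matrix.mulVec, dotProduct, hi]
  rw [this]
  exact h _ v hv

theorem irr_of_spanAlg_eq_top {N : Subgroup (GL ι F)} (hN : spanAlg N = ⊤) : Irr N := by
  intro W hW
  refine invariant_of_all fun x v hv => ?_
  refine spanAlg_induction (p := fun x => x *ᵥ v ∈ W) (fun g hg => hW g hg v hv) (by simp) ?_ ?_
    (hN ▸ Algebra.mem_top : x ∈ spanAlg N)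
  · intro a b h1 h2; rw [Matrix.add_mulVec]; exact add_mem h1 h2
  · intro c a h1; rw [Matrix.smul_mulVec]; exact W.smul_mem c h1

theorem absIrr_of_spanAlg_eq_top {N : Subgroup (GL ι F)} (hN : spanAlg N = ⊤) :
    ActsAbsolutelyIrreducibly (matrixSet N) :=
  ⟨(irr_iff N).1 (irr_of_spanAlg_eq_top hN), fun M hM =>
    scalar_of_comm hN fun g hg => (hM _ ⟨g, hg, rfl⟩).symm⟩

/-! ### semisimplicity -/

theorem isSemisimpleRing_of_jacobson {R : Type*} [Ring R] [Finite R] [Nonempty ι]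
    (ρ : R →+* Matrix ι ι F) (hρ : Function.Injective ρ)
    (h : ∀ W : Submodule F (ι → F), (∀ v, v ∈ W ↔ ∀ j ∈ Ring.jacobson R, ρ j *ᵥ v = 0) →
      W = ⊥ ∨ W = ⊤) : IsSemisimpleRing R := by
  classical
  rw [IsArtinianRing.isSemisimpleRing_iff_jacobson]
  let W : Submodule F (ι → F) :=
    { carrier := {v | ∀ j ∈ Ring.jacobson R, ρ j *ᵥ v = 0}
      add_mem' := fun ha hb j hj => by rw [Matrix.mulVec_add, ha j hj, hb j hj, add_zero]
      zero_mem' := fun j _ => Matrix.mulVec_zero _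
      smul_mem' := fun c v hv j hj => by rw [Matrix.mulVec_smul, hv j hj, smul_zero] }
  have hne : W ≠ ⊥ := by
    obtain ⟨i⟩ := ‹Nonempty ι›
    let O : (ι → F) → Set (ι → F) := fun v => Set.range fun a : R => ρ a *ᵥ v
    have hex : ∃ k, ∃ v : ι → F, v ≠ 0 ∧ (O v).ncard = k :=
      ⟨_, Pi.single i 1, by simp, rfl⟩
    obtain ⟨v, hv0, hv⟩ := Nat.find_spec hex
    rw [Submodule.ne_bot_iff]
    refine ⟨v, fun j hj => ?_, hv0⟩
    by_contra hjv
    have hle : O (ρ j *ᵥ v) ⊆ O v := by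
      rintro _ ⟨a, rfl⟩
      exact ⟨a * j, by simp [Matrix.mulVec_mulVec]⟩
    have hge : (O v).ncard ≤ (O (ρ j *ᵥ v)).ncard := by
      rw [hv]
      exact Nat.find_min' hex ⟨_, hjv, rfl⟩
    have heq : O (ρ j *ᵥ v) = O v := Set.eq_of_subset_of_ncard_le hle hge (Set.finite_range _)
    have hmem : v ∈ O (ρ j *ᵥ v) := by
      rw [heq]; exact ⟨1, by simp⟩
    obtain ⟨a, ha⟩ := hmem
    rw [← Ideal.jacobson_bot, Ideal.mem_jacobson_iff] at hj
    obtain ⟨z, hz⟩ := hj (-a)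
    have hz' : z * (-a) * j + z = 1 := by
      rw [Ideal.mem_bot, sub_eq_zero] at hz; exact hz
    apply hv0
    have : ρ (z * (-a) * j + z) *ᵥ v = 0 := by
      simp only [map_add, map_mul, map_neg, Matrix.add_mulVec, ← Matrix.mulVec_mulVec,
        Matrix.neg_mulVec, Matrix.mulVec_neg]
      dsimp only at ha
      rw [ha]; simp
    rwa [hz', map_one, Matrix.one_mulVec] at this
  have htop := (h W fun v => Iff.rfl).resolve_left hne
  rw [eq_bot_iff]
  intro j hj
  rw [Ideal.mem_bot]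
  apply hρ
  rw [map_zero]
  exact eq_zero_of_mulVec_eq_zero' fun v => (htop ▸ Submodule.mem_top : v ∈ W) j hj

/-- a finite semisimple algebra with centre the ground field is a full matrix algebra -/
theorem exists_algEquiv_matrix {K R : Type*} [Field K] [Ring R] [Algebra K R] [Finite R]
    [Nontrivial R] [IsSemisimpleRing R]
    (hc : ∀ z : R, (∀ a, a * z = z * a) → ∃ c : K, z = algebraMap K R c) :
    ∃ a : ℕ, 0 < a ∧ Nonempty (R ≃ₐ[K] Matrix (Fin a) (Fin a) K) := by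
  classical
  obtain ⟨n, D, d, _, _, hd, ⟨e⟩⟩ := IsSemisimpleRing.exists_algEquiv_pi_matrix_divisionRing K R
  have hc' : ∀ z : Π i, Matrix (Fin (d i)) (Fin (d i)) (D i), (∀ a, a * z = z * a) →
      ∃ c : K, z = algebraMap K _ c := by
    intro z hz
    obtain ⟨c, hc⟩ := hc (e.symm z) fun a => e.injective (by simp [hz])
    exact ⟨c, by rw [← e.apply_symm_apply z, hc, e.commutes]⟩
  have hn : Nonempty (Fin n) := by
    by_contra h0
    rw [not_nonempty_iff] at h0
    have : Subsingleton R := e.injective.subsingleton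
    exact not_subsingleton R this
  obtain ⟨i₀⟩ := hn
  have huniq : ∀ j, j = i₀ := by
    obtain ⟨c, hc⟩ := hc' (Pi.single i₀ 1) fun a => by
      ext1 j
      by_cases hj : j = i₀
      · subst hj; simp
      · simp [hj]
    have h1 := congrFun hc i₀
    simp only [Pi.single_eq_same, Pi.algebraMap_apply] at h1
    have hc1 : c = 1 := by
      apply (algebraMap K (Matrix (Fin (d i₀)) (Fin (d i₀)) (D i₀))).injective
      rw [← h1, map_one]
    intro j
    by_contra hj
    have h2 := congrFun hc j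
    simp [hj, hc1] at h2
  have hfin : Finite (D i₀) := by
    have : Finite (Π i, Matrix (Fin (d i)) (Fin (d i)) (D i)) := Finite.of_equiv R e.toEquiv
    refine Finite.of_injective
      (fun x : D i₀ => (Pi.single i₀ (Matrix.scalar _ x) : Π i, Matrix (Fin (d i)) (Fin (d i)) (D i)))
      fun x y hxy => ?_
    have := congrFun hxy i₀
    simp only [Pi.single_eq_same] at this
    exact Matrix.scalar_inj.1 this
  have hcomm : ∀ x y : D i₀, x * y = y * x := (Finite.isDomain_to_isField (D i₀)).mul_comm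
  have hbij : Function.Bijective (Algebra.ofId K (D i₀)) := by
    refine ⟨(algebraMap K (D i₀)).injective, fun x => ?_⟩
    obtain ⟨c, hc⟩ := hc' (Pi.single i₀ (Matrix.scalar _ x)) fun a => by
      ext1 j
      obtain rfl := huniq j
      simp only [Pi.mul_apply, Pi.single_eq_same]
      exact (Matrix.scalar_commute x (fun r => hcomm x r) _).symm
    have h1 := congrFun hc i₀
    simp only [Pi.single_eq_same, Pi.algebraMap_apply] at h1
    refine ⟨c, ?_⟩
    have h2 := congrFun (congrFun h1 0) 0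
    simp [Matrix.algebraMap_matrix_apply] at h2
    simp [Algebra.ofId_apply, h2]
  let π : (Π i, Matrix (Fin (d i)) (Fin (d i)) (D i)) ≃ₐ[K] Matrix (Fin (d i₀)) (Fin (d i₀)) (D i₀) :=
    AlgEquiv.ofBijective (Pi.evalAlgHom K _ i₀) ⟨fun x y hxy => by
      ext1 j
      obtain rfl := huniq j
      exact hxy, fun x => ⟨Pi.single i₀ x, by simp⟩⟩
  exact ⟨d i₀, Nat.pos_of_neZero _,
    ⟨(e.trans π).trans (AlgEquiv.ofBijective _ hbij).symm.mapMatrix⟩⟩

theorem mem_jacobson_map {R : Type*} [Ring R] (τ : R ≃+* R) {j : R} (hj : j ∈ Ring.jacobson R) :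
    τ j ∈ Ring.jacobson R := by
  rw [← Ideal.jacobson_bot, Ideal.mem_jacobson_iff] at hj ⊢
  intro y
  obtain ⟨z, hz⟩ := hj (τ.symm y)
  refine ⟨τ z, ?_⟩
  rw [Ideal.mem_bot] at hz ⊢
  simpa using congrArg τ hz

/-- conjugation restricted to a stable subalgebra -/
def Stable.restrict {H : Subgroup (GL ι F)} {A : Subalgebra F (Matrix ι ι F)} (hA : Stable H A)
    {h : GL ι F} (hh : h ∈ H) : A ≃+* A where
  toFun x := ⟨cj h x, hA h hh x x.2⟩
  invFun x := ⟨cj h⁻¹ x, hA _ (H.inv_mem hh) x x.2⟩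
  left_inv x := Subtype.ext (by simp)
  right_inv x := Subtype.ext (by simp)
  map_mul' x y := Subtype.ext (by simp)
  map_add' x y := Subtype.ext (by simp)

theorem Stable.isSemisimpleRing [Finite F] [Nonempty ι] {H : Subgroup (GL ι F)} (hH : Irr H)
    {A : Subalgebra F (Matrix ι ι F)} (hA : Stable H A) : IsSemisimpleRing A := by
  refine isSemisimpleRing_of_jacobson (A.val : A →+* Matrix ι ι F) Subtype.val_injective
    fun W hW => hH W fun h hh v hv => ?_
  rw [hW] at hv ⊢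
  intro j hj
  have := hv _ (mem_jacobson_map (hA.restrict (H.inv_mem hh)) hj)
  have h2 : (j : Matrix ι ι F) = cj h (cj h⁻¹ j) := by simp
  change (j : Matrix ι ι F) *ᵥ _ = 0
  rw [h2, cj_mulVec]
  change (h : Matrix ι ι F) *ᵥ (cj h⁻¹ (j : Matrix ι ι F) *ᵥ v) = 0
  change cj h⁻¹ (j : Matrix ι ι F) *ᵥ v = 0 at this
  rw [this, Matrix.mulVec_zero]

/-- A stable subalgebra with scalar centre is the image of a full matrix algebra. -/
theorem Stable.exists_algHom [Finite F] [Nonempty ι] {H : Subgroup (GL ι F)} (hH : Irr H)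
    {A : Subalgebra F (Matrix ι ι F)} (hA : Stable H A)
    (hc : ∀ z ∈ A, (∀ a ∈ A, a * z = z * a) → ∃ c : F, z = c • (1 : Matrix ι ι F)) :
    ∃ a : ℕ, 0 < a ∧ ∃ φ : Matrix (Fin a) (Fin a) F →ₐ[F] Matrix ι ι F, φ.range = A := by
  have := hA.isSemisimpleRing hH
  obtain ⟨a, ha, ⟨e⟩⟩ := exists_algEquiv_matrix (K := F) (R := A) fun z hz => by
    obtain ⟨c, hc⟩ := hc z z.2 fun a ha => congrArg Subtype.val (hz ⟨a, ha⟩)
    exact ⟨c, Subtype.ext (by rw [hc]; simp [Algebra.algebraMap_eq_smul_one])⟩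
  refine ⟨a, ha, A.val.comp e.symm, ?_⟩
  ext x
  constructor
  · rintro ⟨y, rfl⟩
    exact (e.symm y).2
  · intro hx
    exact ⟨e ⟨x, hx⟩, by simp⟩

/-- Burnside: an absolutely irreducible group spans the matrix algebra -/
theorem spanAlg_eq_top_of_absIrr [Finite F] [Nonempty ι] {N : Subgroup (GL ι F)}
    (h : ActsAbsolutelyIrreducibly (matrixSet N)) : spanAlg N = ⊤ := by
  have hirr : Irr N := (irr_iff N).2 h.1
  have hN : Nrm N N := fun a ha x hx => N.mul_mem (N.mul_mem ha hx) (N.inv_mem ha)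
  have hc : ∀ z : Matrix ι ι F, (∀ a ∈ spanAlg N, a * z = z * a) →
      ∃ c : F, z = c • (1 : Matrix ι ι F) := fun z hz => h.2 z (by
    rintro _ ⟨g, hg, rfl⟩
    exact (hz _ (coe_mem_spanAlg hg)).symm)
  obtain ⟨a, ha, φ, hφ⟩ := hN.stable_spanAlg.exists_algHom hirr fun z _ => hc z
  have : Nonempty (Fin a) := ⟨⟨0, ha⟩⟩
  obtain ⟨b, e, P, hP⟩ := exists_conj_kronecker φ
  have hb : ∀ j j' : Fin b, j = j' := by
    intro j j'
    by_contra hjj
    obtain ⟨c, hc⟩ := hc (cj P (((1 : Matrix (Fin a) (Fin a) F) ⊗ₖ single j j' (1 : F)).submatrix e e))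
      (by
        rw [← hφ]
        rintro _ ⟨x, rfl⟩
        change φ x * _ = _ * φ x
        rw [hP, ← cj_apply, ← map_mul, ← map_mul, Matrix.submatrix_mul_equiv,
          Matrix.submatrix_mul_equiv, ← Matrix.mul_kronecker_mul, ← Matrix.mul_kronecker_mul]
        simp)
    have h2 := congrArg (cj P⁻¹) hc
    rw [cj_inv_cj, map_smul, map_one] at h2
    have h3 := congrFun (congrFun h2 (e.symm (⟨0, ha⟩, j))) (e.symm (⟨0, ha⟩, j'))
    simp [hjj, Matrix.one_apply] at h3
  rw [← hφ, eq_top_iff]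
  intro x _
  obtain ⟨i⟩ := ‹Nonempty ι›
  let j₀ := (e i).2
  refine ⟨Matrix.of fun k l => cj P⁻¹ x (e.symm (k, j₀)) (e.symm (l, j₀)), ?_⟩
  change φ _ = x
  rw [hP, ← cj_apply]
  conv_rhs => rw [← cj_cj_inv P x]
  congr 1
  ext u v
  have h1 : ∀ u, e.symm ((e u).1, j₀) = u := fun u => by
    rw [hb j₀ (e u).2]; simp
  simp [h1, Matrix.one_apply, hb (e u).2 (e v).2]

end Cfsg.Agent.H26
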