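import Mathlib
import Cfsg.Agent.H26.Wedd

/-! Boolean systems of idempotents, decompositions, stable fields. -/

set_option autoImplicit false

namespace Cfsg.Agent.H26

open Matrix Cfsg.Geo

variable {ι : Type} [Fintype ι] [DecidableEq ι] {F : Type*} [Field F]

/-- a Boolean algebra of commuting idempotent matrices -/
structure IdemSys (S : Set (Matrix ι ι F)) : Prop where
  idem : ∀ x ∈ S, x * x = x
  comm : ∀ x ∈ S, ∀ y ∈ S, x * y = y * x
  mul_mem : ∀ x ∈ S, ∀ y ∈ S, x * y ∈ S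
  one_mem : (1 : Matrix ι ι F) ∈ S
  one_sub_mem : ∀ x ∈ S, 1 - x ∈ S

/-- minimal non-zero members -/
def IsAtomOf (S : Set (Matrix ι ι F)) (e : Matrix ι ι F) : Prop :=
  e ∈ S ∧ e ≠ 0 ∧ ∀ f ∈ S, f * e = f → f = 0 ∨ f = e

theorem IdemSys.atom_mul_atom {S : Set (Matrix ι ι F)} (hS : IdemSys S) {e f : Matrix ι ι F}
    (he : IsAtomOf S e) (hf : IsAtomOf S f) (hne : e ≠ f) : e * f = 0 := by
  by_contra h0
  have h1 := (he.2.2 (e * f) (hS.mul_mem _ he.1 _ hf.1) (by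
    rw [mul_assoc, hS.comm f hf.1 e he.1, ← mul_assoc, hS.idem e he.1])).resolve_left h0
  have h2 := (hf.2.2 (e * f) (hS.mul_mem _ he.1 _ hf.1) (by
    rw [mul_assoc, hS.idem f hf.1])).resolve_left h0
  exact hne (h1.symm.trans h2)

theorem IdemSys.exists_atom_le [Finite F] {S : Set (Matrix ι ι F)} (hS : IdemSys S)
    {x : Matrix ι ι F} (hx : x ∈ S) (hx0 : x ≠ 0) : ∃ e, IsAtomOf S e ∧ e * x = e := by
  classical
  let μ : Matrix ι ι F → ℕ := fun f => {g | g * f = g}.ncard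
  have hex : ∃ k, ∃ f ∈ S, f ≠ 0 ∧ f * x = f ∧ μ f = k := ⟨_, x, hx, hx0, hS.idem x hx, rfl⟩
  obtain ⟨e, he, he0, hex', hμ⟩ := Nat.find_spec hex
  refine ⟨e, ⟨he, he0, fun f hf hfe => ?_⟩, hex'⟩
  by_contra! hne
  have h1 : μ e ≤ μ f := by
    rw [hμ]
    exact Nat.find_min' hex ⟨f, hf, hne.1, by rw [← hfe, mul_assoc, hex'], rfl⟩
  have h2 : {g | g * f = g} ⊆ {g | g * e = g} := fun g hg => by
    simp only [Set.mem_ofPred_eq] at hg ⊢
    rw [← hg, mul_assoc, hfe]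
  have h3 := Set.eq_of_subset_of_ncard_le h2 h1 (Set.toFinite _)
  have h4 : e ∈ {g | g * f = g} := by rw [h3]; exact hS.idem e he
  simp only [Set.mem_ofPred_eq] at h4
  exact hne.2 (by rw [← hfe, hS.comm f hf e he, h4])

theorem IdemSys.exists_atoms [Finite F] {S : Set (Matrix ι ι F)} (hS : IdemSys S) :
    ∃ (t : ℕ) (ε : Fin t → Matrix ι ι F), (∀ x, IsAtomOf S x ↔ ∃ i, ε i = x) ∧
      (∀ i j, i ≠ j → ε i * ε j = 0) ∧ ∑ i, ε i = 1 := by
  classical
  let T : Set (Matrix ι ι F) := {e | IsAtomOf S e}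
  have : Fintype T := Fintype.ofFinite T
  let σ := Fintype.equivFin T
  let ε : Fin (Fintype.card T) → Matrix ι ι F := fun i => (σ.symm i : T)
  have h1 : ∀ x, IsAtomOf S x ↔ ∃ i, ε i = x := fun x =>
    ⟨fun hx => ⟨σ ⟨x, hx⟩, by simp [ε]⟩, fun ⟨i, hi⟩ => hi ▸ (σ.symm i).2⟩
  have hat : ∀ i, IsAtomOf S (ε i) := fun i => (h1 _).2 ⟨i, rfl⟩
  have h2 : ∀ i j, i ≠ j → ε i * ε j = 0 := fun i j hij =>
    hS.atom_mul_atom (hat i) (hat j) fun h => hij (σ.symm.injective (Subtype.ext h))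
  refine ⟨_, ε, h1, h2, ?_⟩
  have h3 : ∀ s : Finset (Fin (Fintype.card T)), 1 - ∑ i ∈ s, ε i ∈ S := by
    intro s
    induction s using Finset.induction_on with
    | empty => simpa using hS.one_mem
    | insert a s ha ih =>
      have := hS.mul_mem _ ih _ (hS.one_sub_mem _ (hat a).1)
      convert this using 1
      rw [Finset.sum_insert ha, mul_sub, mul_one, sub_mul, one_mul, Finset.sum_mul,
        Finset.sum_eq_zero fun i hi => h2 i a (fun h => ha (h ▸ hi))]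
      abel
  by_contra hne
  obtain ⟨e, he, hex⟩ := hS.exists_atom_le (h3 Finset.univ) (fun h => hne (sub_eq_zero.1 h).symm)
  obtain ⟨i, rfl⟩ := (h1 e).1 he
  rw [mul_sub, mul_one, Finset.mul_sum, Finset.sum_eq_single i (fun j _ hj => h2 i j hj.symm)
    (by simp), hS.idem _ he.1, sub_self] at hex
  exact he.2.1 hex.symm

theorem IsAtomOf.map {S : Set (Matrix ι ι F)} {e : Matrix ι ι F} (he : IsAtomOf S e)
    (τ : Matrix ι ι F ≃+* Matrix ι ι F) (h1 : ∀ x ∈ S, τ x ∈ S) (h2 : ∀ x ∈ S, τ.symm x ∈ S) :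
    IsAtomOf S (τ e) := by
  refine ⟨h1 e he.1, by simpa using he.2.1, fun f hf hfe => ?_⟩
  rcases he.2.2 (τ.symm f) (h2 f hf) (τ.injective (by simpa using hfe)) with h | h
  · left; simpa using h
  · right; rw [← h]; simp

/-- the column space of a matrix -/
def colSp (x : Matrix ι ι F) : Submodule F (ι → F) := LinearMap.range (Matrix.toLin' x)

theorem mem_colSp {x : Matrix ι ι F} {v : ι → F} : v ∈ colSp x ↔ ∃ w, x *ᵥ w = v := by
  simp [colSp]

theorem mulVec_mem_colSp (x : Matrix ι ι F) (w : ι → F) : x *ᵥ w ∈ colSp x := mem_colSp.2 ⟨w, rfl⟩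

theorem mem_colSp_of_idem {x : Matrix ι ι F} (hx : x * x = x) {v : ι → F} :
    v ∈ colSp x ↔ x *ᵥ v = v := by
  rw [mem_colSp]
  constructor
  · rintro ⟨w, rfl⟩
    rw [Matrix.mulVec_mulVec, hx]
  · exact fun h => ⟨v, h⟩

theorem colSp_eq_bot_iff {x : Matrix ι ι F} : colSp x = ⊥ ↔ x = 0 := by
  constructor
  · intro h
    exact eq_zero_of_mulVec_eq_zero' fun v => by
      have := mulVec_mem_colSp x v
      rwa [h, Submodule.mem_bot] at this
  · rintro rfl; simp [colSp]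

theorem map_colSp (g : GL ι F) (x : Matrix ι ι F) :
    (colSp x).map (Matrix.toLin' (g : Matrix ι ι F)) = colSp (cj g x) := by
  ext v
  simp only [Submodule.mem_map, mem_colSp, Matrix.toLin'_apply]
  constructor
  · rintro ⟨_, ⟨w, rfl⟩, rfl⟩
    exact ⟨_, cj_mulVec g x w⟩
  · rintro ⟨w, rfl⟩
    exact ⟨_, ⟨((g⁻¹ : GL ι F) : Matrix ι ι F) *ᵥ w, rfl⟩, by rw [← cj_mulVec]; simp⟩

theorem finrank_map_GL (g : GL ι F) (W : Submodule F (ι → F)) :
    Module.finrank F (W.map (Matrix.toLin' (g : Matrix ι ι F))) = Module.finrank F W := by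
  symm
  refine (Submodule.equivMapOfInjective _ ?_ W).finrank_eq
  intro u v huv
  simp only [Matrix.toLin'_apply] at huv
  rw [← inv_mulVec_mulVec g u, huv, inv_mulVec_mulVec]

/-- A complete orthogonal family of non-zero idempotents. -/
structure OrthIdems {t : ℕ} (ε : Fin t → Matrix ι ι F) : Prop where
  idem : ∀ i, ε i * ε i = ε i
  ne_zero : ∀ i, ε i ≠ 0
  orth : ∀ i j, i ≠ j → ε i * ε j = 0
  sum : ∑ i, ε i = 1

theorem OrthIdems.injective {t : ℕ} {ε : Fin t → Matrix ι ι F} (h : OrthIdems ε) :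
    Function.Injective ε := fun i j hij => by
  by_contra hne
  have := h.orth i j hne
  rw [← hij, h.idem] at this
  exact h.ne_zero i this

theorem OrthIdems.indep {t : ℕ} {ε : Fin t → Matrix ι ι F} (h : OrthIdems ε) :
    iSupIndep fun i => colSp (ε i) := by
  intro i
  rw [Submodule.disjoint_def]
  intro v hv hv'
  have : ∀ w ∈ ⨆ j, ⨆ (_ : j ≠ i), colSp (ε j), ε i *ᵥ w = 0 := by
    intro w hw
    have hle : (⨆ j, ⨆ (_ : j ≠ i), colSp (ε j)) ≤ LinearMap.ker (Matrix.toLin' (ε i)) := by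
      refine iSup₂_le fun j hj u hu => ?_
      obtain ⟨u, rfl⟩ := mem_colSp.1 hu
      simp [Matrix.mulVec_mulVec, h.orth i j hj.symm]
    simpa using hle hw
  rw [← (mem_colSp_of_idem (h.idem i)).1 hv, this v hv']

theorem OrthIdems.iSup_eq_top {t : ℕ} {ε : Fin t → Matrix ι ι F} (h : OrthIdems ε) :
    (⨆ i, colSp (ε i)) = ⊤ := by
  rw [eq_top_iff]
  intro v _
  have : v = ∑ i, ε i *ᵥ v := by rw [← Matrix.sum_mulVec, h.sum, Matrix.one_mulVec]
  rw [this]
  exact Submodule.sum_mem _ fun i _ => Submodule.mem_iSup_of_mem i (mulVec_mem_colSp _ _)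

theorem OrthIdems.exists_perm {t : ℕ} {ε : Fin t → Matrix ι ι F} (h : OrthIdems ε)
    (τ : Matrix ι ι F → Matrix ι ι F) (hτ : Function.Injective τ) (h1 : ∀ i, ∃ j, ε j = τ (ε i)) :
    ∃ σ : Equiv.Perm (Fin t), ∀ i, τ (ε i) = ε (σ i) := by
  choose s hs using h1
  have hinj : Function.Injective s := fun i j hij =>
    h.injective (hτ (by rw [← hs, ← hs, hij]))
  exact ⟨Equiv.ofBijective s (Finite.injective_iff_bijective.1 hinj), fun i => (hs i).symm⟩

theorem OrthIdems.le_decompositionStabilizer {t : ℕ} {ε : Fin t → Matrix ι ι F} (h : OrthIdems ε)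
    {H : Subgroup (GL ι F)} (h1 : ∀ g ∈ H, ∀ i, ∃ j, ε j = cj g (ε i)) :
    H ≤ decompositionStabilizer fun i => colSp (ε i) := by
  intro g hg
  obtain ⟨σ, hσ⟩ := h.exists_perm (cj g) (cj g).injective (h1 g hg)
  exact ⟨σ, fun i => by rw [map_colSp, hσ]⟩

theorem OrthIdems.transitive {t : ℕ} {ε : Fin t → Matrix ι ι F} (h : OrthIdems ε)
    {H : Subgroup (GL ι F)} (hH : Irr H) (h1 : ∀ g ∈ H, ∀ i, ∃ j, ε j = cj g (ε i)) (i j : Fin t) :
    ∃ g ∈ H, cj g (ε i) = ε j := by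
  by_contra! hne
  let W : Submodule F (ι → F) :=
    { carrier := {v | ∀ g ∈ H, cj g (ε j) *ᵥ v = 0}
      add_mem' := fun ha hb g hg => by rw [Matrix.mulVec_add, ha g hg, hb g hg, add_zero]
      zero_mem' := fun g _ => Matrix.mulVec_zero _
      smul_mem' := fun c v hv g hg => by rw [Matrix.mulVec_smul, hv g hg, smul_zero] }
  rcases hH W (fun g hg v hv k hk => by
    have := hv (g⁻¹ * k) (H.mul_mem (H.inv_mem hg) hk)
    rw [← cj_cj_inv g (cj k (ε j)), cj_mulVec, ← cj_mul, this, Matrix.mulVec_zero]) with hW | hW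
  · apply h.ne_zero i
    refine eq_zero_of_mulVec_eq_zero' fun v => ?_
    have : ε i *ᵥ v ∈ W := by
      intro g hg
      obtain ⟨k, hk⟩ := h1 g hg j
      have hki : k ≠ i := by
        rintro rfl
        exact hne g⁻¹ (H.inv_mem hg) (by rw [hk]; simp)
      rw [← hk, Matrix.mulVec_mulVec, h.orth k i hki, Matrix.zero_mulVec]
    rwa [hW, Submodule.mem_bot] at this
  · apply h.ne_zero j
    refine eq_zero_of_mulVec_eq_zero' fun v => ?_
    simpa using (hW ▸ Submodule.mem_top : v ∈ W) 1 H.one_mem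

theorem OrthIdems.isMDecomposition {t : ℕ} {ε : Fin t → Matrix ι ι F} (h : OrthIdems ε)
    (ht : 2 ≤ t) {H : Subgroup (GL ι F)} (hH : Irr H) (h1 : ∀ g ∈ H, ∀ i, ∃ j, ε j = cj g (ε i)) :
    ∃ m, IsMDecomposition m fun i => colSp (ε i) := by
  let i₀ : Fin t := ⟨0, by omega⟩
  refine ⟨Module.finrank F (colSp (ε i₀)), ht, ?_, fun i => ?_, h.indep, h.iSup_eq_top⟩
  · rw [Nat.pos_iff_ne_zero, Ne, Submodule.finrank_eq_zero, colSp_eq_bot_iff]
    exact h.ne_zero i₀
  · obtain ⟨g, _, hg⟩ := h.transitive hH h1 i₀ i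
    rw [← hg, ← map_colSp, finrank_map_GL]

/-- the atoms of a stable Boolean system -/
theorem IdemSys.exists_orthIdems [Finite F] {S : Set (Matrix ι ι F)} (hS : IdemSys S)
    {H : Subgroup (GL ι F)} (hst : ∀ g ∈ H, ∀ x ∈ S, cj g x ∈ S) :
    ∃ (t : ℕ) (ε : Fin t → Matrix ι ι F), OrthIdems ε ∧ (∀ x, IsAtomOf S x ↔ ∃ i, ε i = x) ∧
      ∀ g ∈ H, ∀ i, ∃ j, ε j = cj g (ε i) := by
  obtain ⟨t, ε, h1, h2, h3⟩ := hS.exists_atoms
  have hat : ∀ i, IsAtomOf S (ε i) := fun i => (h1 _).2 ⟨i, rfl⟩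
  refine ⟨t, ε, ⟨fun i => hS.idem _ (hat i).1, fun i => (hat i).2.1, h2, h3⟩, h1,
    fun g hg i => (h1 _).1 ((hat i).map (cj g).toRingEquiv (hst g hg) fun x hx => ?_)⟩
  have := hst g⁻¹ (H.inv_mem hg) x hx
  convert this using 1
  apply (cj g).injective
  simp

/-- either a stable Boolean system is trivial, or it has at least two atoms -/
theorem IdemSys.trivial_or [Finite F] {S : Set (Matrix ι ι F)} (hS : IdemSys S)
    {H : Subgroup (GL ι F)} (hst : ∀ g ∈ H, ∀ x ∈ S, cj g x ∈ S) :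
    (∀ x ∈ S, x = 0 ∨ x = 1) ∨
    ∃ (t : ℕ) (ε : Fin t → Matrix ι ι F), 2 ≤ t ∧ OrthIdems ε ∧
      (∀ x, IsAtomOf S x ↔ ∃ i, ε i = x) ∧ ∀ g ∈ H, ∀ i, ∃ j, ε j = cj g (ε i) := by
  obtain ⟨t, ε, h1, h2, h3⟩ := hS.exists_orthIdems hst
  by_cases ht : 2 ≤ t
  · exact Or.inr ⟨t, ε, ht, h1, h2, h3⟩
  left
  intro x hx
  by_cases hx0 : x = 0
  · exact Or.inl hx0
  right
  obtain ⟨e, he, hex⟩ := hS.exists_atom_le hx hx0
  obtain ⟨i, rfl⟩ := (h2 e).1 he
  have : ε i = 1 := by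
    rw [← h1.sum, Finset.sum_eq_single i (fun j _ hj => absurd (Fin.ext (by omega)) hj) (by simp)]
  rw [this] at hex
  simpa using hex

theorem idemSys_of_comm {C : Subalgebra F (Matrix ι ι F)} (hC : ∀ x ∈ C, ∀ y ∈ C, x * y = y * x) :
    IdemSys {x | x ∈ C ∧ x * x = x} where
  idem _ hx := hx.2
  comm x hx y hy := hC x hx.1 y hy.1
  mul_mem x hx y hy := ⟨C.mul_mem hx.1 hy.1, by
    rw [mul_assoc, ← mul_assoc y, hC y hy.1 x hx.1, mul_assoc, hy.2, ← mul_assoc, hx.2]⟩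
  one_mem := ⟨C.one_mem, by simp⟩
  one_sub_mem x hx := ⟨C.sub_mem C.one_mem hx.1, by simp [mul_sub, sub_mul, hx.2]⟩

theorem exists_pow_idem {M : Type*} [Monoid M] [Finite M] (x : M) :
    ∃ k, 0 < k ∧ x ^ k * x ^ k = x ^ k := by
  obtain ⟨a, b, hab, h⟩ : ∃ a b : ℕ, a < b ∧ x ^ a = x ^ b := by
    obtain ⟨a, b, hne, h⟩ := Finite.exists_ne_map_eq_of_infinite fun n : ℕ => x ^ n
    rcases lt_or_gt_of_ne hne with h1 | h1
    · exact ⟨a, b, h1, h⟩
    · exact ⟨b, a, h1, h.symm⟩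
  obtain ⟨d, rfl⟩ := Nat.exists_eq_add_of_lt hab
  have h1 : ∀ j n, x ^ (a + n + j * (d + 1)) = x ^ (a + n) := by
    intro j n
    induction j with
    | zero => simp
    | succ j ih =>
      rw [show a + n + (j + 1) * (d + 1) = (a + d + 1) + (n + j * (d + 1)) by ring, pow_add, ← h,
        ← pow_add, ← add_assoc, ih]
  refine ⟨(a + 1) * (d + 1), by positivity, ?_⟩
  rw [← pow_add]
  have := h1 (a + 1) (a * d + d + 1)
  rwa [show a + (a * d + d + 1) = (a + 1) * (d + 1) by ring] at this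

theorem Stable.eq_zero_of_pow_eq_zero [Finite F] [Nonempty ι] {H : Subgroup (GL ι F)} (hH : Irr H)
    {C : Subalgebra F (Matrix ι ι F)} (hst : Stable H C) (hC : ∀ x ∈ C, ∀ y ∈ C, x * y = y * x)
    {x : Matrix ι ι F} (hx : x ∈ C) {k : ℕ} (hk : x ^ k = 0) : x = 0 := by
  have := hst.isSemisimpleRing hH
  have hJ : Ring.jacobson C = ⊥ := IsArtinianRing.isSemisimpleRing_iff_jacobson.1 this
  have : (⟨x, hx⟩ : C) ∈ Ring.jacobson C := by
    rw [← Ideal.jacobson_bot, Ideal.mem_jacobson_iff]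
    intro y
    have hnil : IsNilpotent (⟨x, hx⟩ : C) := ⟨k, Subtype.ext (by simpa using hk)⟩
    have hc : Commute y ⟨x, hx⟩ := Subtype.ext (hC _ y.2 _ hx)
    obtain ⟨u, hu⟩ := (hc.isNilpotent_mul_left hnil).isUnit_add_one
    refine ⟨(u⁻¹ : Cˣ), ?_⟩
    rw [Ideal.mem_bot, mul_assoc, ← mul_add_one, ← hu]
    simp
  rw [hJ, Ideal.mem_bot] at this
  exact congrArg Subtype.val this

/-- a stable commutative subalgebra without proper idempotents is a field -/
theorem Stable.isFieldSubalgebra [Finite F] [Nonempty ι] {H : Subgroup (GL ι F)} (hH : Irr H)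
    {C : Subalgebra F (Matrix ι ι F)} (hst : Stable H C) (hC : ∀ x ∈ C, ∀ y ∈ C, x * y = y * x)
    (h : ∀ x ∈ C, x * x = x → x = 0 ∨ x = 1) : IsFieldSubalgebra (Module.finrank F C) C := by
  refine ⟨hC, fun x hx hx0 => ?_, rfl⟩
  obtain ⟨k, hk, hxk⟩ := exists_pow_idem x
  rcases h _ (C.pow_mem hx k) hxk with h0 | h1
  · exact absurd (hst.eq_zero_of_pow_eq_zero hH hC hx h0) hx0
  · obtain ⟨k, rfl⟩ := Nat.exists_eq_succ_of_ne_zero hk.ne'
    exact ⟨x ^ k, C.pow_mem hx k, by rw [← h1, pow_succ']⟩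

theorem card_pow_eq_self {K : Type*} [Field K] [Finite K] {Q m : ℕ}
    (h : Nat.card K = Q ^ m) : Nat.card {x : K // x ^ Q = x} = Q := by
  classical
  have hK : 1 < Nat.card K := Finite.one_lt_card
  have hQ : 1 < Q := by
    by_contra! hQ
    have : Q ^ m ≤ 1 := pow_le_one₀ (by omega) hQ
    omega
  have h1 := IsCyclic.card_powMonoidHom_ker Kˣ (Q - 1)
  rw [Nat.card_units, h, Nat.gcd_eq_right (Nat.sub_one_dvd_pow_sub_one Q m)] at h1
  have e : {x : K // x ^ Q = x} ≃ Option (powMonoidHom (Q - 1) : Kˣ →* Kˣ).ker := by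
    refine (Equiv.ofBijective (fun o => Option.elim o ⟨0, by simp; omega⟩ fun u => ⟨(u.1 : K), by
      have := u.2
      rw [MonoidHom.mem_ker, powMonoidHom_apply] at this
      have h2 := congrArg Units.val this
      rw [Units.val_pow_eq_pow_val, Units.val_one] at h2
      have h3 := pow_succ ((u.1 : Kˣ) : K) (Q - 1)
      rwa [show Q - 1 + 1 = Q by omega, h2, one_mul] at h3⟩) ⟨?_, ?_⟩).symm
    · rintro (_ | u) (_ | v) huv
      · rfl
      · exact absurd (congrArg Subtype.val huv).symm v.1.ne_zero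
      · exact absurd (congrArg Subtype.val huv) u.1.ne_zero
      · exact congrArg some (Subtype.ext (Units.ext (congrArg Subtype.val huv)))
    · rintro ⟨x, hx⟩
      by_cases hx0 : x = 0
      · exact ⟨none, Subtype.ext hx0.symm⟩
      · refine ⟨some ⟨Units.mk0 x hx0, ?_⟩, rfl⟩
        rw [MonoidHom.mem_ker, powMonoidHom_apply]
        apply Units.ext
        rw [Units.val_pow_eq_pow_val, Units.val_mk0, Units.val_one]
        apply mul_right_cancel₀ hx0
        rw [← pow_succ, show Q - 1 + 1 = Q by omega, hx, one_mul]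
  rw [Nat.card_congr e, Finite.card_option, h1]
  omega

/-- the fixed points of a Frobenius power in a commutative subalgebra -/
def frobFix [Fintype F] (K : Subalgebra F (Matrix ι ι F)) (hK : ∀ x ∈ K, ∀ y ∈ K, x * y = y * x)
    (r : ℕ) : Subalgebra F (Matrix ι ι F) where
  carrier := {x | x ∈ K ∧ x ^ (Fintype.card F ^ r) = x}
  mul_mem' {a b} ha hb := ⟨K.mul_mem ha.1 hb.1, by
    rw [Commute.mul_pow (hK a ha.1 b hb.1), ha.2, hb.2]⟩
  add_mem' {a b} ha hb := ⟨K.add_mem ha.1 hb.1, by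
    rcases isEmpty_or_nonempty ι with h | h
    · exact Subsingleton.elim _ _
    obtain ⟨p, hp, n, hprime, hcard⟩ := FiniteField.card' F
    have : Fact p.Prime := ⟨hprime⟩
    have : CharP (Matrix ι ι F) p := Matrix.charP p
    have h1 := ha.2
    have h2 := hb.2
    rw [hcard, ← pow_mul] at h1 h2 ⊢
    rw [add_pow_char_pow_of_commute p _ (hK a ha.1 b hb.1), h1, h2]⟩
  algebraMap_mem' c := ⟨K.algebraMap_mem c, by rw [← map_pow, FiniteField.pow_card_pow]⟩

theorem mem_frobFix [Fintype F] {K : Subalgebra F (Matrix ι ι F)}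
    {hK : ∀ x ∈ K, ∀ y ∈ K, x * y = y * x} {r : ℕ} {x : Matrix ι ι F} :
    x ∈ frobFix K hK r ↔ x ∈ K ∧ x ^ (Fintype.card F ^ r) = x := Iff.rfl

theorem isField_of_isFieldSubalgebra [Nonempty ι] {k : ℕ} {K : Subalgebra F (Matrix ι ι F)}
    (hK : IsFieldSubalgebra k K) : IsField K :=
  ⟨exists_pair_ne K, fun x y => Subtype.ext (hK.comm _ x.2 _ y.2), fun {x} hx => by
    obtain ⟨y, hy, hxy⟩ := hK.inv x x.2 fun h => hx (Subtype.ext h)
    exact ⟨⟨y, hy⟩, Subtype.ext hxy⟩⟩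

theorem isFieldSubalgebra_frobFix [Fintype F] [Nonempty ι] {k : ℕ} {K : Subalgebra F (Matrix ι ι F)}
    (hK : IsFieldSubalgebra k K) {r : ℕ} (hr : r ∣ k) :
    IsFieldSubalgebra r (frobFix K hK.comm r) := by
  refine ⟨fun x hx y hy => hK.comm x hx.1 y hy.1, fun x hx hx0 => ?_, ?_⟩
  · obtain ⟨y, hy, hxy⟩ := hK.inv x hx.1 hx0
    refine ⟨y, ⟨hy, ?_⟩, hxy⟩
    have h1 : x * y ^ (Fintype.card F ^ r) = 1 := by
      conv_lhs => rw [← hx.2, ← Commute.mul_pow (hK.comm x hx.1 y hy), hxy, one_pow]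
    calc y ^ (Fintype.card F ^ r) = (y * x) * y ^ (Fintype.card F ^ r) := by
          rw [hK.comm y hy x hx.1, hxy, one_mul]
      _ = y := by rw [mul_assoc, h1, mul_one]
  · letI := (isField_of_isFieldSubalgebra hK).toField
    obtain ⟨m, rfl⟩ := hr
    have hcard : Nat.card K = (Fintype.card F ^ r) ^ m := by
      rw [Module.natCard_eq_pow_finrank (K := F), hK.finrank_eq, Nat.card_eq_fintype_card, pow_mul]
    have h1 := card_pow_eq_self hcard
    have e : {x : K // x ^ (Fintype.card F ^ r) = x} ≃ frobFix K hK.comm r :=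
      { toFun := fun x => ⟨x.1.1, x.1.2, congrArg Subtype.val x.2⟩
        invFun := fun x => ⟨⟨x.1, x.2.1⟩, Subtype.ext x.2.2⟩
        left_inv := fun _ => rfl
        right_inv := fun _ => rfl }
    rw [Nat.card_congr e, Module.natCard_eq_pow_finrank (K := F), Nat.card_eq_fintype_card] at h1
    exact Nat.pow_right_injective Fintype.one_lt_card h1

theorem Stable.frobFix [Fintype F] {H : Subgroup (GL ι F)} {K : Subalgebra F (Matrix ι ι F)}
    (hst : Stable H K) (hK : ∀ x ∈ K, ∀ y ∈ K, x * y = y * x) (r : ℕ) :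
    Stable H (frobFix K hK r) := fun g hg x hx =>
  ⟨hst g hg x hx.1, by rw [← map_pow, hx.2]⟩

theorem one_lt_finrank_of_ne_bot [Nonempty ι] {K : Subalgebra F (Matrix ι ι F)} (hK : K ≠ ⊥) :
    1 < Module.finrank F K := by
  have h1 : Module.finrank F K ≠ 1 := fun h => hK (Subalgebra.finrank_eq_one_iff.1 h)
  have h2 : 0 < Module.finrank F K := Module.finrank_pos
  omega

/-- linear case: a non-scalar stable commutative subalgebra gives a decomposition or a field -/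
theorem decomp_or_field [Fintype F] [Nonempty ι] {H : Subgroup (GL ι F)} (hH : Irr H)
    {C : Subalgebra F (Matrix ι ι F)} (hst : Stable H C) (hC : ∀ x ∈ C, ∀ y ∈ C, x * y = y * x)
    (hne : C ≠ ⊥) :
    (∃ (t m : ℕ) (D : Fin t → Submodule F (ι → F)), IsMDecomposition m D ∧
      H ≤ decompositionStabilizer D) ∨
    ∃ (r : ℕ) (K : Subalgebra F (Matrix ι ι F)), r.Prime ∧ IsFieldSubalgebra r K ∧
      H ≤ subalgebraNormalizer K := by
  rcases (idemSys_of_comm hC).trivial_or (H := H) (fun g hg x hx =>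
    ⟨hst g hg x hx.1, by rw [← map_mul, hx.2]⟩) with h | ⟨t, ε, ht, h1, _, h3⟩
  · right
    have hK := hst.isFieldSubalgebra hH hC fun x hx hxx => h x ⟨hx, hxx⟩
    obtain ⟨r, hr, hrd⟩ := Nat.exists_prime_and_dvd (one_lt_finrank_of_ne_bot hne).ne'
    exact ⟨r, _, hr, isFieldSubalgebra_frobFix hK hrd, (hst.frobFix hC r).le_normalizer⟩
  · left
    obtain ⟨m, hm⟩ := h1.isMDecomposition ht hH h3
    exact ⟨t, m, _, hm, h1.le_decompositionStabilizer h3⟩

end Cfsg.Agent.H26
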