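import Mathlib
import Cfsg.Agent.H26.Idem

/-! Realisation over subfields. -/

set_option autoImplicit false

namespace Cfsg.Agent.H26

open Matrix Cfsg.Geo
open scoped Kronecker

variable {ι κ : Type} [Fintype ι] [DecidableEq ι] [Fintype κ] [DecidableEq κ]
  {F : Type*} [Field F]

/-- the algebra map defined by a system of matrix units -/
noncomputable def algHomOfUnits {M : Type*} [Ring M] [Algebra F M] (u : κ → κ → M)
    (hmul : ∀ i j k l, u i j * u k l = if j = k then u i l else 0) (hsum : ∑ i, u i i = 1) :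
    Matrix κ κ F →ₐ[F] M :=
  AlgHom.ofLinearMap
    { toFun := fun x => ∑ i, ∑ j, x i j • u i j
      map_add' := fun x y => by simp [add_smul, Finset.sum_add_distrib]
      map_smul' := fun c x => by simp [Finset.smul_sum, mul_smul] }
    (by simp [Matrix.one_apply, hsum])
    (fun x y => by
      simp only [LinearMap.coe_mk, AddHom.coe_mk]
      rw [Finset.sum_mul]
      refine Finset.sum_congr rfl fun i _ => ?_
      rw [Finset.sum_mul]
      simp only [Finset.mul_sum, smul_mul_smul_comm,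
        hmul, Matrix.mul_apply, Finset.sum_smul, smul_ite, smul_zero]
      rw [Finset.sum_comm]
      refine Finset.sum_congr rfl fun j _ => ?_
      conv_rhs => rw [Finset.sum_comm]
      simp)

theorem algHomOfUnits_apply {M : Type*} [Ring M] [Algebra F M] (u : κ → κ → M)
    (hmul : ∀ i j k l, u i j * u k l = if j = k then u i l else 0) (hsum : ∑ i, u i i = 1)
    (x : Matrix κ κ F) : algHomOfUnits u hmul hsum x = ∑ i, ∑ j, x i j • u i j := rfl

theorem card_eq_of_surjective [Nonempty ι] [Nonempty κ] (φ : Matrix κ κ F →ₐ[F] Matrix ι ι F)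
    (hφ : Function.Surjective φ) : Fintype.card ι = Fintype.card κ := by
  obtain ⟨b, hb, -⟩ := exists_conj_kronecker' φ
  have h1 := LinearMap.finrank_le_finrank_of_surjective (f := φ.toLinearMap) hφ
  simp only [Module.finrank_matrix, Module.finrank_self, mul_one] at h1
  have h2 : 0 < Fintype.card ι := Fintype.card_pos
  have h3 : Fintype.card ι ≤ Fintype.card κ := by
    by_contra! h
    nlinarith
  have h4 : 0 < b := by
    rcases Nat.eq_zero_or_pos b with rfl | h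
    · omega
    · exact h
  nlinarith

theorem exists_trace_ne_zero [Nonempty ι] {S : Set (Matrix ι ι F)} (hS : Submodule.span F S = ⊤) :
    ∃ x ∈ S, x.trace ≠ 0 := by
  by_contra! h
  obtain ⟨i⟩ := ‹Nonempty ι›
  have : Submodule.span F S ≤ LinearMap.ker (Matrix.traceLinearMap ι F F) :=
    Submodule.span_le.2 fun x hx => by simpa using h x hx
  have h2 := this (hS ▸ Submodule.mem_top : single i i (1 : F) ∈ Submodule.span F S)
  simp at h2

/-- An `F₀`-subalgebra spanning the matrix algebra with traces in `F₀` is a conjugate of the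
matrix algebra over `F₀`. -/
theorem exists_subfield_form [Finite F] [Nonempty ι] (F₀ : Subfield F)
    (A₀ : Subalgebra F₀ (Matrix ι ι F)) (hspan : Submodule.span F (A₀ : Set (Matrix ι ι F)) = ⊤)
    (htr : ∀ x ∈ A₀, x.trace ∈ F₀) :
    ∃ P : GL ι F, ∀ x, x ∈ A₀ ↔ ∀ i j, cj P⁻¹ x i j ∈ F₀ := by
  have hind : ∀ {p : Matrix ι ι F → Prop}, (∀ x ∈ A₀, p x) → (∀ x y, p x → p y → p (x + y)) →
      (∀ (c : F) x, p x → p (c • x)) → ∀ x, p x := fun {p} h1 h2 h3 x =>
    Submodule.span_induction (p := fun x _ => p x) h1 (h1 0 A₀.zero_mem) (fun x y _ _ => h2 x y)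
      (fun c x _ => h3 c x) (hspan ▸ Submodule.mem_top : x ∈ Submodule.span F _)
  have hss : IsSemisimpleRing A₀ := by
    refine isSemisimpleRing_of_jacobson (A₀.val : A₀ →+* Matrix ι ι F) Subtype.val_injective
      fun W hW => invariant_of_all fun x v hv => ?_
    refine hind (p := fun x => x *ᵥ v ∈ W) (fun x hx => ?_) ?_ ?_ x
    · rw [hW] at hv ⊢
      intro j hj
      have := hv _ (Ideal.mul_mem_right ⟨x, hx⟩ _ hj)
      rw [Matrix.mulVec_mulVec]
      exact this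
    · intro a b h1 h2; rw [Matrix.add_mulVec]; exact add_mem h1 h2
    · intro c a h1; rw [Matrix.smul_mulVec]; exact W.smul_mem c h1
  obtain ⟨a, ha, ⟨e⟩⟩ := exists_algEquiv_matrix (K := F₀) (R := A₀) fun z hz => by
    obtain ⟨c, hc⟩ := exists_eq_smul_one_of_comm (z : Matrix ι ι F) (hind
      (fun x hx => congrArg Subtype.val (hz ⟨x, hx⟩))
      (fun a b h1 h2 => by rw [add_mul, mul_add, h1, h2])
      (fun c a h1 => by rw [smul_mul_assoc, mul_smul_comm, h1]))
    obtain ⟨x, hx, hx0⟩ := exists_trace_ne_zero hspan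
    have h1 := htr _ (A₀.mul_mem z.2 hx)
    rw [hc, smul_mul_assoc, one_mul, Matrix.trace_smul, smul_eq_mul] at h1
    have h2 : c ∈ F₀ := by
      have := F₀.mul_mem h1 (F₀.inv_mem (htr x hx))
      rwa [mul_inv_cancel_right₀ hx0] at this
    exact ⟨⟨c, h2⟩, Subtype.ext (by rw [hc, Algebra.algebraMap_eq_smul_one]; rfl)⟩
  have : Nonempty (Fin a) := ⟨⟨0, ha⟩⟩
  let u : Fin a → Fin a → Matrix ι ι F := fun i j => (e.symm (single i j 1) : A₀)
  have hmul : ∀ i j k l, u i j * u k l = if j = k then u i l else 0 := by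
    intro i j k l
    simp only [u, ← Subalgebra.coe_mul, ← map_mul]
    split_ifs with h
    · subst h; simp
    · rw [Matrix.single_mul_single_of_ne _ _ _ _ h]; simp
  have hsum : ∑ i, u i i = 1 := by
    simp only [u]
    rw [← AddSubmonoidClass.coe_finsetSum, ← map_sum, Matrix.sum_single_one, map_one]
    rfl
  let ψ := algHomOfUnits (F := F) u hmul hsum
  have hψ : ∀ y : Matrix (Fin a) (Fin a) F₀, ψ (y.map F₀.subtype) = (e.symm y : A₀) := by
    intro y
    conv_rhs => rw [Matrix.matrix_eq_sum_single y]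
    simp only [ψ, algHomOfUnits_apply, map_sum, AddSubmonoidClass.coe_finsetSum]
    refine Finset.sum_congr rfl fun i _ => Finset.sum_congr rfl fun j _ => ?_
    rw [show single i j (y i j) = y i j • single i j (1 : F₀) by simp, map_smul]
    rfl
  have hsurj : Function.Surjective ψ := hind (p := fun x => ∃ y, ψ y = x)
    (fun x hx => ⟨_, (hψ (e ⟨x, hx⟩)).trans (by simp)⟩)
    (by rintro _ _ ⟨a, rfl⟩ ⟨b, rfl⟩; exact ⟨a + b, map_add _ _ _⟩)
    (by rintro c _ ⟨a, rfl⟩; exact ⟨c • a, map_smul _ _ _⟩)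
  let ε : ι ≃ Fin a := Fintype.equivOfCardEq (card_eq_of_surjective ψ hsurj)
  obtain ⟨P, hP⟩ := exists_conj_submatrix_of_algHom ψ ε
  refine ⟨P, fun x => ⟨fun hx i j => ?_, fun hx => ?_⟩⟩
  · have := hψ (e ⟨x, hx⟩)
    rw [hP, e.symm_apply_apply, ← cj_apply] at this
    change _ = x at this
    rw [← this, cj_inv_cj]
    exact SetLike.coe_mem _
  · let y : Matrix (Fin a) (Fin a) F₀ := Matrix.of fun i j => ⟨_, hx (ε.symm i) (ε.symm j)⟩
    have := hψ y
    rw [hP, ← cj_apply] at this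
    have h2 : (y.map F₀.subtype).submatrix ε ε = cj P⁻¹ x := by
      ext i j
      simp [y]
    rw [h2, cj_cj_inv] at this
    rw [this]
    exact SetLike.coe_mem _

theorem exists_smul_mem_of_normalizes [Nonempty ι] (F₀ : Subfield F) (g g' : Matrix ι ι F)
    (hg' : g' ≠ 0) (h : ∀ i j a b : ι, (g * single i j (1 : F) * g' : Matrix ι ι F) a b ∈ F₀) :
    ∃ c : F, c ≠ 0 ∧ ∀ a i, c * g a i ∈ F₀ := by
  obtain ⟨j, b, hjb⟩ : ∃ j b, g' j b ≠ 0 := by
    by_contra! h0
    exact hg' (Matrix.ext h0)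
  refine ⟨g' j b, hjb, fun a i => ?_⟩
  have := h i j a b
  simpa [Matrix.mul_apply, Matrix.single, ite_and, mul_comm] using this

theorem mem_subfieldSubgroup_iff [Nonempty ι] (F₀ : Subfield F) (P h : GL ι F) :
    h ∈ subfieldSubgroup F₀ P ↔ ∃ c : F, c ≠ 0 ∧ ∀ i j, c * cj P⁻¹ h i j ∈ F₀ := by
  rw [subfieldSubgroup, Subgroup.mem_map]
  constructor
  · rintro ⟨g, hg, rfl⟩
    obtain ⟨_, ⟨a, rfl⟩, z, hz, rfl⟩ := Subgroup.mem_sup_of_normal_right.1 hg
    obtain ⟨c, hc⟩ := (mem_scalars_iff z).1 hz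
    refine ⟨(c⁻¹ : Fˣ), Units.ne_zero _, fun i j => ?_⟩
    simp [cj_apply, mul_assoc, hc]
  · rintro ⟨c, hc0, hc⟩
    refine ⟨P⁻¹ * h * P, ?_, by simp [mul_assoc]⟩
    let y : Matrix ι ι F₀ := Matrix.of fun i j => ⟨_, hc i j⟩
    have hy : y.map F₀.subtype = c • ((P⁻¹ * h * P : GL ι F) : Matrix ι ι F) := by
      ext i j
      simp [y, cj_apply]
    have hdet : y.det ≠ 0 := by
      intro h0
      have h1 := F₀.subtype.map_det y
      rw [h0, map_zero, RingHom.mapMatrix_apply, hy, Matrix.det_smul] at h1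
      exact mul_ne_zero (pow_ne_zero _ hc0) (Matrix.isUnits_det_units _).ne_zero h1.symm
    let z : GL ι F := Units.map (Matrix.scalar ι : F →+* Matrix ι ι F).toMonoidHom (Units.mk0 c hc0)⁻¹
    refine Subgroup.mem_sup_of_normal_right.2
      ⟨_, ⟨Matrix.GeneralLinearGroup.mkOfDetNeZero y hdet, rfl⟩, z, ⟨_, rfl⟩, Units.ext ?_⟩
    rw [Units.val_mul]
    change y.map F₀.subtype * _ = _
    rw [hy]
    simp [z, ← Matrix.smul_one_eq_diagonal, hc0]

theorem scalars_le_subfieldSubgroup [Nonempty ι] (F₀ : Subfield F) (P : GL ι F) :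
    scalars ι F ≤ subfieldSubgroup F₀ P := by
  intro z hz
  obtain ⟨c, hc⟩ := (mem_scalars_iff z).1 hz
  refine (mem_subfieldSubgroup_iff _ _ _).2 ⟨(c⁻¹ : Fˣ), Units.ne_zero _, fun i j => ?_⟩
  rw [hc, map_smul, map_one]
  by_cases h : i = j <;> simp [h, F₀.one_mem, F₀.zero_mem]

theorem single_mem_subfield (F₀ : Subfield F) (i j a b : ι) : single i j (1 : F) a b ∈ F₀ := by
  rw [Matrix.single, Matrix.of_apply]
  split_ifs
  · exact F₀.one_mem
  · exact F₀.zero_mem

theorem le_subfieldSubgroup [Nonempty ι] {F₀ : Subfield F} {P : GL ι F} {A₀ : Set (Matrix ι ι F)}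
    (hA : ∀ x, x ∈ A₀ ↔ ∀ i j, cj P⁻¹ x i j ∈ F₀) {H : Subgroup (GL ι F)}
    (hst : ∀ h ∈ H, ∀ x ∈ A₀, cj h x ∈ A₀) : H ≤ subfieldSubgroup F₀ P := by
  intro h hh
  rw [mem_subfieldSubgroup_iff]
  refine exists_smul_mem_of_normalizes F₀ _ (cj P⁻¹ (h⁻¹ : GL ι F)) ?_ fun i j a b => ?_
  · rw [cj_coe]; exact Units.ne_zero _
  · have := (hA _).1 (hst h hh (cj P (single i j 1)) ((hA _).2 (by
      simpa using single_mem_subfield F₀ i j))) a b
    rwa [cj_apply h, map_mul, map_mul, cj_inv_cj] at this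

/-- the span over a subfield of a matrix group -/
def spanAlg₀ (F₀ : Subfield F) (N : Subgroup (GL ι F)) : Subalgebra F₀ (Matrix ι ι F) :=
  (Submodule.span F₀ (matrixSet N)).toSubalgebra (Submodule.subset_span ⟨1, N.one_mem, rfl⟩) (by
    intro x y hx hy
    refine Submodule.span_induction₂ (p := fun x y _ _ => x * y ∈ Submodule.span F₀ (matrixSet N))
      ?_ ?_ ?_ ?_ ?_ ?_ ?_ hx hy
    · rintro _ _ ⟨a, ha, rfl⟩ ⟨b, hb, rfl⟩
      exact Submodule.subset_span ⟨a * b, N.mul_mem ha hb, rfl⟩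
    · simp
    · simp
    · intro x y z _ _ _ h1 h2; rw [add_mul]; exact add_mem h1 h2
    · intro x y z _ _ _ h1 h2; rw [mul_add]; exact add_mem h1 h2
    · intro c x y _ _ h; rw [smul_mul_assoc]; exact Submodule.smul_mem _ _ h
    · intro c x y _ _ h; rw [mul_smul_comm]; exact Submodule.smul_mem _ _ h)

theorem coe_mem_spanAlg₀ {F₀ : Subfield F} {N : Subgroup (GL ι F)} {g : GL ι F} (hg : g ∈ N) :
    (g : Matrix ι ι F) ∈ spanAlg₀ F₀ N := Submodule.subset_span ⟨g, hg, rfl⟩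

theorem spanAlg₀_induction {F₀ : Subfield F} {N : Subgroup (GL ι F)} {p : Matrix ι ι F → Prop}
    (mem : ∀ g ∈ N, p (g : GL ι F)) (zero : p 0) (add : ∀ x y, p x → p y → p (x + y))
    (smul : ∀ c ∈ F₀, ∀ x, p x → p (c • x)) {x : Matrix ι ι F} (hx : x ∈ spanAlg₀ F₀ N) : p x := by
  refine Submodule.span_induction (R := F₀) (p := fun x _ => p x) ?_ zero (fun x y _ _ => add x y)
    (fun c x _ => smul c c.2 x) (show x ∈ Submodule.span F₀ (matrixSet N) from hx)
  rintro _ ⟨g, hg, rfl⟩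
  exact mem g hg

theorem smul_mem_spanAlg₀ {F₀ : Subfield F} {N : Subgroup (GL ι F)} {c : F} (hc : c ∈ F₀)
    {x : Matrix ι ι F} (hx : x ∈ spanAlg₀ F₀ N) : c • x ∈ spanAlg₀ F₀ N :=
  (spanAlg₀ F₀ N).smul_mem hx ⟨c, hc⟩

theorem Nrm.cj_mem_spanAlg₀ {F₀ : Subfield F} {H N : Subgroup (GL ι F)} (h : Nrm H N) :
    ∀ g ∈ H, ∀ x ∈ spanAlg₀ F₀ N, cj g x ∈ spanAlg₀ F₀ N := by
  intro g hg x hx
  refine spanAlg₀_induction (p := fun x => cj g x ∈ spanAlg₀ F₀ N) ?_ (by simp) ?_ ?_ hx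
  · intro n hn
    rw [cj_coe]
    exact coe_mem_spanAlg₀ (h g hg n hn)
  · intro x y h1 h2; rw [map_add]; exact add_mem h1 h2
  · intro c hc x h1; rw [map_smul]; exact smul_mem_spanAlg₀ hc h1

theorem exists_subfield_of_trace [Finite F] [Nonempty ι] {N : Subgroup (GL ι F)}
    (hN : spanAlg N = ⊤) (F₀ : Subfield F) (htr : ∀ g ∈ N, (g : Matrix ι ι F).trace ∈ F₀) :
    ∃ P : GL ι F, ∀ x, x ∈ spanAlg₀ F₀ N ↔ ∀ i j, cj P⁻¹ x i j ∈ F₀ := by
  refine exists_subfield_form F₀ _ ?_ fun x hx => ?_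
  · rw [eq_top_iff]
    intro x _
    refine Submodule.span_mono ?_ (mem_spanAlg.1 (hN ▸ Algebra.mem_top : x ∈ spanAlg N))
    rintro _ ⟨g, hg, rfl⟩
    exact coe_mem_spanAlg₀ hg
  · refine spanAlg₀_induction (p := fun x => x.trace ∈ F₀) htr (by simp) ?_ ?_ hx
    · intro x y h1 h2; rw [Matrix.trace_add]; exact add_mem h1 h2
    · intro c hc x h1; rw [Matrix.trace_smul]; exact F₀.mul_mem hc h1

theorem trace_mem_of_realisableOver {F₀ : Subfield F} {N : Subgroup (GL ι F)}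
    (h : RealisableOver F₀ (matrixSet N)) : ∀ g ∈ N, (g : Matrix ι ι F).trace ∈ F₀ := by
  obtain ⟨B, hB⟩ := h
  intro g hg
  rw [← trace_cj B]
  exact F₀.sum_mem fun i _ => hB _ ⟨g, hg, rfl⟩ i i

theorem realisableOver_of_trace [Finite F] [Nonempty ι] {N : Subgroup (GL ι F)}
    (hN : spanAlg N = ⊤) (F₀ : Subfield F) (htr : ∀ g ∈ N, (g : Matrix ι ι F).trace ∈ F₀) :
    RealisableOver F₀ (matrixSet N) := by
  obtain ⟨P, hP⟩ := exists_subfield_of_trace hN F₀ htr
  refine ⟨P⁻¹, ?_⟩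
  rintro _ ⟨g, hg, rfl⟩
  exact (hP _).1 (coe_mem_spanAlg₀ hg)

/-- fixed subfield of a ring endomorphism -/
def fixF (σ : F →+* F) : Subfield F := σ.eqLocusField (RingHom.id F)

theorem mem_fixF {σ : F →+* F} {x : F} : x ∈ fixF σ ↔ σ x = x := Iff.rfl

theorem card_eq_pow_finrank_subfield [Fintype F] (F₀ : Subfield F) :
    Fintype.card F = Nat.card F₀ ^ Module.finrank F₀ F := by
  rw [← Module.natCard_eq_pow_finrank (K := F₀), Nat.card_eq_fintype_card]

theorem pow_card_subfield [Finite F] {F₀ : Subfield F} {x : F} (hx : x ∈ F₀) :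
    x ^ Nat.card F₀ = x := by
  have := Fintype.ofFinite F₀
  have h := FiniteField.pow_card (⟨x, hx⟩ : F₀)
  rw [Nat.card_eq_fintype_card]
  exact congrArg Subtype.val h

theorem exists_ringHom_pow_card [Finite F] (F₀ : Subfield F) (m : ℕ) :
    ∃ σ : F →+* F, ∀ x, σ x = x ^ (Nat.card F₀ ^ m) := by
  have := Fintype.ofFinite F₀
  refine ⟨((FiniteField.frobeniusAlgHom F₀ F) ^ m : F →ₐ[F₀] F), fun x => ?_⟩
  rw [Nat.card_eq_fintype_card]
  induction m with
  | zero => simp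
  | succ m ih =>
    rw [pow_succ' (FiniteField.frobeniusAlgHom F₀ F), pow_succ, pow_mul, ← ih]
    simp

theorem mem_subfield_iff_pow_card [Finite F] {F₀ : Subfield F} {x : F} :
    x ∈ F₀ ↔ x ^ Nat.card F₀ = x := by
  refine ⟨pow_card_subfield, fun hx => ?_⟩
  have := Fintype.ofFinite F
  have h1 := card_pow_eq_self (K := F) (Q := Nat.card F₀) (m := Module.finrank F₀ F)
    (by rw [Nat.card_eq_fintype_card, card_eq_pow_finrank_subfield F₀])
  have h2 : (F₀ : Set F) = {x | x ^ Nat.card F₀ = x} :=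
    Set.eq_of_subset_of_ncard_le (fun x hx => pow_card_subfield hx)
      (by rw [← Nat.card_coe_set_eq, ← Nat.card_coe_set_eq]; exact h1.le) (Set.toFinite _)
  have : x ∈ (F₀ : Set F) := h2 ▸ hx
  exact this

theorem exists_prime_index_subfield [Fintype F] (F₀ : Subfield F) (h : F₀ ≠ ⊤) :
    ∃ (F₁ : Subfield F) (r : ℕ), F₀ ≤ F₁ ∧ r.Prime ∧ Fintype.card F = Nat.card F₁ ^ r := by
  have hk : Module.finrank F₀ F ≠ 1 := by
    intro h1
    apply h
    have h2 := card_eq_pow_finrank_subfield F₀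
    rw [h1, pow_one] at h2
    rw [eq_top_iff]
    intro x _
    rw [mem_subfield_iff_pow_card, ← h2, FiniteField.pow_card]
  obtain ⟨r, hr, m, hm⟩ := Nat.exists_prime_and_dvd hk
  obtain ⟨σ, hσ⟩ := exists_ringHom_pow_card F₀ m
  have hcard : Fintype.card F = (Nat.card F₀ ^ m) ^ r := by
    rw [card_eq_pow_finrank_subfield F₀, hm, ← pow_mul, mul_comm]
  have h1 := card_pow_eq_self (K := F) (Nat.card_eq_fintype_card.trans hcard)
  refine ⟨fixF σ, r, fun x hx => ?_, hr, ?_⟩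
  · rw [mem_fixF, hσ]
    clear hm hσ hcard h1
    induction m with
    | zero => simp
    | succ m ih => rw [pow_succ, pow_mul, ih, pow_card_subfield hx]
  · rw [hcard, ← h1]
    congr 1
    exact Nat.card_congr (Equiv.subtypeEquivRight fun x => by rw [mem_fixF, hσ])

theorem subfield_case [Fintype F] [Nonempty ι] {H N : Subgroup (GL ι F)} (hHN : Nrm H N)
    (hN : spanAlg N = ⊤) {F₀ : Subfield F} (h0 : F₀ ≠ ⊤)
    (htr : ∀ g ∈ N, (g : Matrix ι ι F).trace ∈ F₀) :
    ∃ (F₁ : Subfield F) (r : ℕ) (P : GL ι F), r.Prime ∧ Fintype.card F = Nat.card F₁ ^ r ∧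
      (∀ x, x ∈ spanAlg₀ F₁ N ↔ ∀ i j, cj P⁻¹ x i j ∈ F₁) ∧ H ≤ subfieldSubgroup F₁ P := by
  obtain ⟨F₁, r, hle, hr, hcard⟩ := exists_prime_index_subfield F₀ h0
  obtain ⟨P, hP⟩ := exists_subfield_of_trace hN F₁ fun g hg => hle (htr g hg)
  exact ⟨F₁, r, P, hr, hcard, hP, le_subfieldSubgroup (A₀ := spanAlg₀ F₁ N) hP hHN.cj_mem_spanAlg₀⟩

end Cfsg.Agent.H26
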