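import Mathlib
import Cfsg.Agent.H26.Subf

/-! Minimal non-scalar normal subgroups; symplectic-type groups. -/

set_option autoImplicit false

namespace Cfsg.Agent.H26

open Matrix Cfsg.Geo

variable {ι : Type} [Fintype ι] [DecidableEq ι] {F : Type*} [Field F]

/-- `N` is minimal among the non-scalar subgroups normalised by `H` -/
structure MinNS (H N : Subgroup (GL ι F)) : Prop where
  nrm : Nrm H N
  nonscalar : ¬ N ≤ scalars ι F
  min : ∀ M ≤ N, Nrm H M → M ≤ scalars ι F ∨ M = N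

theorem nrm_self (N : Subgroup (GL ι F)) : Nrm N N :=
  fun _ ha _ hx => N.mul_mem (N.mul_mem ha hx) (N.inv_mem ha)

theorem Nrm.mono {H K N : Subgroup (GL ι F)} (h : Nrm K N) (hle : H ≤ K) : Nrm H N :=
  fun g hg => h g (hle hg)

theorem exists_minNS [Finite F] {H K : Subgroup (GL ι F)} (hK : Nrm H K) (hns : ¬ K ≤ scalars ι F) :
    ∃ N ≤ K, MinNS H N := by
  obtain ⟨N, ⟨h1, h2, h3⟩, hmin⟩ := (wellFounded_lt (α := Subgroup (GL ι F))).has_min
    {N | N ≤ K ∧ Nrm H N ∧ ¬ N ≤ scalars ι F} ⟨K, le_rfl, hK, hns⟩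
  refine ⟨N, h1, h2, h3, fun M hM hHM => ?_⟩
  by_contra! hne
  exact hmin M ⟨hM.trans h1, hHM, hne.1⟩ (lt_of_le_of_ne hM hne.2)

theorem Nrm.commutator {H A B : Subgroup (GL ι F)} (hA : Nrm H A) (hB : Nrm H B) : Nrm H ⁅A, B⁆ := by
  intro h hh x hx
  have : ⁅A, B⁆.map (MulAut.conj h).toMonoidHom ≤ ⁅A, B⁆ := by
    rw [Subgroup.map_commutator]
    refine Subgroup.commutator_mono ?_ ?_
    · rintro _ ⟨a, ha, rfl⟩; exact hA h hh a ha
    · rintro _ ⟨a, ha, rfl⟩; exact hB h hh a ha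
  exact this ⟨x, hx, rfl⟩

theorem pow_mul_class2 {G : Type*} [Group G] {x y z : G} (h : y * x = z * (x * y))
    (hz : ∀ g, z * g = g * z) (m : ℕ) : y ^ m * x = z ^ m * (x * y ^ m) := by
  induction m with
  | zero => simp
  | succ m ih =>
    have hz' : ∀ g, z ^ m * g = g * z ^ m := fun g => (Commute.pow_left (hz g) m)
    rw [pow_succ', mul_assoc, ih, ← mul_assoc, ← hz', mul_assoc, ← mul_assoc y, h, pow_succ z]
    simp only [mul_assoc]

theorem mul_pow_class2 {G : Type*} [Group G] {x y z : G} (h : y * x = z * (x * y))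
    (hz : ∀ g, z * g = g * z) (m : ℕ) : (x * y) ^ m = z ^ (m.choose 2) * (x ^ m * y ^ m) := by
  induction m with
  | zero => simp
  | succ m ih =>
    have hz' : ∀ g, z ^ m * g = g * z ^ m := fun g => (Commute.pow_left (hz g) m)
    rw [pow_succ, ih, Nat.choose_succ_succ, Nat.choose_one_right, add_comm m, pow_add]
    calc z ^ m.choose 2 * (x ^ m * y ^ m) * (x * y)
        = z ^ m.choose 2 * (x ^ m * (y ^ m * x) * y) := by simp only [mul_assoc]
      _ = z ^ m.choose 2 * z ^ m * (x ^ (m + 1) * y ^ (m + 1)) := by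
        rw [pow_mul_class2 h hz, ← mul_assoc (x ^ m), ← hz', pow_succ, pow_succ]
        simp only [mul_assoc]

instance isCyclic_scalars [Finite F] : IsCyclic (scalars ι F) :=
  isCyclic_of_surjective _ (MonoidHom.rangeRestrict_surjective _)

theorem isCyclic_of_le_scalars [Finite F] {N : Subgroup (GL ι F)} (A : Subgroup N)
    (h : ∀ x ∈ A, (x : GL ι F) ∈ scalars ι F) : IsCyclic A := by
  let f : A →* scalars ι F := ((N.subtype.comp A.subtype).codRestrict _ fun x => h x x.2)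
  exact isCyclic_of_injective f fun x y hxy =>
    Subtype.ext (Subtype.ext (congrArg (fun a : scalars ι F => (a : GL ι F)) hxy))

/-- data of an absolutely irreducible group of symplectic type -/
structure RType (r : ℕ) (R : Subgroup (GL ι F)) : Prop where
  span : spanAlg R = ⊤
  sympl : IsSymplecticTypeGroup r R
  ne_char : (r : F) ≠ 0
  trace_zero : ∀ x ∈ R, x ∉ scalars ι F → (x : Matrix ι ι F).trace = 0
  dim_ne : (Fintype.card ι : F) ≠ 0
  pow_eq : ∀ x ∈ R, x ^ (r * Nat.gcd 2 r) = 1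
  center : ∀ x : R, x ∈ Subgroup.center R ↔ (x : GL ι F) ∈ scalars ι F
  center_card : (Odd r ∧ Nat.card (Subgroup.center R) = r) ∨
    (r = 2 ∧ (Nat.card (Subgroup.center R) = 2 ∨ Nat.card (Subgroup.center R) = 4))
  dim : ∃ k, 1 ≤ k ∧ Fintype.card ι = r ^ k ∧
    Nat.card R = Nat.card (Subgroup.center R) * r ^ (2 * k)

theorem trace_eq_zero_of_comm [Nonempty ι] {N : Subgroup (GL ι F)} (hN : spanAlg N = ⊤)
    (hc : ∀ x ∈ N, ∀ y ∈ N, ∃ z ∈ scalars ι F, y * x = z * (x * y)) {x : GL ι F} (hx : x ∈ N)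
    (hxs : x ∉ scalars ι F) : (x : Matrix ι ι F).trace = 0 := by
  obtain ⟨y, hy, hne⟩ : ∃ y ∈ N, y * x ≠ x * y := by
    by_contra! h
    exact hxs (mem_scalars_of_comm hN h)
  obtain ⟨z, hz, hzz⟩ := hc x hx y hy
  obtain ⟨c, hc⟩ := (mem_scalars_iff z).1 hz
  have h1 : cj y x = (c : F) • (x : Matrix ι ι F) := by
    rw [cj_coe, hzz]; simp [hc, mul_assoc]
  have h2 := trace_cj y x
  rw [h1, Matrix.trace_smul, smul_eq_mul] at h2
  by_contra h0
  have : (c : F) = 1 := mul_right_cancel₀ h0 (by rw [h2, one_mul])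
  apply hne
  rw [hzz, show z = 1 from Units.ext (by rw [hc, this]; simp), one_mul]

theorem card_ne_zero_of_trace [Nonempty ι] {N : Subgroup (GL ι F)} (hN : spanAlg N = ⊤)
    (htr : ∀ x ∈ N, x ∉ scalars ι F → (x : Matrix ι ι F).trace = 0) : (Fintype.card ι : F) ≠ 0 := by
  obtain ⟨_, ⟨x, hx, rfl⟩, h0⟩ := exists_trace_ne_zero (S := matrixSet N) (by
    rw [eq_top_iff]; intro x _; exact mem_spanAlg.1 (hN ▸ Algebra.mem_top))
  have : x ∈ scalars ι F := by
    by_contra h
    exact h0 (htr x hx h)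
  obtain ⟨c, hc⟩ := (mem_scalars_iff x).1 this
  intro h
  apply h0
  simp [hc, h]

/-- representatives of distinct cosets of the scalars are linearly independent -/
theorem linearIndependent_of_trace {N : Subgroup (GL ι F)} (hn : (Fintype.card ι : F) ≠ 0)
    (htr : ∀ x ∈ N, x ∉ scalars ι F → (x : Matrix ι ι F).trace = 0) {κ : Type*} [Fintype κ]
    (b : κ → GL ι F) (hb : ∀ k, b k ∈ N) (hinj : ∀ k l, (b k)⁻¹ * b l ∈ scalars ι F → k = l) :
    LinearIndependent F fun k => (b k : Matrix ι ι F) := by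
  rw [Fintype.linearIndependent_iff]
  intro c hc k
  have h1 := congrArg (fun x => ((((b k)⁻¹ : GL ι F) : Matrix ι ι F) * x).trace) hc
  simp only [Finset.mul_sum, Matrix.trace_sum, mul_smul_comm, Matrix.trace_smul, mul_zero,
    Matrix.trace_zero] at h1
  rw [Finset.sum_eq_single k] at h1
  · simpa [hn] using h1
  · intro l _ hl
    rw [← Units.val_mul, htr _ (N.mul_mem (N.inv_mem (hb k)) (hb l)) fun h => hl (hinj k l h).symm,
      smul_zero]
  · simp

theorem card_quotient_eq_sq [Finite F] [Nonempty ι] {N : Subgroup (GL ι F)} (hN : spanAlg N = ⊤)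
    (htr : ∀ x ∈ N, x ∉ scalars ι F → (x : Matrix ι ι F).trace = 0) :
    Nat.card (N ⧸ (scalars ι F).subgroupOf N) = Fintype.card ι ^ 2 := by
  have hn := card_ne_zero_of_trace hN htr
  have := Fintype.ofFinite (N ⧸ (scalars ι F).subgroupOf N)
  let b : N ⧸ (scalars ι F).subgroupOf N → GL ι F := fun q => (q.out : N)
  have hli := linearIndependent_of_trace hn htr b (fun q => q.out.2) fun k l h => by
    rw [← k.out_eq, ← l.out_eq]
    exact QuotientGroup.eq.2 h
  have hsp : ⊤ ≤ Submodule.span F (Set.range fun k => (b k : Matrix ι ι F)) := by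
    intro x _
    refine spanAlg_induction
      (p := fun x => x ∈ Submodule.span F (Set.range fun k => (b k : Matrix ι ι F))) ?_ (zero_mem _)
      (fun _ _ => add_mem) (fun c _ h => Submodule.smul_mem _ c h) (hN ▸ Algebra.mem_top : x ∈ spanAlg N)
    intro g hg
    let q : N ⧸ (scalars ι F).subgroupOf N := QuotientGroup.mk ⟨g, hg⟩
    have h1 : (b q)⁻¹ * g ∈ scalars ι F :=
      (QuotientGroup.eq (s := (scalars ι F).subgroupOf N)).1 q.out_eq
    obtain ⟨c, hc⟩ := (mem_scalars_iff _).1 h1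
    have : (g : Matrix ι ι F) = (c : F) • (b q : Matrix ι ι F) := by
      rw [show g = b q * ((b q)⁻¹ * g) by simp, Units.val_mul, hc]; simp
    rw [this]
    exact Submodule.smul_mem _ _ (Submodule.subset_span ⟨q, rfl⟩)
  have := Module.finrank_eq_card_basis (Module.Basis.mk hli hsp)
  rw [Nat.card_eq_fintype_card, ← this]
  simp [Module.finrank_matrix, sq]

theorem center_eq_scalars [Nonempty ι] {N : Subgroup (GL ι F)} (hN : spanAlg N = ⊤) :
    Subgroup.center N = (scalars ι F).subgroupOf N := by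
  ext x
  rw [Subgroup.mem_center_iff, Subgroup.mem_subgroupOf]
  constructor
  · exact fun h => mem_scalars_of_comm hN fun g hg => congrArg Subtype.val (h ⟨g, hg⟩)
  · exact fun h g => Subtype.ext (comm_of_mem_scalars h g).symm

theorem dvd_choose_two {r : ℕ} (hr : r.Prime) : r ∣ (r * Nat.gcd 2 r).choose 2 := by
  rcases hr.eq_two_or_odd' with rfl | hodd
  · decide
  · rw [Nat.Coprime.gcd_eq_one (Nat.coprime_two_left.2 hodd), mul_one]
    refine hr.dvd_choose_self (by norm_num) ?_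
    have := hr.two_le
    obtain ⟨k, rfl⟩ := hodd
    omega

theorem MinNS.rType [Finite F] [Nonempty ι] {H N : Subgroup (GL ι F)} (h : MinNS H N)
    (hN : spanAlg N = ⊤) (hcomm : ⁅N, N⁆ ≤ scalars ι F) : ∃ r, RType r N := by
  have hc : ∀ x ∈ N, ∀ y ∈ N, ∃ z ∈ scalars ι F, y * x = z * (x * y) := fun x hx y hy =>
    ⟨y * x * y⁻¹ * x⁻¹, hcomm (Subgroup.commutator_mem_commutator hy hx), by
      simp [mul_assoc]⟩
  have hnc : ¬ ∀ x ∈ N, ∀ y ∈ N, x * y = y * x := fun h1 =>
    h.nonscalar fun y hy => mem_scalars_of_comm hN fun x hx => h1 x hx y hy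
  obtain ⟨r, hr, x₀, hx₀, hx₀s, hx₀r⟩ :
      ∃ r : ℕ, r.Prime ∧ ∃ x ∈ N, x ∉ scalars ι F ∧ x ^ r ∈ scalars ι F := by
    obtain ⟨x, hx, hxs⟩ := SetLike.not_le_iff_exists.1 h.nonscalar
    let q : GL ι F ⧸ scalars ι F := QuotientGroup.mk x
    have hq : orderOf q ≠ 1 := by
      rw [Ne, orderOf_eq_one_iff, QuotientGroup.eq_one_iff]; exact hxs
    obtain ⟨r, hr, k, hk⟩ := Nat.exists_prime_and_dvd hq
    have hpos := orderOf_pos q
    have hk0 : k ≠ 0 := by rintro rfl; omega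
    refine ⟨r, hr, x ^ k, N.pow_mem hx k, ?_, ?_⟩
    · rw [← QuotientGroup.eq_one_iff, QuotientGroup.mk_pow]
      refine pow_ne_one_of_lt_orderOf hk0 ?_
      change k < orderOf q
      have := hr.two_le
      rw [hk]
      exact lt_mul_left (Nat.pos_of_ne_zero hk0) (by omega)
    · rw [← QuotientGroup.eq_one_iff, ← pow_mul, QuotientGroup.mk_pow, mul_comm, ← hk]
      exact pow_orderOf_eq_one q
  have hconj : ∀ (g x : GL ι F) (m : ℕ), (g * x * g⁻¹) ^ m = g * x ^ m * g⁻¹ := fun g x m =>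
    conj_pow
  -- all `r`-th powers are scalar
  have h1 : ∀ x ∈ N, x ^ r ∈ scalars ι F := by
    let M : Subgroup (GL ι F) :=
      { carrier := {x | x ∈ N ∧ x ^ r ∈ scalars ι F}
        mul_mem' := fun {a b} ha hb => ⟨N.mul_mem ha.1 hb.1, by
          obtain ⟨z, hz, hzz⟩ := hc a ha.1 b hb.1
          rw [mul_pow_class2 hzz (comm_of_mem_scalars hz)]
          exact mul_mem (pow_mem hz _) (mul_mem ha.2 hb.2)⟩
        one_mem' := ⟨N.one_mem, by simp⟩
        inv_mem' := fun {a} ha => ⟨N.inv_mem ha.1, by rw [inv_pow]; exact inv_mem ha.2⟩ }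
    have := (h.min M (fun x hx => hx.1) fun g hg x hx => ⟨h.nrm g hg x hx.1, by
      rw [hconj]; exact Subgroup.Normal.conj_mem inferInstance _ hx.2 g⟩).resolve_left
      fun hle => hx₀s (hle ⟨hx₀, hx₀r⟩)
    intro x hx
    exact (this ▸ hx : x ∈ M).2
  have h2 : ∀ x ∈ N, ∀ y ∈ N, ∀ z ∈ scalars ι F, y * x = z * (x * y) → z ^ r = 1 := by
    intro x hx y hy z hz hzz
    have := pow_mul_class2 hzz (comm_of_mem_scalars hz) r
    rw [comm_of_mem_scalars (h1 y hy)] at this
    exact (mul_eq_right.1 this.symm)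
  have h3 : ∀ x ∈ N, ∀ y ∈ N,
      (x * y) ^ (r * Nat.gcd 2 r) = x ^ (r * Nat.gcd 2 r) * y ^ (r * Nat.gcd 2 r) := by
    intro x hx y hy
    obtain ⟨z, hz, hzz⟩ := hc x hx y hy
    obtain ⟨k, hk⟩ := dvd_choose_two hr
    rw [mul_pow_class2 hzz (comm_of_mem_scalars hz), hk, pow_mul, h2 x hx y hy z hz hzz, one_pow,
      one_mul]
  have h4 : ∀ x ∈ N, x ^ (r * Nat.gcd 2 r) = 1 := by
    let M : Subgroup (GL ι F) :=
      { carrier := {x | x ∈ N ∧ x ^ (r * Nat.gcd 2 r) = 1}
        mul_mem' := fun {a b} ha hb => ⟨N.mul_mem ha.1 hb.1, by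
          rw [h3 a ha.1 b hb.1, ha.2, hb.2, one_mul]⟩
        one_mem' := ⟨N.one_mem, by simp⟩
        inv_mem' := fun {a} ha => ⟨N.inv_mem ha.1, by rw [inv_pow, ha.2, inv_one]⟩ }
    rcases h.min M (fun x hx => hx.1) fun g hg x hx => ⟨h.nrm g hg x hx.1, by
      rw [hconj, hx.2]; simp⟩ with hle | heq
    · exfalso
      apply hnc
      let f : N →* scalars ι F := MonoidHom.mk' (fun x => ⟨(x : GL ι F) ^ (r * Nat.gcd 2 r), by
        rw [pow_mul]; exact pow_mem (h1 x x.2) _⟩) fun a b => Subtype.ext (h3 a a.2 b b.2)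
      have hker : f.ker ≤ Subgroup.center N := fun x hx => by
        rw [center_eq_scalars hN]
        exact hle ⟨x.2, congrArg Subtype.val hx⟩
      intro x hx y hy
      exact congrArg Subtype.val 
        ((f.isMulCommutative_of_isCyclic_of_ker_le_center hker).is_comm.comm ⟨x, hx⟩ ⟨y, hy⟩)
    · intro x hx
      exact (heq ▸ hx : x ∈ M).2
  have hexpdvd : Monoid.exponent N ∣ r * Nat.gcd 2 r :=
    Monoid.exponent_dvd_of_forall_pow_eq_one fun x => Subtype.ext (h4 x x.2)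
  have hexp2 : ¬ Monoid.exponent N ∣ 2 := by
    intro hd
    apply hnc
    intro x hx y hy
    have hsq : ∀ x : N, x ^ 2 = 1 := Monoid.exponent_dvd_iff_forall_pow_eq_one.1 hd
    exact congrArg Subtype.val (Commute.of_orderOf_dvd_two
      (fun g => orderOf_dvd_of_pow_eq_one (hsq g)) (⟨x, hx⟩ : N) ⟨y, hy⟩)
  have hexp : Monoid.exponent N = r * Nat.gcd 2 r := by
    rcases hr.eq_two_or_odd' with rfl | hodd
    · change _ ∣ 2 ^ 2 at hexpdvd
      obtain ⟨j, hj, hj'⟩ := (Nat.dvd_prime_pow Nat.prime_two).1 hexpdvd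
      rw [hj'] at hexp2 ⊢
      interval_cases j <;> simp_all
    · rw [Nat.Coprime.gcd_eq_one (Nat.coprime_two_left.2 hodd), mul_one] at hexpdvd ⊢
      refine ((Nat.dvd_prime hr).1 hexpdvd).resolve_left fun h => hexp2 ?_
      rw [h]; exact one_dvd _
  have hpg : IsPGroup r N := by
    intro x
    refine ⟨2, Subtype.ext ?_⟩
    obtain ⟨k, hk⟩ : r * Nat.gcd 2 r ∣ r ^ 2 := by
      rw [sq]; exact Nat.mul_dvd_mul_left r (Nat.gcd_dvd_right 2 r)
    rw [hk, pow_mul, Subgroup.coe_pow, Subgroup.coe_pow, h4 x x.2, one_pow]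
    rfl
  obtain ⟨z, hzN, hz, hz1, hzr⟩ : ∃ z ∈ N, z ∈ scalars ι F ∧ z ≠ 1 ∧ z ^ r = 1 := by
    push Not at hnc
    obtain ⟨x, hx, y, hy, hne⟩ := hnc
    obtain ⟨z, hz, hzz⟩ := hc x hx y hy
    refine ⟨z, ?_, hz, ?_, h2 x hx y hy z hz hzz⟩
    · rw [← mul_inv_eq_iff_eq_mul] at hzz
      rw [← hzz]
      exact N.mul_mem (N.mul_mem hy hx) (N.inv_mem (N.mul_mem hx hy))
    · rintro rfl
      exact hne (by simpa using hzz.symm)
  have hrF : (r : F) ≠ 0 := by
    intro h0
    obtain ⟨c, hc⟩ := (mem_scalars_iff z).1 hz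
    have : CharP F r := (CharP.charP_iff_prime_eq_zero hr).2 h0
    have : Fact r.Prime := ⟨hr⟩
    have h5 := congrArg Units.val hzr
    rw [Units.val_pow_eq_pow_val, hc, smul_pow, one_pow, Units.val_one] at h5
    obtain ⟨i⟩ := ‹Nonempty ι›
    have h6 : (c : F) ^ r = 1 := by simpa using congrFun (congrFun h5 i) i
    have h7 : ((c : F) - 1) ^ r = 0 := by rw [sub_pow_char, h6, one_pow, sub_self]
    apply hz1
    apply Units.ext
    rw [hc, sub_eq_zero.1 (pow_eq_zero_iff hr.ne_zero |>.1 h7)]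
    simp
  have htr : ∀ x ∈ N, x ∉ scalars ι F → (x : Matrix ι ι F).trace = 0 := fun x hx hxs =>
    trace_eq_zero_of_comm hN hc hx hxs
  have hcyc : IsCyclic (Subgroup.center N) :=
    isCyclic_of_le_scalars _ fun x hx => by rw [center_eq_scalars hN] at hx; exact hx
  have hZdvd : Nat.card (Subgroup.center N) ∣ r * Nat.gcd 2 r := by
    rw [← IsCyclic.exponent_eq_card]
    exact Monoid.exponent_dvd_of_forall_pow_eq_one fun x => Subtype.ext (Subtype.ext (h4 _ x.1.2))
  have hdvdZ : r ∣ Nat.card (Subgroup.center N) := by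
    have : Fact r.Prime := ⟨hr⟩
    let z' : Subgroup.center N := ⟨⟨z, hzN⟩, by rw [center_eq_scalars hN]; exact hz⟩
    have : orderOf z' = r := orderOf_eq_prime (Subtype.ext (Subtype.ext hzr))
      fun h => hz1 (congrArg (fun x : Subgroup.center N => ((x : N) : GL ι F)) h)
    rw [← this]
    exact orderOf_dvd_natCard z'
  refine ⟨r, hN, ⟨hr, hpg, fun A hA hAc => isCyclic_of_le_scalars A ?_, hexp⟩, hrF, htr,
    card_ne_zero_of_trace hN htr, h4, fun x => by rw [center_eq_scalars hN]; rfl, ?_, ?_⟩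
  · rcases h.min (A.map N.subtype) (Subgroup.map_subtype_le A) (by
      rintro g hg _ ⟨x, hx, rfl⟩
      let τ : N ≃* N :=
        { toFun := fun x => ⟨g * x * g⁻¹, h.nrm g hg x x.2⟩
          invFun := fun x => ⟨g⁻¹ * x * g⁻¹⁻¹, h.nrm _ (H.inv_mem hg) x x.2⟩
          left_inv := fun x => Subtype.ext (by simp [mul_assoc])
          right_inv := fun x => Subtype.ext (by simp [mul_assoc])
          map_mul' := fun x y => Subtype.ext (by simp [mul_assoc]) }
      exact ⟨τ x, (Subgroup.characteristic_iff_le_comap.1 hA τ) hx, rfl⟩) with hle | heq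
    · exact fun x hx => hle ⟨x, hx, rfl⟩
    · exfalso
      apply hnc
      intro x hx y hy
      rw [← heq] at hx hy
      obtain ⟨x, hx, rfl⟩ := hx
      obtain ⟨y, hy, rfl⟩ := hy
      exact congrArg (fun a : A => ((a : N) : GL ι F)) (hAc.is_comm.comm ⟨x, hx⟩ ⟨y, hy⟩)
  · rcases hr.eq_two_or_odd' with rfl | hodd
    · right
      refine ⟨rfl, ?_⟩
      change _ ∣ 2 ^ 2 at hZdvd
      obtain ⟨j, hj, hj'⟩ := (Nat.dvd_prime_pow Nat.prime_two).1 hZdvd
      rw [hj'] at hdvdZ ⊢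
      interval_cases j <;> simp_all
    · left
      rw [Nat.Coprime.gcd_eq_one (Nat.coprime_two_left.2 hodd), mul_one] at hZdvd
      exact ⟨hodd, Nat.dvd_antisymm hZdvd hdvdZ⟩
  · have : Fact r.Prime := ⟨hr⟩
    obtain ⟨j, hj⟩ := IsPGroup.iff_card.1 hpg
    have h5 := Subgroup.card_eq_card_quotient_mul_card_subgroup ((scalars ι F).subgroupOf N)
    rw [card_quotient_eq_sq hN htr, ← center_eq_scalars hN] at h5
    have h6 : Fintype.card ι ∣ r ^ j := by
      rw [← hj, h5, sq, mul_assoc]; exact dvd_mul_right _ _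
    obtain ⟨k, -, hk⟩ := (Nat.dvd_prime_pow hr).1 h6
    refine ⟨k, ?_, hk, by rw [h5, hk, ← pow_mul, mul_comm, mul_comm k]⟩
    by_contra! hk0
    have : k = 0 := by omega
    subst this
    have hs : Subsingleton ι := Fintype.card_le_one_iff_subsingleton.1 (by simp [hk])
    apply hnc
    intro x _ y _
    ext i j
    simp [Matrix.mul_apply, Subsingleton.elim j i, mul_comm,
      Fintype.sum_subsingleton _ i]

end Cfsg.Agent.H26
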