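import Mathlib
import Cfsg.Agent.H26.RType

/-! Tensor decompositions: two factors, and tensor powers. -/

set_option autoImplicit false

namespace Cfsg.Agent.H26

open Matrix Cfsg.Geo
open scoped Kronecker

variable {ι κ : Type} [Fintype ι] [DecidableEq ι] [Fintype κ] [DecidableEq κ]
  {F : Type*} [Field F]

theorem exists_cj_of_range [Nonempty κ] {B : Type*} [Ring B] [Algebra F B] [Nontrivial B]
    (α β : Matrix κ κ F →ₐ[F] B) (h : ∀ x, ∃ y, α x = β y) :
    ∃ a : GL κ F, ∀ x, α x = β (cj a x) := by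
  have hβ : Function.Injective β := (β : Matrix κ κ F →+* B).injective
  let θ : Matrix κ κ F →ₐ[F] Matrix κ κ F :=
    (AlgEquiv.ofInjective β hβ).symm.toAlgHom.comp (α.codRestrict β.range fun x => by
      obtain ⟨y, hy⟩ := h x
      exact ⟨y, hy.symm⟩)
  have hθ : ∀ x, β (θ x) = α x := fun x =>
    congrArg Subtype.val ((AlgEquiv.ofInjective β hβ).apply_symm_apply _)
  obtain ⟨a, ha⟩ := exists_conj_of_algHom θ
  exact ⟨a, fun x => by rw [← hθ, ha, cj_apply]⟩

/-! ### transport along `e`, `P` -/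

/-- the algebra isomorphism `x ↦ P (x.submatrix e e) P⁻¹` -/
def trA (e : ι ≃ κ) (P : GL ι F) : Matrix κ κ F ≃ₐ[F] Matrix ι ι F :=
  (Matrix.reindexAlgEquiv F F e.symm).trans (cj P)

theorem trA_apply (e : ι ≃ κ) (P : GL ι F) (x : Matrix κ κ F) :
    trA e P x = cj P (x.submatrix e e) := rfl

/-- the group isomorphism induced by `trA` -/
def trG (e : ι ≃ κ) (P : GL ι F) : GL κ F ≃* GL ι F := Units.mapEquiv (trA e P).toMulEquiv

@[simp] theorem coe_trG (e : ι ≃ κ) (P : GL ι F) (g : GL κ F) :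
    (trG e P g : Matrix ι ι F) = trA e P g := rfl

@[simp] theorem coe_trG_symm (e : ι ≃ κ) (P : GL ι F) (g : GL ι F) :
    ((trG e P).symm g : Matrix κ κ F) = (trA e P).symm g := rfl

theorem trA_cj (e : ι ≃ κ) (P : GL ι F) (g : GL κ F) (x : Matrix κ κ F) :
    trA e P (cj g x) = cj (trG e P g) (trA e P x) := by
  rw [cj_apply, cj_apply, map_mul, map_mul, ← map_inv]
  rfl

theorem map_map_eq_map_trG (e : ι ≃ κ) (P : GL ι F) (K : Subgroup (GL κ F)) :
    (K.map (glReindex e.symm).toMonoidHom).map (MulAut.conj P).toMonoidHom =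
      K.map (trG e P).toMonoidHom := by
  rw [Subgroup.map_map]
  congr 1
  ext1 g
  apply Units.ext
  rfl

theorem mem_tensorProductSubgroup {n₁ n₂ : ℕ} (e : ι ≃ Fin n₁ × Fin n₂) (P h : GL ι F) :
    h ∈ tensorProductSubgroup n₁ n₂ e P ↔ ∃ (a : GL (Fin n₁) F) (b : GL (Fin n₂) F),
      (h : Matrix ι ι F) = trA e P ((a : Matrix _ _ F) ⊗ₖ (b : Matrix _ _ F)) := by
  rw [tensorProductSubgroup, map_map_eq_map_trG]
  constructor
  · rintro ⟨g, ⟨a, b, hg⟩, rfl⟩
    exact ⟨a, b, by rw [← hg]; rfl⟩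
  · rintro ⟨a, b, hab⟩
    refine ⟨(trG e P).symm h, ⟨a, b, by simp [hab]⟩, by simp⟩

theorem mem_tensorWreathSubgroup {m t : ℕ} (e : ι ≃ (Fin t → Fin m)) (P h : GL ι F) :
    h ∈ tensorWreathSubgroup m t e P ↔ (trG e P).symm h ∈ tensorWreathStandard m t F := by
  rw [tensorWreathSubgroup, map_map_eq_map_trG]
  constructor
  · rintro ⟨g, hg, rfl⟩
    simpa using hg
  · intro hh
    exact ⟨_, hh, by simp⟩

/-- A stable subalgebra with scalar centre comes from a tensor decomposition -/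
theorem Stable.exists_tensor [Finite F] [Nonempty ι] {H : Subgroup (GL ι F)} (hH : Irr H)
    {A : Subalgebra F (Matrix ι ι F)} (hA : Stable H A)
    (hc : ∀ z ∈ A, (∀ a ∈ A, a * z = z * a) → ∃ c : F, z = c • (1 : Matrix ι ι F)) :
    ∃ (a b : ℕ) (e : ι ≃ Fin a × Fin b) (P : GL ι F), 0 < a ∧ 0 < b ∧
      ∀ x, x ∈ A ↔ ∃ y : Matrix (Fin a) (Fin a) F,
        x = trA e P (y ⊗ₖ (1 : Matrix (Fin b) (Fin b) F)) := by
  obtain ⟨a, ha, φ, hφ⟩ := hA.exists_algHom hH hc
  have : Nonempty (Fin a) := ⟨⟨0, ha⟩⟩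
  obtain ⟨b, e, P, hP⟩ := exists_conj_kronecker φ
  obtain ⟨i⟩ := ‹Nonempty ι›
  refine ⟨a, b, e, P, ha, Fin.pos (e i).2, fun x => ?_⟩
  rw [← hφ]
  constructor
  · rintro ⟨y, rfl⟩
    exact ⟨y, hP y⟩
  · rintro ⟨y, rfl⟩
    exact ⟨y, hP y⟩

theorem exists_kronecker_of_cj {β : Type} [Fintype β] [DecidableEq β] [Nonempty κ] [Nonempty β]
    (e : ι ≃ κ × β) (P h : GL ι F)
    (hh : ∀ y : Matrix κ κ F, ∃ y' : Matrix κ κ F, cj h (trA e P (y ⊗ₖ (1 : Matrix β β F))) =
      trA e P (y' ⊗ₖ (1 : Matrix β β F))) :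
    ∃ (a : GL κ F) (b : GL β F),
      (h : Matrix ι ι F) = trA e P ((a : Matrix _ _ F) ⊗ₖ (b : Matrix _ _ F)) := by
  obtain ⟨a, b, hab⟩ := exists_eq_kronecker_of_normalizes ((trG e P).symm h) fun y => by
    obtain ⟨y', hy⟩ := hh y
    refine ⟨y', (trA e P).injective ?_⟩
    rw [← cj_apply, trA_cj, ← hy]
    simp
  exact ⟨a, b, by rw [← hab]; simp⟩

/-! ### tensor powers -/

section tpw

variable {T : Type} [Fintype T] [DecidableEq T]

/-- the Kronecker product of a family of matrices -/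
def tpw : (T → Matrix κ κ F) →* Matrix (T → κ) (T → κ) F where
  toFun x := Matrix.of fun a b => ∏ i, x i (a i) (b i)
  map_one' := by
    ext a b
    simp only [Pi.one_apply, Matrix.of_apply, Matrix.one_apply, Finset.prod_ite_zero,
      Finset.mem_univ, true_imp_iff, Finset.prod_const_one, funext_iff]
  map_mul' x y := by
    ext a b
    simp only [Pi.mul_apply, Matrix.of_apply, Matrix.mul_apply, Finset.prod_univ_sum,
      Fintype.piFinset_univ, Finset.prod_mul_distrib]

theorem tpw_apply (x : T → Matrix κ κ F) (a b : T → κ) : tpw x a b = ∏ i, x i (a i) (b i) := rfl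

theorem tpw_update (x : T → Matrix κ κ F) (i : T) (y : Matrix κ κ F) (a b : T → κ) :
    tpw (Function.update x i y) a b =
      y (a i) (b i) * ∏ j ∈ Finset.univ.erase i, x j (a j) (b j) := by
  rw [tpw_apply, ← Finset.mul_prod_erase _ _ (Finset.mem_univ i), Function.update_self]
  congr 1
  exact Finset.prod_congr rfl fun j hj => by rw [Function.update_of_ne (Finset.ne_of_mem_erase hj)]

/-- the `i`-th tensor factor -/
def fac (i : T) : Matrix κ κ F →ₐ[F] Matrix (T → κ) (T → κ) F :=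
  AlgHom.ofLinearMap
    { toFun := fun x => tpw (Pi.mulSingle i x)
      map_add' := fun x y => by
        ext a b
        simp only [Pi.mulSingle, tpw_update, Matrix.add_apply, add_mul]
      map_smul' := fun c x => by
        ext a b
        simp only [Pi.mulSingle, tpw_update, Matrix.smul_apply, smul_eq_mul, mul_assoc,
          RingHom.id_apply] }
    (by simp) (fun x y => by simp [Pi.mulSingle_mul])

theorem fac_apply (i : T) (x : Matrix κ κ F) : fac i x = tpw (Pi.mulSingle i x : T → _) := rfl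

theorem tpw_single (a b : T → κ) :
    tpw (fun i => single (a i) (b i) (1 : F)) = single a b (1 : F) := by
  ext c d
  simp only [tpw_apply, Matrix.single, Matrix.of_apply, Finset.prod_ite_zero, Finset.mem_univ,
    true_imp_iff, Finset.prod_const_one, funext_iff, forall_and]

theorem tpw_transpose (x : T → Matrix κ κ F) : (tpw x)ᵀ = tpw fun i => (x i)ᵀ := rfl

theorem tpw_map (σ : F →+* F) (x : T → Matrix κ κ F) :
    (tpw x).map σ = tpw fun i => (x i).map σ := by
  ext a b
  simp [tpw_apply]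

theorem tpw_smul (c : T → F) (x : T → Matrix κ κ F) :
    tpw (fun i => c i • x i) = (∏ i, c i) • tpw x := by
  ext a b
  simp [tpw_apply, Finset.prod_mul_distrib]

theorem eq_top_of_fac_mem {A : Subalgebra F (Matrix (T → κ) (T → κ) F)}
    (h : ∀ i x, fac i x ∈ A) : A = ⊤ := by
  have h1 : ∀ x : T → Matrix κ κ F, tpw x ∈ A := by
    intro x
    rw [← Finset.noncommProd_mulSingle x]
    exact (A.toSubmonoid.comap tpw).noncommProd_mem _ _ _ fun i _ => h i _
  rw [eq_top_iff]
  intro x _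
  rw [Matrix.matrix_eq_sum_single x]
  refine A.sum_mem fun a _ => A.sum_mem fun b _ => ?_
  rw [show single a b (x a b) = x a b • single a b (1 : F) by simp, ← tpw_single]
  exact A.smul_mem (h1 _) _

theorem scalar_of_comm_fac {y : Matrix (T → κ) (T → κ) F} (h : ∀ i x, fac i x * y = y * fac i x) :
    ∃ c : F, y = c • (1 : Matrix (T → κ) (T → κ) F) := by
  have : Subalgebra.centralizer F {y} = ⊤ := eq_top_of_fac_mem fun i x => by
    rw [Subalgebra.mem_centralizer_iff]
    rintro _ rfl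
    exact (h i x).symm
  refine exists_eq_smul_one_of_comm y fun x => ?_
  have hx : x ∈ Subalgebra.centralizer F {y} := this ▸ Algebra.mem_top
  exact ((Subalgebra.mem_centralizer_iff F).1 hx y rfl).symm

/-- pure tensors of invertible matrices -/
def tpwG (a : T → GL κ F) : GL (T → κ) F where
  val := tpw fun i => (a i : Matrix κ κ F)
  inv := tpw fun i => (((a i)⁻¹ : GL κ F) : Matrix κ κ F)
  val_inv := by rw [← map_mul, ← map_one tpw]; congr 1; ext1 i; simp
  inv_val := by rw [← map_mul, ← map_one tpw]; congr 1; ext1 i; simp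

theorem coe_tpwG (a : T → GL κ F) :
    (tpwG a : Matrix (T → κ) (T → κ) F) = tpw fun i => (a i : Matrix κ κ F) := rfl

theorem cj_tpwG (a : T → GL κ F) (x : T → Matrix κ κ F) :
    cj (tpwG a) (tpw x) = tpw fun i => cj (a i) (x i) := by
  change tpw _ * tpw x * tpw _ = _
  rw [← map_mul, ← map_mul]
  rfl

theorem cj_tpwG_fac (a : T → GL κ F) (i : T) (x : Matrix κ κ F) :
    cj (tpwG a) (fac i x) = fac i (cj (a i) x) := by
  rw [fac_apply, cj_tpwG, fac_apply]
  congr 1
  ext1 j
  by_cases h : j = i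
  · subst h; simp
  · simp [h]

/-- permutation of the tensor factors -/
def facPerm (κ : Type) [Fintype κ] [DecidableEq κ] (F : Type*) [Field F] (σ : Equiv.Perm T) :
    GL (T → κ) F where
  val := (Equiv.arrowCongr σ.symm (Equiv.refl κ)).toPEquiv.toMatrix
  inv := (Equiv.arrowCongr σ.symm (Equiv.refl κ)).symm.toPEquiv.toMatrix
  val_inv := by
    rw [← PEquiv.toMatrix_trans, ← Equiv.toPEquiv_trans, Equiv.self_trans_symm,
      Equiv.toPEquiv_refl, PEquiv.toMatrix_refl]
  inv_val := by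
    rw [← PEquiv.toMatrix_trans, ← Equiv.toPEquiv_trans, Equiv.symm_trans_self,
      Equiv.toPEquiv_refl, PEquiv.toMatrix_refl]

theorem facPerm_apply (σ : Equiv.Perm T) (x y : T → κ) :
    (facPerm κ F σ : Matrix (T → κ) (T → κ) F) x y = if y = x ∘ σ then 1 else 0 := by
  simp only [facPerm, PEquiv.toMatrix_apply, Equiv.toPEquiv_apply, Option.mem_def,
    Option.some.injEq]
  congr 1
  exact propext eq_comm

theorem cj_facPerm (σ : Equiv.Perm T) (x : T → Matrix κ κ F) :
    cj (facPerm κ F σ) (tpw x) = tpw (x ∘ σ.symm) := by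
  change (Equiv.arrowCongr σ.symm (Equiv.refl κ)).toPEquiv.toMatrix * tpw x *
    (Equiv.arrowCongr σ.symm (Equiv.refl κ)).symm.toPEquiv.toMatrix = _
  rw [PEquiv.toMatrix_toPEquiv_mul, PEquiv.mul_toMatrix_toPEquiv]
  ext a b
  simp only [Matrix.submatrix_apply, tpw_apply, id, Equiv.symm_symm]
  conv_rhs => rw [← Equiv.prod_comp σ]
  simp

theorem cj_facPerm_fac (σ : Equiv.Perm T) (i : T) (x : Matrix κ κ F) :
    cj (facPerm κ F σ) (fac i x) = fac (σ i) x := by
  rw [fac_apply, cj_facPerm, fac_apply]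
  congr 1
  ext1 j
  by_cases h : j = σ i
  · subst h; simp
  · have : σ.symm j ≠ i := fun h' => h (by rw [← h']; simp)
    simp [h, this]

theorem exists_eq_facPerm_mul [Nonempty T] [Nonempty κ] (g : GL (T → κ) F) (σ : Equiv.Perm T)
    (h : ∀ i x, ∃ y, cj g (fac i x) = fac (σ i) y) :
    ∃ a : T → GL κ F, g = facPerm κ F σ * tpwG a := by
  have h1 : ∀ i, ∃ a : GL κ F, ∀ x, cj g (fac i x) = fac (σ i) (cj a x) := fun i =>
    exists_cj_of_range ((cj g).toAlgHom.comp (fac i)) (fac (σ i)) (h i)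
  choose a ha using h1
  obtain ⟨c, hc⟩ := scalar_of_comm_fac
    (y := (((facPerm κ F σ * tpwG a)⁻¹ * g : GL (T → κ) F) : Matrix (T → κ) (T → κ) F)) fun i x => by
      symm
      rw [← cj_eq_self_iff, cj_mul, ha, ← cj_facPerm_fac, ← cj_tpwG_fac, ← cj_mul, ← cj_mul,
        mul_assoc, inv_mul_cancel, cj_one]
  have hc0 : c ≠ 0 := by
    rintro rfl
    rw [zero_smul] at hc
    exact Units.ne_zero _ hc
  obtain ⟨i₀⟩ := ‹Nonempty T›
  refine ⟨fun i => (if i = i₀ then Units.mk0 c hc0 else 1) • a i, Units.ext ?_⟩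
  have h2 : (g : Matrix (T → κ) (T → κ) F) = (facPerm κ F σ * tpwG a : GL (T → κ) F) *
      (((facPerm κ F σ * tpwG a)⁻¹ * g : GL (T → κ) F) : Matrix (T → κ) (T → κ) F) := by
    rw [← Units.val_mul, mul_inv_cancel_left]
  rw [h2, hc, Units.val_mul, Units.val_mul, coe_tpwG, coe_tpwG]
  simp only [Units.val_smul, Units.smul_def]
  rw [tpw_smul]
  simp [apply_ite Units.val]

theorem mem_tensorWreathStandard_of {m t : ℕ} (σ : Equiv.Perm (Fin t)) (a : Fin t → GL (Fin m) F) :
    facPerm (Fin m) F σ * tpwG a ∈ tensorWreathStandard m t F :=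
  Subgroup.mul_mem _ (Subgroup.subset_closure (Or.inr ⟨σ, facPerm_apply σ⟩))
    (Subgroup.subset_closure (Or.inl ⟨a, fun _ _ => rfl⟩))

/-- commuting full matrix algebras generating everything come from a tensor power -/
theorem exists_tensorPower [Nonempty ι] [Nonempty κ] (φ : T → Matrix κ κ F →ₐ[F] Matrix ι ι F)
    (hcomm : ∀ i j, i ≠ j → ∀ x y, φ i x * φ j y = φ j y * φ i x)
    (hgen : ∀ A : Subalgebra F (Matrix ι ι F), (∀ i x, φ i x ∈ A) → A = ⊤) :
    ∃ (e : ι ≃ (T → κ)) (P : GL ι F), ∀ i x, φ i x = trA e P (fac i x) := by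
  let μ : (T → Matrix κ κ F) →* Matrix ι ι F :=
    MonoidHom.noncommPiCoprod (fun i => (φ i : Matrix κ κ F →* Matrix ι ι F)) hcomm
  have hμ1 : ∀ i x, μ (Pi.mulSingle i x) = φ i x := fun i x =>
    MonoidHom.noncommPiCoprod_mulSingle _ _ _
  have hμ2 : ∀ x i y, μ (Function.update x i y) = φ i y * μ (Function.update x i 1) := by
    intro x i y
    rw [← hμ1, ← map_mul]
    congr 1
    ext1 j
    by_cases h : j = i
    · subst h; simp
    · simp [h]
  let ν : MultilinearMap F (fun _ : T => Matrix κ κ F) (Matrix ι ι F) :=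
    MultilinearMap.mk' μ (fun x i a b => by rw [hμ2, hμ2 x i a, hμ2 x i b, map_add, add_mul])
      (fun x i c a => by rw [hμ2, hμ2 x i a, map_smul, smul_mul_assoc])
  have hν : ∀ x, ν x = μ x := fun _ => rfl
  let u : (T → κ) → (T → κ) → Matrix ι ι F := fun a b => μ fun i => single (a i) (b i) 1
  have hmul : ∀ a b c d, u a b * u c d = if b = c then u a d else 0 := by
    intro a b c d
    simp only [u, ← map_mul]
    split_ifs with h
    · subst h
      congr 1
      ext1 i
      simp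
    · obtain ⟨i, hi⟩ := Function.ne_iff.1 h
      exact ν.map_coord_zero i (Matrix.single_mul_single_of_ne _ _ _ _ hi _)
  have hsum : ∑ a, u a a = 1 := by
    have := ν.map_sum (fun (_ : T) (k : κ) => single k k (1 : F))
    simp only [Matrix.sum_single_one] at this
    exact this.symm.trans (map_one μ)
  let ψ := algHomOfUnits (F := F) u hmul hsum
  have hψ : ∀ x, ψ (tpw x) = μ x := by
    intro x
    have h1 := ν.map_sum (fun (i : T) (k : κ) => ∑ l, x i k l • single k l (1 : F))
    have h2 : (fun i => ∑ k, ∑ l, x i k l • single k l (1 : F)) = x := by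
      ext1 i
      conv_rhs => rw [Matrix.matrix_eq_sum_single (x i)]
      simp
    rw [h2, hν] at h1
    rw [h1, algHomOfUnits_apply]
    refine Finset.sum_congr rfl fun a _ => ?_
    rw [ν.map_sum (fun (i : T) (l : κ) => x i (a i) l • single (a i) l (1 : F))]
    refine Finset.sum_congr rfl fun b _ => ?_
    rw [ν.map_smul_univ]
    rfl
  have hsurj : Function.Surjective ψ := by
    rw [← AlgHom.range_eq_top]
    exact hgen _ fun i x => ⟨fac i x, (hψ _).trans (hμ1 i x)⟩
  let e : ι ≃ (T → κ) := Fintype.equivOfCardEq (card_eq_of_surjective ψ hsurj)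
  obtain ⟨P, hP⟩ := exists_conj_submatrix_of_algHom ψ e
  exact ⟨e, P, fun i x => by rw [← hμ1, ← hψ, hP]; rfl⟩

end tpw

end Cfsg.Agent.H26
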