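import Mathlib
import Cfsg.Agent.H26.TPow

/-! The structure of groups all of whose normal subgroups are scalar or absolutely irreducible. -/

set_option autoImplicit false
set_option maxHeartbeats 400000

namespace Cfsg.Agent.H26

open Matrix Cfsg.Geo
open scoped commutatorElement

variable {ι : Type} [Fintype ι] [DecidableEq ι] {F : Type*} [Field F]

theorem comm_of_perfect {A : Subgroup (GL ι F)} (hA : ⁅A, A⁆ = A) {y : GL ι F}
    (h : ∀ x ∈ A, x * y * x⁻¹ * y⁻¹ ∈ scalars ι F) : ∀ x ∈ A, x * y = y * x := by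
  let f : A →* GL ι F := MonoidHom.mk' (fun x => x * y * (x : GL ι F)⁻¹ * y⁻¹) fun a b => by
    have h1 := comm_of_mem_scalars (h b b.2)
    have h2 := comm_of_mem_scalars (h a a.2)
    rw [h2]
    calc ((a * b : A) : GL ι F) * y * ((a * b : A) : GL ι F)⁻¹ * y⁻¹
        = a * (b * y * (b : GL ι F)⁻¹ * y⁻¹) * (y * (a : GL ι F)⁻¹ * y⁻¹) := by
          simp [mul_assoc]
      _ = _ := by rw [← h1]; simp [mul_assoc]
  have : ⁅A, A⁆ ≤ f.ker.map A.subtype := by
    rw [Subgroup.commutator_le]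
    intro a ha b hb
    refine ⟨⁅(⟨a, ha⟩ : A), ⟨b, hb⟩⁆, ?_, rfl⟩
    change f _ = 1
    rw [map_commutatorElement, commutatorElement_eq_one_iff_mul_comm]
    exact comm_of_mem_scalars (h a ha) _
  intro x hx
  rw [hA] at this
  obtain ⟨x, hx', rfl⟩ := this hx
  change (x : GL ι F) * y * (x : GL ι F)⁻¹ * y⁻¹ = 1 at hx'
  rw [mul_inv_eq_one, mul_inv_eq_iff_eq_mul] at hx'
  exact hx'

/-- conjugate subgroup -/
def cs (g : GL ι F) (L : Subgroup (GL ι F)) : Subgroup (GL ι F) := L.map (MulAut.conj g).toMonoidHom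

theorem mem_cs {g x : GL ι F} {L : Subgroup (GL ι F)} : x ∈ cs g L ↔ g⁻¹ * x * g ∈ L := by
  constructor
  · rintro ⟨y, hy, rfl⟩
    simpa [mul_assoc] using hy
  · intro h
    exact ⟨_, h, by simp [mul_assoc]⟩

theorem conj_mem_cs {g x : GL ι F} {L : Subgroup (GL ι F)} (hx : x ∈ L) : g * x * g⁻¹ ∈ cs g L :=
  ⟨x, hx, rfl⟩

@[simp] theorem cs_one (L : Subgroup (GL ι F)) : cs 1 L = L := by
  ext x; simp [mem_cs]

theorem cs_cs (g h : GL ι F) (L : Subgroup (GL ι F)) : cs g (cs h L) = cs (g * h) L := by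
  ext x; simp [mem_cs, mul_assoc]

theorem cs_mono (g : GL ι F) {L M : Subgroup (GL ι F)} (h : L ≤ M) : cs g L ≤ cs g M :=
  Subgroup.map_mono h

theorem cs_le_scalars {g : GL ι F} {L : Subgroup (GL ι F)} (h : L ≤ scalars ι F) :
    cs g L ≤ scalars ι F := by
  rintro _ ⟨x, hx, rfl⟩
  exact Subgroup.Normal.conj_mem inferInstance x (h hx) g

theorem cs_commutator (g : GL ι F) (A B : Subgroup (GL ι F)) : cs g ⁅A, B⁆ = ⁅cs g A, cs g B⁆ :=
  Subgroup.map_commutator _ _ _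

theorem Nrm.cs_le {H N L : Subgroup (GL ι F)} (h : Nrm H N) (hL : L ≤ N) {g : GL ι F} (hg : g ∈ H) :
    cs g L ≤ N := by
  rintro _ ⟨x, hx, rfl⟩
  exact h g hg x (hL hx)

theorem Nrm.cs_of {H N L : Subgroup (GL ι F)} (h : Nrm H N) (hL : Nrm N L) {g : GL ι F}
    (hg : g ∈ H) : Nrm N (cs g L) := by
  intro n hn x hx
  rw [mem_cs] at hx ⊢
  have := hL _ (h g⁻¹ (H.inv_mem hg) n hn) _ hx
  simpa [mul_assoc] using this

theorem MinNS.cs {H N L : Subgroup (GL ι F)} (h : Nrm H N) (hL : MinNS N L) {g : GL ι F}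
    (hg : g ∈ H) : MinNS N (cs g L) := by
  refine ⟨h.cs_of hL.nrm hg, fun hle => hL.nonscalar ?_, fun M hM hNM => ?_⟩
  · simpa [cs_cs] using cs_le_scalars (g := g⁻¹) hle
  · rcases hL.min (H26.cs g⁻¹ M) (by simpa [cs_cs] using cs_mono g⁻¹ hM)
      (h.cs_of hNM (H.inv_mem hg)) with h1 | h1
    · left
      simpa [cs_cs] using cs_le_scalars (g := g) h1
    · right
      rw [← h1, cs_cs]; simp

theorem mem_spanAlg_cs {g : GL ι F} {L : Subgroup (GL ι F)} {x : Matrix ι ι F} :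
    x ∈ spanAlg (cs g L) ↔ cj g⁻¹ x ∈ spanAlg L := by
  have key : ∀ (g : GL ι F) (L : Subgroup (GL ι F)) x, x ∈ spanAlg L → cj g x ∈ spanAlg (cs g L) := by
    intro g L x hx
    refine spanAlg_induction (p := fun x => cj g x ∈ spanAlg (cs g L)) ?_ (by simp) ?_ ?_ hx
    · intro n hn
      rw [cj_coe]
      exact coe_mem_spanAlg (conj_mem_cs hn)
    · intro x y h1 h2; rw [map_add]; exact add_mem h1 h2
    · intro c x h1; rw [map_smul]; exact Subalgebra.smul_mem _ h1 c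
  constructor
  · intro hx
    simpa [cs_cs] using key g⁻¹ _ x hx
  · intro hx
    simpa using key g _ _ hx

theorem commutator_le_scalars_iff {A B : Subgroup (GL ι F)} : ⁅A, B⁆ ≤ scalars ι F ↔
    ∀ a ∈ A, ∀ b ∈ B, Commute (QuotientGroup.mk' (scalars ι F) a) (QuotientGroup.mk' _ b) := by
  rw [Subgroup.commutator_le]
  refine forall₂_congr fun a _ => forall₂_congr fun b _ => ?_
  rw [← commutatorElement_eq_one_iff_commute, ← map_commutatorElement, QuotientGroup.mk'_apply,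
    QuotientGroup.eq_one_iff]

theorem MinNS.eq_or_commutator_le {N L M : Subgroup (GL ι F)} (hL : MinNS N L) (hM : MinNS N M)
    (hLN : L ≤ N) (hMN : M ≤ N) : L = M ∨ ⁅L, M⁆ ≤ scalars ι F := by
  have h1 : ⁅L, M⁆ ≤ L ⊓ M := by
    rw [Subgroup.commutator_le]
    intro a ha b hb
    refine ⟨?_, ?_⟩
    · have := L.mul_mem ha (hL.nrm b (hMN hb) _ (L.inv_mem ha))
      simpa [commutatorElement_def, mul_assoc] using this
    · exact M.mul_mem (hM.nrm a (hLN ha) _ hb) (M.inv_mem hb)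
  have h2 : Nrm N (L ⊓ M) := fun n hn x hx => ⟨hL.nrm n hn x hx.1, hM.nrm n hn x hx.2⟩
  rcases hL.min _ inf_le_left h2 with h3 | h3
  · exact Or.inr (h1.trans h3)
  rcases hM.min _ inf_le_right h2 with h4 | h4
  · exact Or.inr (h1.trans h4)
  exact Or.inl (h3.symm.trans h4)

/-- the residual core conditions without the subfield condition -/
structure Core (H P : Subgroup (GL ι F)) : Prop where
  le : P ≤ H
  nrm : Nrm H P
  perfect : ⁅P, P⁆ = P
  simple : IsSimpleGroup (P ⧸ (scalars ι F).subgroupOf P)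
  nonscalar : ¬ P ≤ scalars ι F
  span : spanAlg P = ⊤

theorem Core.isResidualCore [Nonempty ι] {H P : Subgroup (GL ι F)} (h : Core H P)
    (hsub : ∀ F₀ : Subfield F, F₀ ≠ ⊤ → ¬ RealisableOver F₀ (matrixSet P)) :
    IsResidualCore H P := by
  refine ⟨h.le, h.nrm, h.perfect, h.simple, fun hc => h.nonscalar ?_, fun g _ hx => ?_,
    absIrr_of_spanAlg_eq_top h.span, hsub⟩
  · rw [← h.perfect, Subgroup.commutator_le]
    intro a ha b hb
    have := hc.is_comm.comm (QuotientGroup.mk (⟨a, ha⟩ : P)) (QuotientGroup.mk (⟨b, hb⟩ : P))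
    rw [← commutatorElement_eq_one_iff_mul_comm, ← QuotientGroup.mk'_apply,
      ← QuotientGroup.mk'_apply, ← map_commutatorElement, QuotientGroup.mk'_apply,
      QuotientGroup.eq_one_iff] at this
    exact this
  · refine mem_scalars_of_comm h.span (comm_of_perfect h.perfect fun x hxP => ?_)
    simpa [mul_assoc] using (scalars ι F).inv_mem (hx x hxP)

theorem isSimpleGroup_quotient_of_min {G : Type*} [Group G] {Z P : Subgroup G} [Z.Normal]
    (hns : ¬ P ≤ Z) (hmin : ∀ M ≤ P, (∀ h ∈ P, ∀ x ∈ M, h * x * h⁻¹ ∈ M) → M ≤ Z ∨ M = P) :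
    IsSimpleGroup (P ⧸ Z.subgroupOf P) := by
  have : Nontrivial (P ⧸ Z.subgroupOf P) := by
    obtain ⟨x, hx, hxs⟩ := SetLike.not_le_iff_exists.1 hns
    exact ⟨QuotientGroup.mk ⟨x, hx⟩, 1, fun h1 => hxs ((QuotientGroup.eq_one_iff (⟨x, hx⟩ : P)).1 h1)⟩
  refine ⟨fun M hM => ?_⟩
  let M' := (M.comap (QuotientGroup.mk' _)).map P.subtype
  rcases hmin M' (Subgroup.map_subtype_le _) (by
    rintro g hg _ ⟨x, hx, rfl⟩
    exact ⟨⟨g, hg⟩ * x * ⟨g, hg⟩⁻¹, (hM.comap _).conj_mem x hx _, rfl⟩) with h1 | h1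
  · left
    rw [eq_bot_iff]
    intro q hq
    obtain ⟨x, rfl⟩ := QuotientGroup.mk_surjective q
    exact (QuotientGroup.eq_one_iff _).2 (h1 ⟨x, hq, rfl⟩)
  · right
    rw [eq_top_iff]
    intro q _
    obtain ⟨x, rfl⟩ := QuotientGroup.mk_surjective q
    obtain ⟨y, hy, hyx⟩ : (x : G) ∈ M' := h1.symm ▸ x.2
    rw [← Subtype.ext hyx]
    exact hy

theorem MinNS.isSimpleGroup {P : Subgroup (GL ι F)} (h : MinNS P P) :
    IsSimpleGroup (P ⧸ (scalars ι F).subgroupOf P) :=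
  isSimpleGroup_quotient_of_min h.nonscalar h.min

/-- the `i`-th tensor factor on groups -/
def facG {T κ : Type} [Fintype T] [DecidableEq T] [Fintype κ] [DecidableEq κ] (i : T) :
    GL κ F →* GL (T → κ) F := Units.map (fac i : Matrix κ κ F →ₐ[F] Matrix (T → κ) (T → κ) F)

@[simp] theorem coe_facG {T κ : Type} [Fintype T] [DecidableEq T] [Fintype κ] [DecidableEq κ]
    (i : T) (x : GL κ F) : (facG i x : Matrix (T → κ) (T → κ) F) = fac i (x : Matrix κ κ F) := rfl

/-- the tensor induced configuration -/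
structure TensorInd (H N : Subgroup (GL ι F)) (t m : ℕ) (e : ι ≃ (Fin t → Fin m)) (P : GL ι F)
    (L : Subgroup (GL (Fin m) F)) : Prop where
  le : N ≤ H
  nrm : Nrm H N
  span : spanAlg N = ⊤
  perfect : ⁅N, N⁆ = N
  two_le_t : 2 ≤ t
  two_le_m : 2 ≤ m
  perfectL : ⁅L, L⁆ = L
  spanL : spanAlg L = ⊤
  mem : ∀ i, ∀ x ∈ L, trG e P (facG i x) ∈ N
  gen : ∀ K : Subgroup (GL ι F), (∀ i, ∀ x ∈ L, trG e P (facG i x) ∈ K) → N ≤ K
  wreath : ∀ h ∈ H, ∃ (σ : Equiv.Perm (Fin t)) (a : Fin t → GL (Fin m) F),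
    h = trG e P (facPerm (Fin m) F σ * tpwG a)

theorem TensorInd.le_wreath {H N : Subgroup (GL ι F)} {t m : ℕ} {e : ι ≃ (Fin t → Fin m)}
    {P : GL ι F} {L : Subgroup (GL (Fin m) F)} (h : TensorInd H N t m e P L) :
    H ≤ tensorWreathSubgroup m t e P := by
  intro g hg
  obtain ⟨σ, a, rfl⟩ := h.wreath g hg
  rw [mem_tensorWreathSubgroup]
  simpa using mem_tensorWreathStandard_of σ a

theorem MinNS.perfect_case [Finite F] [Nonempty ι] {H N : Subgroup (GL ι F)} (h : MinNS H N)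
    (hle : N ≤ H) (hN : spanAlg N = ⊤) (hperf : ⁅N, N⁆ = N) :
    Core H N ∨ ∃ t m e P L, TensorInd H N t m e P L := by
  classical
  obtain ⟨L, hLN, hL⟩ := exists_minNS (nrm_self N) h.nonscalar
  have hcs : ∀ g ∈ H, MinNS N (H26.cs g L) := fun g hg => hL.cs h.nrm hg
  have hcsle : ∀ g ∈ H, H26.cs g L ≤ N := fun g hg => h.nrm.cs_le hLN hg
  have hgen : ∀ K : Subgroup (GL ι F), (∀ g ∈ H, H26.cs g L ≤ K) → N ≤ K := by
    intro K hK
    let J : Subgroup (GL ι F) := ⨆ g ∈ H, H26.cs g L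
    have hJ0 : ∀ g ∈ H, H26.cs g L ≤ J := fun g hg => le_iSup₂_of_le g hg le_rfl
    have hJ : Nrm H J := by
      intro g hg x hx
      have : J ≤ J.comap (MulAut.conj g).toMonoidHom := iSup₂_le fun k hk y hy => by
        have h1 : g * y * g⁻¹ ∈ H26.cs (g * k) L := by
          rw [← cs_cs]
          exact conj_mem_cs hy
        exact Subgroup.mem_comap.2 (hJ0 _ (H.mul_mem hg hk) h1)
      exact this hx
    have := (h.min J (iSup₂_le hcsle) hJ).resolve_left fun h1 => hL.nonscalar (by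
      have := (hJ0 1 H.one_mem).trans h1
      rwa [cs_one] at this)
    rw [← this]
    exact iSup₂_le hK
  have hLperf : ⁅L, L⁆ = L := by
    refine (hL.min _ (Subgroup.commutator_le_self L) (hL.nrm.commutator hL.nrm)).resolve_left
      fun h1 => h.nonscalar ?_
    have h2 : ∀ g ∈ H, ∀ k ∈ H, ⁅H26.cs g L, H26.cs k L⁆ ≤ scalars ι F := by
      intro g hg k hk
      rcases (hcs g hg).eq_or_commutator_le (hcs k hk) (hcsle g hg) (hcsle k hk) with h3 | h3
      · rw [← h3, ← cs_commutator]; exact cs_le_scalars h1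
      · exact h3
    rw [← hperf, commutator_le_scalars_iff]
    intro a ha b hb
    let π := QuotientGroup.mk' (scalars ι F)
    refine Subgroup.mem_centralizer_singleton_iff.1
      (hgen ((Subgroup.centralizer {π b}).comap π) (fun g hg a ha => ?_) ha)
    refine Subgroup.mem_centralizer_singleton_iff.2 (Subgroup.mem_centralizer_singleton_iff.1
      (hgen ((Subgroup.centralizer {π a}).comap π) (fun k hk b hb => ?_) hb)).symm
    exact Subgroup.mem_centralizer_singleton_iff.2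
      (commutator_le_scalars_iff.1 (h2 g hg k hk) a ha b hb).symm
  have hcomm : ∀ g ∈ H, ∀ k ∈ H, H26.cs g L ≠ H26.cs k L →
      ∀ x ∈ H26.cs g L, ∀ y ∈ H26.cs k L, x * y = y * x := by
    intro g hg k hk hne x hx y hy
    have h3 := ((hcs g hg).eq_or_commutator_le (hcs k hk) (hcsle g hg) (hcsle k hk)).resolve_left hne
    refine comm_of_perfect (A := H26.cs g L) (by rw [← cs_commutator, hLperf]) (fun x hx => ?_) x hx
    exact h3 (Subgroup.commutator_mem_commutator hx hy)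
  have hcomm' : ∀ g ∈ H, ∀ k ∈ H, H26.cs g L ≠ H26.cs k L →
      ∀ x ∈ spanAlg (H26.cs g L), ∀ y ∈ spanAlg (H26.cs k L), x * y = y * x := by
    intro g hg k hk hne x hx y hy
    refine comm_of_mem_spanAlg (fun a ha => (comm_of_mem_spanAlg (fun b hb => ?_) hy).symm) hx
    rw [← Units.val_mul, ← hcomm g hg k hk hne a ha b hb, Units.val_mul]
  by_cases hall : ∀ g ∈ H, H26.cs g L = L
  · left
    have : L = N := le_antisymm hLN (hgen L fun g hg => (hall g hg).le)
    subst this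
    exact ⟨hle, h.nrm, hperf, hL.isSimpleGroup, h.nonscalar, hN⟩
  right
  let T : Set (Subgroup (GL ι F)) := {K | ∃ g ∈ H, H26.cs g L = K}
  have : Fintype T := Fintype.ofFinite T
  let ε := Fintype.equivFin T
  have hex : ∀ i : Fin (Fintype.card T), ∃ g ∈ H, H26.cs g L = ε.symm i := fun i => (ε.symm i).2
  choose hs hsH hsL using hex
  have hidx : ∀ g ∈ H, ∃ i, H26.cs (hs i) L = H26.cs g L := fun g hg =>
    ⟨ε ⟨_, g, hg, rfl⟩, by simp [hsL]⟩
  have hinj : ∀ i j, H26.cs (hs i) L = H26.cs (hs j) L → i = j := fun i j hij =>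
    ε.symm.injective (Subtype.ext (by rw [← hsL, ← hsL, hij]))
  have ht : 2 ≤ Fintype.card T := by
    push Not at hall
    obtain ⟨g, hg, hne⟩ := hall
    exact Fintype.one_lt_card_iff.2 ⟨⟨_, g, hg, rfl⟩, ⟨_, 1, H.one_mem, rfl⟩,
      fun h => hne (by simpa using congrArg Subtype.val h)⟩
  obtain ⟨m, hm, φ, hφ⟩ := hL.nrm.stable_spanAlg.exists_algHom (irr_of_spanAlg_eq_top hN) (by
    intro z hz hzc
    refine scalar_of_comm hN fun n hn => ?_
    let K : Subgroup (GL ι F) :=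
      { carrier := {g | cj g z = z}
        mul_mem' := fun {a b} ha hb => by
          change cj (a * b) z = z
          rw [cj_mul, hb, ha]
        one_mem' := cj_one z
        inv_mem' := fun {a} ha => by
          change cj a⁻¹ z = z
          conv_lhs => rw [← ha, cj_inv_cj] }
    refine (cj_eq_self_iff _ _).1 (hgen K (fun g hg x hx => (cj_eq_self_iff _ _).2 ?_) hn)
    by_cases hgL : H26.cs g L = H26.cs 1 L
    · exact hzc _ (coe_mem_spanAlg (by simpa [hgL] using hx))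
    · exact hcomm' g hg 1 H.one_mem hgL _ (coe_mem_spanAlg hx) z (by simpa using hz))
  have : Nonempty (Fin m) := ⟨⟨0, hm⟩⟩
  have hφinj : Function.Injective φ := (φ : Matrix (Fin m) (Fin m) F →+* Matrix ι ι F).injective
  let φs : Fin (Fintype.card T) → Matrix (Fin m) (Fin m) F →ₐ[F] Matrix ι ι F :=
    fun i => (cj (hs i)).toAlgHom.comp φ
  have hφs : ∀ i x, x ∈ spanAlg (H26.cs (hs i) L) ↔ ∃ y, φs i y = x := by
    intro i x
    rw [mem_spanAlg_cs, ← hφ]
    constructor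
    · rintro ⟨y, hy⟩
      exact ⟨y, by change cj _ (φ y) = x; rw [show φ y = _ from hy]; simp⟩
    · rintro ⟨y, rfl⟩
      exact ⟨y, by change φ y = cj _ (cj _ (φ y)); simp⟩
  obtain ⟨e, P, hP⟩ := exists_tensorPower φs
    (fun i j hij x y => hcomm' _ (hsH i) _ (hsH j) (fun h => hij (hinj i j h)) _
      ((hφs i _).2 ⟨x, rfl⟩) _ ((hφs j _).2 ⟨y, rfl⟩))
    (fun A hA => by
      rw [eq_top_iff, ← hN]
      let K : Subgroup (GL ι F) := A.toSubmonoid.units
      refine spanAlg_le fun n hn => (hgen K (fun g hg x hx => ?_) hn).1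
      obtain ⟨i, hi⟩ := hidx g hg
      rw [← hi] at hx
      obtain ⟨y, hy⟩ := (hφs i _).1 (coe_mem_spanAlg hx)
      obtain ⟨y', hy'⟩ := (hφs i _).1 (coe_mem_spanAlg (Subgroup.inv_mem _ hx))
      have h1 : (x : Matrix ι ι F) ∈ A := hy ▸ hA i y
      have h2 : ((x⁻¹ : GL ι F) : Matrix ι ι F) ∈ A := hy' ▸ hA i y'
      exact ⟨h1, h2⟩)
  let Φ : GL (Fin m) F →* GL ι F := Units.map (φ : Matrix (Fin m) (Fin m) F →* Matrix ι ι F)
  have hΦinj : Function.Injective Φ := fun a b hab => Units.ext (hφinj (congrArg Units.val hab))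
  have hΦ : ∀ x ∈ L, ∃ y, Φ y = x := by
    intro x hx
    obtain ⟨y, hy⟩ : (x : Matrix ι ι F) ∈ φ.range := hφ ▸ coe_mem_spanAlg hx
    obtain ⟨y', hy'⟩ : ((x⁻¹ : GL ι F) : Matrix ι ι F) ∈ φ.range :=
      hφ ▸ coe_mem_spanAlg (L.inv_mem hx)
    change φ y = _ at hy
    change φ y' = _ at hy'
    exact ⟨⟨y, y', hφinj (by simp [hy, hy']), hφinj (by simp [hy, hy'])⟩, Units.ext hy⟩
  have hmap : (L.comap Φ).map Φ = L := Subgroup.map_comap_eq_self fun x hx => hΦ x hx
  have htr : ∀ i x, trG e P (facG i x) = hs i * Φ x * (hs i)⁻¹ := fun i x => Units.ext (by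
    rw [coe_trG, coe_facG, ← hP]; rfl)
  refine ⟨_, m, e, P, L.comap Φ, hle, h.nrm, hN, hperf, ht, ?_, ?_, ?_, ?_, ?_, ?_⟩
  · by_contra! hm2
    have : Subsingleton (Fin m) := Fin.subsingleton_iff_le_one.2 (by omega)
    apply hL.nonscalar
    intro x hx
    obtain ⟨y, rfl⟩ := hΦ x hx
    refine mem_scalars_of_eq_smul (c := (y : Matrix (Fin m) (Fin m) F) ⟨0, hm⟩ ⟨0, hm⟩) ?_
    change φ y = _
    rw [← map_one φ, ← map_smul]
    congr 1
    ext i j
    simp [Subsingleton.elim i ⟨0, hm⟩, Subsingleton.elim j ⟨0, hm⟩]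
  · apply Subgroup.map_injective hΦinj
    rw [Subgroup.map_commutator, hmap, hLperf]
  · rw [eq_top_iff]
    intro y _
    have : ∃ y' ∈ spanAlg (L.comap Φ), φ y' = φ y := by
      refine spanAlg_induction (p := fun x => ∃ y' ∈ spanAlg (L.comap Φ), φ y' = x) ?_
        ⟨0, zero_mem _, map_zero _⟩ ?_ ?_ (hφ ▸ ⟨y, rfl⟩ : φ y ∈ spanAlg L)
      · intro x hx
        obtain ⟨y, rfl⟩ := hΦ x hx
        exact ⟨y, coe_mem_spanAlg hx, rfl⟩
      · rintro _ _ ⟨a, ha, rfl⟩ ⟨b, hb, rfl⟩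
        exact ⟨a + b, add_mem ha hb, map_add _ _ _⟩
      · rintro c _ ⟨a, ha, rfl⟩
        exact ⟨c • a, Subalgebra.smul_mem _ ha c, map_smul _ _ _⟩
    obtain ⟨y', hy', hyy⟩ := this
    exact hφinj hyy ▸ hy'
  · intro i x hx
    rw [htr]
    exact hcsle _ (hsH i) (conj_mem_cs hx)
  · intro K hK
    refine hgen K fun g hg x hx => ?_
    obtain ⟨i, hi⟩ := hidx g hg
    rw [← hi] at hx
    obtain ⟨x, hx, rfl⟩ := hx
    obtain ⟨y, rfl⟩ := hΦ x hx
    have := hK i y hx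
    rwa [htr] at this
  · intro g hg
    choose s hs' using fun i => hidx (g * hs i) (H.mul_mem hg (hsH i))
    have hsinj : Function.Injective s := fun i j hij => hinj i j (by
      have h1 : H26.cs (g * hs i) L = H26.cs (g * hs j) L := by rw [← hs', ← hs', hij]
      have h2 := congrArg (H26.cs g⁻¹) h1
      simpa [cs_cs] using h2)
    let σ := Equiv.ofBijective s (Finite.injective_iff_bijective.1 hsinj)
    have : Nonempty (Fin (Fintype.card T)) := ⟨⟨0, by omega⟩⟩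
    obtain ⟨a, ha⟩ := exists_eq_facPerm_mul ((trG e P).symm g) σ fun i x => by
      obtain ⟨y, hy⟩ := (hφs (s i) (cj g (φs i x))).1 (by
        rw [hs', ← cs_cs, mem_spanAlg_cs, cj_inv_cj]
        exact (hφs i _).2 ⟨x, rfl⟩)
      refine ⟨y, (trA e P).injective ?_⟩
      rw [trA_cj, ← hP, ← hP, MulEquiv.apply_symm_apply]
      exact hy.symm
    exact ⟨σ, a, by rw [← ha]; simp⟩

/-- the main trichotomy -/
theorem structure_of_aqp [Finite F] [Nonempty ι] {H : Subgroup (GL ι F)} (hns : ¬ H ≤ scalars ι F)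
    (haqp : ∀ N ≤ H, Nrm H N → N ≤ scalars ι F ∨ spanAlg N = ⊤) :
    (∃ r R, R ≤ H ∧ Nrm H R ∧ RType r R) ∨ (∃ P, Core H P) ∨
      ∃ N t m e P L, TensorInd H N t m e P L := by
  obtain ⟨N, hle, hN⟩ := exists_minNS (nrm_self H) hns
  have hsp := (haqp N hle hN.nrm).resolve_left hN.nonscalar
  rcases hN.min _ (Subgroup.commutator_le_self N) (hN.nrm.commutator hN.nrm) with h | h
  · obtain ⟨r, hr⟩ := hN.rType hsp h
    exact Or.inl ⟨r, N, hle, hN.nrm, hr⟩
  · rcases hN.perfect_case hle hsp h with h1 | h1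
    · exact Or.inr (Or.inl ⟨N, h1⟩)
    · exact Or.inr (Or.inr ⟨N, h1⟩)

end Cfsg.Agent.H26
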