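import Mathlib
import Cfsg.Agent.H26.Struct

/-! Sesquilinear forms through Gram matrices; invariant forms. -/

set_option autoImplicit false
set_option maxHeartbeats 400000

namespace Cfsg.Agent.H26

open Matrix Cfsg.Geo
open scoped Kronecker

variable {ι κ : Type} [Fintype ι] [DecidableEq ι] [Fintype κ] [DecidableEq κ]
  {F : Type*} [Field F]

/-- the form with Gram matrix `G`, `σ`-semilinear in the second argument -/
def fm (σ : F →+* F) (G : Matrix ι ι F) (u v : ι → F) : F := u ⬝ᵥ G *ᵥ (σ ∘ v)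

omit [DecidableEq ι] in
theorem formOfGram_eq (σ : F →+* F) (G : Matrix ι ι F) (u v : ι → F) :
    formOfGram σ G u v = fm σ G u v := by
  simp [formOfGram, fm, dotProduct, Matrix.mulVec, Finset.mul_sum, mul_assoc]

omit [DecidableEq ι] in
theorem fm_eq_sum (σ : F →+* F) (G : Matrix ι ι F) (u v : ι → F) :
    fm σ G u v = ∑ a, ∑ b, u a * G a b * σ (v b) := (formOfGram_eq σ G u v).symm

@[simp] theorem fm_single (σ : F →+* F) (G : Matrix ι ι F) (a b : ι) :
    fm σ G (Pi.single a 1) (Pi.single b 1) = G a b := by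
  simp [fm_eq_sum, Pi.single_apply, apply_ite σ]

@[simp] theorem gramMatrix_fm (σ : F →+* F) (G : Matrix ι ι F) : gramMatrix (fm σ G) = G := by
  ext a b; simp [gramMatrix]

theorem eq_of_fm_eq {σ : F →+* F} {G G' : Matrix ι ι F} (h : ∀ u v, fm σ G u v = fm σ G' u v) :
    G = G' := by
  ext a b
  simpa using h (Pi.single a 1) (Pi.single b 1)

section
omit [DecidableEq ι]

theorem fm_add_left (σ : F →+* F) (G : Matrix ι ι F) (x y v : ι → F) :
    fm σ G (x + y) v = fm σ G x v + fm σ G y v := by simp [fm]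

theorem fm_smul_left (σ : F →+* F) (G : Matrix ι ι F) (c : F) (x v : ι → F) :
    fm σ G (c • x) v = c * fm σ G x v := by simp [fm]

theorem fm_add_right (σ : F →+* F) (G : Matrix ι ι F) (v x y : ι → F) :
    fm σ G v (x + y) = fm σ G v x + fm σ G v y := by
  simp [fm_eq_sum, mul_add, Finset.sum_add_distrib]

theorem fm_smul_right (σ : F →+* F) (G : Matrix ι ι F) (c : F) (v x : ι → F) :
    fm σ G v (c • x) = σ c * fm σ G v x := by
  simp only [fm_eq_sum, Pi.smul_apply, smul_eq_mul, map_mul, Finset.mul_sum]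
  exact Finset.sum_congr rfl fun _ _ => Finset.sum_congr rfl fun _ _ => by ring

@[simp] theorem fm_zero_left (σ : F →+* F) (G : Matrix ι ι F) (v : ι → F) : fm σ G 0 v = 0 := by
  simp [fm]

@[simp] theorem fm_zero_right (σ : F →+* F) (G : Matrix ι ι F) (v : ι → F) : fm σ G v 0 = 0 := by
  simp [fm_eq_sum]

theorem fm_neg_left (σ : F →+* F) (G : Matrix ι ι F) (x v : ι → F) :
    fm σ G (-x) v = -fm σ G x v := by simp [fm]

theorem fm_neg_right (σ : F →+* F) (G : Matrix ι ι F) (v x : ι → F) :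
    fm σ G v (-x) = -fm σ G v x := by simp [fm_eq_sum]

theorem fm_sub_left (σ : F →+* F) (G : Matrix ι ι F) (x y v : ι → F) :
    fm σ G (x - y) v = fm σ G x v - fm σ G y v := by simp [fm]

theorem fm_sub_right (σ : F →+* F) (G : Matrix ι ι F) (v x y : ι → F) :
    fm σ G v (x - y) = fm σ G v x - fm σ G v y := by
  rw [sub_eq_add_neg, fm_add_right, fm_neg_right, sub_eq_add_neg]

theorem fm_smul (σ : F →+* F) (G : Matrix ι ι F) (c : F) (u v : ι → F) :
    fm σ (c • G) u v = c * fm σ G u v := by simp [fm, Matrix.smul_mulVec]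

theorem fm_sum_left (σ : F →+* F) (G : Matrix ι ι F) {α : Type*} (s : Finset α) (x : α → ι → F)
    (v : ι → F) : fm σ G (∑ i ∈ s, x i) v = ∑ i ∈ s, fm σ G (x i) v := by
  simp [fm, sum_dotProduct]

theorem fm_sum_right (σ : F →+* F) (G : Matrix ι ι F) {α : Type*} (s : Finset α) (x : α → ι → F)
    (v : ι → F) : fm σ G v (∑ i ∈ s, x i) = ∑ i ∈ s, fm σ G v (x i) := by
  classical
  induction s using Finset.induction_on with
  | empty => simp
  | insert a s ha ih => rw [Finset.sum_insert ha, Finset.sum_insert ha, fm_add_right, ih]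

theorem comp_mulVec (σ : F →+* F) (x : Matrix ι ι F) (v : ι → F) :
    σ ∘ (x *ᵥ v) = x.map σ *ᵥ (σ ∘ v) := by
  ext i
  simp [Matrix.mulVec, dotProduct]

theorem fm_mulVec_left (σ : F →+* F) (G x : Matrix ι ι F) (u v : ι → F) :
    fm σ G (x *ᵥ u) v = fm σ (xᵀ * G) u v := by
  simp only [fm, ← Matrix.mulVec_mulVec]
  rw [Matrix.dotProduct_mulVec u, Matrix.vecMul_transpose]

theorem fm_mulVec_right (σ : F →+* F) (G x : Matrix ι ι F) (u v : ι → F) :
    fm σ G u (x *ᵥ v) = fm σ (G * x.map σ) u v := by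
  simp only [fm, comp_mulVec, Matrix.mulVec_mulVec]

theorem fm_mulVec (σ : F →+* F) (G x y : Matrix ι ι F) (u v : ι → F) :
    fm σ G (x *ᵥ u) (y *ᵥ v) = fm σ (xᵀ * G * y.map σ) u v := by
  rw [fm_mulVec_left, fm_mulVec_right]

theorem fm_swap (σ : F →+* F) (hσ : ∀ a, σ (σ a) = a) (G : Matrix ι ι F) (u v : ι → F) :
    σ (fm σ G v u) = fm σ (G.map σ)ᵀ u v := by
  simp only [fm_eq_sum, map_sum, map_mul, hσ, Matrix.transpose_apply, Matrix.map_apply]
  rw [Finset.sum_comm]
  exact Finset.sum_congr rfl fun _ _ => Finset.sum_congr rfl fun _ _ => by ring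

theorem fm_comp_equiv (σ : F →+* F) (G : Matrix ι ι F) (e : ι ≃ κ) (x y : κ → F) :
    fm σ G (x ∘ e) (y ∘ e) = fm σ (G.submatrix e.symm e.symm) x y := by
  simp only [fm_eq_sum]
  rw [← e.sum_comp]
  refine Finset.sum_congr rfl fun a _ => ?_
  rw [← e.sum_comp]
  simp

end

theorem eq_fm_of_sesq (σ : F →+* F) {f : (ι → F) → (ι → F) → F}
    (h1 : ∀ x y v, f (x + y) v = f x v + f y v) (h2 : ∀ (c : F) x v, f (c • x) v = c * f x v)
    (h3 : ∀ v x y, f v (x + y) = f v x + f v y) (h4 : ∀ (c : F) v x, f v (c • x) = σ c * f v x) :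
    f = fm σ (gramMatrix f) := by
  ext u v
  have a1 : ∀ v, f 0 v = 0 := fun v => by simpa using h2 0 0 v
  have a2 : ∀ v, f v 0 = 0 := fun v => by simpa using h4 0 v 0
  let l : (ι → F) → (ι → F) →+ F := fun v => ⟨⟨fun u => f u v, a1 v⟩, fun x y => h1 x y v⟩
  let r : (ι → F) → (ι → F) →+ F := fun u => ⟨⟨fun v => f u v, a2 u⟩, fun x y => h3 u x y⟩
  have hu : u = ∑ a, u a • Pi.single a (1 : F) := by
    ext i; simp [Pi.single_apply]
  have hv : v = ∑ a, v a • Pi.single a (1 : F) := by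
    ext i; simp [Pi.single_apply]
  rw [fm_eq_sum]
  conv_lhs => rw [hu]
  change l v _ = _
  rw [map_sum]
  refine Finset.sum_congr rfl fun a _ => ?_
  conv_lhs => rw [hv]
  change r _ _ = _
  rw [map_sum]
  refine Finset.sum_congr rfl fun b _ => ?_
  change f _ _ = _
  rw [h2, h4, gramMatrix]
  ring

theorem _root_.Cfsg.Geo.IsBilinearForm.h26_eq_fm {f : (ι → F) → (ι → F) → F}
    (h : IsBilinearForm f) : f = fm (RingHom.id F) (gramMatrix f) :=
  eq_fm_of_sesq _ h.add_left h.smul_left h.add_right h.smul_right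

theorem eq_fm_of_herm (σ : F →+* F) (hσ : ∀ a, σ (σ a) = a) {f : (ι → F) → (ι → F) → F}
    (h1 : ∀ x y v, f (x + y) v = f x v + f y v) (h2 : ∀ (c : F) x v, f (c • x) v = c * f x v)
    (h : ∀ v w, f v w = σ (f w v)) :
    f = fm σ (gramMatrix f) ∧ ((gramMatrix f).map σ)ᵀ = gramMatrix f := by
  refine ⟨eq_fm_of_sesq σ h1 h2 (fun v x y => ?_) (fun c v x => ?_), ?_⟩
  · rw [h v, h1, map_add, ← h, ← h]
  · rw [h v, h2, map_mul, ← h]
  · ext a b
    exact (h _ _).symm

theorem isUnit_of_fm_right {σ : F →+* F} (hσ : Function.Surjective σ) {G : Matrix ι ι F}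
    (h : ∀ v, v ≠ 0 → ∃ x, fm σ G x v ≠ 0) : IsUnit G := by
  rw [Matrix.isUnit_iff_isUnit_det, isUnit_iff_ne_zero, Ne, ← Matrix.exists_mulVec_eq_zero_iff]
  rintro ⟨w, hw0, hw⟩
  choose v hv using fun i => hσ (w i)
  have h1 : σ ∘ v = w := funext hv
  obtain ⟨x, hx⟩ := h v (by rintro rfl; apply hw0; rw [← h1]; ext i; simp)
  exact hx (by rw [fm, h1, hw, dotProduct_zero])

theorem exists_fm_ne_zero_left {σ : F →+* F} {G : Matrix ι ι F} (hG : IsUnit G) {v : ι → F}
    (hv : v ≠ 0) : ∃ x, fm σ G x v ≠ 0 := by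
  by_contra! h
  have h1 : G *ᵥ (σ ∘ v) = 0 := by
    ext i
    simpa [fm] using h (Pi.single i 1)
  have h2 := (Matrix.mulVec_injective_iff_isUnit.2 hG) (h1.trans (Matrix.mulVec_zero G).symm)
  apply hv
  ext i
  simpa using congrFun h2 i

theorem exists_fm_ne_zero_right {σ : F →+* F} {G : Matrix ι ι F} (hG : IsUnit G) {v : ι → F}
    (hv : v ≠ 0) : ∃ x, fm σ G v x ≠ 0 := by
  by_contra! h
  have h1 : v ᵥ* G = 0 := by
    ext i
    have := h (Pi.single i 1)
    simpa [fm_eq_sum, Pi.single_apply, apply_ite σ, Matrix.vecMul, dotProduct] using this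
  exact hv ((Matrix.vecMul_injective_iff_isUnit.2 hG) (h1.trans (Matrix.zero_vecMul G).symm))

theorem isNondegenerateForm_fm {σ : F →+* F} {G : Matrix ι ι F} (hG : IsUnit G) :
    IsNondegenerateForm (fm σ G) := fun _ hv =>
  ⟨exists_fm_ne_zero_left hG hv, exists_fm_ne_zero_right hG hv⟩

theorem isUnit_of_nondegenerate {σ : F →+* F} (hσ : Function.Surjective σ) {G : Matrix ι ι F}
    (h : IsNondegenerateForm (fm σ G)) : IsUnit G :=
  isUnit_of_fm_right hσ fun v hv => (h v hv).1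

theorem isBilinearForm_fm (G : Matrix ι ι F) : IsBilinearForm (fm (RingHom.id F) G) :=
  ⟨fm_add_left _ G, fm_smul_left _ G, fm_add_right _ G, fm_smul_right _ G⟩

/-- alternating matrices -/
def Alt (G : Matrix ι ι F) : Prop := Gᵀ = -G ∧ ∀ i, G i i = 0

theorem fm_id_swap (G : Matrix ι ι F) (u v : ι → F) :
    fm (RingHom.id F) G v u = fm (RingHom.id F) Gᵀ u v := by
  simpa using fm_swap (RingHom.id F) (fun _ => rfl) G u v

theorem Alt.fm_self {G : Matrix ι ι F} (h : Alt G) (v : ι → F) : fm (RingHom.id F) G v v = 0 := by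
  rw [fm_eq_sum, ← Finset.sum_product']
  refine Finset.sum_involution (fun p _ => p.swap) ?_ ?_ (by simp) (by simp)
  · rintro ⟨a, b⟩ _
    have := congrFun (congrFun h.1 a) b
    simp only [Matrix.transpose_apply, Matrix.neg_apply] at this
    simp only [RingHom.id_apply, Prod.fst_swap, Prod.snd_swap, this]
    ring
  · rintro ⟨a, b⟩ _ hne heq
    obtain rfl : b = a := congrArg Prod.fst heq
    simp [h.2] at hne

theorem alt_of_fm_self {G : Matrix ι ι F} (h : ∀ v, fm (RingHom.id F) G v v = 0) : Alt G := by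
  refine ⟨?_, fun i => by simpa using h (Pi.single i 1)⟩
  ext a b
  have := h (Pi.single a 1 + Pi.single b 1)
  rw [fm_add_left, fm_add_right, fm_add_right, h, h, fm_single, fm_single] at this
  simp only [Matrix.transpose_apply, Matrix.neg_apply]
  linear_combination this

theorem alt_of_skew {G : Matrix ι ι F} (h2 : (2 : F) ≠ 0) (h : Gᵀ = -G) : Alt G := by
  refine ⟨h, fun i => ?_⟩
  have := congrFun (congrFun h i) i
  simp only [Matrix.transpose_apply, Matrix.neg_apply] at this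
  apply mul_left_cancel₀ h2
  linear_combination this

theorem isSymplecticForm_fm {G : Matrix ι ι F} (h : Alt G) (hG : IsUnit G) :
    IsSymplecticForm (fm (RingHom.id F) G) :=
  ⟨isBilinearForm_fm G, fun v w => by
    rw [fm_id_swap G, h.1, ← neg_one_smul F G, fm_smul]; ring, h.fm_self, isNondegenerateForm_fm hG⟩

theorem isSymmetricForm_fm {G : Matrix ι ι F} (h : Gᵀ = G) (hG : IsUnit G) :
    IsSymmetricForm (fm (RingHom.id F) G) :=
  ⟨isBilinearForm_fm G, fun v w => by rw [fm_id_swap G, h], isNondegenerateForm_fm hG⟩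

theorem isUnitaryForm_fm {σ : F ≃+* F} (h1 : σ ≠ RingEquiv.refl F) (hσ : ∀ a, σ (σ a) = a)
    {G : Matrix ι ι F} (h : (G.map σ)ᵀ = G) (hG : IsUnit G) :
    IsUnitaryForm σ (fm (σ : F →+* F) G) :=
  ⟨h1, hσ, fm_add_left _ G, fm_smul_left _ G, fun v w => by
    have := fm_swap (σ : F →+* F) hσ G v w
    rw [show (G.map (σ : F →+* F))ᵀ = G from h] at this
    exact this.symm, isNondegenerateForm_fm hG⟩

theorem polar_fm_self (G : Matrix ι ι F) (u v : ι → F) :
    QuadraticMap.polar (fun v => fm (RingHom.id F) G v v) u v = fm (RingHom.id F) (G + Gᵀ) u v := by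
  simp only [QuadraticMap.polar, fm_add_left, fm_add_right, fm_id_swap G u v]
  simp only [fm, Matrix.add_mulVec, dotProduct_add]
  ring

theorem isNondegenerateQuadraticForm_fm {G : Matrix ι ι F} (hG : IsUnit (G + Gᵀ)) :
    IsNondegenerateQuadraticForm fun v => fm (RingHom.id F) G v v := by
  have : QuadraticMap.polar (fun v => fm (RingHom.id F) G v v) = fm (RingHom.id F) (G + Gᵀ) := by
    ext u v; exact polar_fm_self G u v
  refine ⟨fun c v => ?_, this ▸ isBilinearForm_fm _, this ▸ isNondegenerateForm_fm hG⟩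
  rw [fm_smul_left, fm_smul_right]
  simp [sq, mul_assoc]

theorem Alt.even_card {G : Matrix ι ι F} (h : Alt G) (h2 : (2 : F) ≠ 0) (hG : IsUnit G) :
    Even (Fintype.card ι) := by
  by_contra hodd
  rw [Nat.not_even_iff_odd] at hodd
  have h1 := congrArg Matrix.det h.1
  rw [Matrix.det_transpose, Matrix.det_neg, hodd.neg_one_pow] at h1
  have h3 := ((Matrix.isUnit_iff_isUnit_det G).1 hG).ne_zero
  exact mul_ne_zero h2 h3 (by linear_combination h1)

/-! ### invariance -/

/-- the Gram matrix of the form after applying `g` -/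
def pull (σ : F →+* F) (G x : Matrix ι ι F) : Matrix ι ι F := xᵀ * G * x.map σ

omit [DecidableEq ι] in
theorem fm_pull (σ : F →+* F) (G x : Matrix ι ι F) (u v : ι → F) :
    fm σ G (x *ᵥ u) (x *ᵥ v) = fm σ (pull σ G x) u v := fm_mulVec σ G x x u v

omit [DecidableEq ι] in
theorem pull_mul (σ : F →+* F) (G x y : Matrix ι ι F) :
    pull σ G (x * y) = pull σ (pull σ G x) y := by
  simp [pull, Matrix.map_mul, mul_assoc]

@[simp] theorem pull_one (σ : F →+* F) (G : Matrix ι ι F) : pull σ G 1 = G := by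
  simp [pull]

omit [DecidableEq ι] in
theorem pull_smul (σ : F →+* F) (c : F) (G x : Matrix ι ι F) :
    pull σ (c • G) x = c • pull σ G x := by
  simp [pull]

omit [DecidableEq ι] in
theorem pull_smul_right (σ : F →+* F) (c : F) (G x : Matrix ι ι F) :
    pull σ G (c • x) = (c * σ c) • pull σ G x := by
  rw [pull, pull, show (c • x).map σ = σ c • x.map σ by ext; simp]
  simp [smul_smul, mul_comm]

theorem isUnit_map (σ : F →+* F) {x : Matrix ι ι F} (hx : IsUnit x) : IsUnit (x.map σ) :=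
  hx.map σ.mapMatrix

theorem isUnit_pull {σ : F →+* F} {G x : Matrix ι ι F} (hG : IsUnit G) (hx : IsUnit x) :
    IsUnit (pull σ G x) :=
  (((Matrix.isUnit_transpose x).2 hx).mul hG).mul (isUnit_map σ hx)

omit [DecidableEq ι] in
theorem pull_conj (σ : F →+* F) (hσ : ∀ a, σ (σ a) = a) (G x : Matrix ι ι F) :
    ((pull σ G x).map σ)ᵀ = pull σ (G.map σ)ᵀ x := by
  have : (x.map σ).map σ = x := by ext; simp [hσ]
  simp [pull, Matrix.map_mul, this, mul_assoc, Matrix.transpose_map]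

theorem mem_similarityGroup_fm {σ : F →+* F} {G : Matrix ι ι F} {g : GL ι F} :
    g ∈ similarityGroup (fm σ G) ↔ ∃ c : F, c ≠ 0 ∧ pull σ G g = c • G := by
  constructor
  · rintro ⟨c, hc⟩
    exact ⟨c, c.ne_zero, eq_of_fm_eq fun u v => by rw [← fm_pull, hc, fm_smul]⟩
  · rintro ⟨c, hc0, hc⟩
    exact ⟨Units.mk0 c hc0, fun u v => by rw [fm_pull, hc, fm_smul]; rfl⟩

/-- the isometry group of the form with Gram matrix `G` -/
def isom (σ : F →+* F) (G : Matrix ι ι F) : Subgroup (GL ι F) :=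
  preserving (Units.coeHom (Matrix ι ι F)) (fm σ G)

theorem mem_isom {σ : F →+* F} {G : Matrix ι ι F} {g : GL ι F} :
    g ∈ isom σ G ↔ pull σ G g = G := by
  constructor
  · exact fun h => eq_of_fm_eq fun u v => by rw [← fm_pull]; exact h u v
  · intro h u v
    change fm σ G ((g : Matrix ι ι F) *ᵥ u) ((g : Matrix ι ι F) *ᵥ v) = _
    rw [fm_pull, h]

theorem fm_isom {σ : F →+* F} {G : Matrix ι ι F} {g : GL ι F} (h : g ∈ isom σ G) (u v : ι → F) :
    fm σ G ((g : Matrix ι ι F) *ᵥ u) ((g : Matrix ι ι F) *ᵥ v) = fm σ G u v := h u v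

theorem isom_le_similarityGroup (σ : F →+* F) (G : Matrix ι ι F) :
    isom σ G ≤ similarityGroup (fm σ G) := fun _ hg => ⟨1, fun u v => by simpa using hg u v⟩

theorem fixesForm_iff {σ : F →+* F} {G : Matrix ι ι F} {N : Subgroup (GL ι F)} :
    FixesForm (matrixSet N) (fm σ G) ↔ N ≤ isom σ G := by
  constructor
  · exact fun h g hg => h _ ⟨g, hg, rfl⟩
  · rintro h _ ⟨g, hg, rfl⟩
    exact h hg

theorem isom_smul {σ : F →+* F} {G : Matrix ι ι F} {c : F} (hc : c ≠ 0) :
    isom σ (c • G) = isom σ G := by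
  ext g
  rw [mem_isom, mem_isom, pull_smul]
  exact (smul_right_injective _ hc).eq_iff

theorem isom_le_isom_smul (σ : F →+* F) (G : Matrix ι ι F) (c : F) :
    isom σ G ≤ isom σ (c • G) := fun g hg => by
  rw [mem_isom] at hg ⊢
  rw [pull_smul, hg]

theorem isom_le_isom_conj {σ : F →+* F} (hσ : ∀ a, σ (σ a) = a) (G : Matrix ι ι F) :
    isom σ G ≤ isom σ (G.map σ)ᵀ := fun g hg => by
  rw [mem_isom] at hg ⊢
  rw [← pull_conj σ hσ, hg]

theorem transpose_mul_of_isom {σ : F →+* F} {G : Matrix ι ι F} {g : GL ι F} (hg : g ∈ isom σ G) :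
    (g : Matrix ι ι F)ᵀ * G = G * ((g⁻¹ : GL ι F) : Matrix ι ι F).map σ := by
  conv_rhs => rw [← mem_isom.1 hg, pull, mul_assoc, ← Matrix.map_mul]
  simp

theorem eq_smul_of_isom {σ : F →+* F} {N : Subgroup (GL ι F)} (hN : spanAlg N = ⊤)
    {G G' : Matrix ι ι F} (hG : IsUnit G) (h : N ≤ isom σ G) (h' : N ≤ isom σ G') :
    ∃ c : F, G' = c • G := by
  have hd := (Matrix.isUnit_iff_isUnit_det G).1 hG
  obtain ⟨c, hc⟩ := scalar_of_comm hN (y := (G' * G⁻¹)ᵀ) fun g hg => by
    apply Matrix.transpose_injective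
    rw [Matrix.transpose_mul (g : Matrix ι ι F), Matrix.transpose_mul _ (g : Matrix ι ι F),
      Matrix.transpose_transpose, ← mul_assoc, transpose_mul_of_isom (h' hg), mul_assoc, mul_assoc]
    congr 1
    rw [← mul_one (G⁻¹ * _), ← Matrix.mul_nonsing_inv G hd, ← mul_assoc, mul_assoc G⁻¹,
      transpose_mul_of_isom (h hg), ← mul_assoc, Matrix.nonsing_inv_mul G hd, one_mul]
  refine ⟨c, ?_⟩
  have h1 : G' * G⁻¹ = c • 1 := by
    rw [← Matrix.transpose_transpose (G' * G⁻¹), hc]; simp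
  rw [← mul_one G', ← Matrix.nonsing_inv_mul G hd, ← mul_assoc, h1]
  simp

theorem Nrm.le_similarityGroup [Nonempty ι] {σ : F →+* F} {H N : Subgroup (GL ι F)} (hHN : Nrm H N)
    (hN : spanAlg N = ⊤) {G : Matrix ι ι F} (hG : IsUnit G) (h : N ≤ isom σ G) :
    H ≤ similarityGroup (fm σ G) := by
  intro g hg
  obtain ⟨c, hc⟩ := eq_smul_of_isom hN hG h (G' := pull σ G g) fun n hn => by
    rw [mem_isom, ← pull_mul, ← Units.val_mul, show g * n = (g * n * g⁻¹) * g by simp,
      Units.val_mul, pull_mul, mem_isom.1 (h (hHN g hg n hn))]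
  refine mem_similarityGroup_fm.2 ⟨c, ?_, hc⟩
  rintro rfl
  exact (isUnit_pull hG g.isUnit).ne_zero (by rw [hc, zero_smul])

theorem exists_conj_eq_smul {σ : F →+* F} (hσ : ∀ a, σ (σ a) = a) {N : Subgroup (GL ι F)}
    (hN : spanAlg N = ⊤) {G : Matrix ι ι F} (hG : IsUnit G) (h : N ≤ isom σ G) :
    ∃ c : F, (G.map σ)ᵀ = c • G :=
  eq_smul_of_isom hN hG h (h.trans (isom_le_isom_conj hσ G))

theorem trace_eq_of_isom {σ : F →+* F} {G : Matrix ι ι F} (hG : IsUnit G) {g : GL ι F}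
    (hg : g ∈ isom σ G) :
    (g : Matrix ι ι F).trace = σ ((g⁻¹ : GL ι F) : Matrix ι ι F).trace := by
  have hd := (Matrix.isUnit_iff_isUnit_det G).1 hG
  have h1 : (g : Matrix ι ι F)ᵀ = G * ((g⁻¹ : GL ι F) : Matrix ι ι F).map σ * G⁻¹ := by
    rw [← transpose_mul_of_isom hg, Matrix.mul_nonsing_inv_cancel_right _ _ hd]
  rw [← Matrix.trace_transpose, h1, Matrix.trace_mul_cycle, Matrix.nonsing_inv_mul G hd, one_mul]
  exact (AddMonoidHom.map_trace (σ : F →+ F) _).symm

theorem mul_conj_eq_one [Nonempty ι] {σ : F →+* F} (hσ : ∀ a, σ (σ a) = a) {G : Matrix ι ι F}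
    (hG : IsUnit G) {c : F} (h : (G.map σ)ᵀ = c • G) : c * σ c = 1 := by
  have h1 : G = (c * σ c) • G := by
    have h2 : (((G.map σ)ᵀ).map σ)ᵀ = G := by ext; simp [hσ]
    have h3 : ((c • G).map σ)ᵀ = σ c • (G.map σ)ᵀ := by ext; simp
    conv_lhs => rw [← h2, h, h3, h, smul_smul, mul_comm]
  by_contra hne
  apply hG.ne_zero
  have : (1 - c * σ c) • G = 0 := by rw [sub_smul, one_smul, ← h1, sub_self]
  exact (smul_eq_zero.1 this).resolve_left (sub_ne_zero.2 (Ne.symm hne))

/-- Hilbert 90 for an involution -/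
theorem exists_hilbert90 {σ : F →+* F} (hσ : ∀ a, σ (σ a) = a) (S : Subfield F)
    (hS : ∀ a ∈ S, σ a ∈ S) (hne : ∃ a ∈ S, σ a ≠ a) {c : F} (hcS : c ∈ S) (hc : c * σ c = 1) :
    ∃ d ∈ S, d ≠ 0 ∧ σ d * c = d := by
  obtain ⟨a, haS, ha⟩ := hne
  have key : ∀ b, σ (b + σ b * c) * c = b + σ b * c := fun b => by
    rw [map_add, map_mul, hσ]; linear_combination b * hc
  by_cases h1 : (1 : F) + σ 1 * c = 0
  · refine ⟨a + σ a * c, add_mem haS (mul_mem (hS a haS) hcS), fun h0 => ha ?_, key a⟩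
    rw [map_one, one_mul] at h1
    linear_combination (-1 : F) * h0 + σ a * h1
  · exact ⟨_, add_mem S.one_mem (mul_mem (hS 1 S.one_mem) hcS), h1, key 1⟩

theorem exists_smul_herm [Nonempty ι] {σ : F →+* F} (hσ : ∀ a, σ (σ a) = a) (hne : ∃ a, σ a ≠ a)
    {G : Matrix ι ι F} (hG : IsUnit G) {c : F} (h : (G.map σ)ᵀ = c • G) :
    ∃ d : F, d ≠ 0 ∧ ((d • G).map σ)ᵀ = d • G := by
  obtain ⟨d, -, hd0, hd⟩ := exists_hilbert90 hσ ⊤ (fun _ _ => trivial)
    (hne.imp fun a ha => ⟨trivial, ha⟩) trivial (mul_conj_eq_one hσ hG h)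
  refine ⟨d, hd0, ?_⟩
  rw [show ((d • G).map σ)ᵀ = σ d • (G.map σ)ᵀ by ext; simp, h, smul_smul, hd]

theorem symm_or_skew [Nonempty ι] {G : Matrix ι ι F} (hG : IsUnit G) {c : F} (h : Gᵀ = c • G) :
    Gᵀ = G ∨ Gᵀ = -G := by
  have := mul_conj_eq_one (σ := RingHom.id F) (fun _ => rfl) hG (c := c) (by simpa using h)
  rcases mul_self_eq_one_iff.1 this with rfl | rfl
  · left; simpa using h
  · right; simpa using h

theorem eq_zero_of_trace_mul {N : Set (Matrix ι ι F)} (hN : Submodule.span F N = ⊤)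
    {y : Matrix ι ι F} (h : ∀ g ∈ N, (y * g).trace = 0) : y = 0 := by
  have : ∀ x, (y * x).trace = 0 := fun x =>
    Submodule.span_induction (p := fun x _ => (y * x).trace = 0) h (by simp)
      (fun a b _ _ h1 h2 => by rw [mul_add, Matrix.trace_add, h1, h2, add_zero])
      (fun c a _ h1 => by rw [mul_smul_comm, Matrix.trace_smul, h1, smul_zero])
      (hN ▸ Submodule.mem_top : x ∈ Submodule.span F N)
  ext i j
  simpa [Matrix.trace_mul_single] using this (single j i 1)

theorem span_matrixSet_eq_top {N : Subgroup (GL ι F)} (hN : spanAlg N = ⊤) :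
    Submodule.span F (matrixSet N) = ⊤ := by
  rw [eq_top_iff]; intro x _; exact mem_spanAlg.1 (hN ▸ Algebra.mem_top)

/-- two spanning representations with the same trace are equivalent -/
theorem exists_intertwiner [Nonempty ι] {N : Subgroup (GL ι F)} (hN : spanAlg N = ⊤)
    (ρ : N →* Matrix ι ι F) (hρ : Submodule.span F (Set.range ρ) = ⊤)
    (htr : ∀ g : N, (ρ g).trace = ((g : GL ι F) : Matrix ι ι F).trace) :
    ∃ T : GL ι F, ∀ g : N, ρ g = cj T ((g : GL ι F) : Matrix ι ι F) := by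
  let α : (N →₀ F) →ₗ[F] Matrix ι ι F :=
    Finsupp.linearCombination F fun g : N => ((g : GL ι F) : Matrix ι ι F)
  let β : (N →₀ F) →ₗ[F] Matrix ι ι F := Finsupp.linearCombination F fun g : N => ρ g
  have hα : LinearMap.range α = ⊤ := by
    rw [Finsupp.range_linearCombination, ← span_matrixSet_eq_top hN]
    congr 1
    ext x
    simp [matrixSet]
  have hker : ∀ c, α c = 0 → β c = 0 := by
    intro c hc
    refine eq_zero_of_trace_mul hρ ?_
    rintro _ ⟨g, rfl⟩
    have h1 : (α c * ((g : GL ι F) : Matrix ι ι F)).trace = 0 := by rw [hc]; simp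
    rw [← h1]
    simp only [α, β, Finsupp.linearCombination_apply, Finsupp.sum, Finset.sum_mul, smul_mul_assoc,
      Matrix.trace_sum, Matrix.trace_smul, ← map_mul, htr]
    rfl
  obtain ⟨s, hs⟩ := α.exists_rightInverse_of_surjective hα
  have hψ : ∀ c, (β ∘ₗ s) (α c) = β c := by
    intro c
    have h1 : α (s (α c) - c) = 0 := by
      rw [map_sub, ← LinearMap.comp_apply, hs]; simp
    have := hker _ h1
    rwa [map_sub, sub_eq_zero] at this
  have hψg : ∀ g : N, (β ∘ₗ s) ((g : GL ι F) : Matrix ι ι F) = ρ g := fun g => by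
    simpa [α, β] using hψ (Finsupp.single g 1)
  let ψ : Matrix ι ι F →ₐ[F] Matrix ι ι F := AlgHom.ofLinearMap (β ∘ₗ s)
    (by simpa using hψg 1) (fun x y => by
      refine spanAlg_induction (p := fun x => (β ∘ₗ s) (x * y) = (β ∘ₗ s) x * (β ∘ₗ s) y) ?_
        (by simp) ?_ ?_ (hN ▸ Algebra.mem_top : x ∈ spanAlg N)
      · intro a ha
        refine spanAlg_induction
          (p := fun y => (β ∘ₗ s) ((a : Matrix ι ι F) * y) = (β ∘ₗ s) a * (β ∘ₗ s) y) ?_
          (by simp) ?_ ?_ (hN ▸ Algebra.mem_top : y ∈ spanAlg N)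
        · intro b hb
          rw [hψg ⟨a, ha⟩, hψg ⟨b, hb⟩, ← map_mul, ← hψg]
          rfl
        · intro u v h1 h2; rw [mul_add, map_add, map_add, h1, h2, mul_add]
        · intro c u h1; rw [mul_smul_comm, map_smul, map_smul, h1, mul_smul_comm]
      · intro u v h1 h2; rw [add_mul, map_add, map_add, h1, h2, add_mul]
      · intro c u h1; rw [smul_mul_assoc, map_smul, map_smul, h1, smul_mul_assoc])
  obtain ⟨T, hT⟩ := exists_conj_of_algHom ψ
  exact ⟨T, fun g => by rw [← hψg, cj_apply, ← hT]; rfl⟩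

/-- existence of an invariant form from the trace condition -/
theorem exists_isom_of_trace [Nonempty ι] {σ : F →+* F} (hσ : Function.Surjective σ)
    {N : Subgroup (GL ι F)} (hN : spanAlg N = ⊤)
    (htr : ∀ g ∈ N, (g : Matrix ι ι F).trace = σ ((g⁻¹ : GL ι F) : Matrix ι ι F).trace) :
    ∃ G : Matrix ι ι F, IsUnit G ∧ N ≤ isom σ G := by
  let ρ : N →* Matrix ι ι F :=
    { toFun := fun g => ((((g : GL ι F)⁻¹ : GL ι F) : Matrix ι ι F).map σ)ᵀ
      map_one' := by simp
      map_mul' := fun a b => by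
        rw [← Matrix.transpose_mul, ← Matrix.map_mul, ← Units.val_mul, ← _root_.mul_inv_rev]; rfl }
  obtain ⟨T, hT⟩ := exists_intertwiner hN ρ (by
    rw [eq_top_iff]
    intro x _
    choose y hy using fun i j => hσ (x j i)
    have hx : x = ((Matrix.of y).map σ)ᵀ := by ext i j; simp [hy]
    rw [hx]
    refine spanAlg_induction (p := fun y => (y.map σ)ᵀ ∈ Submodule.span F (Set.range ρ)) ?_
      (by simp) ?_ ?_ (hN ▸ Algebra.mem_top : Matrix.of y ∈ spanAlg N)
    · intro g hg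
      exact Submodule.subset_span ⟨⟨g⁻¹, N.inv_mem hg⟩, by simp [ρ]⟩
    · intro a b h1 h2
      rw [Matrix.map_add _ (map_add σ), Matrix.transpose_add]
      exact add_mem h1 h2
    · intro c a h1
      rw [show ((c • a).map σ)ᵀ = σ c • (a.map σ)ᵀ by ext; simp]
      exact Submodule.smul_mem _ _ h1) (fun g => by
    rw [htr g g.2]
    change (_ : Matrix ι ι F)ᵀ.trace = _
    rw [Matrix.trace_transpose]
    exact (AddMonoidHom.map_trace (σ : F →+ F) _).symm)
  refine ⟨(T : Matrix ι ι F)ᵀ, (Matrix.isUnit_transpose _).2 T.isUnit, fun g hg => ?_⟩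
  have h1 := cj_mul_coe T (g : Matrix ι ι F)
  rw [← hT ⟨g, hg⟩] at h1
  change (_ : Matrix ι ι F)ᵀ * _ = _ at h1
  rw [mem_isom, pull, ← Matrix.transpose_mul, ← h1, Matrix.transpose_mul,
    Matrix.transpose_transpose, mul_assoc, ← Matrix.map_mul]
  simp

end Cfsg.Agent.H26
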