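import Mathlib
import Cfsg.Agent.H26.Forms

/-! Aschbacher's theorem in the linear case. -/

set_option autoImplicit false
set_option maxHeartbeats 400000

namespace Cfsg.Agent.H26

open Matrix Cfsg.Geo
open scoped Kronecker

variable {ι κ : Type} [Fintype ι] [DecidableEq ι] [Fintype κ] [DecidableEq κ]
  {F : Type*} [Field F]

theorem Alt.even_card' {G : Matrix ι ι F} (h : Alt G) (hG : IsUnit G) :
    Even (Fintype.card ι) := by
  classical
  by_contra hodd
  rw [Nat.not_even_iff_odd] at hodd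
  letI : LinearOrder ι := LinearOrder.lift' (Fintype.equivFin ι) (Fintype.equivFin ι).injective
  let X : Matrix ι ι (MvPolynomial (ι × ι) ℤ) := Matrix.of fun i j =>
    if i < j then MvPolynomial.X (i, j) else if j < i then -MvPolynomial.X (j, i) else 0
  have hX : Xᵀ = -X := by
    ext1 i j
    rcases lt_trichotomy i j with h | h | h
    · simp [X, h, h.not_gt]
    · simp [X, h]
    · simp [X, h, h.not_gt]
  have h1 := congrArg Matrix.det hX
  rw [Matrix.det_transpose, Matrix.det_neg, hodd.neg_one_pow] at h1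
  have h2 : X.det = 0 := by
    have : (2 : MvPolynomial (ι × ι) ℤ) * X.det = 0 := by linear_combination h1
    exact (mul_eq_zero.1 this).resolve_left two_ne_zero
  let φ : MvPolynomial (ι × ι) ℤ →+* F := MvPolynomial.eval₂Hom (Int.castRingHom F) fun p => G p.1 p.2
  have h3 : φ.mapMatrix X = G := by
    ext i j
    have := congrFun (congrFun h.1 i) j
    simp only [Matrix.transpose_apply, Matrix.neg_apply] at this
    rcases lt_trichotomy i j with h' | h' | h'
    · simp [X, φ, h']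
    · simp [X, h', h.2]
    · simp [X, φ, h', h'.not_gt, this]
  apply ((Matrix.isUnit_iff_isUnit_det G).1 hG).ne_zero
  rw [← h3, ← φ.map_det, h2, map_zero]

theorem two_ne_zero_iff_odd [Fintype F] : (2 : F) ≠ 0 ↔ Odd (Fintype.card F) := by
  rw [Nat.odd_iff, ← Nat.mod_two_ne_zero, Ne, Ne, ← FiniteField.even_card_iff_char_two]
  refine not_congr ⟨fun h => ?_, fun h => ?_⟩
  · exact CharP.ringChar_of_prime_eq_zero Nat.prime_two (by exact_mod_cast h)
  · have := ringChar.Nat.cast_ringChar (R := F)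
    rw [h] at this
    exact_mod_cast this

theorem exists_sq_eq_of_two_eq_zero [Finite F] (h2 : (2 : F) = 0) (a : F) : ∃ b, b ^ 2 = a := by
  have : CharP F 2 := (CharP.charP_iff_prime_eq_zero Nat.prime_two).2 (by exact_mod_cast h2)
  exact (Finite.injective_iff_surjective.1 (frobenius_inj F 2)) a

theorem fm_self_add_of_two {G : Matrix ι ι F} (h2 : (2 : F) = 0) (hs : Gᵀ = G) (u v : ι → F) :
    fm (RingHom.id F) G (u + v) (u + v) = fm (RingHom.id F) G u u + fm (RingHom.id F) G v v := by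
  rw [fm_add_left, fm_add_right, fm_add_right, fm_id_swap G u v, hs]
  linear_combination fm (RingHom.id F) G u v * h2

theorem fm_self_smul (G : Matrix ι ι F) (c : F) (v : ι → F) :
    fm (RingHom.id F) G (c • v) (c • v) = c ^ 2 * fm (RingHom.id F) G v v := by
  rw [fm_smul_left, fm_smul_right]; simp [sq, mul_assoc]

/-- an additive, `2`-homogeneous function has a non-zero root in dimension at least two -/
theorem exists_root_of_additive [Finite F] (h2 : (2 : F) = 0) {W : Submodule F (ι → F)}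
    (hW : 2 ≤ Module.finrank F W) (Q : (ι → F) → F)
    (hadd : ∀ u ∈ W, ∀ v ∈ W, Q (u + v) = Q u + Q v) (hsmul : ∀ (c : F) v, Q (c • v) = c ^ 2 * Q v) :
    ∃ v ∈ W, v ≠ 0 ∧ Q v = 0 := by
  obtain ⟨f, hf⟩ := exists_linearIndependent_of_le_finrank (R := F) (M := W) hW
  obtain ⟨a, ha⟩ := exists_sq_eq_of_two_eq_zero h2 (Q (f 1))
  obtain ⟨b, hb⟩ := exists_sq_eq_of_two_eq_zero h2 (Q (f 0))
  by_cases h0 : Q (f 1) = 0
  · exact ⟨f 1, (f 1).2, fun h => hf.ne_zero 1 (Subtype.ext h), h0⟩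
  refine ⟨a • f 0 + b • f 1, add_mem (W.smul_mem _ (f 0).2) (W.smul_mem _ (f 1).2), fun h => ?_, ?_⟩
  · have := (Fintype.linearIndependent_iff.1 hf) ![a, b] (Subtype.ext (by simpa using h)) 0
    apply h0
    rw [← ha, show a = 0 from this]
    simp
  · rw [hadd _ (W.smul_mem _ (f 0).2) _ (W.smul_mem _ (f 1).2), hsmul, hsmul, ha, hb]
    linear_combination Q (f 1) * Q (f 0) * h2

theorem alt_of_irr [Finite F] (h2 : (2 : F) = 0) {H : Subgroup (GL ι F)} (hH : Irr H)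
    (hn : 2 ≤ Fintype.card ι) {G : Matrix ι ι F} (hs : Gᵀ = G)
    (hsim : H ≤ similarityGroup (fm (RingHom.id F) G)) : Alt G := by
  let W : Submodule F (ι → F) :=
    { carrier := {v | fm (RingHom.id F) G v v = 0}
      add_mem' := fun {a b} ha hb => by
        change fm _ G _ _ = 0 at ha hb ⊢
        rw [fm_self_add_of_two h2 hs, ha, hb, add_zero]
      zero_mem' := by simp
      smul_mem' := fun c v hv => by
        change fm _ G _ _ = 0 at hv ⊢
        rw [fm_self_smul, hv, mul_zero] }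
  rcases hH W (fun g hg v hv => by
    obtain ⟨c, hc⟩ := hsim hg
    change fm _ G _ _ = 0 at hv ⊢
    rw [hc, hv, mul_zero]) with h | h
  · obtain ⟨v, -, hv0, hv⟩ := exists_root_of_additive h2 (W := ⊤) (by simpa using hn)
      (fun v => fm (RingHom.id F) G v v) (fun u _ v _ => fm_self_add_of_two h2 hs u v)
      (fm_self_smul G)
    exact absurd (h ▸ hv : v ∈ (⊥ : Submodule F (ι → F))) (by simpa using hv0)
  · exact alt_of_fm_self fun v => (h ▸ Submodule.mem_top : v ∈ W)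

theorem similarityGroup_le_quad (G : Matrix ι ι F) :
    similarityGroup (fm (RingHom.id F) G) ≤ quadSimilarityGroup fun v => fm (RingHom.id F) G v v :=
  fun _ ⟨c, hc⟩ => ⟨c, fun v => hc v v⟩

theorem alt_or_symm [Fintype F] {H : Subgroup (GL ι F)} (hH : Irr H) (hn : 2 ≤ Fintype.card ι)
    {G : Matrix ι ι F} (hs : Gᵀ = G ∨ Gᵀ = -G)
    (hsim : H ≤ similarityGroup (fm (RingHom.id F) G)) :
    Alt G ∨ (Odd (Fintype.card F) ∧ Gᵀ = G) := by
  by_cases h2 : (2 : F) = 0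
  · left
    refine alt_of_irr h2 hH hn (hs.elim id fun h => ?_) hsim
    rw [h]
    ext i j
    simp only [Matrix.neg_apply]
    linear_combination -G i j * h2
  · rcases hs with h | h
    · exact Or.inr ⟨two_ne_zero_iff_odd.1 h2, h⟩
    · exact Or.inl (alt_of_skew h2 h)

theorem isUnit_add_transpose [Fintype F] (hodd : Odd (Fintype.card F)) {G : Matrix ι ι F}
    (hs : Gᵀ = G) (hG : IsUnit G) : IsUnit (G + Gᵀ) := by
  rw [hs, ← two_smul F]
  exact hG.smul (Units.mk0 (2 : F) (two_ne_zero_iff_odd.2 hodd))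

theorem linear_of_bilin [Fintype F] {n : ℕ} (hn : 3 ≤ n) {H : Subgroup (GL (Fin n) F)} (hH : Irr H)
    {G : Matrix (Fin n) (Fin n) F} (hG : IsUnit G) (hs : Gᵀ = G ∨ Gᵀ = -G)
    (hsim : H ≤ similarityGroup (fm (RingHom.id F) G)) : ∃ M, InLinearClass n F M ∧ H ≤ M := by
  rcases alt_or_symm hH (by simp; omega) hs hsim with h | ⟨hodd, h⟩
  · have he : Even n := by simpa using h.even_card' hG
    refine ⟨_, ?_, hsim⟩
    iterate 9 right
    exact Or.inl ⟨_, isSymplecticForm_fm h hG, he, by obtain ⟨k, rfl⟩ := he; omega, rfl⟩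
  · refine ⟨_, ?_, hsim.trans (similarityGroup_le_quad G)⟩
    iterate 11 right
    exact ⟨_, isNondegenerateQuadraticForm_fm (isUnit_add_transpose hodd h hG), hodd, hn, rfl⟩

/-! ### transport of forms -/

/-- the Gram matrix in the model -/
def unF (σ : F →+* F) (e : ι ≃ κ) (P : GL ι F) (G : Matrix ι ι F) : Matrix κ κ F :=
  (pull σ G P).submatrix e.symm e.symm

/-- the Gram matrix transported from the model -/
def trF (σ : F →+* F) (e : ι ≃ κ) (P : GL ι F) (G : Matrix κ κ F) : Matrix ι ι F :=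
  pull σ (G.submatrix e e) (P⁻¹ : GL ι F)

@[simp] theorem unF_trF (σ : F →+* F) (e : ι ≃ κ) (P : GL ι F) (G : Matrix κ κ F) :
    unF σ e P (trF σ e P G) = G := by
  simp [unF, trF, ← pull_mul]

@[simp] theorem trF_unF (σ : F →+* F) (e : ι ≃ κ) (P : GL ι F) (G : Matrix ι ι F) :
    trF σ e P (unF σ e P G) = G := by
  simp [unF, trF, ← pull_mul]

theorem unF_injective (σ : F →+* F) (e : ι ≃ κ) (P : GL ι F) : Function.Injective (unF σ e P) :=
  Function.LeftInverse.injective (trF_unF σ e P)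

theorem fm_unF (σ : F →+* F) (e : ι ≃ κ) (P : GL ι F) (G : Matrix ι ι F) (x y : κ → F) :
    fm σ G ((P : Matrix ι ι F) *ᵥ (x ∘ e)) ((P : Matrix ι ι F) *ᵥ (y ∘ e)) =
      fm σ (unF σ e P G) x y := by
  rw [fm_pull, fm_comp_equiv, unF]

theorem pull_submatrix (σ : F →+* F) (e : ι ≃ κ) (G x : Matrix κ κ F) :
    pull σ (G.submatrix e e) (x.submatrix e e) = (pull σ G x).submatrix e e := by
  simp [pull, ← Matrix.submatrix_map, Matrix.submatrix_mul_equiv]

theorem pull_unF (σ : F →+* F) (e : ι ≃ κ) (P : GL ι F) (G : Matrix ι ι F) (x : Matrix κ κ F) :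
    pull σ (unF σ e P G) x = unF σ e P (pull σ G (trA e P x)) := by
  rw [unF, unF, ← pull_mul σ G (trA e P x), trA_apply, cj_mul_coe, pull_mul,
    ← pull_submatrix σ e.symm (pull σ G P)]
  simp

theorem unF_smul (σ : F →+* F) (e : ι ≃ κ) (P : GL ι F) (c : F) (G : Matrix ι ι F) :
    unF σ e P (c • G) = c • unF σ e P G := by
  rw [unF, unF, pull_smul]; rfl

theorem unF_conj {σ : F →+* F} (hσ : ∀ a, σ (σ a) = a) (e : ι ≃ κ) (P : GL ι F) (G : Matrix ι ι F) :
    ((unF σ e P G).map σ)ᵀ = unF σ e P (G.map σ)ᵀ := by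
  rw [unF, unF, ← pull_conj σ hσ]; rfl

theorem unF_transpose (e : ι ≃ κ) (P : GL ι F) (G : Matrix ι ι F) :
    (unF (RingHom.id F) e P G)ᵀ = unF (RingHom.id F) e P Gᵀ := by
  simpa using unF_conj (σ := RingHom.id F) (fun _ => rfl) e P G

theorem isUnit_unF {σ : F →+* F} (e : ι ≃ κ) (P : GL ι F) {G : Matrix ι ι F} (hG : IsUnit G) :
    IsUnit (unF σ e P G) := (Matrix.isUnit_submatrix_equiv _ _).2 (isUnit_pull hG P.isUnit)

theorem isUnit_trF {σ : F →+* F} (e : ι ≃ κ) (P : GL ι F) {G : Matrix κ κ F} (hG : IsUnit G) :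
    IsUnit (trF σ e P G) := isUnit_pull ((Matrix.isUnit_submatrix_equiv _ _).2 hG) (Units.isUnit _)

theorem trG_mem_similarityGroup {σ : F →+* F} (e : ι ≃ κ) (P : GL ι F) (G : Matrix ι ι F)
    (g : GL κ F) : trG e P g ∈ similarityGroup (fm σ G) ↔ g ∈ similarityGroup (fm σ (unF σ e P G)) := by
  rw [mem_similarityGroup_fm, mem_similarityGroup_fm]
  refine exists_congr fun c => and_congr_right fun _ => ?_
  rw [pull_unF, ← unF_smul, (unF_injective σ e P).eq_iff, coe_trG]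

theorem trG_mem_isom {σ : F →+* F} (e : ι ≃ κ) (P : GL ι F) (G : Matrix ι ι F)
    (g : GL κ F) : trG e P g ∈ isom σ G ↔ g ∈ isom σ (unF σ e P G) := by
  rw [mem_isom, mem_isom, pull_unF, (unF_injective σ e P).eq_iff, coe_trG]

section
variable {T : Type} [Fintype T] [DecidableEq T]

theorem pull_tpw (σ : F →+* F) (G x : T → Matrix κ κ F) :
    pull σ (tpw G) (tpw x) = tpw fun i => pull σ (G i) (x i) := by
  rw [pull, tpw_transpose, tpw_map, ← map_mul, ← map_mul]
  rfl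

theorem pull_facPerm (σ : F →+* F) (G : Matrix κ κ F) (τ : Equiv.Perm T) :
    pull σ (tpw fun _ : T => G) (facPerm κ F τ : GL (T → κ) F) = tpw fun _ : T => G := by
  have h1 : cj (facPerm κ F τ) (tpw fun _ : T => G) = tpw fun _ : T => G := cj_facPerm τ _
  rw [cj_eq_self_iff] at h1
  have h2 : ((facPerm κ F τ : GL (T → κ) F) : Matrix (T → κ) (T → κ) F).map σ = facPerm κ F τ := by
    ext a b
    simp [facPerm_apply, apply_ite σ]
  have h3 : ((facPerm κ F τ : GL (T → κ) F) : Matrix (T → κ) (T → κ) F)ᵀ =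
      ((facPerm κ F τ)⁻¹ : GL (T → κ) F) := by
    change (Equiv.toPEquiv _).toMatrixᵀ = (Equiv.toPEquiv _).toMatrix
    rw [← PEquiv.toMatrix_symm, Equiv.toPEquiv_symm]
  rw [pull, h2, h3, mul_assoc, ← h1, ← mul_assoc]
  simp

theorem wreath_mem_similarityGroup {σ : F →+* F} {G : Matrix κ κ F} (τ : Equiv.Perm T)
    {a : T → GL κ F} (ha : ∀ i, a i ∈ similarityGroup (fm σ G)) :
    facPerm κ F τ * tpwG a ∈ similarityGroup (fm σ (tpw fun _ : T => G)) := by
  refine mul_mem (isom_le_similarityGroup _ _ (mem_isom.2 (pull_facPerm σ G τ))) ?_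
  choose c hc0 hc using fun i => mem_similarityGroup_fm.1 (ha i)
  refine mem_similarityGroup_fm.2 ⟨∏ i, c i, Finset.prod_ne_zero_iff.2 fun i _ => hc0 i, ?_⟩
  rw [coe_tpwG, pull_tpw, ← tpw_smul]
  simp only [hc]

theorem isUnit_tpw {G : T → Matrix κ κ F} (h : ∀ i, IsUnit (G i)) : IsUnit (tpw G) :=
  (tpwG fun i => (h i).unit).isUnit

end

/-- the standard alternating `2 × 2` matrix -/
def J₂ (F : Type*) [Field F] : Matrix (Fin 2) (Fin 2) F := !![0, 1; -1, 0]

theorem pull_J₂ (a : Matrix (Fin 2) (Fin 2) F) : pull (RingHom.id F) (J₂ F) a = a.det • J₂ F := by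
  ext i j
  fin_cases i <;> fin_cases j <;>
    simp [pull, J₂, Matrix.mul_apply, Fin.sum_univ_two, Matrix.det_fin_two] <;> ring

theorem isUnit_J₂ : IsUnit (J₂ F) := by
  rw [Matrix.isUnit_iff_isUnit_det]; simp [J₂]

theorem alt_J₂ : Alt (J₂ F) := ⟨by ext i j; fin_cases i <;> fin_cases j <;> simp [J₂],
  fun i => by fin_cases i <;> simp [J₂]⟩

theorem mem_similarityGroup_J₂ (a : GL (Fin 2) F) :
    a ∈ similarityGroup (fm (RingHom.id F) (J₂ F)) :=
  mem_similarityGroup_fm.2 ⟨_, (Matrix.isUnits_det_units a).ne_zero, pull_J₂ _⟩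

theorem tpw_J₂_transpose (t : ℕ) :
    (tpw fun _ : Fin t => J₂ F)ᵀ = (-1 : F) ^ t • tpw fun _ : Fin t => J₂ F := by
  rw [tpw_transpose, alt_J₂.1]
  simpa using tpw_smul (fun _ : Fin t => (-1 : F)) fun _ => J₂ F

/-- the tensor wreath group with two-dimensional factors preserves a bilinear form -/
theorem exists_bilin_of_wreath_two {t : ℕ} (e : ι ≃ (Fin t → Fin 2)) (P : GL ι F) :
    ∃ G : Matrix ι ι F, IsUnit G ∧ Gᵀ = (-1 : F) ^ t • G ∧
      unF (RingHom.id F) e P G = (tpw fun _ : Fin t => J₂ F) ∧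
      ∀ (σ : Equiv.Perm (Fin t)) (a : Fin t → GL (Fin 2) F),
        trG e P (facPerm (Fin 2) F σ * tpwG a) ∈ similarityGroup (fm (RingHom.id F) G) := by
  refine ⟨trF (RingHom.id F) e P (tpw fun _ : Fin t => J₂ F),
    isUnit_trF _ _ (isUnit_tpw fun _ => isUnit_J₂), ?_, by simp, fun σ a => ?_⟩
  · apply unF_injective (RingHom.id F) e P
    rw [← unF_transpose, unF_smul, unF_trF, tpw_J₂_transpose]
  · rw [trG_mem_similarityGroup, unF_trF]
    exact wreath_mem_similarityGroup σ fun i => mem_similarityGroup_J₂ _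

theorem symm_or_skew_of_neg_one_pow {G : Matrix ι ι F} {t : ℕ} (h : Gᵀ = (-1 : F) ^ t • G) :
    Gᵀ = G ∨ Gᵀ = -G := by
  rcases neg_one_pow_eq_or F t with h1 | h1 <;> rw [h1] at h
  · left; simpa using h
  · right; simpa using h

theorem trA_kronecker_swap {β : Type} [Fintype β] [DecidableEq β] (e : ι ≃ κ × β) (P : GL ι F)
    (a : Matrix κ κ F) (b : Matrix β β F) :
    trA e P (a ⊗ₖ b) = trA (e.trans (Equiv.prodComm κ β)) P (b ⊗ₖ a) := by
  rw [trA_apply, trA_apply]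
  congr 1
  ext i j
  simp [mul_comm]

theorem trA_kronecker_eq_tpw (e : ι ≃ κ × κ) (P : GL ι F) (a b : Matrix κ κ F) :
    trA e P (a ⊗ₖ b) = trA (e.trans (finTwoArrowEquiv κ).symm) P (tpw ![a, b]) := by
  rw [trA_apply, trA_apply]
  congr 1
  ext i j
  simp [tpw_apply]

theorem facPerm_one {T : Type} [Fintype T] [DecidableEq T] : facPerm κ F (1 : Equiv.Perm T) = 1 := by
  apply Units.ext
  ext a b
  simp [facPerm_apply, Matrix.one_apply, eq_comm]

theorem eq_trG_wreath_of_kronecker (e : ι ≃ κ × κ) (P h : GL ι F) (a b : GL κ F)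
    (hab : (h : Matrix ι ι F) = trA e P ((a : Matrix κ κ F) ⊗ₖ (b : Matrix κ κ F))) :
    h = trG (e.trans (finTwoArrowEquiv κ).symm) P (facPerm κ F 1 * tpwG ![a, b]) := by
  apply Units.ext
  rw [hab, trA_kronecker_eq_tpw, facPerm_one, one_mul, coe_trG, coe_tpwG]
  congr 2

/-! ### finite fields -/

theorem exists_involution [Fintype F] {q : ℕ} (hF : Fintype.card F = q ^ 2) :
    ∃ σ : F ≃+* F, (∀ x, σ x = x ^ q) ∧ (∀ x, σ (σ x) = x) ∧ ∃ a, σ a ≠ a := by
  obtain ⟨p, hp, n, hprime, hcard⟩ := FiniteField.card' F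
  have : Fact p.Prime := ⟨hprime⟩
  obtain ⟨d, -, hd⟩ := (Nat.dvd_prime_pow hprime).1
    (show q ∣ p ^ (n : ℕ) by rw [← hcard, hF]; exact dvd_pow_self q two_ne_zero)
  have h1 : ∀ x : F, (x ^ q) ^ q = x := fun x => by
    rw [← pow_mul, ← sq, ← hF, FiniteField.pow_card]
  have h0 : ∀ x, iterateFrobenius F p d x = x ^ q := fun x => by rw [iterateFrobenius_def, hd]
  refine ⟨RingEquiv.ofBijective (iterateFrobenius F p d)
    (Finite.injective_iff_bijective.1 (RingHom.injective _)), h0, fun x => ?_, ?_⟩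
  · simp only [RingEquiv.coe_ofBijective, h0, h1]
  · by_contra! h
    simp only [RingEquiv.coe_ofBijective, h0] at h
    have h2 := card_pow_eq_self (K := F) (Nat.card_eq_fintype_card.trans hF)
    rw [Nat.card_congr (Equiv.subtypeUnivEquiv h), Nat.card_eq_fintype_card, hF] at h2
    have h3 : 1 < Fintype.card F := Fintype.one_lt_card
    rw [hF] at h3
    nlinarith

theorem RType.pow_card_center {r : ℕ} {R : Subgroup (GL ι F)} [Nonempty ι] (h : RType r R)
    {x : GL ι F} (hx : x ∈ R) {c : F} (hc : (x : Matrix ι ι F) = c • (1 : Matrix ι ι F)) :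
    c ^ Nat.card (Subgroup.center R) = 1 := by
  let y : Subgroup.center R := ⟨⟨x, hx⟩, (h.center _).2 (mem_scalars_of_eq_smul hc)⟩
  have h1 : x ^ Nat.card (Subgroup.center R) = 1 :=
    congrArg (fun a : Subgroup.center R => ((a : R) : GL ι F)) (pow_card_eq_one' (x := y))
  have h2 := congrArg Units.val h1
  rw [Units.val_pow_eq_pow_val, hc, smul_pow, one_pow, Units.val_one] at h2
  obtain ⟨i⟩ := ‹Nonempty ι›
  simpa using congrFun (congrFun h2 i) i

theorem RType.card_center_dvd [Fintype F] [Nonempty ι] {r : ℕ} {R : Subgroup (GL ι F)}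
    (h : RType r R) : Nat.card (Subgroup.center R) ∣ Fintype.card F - 1 := by
  have hc : IsCyclic (Subgroup.center R) := isCyclic_of_le_scalars _ fun x hx => (h.center x).1 hx
  rw [← IsCyclic.exponent_eq_card]
  refine Monoid.exponent_dvd_of_forall_pow_eq_one fun x => Subtype.ext (Subtype.ext (Units.ext ?_))
  obtain ⟨c, hc⟩ := (mem_scalars_iff _).1 ((h.center x.1).1 x.2)
  simp [hc, smul_pow, FiniteField.pow_card_sub_one_eq_one _ c.ne_zero]

theorem RType.trace_mem [Nonempty ι] {r : ℕ} {R : Subgroup (GL ι F)} (h : RType r R)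
    {F₀ : Subfield F} (h0 : ∀ c : F, c ^ Nat.card (Subgroup.center R) = 1 → c ∈ F₀) :
    ∀ g ∈ R, (g : Matrix ι ι F).trace ∈ F₀ := by
  intro g hg
  by_cases hs : g ∈ scalars ι F
  · obtain ⟨c, hc⟩ := (mem_scalars_iff g).1 hs
    rw [hc, Matrix.trace_smul, Matrix.trace_one, smul_eq_mul]
    exact mul_mem (h0 _ (h.pow_card_center hg hc)) (natCast_mem F₀ _)
  · rw [h.trace_zero g hg hs]; exact zero_mem _

theorem RType.exists_isom [Nonempty ι] {r : ℕ} {R : Subgroup (GL ι F)} (h : RType r R)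
    {σ : F →+* F} (hσ : Function.Surjective σ)
    (h0 : ∀ c : F, c ^ Nat.card (Subgroup.center R) = 1 → c * σ c = 1) :
    ∃ G : Matrix ι ι F, IsUnit G ∧ R ≤ isom σ G := by
  refine exists_isom_of_trace hσ h.span fun g hg => ?_
  by_cases hs : g ∈ scalars ι F
  · obtain ⟨c, hc⟩ := (mem_scalars_iff g).1 hs
    have h1 : ((g⁻¹ : GL ι F) : Matrix ι ι F) = (c : F)⁻¹ • (1 : Matrix ι ι F) := by
      rw [← mul_one ((g⁻¹ : GL ι F) : Matrix ι ι F), Units.inv_mul_eq_iff_eq_mul, hc]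
      simp
    have h2 := h0 _ (h.pow_card_center hg hc)
    rw [h1, hc, Matrix.trace_smul, Matrix.trace_smul, Matrix.trace_one, smul_eq_mul, smul_eq_mul,
      map_mul, map_natCast, map_inv₀, ← eq_inv_of_mul_eq_one_left h2]
  · rw [h.trace_zero g hg hs, h.trace_zero _ (R.inv_mem hg) fun h' => hs (by simpa using inv_mem h'),
      map_zero]

theorem RType.subfield_or_minimal [Fintype F] [Nonempty ι] {r : ℕ} {R : Subgroup (GL ι F)}
    (h : RType r R) :
    (∃ F₀ : Subfield F, F₀ ≠ ⊤ ∧ ∀ g ∈ R, (g : Matrix ι ι F).trace ∈ F₀) ∨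
      ∃ p e, r ≠ p ∧ IsMinimalFieldFor (Nat.card (Subgroup.center R)) p e F := by
  obtain ⟨p, hp, e, hprime, hcard⟩ := FiniteField.card' F
  have : Fact p.Prime := ⟨hprime⟩
  by_cases hmin : ∀ d : ℕ, 0 < d → d < e → ¬ Nat.card (Subgroup.center R) ∣ p ^ d - 1
  · right
    refine ⟨p, e, ?_, hprime, hp, hcard, hcard ▸ h.card_center_dvd, hmin⟩
    rintro rfl
    exact h.ne_char (CharP.cast_eq_zero F r)
  · left
    push Not at hmin
    obtain ⟨d, hd0, hde, k, hk⟩ := hmin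
    refine ⟨fixF (iterateFrobenius F p d), fun htop => ?_, h.trace_mem fun c hc => ?_⟩
    · have h1 : ∀ x : F, x ^ p ^ d = x := fun x => by
        have : x ∈ fixF (iterateFrobenius F p d) := htop ▸ Subfield.mem_top x
        rwa [mem_fixF, iterateFrobenius_def] at this
      have h2 := FiniteField.forall_pow_eq_one_iff (K := F) (p ^ d - 1)
      have h3 : 1 < p ^ d := Nat.one_lt_pow hd0.ne' hprime.one_lt
      have h4 := h2.1 fun x => by
        apply Units.ext
        apply mul_right_cancel₀ x.ne_zero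
        rw [Units.val_pow_eq_pow_val, ← pow_succ, show p ^ d - 1 + 1 = p ^ d by omega, h1]
        simp
      have h5 := Nat.le_of_dvd (by omega) h4
      have h6 : p ^ d < p ^ (e : ℕ) := Nat.pow_lt_pow_right hprime.one_lt hde
      omega
    · rw [mem_fixF, iterateFrobenius_def]
      have h3 : 0 < p ^ d := pow_pos hprime.pos d
      rw [show p ^ d = p ^ d - 1 + 1 by omega, pow_succ, hk, pow_mul, hc, one_pow, one_mul]

/-- for a minimal field of even degree `2 d` the centre order divides `p ^ d + 1` -/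
theorem RType.dvd_add_one [Fintype F] {r : ℕ} {R : Subgroup (GL ι F)} (h : RType r R) {p d : ℕ}
    (hrp : r ≠ p) (hmin : IsMinimalFieldFor (Nat.card (Subgroup.center R)) p (2 * d) F) :
    Nat.card (Subgroup.center R) ∣ p ^ d + 1 := by
  obtain ⟨hp, -, hcard, hdvd, hm⟩ := hmin
  have hd : 0 < d := by
    rcases Nat.eq_zero_or_pos d with rfl | h
    · have : 1 < Fintype.card F := Fintype.one_lt_card
      simp [hcard] at this
    · exact h
  have h1 := hm d hd (by omega)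
  have h2 : p ^ (2 * d) - 1 = (p ^ d + 1) * (p ^ d - 1) := by
    rw [mul_comm 2, pow_mul]; exact Nat.sq_sub_sq (p ^ d) 1
  rw [h2] at hdvd
  rcases h.center_card with ⟨-, h3⟩ | ⟨rfl, h3 | h3⟩ <;> rw [h3] at hdvd h1 ⊢
  · exact ((Nat.Prime.dvd_mul h.sympl.prime).1 hdvd).resolve_right h1
  · exact ((Nat.Prime.dvd_mul Nat.prime_two).1 hdvd).resolve_right h1
  · have : Odd (p ^ d) := (hp.odd_of_ne_two hrp.symm).pow
    obtain ⟨k, hk⟩ := this
    omega

theorem RType.le_two_of_minimal [Fintype F] {R : Subgroup (GL ι F)} (h : RType 2 R) {p e : ℕ}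
    (hrp : 2 ≠ p) (hmin : IsMinimalFieldFor (Nat.card (Subgroup.center R)) p e F) :
    (e = 1 ∨ e = 2) ∧ (Nat.card (Subgroup.center R) = 2 → e = 1) := by
  obtain ⟨hp, -, hcard, hdvd, hm⟩ := hmin
  have he : e ≠ 0 := by
    rintro rfl
    have : 1 < Fintype.card F := Fintype.one_lt_card
    simp [hcard] at this
  obtain ⟨k, hk⟩ := hp.odd_of_ne_two hrp.symm
  have h2 : Nat.card (Subgroup.center R) = 2 → e = 1 := fun h2 => by
    by_contra hne
    apply hm 1 one_pos (by omega)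
    rw [h2, pow_one]; omega
  refine ⟨?_, h2⟩
  rcases h.center_card with ⟨h3, -⟩ | ⟨-, h3 | h3⟩
  · exact absurd h3 (by decide)
  · exact Or.inl (h2 h3)
  · by_contra hne
    apply hm 2 two_pos (by omega)
    rw [h3, hk]
    exact ⟨k * (k + 1), by ring_nf; omega⟩

theorem RType.exists_unitary [Fintype F] [Nonempty ι] {r : ℕ} {R : Subgroup (GL ι F)} (h : RType r R)
    {p d : ℕ} (hrp : r ≠ p) (hmin : IsMinimalFieldFor (Nat.card (Subgroup.center R)) p (2 * d) F) :
    ∃ (σ : F ≃+* F) (G : Matrix ι ι F), σ ≠ RingEquiv.refl F ∧ (∀ x, σ (σ x) = x) ∧ IsUnit G ∧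
      (G.map σ)ᵀ = G ∧ R ≤ isom (σ : F →+* F) G := by
  obtain ⟨σ, h1, h2, h3⟩ := exists_involution (F := F) (q := p ^ d)
    (by rw [hmin.2.2.1, ← pow_mul, mul_comm])
  obtain ⟨k, hk⟩ := h.dvd_add_one hrp hmin
  obtain ⟨G, hG, hR⟩ := h.exists_isom (σ := (σ : F →+* F)) σ.surjective fun c hc => by
    change c * σ c = 1
    rw [h1, ← pow_succ', hk, pow_mul, hc, one_pow]
  obtain ⟨c, hc⟩ := exists_conj_eq_smul h2 h.span hG hR
  obtain ⟨d, hd0, hd⟩ := exists_smul_herm (σ := (σ : F →+* F)) h2 h3 hG hc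
  refine ⟨σ, d • G, ?_, h2, hG.smul (Units.mk0 d hd0), hd, hR.trans (isom_le_isom_smul _ _ _)⟩
  rintro rfl
  simp at h3

theorem RType.exists_bilin [Nonempty ι] {r : ℕ} {R : Subgroup (GL ι F)} (h : RType r R)
    (h2 : Nat.card (Subgroup.center R) = 2) :
    ∃ G : Matrix ι ι F, IsUnit G ∧ (Gᵀ = G ∨ Gᵀ = -G) ∧ R ≤ isom (RingHom.id F) G := by
  obtain ⟨G, hG, hR⟩ := h.exists_isom (σ := RingHom.id F) Function.surjective_id fun c hc => by
    rwa [h2, sq] at hc
  obtain ⟨c, hc⟩ := exists_conj_eq_smul (fun _ => rfl) h.span hG hR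
  exact ⟨G, hG, symm_or_skew hG (c := c) (by simpa using hc), hR⟩

theorem le_subspaceStabilizer {H : Subgroup (GL ι F)} {W : Submodule F (ι → F)}
    (h : ∀ g ∈ H, ∀ v ∈ W, (g : Matrix ι ι F) *ᵥ v ∈ W) : H ≤ subspaceStabilizer W := by
  intro g hg v
  refine ⟨h g hg v, fun hv => ?_⟩
  have := h g⁻¹ (H.inv_mem hg) _ hv
  change _ *ᵥ ((g : Matrix ι ι F) *ᵥ v) ∈ W at this
  rwa [inv_mulVec_mulVec] at this

theorem mem_subspaceStabilizer {g : GL ι F} {W : Submodule F (ι → F)} :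
    g ∈ subspaceStabilizer W ↔ ∀ v, v ∈ W ↔ (g : Matrix ι ι F) *ᵥ v ∈ W := Iff.rfl

theorem not_le_scalars_of_irr {H : Subgroup (GL ι F)} (hH : Irr H) (hn : 2 ≤ Fintype.card ι) :
    ¬ H ≤ scalars ι F := by
  intro hle
  obtain ⟨i, j, hij⟩ := Fintype.one_lt_card_iff.1 hn
  rcases hH (F ∙ Pi.single i 1) (fun g hg v hv => by
    obtain ⟨c, hc⟩ := (mem_scalars_iff g).1 (hle hg)
    rw [hc, Matrix.smul_mulVec, Matrix.one_mulVec]
    exact Submodule.smul_mem _ _ hv) with h | h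
  · simp at h
  · obtain ⟨c, hc⟩ := Submodule.mem_span_singleton.1
      (h ▸ Submodule.mem_top : (Pi.single j 1 : ι → F) ∈ F ∙ Pi.single i 1)
    simpa [hij.symm] using congrFun hc j

/-- the centre of a subalgebra -/
def ctr (A : Subalgebra F (Matrix ι ι F)) : Subalgebra F (Matrix ι ι F) :=
  A ⊓ Subalgebra.centralizer F (A : Set (Matrix ι ι F))

theorem mem_ctr {A : Subalgebra F (Matrix ι ι F)} {z : Matrix ι ι F} :
    z ∈ ctr A ↔ z ∈ A ∧ ∀ a ∈ A, a * z = z * a := Iff.rfl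

theorem ctr_comm (A : Subalgebra F (Matrix ι ι F)) : ∀ x ∈ ctr A, ∀ y ∈ ctr A, x * y = y * x :=
  fun x hx _ hy => hy.2 x hx.1

theorem Stable.ctr {H : Subgroup (GL ι F)} {A : Subalgebra F (Matrix ι ι F)} (h : Stable H A) :
    Stable H (ctr A) := fun g hg z hz => ⟨h g hg z hz.1, fun a ha => by
      rw [← cj_cj_inv g a, ← map_mul, ← map_mul, hz.2 _ (h _ (H.inv_mem hg) a ha)]⟩

theorem scalar_of_ctr_eq_bot {A : Subalgebra F (Matrix ι ι F)} (h : ctr A = ⊥) :
    ∀ z ∈ A, (∀ a ∈ A, a * z = z * a) → ∃ c : F, z = c • (1 : Matrix ι ι F) := by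
  intro z hz hc
  have : z ∈ ctr A := ⟨hz, hc⟩
  rw [h, Algebra.mem_bot] at this
  obtain ⟨c, rfl⟩ := this
  exact ⟨c, Algebra.algebraMap_eq_smul_one c⟩

/-- a proper tensor decomposition attached to a normal subgroup -/
theorem exists_tensor_of_not_aqp [Finite F] [Nonempty ι] {H N : Subgroup (GL ι F)} (hH : Irr H)
    (hN : Nrm H N) (hns : ¬ N ≤ scalars ι F) (hnt : spanAlg N ≠ ⊤) (hc : ctr (spanAlg N) = ⊥) :
    ∃ (a b : ℕ) (e : ι ≃ Fin a × Fin b) (P : GL ι F), 2 ≤ a ∧ 2 ≤ b ∧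
      (∀ x, x ∈ spanAlg N ↔ ∃ y : Matrix (Fin a) (Fin a) F,
        x = trA e P (y ⊗ₖ (1 : Matrix (Fin b) (Fin b) F))) ∧
      ∀ h ∈ H, ∃ (x : GL (Fin a) F) (y : GL (Fin b) F),
        (h : Matrix ι ι F) = trA e P ((x : Matrix _ _ F) ⊗ₖ (y : Matrix _ _ F)) := by
  obtain ⟨a, b, e, P, ha, hb, hA⟩ := hN.stable_spanAlg.exists_tensor hH (scalar_of_ctr_eq_bot hc)
  have : Nonempty (Fin a) := ⟨⟨0, ha⟩⟩
  have : Nonempty (Fin b) := ⟨⟨0, hb⟩⟩
  refine ⟨a, b, e, P, ?_, ?_, hA, fun h hh => exists_kronecker_of_cj e P h fun y =>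
    (hA _).1 (hN.stable_spanAlg h hh _ ((hA _).2 ⟨y, rfl⟩))⟩
  · by_contra! h1
    obtain rfl : a = 1 := by omega
    apply hns
    intro g hg
    obtain ⟨y, hy⟩ := (hA _).1 (coe_mem_spanAlg hg)
    refine mem_scalars_of_eq_smul (c := y 0 0) ?_
    rw [hy, ← map_one (trA e P), ← map_smul]
    congr 1
    ext ⟨i, j⟩ ⟨k, l⟩
    simp [Matrix.one_apply, Subsingleton.elim i 0, Subsingleton.elim k 0]
  · by_contra! h1
    obtain rfl : b = 1 := by omega
    apply hnt
    rw [eq_top_iff]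
    intro x _
    refine (hA x).2 ⟨Matrix.of fun i j => (trA e P).symm x (i, 0) (j, 0), ?_⟩
    rw [← AlgEquiv.symm_apply_eq]
    ext ⟨i, j⟩ ⟨k, l⟩
    simp [Subsingleton.elim j 0, Subsingleton.elim l 0]

theorem fixes_polar {N : Subgroup (GL ι F)} {Q : (ι → F) → F} (hQ : IsNondegenerateQuadraticForm Q)
    (h : FixesQuadForm (matrixSet N) Q) :
    ∃ G : Matrix ι ι F, IsUnit G ∧ Gᵀ = G ∧ QuadraticMap.polar Q = fm (RingHom.id F) G ∧
      N ≤ isom (RingHom.id F) G := by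
  have h1 := hQ.polar_bilinear.h26_eq_fm
  refine ⟨_, isUnit_of_nondegenerate Function.surjective_id (h1 ▸ hQ.nondegenerate), ?_, h1, ?_⟩
  · ext a b
    exact QuadraticMap.polar_comm _ _ _
  · rw [← fixesForm_iff, ← h1]
    intro s hs u v
    simp only [QuadraticMap.polar, ← Matrix.mulVec_add, h s hs]

theorem symplectic_eq_fm {f : (ι → F) → (ι → F) → F} (hf : IsSymplecticForm f) :
    ∃ G : Matrix ι ι F, IsUnit G ∧ Alt G ∧ f = fm (RingHom.id F) G := by
  have h1 := hf.bilinear.h26_eq_fm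
  exact ⟨_, isUnit_of_nondegenerate Function.surjective_id (h1 ▸ hf.nondegenerate),
    alt_of_fm_self (h1 ▸ hf.alternating), h1⟩

theorem unitary_eq_fm {σ : F ≃+* F} {f : (ι → F) → (ι → F) → F} (hf : IsUnitaryForm σ f) :
    ∃ G : Matrix ι ι F, IsUnit G ∧ (G.map σ)ᵀ = G ∧ f = fm (σ : F →+* F) G := by
  obtain ⟨h1, h2⟩ := eq_fm_of_herm (σ : F →+* F) hf.involutive hf.add_left hf.smul_left hf.herm
  exact ⟨_, isUnit_of_nondegenerate σ.surjective (h1 ▸ hf.nondegenerate), h2, h1⟩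

/-- **Aschbacher's theorem**, linear case -/
theorem aschbacher_linear [Fintype F] {n : ℕ} (hn : 3 ≤ n) (H : Subgroup (GL (Fin n) F)) :
    (∃ M, InLinearClass n F M ∧ H ≤ M) ∨ InLinearResidualClass H := by
  have : Nonempty (Fin n) := ⟨⟨0, by omega⟩⟩
  by_cases hH : Irr H
  swap
  · simp only [Irr, not_forall, not_or] at hH
    obtain ⟨W, h1, h2, h3⟩ := hH
    exact Or.inl ⟨_, Or.inl ⟨W, h2, h3, rfl⟩, le_subspaceStabilizer h1⟩
  have hsub : ∀ N, Nrm H N → spanAlg N = ⊤ → ∀ F₀ : Subfield F, F₀ ≠ ⊤ →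
      (∀ g ∈ N, (g : Matrix (Fin n) (Fin n) F).trace ∈ F₀) → ∃ M, InLinearClass n F M ∧ H ≤ M := by
    intro N h1 h2 F₀ h3 h4
    obtain ⟨F₁, r, P, hr, hc, -, hle⟩ := subfield_case h1 h2 h3 h4
    refine ⟨_, ?_, hle⟩
    iterate 6 right
    exact Or.inl ⟨F₁, r, P, hr, hc, rfl⟩
  have hwr : ∀ (m t : ℕ) (e : Fin n ≃ (Fin t → Fin m)) (P : GL (Fin n) F), 2 ≤ m → 2 ≤ t →
      (∀ h ∈ H, ∃ (σ : Equiv.Perm (Fin t)) (a : Fin t → GL (Fin m) F),
        h = trG e P (facPerm (Fin m) F σ * tpwG a)) → ∃ M, InLinearClass n F M ∧ H ≤ M := by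
    intro m t e P hm ht hw
    rcases hm.eq_or_lt with rfl | hm
    · obtain ⟨G, hG, hs, -, hsim⟩ := exists_bilin_of_wreath_two e P
      refine linear_of_bilin hn hH hG (symm_or_skew_of_neg_one_pow hs) fun h hh => ?_
      obtain ⟨σ, a, rfl⟩ := hw h hh
      exact hsim σ a
    · refine ⟨tensorWreathSubgroup m t e P, ?_, fun h hh => ?_⟩
      · iterate 8 right
        exact Or.inl ⟨m, t, e, P, hm, ht, rfl⟩
      · obtain ⟨σ, a, rfl⟩ := hw h hh
        rw [mem_tensorWreathSubgroup]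
        simpa using mem_tensorWreathStandard_of σ a
  have huni : ∀ N, Nrm H N → spanAlg N = ⊤ → ∀ (σ : F ≃+* F) (G : Matrix (Fin n) (Fin n) F),
      σ ≠ RingEquiv.refl F → (∀ x, σ (σ x) = x) → IsUnit G → (G.map σ)ᵀ = G →
      N ≤ isom (σ : F →+* F) G → ∃ M, InLinearClass n F M ∧ H ≤ M := by
    intro N h1 h2 σ G h3 h4 h5 h6 h7
    refine ⟨_, ?_, h1.le_similarityGroup h2 h5 h7⟩
    iterate 10 right
    exact Or.inl ⟨σ, _, isUnitaryForm_fm h3 h4 h6 h5, hn, rfl⟩
  by_cases haqp : ∀ N ≤ H, Nrm H N → N ≤ scalars (Fin n) F ∨ spanAlg N = ⊤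
  swap
  · left
    simp only [not_forall, not_or] at haqp
    obtain ⟨N, -, hN, hns, hnt⟩ := haqp
    by_cases hc : ctr (spanAlg N) = ⊥
    swap
    · rcases decomp_or_field hH hN.stable_spanAlg.ctr (ctr_comm _) hc with
        ⟨t, m, D, h1, h2⟩ | ⟨r, K, h1, h2, h3⟩
      · refine ⟨_, ?_, h2⟩
        iterate 3 right
        exact Or.inl ⟨t, m, D, h1, rfl⟩
      · refine ⟨_, ?_, h3⟩
        iterate 4 right
        exact Or.inl ⟨r, K, h1, h2, rfl⟩
    obtain ⟨a, b, e, P, ha, hb, -, hk⟩ := exists_tensor_of_not_aqp hH hN hns hnt hc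
    rcases lt_trichotomy a b with hab | rfl | hab
    · refine ⟨_, ?_, fun h hh => (mem_tensorProductSubgroup e P h).2 (hk h hh)⟩
      iterate 5 right
      exact Or.inl ⟨a, b, e, P, ha, hab, rfl⟩
    · refine hwr a 2 (e.trans (finTwoArrowEquiv _).symm) P ha le_rfl fun h hh => ?_
      obtain ⟨x, y, hxy⟩ := hk h hh
      exact ⟨1, _, eq_trG_wreath_of_kronecker e P h x y hxy⟩
    · refine ⟨tensorProductSubgroup b a (e.trans (Equiv.prodComm _ _)) P, ?_, fun h hh => ?_⟩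
      · iterate 5 right
        exact Or.inl ⟨b, a, _, P, hb, hab, rfl⟩
      · obtain ⟨x, y, hxy⟩ := hk h hh
        exact (mem_tensorProductSubgroup _ P h).2 ⟨y, x, by rw [hxy, trA_kronecker_swap]⟩
  rcases structure_of_aqp (not_le_scalars_of_irr hH (by simp; omega)) haqp with
    ⟨r, R, -, hR, h⟩ | ⟨P, h⟩ | ⟨N, t, m, e, P, L, h⟩
  · left
    rcases h.subfield_or_minimal with ⟨F₀, h1, h2⟩ | ⟨p, e, hrp, hmin⟩
    · exact hsub R hR h.span F₀ h1 h2
    by_cases h2 : Nat.card (Subgroup.center R) = 2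
    · obtain ⟨G, hG, hs, hle⟩ := h.exists_bilin h2
      exact linear_of_bilin hn hH hG hs (hR.le_similarityGroup h.span hG hle)
    rcases Nat.even_or_odd' e with ⟨d, rfl | rfl⟩
    · obtain ⟨σ, G, h3, h4, h5, h6, h7⟩ := h.exists_unitary hrp hmin
      exact huni R hR h.span σ G h3 h4 h5 h6 h7
    refine ⟨_, ?_, hR.le_normalizer⟩
    iterate 7 right
    refine Or.inl ⟨r, R, ⟨h.sympl, absIrr_of_spanAlg_eq_top h.span, p, _, hrp, hmin, ?_⟩, rfl⟩
    obtain ⟨k, hk, hk1, hk2⟩ := h.dim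
    rcases h.center_card with ⟨h3, h4⟩ | ⟨rfl, h4 | h4⟩
    · exact Or.inl ⟨h3, odd_two_mul_add_one d, h4, k, hk, by rw [hk2, h4, pow_add, pow_one]⟩
    · exact absurd h4 h2
    · refine Or.inr (Or.inl ⟨rfl, ?_, h4, ?_, k, by rw [hk2, h4, pow_add]; rfl⟩)
      · have := (h.le_two_of_minimal hrp hmin).1
        omega
      · rw [hk1]
        rw [Fintype.card_fin] at hk1
        rcases hk.eq_or_lt with rfl | hk
        · omega
        · exact Nat.pow_le_pow_right (n := 2) two_pos hk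
  · by_cases h1 : ∃ F₀ : Subfield F, F₀ ≠ ⊤ ∧ RealisableOver F₀ (matrixSet P)
    · obtain ⟨F₀, h1, h2⟩ := h1
      exact Or.inl (hsub P h.nrm h.span F₀ h1 (trace_mem_of_realisableOver h2))
    by_cases h2 : ∃ Q : (Fin n → F) → F, IsNondegenerateQuadraticForm Q ∧
      FixesQuadForm (matrixSet P) Q
    · obtain ⟨Q, h2, h3⟩ := h2
      obtain ⟨G, hG, hs, -, hle⟩ := fixes_polar h2 h3
      exact Or.inl (linear_of_bilin hn hH hG (Or.inl hs) (h.nrm.le_similarityGroup h.span hG hle))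
    by_cases h3 : ∃ f : (Fin n → F) → (Fin n → F) → F, IsSymplecticForm f ∧
      FixesForm (matrixSet P) f
    · obtain ⟨f, h3, h4⟩ := h3
      obtain ⟨G, hG, hs, rfl⟩ := symplectic_eq_fm h3
      exact Or.inl (linear_of_bilin hn hH hG (Or.inr hs.1)
        (h.nrm.le_similarityGroup h.span hG (fixesForm_iff.1 h4)))
    by_cases h4 : ∃ (σ : F ≃+* F) (f : (Fin n → F) → (Fin n → F) → F), IsUnitaryForm σ f ∧
      FixesForm (matrixSet P) f
    · obtain ⟨σ, f, h4, h5⟩ := h4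
      obtain ⟨G, hG, hs, rfl⟩ := unitary_eq_fm h4
      exact Or.inl (huni P h.nrm h.span σ G h4.ne_refl h4.involutive hG hs (fixesForm_iff.1 h5))
    exact Or.inr ⟨P, h.isResidualCore fun F₀ h5 h6 => h1 ⟨F₀, h5, h6⟩, h2, h3, h4⟩
  · exact Or.inl (hwr m t e P h.two_le_m h.two_le_t h.wreath)

end Cfsg.Agent.H26
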