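import Mathlib
import Cfsg.Agent.H26.Linear

/-! Elements of small rank do not lie in the geometric subgroups. -/

set_option autoImplicit false
set_option maxHeartbeats 400000

namespace Cfsg.Agent.H26

open Matrix Cfsg.Geo
open scoped Kronecker

variable {ι κ : Type} [Fintype ι] [DecidableEq ι] [Fintype κ] [DecidableEq κ]
  {F : Type*} [Field F]

theorem eq_inf_of_isMaximalIn {G : Type*} [Group G] {X H M : Subgroup G} (h : IsMaximalIn X H)
    (hle : H ≤ M) (hp : ¬ X ≤ M) : H = M ⊓ X := by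
  rcases h.2 (M ⊓ X) (le_inf hle h.1.le) inf_le_right with h1 | h1
  · exact h1.symm
  · exact absurd (h1 ▸ inf_le_left : X ≤ M) hp

/-! ### transvections -/

omit [DecidableEq ι] in
theorem vecMulVec_mulVec' (v φ x : ι → F) : vecMulVec v φ *ᵥ x = (φ ⬝ᵥ x) • v := by
  rw [Matrix.vecMulVec_mulVec]; simp

/-- the transvection `x ↦ x + φ(x) v` -/
def tv (v φ : ι → F) (h : φ ⬝ᵥ v = 0) : GL ι F where
  val := 1 + vecMulVec v φ
  inv := 1 - vecMulVec v φ
  val_inv := by simp [mul_sub, add_mul, Matrix.vecMulVec_mul_vecMulVec, h]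
  inv_val := by simp [sub_mul, mul_add, Matrix.vecMulVec_mul_vecMulVec, h]

theorem coe_tv (v φ : ι → F) (h : φ ⬝ᵥ v = 0) :
    (tv v φ h : Matrix ι ι F) = 1 + vecMulVec v φ := rfl

theorem coe_tv_inv (v φ : ι → F) (h : φ ⬝ᵥ v = 0) :
    (((tv v φ h)⁻¹ : GL ι F) : Matrix ι ι F) = 1 - vecMulVec v φ := rfl

theorem tv_mulVec (v φ : ι → F) (h : φ ⬝ᵥ v = 0) (x : ι → F) :
    (tv v φ h : Matrix ι ι F) *ᵥ x = x + (φ ⬝ᵥ x) • v := by
  rw [coe_tv, Matrix.add_mulVec, Matrix.one_mulVec, vecMulVec_mulVec']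

theorem det_tv (v φ : ι → F) (h : φ ⬝ᵥ v = 0) : (tv v φ h : Matrix ι ι F).det = 1 := by
  rw [coe_tv, Matrix.vecMulVec_eq Unit, Matrix.det_one_add_replicateCol_mul_replicateRow, h, add_zero]

theorem mem_specialLinear {g : GL ι F} : g ∈ specialLinear ι F ↔ (g : Matrix ι ι F).det = 1 := by
  rw [specialLinear, MonoidHom.mem_ker, Units.ext_iff]; rfl

theorem tv_mem_specialLinear (v φ : ι → F) (h : φ ⬝ᵥ v = 0) : tv v φ h ∈ specialLinear ι F :=
  mem_specialLinear.2 (det_tv v φ h)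

theorem tv_mul_tv (v φ ψ : ι → F) (h : φ ⬝ᵥ v = 0) (h' : ψ ⬝ᵥ v = 0) :
    tv v φ h * tv v ψ h' = tv v (φ + ψ) (by simp [h, h']) := by
  apply Units.ext
  simp [coe_tv, mul_add, add_mul, Matrix.vecMulVec_mul_vecMulVec, h, Matrix.vecMulVec_add, add_assoc]

theorem tv_inv (v φ : ι → F) (h : φ ⬝ᵥ v = 0) : (tv v φ h)⁻¹ = tv v (-φ) (by simp [h]) := by
  apply Units.ext
  rw [coe_tv_inv, coe_tv, Matrix.vecMulVec_neg, sub_eq_add_neg]

theorem tv_pow (v φ : ι → F) (h : φ ⬝ᵥ v = 0) (k : ℕ) :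
    tv v φ h ^ k = tv v ((k : F) • φ) (by simp [h]) := by
  induction k with
  | zero => apply Units.ext; simp [coe_tv]
  | succ k ih => rw [pow_succ, ih, tv_mul_tv]; congr 1; simp [add_smul]

theorem tv_pow_char (v φ : ι → F) (h : φ ⬝ᵥ v = 0) {p : ℕ} (hp : (p : F) = 0) :
    tv v φ h ^ p = 1 := by
  rw [tv_pow]; apply Units.ext; simp [coe_tv, hp]

theorem rank_tv_sub_one (v φ : ι → F) (h : φ ⬝ᵥ v = 0) :
    ((tv v φ h : Matrix ι ι F) - 1).rank ≤ 1 := by
  rw [coe_tv, add_sub_cancel_left]; exact Matrix.rank_vecMulVec_le _ _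

theorem tv_ne_one {v φ : ι → F} (h : φ ⬝ᵥ v = 0) (hv : v ≠ 0) (hφ : φ ≠ 0) : tv v φ h ≠ 1 := by
  intro h1
  have := congrArg Units.val h1
  rw [coe_tv, Units.val_one, add_eq_left, Matrix.vecMulVec_eq_zero] at this
  tauto

theorem trace_tv_mul_tv (v φ w ψ : ι → F) (h : φ ⬝ᵥ v = 0) (h' : ψ ⬝ᵥ w = 0) :
    ((tv v φ h : Matrix ι ι F) * tv w ψ h').trace =
      Fintype.card ι + (φ ⬝ᵥ w) * (ψ ⬝ᵥ v) := by
  simp [coe_tv, mul_add, add_mul, Matrix.vecMulVec_mul_vecMulVec, Matrix.trace_vecMulVec,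
    dotProduct_comm v, dotProduct_comm w, h, h']

/-! ### rank -/

omit [DecidableEq ι] in
theorem rank_eq_finrank_colSp [DecidableEq ι] (x : Matrix ι ι F) :
    x.rank = Module.finrank F (colSp x) := by
  rw [Matrix.rank, colSp, Matrix.toLin'_apply']

theorem rank_add_le' (x y : Matrix ι ι F) : (x + y).rank ≤ x.rank + y.rank := by
  rw [rank_eq_finrank_colSp, rank_eq_finrank_colSp, rank_eq_finrank_colSp]
  refine le_trans (Submodule.finrank_mono ?_) (Submodule.finrank_add_le_finrank_add_finrank _ _)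
  intro v hv
  obtain ⟨w, rfl⟩ := mem_colSp.1 hv
  rw [Matrix.add_mulVec]
  exact Submodule.add_mem_sup (mulVec_mem_colSp _ _) (mulVec_mem_colSp _ _)

theorem rank_neg' (x : Matrix ι ι F) : (-x).rank = x.rank := by
  rw [← neg_one_smul F x]
  exact Matrix.rank_smul_of_mem_nonZeroDivisors _ (by simp)

theorem rank_comm_le (g x : Matrix ι ι F) : (g * x - x * g).rank ≤ 2 * (g - 1).rank := by
  have : g * x - x * g = (g - 1) * x + -(x * (g - 1)) := by noncomm_ring
  rw [this]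
  refine (rank_add_le' _ _).trans ?_
  rw [rank_neg']
  have h1 := Matrix.rank_mul_le_left (g - 1) x
  have h2 := Matrix.rank_mul_le_right x (g - 1)
  omega

theorem rank_cj_sub_le (g : GL ι F) (x : Matrix ι ι F) :
    (cj g x - x).rank ≤ 2 * ((g : Matrix ι ι F) - 1).rank := by
  have : cj g x - x = (g * x - x * g) * ((g⁻¹ : GL ι F) : Matrix ι ι F) := by
    simp [cj_apply, sub_mul]
  rw [this]
  exact (Matrix.rank_mul_le_left _ _).trans (rank_comm_le _ _)

theorem rank_cj (g : GL ι F) (x : Matrix ι ι F) : (cj g x).rank = x.rank := by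
  rw [rank_eq_finrank_colSp, rank_eq_finrank_colSp, ← map_colSp, finrank_map_GL]

theorem rank_trA (e : ι ≃ κ) (P : GL ι F) (x : Matrix κ κ F) : (trA e P x).rank = x.rank := by
  rw [trA_apply, rank_cj, Matrix.rank_submatrix]

theorem eq_one_of_scalar_of_rank {g : Matrix ι ι F} {c : F} (hc : g = c • (1 : Matrix ι ι F))
    (h : (g - 1).rank < Fintype.card ι) : g = 1 := by
  by_contra hne
  have hc1 : c - 1 ≠ 0 := fun h => hne (by rw [hc, sub_eq_zero.1 h, one_smul])
  have : g - 1 = (c - 1) • (1 : Matrix ι ι F) := by rw [hc, sub_smul, one_smul]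
  rw [this, Matrix.rank_smul_of_mem_nonZeroDivisors _ (by simpa using hc1), Matrix.rank_one] at h
  exact lt_irrefl _ h

/-! ### class 1, 2 -/

theorem not_mem_of_decomp {t m : ℕ} {D : Fin t → Submodule F (ι → F)} (hD : IsMDecomposition m D)
    {i j : Fin t} (hij : i ≠ j) {u v : ι → F} (hu : u ∈ D i) (hv : v ∈ D j) (hu0 : u ≠ 0)
    (hv0 : v ≠ 0) (k : Fin t) : u + v ∉ D k := by
  intro hk
  have key : ∀ {i j : Fin t} {u v : ι → F}, i ≠ j → u ∈ D i → v ∈ D j → u + v ∈ D k → i ≠ k →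
      u = 0 := by
    intro i j u v hij hu hv hk hik
    refine Submodule.disjoint_def.1 (hD.indep i) u hu ?_
    have h1 : u + v ∈ ⨆ j, ⨆ (_ : j ≠ i), D j :=
      Submodule.mem_iSup_of_mem k (Submodule.mem_iSup_of_mem hik.symm hk)
    have h2 : v ∈ ⨆ j, ⨆ (_ : j ≠ i), D j :=
      Submodule.mem_iSup_of_mem j (Submodule.mem_iSup_of_mem hij.symm hv)
    simpa using sub_mem h1 h2
  by_cases h : i = k
  · exact hv0 (key hij.symm hv hu (by rwa [add_comm]) fun h' => hij (h.trans h'.symm))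
  · exact hu0 (key hij hu hv hk h)

theorem mulVec_mem_of_mem_decompositionStabilizer {t : ℕ} {D : Fin t → Submodule F (ι → F)}
    {g : GL ι F} (hg : g ∈ decompositionStabilizer D) {i : Fin t} {u : ι → F} (hu : u ∈ D i) :
    ∃ k, (g : Matrix ι ι F) *ᵥ u ∈ D k := by
  obtain ⟨σ, hσ⟩ := hg
  exact ⟨σ i, hσ i ▸ ⟨u, hu, by simp⟩⟩

theorem _root_.Cfsg.Geo.IsMDecomposition.h26_exists_ne_zero {t m : ℕ}
    {D : Fin t → Submodule F (ι → F)} (hD : IsMDecomposition m D) (i : Fin t) :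
    ∃ u ∈ D i, u ≠ 0 := by
  rw [← Submodule.ne_bot_iff, Ne, ← Submodule.finrank_eq_zero, hD.finrank_eq]
  exact hD.pos.ne'

theorem _root_.Cfsg.Geo.IsMDecomposition.h26_card {t m : ℕ}
    {D : Fin t → Submodule F (ι → F)} (hD : IsMDecomposition m D) : t * m = Fintype.card ι := by
  have h1 := (DirectSum.isInternal_submodule_of_iSupIndep_of_iSup_eq_top hD.indep
    hD.iSup_eq_top)
  have h2 := (LinearEquiv.ofBijective (DirectSum.coeLinearMap D) h1).finrank_eq
  simpa [Module.finrank_directSum, hD.finrank_eq] using h2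

theorem exists_dual {W : Submodule F (ι → F)} {u : ι → F} (hu : u ∉ W) :
    ∃ φ : ι → F, φ ⬝ᵥ u = 1 ∧ ∀ w ∈ W, φ ⬝ᵥ w = 0 := by
  obtain ⟨f, hf, hfW⟩ := Submodule.exists_le_ker_of_notMem hu
  refine ⟨fun i => (f u)⁻¹ * f (Pi.single i 1), ?_, fun w hw => ?_⟩
  all_goals
    have key : ∀ x, (fun i => (f u)⁻¹ * f (Pi.single i 1)) ⬝ᵥ x = (f u)⁻¹ * f x := by
      intro x
      rw [LinearMap.pi_apply_eq_sum_univ f x, dotProduct, Finset.mul_sum]
      refine Finset.sum_congr rfl fun i _ => ?_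
      rw [smul_eq_mul, mul_assoc, mul_comm (x i)]
      congr 3
      ext j
      simp [Pi.single_apply, eq_comm]
    rw [key]
  · exact inv_mul_cancel₀ hf
  · rw [show f w = 0 from hfW hw, mul_zero]

/-! ### class 3 -/

theorem isUnit_of_mem_field {r : ℕ} {K : Subalgebra F (Matrix ι ι F)} (hK : IsFieldSubalgebra r K)
    {x : Matrix ι ι F} (hx : x ∈ K) (hx0 : x ≠ 0) : IsUnit x := by
  obtain ⟨y, -, hxy⟩ := hK.inv x hx hx0
  exact (Matrix.isUnit_iff_isUnit_det x).2 (Matrix.isUnit_det_of_right_inverse hxy)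

theorem comm_of_mem_normalizer_field {r : ℕ} {K : Subalgebra F (Matrix ι ι F)}
    (hK : IsFieldSubalgebra r K) {g : GL ι F} (hg : g ∈ subalgebraNormalizer K)
    (hr : 2 * ((g : Matrix ι ι F) - 1).rank < Fintype.card ι) : ∀ k ∈ K, g * k = k * g := by
  intro k hk
  rw [← cj_eq_self_iff, ← sub_eq_zero]
  by_contra h0
  have h1 := Matrix.rank_of_isUnit _ (isUnit_of_mem_field hK (K.sub_mem ((hg k).1 hk) hk) h0)
  have h2 := rank_cj_sub_le g k
  rw [← cj_apply] at h1
  omega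

theorem not_invariant_line {r : ℕ} {K : Subalgebra F (Matrix ι ι F)} (hK : IsFieldSubalgebra r K)
    (hr : r ≠ 1) {v : ι → F} (hv : v ≠ 0) (h : ∀ k ∈ K, ∃ c : F, k *ᵥ v = c • v) : False := by
  have : Nonempty ι := by
    by_contra h0
    rw [not_nonempty_iff] at h0
    exact hv (Subsingleton.elim _ _)
  apply hr
  rw [← hK.finrank_eq, Subalgebra.finrank_eq_one_iff, eq_bot_iff]
  intro k hk
  obtain ⟨c, hc⟩ := h k hk
  have : k - c • 1 = 0 := by
    by_contra h0
    have h1 := isUnit_of_mem_field hK (K.sub_mem hk (K.smul_mem K.one_mem c)) h0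
    apply hv
    apply Matrix.mulVec_injective_iff_isUnit.2 h1
    simp [Matrix.sub_mulVec, hc, Matrix.smul_mulVec]
  rw [sub_eq_zero.1 this]
  exact Subalgebra.smul_mem _ (Subalgebra.one_mem _) c

theorem tv_not_mem_normalizer_field {r : ℕ} {K : Subalgebra F (Matrix ι ι F)}
    (hK : IsFieldSubalgebra r K) (hr : r ≠ 1) (hn : 3 ≤ Fintype.card ι) {v φ : ι → F}
    (h : φ ⬝ᵥ v = 0) (hv : v ≠ 0) (hφ : φ ≠ 0) : tv v φ h ∉ subalgebraNormalizer K := by
  intro hg
  have h1 := comm_of_mem_normalizer_field hK hg (by have := rank_tv_sub_one v φ h; omega)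
  obtain ⟨i, hi⟩ := Function.ne_iff.1 hφ
  refine not_invariant_line hK hr hv fun k hk => ?_
  have h2 := congrArg (· *ᵥ Pi.single i 1) (h1 k hk)
  simp only [← Matrix.mulVec_mulVec, tv_mulVec, Matrix.mulVec_add, Matrix.mulVec_smul,
    add_right_inj, dotProduct_single, mul_one] at h2
  refine ⟨(φ i)⁻¹ * φ ⬝ᵥ k *ᵥ Pi.single i 1, ?_⟩
  rw [mul_smul, h2, smul_smul, inv_mul_cancel₀ hi, one_smul]

theorem field_degree_dvd {r : ℕ} {K : Subalgebra F (Matrix ι ι F)} [Nonempty ι]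
    (hK : IsFieldSubalgebra r K) : r ∣ Fintype.card ι := by
  letI := (isField_of_isFieldSubalgebra hK).toField
  letI inst : Module K (ι → F) := Module.compHom (ι → F)
    ((Matrix.toLinAlgEquiv' (R := F) (n := ι)).toAlgHom.comp K.val).toRingHom
  have h1 : @IsScalarTower F K (ι → F) _ inst.toSMul _ := ⟨fun c k v => by
    change Matrix.toLin' ((c • k : K) : Matrix ι ι F) v = c • Matrix.toLin' (k : Matrix ι ι F) v
    simp [Matrix.smul_mulVec]⟩
  have := @Module.finrank_mul_finrank F K (ι → F) _ _ _ _ inst _ h1 _ _ _ _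
  rw [hK.finrank_eq] at this
  exact ⟨_, by rw [this]; simp⟩

/-! ### class 4, 7 -/

theorem scalar_of_forall_eigen {a : Matrix κ κ F} (h : ∀ u : κ → F, ∃ c : F, a *ᵥ u = c • u) :
    ∃ c : F, a = c • (1 : Matrix κ κ F) := by
  refine exists_eq_smul_one_of_comm a fun x => ?_
  choose c hc using h
  have h1 : ∀ i j, i ≠ j → a i j = 0 := fun i j hij => by
    simpa [hij] using congrFun (hc (Pi.single j 1)) i
  have h2 : ∀ i j, a i i = a j j := fun i j => by
    by_cases hij : i = j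
    · rw [hij]
    have h3 := congrFun (hc (Pi.single i 1 + Pi.single j 1)) i
    have h4 := congrFun (hc (Pi.single i 1 + Pi.single j 1)) j
    simp [Matrix.mulVec_add, hij, Ne.symm hij, h1 i j hij, h1 j i (Ne.symm hij)] at h3 h4
    rw [h3, h4]
  ext i j
  rw [Matrix.mul_apply, Matrix.mul_apply, Finset.sum_eq_single j (fun k _ hk => by simp [h1 k j hk])
    (by simp), Finset.sum_eq_single i (fun k _ hk => by simp [h1 i k hk.symm]) (by simp), h2 i j,
    mul_comm]

theorem scalar_left_of_kronecker_rank {β : Type} [Fintype β] [DecidableEq β] {a : Matrix κ κ F}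
    {b : Matrix β β F} (h : (a ⊗ₖ b - 1).rank < Fintype.card β) :
    ∃ c : F, a = c • (1 : Matrix κ κ F) := by
  refine scalar_of_forall_eigen fun u => ?_
  by_contra! hu
  let L : (β → F) →ₗ[F] (κ × β → F) :=
    { toFun := fun w p => u p.1 * w p.2
      map_add' := fun x y => by ext p; simp [mul_add]
      map_smul' := fun c x => by ext p; simp [mul_left_comm] }
  let L' : (β → F) →ₗ[F] colSp (a ⊗ₖ b - 1) :=
    LinearMap.codRestrict _ ((Matrix.toLin' (a ⊗ₖ b - 1)).comp L) fun w => ⟨L w, rfl⟩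
  have hinj : Function.Injective L' := by
    rw [injective_iff_map_eq_zero]
    intro w hw
    by_contra hw0
    obtain ⟨j, hj⟩ := Function.ne_iff.1 hw0
    have h1 : ∀ i, (a *ᵥ u) i * (b *ᵥ w) j = u i * w j := fun i => by
      have : ((a ⊗ₖ b - 1) *ᵥ fun p : κ × β => u p.1 * w p.2) (i, j) = 0 :=
        congrFun (congrArg Subtype.val hw) (i, j)
      simp only [Matrix.sub_mulVec, Matrix.one_mulVec, Pi.sub_apply, sub_eq_zero] at this
      rw [← this]
      simp only [Matrix.mulVec, dotProduct, Fintype.sum_prod_type, kroneckerMap_apply,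
        Finset.sum_mul_sum]
      exact Finset.sum_congr rfl fun _ _ => Finset.sum_congr rfl fun _ _ => by ring
    by_cases h2 : (b *ᵥ w) j = 0
    · apply hu 0
      have : u = 0 := by
        ext i
        have := h1 i
        rw [h2, mul_zero] at this
        exact (mul_eq_zero.1 this.symm).resolve_right hj
      simp [this]
    · apply hu (w j / (b *ᵥ w) j)
      ext i
      simp only [Pi.smul_apply, smul_eq_mul]
      field_simp
      rw [h1 i, mul_comm]
  have := LinearMap.finrank_le_finrank_of_injective hinj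
  rw [← rank_eq_finrank_colSp] at this
  simp only [Module.finrank_fintype_fun_eq_card] at this
  omega

theorem eq_one_of_kronecker_rank {β : Type} [Fintype β] [DecidableEq β] (e : ι ≃ κ × β)
    (P : GL ι F) {a : Matrix κ κ F} {b : Matrix β β F} {g : Matrix ι ι F}
    (hg : g = trA e P (a ⊗ₖ b)) (h1 : (g - 1).rank < Fintype.card κ)
    (h2 : (g - 1).rank < Fintype.card β) : g = 1 := by
  have h3 : (a ⊗ₖ b - 1).rank = (g - 1).rank := by rw [← rank_trA e P, map_sub, map_one, hg]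
  have h4 : (b ⊗ₖ a - 1).rank = (g - 1).rank := by
    rw [← rank_trA (e.trans (Equiv.prodComm _ _)) P, map_sub, map_one, hg, trA_kronecker_swap e]
  obtain ⟨c, rfl⟩ := scalar_left_of_kronecker_rank (h3 ▸ h2)
  obtain ⟨d, rfl⟩ := scalar_left_of_kronecker_rank (h4 ▸ h1)
  refine eq_one_of_scalar_of_rank (c := c * d) (by
    rw [hg, Matrix.smul_kronecker, Matrix.kronecker_smul, Matrix.one_kronecker_one, smul_smul,
      map_smul, map_one]) (h1.trans_le ?_)
  rw [Fintype.card_congr e, Fintype.card_prod]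
  exact Nat.le_mul_of_pos_right _ (by omega)

theorem eq_one_of_mem_tensorProductSubgroup {n₁ n₂ : ℕ} {e : ι ≃ Fin n₁ × Fin n₂} {P g : GL ι F}
    (hg : g ∈ tensorProductSubgroup n₁ n₂ e P) (h1 : ((g : Matrix ι ι F) - 1).rank < n₁)
    (h2 : ((g : Matrix ι ι F) - 1).rank < n₂) : g = 1 := by
  obtain ⟨a, b, hab⟩ := (mem_tensorProductSubgroup e P g).1 hg
  exact Units.ext (eq_one_of_kronecker_rank e P hab (by simpa using h1) (by simpa using h2))

section
variable {T : Type} [Fintype T] [DecidableEq T]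

theorem tpw_eq_kronecker (i : T) (x : T → Matrix κ κ F) :
    tpw x = (x i ⊗ₖ tpw fun j : {j // j ≠ i} => x j).submatrix (Equiv.funSplitAt i κ)
      (Equiv.funSplitAt i κ) := by
  ext a b
  simp only [tpw_apply, Matrix.submatrix_apply, kroneckerMap_apply, Equiv.funSplitAt_apply]
  rw [Fintype.prod_eq_mul_prod_subtype_ne _ i]

theorem trA_tpw (e : ι ≃ (T → κ)) (P : GL ι F) (i : T) (x : T → Matrix κ κ F) :
    trA e P (tpw x) = trA (e.trans (Equiv.funSplitAt i κ)) P
      (x i ⊗ₖ tpw fun j : {j // j ≠ i} => x j) := by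
  rw [tpw_eq_kronecker i]; rfl

theorem eq_one_of_pure_rank (hT : 2 ≤ Fintype.card T) (e : ι ≃ (T → κ)) (P : GL ι F)
    {x : T → Matrix κ κ F} {g : Matrix ι ι F} (hg : g = trA e P (tpw x))
    (h : (g - 1).rank < Fintype.card κ) : g = 1 := by
  obtain ⟨i, j, hij⟩ := Fintype.one_lt_card_iff.1 hT
  refine eq_one_of_kronecker_rank _ P (hg.trans (trA_tpw e P i x)) h (h.trans_le ?_)
  rw [Fintype.card_fun]
  have : Nonempty {j // j ≠ i} := ⟨⟨j, hij.symm⟩⟩
  exact Nat.le_self_pow Fintype.card_ne_zero _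

theorem tpwG_mul (a b : T → GL κ F) : tpwG (a * b) = tpwG a * tpwG b := by
  apply Units.ext
  rw [Units.val_mul, coe_tpwG, coe_tpwG, coe_tpwG, ← map_mul]
  rfl

theorem tpwG_one : tpwG (1 : T → GL κ F) = 1 := Units.ext (map_one tpw)

theorem tpwG_inv (a : T → GL κ F) : tpwG a⁻¹ = (tpwG a)⁻¹ := by
  rw [eq_inv_iff_mul_eq_one, ← tpwG_mul, inv_mul_cancel, tpwG_one]

theorem facPerm_mul_tpwG (σ : Equiv.Perm T) (a : T → GL κ F) :
    facPerm κ F σ * tpwG a = tpwG (a ∘ σ.symm) * facPerm κ F σ := by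
  apply Units.ext
  rw [Units.val_mul, Units.val_mul, ← cj_mul_coe, coe_tpwG, cj_facPerm]
  rfl

theorem facPerm_mul (σ τ : Equiv.Perm T) :
    facPerm κ F (σ * τ) = facPerm κ F σ * facPerm κ F τ := by
  apply Units.ext
  ext a b
  rw [Units.val_mul, Matrix.mul_apply, Finset.sum_eq_single (a ∘ σ)
    (fun x _ hx => by simp [facPerm_apply, hx]) (by simp)]
  simp only [facPerm_apply, if_true, one_mul]
  exact if_congr Iff.rfl rfl rfl

theorem wreath_mul (σ τ : Equiv.Perm T) (a b : T → GL κ F) :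
    facPerm κ F σ * tpwG a * (facPerm κ F τ * tpwG b) =
      facPerm κ F (σ * τ) * tpwG (a ∘ τ * b) := by
  have h := facPerm_mul_tpwG τ (a ∘ τ)
  rw [Function.comp_assoc, Equiv.self_comp_symm, Function.comp_id] at h
  rw [facPerm_mul, tpwG_mul, mul_assoc, mul_assoc, ← mul_assoc (facPerm κ F τ), h]
  simp only [mul_assoc]

theorem wreath_pow (σ : Equiv.Perm T) (a : T → GL κ F) (k : ℕ) :
    ∃ b, (facPerm κ F σ * tpwG a) ^ k = facPerm κ F (σ ^ k) * tpwG b := by
  induction k with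
  | zero => exact ⟨1, by simp [facPerm_one, tpwG_one]⟩
  | succ k ih =>
    obtain ⟨b, hb⟩ := ih
    exact ⟨_, by rw [pow_succ, hb, wreath_mul, pow_succ]⟩

end

theorem exists_eq_of_mem_tensorWreathStandard {m t : ℕ} {g : GL (Fin t → Fin m) F}
    (hg : g ∈ tensorWreathStandard m t F) :
    ∃ (σ : Equiv.Perm (Fin t)) (a : Fin t → GL (Fin m) F), g = facPerm (Fin m) F σ * tpwG a := by
  induction hg using Subgroup.closure_induction with
  | mem x hx =>
    rcases hx with ⟨a, ha⟩ | ⟨σ, hσ⟩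
    · refine ⟨1, a, Units.ext ?_⟩
      rw [facPerm_one, one_mul]
      ext u v
      exact ha u v
    · refine ⟨σ, 1, Units.ext ?_⟩
      rw [tpwG_one, mul_one]
      ext u v
      rw [hσ, facPerm_apply]
  | one => exact ⟨1, 1, by simp [facPerm_one, tpwG_one]⟩
  | mul x y _ _ hx hy =>
    obtain ⟨σ, a, rfl⟩ := hx
    obtain ⟨τ, b, rfl⟩ := hy
    exact ⟨_, _, wreath_mul _ _ _ _⟩
  | inv x _ hx =>
    obtain ⟨σ, a, rfl⟩ := hx
    refine ⟨σ⁻¹, (a ∘ σ.symm)⁻¹, ?_⟩
    rw [inv_eq_iff_mul_eq_one, wreath_mul, mul_inv_cancel, facPerm_one, one_mul]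
    exact (congrArg tpwG (mul_inv_cancel _)).trans tpwG_one

theorem exists_eq_of_mem_tensorWreathSubgroup {m t : ℕ} {e : ι ≃ (Fin t → Fin m)} {P g : GL ι F}
    (hg : g ∈ tensorWreathSubgroup m t e P) :
    ∃ (σ : Equiv.Perm (Fin t)) (a : Fin t → GL (Fin m) F),
      g = trG e P (facPerm (Fin m) F σ * tpwG a) := by
  obtain ⟨σ, a, h⟩ := exists_eq_of_mem_tensorWreathStandard ((mem_tensorWreathSubgroup e P g).1 hg)
  exact ⟨σ, a, by rw [← h]; simp⟩

theorem pow_eq_one_of_mem_wreath {m t : ℕ} (ht : 2 ≤ t) {e : ι ≃ (Fin t → Fin m)} {P g : GL ι F}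
    (hg : g ∈ tensorWreathSubgroup m t e P)
    (h : (((g ^ t.factorial : GL ι F) : Matrix ι ι F) - 1).rank < m) : g ^ t.factorial = 1 := by
  obtain ⟨σ, a, rfl⟩ := exists_eq_of_mem_tensorWreathSubgroup hg
  obtain ⟨b, hb⟩ := wreath_pow σ a t.factorial
  have h1 : σ ^ t.factorial = 1 := by
    have := pow_card_eq_one (x := σ)
    rwa [Fintype.card_perm, Fintype.card_fin] at this
  rw [h1, facPerm_one, one_mul] at hb
  refine Units.ext (eq_one_of_pure_rank (by simpa using ht) e P (x := fun i => b i) ?_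
    (by simpa using h))
  rw [← map_pow, hb]; rfl

theorem exists_eq_of_mem_wreath {m t : ℕ} (ht : 2 ≤ t) {e : ι ≃ (Fin t → Fin m)} {P : GL ι F}
    {α : Type*} [Fintype α] (hα : t.factorial < Fintype.card α) (g : α → GL ι F)
    (hg : ∀ c, g c ∈ tensorWreathSubgroup m t e P)
    (h : ∀ c d, ((((g c)⁻¹ * g d : GL ι F) : Matrix ι ι F) - 1).rank < m) :
    ∃ c d, c ≠ d ∧ g c = g d := by
  choose σ a ha using fun c => exists_eq_of_mem_tensorWreathSubgroup (hg c)
  obtain ⟨c, d, hcd, hσ⟩ := Fintype.exists_ne_map_eq_of_card_lt σ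
    (by rwa [Fintype.card_perm, Fintype.card_fin])
  refine ⟨c, d, hcd, inv_mul_eq_one.1 (Units.ext (eq_one_of_pure_rank (by simpa using ht) e P
    (x := fun i => ((a c)⁻¹ * a d) i) ?_ (by simpa using h c d)))⟩
  rw [ha, ha, ← map_inv, ← map_mul, hσ, _root_.mul_inv_rev, mul_assoc, inv_mul_cancel_left,
    ← tpwG_inv, ← tpwG_mul]
  rfl

/-! ### class 5 -/

theorem entries_mem_of_pow_char [Finite F] [Nonempty ι] {F₀ : Subfield F} {P g : GL ι F}
    (hg : g ∈ subfieldSubgroup F₀ P) {p k : ℕ} (hp : p.Prime) (hp0 : (p : F) = 0)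
    (hgp : g ^ p ^ k = 1) : ∀ i j, cj P⁻¹ g i j ∈ F₀ := by
  obtain ⟨c, hc0, hc⟩ := (mem_subfieldSubgroup_iff _ _ _).1 hg
  let y : Matrix ι ι F₀ := Matrix.of fun i j => ⟨_, hc i j⟩
  have hy : y.map F₀.subtype = c • cj P⁻¹ (g : Matrix ι ι F) := by ext i j; simp [y]
  have h1 : (y ^ p ^ k).map F₀.subtype = c ^ p ^ k • (1 : Matrix ι ι F) := by
    rw [← RingHom.mapMatrix_apply, map_pow, RingHom.mapMatrix_apply, hy, smul_pow, ← map_pow,
      ← Units.val_pow_eq_pow_val, hgp, Units.val_one, map_one]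
  obtain ⟨i₀⟩ := ‹Nonempty ι›
  have h2 : c ^ p ^ k ∈ F₀ := by
    have := congrFun (congrFun h1 i₀) i₀
    simp only [Matrix.map_apply, Matrix.smul_apply, Matrix.one_apply_eq, smul_eq_mul,
      mul_one] at this
    rw [← this]
    exact SetLike.coe_mem _
  have h3 : c ∈ F₀ := by
    have : CharP F p := (CharP.charP_iff_prime_eq_zero hp).2 hp0
    have : Fact p.Prime := ⟨hp⟩
    rw [mem_subfield_iff_pow_card] at h2 ⊢
    apply (iterateFrobenius F p k).injective
    rw [iterateFrobenius_def, iterateFrobenius_def, ← pow_mul, mul_comm, pow_mul, h2]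
  intro i j
  have := F₀.mul_mem (F₀.inv_mem h3) (hc i j)
  rwa [inv_mul_cancel_left₀ hc0] at this

/-- the elements of a subfield group that are really defined over the subfield -/
def ratSub (F₀ : Subfield F) (P : GL ι F) : Submonoid (GL ι F) where
  carrier := {g | ∀ i j, cj P⁻¹ g i j ∈ F₀}
  mul_mem' {a b} ha hb i j := by
    rw [Units.val_mul, map_mul, Matrix.mul_apply]
    exact F₀.sum_mem fun k _ => F₀.mul_mem (ha i k) (hb k j)
  one_mem' i j := by
    rw [Units.val_one, map_one, Matrix.one_apply]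
    split_ifs
    · exact F₀.one_mem
    · exact F₀.zero_mem

theorem trace_mem_of_mem_ratSub {F₀ : Subfield F} {P g : GL ι F} (hg : g ∈ ratSub F₀ P) :
    (g : Matrix ι ι F).trace ∈ F₀ := by
  rw [← trace_cj P⁻¹]
  exact F₀.sum_mem fun i _ => hg i i

theorem tv_mem_ratSub [Finite F] [Nonempty ι] {F₀ : Subfield F} {P : GL ι F} {v φ : ι → F}
    {h : φ ⬝ᵥ v = 0} (hg : tv v φ h ∈ subfieldSubgroup F₀ P) : tv v φ h ∈ ratSub F₀ P := by
  have := Fintype.ofFinite F
  obtain ⟨p, hp, -, hprime, -⟩ := FiniteField.card' F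
  exact entries_mem_of_pow_char hg (k := 1) hprime (CharP.cast_eq_zero F p)
    (by rw [pow_one]; exact tv_pow_char v φ h (CharP.cast_eq_zero F p))

theorem subfield_ne_top [Fintype F] {F₀ : Subfield F} {r : ℕ} (hr : r.Prime)
    (h : Fintype.card F = Nat.card F₀ ^ r) : F₀ ≠ ⊤ := by
  rintro rfl
  rw [Nat.card_congr Subfield.topEquiv.toEquiv, Nat.card_eq_fintype_card] at h
  have h1 : 1 < Fintype.card F := Fintype.one_lt_card
  have := Nat.pow_lt_pow_right h1 hr.one_lt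
  rw [pow_one] at this
  omega

/-! ### class 8 -/

theorem mem_isom_of_pow_char [Nonempty ι] {σ : F →+* F} {G : Matrix ι ι F} (hG : IsUnit G)
    {g : GL ι F} (hg : g ∈ similarityGroup (fm σ G)) {p k : ℕ} (hp : p.Prime) (hp0 : (p : F) = 0)
    (hgp : g ^ p ^ k = 1) : g ∈ isom σ G := by
  obtain ⟨c, -, hc⟩ := mem_similarityGroup_fm.1 hg
  have h1 : ∀ j : ℕ, pull σ G ((g ^ j : GL ι F) : Matrix ι ι F) = c ^ j • G := by
    intro j
    induction j with
    | zero => simp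
    | succ j ih => rw [pow_succ, Units.val_mul, pull_mul, ih, pull_smul, hc, smul_smul, pow_succ]
  have h2 := h1 (p ^ k)
  rw [hgp, Units.val_one, pull_one] at h2
  have h3 : c ^ p ^ k = 1 := by
    by_contra hne
    apply hG.ne_zero
    have : (1 - c ^ p ^ k) • G = 0 := by rw [sub_smul, one_smul, ← h2, sub_self]
    exact (smul_eq_zero.1 this).resolve_left (sub_ne_zero.2 (Ne.symm hne))
  have : CharP F p := (CharP.charP_iff_prime_eq_zero hp).2 hp0
  have : Fact p.Prime := ⟨hp⟩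
  have h4 : c = 1 := (iterateFrobenius F p k).injective (by rw [iterateFrobenius_def, h3, map_one])
  rw [mem_isom, hc, h4, one_smul]

theorem quadSimilarityGroup_le {Q : (ι → F) → F} :
    quadSimilarityGroup Q ≤ similarityGroup (QuadraticMap.polar Q) := by
  rintro g ⟨c, hc⟩
  refine ⟨c, fun u v => ?_⟩
  simp only [QuadraticMap.polar, ← Matrix.mulVec_add, hc]
  ring

/-! ### class 6 -/

theorem RType.comm_scalar [Nonempty ι] {r : ℕ} {R : Subgroup (GL ι F)} (h : RType r R)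
    {g : GL ι F} (hg : g ∈ subgroupNormalizer R) {x : GL ι F} (hx : x ∈ R)
    (hr : 2 * ((g : Matrix ι ι F) - 1).rank < Fintype.card ι)
    (htr : ((g * x * g⁻¹ * x⁻¹ : GL ι F) : Matrix ι ι F).trace ≠ 0) : g * x = x * g := by
  have h1 : g * x * g⁻¹ * x⁻¹ ∈ R :=
    R.mul_mem ((Subgroup.mem_normalizer_iff.1 hg x).1 hx) (R.inv_mem hx)
  have h2 : g * x * g⁻¹ * x⁻¹ ∈ scalars ι F := by
    by_contra hs
    exact htr (h.trace_zero _ h1 hs)
  obtain ⟨c, hc⟩ := (mem_scalars_iff _).1 h2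
  have h3 := eq_one_of_scalar_of_rank hc (by
    have : ((g * x * g⁻¹ * x⁻¹ : GL ι F) : Matrix ι ι F) - 1 =
        (cj g x - x) * ((x⁻¹ : GL ι F) : Matrix ι ι F) := by simp [cj_apply, sub_mul]
    rw [this]
    exact ((Matrix.rank_mul_le_left _ _).trans (rank_cj_sub_le g x)).trans_lt hr)
  have h4 : g * x * g⁻¹ * x⁻¹ = 1 := Units.ext h3
  rwa [mul_inv_eq_one, mul_inv_eq_iff_eq_mul] at h4

theorem trace_tv_comm (v φ : ι → F) (h : φ ⬝ᵥ v = 0) (x : GL ι F) :
    ((tv v φ h * x * (tv v φ h)⁻¹ * x⁻¹ : GL ι F) : Matrix ι ι F).trace = Fintype.card ι -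
      (φ ⬝ᵥ (x : Matrix ι ι F) *ᵥ v) * (φ ⬝ᵥ ((x⁻¹ : GL ι F) : Matrix ι ι F) *ᵥ v) := by
  have h1 : x * (tv v φ h)⁻¹ * x⁻¹ = tv ((x : Matrix ι ι F) *ᵥ v)
      (-(φ ᵥ* ((x⁻¹ : GL ι F) : Matrix ι ι F))) (by
        rw [neg_dotProduct, ← Matrix.dotProduct_mulVec, inv_mulVec_mulVec, h, neg_zero]) := by
    apply Units.ext
    rw [Units.val_mul, Units.val_mul, coe_tv_inv, coe_tv, mul_sub, sub_mul, Matrix.mul_vecMulVec,
      Matrix.vecMulVec_mul, Matrix.vecMulVec_neg, mul_one, Units.mul_inv, sub_eq_add_neg]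
  rw [mul_assoc, mul_assoc, ← mul_assoc x, h1, Units.val_mul, trace_tv_mul_tv, neg_dotProduct,
    ← Matrix.dotProduct_mulVec]
  ring

theorem RType.not_mem_of_comm [Nonempty ι] {r : ℕ} {R : Subgroup (GL ι F)} (h : RType r R)
    {v φ : ι → F} (hφv : φ ⬝ᵥ v = 0) (hv : v ≠ 0) (hφ : φ ≠ 0)
    (hc : ∀ x ∈ R, x * tv v φ hφv = tv v φ hφv * x) : False := by
  have h1 := mem_scalars_of_comm h.span hc
  obtain ⟨c, hc⟩ := (mem_scalars_iff _).1 h1
  obtain ⟨k, hk, hk1, -⟩ := h.dim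
  have h2 : 2 ≤ Fintype.card ι := by
    rw [hk1]
    exact h.sympl.prime.two_le.trans (Nat.le_self_pow (by omega) r)
  exact tv_ne_one hφv hv hφ (Units.ext (eq_one_of_scalar_of_rank hc
    ((rank_tv_sub_one v φ hφv).trans_lt h2)))

theorem tv_comm_iff {v φ : ι → F} (h : φ ⬝ᵥ v = 0) (x : GL ι F) :
    tv v φ h * x = x * tv v φ h ↔ vecMulVec v φ * x = x * vecMulVec v φ := by
  rw [Units.ext_iff]
  simp [coe_tv, mul_add, add_mul]

/-- two transvections in the same root group with different squares cannot both normalise `R` -/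
theorem RType.not_two_tv [Nonempty ι] {r : ℕ} {R : Subgroup (GL ι F)} (h : RType r R)
    (hn : 3 ≤ Fintype.card ι) {v φ : ι → F} (hφv : φ ⬝ᵥ v = 0) (hv : v ≠ 0) (hφ : φ ≠ 0) {c : F}
    (hc0 : c ≠ 0) (hc : c ^ 2 ≠ 1) (h1 : tv v φ hφv ∈ subgroupNormalizer R)
    (h2 : tv v (c • φ) (by simp [hφv]) ∈ subgroupNormalizer R) : False := by
  refine h.not_mem_of_comm hφv hv hφ fun x hx => Eq.symm ?_
  by_cases h3 : ((tv v φ hφv * x * (tv v φ hφv)⁻¹ * x⁻¹ : GL ι F) : Matrix ι ι F).trace = 0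
  · have h4 := h.comm_scalar h2 hx (by have := rank_tv_sub_one v (c • φ) (by simp [hφv]); omega) (by
      rw [trace_tv_comm] at h3 ⊢
      intro h5
      simp only [smul_dotProduct, smul_eq_mul] at h5
      apply mul_ne_zero h.dim_ne (sub_ne_zero.2 hc)
      linear_combination c ^ 2 * h3 - h5)
    rw [tv_comm_iff] at h4 ⊢
    simp only [Matrix.vecMulVec_smul, smul_mul_assoc, mul_smul_comm] at h4
    exact smul_right_injective _ hc0 h4
  · exact h.comm_scalar h1 hx (by have := rank_tv_sub_one v φ hφv; omega) h3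

end Cfsg.Agent.H26
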