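import Mathlib
import Cfsg.Agent.H26.Proper

/-! Block coordinates; the refined linear case; maximal subgroups of `SL`. -/

set_option autoImplicit false
set_option maxHeartbeats 400000

namespace Cfsg.Agent.H26

open Matrix Cfsg.Geo
open scoped Kronecker

variable {ι κ : Type} [Fintype ι] [DecidableEq ι] [Fintype κ] [DecidableEq κ]
  {F : Type*} [Field F]

section blk
variable {T : Type} [Fintype T] [DecidableEq T]

/-- block monomial matrices -/
def blk (σ : Equiv.Perm T) (a : T → Matrix κ κ F) : Matrix (κ × T) (κ × T) F :=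
  Matrix.of fun p q => if p.2 = σ q.2 then a q.2 p.1 q.1 else 0

omit [Fintype κ] [DecidableEq κ] [Fintype T] in
theorem blk_apply (σ : Equiv.Perm T) (a : T → Matrix κ κ F) (p q : κ × T) :
    blk σ a p q = if p.2 = σ q.2 then a q.2 p.1 q.1 else 0 := rfl

theorem blk_eq (σ : Equiv.Perm T) (a : T → Matrix κ κ F) :
    blk σ a = ((1 : Matrix κ κ F) ⊗ₖ (σ⁻¹.permMatrix F)) * Matrix.blockDiagonal a := by
  ext ⟨k, i⟩ ⟨l, j⟩
  rw [Matrix.mul_apply, Finset.sum_eq_single (k, j)]
  · simp [blk_apply, Matrix.blockDiagonal_apply, PEquiv.toMatrix_apply, Equiv.symm_apply_eq]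
  · rintro ⟨k', j'⟩ _ hne
    by_cases h1 : k = k'
    · subst h1
      have : j' ≠ j := fun h => hne (by rw [h])
      simp [Matrix.blockDiagonal_apply, this]
    · simp [h1]
  · simp

theorem det_blk (σ : Equiv.Perm T) (a : T → Matrix κ κ F) :
    (blk σ a).det = ((Equiv.Perm.sign σ : ℤ) : F) ^ Fintype.card κ * ∏ j, (a j).det := by
  rw [blk_eq, Matrix.det_mul, Matrix.det_kronecker, Matrix.det_blockDiagonal, Matrix.det_one,
    one_pow, one_mul, Matrix.det_permutation, Equiv.Perm.sign_inv]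

theorem pull_blk (τ : F →+* F) (G : T → Matrix κ κ F) (σ : Equiv.Perm T) (a : T → Matrix κ κ F) :
    pull τ (Matrix.blockDiagonal G) (blk σ a) =
      Matrix.blockDiagonal fun j => pull τ (G (σ j)) (a j) := by
  ext ⟨k, i⟩ ⟨l, j⟩
  simp only [pull, Matrix.mul_apply, Fintype.sum_prod_type, Matrix.transpose_apply, blk_apply,
    Matrix.map_apply, Matrix.blockDiagonal_apply, apply_ite τ, map_zero]
  by_cases h : i = j
  · subst h; simp
  · have : σ i ≠ σ j := fun h' => h (σ.injective h')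
    simp [h, this, Ne.symm h]

/-- the vector supported in block `i` -/
def blkVec (i : T) (x : κ → F) : κ × T → F := fun p => if p.2 = i then x p.1 else 0

theorem blk_mulVec (σ : Equiv.Perm T) (a : T → Matrix κ κ F) (j : T) (x : κ → F) :
    blk σ a *ᵥ blkVec j x = blkVec (σ j) (a j *ᵥ x) := by
  ext ⟨k, i⟩
  simp only [Matrix.mulVec, dotProduct, Fintype.sum_prod_type, blk_apply, blkVec]
  by_cases h : i = σ j <;> simp [h]

end blk

theorem trA_mulVec (e : ι ≃ κ) (P : GL ι F) (x : Matrix κ κ F) (v : κ → F) :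
    trA e P x *ᵥ ((P : Matrix ι ι F) *ᵥ (v ∘ e)) = (P : Matrix ι ι F) *ᵥ ((x *ᵥ v) ∘ e) := by
  rw [trA_apply, cj_mulVec, Matrix.submatrix_mulVec_equiv]
  congr 3
  ext i
  simp

theorem exists_block_coords {t m : ℕ} {D : Fin t → Submodule F (ι → F)}
    (hD : IsMDecomposition m D) :
    ∃ (e : ι ≃ Fin m × Fin t) (P : GL ι F),
      (∀ i v, v ∈ D i ↔ ∃ x : Fin m → F, v = (P : Matrix ι ι F) *ᵥ (blkVec i x ∘ e)) ∧
      ∀ h ∈ decompositionStabilizer D, ∃ (σ : Equiv.Perm (Fin t)) (a : Fin t → GL (Fin m) F),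
        (h : Matrix ι ι F) = trA e P (blk σ fun j => (a j : Matrix (Fin m) (Fin m) F)) := by
  have hint := DirectSum.isInternal_submodule_of_iSupIndep_of_iSup_eq_top hD.indep hD.iSup_eq_top
  let b : ∀ i, Module.Basis (Fin m) F (D i) := fun i =>
    Module.finBasisOfFinrankEq F (D i) (hD.finrank_eq i)
  let B := hint.collectedBasis b
  let e : ι ≃ Fin m × Fin t := Fintype.equivOfCardEq (by simp [← hD.h26_card, mul_comm])
  let P : Matrix ι ι F := Matrix.of fun i i' => (b (e i').2 (e i').1 : ι → F) i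
  have hP : IsUnit P := by
    rw [← Matrix.linearIndependent_cols_iff_isUnit]
    have := B.linearIndependent.comp (fun i' => (⟨(e i').2, (e i').1⟩ : Σ _ : Fin t, Fin m))
      (fun x y h => e.injective (by
        simp only [Sigma.mk.injEq, heq_eq_eq] at h
        exact Prod.ext h.2 h.1))
    have h2 : P.col = (B ∘ fun i' => (⟨(e i').2, (e i').1⟩ : Σ _ : Fin t, Fin m)) := by
      ext i' i
      simp [P, B]
    rw [h2]
    exact this
  have hv : ∀ i x, P *ᵥ (blkVec i x ∘ e) = ∑ k, x k • (b i k : ι → F) := by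
    intro i x
    ext a
    simp only [Matrix.mulVec, dotProduct, P, Matrix.of_apply, Function.comp]
    rw [e.sum_comp (fun p => (b p.2 p.1 : ι → F) a * blkVec i x p), Fintype.sum_prod_type]
    simp [blkVec, mul_comm]
  have hmem : ∀ i v, v ∈ D i ↔ ∃ x : Fin m → F, v = P *ᵥ (blkVec i x ∘ e) := by
    intro i v
    constructor
    · intro h
      refine ⟨(b i).repr ⟨v, h⟩, ?_⟩
      rw [hv]
      have := congrArg Subtype.val ((b i).sum_repr ⟨v, h⟩)
      rw [Submodule.coe_sum] at this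
      exact this.symm
    · rintro ⟨x, rfl⟩
      rw [hv]
      exact Submodule.sum_mem _ fun k _ => Submodule.smul_mem _ _ (b i k).2
  refine ⟨e, hP.unit, hmem, fun h ⟨σ, hσ⟩ => ?_⟩
  have h1 : ∀ j l, ∃ x : Fin m → F, (h : Matrix ι ι F) *ᵥ (P *ᵥ (blkVec j (Pi.single l 1) ∘ e)) =
      P *ᵥ (blkVec (σ j) x ∘ e) := fun j l =>
    (hmem _ _).1 (hσ j ▸ ⟨_, (hmem _ _).2 ⟨_, rfl⟩, Matrix.toLin'_apply _ _⟩)
  choose x hx using h1
  let a : Fin t → Matrix (Fin m) (Fin m) F := fun j => Matrix.of fun k l => x j l k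
  have h2 : (h : Matrix ι ι F) = trA e hP.unit (blk σ a) := by
    rw [← (Units.mul_left_inj hP.unit)]
    ext i i'
    have h3 : blkVec (e i').2 (Pi.single (e i').1 (1 : F)) ∘ e = Pi.single i' 1 := by
      ext j
      by_cases hj : j = i'
      · subst hj; simp [blkVec]
      · have : ¬ ((e j).1 = (e i').1 ∧ (e j).2 = (e i').2) := fun h =>
          hj (e.injective (Prod.ext h.1 h.2))
        simp only [Function.comp, blkVec, Pi.single_apply, hj, if_false]
        split_ifs <;> tauto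
    have h4 := hx (e i').2 (e i').1
    have h5 := trA_mulVec e hP.unit (blk σ a) (blkVec (e i').2 (Pi.single (e i').1 (1 : F)))
    rw [blk_mulVec, Matrix.mulVec_single_one, IsUnit.unit_spec] at h5
    change _ = P *ᵥ (blkVec _ (x _ _) ∘ e) at h5
    rw [← h4, h3, Matrix.mulVec_mulVec, Matrix.mulVec_mulVec] at h5
    simpa using (congrFun h5 i).symm
  have h3 : ∀ j, IsUnit (a j) := by
    have h4 : (blk σ a).det ≠ 0 := by
      have : IsUnit (blk σ a) := by
        have := h.isUnit.map (trA e hP.unit).symm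
        rwa [h2, AlgEquiv.symm_apply_apply] at this
      exact ((Matrix.isUnit_iff_isUnit_det _).1 this).ne_zero
    rw [det_blk] at h4
    intro j
    rw [Matrix.isUnit_iff_isUnit_det, isUnit_iff_ne_zero]
    exact Finset.prod_ne_zero_iff.1 (right_ne_zero_of_mul h4) j (Finset.mem_univ j)
  exact ⟨σ, fun j => (h3 j).unit, h2⟩

theorem det_trA (e : ι ≃ κ) (P : GL ι F) (x : Matrix κ κ F) : (trA e P x).det = x.det := by
  rw [trA_apply, cj_apply, Matrix.det_units_conj, Matrix.det_submatrix_equiv_self]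

theorem isUnit_blockDiagonal {T : Type} [Fintype T] [DecidableEq T] {G : T → Matrix κ κ F}
    (h : ∀ j, IsUnit (G j)) : IsUnit (Matrix.blockDiagonal G) := by
  rw [Matrix.isUnit_iff_isUnit_det, Matrix.det_blockDiagonal, isUnit_iff_ne_zero,
    Finset.prod_ne_zero_iff]
  exact fun j _ => ((Matrix.isUnit_iff_isUnit_det _).1 (h j)).ne_zero

theorem pull_trF (σ : F →+* F) (e : ι ≃ κ) (P : GL ι F) (G x : Matrix κ κ F) :
    pull σ (trF σ e P G) (trA e P x) = trF σ e P (pull σ G x) := by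
  apply unF_injective σ e P
  rw [← pull_unF, unF_trF, unF_trF]

theorem trF_smul (σ : F →+* F) (e : ι ≃ κ) (P : GL ι F) (c : F) (G : Matrix κ κ F) :
    trF σ e P (c • G) = c • trF σ e P G := by
  apply unF_injective σ e P
  rw [unF_smul, unF_trF, unF_trF]

theorem trF_conj {σ : F →+* F} (hσ : ∀ a, σ (σ a) = a) (e : ι ≃ κ) (P : GL ι F) (G : Matrix κ κ F) :
    ((trF σ e P G).map σ)ᵀ = trF σ e P (G.map σ)ᵀ := by
  apply unF_injective σ e P
  rw [← unF_conj hσ, unF_trF, unF_trF]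

/-- if every invertible block is an isometry of `G₁`, the decomposition stabiliser preserves
a form -/
theorem exists_isom_of_decomp {t m : ℕ} {D : Fin t → Submodule F (ι → F)}
    (hD : IsMDecomposition m D) {σ : F →+* F} (hσ : ∀ a, σ (σ a) = a)
    {G₁ : Matrix (Fin m) (Fin m) F} (hG₁ : IsUnit G₁) {ε : F} (hε : (G₁.map σ)ᵀ = ε • G₁)
    (h : ∀ a : GL (Fin m) F, pull σ G₁ a = G₁) :
    ∃ G : Matrix ι ι F, IsUnit G ∧ (G.map σ)ᵀ = ε • G ∧ decompositionStabilizer D ≤ isom σ G := by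
  obtain ⟨e, P, -, hP⟩ := exists_block_coords hD
  refine ⟨trF σ e P (Matrix.blockDiagonal fun _ => G₁),
    isUnit_trF _ _ (isUnit_blockDiagonal fun _ => hG₁), ?_, fun g hg => ?_⟩
  · rw [trF_conj hσ, ← trF_smul, Matrix.blockDiagonal_map _ _ (map_zero σ),
      Matrix.blockDiagonal_transpose, ← Matrix.blockDiagonal_smul]
    simp only [hε]
    rfl
  · obtain ⟨τ, a, ha⟩ := hP g hg
    rw [mem_isom, ha, pull_trF, pull_blk]
    simp only [h]

theorem eq_zero_or_one [Fintype F] (h : Fintype.card F = 2) (a : F) : a = 0 ∨ a = 1 := by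
  by_cases h0 : a = 0
  · exact Or.inl h0
  · right
    simpa [h] using FiniteField.pow_card_sub_one_eq_one a h0

theorem exists_isom_of_frame {t : ℕ} {D : Fin t → Submodule F (ι → F)} (hD : IsMDecomposition 1 D)
    {σ : F →+* F} (hσ : ∀ a, σ (σ a) = a) (h : ∀ c : F, c ≠ 0 → c * σ c = 1) :
    ∃ G : Matrix ι ι F, IsUnit G ∧ (G.map σ)ᵀ = G ∧ decompositionStabilizer D ≤ isom σ G := by
  simpa using exists_isom_of_decomp hD hσ (G₁ := 1) isUnit_one (ε := 1) (by simp) fun a => by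
    ext i j
    have h1 : (a : Matrix (Fin 1) (Fin 1) F) 0 0 ≠ 0 := by
      simpa using (Matrix.isUnits_det_units a).ne_zero
    obtain rfl := Subsingleton.elim i 0
    obtain rfl := Subsingleton.elim j 0
    simp [pull, Matrix.mul_apply, h _ h1]

/-- `GL₂(2)` normalises a field with four elements -/
theorem exists_field_two [Fintype F] (hq : Fintype.card F = 2) :
    ∃ K : Subalgebra F (Matrix (Fin 2) (Fin 2) F), IsFieldSubalgebra 2 K ∧ Stable ⊤ K := by
  have h2 : (2 : F) = 0 := by simpa [hq] using FiniteField.cast_card_eq_zero F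
  have h11 : (1 : F) + 1 = 0 := by rw [one_add_one_eq_two, h2]
  let w : Matrix (Fin 2) (Fin 2) F := !![0, 1; 1, 1]
  have hw : w * w = w + 1 := by
    ext i j; fin_cases i <;> fin_cases j <;> simp [w, h11]
  have hroot : ∀ x : Matrix (Fin 2) (Fin 2) F, x * x = x + 1 → x = w ∨ x = w + 1 := by
    intro x hx
    have h00 := congrFun (congrFun hx 0) 0
    have h01 := congrFun (congrFun hx 0) 1
    have h10 := congrFun (congrFun hx 1) 0
    have h1 := congrFun (congrFun hx 1) 1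
    rw [Matrix.eta_fin_two x]
    simp only [Matrix.mul_apply, Fin.sum_univ_two, Matrix.add_apply, Matrix.one_apply] at h00 h01 h10 h1
    rcases eq_zero_or_one hq (x 0 0) with a | a <;> rcases eq_zero_or_one hq (x 0 1) with b | b <;>
      rcases eq_zero_or_one hq (x 1 0) with c | c <;> rcases eq_zero_or_one hq (x 1 1) with d | d <;>
      simp_all [w, Matrix.one_fin_two]
  let K : Subalgebra F (Matrix (Fin 2) (Fin 2) F) :=
    { carrier := {x | ∃ a b : F, x = a • 1 + b • w}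
      mul_mem' := by
        rintro _ _ ⟨a, b, rfl⟩ ⟨c, d, rfl⟩
        refine ⟨a * c + b * d, a * d + b * c + b * d, ?_⟩
        simp only [mul_add, add_mul, smul_mul_assoc, mul_smul_comm, one_mul, mul_one, hw]
        module
      add_mem' := by
        rintro _ _ ⟨a, b, rfl⟩ ⟨c, d, rfl⟩
        exact ⟨a + c, b + d, by module⟩
      algebraMap_mem' := fun c => ⟨c, 0, by simp [Algebra.algebraMap_eq_smul_one]⟩ }
  refine ⟨K, ⟨?_, ?_, ?_⟩, ?_⟩
  · rintro _ ⟨a, b, rfl⟩ _ ⟨c, d, rfl⟩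
    simp only [mul_add, add_mul, smul_mul_assoc, mul_smul_comm, one_mul, mul_one, hw]
    module
  · rintro _ ⟨a, b, rfl⟩ h0
    have hww : w + w = 0 := by rw [← two_smul F, h2, zero_smul]
    rcases eq_zero_or_one hq a with rfl | rfl <;> rcases eq_zero_or_one hq b with rfl | rfl
    · simp at h0
    · exact ⟨_, ⟨1, 1, rfl⟩, by simp [mul_add, hw, ← add_assoc, hww]⟩
    · exact ⟨_, ⟨1, 0, rfl⟩, by simp⟩
    · exact ⟨_, ⟨0, 1, rfl⟩, by simp [add_mul, hw, ← add_assoc, hww]⟩
  · have hli : LinearIndependent F ![(1 : Matrix (Fin 2) (Fin 2) F), w] := by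
      rw [LinearIndependent.pair_iff]
      intro s t h
      have h1 := congrFun (congrFun h 0) 0
      have h2 := congrFun (congrFun h 0) 1
      simp [w] at h1 h2
      exact ⟨h1, h2⟩
    have := finrank_span_eq_card hli
    rw [Fintype.card_fin] at this
    refine Eq.trans ?_ this
    refine LinearEquiv.finrank_eq (LinearEquiv.ofEq (Subalgebra.toSubmodule K) _ ?_)
    ext x
    simp only [Matrix.range_cons, Matrix.range_empty, Set.union_empty, Set.singleton_union,
      Submodule.mem_span_pair]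
    exact ⟨fun ⟨a, b, h⟩ => ⟨a, b, h.symm⟩, fun ⟨a, b, h⟩ => ⟨a, b, h.symm⟩⟩
  · rintro g - _ ⟨a, b, rfl⟩
    rcases hroot (cj g w) (by rw [← map_mul, hw, map_add, map_one]) with h | h
    · exact ⟨a, b, by rw [map_add, map_smul, map_smul, map_one, h]⟩
    · exact ⟨a + b, b, by rw [map_add, map_smul, map_smul, map_one, h]; module⟩

/-- `x ↦ x ⊗ 1` -/
def kronL (κ β : Type) [Fintype κ] [DecidableEq κ] [Fintype β] [DecidableEq β] (F : Type*)
    [Field F] : Matrix κ κ F →ₐ[F] Matrix (κ × β) (κ × β) F :=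
  AlgHom.ofLinearMap
    { toFun := fun x => x ⊗ₖ (1 : Matrix β β F)
      map_add' := fun _ _ => Matrix.add_kronecker _ _ _
      map_smul' := fun _ _ => Matrix.smul_kronecker _ _ _ }
    Matrix.one_kronecker_one fun x y => by
      simp only [LinearMap.coe_mk, AddHom.coe_mk]
      rw [← Matrix.mul_kronecker_mul, one_mul]

theorem isFieldSubalgebra_map [Nonempty κ] [Nonempty ι] {r : ℕ} {K : Subalgebra F (Matrix κ κ F)}
    (hK : IsFieldSubalgebra r K) (φ : Matrix κ κ F →ₐ[F] Matrix ι ι F) :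
    IsFieldSubalgebra r (K.map φ) := by
  have hφ : Function.Injective φ := (φ : Matrix κ κ F →+* Matrix ι ι F).injective
  refine ⟨?_, ?_, ?_⟩
  · rintro _ ⟨x, hx, rfl⟩ _ ⟨y, hy, rfl⟩
    simp only [AlgHom.toRingHom_eq_coe, RingHom.coe_coe, ← map_mul, hK.comm x hx y hy]
  · rintro _ ⟨x, hx, rfl⟩ h0
    obtain ⟨y, hy, hxy⟩ := hK.inv x hx (by rintro rfl; exact h0 (map_zero _))
    exact ⟨φ y, ⟨y, hy, rfl⟩, by
      simp only [AlgHom.toRingHom_eq_coe, RingHom.coe_coe, ← map_mul, hxy, map_one]⟩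
  · rw [← hK.finrank_eq]
    exact (Subalgebra.equivMapOfInjective K φ hφ).toLinearEquiv.finrank_eq.symm

theorem cj_trA_kronecker {β : Type} [Fintype β] [DecidableEq β] (e : ι ≃ κ × β) (P h : GL ι F)
    {a : GL κ F} {b : GL β F}
    (hab : (h : Matrix ι ι F) = trA e P ((a : Matrix κ κ F) ⊗ₖ (b : Matrix β β F)))
    (x : Matrix κ κ F) (y : Matrix β β F) :
    cj h (trA e P (x ⊗ₖ y)) = trA e P (cj a x ⊗ₖ cj b y) := by
  rw [cj_apply, Units.mul_inv_eq_iff_eq_mul, hab, ← map_mul, ← map_mul, ← Matrix.mul_kronecker_mul,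
    ← Matrix.mul_kronecker_mul, cj_mul_coe, cj_mul_coe]

/-- a subalgebra of the first tensor factor that is stable under the relevant group -/
theorem stable_map_kronL {β : Type} [Fintype β] [DecidableEq β] (e : ι ≃ κ × β) (P : GL ι F)
    {H : Subgroup (GL ι F)} {K : Subalgebra F (Matrix κ κ F)} {L : Subgroup (GL κ F)}
    (hK : Stable L K) (hH : ∀ h ∈ H, ∃ a ∈ L, ∃ b : GL β F,
      (h : Matrix ι ι F) = trA e P ((a : Matrix κ κ F) ⊗ₖ (b : Matrix β β F))) :
    Stable H (K.map ((trA e P).toAlgHom.comp (kronL κ β F))) := by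
  rintro h hh _ ⟨x, hx, rfl⟩
  obtain ⟨a, ha, b, hab⟩ := hH h hh
  refine ⟨cj a x, hK a ha x hx, ?_⟩
  change trA e P (cj a x ⊗ₖ (1 : Matrix β β F)) = cj h (trA e P (x ⊗ₖ (1 : Matrix β β F)))
  rw [cj_trA_kronecker e P h hab, map_one]

/-- the refined list of geometric cases for the linear groups -/
inductive LinCase (n : ℕ) (F : Type*) [Field F] [Fintype F]
    (rel : Subgroup (GL (Fin n) F) → Prop) : Prop
  | red (W : Submodule F (Fin n → F)) (h1 : W ≠ ⊥) (h2 : W ≠ ⊤) (h : rel (subspaceStabilizer W))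
  | dec (t m : ℕ) (D : Fin t → Submodule F (Fin n → F)) (hD : IsMDecomposition m D)
      (h1 : m = 1 → 5 ≤ Fintype.card F) (h2 : m = 2 → 3 ≤ Fintype.card F)
      (h : rel (decompositionStabilizer D))
  | fld (r : ℕ) (K : Subalgebra F (Matrix (Fin n) (Fin n) F)) (hr : r.Prime)
      (hK : IsFieldSubalgebra r K) (h : rel (subalgebraNormalizer K))
  | ten (n₁ n₂ : ℕ) (e : Fin n ≃ Fin n₁ × Fin n₂) (P : GL (Fin n) F) (h1 : 2 ≤ n₁) (h2 : n₁ < n₂)
      (h3 : n₁ = 2 → 3 ≤ Fintype.card F) (h : rel (tensorProductSubgroup n₁ n₂ e P))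
  | sub (F₀ : Subfield F) (r : ℕ) (P : GL (Fin n) F) (hr : r.Prime)
      (hc : Fintype.card F = Nat.card F₀ ^ r) (h : rel (subfieldSubgroup F₀ P))
  | ext (r : ℕ) (R : Subgroup (GL (Fin n) F)) (hR : RType r R)
      (hd : IsLinearSymplecticTypeData r R) (h : rel (subgroupNormalizer R))
  | wr (m t : ℕ) (e : Fin n ≃ (Fin t → Fin m)) (P : GL (Fin n) F) (h1 : 3 ≤ m) (h2 : 2 ≤ t)
      (h : rel (tensorWreathSubgroup m t e P))
  | sp (f : (Fin n → F) → (Fin n → F) → F) (hf : IsSymplecticForm f) (hn : Even n)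
      (h : rel (similarityGroup f))
  | un (σ : F ≃+* F) (f : (Fin n → F) → (Fin n → F) → F) (hf : IsUnitaryForm σ f)
      (h : rel (similarityGroup f))
  | orth (Q : (Fin n → F) → F) (hQ : IsNondegenerateQuadraticForm Q) (hq : Odd (Fintype.card F))
      (h : rel (quadSimilarityGroup Q))

theorem linCase_of_bilin [Fintype F] {n : ℕ} (hn : 2 ≤ n) {H : Subgroup (GL (Fin n) F)} (hH : Irr H)
    {G : Matrix (Fin n) (Fin n) F} (hG : IsUnit G) (hs : Gᵀ = G ∨ Gᵀ = -G)
    (hsim : H ≤ similarityGroup (fm (RingHom.id F) G)) : LinCase n F (H ≤ ·) := by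
  rcases alt_or_symm hH (by simpa using hn) hs hsim with h | ⟨hodd, h⟩
  · exact .sp _ (isSymplecticForm_fm h hG) (by simpa using h.even_card' hG) hsim
  · exact .orth _ (isNondegenerateQuadraticForm_fm (isUnit_add_transpose hodd h hG)) hodd
      (hsim.trans (similarityGroup_le_quad G))

theorem linCase_of_decomp [Fintype F] {n : ℕ} (hn : 2 ≤ n) {H : Subgroup (GL (Fin n) F)}
    (hH : Irr H) {t m : ℕ} {D : Fin t → Submodule F (Fin n → F)} (hD : IsMDecomposition m D)
    (hle : H ≤ decompositionStabilizer D) : LinCase n F (H ≤ ·) := by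
  have hq : 1 < Fintype.card F := Fintype.one_lt_card
  by_cases h1 : m = 1 ∧ Fintype.card F ≤ 3
  · obtain ⟨rfl, h1⟩ := h1
    obtain ⟨G, hG, hs, hi⟩ := exists_isom_of_frame hD (σ := RingHom.id F) (fun _ => rfl)
      fun c hc => by
        have := FiniteField.pow_card_sub_one_eq_one c hc
        interval_cases h : Fintype.card F
        · simp at this; simp [this]
        · simpa [sq] using this
    exact linCase_of_bilin hn hH hG (Or.inl (by simpa using hs))
      (hle.trans (hi.trans (isom_le_similarityGroup _ _)))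
  by_cases h2 : m = 1 ∧ Fintype.card F = 4
  · obtain ⟨rfl, h2⟩ := h2
    obtain ⟨σ, h3, h4, h5⟩ := exists_involution (F := F) (q := 2) h2
    obtain ⟨G, hG, hs, hi⟩ := exists_isom_of_frame hD (σ := (σ : F →+* F)) h4 fun c hc => by
      have := FiniteField.pow_card_sub_one_eq_one c hc
      rw [h2] at this
      change c * σ c = 1
      rw [h3, ← this]; ring
    exact .un σ _ (isUnitaryForm_fm (by rintro rfl; simp at h5) h4 hs hG)
      (hle.trans (hi.trans (isom_le_similarityGroup _ _)))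
  by_cases h3 : m = 2 ∧ Fintype.card F = 2
  · obtain ⟨rfl, h3⟩ := h3
    obtain ⟨G, hG, hs, hi⟩ := exists_isom_of_decomp hD (σ := RingHom.id F) (fun _ => rfl)
      isUnit_J₂ (ε := -1) (by simpa using alt_J₂.1) fun a => by
        rw [pull_J₂, (eq_zero_or_one h3 _).resolve_left (Matrix.isUnits_det_units a).ne_zero,
          one_smul]
    exact linCase_of_bilin hn hH hG (Or.inr (by simpa using hs))
      (hle.trans (hi.trans (isom_le_similarityGroup _ _)))
  exact .dec t m D hD (by omega) (by omega) hle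

theorem linCase_of_tensor [Fintype F] {n : ℕ} {H : Subgroup (GL (Fin n) F)} {a b : ℕ}
    (e : Fin n ≃ Fin a × Fin b) (P : GL (Fin n) F) (ha : 2 ≤ a) (hab : a < b)
    (hle : H ≤ tensorProductSubgroup a b e P) : LinCase n F (H ≤ ·) := by
  have hq : 1 < Fintype.card F := Fintype.one_lt_card
  by_cases h1 : a = 2 ∧ Fintype.card F = 2
  · obtain ⟨rfl, h1⟩ := h1
    obtain ⟨K, hK, hst⟩ := exists_field_two h1
    have : Nonempty (Fin n) := ⟨e.symm (0, ⟨0, by omega⟩)⟩
    refine .fld 2 _ Nat.prime_two (isFieldSubalgebra_map hK _)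
      (stable_map_kronL e P hst fun h hh => ?_).le_normalizer
    obtain ⟨x, y, hxy⟩ := (mem_tensorProductSubgroup e P h).1 (hle hh)
    exact ⟨x, trivial, y, hxy⟩
  exact .ten a b e P ha hab (by omega) hle

/-- **Aschbacher's theorem**, refined linear case -/
theorem lin_cases [Fintype F] {n : ℕ} (hn : 3 ≤ n) (H : Subgroup (GL (Fin n) F)) :
    LinCase n F (H ≤ ·) ∨ InLinearResidualClass H := by
  have : Nonempty (Fin n) := ⟨⟨0, by omega⟩⟩
  have hn2 : 2 ≤ n := by omega
  by_cases hH : Irr H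
  swap
  · simp only [Irr, not_forall, not_or] at hH
    obtain ⟨W, h1, h2, h3⟩ := hH
    exact Or.inl (.red W h2 h3 (le_subspaceStabilizer h1))
  have hsub : ∀ N, Nrm H N → spanAlg N = ⊤ → ∀ F₀ : Subfield F, F₀ ≠ ⊤ →
      (∀ g ∈ N, (g : Matrix (Fin n) (Fin n) F).trace ∈ F₀) → LinCase n F (H ≤ ·) := by
    intro N h1 h2 F₀ h3 h4
    obtain ⟨F₁, r, P, hr, hc, -, hle⟩ := subfield_case h1 h2 h3 h4
    exact .sub F₁ r P hr hc hle
  have hwr : ∀ (m t : ℕ) (e : Fin n ≃ (Fin t → Fin m)) (P : GL (Fin n) F), 2 ≤ m → 2 ≤ t →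
      (∀ h ∈ H, ∃ (σ : Equiv.Perm (Fin t)) (a : Fin t → GL (Fin m) F),
        h = trG e P (facPerm (Fin m) F σ * tpwG a)) → LinCase n F (H ≤ ·) := by
    intro m t e P hm ht hw
    rcases hm.eq_or_lt with rfl | hm
    · obtain ⟨G, hG, hs, -, hsim⟩ := exists_bilin_of_wreath_two e P
      refine linCase_of_bilin hn2 hH hG (symm_or_skew_of_neg_one_pow hs) fun h hh => ?_
      obtain ⟨σ, a, rfl⟩ := hw h hh
      exact hsim σ a
    · refine .wr m t e P hm ht fun h hh => ?_
      obtain ⟨σ, a, rfl⟩ := hw h hh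
      rw [mem_tensorWreathSubgroup]
      simpa using mem_tensorWreathStandard_of σ a
  have huni : ∀ N, Nrm H N → spanAlg N = ⊤ → ∀ (σ : F ≃+* F) (G : Matrix (Fin n) (Fin n) F),
      σ ≠ RingEquiv.refl F → (∀ x, σ (σ x) = x) → IsUnit G → (G.map σ)ᵀ = G →
      N ≤ isom (σ : F →+* F) G → LinCase n F (H ≤ ·) := by
    intro N h1 h2 σ G h3 h4 h5 h6 h7
    exact .un σ _ (isUnitaryForm_fm h3 h4 h6 h5) (h1.le_similarityGroup h2 h5 h7)
  by_cases haqp : ∀ N ≤ H, Nrm H N → N ≤ scalars (Fin n) F ∨ spanAlg N = ⊤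
  swap
  · left
    simp only [not_forall, not_or] at haqp
    obtain ⟨N, -, hN, hns, hnt⟩ := haqp
    by_cases hc : ctr (spanAlg N) = ⊥
    swap
    · rcases decomp_or_field hH hN.stable_spanAlg.ctr (ctr_comm _) hc with
        ⟨t, m, D, h1, h2⟩ | ⟨r, K, h1, h2, h3⟩
      · exact linCase_of_decomp hn2 hH h1 h2
      · exact .fld r K h1 h2 h3
    obtain ⟨a, b, e, P, ha, hb, -, hk⟩ := exists_tensor_of_not_aqp hH hN hns hnt hc
    rcases lt_trichotomy a b with hab | rfl | hab
    · exact linCase_of_tensor e P ha hab fun h hh => (mem_tensorProductSubgroup e P h).2 (hk h hh)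
    · refine hwr a 2 (e.trans (finTwoArrowEquiv _).symm) P ha le_rfl fun h hh => ?_
      obtain ⟨x, y, hxy⟩ := hk h hh
      exact ⟨1, _, eq_trG_wreath_of_kronecker e P h x y hxy⟩
    · refine linCase_of_tensor (e.trans (Equiv.prodComm _ _)) P hb hab fun h hh => ?_
      obtain ⟨x, y, hxy⟩ := hk h hh
      exact (mem_tensorProductSubgroup _ P h).2 ⟨y, x, by rw [hxy, trA_kronecker_swap]⟩
  rcases structure_of_aqp (not_le_scalars_of_irr hH (by simp; omega)) haqp with
    ⟨r, R, -, hR, h⟩ | ⟨P, h⟩ | ⟨N, t, m, e, P, L, h⟩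
  · left
    rcases h.subfield_or_minimal with ⟨F₀, h1, h2⟩ | ⟨p, e, hrp, hmin⟩
    · exact hsub R hR h.span F₀ h1 h2
    by_cases h2 : Nat.card (Subgroup.center R) = 2
    · obtain ⟨G, hG, hs, hle⟩ := h.exists_bilin h2
      exact linCase_of_bilin hn2 hH hG hs (hR.le_similarityGroup h.span hG hle)
    rcases Nat.even_or_odd' e with ⟨d, rfl | rfl⟩
    · obtain ⟨σ, G, h3, h4, h5, h6, h7⟩ := h.exists_unitary hrp hmin
      exact huni R hR h.span σ G h3 h4 h5 h6 h7
    refine .ext r R h ⟨h.sympl, absIrr_of_spanAlg_eq_top h.span, p, _, hrp, hmin, ?_⟩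
      hR.le_normalizer
    obtain ⟨k, hk, hk1, hk2⟩ := h.dim
    rcases h.center_card with ⟨h3, h4⟩ | ⟨rfl, h4 | h4⟩
    · exact Or.inl ⟨h3, odd_two_mul_add_one d, h4, k, hk, by rw [hk2, h4, pow_add, pow_one]⟩
    · exact absurd h4 h2
    · refine Or.inr (Or.inl ⟨rfl, ?_, h4, ?_, k, by rw [hk2, h4, pow_add]; rfl⟩)
      · have := (h.le_two_of_minimal hrp hmin).1
        omega
      · rw [hk1]
        rw [Fintype.card_fin] at hk1
        rcases hk.eq_or_lt with rfl | hk
        · omega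
        · exact Nat.pow_le_pow_right (n := 2) two_pos hk
  · by_cases h1 : ∃ F₀ : Subfield F, F₀ ≠ ⊤ ∧ RealisableOver F₀ (matrixSet P)
    · obtain ⟨F₀, h1, h2⟩ := h1
      exact Or.inl (hsub P h.nrm h.span F₀ h1 (trace_mem_of_realisableOver h2))
    by_cases h2 : ∃ Q : (Fin n → F) → F, IsNondegenerateQuadraticForm Q ∧
      FixesQuadForm (matrixSet P) Q
    · obtain ⟨Q, h2, h3⟩ := h2
      obtain ⟨G, hG, hs, -, hle⟩ := fixes_polar h2 h3
      exact Or.inl (linCase_of_bilin hn2 hH hG (Or.inl hs) (h.nrm.le_similarityGroup h.span hG hle))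
    by_cases h3 : ∃ f : (Fin n → F) → (Fin n → F) → F, IsSymplecticForm f ∧
      FixesForm (matrixSet P) f
    · obtain ⟨f, h3, h4⟩ := h3
      obtain ⟨G, hG, hs, rfl⟩ := symplectic_eq_fm h3
      exact Or.inl (linCase_of_bilin hn2 hH hG (Or.inr hs.1)
        (h.nrm.le_similarityGroup h.span hG (fixesForm_iff.1 h4)))
    by_cases h4 : ∃ (σ : F ≃+* F) (f : (Fin n → F) → (Fin n → F) → F), IsUnitaryForm σ f ∧
      FixesForm (matrixSet P) f
    · obtain ⟨σ, f, h4, h5⟩ := h4
      obtain ⟨G, hG, hs, rfl⟩ := unitary_eq_fm h4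
      exact Or.inl (huni P h.nrm h.span σ G h4.ne_refl h4.involutive hG hs (fixesForm_iff.1 h5))
    exact Or.inr ⟨P, h.isResidualCore fun F₀ h5 h6 => h1 ⟨F₀, h5, h6⟩, h2, h3, h4⟩
  · exact Or.inl (hwr m t e P h.two_le_m h.two_le_t h.wreath)

end Cfsg.Agent.H26
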