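import Mathlib
import Cfsg.Agent.H26.LinCase

/-! Maximal subgroups of `SL`. -/

set_option autoImplicit false
set_option maxHeartbeats 400000

namespace Cfsg.Agent.H26

open Matrix Cfsg.Geo
open scoped Kronecker

variable {ι : Type} [Fintype ι] [DecidableEq ι] {F : Type*} [Field F]

theorem sl_not_le_subspaceStabilizer {W : Submodule F (ι → F)} (h1 : W ≠ ⊥) (h2 : W ≠ ⊤) :
    ¬ specialLinear ι F ≤ subspaceStabilizer W := by
  intro hle
  obtain ⟨u, hu, hu0⟩ := (Submodule.ne_bot_iff W).1 h1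
  obtain ⟨w, hw⟩ : ∃ w, w ∉ W := by
    by_contra! h
    exact h2 (eq_top_iff.2 fun w _ => h w)
  obtain ⟨φ, hφ1, hφ2⟩ := exists_dual (W := F ∙ w) (u := u) fun h => by
    obtain ⟨c, rfl⟩ := Submodule.mem_span_singleton.1 h
    have hc : c ≠ 0 := by rintro rfl; simp at hu0
    exact hw ((W.smul_mem_iff hc).1 hu)
  have h3 := (mem_subspaceStabilizer.1 (hle (tv_mem_specialLinear w φ
    (hφ2 w (Submodule.mem_span_singleton_self w)))) u).1 hu
  rw [tv_mulVec, hφ1, one_smul] at h3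
  exact hw ((W.add_mem_iff_right hu).1 h3)

theorem sl_not_le_decompositionStabilizer {t m : ℕ} {D : Fin t → Submodule F (ι → F)}
    (hD : IsMDecomposition m D) : ¬ specialLinear ι F ≤ decompositionStabilizer D := by
  intro hle
  have := hD.two_le
  let i : Fin t := ⟨0, by omega⟩
  let j : Fin t := ⟨1, by omega⟩
  have hij : i ≠ j := by simp [i, j]
  obtain ⟨u, hu, hu0⟩ := hD.h26_exists_ne_zero i
  obtain ⟨v, hv, hv0⟩ := hD.h26_exists_ne_zero j
  obtain ⟨φ, hφ1, hφ2⟩ := exists_dual (W := D j) (u := u) fun h =>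
    hu0 (Submodule.disjoint_def.1 (hD.indep.pairwiseDisjoint hij) u hu h)
  obtain ⟨k, hk⟩ := mulVec_mem_of_mem_decompositionStabilizer
    (hle (tv_mem_specialLinear v φ (hφ2 v hv))) hu
  rw [tv_mulVec, hφ1, one_smul] at hk
  exact not_mem_of_decomp hD hij hu hv hu0 hv0 k hk

theorem exists_three (hn : 3 ≤ Fintype.card ι) : ∃ i j k : ι, i ≠ j ∧ i ≠ k ∧ j ≠ k :=
  Fintype.two_lt_card_iff.1 hn

theorem exists_ne_ne (hn : 3 ≤ Fintype.card ι) (i k : ι) : ∃ j, j ≠ i ∧ j ≠ k := by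
  obtain ⟨a, b, c, h1, h2, h3⟩ := exists_three hn
  by_contra! h
  by_cases ha : a = i
  · exact h3 ((h b (ha ▸ h1.symm)).trans (h c (ha ▸ h2.symm)).symm)
  · by_cases hb : b = i
    · exact h2 ((h a ha).trans (h c (hb ▸ h3.symm)).symm)
    · exact h1 ((h a ha).trans (h b hb).symm)

theorem single_dot_single {i j : ι} (h : i ≠ j) :
    (Pi.single j (1 : F) : ι → F) ⬝ᵥ Pi.single i 1 = 0 := by simp [h.symm]

theorem sl_not_le_similarityGroup [Finite F] (hn : 3 ≤ Fintype.card ι) {σ : F →+* F}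
    {G : Matrix ι ι F} (hG : IsUnit G) : ¬ specialLinear ι F ≤ similarityGroup (fm σ G) := by
  intro hle
  have := Fintype.ofFinite F
  have : Nonempty ι := Fintype.card_pos_iff.1 (by omega)
  obtain ⟨p, hp, -, hprime, -⟩ := FiniteField.card' F
  apply hG.ne_zero
  ext i k
  obtain ⟨j, hji, hjk⟩ := exists_ne_ne hn i k
  have h1 := mem_isom_of_pow_char hG (hle (tv_mem_specialLinear _ _ (single_dot_single hji.symm)))
    (k := 1) hprime (CharP.cast_eq_zero F p)
    (by rw [pow_one]; exact tv_pow_char _ _ _ (CharP.cast_eq_zero F p))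
  have h2 := fm_isom h1 (Pi.single j 1) (Pi.single k 1)
  rw [tv_mulVec, tv_mulVec] at h2
  simpa [hjk, fm_add_left] using h2

theorem exists_sq_ne_one [Fintype F] (hq : 4 ≤ Fintype.card F) : ∃ c : F, c ≠ 0 ∧ c ^ 2 ≠ 1 := by
  by_contra! h
  have := (FiniteField.forall_pow_eq_one_iff (K := F) 2).1 fun x => Units.ext (by
    simpa using h x x.ne_zero)
  have := Nat.le_of_dvd two_pos this
  omega

theorem sl_not_le_subfieldSubgroup [Finite F] (hn : 2 ≤ Fintype.card ι) {F₀ : Subfield F}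
    (h0 : F₀ ≠ ⊤) (P : GL ι F) : ¬ specialLinear ι F ≤ subfieldSubgroup F₀ P := by
  intro hle
  have : Nonempty ι := Fintype.card_pos_iff.1 (by omega)
  obtain ⟨i, j, hij⟩ := Fintype.one_lt_card_iff.1 hn
  apply h0
  rw [eq_top_iff]
  intro a _
  have h1 := trace_mem_of_mem_ratSub (mul_mem
    (tv_mem_ratSub (hle (tv_mem_specialLinear (Pi.single i 1) (Pi.single j a) (by simp [hij]))))
    (tv_mem_ratSub (hle (tv_mem_specialLinear _ _ (single_dot_single hij.symm)))))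
  rw [Units.val_mul, trace_tv_mul_tv] at h1
  simpa using sub_mem h1 (natCast_mem F₀ (Fintype.card ι))

theorem LinCase.eq_inf [Fintype F] {n : ℕ} (hn : 3 ≤ n) (hn' : n < 27) {H : Subgroup (GL (Fin n) F)}
    (hH : IsMaximalIn (specialLinear (Fin n) F) H) (h : LinCase n F (H ≤ ·)) :
    LinCase n F fun M => H = M ⊓ specialLinear (Fin n) F := by
  have : Nonempty (Fin n) := ⟨⟨0, by omega⟩⟩
  have hc : 3 ≤ Fintype.card (Fin n) := by simpa using hn
  obtain ⟨i, j, k, hij, hik, hjk⟩ := exists_three hc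
  have hi : (Pi.single i 1 : Fin n → F) ≠ 0 := by simp
  have hj : (Pi.single j 1 : Fin n → F) ≠ 0 := by simp
  rcases h with ⟨W, h1, h2, h⟩ | ⟨t, m, D, hD, h1, h2, h⟩ | ⟨r, K, hr, hK, h⟩ |
    ⟨n₁, n₂, e, P, h1, h2, h3, h⟩ | ⟨F₀, r, P, hr, hc', h⟩ | ⟨r, R, hR, hd, h⟩ |
    ⟨m, t, e, P, h1, h2, h⟩ | ⟨f, hf, h1, h⟩ | ⟨σ, f, hf, h⟩ | ⟨Q, hQ, hq, h⟩
  · exact .red W h1 h2 (eq_inf_of_isMaximalIn hH h (sl_not_le_subspaceStabilizer h1 h2))
  · exact .dec t m D hD h1 h2 (eq_inf_of_isMaximalIn hH h (sl_not_le_decompositionStabilizer hD))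
  · exact .fld r K hr hK (eq_inf_of_isMaximalIn hH h fun hle =>
      tv_not_mem_normalizer_field hK hr.ne_one hc (single_dot_single hij) hi hj
        (hle (tv_mem_specialLinear _ _ _)))
  · refine .ten n₁ n₂ e P h1 h2 h3 (eq_inf_of_isMaximalIn hH h fun hle => ?_)
    have := rank_tv_sub_one _ _ (single_dot_single (F := F) hij)
    exact tv_ne_one (single_dot_single hij) hi hj (eq_one_of_mem_tensorProductSubgroup
      (hle (tv_mem_specialLinear _ _ _)) (by omega) (by omega))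
  · exact .sub F₀ r P hr hc' (eq_inf_of_isMaximalIn hH h
      (sl_not_le_subfieldSubgroup (by omega) (subfield_ne_top hr hc') P))
  · refine .ext r R hR hd (eq_inf_of_isMaximalIn hH h fun hle => ?_)
    have h1 := hR.card_center_dvd
    have h2 : 1 < Fintype.card F := Fintype.one_lt_card
    have h3 := Nat.le_of_dvd (by omega) h1
    obtain ⟨c, hc0, hc1⟩ := exists_sq_ne_one (F := F) (by
      obtain ⟨p, e, -, -, ⟨h4, -, h5, -⟩ | ⟨-, -, h5, -⟩ | ⟨-, -, h5, -⟩⟩ := hd.field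
      · have := hR.sympl.prime.two_le
        obtain ⟨s, rfl⟩ := h4
        omega
      · omega
      · omega)
    exact hR.not_two_tv hc (single_dot_single hij) hi hj hc0 hc1 (hle (tv_mem_specialLinear _ _ _))
      (hle (tv_mem_specialLinear _ _ _))
  · refine .wr m t e P h1 h2 (eq_inf_of_isMaximalIn hH h fun hle => ?_)
    have h3 : n = m ^ t := by simpa using Fintype.card_congr e
    obtain rfl : t = 2 := by
      by_contra h4
      have : 3 ^ 3 ≤ m ^ t := (Nat.pow_le_pow_left h1 3).trans (Nat.pow_le_pow_right (by omega) (by omega))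
      omega
    let φ : Fin 3 → Fin n → F := ![0, Pi.single j 1, Pi.single k 1]
    have hφ : ∀ c, φ c ⬝ᵥ Pi.single i 1 = 0 := fun c => by
      fin_cases c <;> simp [φ, hij, hik]
    obtain ⟨c, d, hcd, h4⟩ := exists_eq_of_mem_wreath le_rfl (α := Fin 3) (by decide)
      (fun c => tv _ _ (hφ c)) (fun c => hle (tv_mem_specialLinear _ _ _)) fun c d => by
        rw [tv_inv, tv_mul_tv]
        exact (rank_tv_sub_one _ _ _).trans_lt (by omega)
    have h5 : φ c = φ d := by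
      ext a
      simpa [coe_tv, Matrix.vecMulVec_apply] using
        congrArg (fun g : GL (Fin n) F => (g : Matrix _ _ F) i a) h4
    have h6 := congrFun h5 j
    have h7 := congrFun h5 k
    fin_cases c <;> fin_cases d <;> simp [φ, hjk, hjk.symm] at hcd h6 h7
  · refine .sp f hf h1 (eq_inf_of_isMaximalIn hH h ?_)
    obtain ⟨G, hG, -, rfl⟩ := symplectic_eq_fm hf
    exact sl_not_le_similarityGroup hc hG
  · refine .un σ f hf (eq_inf_of_isMaximalIn hH h ?_)
    obtain ⟨G, hG, -, rfl⟩ := unitary_eq_fm hf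
    exact sl_not_le_similarityGroup hc hG
  · refine .orth Q hQ hq (eq_inf_of_isMaximalIn hH h fun hle => ?_)
    obtain ⟨G, hG, -, h1, -⟩ := fixes_polar (N := ⊥) hQ (by
      rintro _ ⟨g, hg, rfl⟩ v
      simp [Subgroup.mem_bot.1 hg])
    exact sl_not_le_similarityGroup hc hG (h1 ▸ hle.trans quadSimilarityGroup_le)

theorem sl_max [Fintype F] {n : ℕ} (hn : 3 ≤ n) (hn' : n < 27) {H : Subgroup (GL (Fin n) F)}
    (hH : IsMaximalIn (specialLinear (Fin n) F) H) :
    (LinCase n F fun M => H = M ⊓ specialLinear (Fin n) F) ∨ InLinearResidualClass H :=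
  (lin_cases hn H).imp_left (LinCase.eq_inf hn hn' hH)

/-- the degree of a minimal field is the multiplicative order -/
theorem orderOf_eq_of_minimal [Fintype F] {z p e : ℕ} (h : IsMinimalFieldFor z p e F) :
    orderOf (p : ZMod z) = e := by
  obtain ⟨hp, -, hcard, hdvd, hm⟩ := h
  have he : 0 < e := by
    rcases Nat.eq_zero_or_pos e with rfl | h
    · have : 1 < Fintype.card F := Fintype.one_lt_card
      simp [hcard] at this
    · exact h
  have key : ∀ d, (p : ZMod z) ^ d = 1 ↔ z ∣ p ^ d - 1 := fun d => by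
    rw [← Nat.modEq_iff_dvd' (Nat.one_le_pow _ _ hp.pos), ← ZMod.natCast_eq_natCast_iff]
    simp [eq_comm]
  rw [orderOf_eq_iff he]
  exact ⟨(key e).2 hdvd, fun m h1 h2 h3 => hm m h2 h1 ((key m).1 h3)⟩

theorem natCast_zmod_cases {z : ℕ} [NeZero z] (p : ℕ) (Φ : ℕ → ℕ → Prop)
    (h : ∀ x : ZMod z, Φ x.val (orderOf x)) : Φ (p % z) (orderOf (p : ZMod z)) := by
  simpa using h p

theorem eq_of_prime_pow {r k s j : ℕ} (hr : r.Prime) (hs : s.Prime) (hk : 1 ≤ k)
    (h : s ^ j = r ^ k) : r = s :=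
  (Nat.prime_dvd_prime_iff_eq hr hs).1 (hr.dvd_of_dvd_pow (h ▸ dvd_pow_self r (by omega)))

/-- data for an odd prime -/
theorem linData_odd [Fintype F] {r : ℕ} {R : Subgroup (GL ι F)}
    (hd : IsLinearSymplecticTypeData r R) (hr : r ≠ 2) :
    ∃ p e : ℕ, p.Prime ∧ CharP F p ∧ Fintype.card F = p ^ e ∧ Odd e ∧ orderOf (p : ZMod r) = e := by
  obtain ⟨p, e, -, hmin, ⟨-, h4, h5, -⟩ | ⟨h4, -⟩ | ⟨h4, -⟩⟩ := hd.field
  · rw [h5] at hmin
    exact ⟨p, e, hmin.1, hmin.2.1, hmin.2.2.1, h4, orderOf_eq_of_minimal hmin⟩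
  · exact absurd h4 hr
  · exact absurd h4 hr

theorem linData_two [Fintype F] {R : Subgroup (GL ι F)}
    (hd : IsLinearSymplecticTypeData 2 R) (hn : Fintype.card ι ≠ 2) :
    ∃ p : ℕ, p.Prime ∧ Fintype.card F = p ∧ p % 4 = 1 := by
  obtain ⟨p, e, -, hmin, ⟨h4, -⟩ | ⟨-, rfl, h5, -⟩ | ⟨-, -, h4, -⟩⟩ := hd.field
  · exact absurd h4 (by decide)
  · rw [h5] at hmin
    obtain ⟨hp, -, hcard, hdvd, -⟩ := hmin
    have := hp.pos
    rw [pow_one] at hcard hdvd
    exact ⟨p, hp, hcard, by omega⟩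
  · exact absurd h4 hn

theorem linData_prime [Fintype F] {r : ℕ} {R : Subgroup (GL ι F)}
    (hd : IsLinearSymplecticTypeData r R) (hr : r ≠ 2) :
    ∃ p e : ℕ, p.Prime ∧ CharP F p ∧ Fintype.card F = p ^ e ∧ Odd e ∧ e ∣ r - 1 ∧
      (p % r) ^ e % r = 1 ∧ (e ≠ 1 → p % r ≠ 1) := by
  obtain ⟨p, e, h1, h2, h3, h4, h5⟩ := linData_odd hd hr
  have hp := hd.symplecticType.prime
  have : Fact r.Prime := ⟨hp⟩
  have h6 : (p : ZMod r) ^ e = 1 := h5 ▸ pow_orderOf_eq_one _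
  have h7 : (p : ZMod r) ≠ 0 := by
    intro h
    rw [h, zero_pow h4.pos.ne'] at h6
    exact zero_ne_one h6
  refine ⟨p, e, h1, h2, h3, h4, h5 ▸ ZMod.orderOf_dvd_card_sub_one h7, ?_, fun he h => he ?_⟩
  · rw [← Nat.pow_mod, ← Nat.mod_eq_of_lt hp.one_lt]
    exact (ZMod.natCast_eq_natCast_iff' _ _ _).1 (by simpa using h6)
  · have : (p : ZMod r) = 1 := by
      rw [← Nat.mod_eq_of_lt hp.one_lt] at h
      simpa using (ZMod.natCast_eq_natCast_iff' _ _ _).2 h
    rw [← h5, this, orderOf_one]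

theorem RType.eq_of_card {r s j : ℕ} {R : Subgroup (GL ι F)} (h : RType r R) (hs : s.Prime)
    (hn : Fintype.card ι = s ^ j) : r = s := by
  obtain ⟨k, hk, h1, -⟩ := h.dim
  exact eq_of_prime_pow h.sympl.prime hs hk (hn ▸ h1)

theorem RType.not_of_card {r s s' : ℕ} {R : Subgroup (GL ι F)} (h : RType r R) (hs : s.Prime)
    (hs' : s'.Prime) (hne : s ≠ s') (h1 : s ∣ Fintype.card ι) (h2 : s' ∣ Fintype.card ι) :
    False := by
  obtain ⟨k, -, h3, -⟩ := h.dim
  rw [h3] at h1 h2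
  exact hne (((Nat.prime_dvd_prime_iff_eq hs h.sympl.prime).1 (hs.dvd_of_dvd_pow h1)).trans
    ((Nat.prime_dvd_prime_iff_eq hs' h.sympl.prime).1 (hs'.dvd_of_dvd_pow h2)).symm)

theorem dec_numerics {n t m : ℕ} {D : Fin t → Submodule F (Fin n → F)} (hD : IsMDecomposition m D) :
    t * m = n ∧ 2 ≤ t := ⟨by simpa using hD.h26_card, hD.two_le⟩

theorem fld_numerics {n r : ℕ} [NeZero n] {K : Subalgebra F (Matrix (Fin n) (Fin n) F)}
    (hK : IsFieldSubalgebra r K) : r ∣ n := by simpa using field_degree_dvd hK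

theorem ten_numerics {n a b : ℕ} (e : Fin n ≃ Fin a × Fin b) : a * b = n := by
  simpa using (Fintype.card_congr e).symm

theorem wr_numerics {n m t : ℕ} (e : Fin n ≃ (Fin t → Fin m)) (hm : 3 ≤ m) (ht : 2 ≤ t)
    (hn : n < 16) : m = 3 ∧ t = 2 ∧ n = 9 := by
  have h3 : n = m ^ t := by simpa using Fintype.card_congr e
  obtain rfl : t = 2 := by
    by_contra h4
    have : 3 ^ 3 ≤ m ^ t := (Nat.pow_le_pow_left hm 3).trans (Nat.pow_le_pow_right (by omega) (by omega))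
    omega
  obtain rfl : m = 3 := by
    by_contra h4
    have : 4 ^ 2 ≤ m ^ 2 := Nat.pow_le_pow_left (by omega) 2
    omega
  exact ⟨rfl, rfl, h3⟩

end Cfsg.Agent.H26
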