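import Mathlib
import Cfsg.Agent.H26.SLMax
import Cfsg.Agent.H11.Perp

/-! Adjoints, perps, the reducible case and the commutative case relative to a form. -/

set_option autoImplicit false
set_option maxHeartbeats 400000

namespace Cfsg.Agent.H26

open Matrix Cfsg.Geo
open scoped Kronecker

variable {ι κ : Type} [Fintype ι] [DecidableEq ι] [Fintype κ] [DecidableEq κ]
  {F : Type*} [Field F] {σ : F →+* F} {G : Matrix ι ι F} {ε : F}

/-- a non-degenerate `ε`-hermitian Gram matrix -/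
structure HF (σ : F →+* F) (G : Matrix ι ι F) (ε : F) : Prop where
  inv : ∀ a, σ (σ a) = a
  unit : IsUnit G
  herm : (G.map σ)ᵀ = ε • G

theorem HF.swap (h : HF σ G ε) (u v : ι → F) : σ (fm σ G v u) = ε * fm σ G u v := by
  rw [fm_swap σ h.inv, h.herm, fm_smul]

theorem HF.refl (h : HF σ G ε) {u v : ι → F} (h0 : fm σ G u v = 0) : fm σ G v u = 0 := by
  have := h.swap u v
  rw [h0, mul_zero] at this
  simpa using this

theorem HF.surj (h : HF σ G ε) : Function.Surjective σ := fun a => ⟨σ a, h.inv a⟩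

theorem HF.eps [Nonempty ι] (h : HF σ G ε) : ε * σ ε = 1 := mul_conj_eq_one h.inv h.unit h.herm

theorem HF.unF (h : HF σ G ε) (e : ι ≃ κ) (P : GL ι F) : HF σ (unF σ e P G) ε :=
  ⟨h.inv, isUnit_unF e P h.unit, by rw [unF_conj h.inv, h.herm, unF_smul]⟩

theorem HF.eq_zero_left (h : HF σ G ε) {v : ι → F} (hv : ∀ x, fm σ G v x = 0) : v = 0 := by
  by_contra h0
  obtain ⟨x, hx⟩ := exists_fm_ne_zero_right (σ := σ) h.unit h0
  exact hx (hv x)

theorem HF.eq_zero_right (h : HF σ G ε) {v : ι → F} (hv : ∀ x, fm σ G x v = 0) : v = 0 :=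
  h.eq_zero_left fun x => h.refl (hv x)

theorem hf_alt {G : Matrix ι ι F} (h : Alt G) (hG : IsUnit G) : HF (RingHom.id F) G (-1) :=
  ⟨fun _ => rfl, hG, by simpa using h.1⟩

theorem hf_symm {G : Matrix ι ι F} (h : Gᵀ = G) (hG : IsUnit G) : HF (RingHom.id F) G 1 :=
  ⟨fun _ => rfl, hG, by simpa using h⟩

theorem fm_sim {g : GL ι F} (hg : g ∈ similarityGroup (fm σ G)) :
    ∃ c : F, c ≠ 0 ∧ ∀ u v, fm σ G ((g : Matrix ι ι F) *ᵥ u) ((g : Matrix ι ι F) *ᵥ v) =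
      c * fm σ G u v := by
  obtain ⟨c, hc⟩ := hg
  exact ⟨c, c.ne_zero, hc⟩

/-- the adjoint of a matrix -/
noncomputable def adj (σ : F →+* F) (G x : Matrix ι ι F) : Matrix ι ι F := (G⁻¹ * xᵀ * G).map σ

theorem HF.map_map (h : HF σ G ε) (x : Matrix κ κ F) : (x.map σ).map σ = x := by
  ext i j; simp [h.inv]

theorem HF.mul_adj (h : HF σ G ε) (x : Matrix ι ι F) : G * (adj σ G x).map σ = xᵀ * G := by
  rw [adj, h.map_map, ← mul_assoc, ← mul_assoc,
    Matrix.mul_nonsing_inv _ ((Matrix.isUnit_iff_isUnit_det _).1 h.unit), one_mul]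

theorem HF.fm_adj (h : HF σ G ε) (x : Matrix ι ι F) (u v : ι → F) :
    fm σ G (x *ᵥ u) v = fm σ G u (adj σ G x *ᵥ v) := by
  rw [fm_mulVec_left, fm_mulVec_right, h.mul_adj]

theorem HF.adj_eq (h : HF σ G ε) {x y : Matrix ι ι F}
    (hxy : ∀ u v, fm σ G (x *ᵥ u) v = fm σ G u (y *ᵥ v)) : adj σ G x = y := by
  refine matrix_ext_mulVec fun v => sub_eq_zero.1 (h.eq_zero_right fun u => ?_)
  rw [fm_sub_right, ← hxy, h.fm_adj, sub_self]

theorem HF.adj_eq' (h : HF σ G ε) {x y : Matrix ι ι F} (hxy : xᵀ * G = G * y.map σ) :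
    adj σ G x = y :=
  h.adj_eq fun u v => by rw [fm_mulVec_left, fm_mulVec_right, hxy]

theorem HF.fm_adj' (h : HF σ G ε) (x : Matrix ι ι F) (u v : ι → F) :
    fm σ G (adj σ G x *ᵥ u) v = fm σ G u (x *ᵥ v) := by
  apply σ.injective
  rw [h.swap, h.swap, h.fm_adj]

theorem HF.adj_adj (h : HF σ G ε) (x : Matrix ι ι F) : adj σ G (adj σ G x) = x :=
  h.adj_eq (h.fm_adj' x)

theorem HF.adj_mul (h : HF σ G ε) (x y : Matrix ι ι F) :
    adj σ G (x * y) = adj σ G y * adj σ G x :=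
  h.adj_eq fun u v => by rw [← Matrix.mulVec_mulVec, ← Matrix.mulVec_mulVec, h.fm_adj, h.fm_adj]

theorem adj_add (x y : Matrix ι ι F) : adj σ G (x + y) = adj σ G x + adj σ G y := by
  simp [adj, mul_add, add_mul, Matrix.map_add]

theorem adj_sub (x y : Matrix ι ι F) : adj σ G (x - y) = adj σ G x - adj σ G y := by
  simp [adj, mul_sub, sub_mul, Matrix.map_sub]

theorem adj_smul (c : F) (x : Matrix ι ι F) : adj σ G (c • x) = σ c • adj σ G x := by
  ext i j; simp [adj, -Matrix.map_mul]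

theorem adj_zero : adj σ G 0 = 0 := by simp [adj]

theorem HF.adj_one (h : HF σ G ε) : adj σ G 1 = 1 := h.adj_eq fun u v => by simp

theorem HF.adj_pow (h : HF σ G ε) (x : Matrix ι ι F) (k : ℕ) :
    adj σ G (x ^ k) = adj σ G x ^ k := by
  induction k with
  | zero => simp [h.adj_one]
  | succ k ih => rw [pow_succ, h.adj_mul, ih, pow_succ']

theorem HF.adj_injective (h : HF σ G ε) : Function.Injective (adj σ G) :=
  Function.LeftInverse.injective h.adj_adj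

theorem HF.adj_sim (h : HF σ G ε) {g : GL ι F} (hg : g ∈ similarityGroup (fm σ G)) :
    ∃ c : F, c ≠ 0 ∧ adj σ G g = c • ((g⁻¹ : GL ι F) : Matrix ι ι F) := by
  obtain ⟨c, hc, h1⟩ := fm_sim hg
  refine ⟨σ c, by simpa using hc, h.adj_eq fun u v => ?_⟩
  rw [Matrix.smul_mulVec, fm_smul_right, h.inv, ← h1, mulVec_inv_mulVec]

theorem HF.adj_isom (h : HF σ G ε) {g : GL ι F} (hg : g ∈ isom σ G) :
    adj σ G g = ((g⁻¹ : GL ι F) : Matrix ι ι F) :=
  h.adj_eq fun u v => by rw [← fm_isom hg u, mulVec_inv_mulVec]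

theorem HF.mem_isom_iff (h : HF σ G ε) {g : GL ι F} :
    g ∈ isom σ G ↔ adj σ G g * (g : Matrix ι ι F) = 1 := by
  refine ⟨fun hg => by rw [h.adj_isom hg]; simp, fun hg => mem_isom.2 (eq_of_fm_eq (σ := σ) fun u v => ?_)⟩
  rw [← fm_pull, h.fm_adj, Matrix.mulVec_mulVec, hg, Matrix.one_mulVec]

theorem HF.adj_cj (h : HF σ G ε) {g : GL ι F} (hg : g ∈ similarityGroup (fm σ G))
    (x : Matrix ι ι F) : adj σ G (cj g x) = cj g (adj σ G x) := by
  obtain ⟨c, -, h1⟩ := fm_sim hg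
  refine h.adj_eq fun u v => ?_
  rw [← mulVec_inv_mulVec g u, ← mulVec_inv_mulVec g v, cj_mulVec, cj_mulVec, h1, h1, h.fm_adj]

theorem HF.adj_trA (h : HF σ G ε) (e : ι ≃ κ) (P : GL ι F) (x : Matrix κ κ F) :
    adj σ G (trA e P x) = trA e P (adj σ (H26.unF σ e P G) x) := by
  have hv : ∀ u : ι → F, ∃ y : κ → F, u = (P : Matrix ι ι F) *ᵥ (y ∘ e) := fun u =>
    ⟨(((P⁻¹ : GL ι F) : Matrix ι ι F) *ᵥ u) ∘ e.symm, by
      rw [Function.comp_assoc, e.symm_comp_self, Function.comp_id, mulVec_inv_mulVec]⟩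
  refine h.adj_eq fun u v => ?_
  obtain ⟨u, rfl⟩ := hv u
  obtain ⟨v, rfl⟩ := hv v
  rw [trA_mulVec, trA_mulVec, fm_unF, fm_unF, (h.unF e P).fm_adj]

/-- closed under adjoints -/
def AdjSt (σ : F →+* F) (G : Matrix ι ι F) (A : Subalgebra F (Matrix ι ι F)) : Prop :=
  ∀ x ∈ A, adj σ G x ∈ A

theorem HF.adjSt_spanAlg (h : HF σ G ε) {N : Subgroup (GL ι F)}
    (hN : N ≤ similarityGroup (fm σ G)) : AdjSt σ G (spanAlg N) := by
  intro x hx
  refine spanAlg_induction (p := fun x => adj σ G x ∈ spanAlg N) ?_ ?_ ?_ ?_ hx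
  · intro g hg
    obtain ⟨c, -, hc⟩ := h.adj_sim (hN hg)
    rw [hc]
    exact Subalgebra.smul_mem _ (coe_mem_spanAlg (N.inv_mem hg)) _
  · rw [adj_zero]; exact zero_mem _
  · intro x y hx hy; rw [adj_add]; exact add_mem hx hy
  · intro c x hx; rw [adj_smul]; exact Subalgebra.smul_mem _ hx _

theorem AdjSt.ctr (h : HF σ G ε) {A : Subalgebra F (Matrix ι ι F)} (hA : AdjSt σ G A) :
    AdjSt σ G (ctr A) := by
  intro z hz
  rw [mem_ctr] at hz ⊢
  refine ⟨hA z hz.1, fun a ha => ?_⟩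
  rw [← h.adj_adj a, ← h.adj_mul, ← h.adj_mul, hz.2 _ (hA a ha)]

theorem AdjSt.frobFix [Fintype F] (h : HF σ G ε) {K : Subalgebra F (Matrix ι ι F)}
    (hA : AdjSt σ G K) (hK : ∀ x ∈ K, ∀ y ∈ K, x * y = y * x) (r : ℕ) :
    AdjSt σ G (frobFix K hK r) := fun x hx =>
  ⟨hA x hx.1, by rw [← h.adj_pow, hx.2]⟩

theorem AdjSt.isAdjointClosedFor (h : HF σ G ε) {K : Subalgebra F (Matrix ι ι F)}
    (hA : AdjSt σ G K) : IsAdjointClosedFor (fm σ G) K := fun k hk =>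
  ⟨_, hA k hk, h.fm_adj k⟩

theorem HF.isSelfAdjointFor_iff (h : HF σ G ε) {K : Subalgebra F (Matrix ι ι F)} :
    IsSelfAdjointFor (fm σ G) K ↔ ∀ k ∈ K, adj σ G k = k :=
  ⟨fun hK k hk => h.adj_eq (hK k hk), fun hK k hk u v => by rw [h.fm_adj, hK k hk]⟩

/-! ### perps -/

/-- the form as a bundled sesquilinear map (arguments swapped) -/
def fmB (σ : F →+* F) (G : Matrix ι ι F) : (ι → F) →ₛₗ[σ] (ι → F) →ₗ[F] F :=
  LinearMap.mk₂'ₛₗ σ (RingHom.id F) (fun x y => fm σ G y x) (fun _ _ _ => fm_add_right _ _ _ _ _)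
    (fun _ _ _ => fm_smul_right _ _ _ _ _) (fun _ _ _ => fm_add_left _ _ _ _ _)
    (fun _ _ _ => fm_smul_left _ _ _ _ _)

@[simp] theorem fmB_apply (x y : ι → F) : fmB σ G x y = fm σ G y x := rfl

theorem HF.sep (h : HF σ G ε) : (fmB σ G).SeparatingLeft := fun _ hx => h.eq_zero_right hx

/-- the perp of a subspace -/
def prp (σ : F →+* F) (G : Matrix ι ι F) (W : Submodule F (ι → F)) : Submodule F (ι → F) :=
  H11.perp (fmB σ G) W

theorem mem_prp {W : Submodule F (ι → F)} {y : ι → F} :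
    y ∈ prp σ G W ↔ ∀ x ∈ W, fm σ G y x = 0 := H11.mem_perp

theorem HF.mem_prp (h : HF σ G ε) {W : Submodule F (ι → F)} {y : ι → F} :
    y ∈ prp σ G W ↔ ∀ x ∈ W, fm σ G x y = 0 :=
  H26.mem_prp.trans ⟨fun h1 x hx => h.refl (h1 x hx), fun h1 x hx => h.refl (h1 x hx)⟩

theorem HF.finrank_prp (h : HF σ G ε) (W : Submodule F (ι → F)) :
    Module.finrank F W + Module.finrank F (prp σ G W) = Fintype.card ι :=
  (H11.finrank_add_finrank_perp h.inv h.sep W).trans (Module.finrank_fintype_fun_eq_card F)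

theorem HF.prp_prp (h : HF σ G ε) (W : Submodule F (ι → F)) : prp σ G (prp σ G W) = W := by
  refine (Submodule.eq_of_le_of_finrank_eq (fun x hx => h.mem_prp.2 fun y hy => ?_) ?_).symm
  · exact H26.mem_prp.1 hy x hx
  · have := h.finrank_prp W
    have := h.finrank_prp (prp σ G W)
    omega

/-- invariant subspace -/
def Inv (H : Subgroup (GL ι F)) (W : Submodule F (ι → F)) : Prop :=
  ∀ h ∈ H, ∀ v ∈ W, (h : Matrix ι ι F) *ᵥ v ∈ W

theorem Inv.le {H : Subgroup (GL ι F)} {W : Submodule F (ι → F)} (h : Inv H W) :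
    H ≤ subspaceStabilizer W := le_subspaceStabilizer h

theorem inv_of_le {H : Subgroup (GL ι F)} {W : Submodule F (ι → F)}
    (h : H ≤ subspaceStabilizer W) : Inv H W := fun _ hg v hv =>
  (mem_subspaceStabilizer.1 (h hg) v).1 hv

theorem Inv.prp {H : Subgroup (GL ι F)} (hH : H ≤ similarityGroup (fm σ G))
    {W : Submodule F (ι → F)} (hW : Inv H W) : Inv H (prp σ G W) := by
  intro g hg v hv
  obtain ⟨c, -, h1⟩ := fm_sim (hH hg)
  refine mem_prp.2 fun x hx => ?_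
  rw [← mulVec_inv_mulVec g x, h1, mem_prp.1 hv _ (hW _ (H.inv_mem hg) x hx), mul_zero]

theorem Inv.inf {H : Subgroup (GL ι F)} {W U : Submodule F (ι → F)} (hW : Inv H W) (hU : Inv H U) :
    Inv H (W ⊓ U) := fun g hg v hv => ⟨hW g hg v hv.1, hU g hg v hv.2⟩

theorem Inv.map_eq {H : Subgroup (GL ι F)} {W : Submodule F (ι → F)} (hW : Inv H W) {g : GL ι F}
    (hg : g ∈ H) : W.map (Matrix.toLin' (g : Matrix ι ι F)) = W := by
  refine Submodule.eq_of_le_of_finrank_eq ?_ (finrank_map_GL g W)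
  rintro _ ⟨v, hv, rfl⟩
  exact hW g hg v hv

theorem HF.nondeg_iff (h : HF σ G ε) {W : Submodule F (ι → F)} :
    IsNondegenerateOn (fm σ G) W ↔ W ⊓ prp σ G W = ⊥ := by
  rw [Submodule.eq_bot_iff]
  constructor
  · intro h1 w hw
    by_contra h0
    obtain ⟨x, hx, h2⟩ := (h1 w hw.1 h0).2
    exact h2 (H26.mem_prp.1 hw.2 x hx)
  · intro h1 w hw h0
    have : ∃ x ∈ W, fm σ G w x ≠ 0 := by
      by_contra! h2
      exact h0 (h1 w ⟨hw, H26.mem_prp.2 h2⟩)
    obtain ⟨x, hx, h2⟩ := this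
    exact ⟨⟨x, hx, fun h3 => h2 (h.refl h3)⟩, x, hx, h2⟩

theorem HF.nondeg_prp (h : HF σ G ε) {W : Submodule F (ι → F)}
    (hW : IsNondegenerateOn (fm σ G) W) : IsNondegenerateOn (fm σ G) (prp σ G W) := by
  rw [h.nondeg_iff] at hW ⊢
  rw [h.prp_prp, inf_comm, hW]

theorem HF.isCompl_prp (h : HF σ G ε) {W : Submodule F (ι → F)}
    (hW : IsNondegenerateOn (fm σ G) W) : IsCompl W (prp σ G W) := by
  rw [h.nondeg_iff] at hW
  refine ⟨disjoint_iff.2 hW, codisjoint_iff.2 (Submodule.eq_top_of_finrank_eq ?_)⟩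
  have := Submodule.finrank_sup_add_finrank_inf_eq W (prp σ G W)
  rw [hW, h.finrank_prp] at this
  simpa using this

theorem isMDecomposition_pair {W U : Submodule F (ι → F)} (hc : IsCompl W U) {m : ℕ} (hm : 0 < m)
    (h1 : Module.finrank F W = m) (h2 : Module.finrank F U = m) : IsMDecomposition m ![W, U] := by
  refine ⟨le_rfl, hm, fun i => by fin_cases i <;> simpa, ?_, ?_⟩
  · rw [iSupIndep_pair (i := 0) (j := 1) (by decide) (fun k => by fin_cases k <;> simp)]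
    exact hc.disjoint
  · rw [eq_top_iff, ← hc.sup_eq_top]
    exact sup_le (le_iSup ![W, U] 0) (le_iSup ![W, U] 1)

theorem le_decompositionStabilizer_of_inv {H : Subgroup (GL ι F)} {t : ℕ}
    {D : Fin t → Submodule F (ι → F)} (h : ∀ i, Inv H (D i)) : H ≤ decompositionStabilizer D :=
  fun _ hg => ⟨1, fun i => (h i).map_eq hg⟩

theorem HF.nondegDecomp_pair (h : HF σ G ε) {W : Submodule F (ι → F)}
    (hW : IsNondegenerateOn (fm σ G) W) {m : ℕ} (hm : 0 < m) (h1 : Module.finrank F W = m)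
    (h2 : 2 * m = Fintype.card ι) :
    IsNondegenerateMDecomposition (fm σ G) m ![W, prp σ G W] := by
  refine ⟨isMDecomposition_pair (h.isCompl_prp hW) hm h1 (by have := h.finrank_prp W; omega),
    fun i => ?_, fun i j hij => ?_⟩
  · fin_cases i
    · exact hW
    · exact h.nondeg_prp hW
  · fin_cases i <;> fin_cases j
    · exact absurd rfl hij
    · exact fun u hu v hv => h.mem_prp.1 hv u hu
    · exact fun u hu v hv => H26.mem_prp.1 hu v hv
    · exact absurd rfl hij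

theorem exists_minimal_inv {H : Subgroup (GL ι F)} (hirr : ¬ Irr H) :
    ∃ W, W ≠ ⊥ ∧ W ≠ ⊤ ∧ Inv H W ∧ ∀ U ≤ W, Inv H U → U = ⊥ ∨ U = W := by
  simp only [Irr, not_forall, not_or] at hirr
  obtain ⟨W₀, h1, h2, h3⟩ := hirr
  obtain ⟨W, ⟨h4, h5, h6⟩, h7⟩ := exists_minimalFor_of_wellFoundedLT
    (fun W : Submodule F (ι → F) => W ≠ ⊥ ∧ W ≠ ⊤ ∧ Inv H W) (fun W => Module.finrank F W)
    ⟨W₀, h2, h3, h1⟩
  refine ⟨W, h4, h5, h6, fun U hU hi => or_iff_not_imp_left.2 fun h0 => ?_⟩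
  have := Submodule.finrank_mono hU
  refine Submodule.eq_of_le_of_finrank_le hU (h7 ⟨h0, ?_, hi⟩ this)
  rintro rfl
  exact h5 (top_le_iff.1 hU)

/-- the reducible case -/
theorem HF.red (h : HF σ G ε) {H : Subgroup (GL ι F)} (hH : H ≤ similarityGroup (fm σ G))
    (hirr : ¬ Irr H) : ∃ W, W ≠ ⊥ ∧ W ≠ ⊤ ∧ Inv H W ∧ (∀ U ≤ W, Inv H U → U = ⊥ ∨ U = W) ∧
      (IsTotallySingularFor (fm σ G) W ∨ IsNondegenerateOn (fm σ G) W) := by
  obtain ⟨W, h1, h2, h3, h4⟩ := exists_minimal_inv hirr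
  refine ⟨W, h1, h2, h3, h4, ?_⟩
  rcases h4 _ inf_le_left (h3.inf (h3.prp hH)) with h5 | h5
  · exact Or.inr (h.nondeg_iff.2 h5)
  · exact Or.inl fun u hu v hv => H26.mem_prp.1 (h5.ge hu).2 v hv

theorem HF.red' (h : HF σ G ε) {H : Subgroup (GL ι F)} (hH : H ≤ similarityGroup (fm σ G))
    (hirr : ¬ Irr H) :
    (∃ W, W ≠ ⊥ ∧ IsTotallySingularFor (fm σ G) W ∧ H ≤ subspaceStabilizer W) ∨
    (∃ W, W ≠ ⊥ ∧ IsNondegenerateOn (fm σ G) W ∧ 2 * Module.finrank F W < Fintype.card ι ∧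
      H ≤ subspaceStabilizer W) ∨
    ∃ (m : ℕ) (D : Fin 2 → Submodule F (ι → F)), IsNondegenerateMDecomposition (fm σ G) m D ∧
      H ≤ decompositionStabilizer D := by
  obtain ⟨W, h1, h2, h3, -, h5 | h5⟩ := h.red hH hirr
  · exact Or.inl ⟨W, h1, h5, h3.le⟩
  right
  have h6 := h.finrank_prp W
  rcases lt_trichotomy (2 * Module.finrank F W) (Fintype.card ι) with h7 | h7 | h7
  · exact Or.inl ⟨W, h1, h5, h7, h3.le⟩
  · refine Or.inr ⟨_, _, h.nondegDecomp_pair h5 (Nat.pos_of_ne_zero (by simpa using h1)) rfl h7,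
      le_decompositionStabilizer_of_inv fun i => ?_⟩
    fin_cases i
    · exact h3
    · exact h3.prp hH
  · refine Or.inl ⟨prp σ G W, fun h0 => h2 ?_, h.nondeg_prp h5, by omega, (h3.prp hH).le⟩
    rw [h0] at h6
    exact Submodule.eq_top_of_finrank_eq (by simpa using h6)

/-! ### the commutative case -/

theorem HF.nondegDecomp_of_orthIdems (h : HF σ G ε) {t m : ℕ} {η : Fin t → Matrix ι ι F}
    (hη : OrthIdems η) (hadj : ∀ i, adj σ G (η i) = η i)
    (hD : IsMDecomposition m fun i => colSp (η i)) :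
    IsNondegenerateMDecomposition (fm σ G) m fun i => colSp (η i) := by
  refine ⟨hD, fun i => h.nondeg_iff.2 (eq_bot_iff.2 fun w hw => ?_), fun i j hij => ?_⟩
  · refine h.eq_zero_left fun x => ?_
    rw [← (mem_colSp_of_idem (hη.idem i)).1 hw.1, h.fm_adj, hadj]
    exact H26.mem_prp.1 hw.2 _ (mulVec_mem_colSp _ _)
  · rintro _ ⟨u, rfl⟩ _ ⟨v, rfl⟩
    simp only [Matrix.toLin'_apply]
    rw [h.fm_adj, hadj, Matrix.mulVec_mulVec, hη.orth i j hij]
    simp [fm]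

theorem orthIdems_pair {e : Matrix ι ι F} (he : e * e = e) (h0 : e ≠ 0) (h1 : e ≠ 1) :
    OrthIdems ![e, 1 - e] := by
  refine ⟨fun i => ?_, fun i => ?_, fun i j hij => ?_, by simp⟩
  · fin_cases i <;> simp [mul_sub, sub_mul, he]
  · fin_cases i
    · exact h0
    · exact sub_ne_zero.2 h1.symm
  · fin_cases i <;> fin_cases j <;> simp_all [mul_sub, sub_mul]

/-- the commutative case -/
theorem HF.comm_case [Fintype F] [Nonempty ι] (h : HF σ G ε) {H : Subgroup (GL ι F)}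
    (hH : H ≤ similarityGroup (fm σ G)) (hirr : Irr H) {C : Subalgebra F (Matrix ι ι F)}
    (hst : Stable H C) (hC : ∀ x ∈ C, ∀ y ∈ C, x * y = y * x) (hadj : AdjSt σ G C) (hne : C ≠ ⊥) :
    (∃ (t m : ℕ) (D : Fin t → Submodule F (ι → F)), IsNondegenerateMDecomposition (fm σ G) m D ∧
      H ≤ decompositionStabilizer D) ∨
    (∃ (m : ℕ) (e : Matrix ι ι F), e * e = e ∧ adj σ G e = 1 - e ∧
      (∀ g ∈ H, cj g e = e ∨ cj g e = 1 - e) ∧ IsMDecomposition m ![colSp e, colSp (1 - e)] ∧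
      (∀ i, IsTotallySingularFor (fm σ G) (![colSp e, colSp (1 - e)] i)) ∧
      H ≤ decompositionStabilizer ![colSp e, colSp (1 - e)]) ∨
    ∃ (r : ℕ) (K : Subalgebra F (Matrix ι ι F)), r.Prime ∧ IsFieldSubalgebra r K ∧
      AdjSt σ G K ∧ Stable H K := by
  let S : Set (Matrix ι ι F) := {x | (x ∈ C ∧ x * x = x) ∧ adj σ G x = x}
  have hS0 := idemSys_of_comm hC
  have hS : IdemSys S :=
    ⟨fun x hx => hx.1.2, fun x hx y hy => hC x hx.1.1 y hy.1.1,
      fun x hx y hy => ⟨hS0.mul_mem x hx.1 y hy.1, by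
        rw [h.adj_mul, hx.2, hy.2, hC x hx.1.1 y hy.1.1]⟩,
      ⟨hS0.one_mem, h.adj_one⟩, fun x hx => ⟨hS0.one_sub_mem x hx.1, by
        rw [adj_sub, h.adj_one, hx.2]⟩⟩
  rcases hS.trivial_or (H := H) (fun g hg x hx => ⟨⟨hst g hg x hx.1.1, by rw [← map_mul, hx.1.2]⟩,
    by rw [h.adj_cj (hH hg), hx.2]⟩) with h1 | ⟨t, η, ht, hη, hat, hp⟩
  swap
  · obtain ⟨m, hm⟩ := hη.isMDecomposition ht hirr hp
    exact Or.inl ⟨t, m, _, h.nondegDecomp_of_orthIdems hη
      (fun i => ((hat _).2 ⟨i, rfl⟩).1.2) hm, hη.le_decompositionStabilizer hp⟩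
  right
  by_cases h2 : ∀ x ∈ C, x * x = x → x = 0 ∨ x = 1
  · right
    have hK := hst.isFieldSubalgebra hirr hC h2
    obtain ⟨r, hr, hrd⟩ := Nat.exists_prime_and_dvd (one_lt_finrank_of_ne_bot hne).ne'
    exact ⟨r, _, hr, isFieldSubalgebra_frobFix hK hrd, hadj.frobFix h _ _, hst.frobFix _ _⟩
  left
  have key : ∀ x ∈ C, x * x = x → x ≠ 0 → x ≠ 1 → adj σ G x = 1 - x := by
    intro x hx hxx h0 h3
    have hy := hadj x hx
    have hyy : adj σ G x * adj σ G x = adj σ G x := by rw [← h.adj_mul, hxx]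
    have hc := hC x hx _ hy
    have h4 : x * adj σ G x = 0 := by
      refine (h1 _ ⟨hS0.mul_mem x ⟨hx, hxx⟩ _ ⟨hy, hyy⟩, by rw [h.adj_mul, h.adj_adj]⟩).resolve_right
        fun h5 => h3 ?_
      rw [← mul_one x, ← h5, ← mul_assoc, hxx]
    have h5 : x + adj σ G x = 1 := by
      refine (h1 _ ⟨⟨add_mem hx hy, ?_⟩, by rw [adj_add, h.adj_adj, add_comm]⟩).resolve_left
        fun h5 => h0 ?_
      · rw [mul_add, add_mul, add_mul, hxx, hyy, ← hc, h4, add_zero, zero_add]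
      · have := congrArg (x * ·) h5
        simpa [mul_add, hxx, h4] using this
    exact eq_sub_of_add_eq' h5
  simp only [not_forall, not_or] at h2
  obtain ⟨e, he, hee, h0, h3⟩ := h2
  have key2 : ∀ x ∈ C, x * x = x → x ≠ 0 → x ≠ 1 → x = e ∨ x = 1 - e := by
    intro x hx hxx hx0 hx1
    have hc := hC x hx e he
    have h4 : adj σ G (x * e) = (1 - e) * (1 - x) := by
      rw [h.adj_mul, key e he hee h0 h3, key x hx hxx hx0 hx1]
    have h5 := hS0.mul_mem x ⟨hx, hxx⟩ e ⟨he, hee⟩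
    by_cases h6 : x * e = 0
    · right
      rw [h6, adj_zero, mul_sub, mul_one, sub_mul, ← hc, h6, one_mul, sub_zero] at h4
      exact (sub_eq_zero.1 h4.symm).symm
    · left
      rw [key _ h5.1 h5.2 h6 fun h7 => h3 (by
        rw [← one_mul e, ← h7, mul_assoc, hee])] at h4
      have h7 := congrArg (x * ·) h4
      have h8 := congrArg (e * ·) h4
      simp only [mul_sub, sub_mul, mul_one, one_mul, ← mul_assoc, hxx, hee, ← hc] at h7 h8
      rw [mul_assoc x e e, hee] at h8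
      simp only [sub_self, sub_eq_zero] at h7 h8
      rw [h7, ← h8]
  have hp : ∀ g ∈ H, cj g e = e ∨ cj g e = 1 - e := fun g hg =>
    key2 _ (hst g hg e he) (by rw [← map_mul, hee]) (by simpa using h0) (by simpa using h3)
  have hη := orthIdems_pair hee h0 h3
  have hp' : ∀ g ∈ H, ∀ i, ∃ j, ![e, 1 - e] j = cj g (![e, 1 - e] i) := by
    intro g hg i
    fin_cases i <;> rcases hp g hg with h4 | h4
    · exact ⟨0, h4.symm⟩
    · exact ⟨1, h4.symm⟩
    · exact ⟨1, by simp [h4]⟩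
    · exact ⟨0, by simp [h4]⟩
  have hD : (fun i => colSp (![e, 1 - e] i)) = ![colSp e, colSp (1 - e)] := by
    ext1 i; fin_cases i <;> rfl
  obtain ⟨m, hm⟩ := hη.isMDecomposition le_rfl hirr hp'
  have h4 := key e he hee h0 h3
  refine ⟨m, e, hee, h4, hp, hD ▸ hm, fun i => ?_, hD ▸ hη.le_decompositionStabilizer hp'⟩
  fin_cases i <;> rintro _ ⟨u, rfl⟩ _ ⟨v, rfl⟩ <;> simp only [Matrix.toLin'_apply]
  · rw [h.fm_adj, h4, Matrix.mulVec_mulVec, sub_mul, hee]; simp [fm]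
  · rw [← h4, h.fm_adj', h4, Matrix.mulVec_mulVec, mul_sub, hee]; simp [fm]

end Cfsg.Agent.H26
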