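import Cfsg.Agent.H10.Am0

set_option autoImplicit false

namespace Cfsg.Agent.H10.Am
open Subgroup
universe u

theorem t3_dec : ∀ a b c d : ZMod 7, a * d - b * c = 1 → a * b + b * d = 0 → c * a + d * c = 0 →
    a * a + b * c = c * b + d * d → (b = 0 ∧ c = 0 ∧ a = d) ∨
      ∃ p r : ZMod 7, p * (c * p + d * r) - (a * p + b * r) * r = -1 ∧ a * a + b * c = -1 ∧ a + d = 0 := by
  decide +kernel

def t3_w : Matrix.SpecialLinearGroup (Fin 2) (ZMod 7) := ⟨!![0, 1; -1, 0], by simp [Matrix.det_fin_two]⟩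

open Matrix in
theorem t3_cj (x : Matrix.ProjectiveSpecialLinearGroup (Fin 2) (ZMod 7)) (h2 : x * x = 1) (h1 : x ≠ 1) :
    IsConj (QuotientGroup.mk t3_w :
      Matrix.ProjectiveSpecialLinearGroup (Fin 2) (ZMod 7)) x := by
  obtain ⟨A, rfl⟩ := QuotientGroup.mk_surjective x
  have hc : A * A ∈ center (Matrix.SpecialLinearGroup (Fin 2) (ZMod 7)) := (QuotientGroup.eq_one_iff _).1 h2
  obtain ⟨r, -, hr⟩ := Matrix.SpecialLinearGroup.mem_center_iff.1 hc
  have e := fun i j => congrFun (congrFun hr i) j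
  have e00 := e 0 0
  have e01 := e 0 1
  have e10 := e 1 0
  have e11 := e 1 1
  simp [Matrix.mul_apply, Fin.sum_univ_two] at e00 e01 e10 e11
  have dt := A.2
  rw [Matrix.det_fin_two] at dt
  rcases t3_dec (A.1 0 0) (A.1 0 1) (A.1 1 0) (A.1 1 1) dt e01.symm e10.symm (e00.symm.trans e11) with
    ⟨hb, hc, ha⟩ | ⟨p, q, k1, k2, k3⟩
  · refine absurd ((QuotientGroup.eq_one_iff _).2 (Matrix.SpecialLinearGroup.mem_center_iff.2 ⟨A.1 0 0, ?_, ?_⟩)) h1
    · rw [hb, ← ha] at dt; simpa [pow_two] using dt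
    · ext i j; fin_cases i <;> fin_cases j <;> simp [hb, hc, ha]
  · let P : Matrix.SpecialLinearGroup (Fin 2) (ZMod 7) :=
      ⟨!![A.1 0 0 * p + A.1 0 1 * q, p; A.1 1 0 * p + A.1 1 1 * q, q], by
        rw [Matrix.det_fin_two_of]; linear_combination -k1⟩
    refine isConj_iff.2 ⟨QuotientGroup.mk P, ?_⟩
    rw [mul_inv_eq_iff_eq_mul]
    refine congrArg QuotientGroup.mk (?_ : P * t3_w = A * P)
    refine Subtype.ext (?_ : !![A.1 0 0 * p + A.1 0 1 * q, p; A.1 1 0 * p + A.1 1 1 * q, q] * !![0, 1; -1, 0] =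
      A.1 * !![A.1 0 0 * p + A.1 0 1 * q, p; A.1 1 0 * p + A.1 1 1 * q, q])
    ext i j
    fin_cases i <;> fin_cases j <;> simp [Matrix.mul_apply, Fin.sum_univ_two]
    · linear_combination (-p) * k2 - A.1 0 1 * q * k3
    · linear_combination (-q) * k2 - (A.1 1 0 * p + (A.1 1 1 - A.1 0 0) * q) * k3

theorem t3 {C : Type u} [Group C] {s m t : C} (tc : ∀ g, Commute g t) (tt : t*t=1) (t1 : t ≠ 1) (ss : s*s=1) (st : s ∉ zpowers t) (mm : m*m=t) [(zpowers t).Normal] (e : C ⧸ zpowers t ≃* Matrix.ProjectiveSpecialLinearGroup (Fin 2) (ZMod 7)) : False := by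
  have sq : ∀ k ∈ zpowers t, k * k = 1 := by
    rintro _ ⟨n, rfl⟩
    simp only
    rw [← (Commute.refl t).mul_zpow, tt, one_zpow]
  have c1 := t3_cj (e (QuotientGroup.mk s)) (by rw [← map_mul, ← QuotientGroup.mk_mul, ss]; simp)
    (fun h => st ((QuotientGroup.eq_one_iff _).1 ((EmbeddingLike.map_eq_one_iff).1 h)))
  have c2 := t3_cj (e (QuotientGroup.mk m)) (by
      rw [← map_mul, ← QuotientGroup.mk_mul, mm, (QuotientGroup.eq_one_iff _).2 (mem_zpowers t), map_one])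
    (fun h => t1 (mm ▸ sq m ((QuotientGroup.eq_one_iff _).1 ((EmbeddingLike.map_eq_one_iff).1 h))))
  obtain ⟨c, hc⟩ := isConj_iff.1 (c2.symm.trans c1)
  obtain ⟨c, rfl⟩ := e.surjective c
  obtain ⟨g, rfl⟩ := QuotientGroup.mk_surjective c
  rw [← map_inv, ← map_mul, ← map_mul, EmbeddingLike.apply_eq_iff_eq, ← QuotientGroup.mk_inv,
    ← QuotientGroup.mk_mul, ← QuotientGroup.mk_mul, eq_comm, QuotientGroup.eq] at hc
  obtain ⟨n, hn⟩ := hc
  simp only at hn
  have e1 : g * m * g⁻¹ = s * t ^ n := by rw [hn]; group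
  have e2 : g * m * g⁻¹ * (g * m * g⁻¹) = t := by rw [conj_mul, mm, (tc g).eq, mul_inv_cancel_right]
  rw [e1, mul_assoc, ← mul_assoc (t ^ n), ← ((tc s).zpow_right n).eq, mul_assoc, ← mul_assoc, ss, one_mul,
    sq _ (zpow_mem (mem_zpowers t) n)] at e2
  exact t1 e2.symm

end Cfsg.Agent.H10.Am
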