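import Cfsg.Agent.H7.Bf0
import Cfsg.Agent.H25.JnO

set_option autoImplicit false
namespace Cfsg.Agent.H7.Bf
open Subgroup Cfsg.Agent.H19.Gt Cfsg.Agent.H1.G2
universe u
variable {G : Type u} {K : Type*} [Group G] [Finite G] [CommGroup K] {τ : K × K →* G} {u v : G} {z : K} {S : Sylow 2 G}

theorem b5_abs {W : Type u} [Group W] [Finite W] (H : H2767.{u}) (hO : oddCore W = ⊥) (S : Sylow 2 W)
    {A B C : Subgroup W} (sA : IsStronglyClosed A (S : Subgroup W)) (sB : IsStronglyClosed B (S : Subgroup W))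
    (sC : IsStronglyClosed C (S : Subgroup W)) (cB : ∀ a ∈ A, ∀ b ∈ B, a * b = b * a)
    (cC : ∀ a ∈ A, ∀ b ∈ C, a * b = b * a) (iB : A ⊓ B = ⊥) (iC : A ⊓ C = ⊥) (le : A ≤ B ⊔ C) :
    A.Normal := by
  have k : ∀ {B : Subgroup W}, IsStronglyClosed B (S : Subgroup W) → (∀ a ∈ A, ∀ b ∈ B, a * b = b * a) →
      A ⊓ B = ⊥ → B ≤ centralizer (normalClosure (A : Set W) : Set W) := fun {B} sB cB iB => by
    have := H W S A B sA sB cB
    rw [iB, show pPrimeCore 2 W = ⊥ from hO, sup_bot_eq] at this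
    have e : normalClosure ((⊥ : Subgroup W) : Set W) = ⊥ := normalClosure_eq_self _
    rw [e, le_bot_iff, commutator_comm, commutator_eq_bot_iff_le_centralizer] at this
    exact le_normalClosure.trans this
  set N := normalClosure (A : Set W) with hN
  have h1 : N ≤ centralizer (N : Set W) :=
    normalClosure_le_normal (le.trans (sup_le (k sB cB iB) (k sC cC iC)))
  let N2 : Subgroup W :=
    { carrier := {x | x ∈ N ∧ ∃ k : ℕ, x ^ 2 ^ k = 1}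
      one_mem' := ⟨one_mem _, 0, by simp⟩
      mul_mem' := by
        rintro a b ⟨ha, i, hi⟩ ⟨hb, j, hj⟩
        refine ⟨mul_mem ha hb, i + j, ?_⟩
        rw [(show Commute a b from h1 hb a ha).mul_pow, pow_add, pow_mul, hi, one_pow, one_mul,
          mul_comm, pow_mul, hj, one_pow]
      inv_mem' := by
        rintro a ⟨ha, i, hi⟩
        exact ⟨inv_mem ha, i, by rw [inv_pow, hi, inv_one]⟩ }
  haveI : N2.Normal := ⟨by
    rintro a ⟨ha, i, hi⟩ g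
    exact ⟨normalClosure_normal.conj_mem _ ha g, i, by rw [conj_pow, hi]; simp⟩⟩
  have p2 : IsPGroup 2 N2 := fun x => by
    obtain ⟨i, hi⟩ := x.2.2
    exact ⟨i, Subtype.ext (by simpa using hi)⟩
  have h2 : N2 ≤ S := by
    have := S.3 (S.isPGroup'.to_sup_of_normal_right p2) le_sup_left
    exact le_sup_right.trans this.le
  refine ⟨fun a ha g => sA.2 a ha g (h2 (Normal.conj_mem (H := N2) inferInstance a ⟨le_normalClosure ha, ?_⟩ g))⟩
  obtain ⟨i, hi⟩ := S.isPGroup' ⟨a, sA.1 ha⟩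
  exact ⟨i, by simpa using congrArg Subtype.val hi⟩

theorem b5 (h : Cw S τ u v z) (hO : oddCore G = ⊥) (H : H2767.{u})
    (s2 : IsStronglyClosed h.gz.Q (S : Subgroup G)) (s1 : IsStronglyClosed h.gz.flp.Q (S : Subgroup G)) :
    h.gz.M.Normal := by
  have g := h.gz.toGs
  have z4 := h.gz
  haveI := z4.fin
  obtain ⟨ρ, hρ, -⟩ := z4.rho
  have q4 : ∀ a : K, a * a * (a * a) = 1 := fun a => by
    have := pow_card_eq_one' (x := a)
    rw [h.four] at this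
    rw [← this, show 4 = 2 + 2 from rfl, pow_add, pow_two]
  have qs : ∀ a : K, IsSquare a → a = 1 ∨ a = z := by
    rintro _ ⟨c, rfl⟩; exact z4.inv2 (q4 c)
  have nρ : ¬ IsSquare ρ := fun e => by
    rcases qs ρ e with f | f
    · exact z4.z1 (by rw [← hρ, f, one_mul])
    · exact z4.z1 (by rw [← hρ, f, z4.zz])
  have n1 : ∀ {a b : K}, IsSquare a → ¬ IsSquare b → ¬ IsSquare (a * b) := fun {a b} ha hb e =>
    hb (by simpa using ha.inv.mul e)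
  have n2 : ∀ {a b : K}, ¬ IsSquare a → ¬ IsSquare b → IsSquare (a * b⁻¹) := by
    haveI := g.cyc
    obtain ⟨k, hk⟩ := IsCyclic.exists_generator (α := K)
    have : ∀ a : K, ¬ IsSquare a → IsSquare (a * k⁻¹) := fun a ha => by
      obtain ⟨n, rfl⟩ := hk a
      rcases Int.even_or_odd' n with ⟨m, rfl | rfl⟩
      · exact absurd ⟨k ^ m, by simp only [two_mul, zpow_add]⟩ ha
      · exact ⟨k ^ m, by simp only [two_mul, zpow_add, zpow_one, mul_inv_cancel_right]⟩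
    intro a b ha hb
    have := (this a ha).mul (this b hb).inv
    simpa [mul_assoc] using this
  have n3 : ∀ {a : K}, ¬ IsSquare a → ¬ IsSquare a⁻¹ := fun ha e => ha (by simpa using e.inv)
  let E : Subgroup G :=
    { carrier := {s | ∃ a b : K, (IsSquare a ∧ IsSquare b ∧ s = τ (a, b)) ∨
        (¬ IsSquare a ∧ ¬ IsSquare b ∧ s = τ (a, b) * u)}
      one_mem' := ⟨1, 1, .inl ⟨by simp, by simp, (t1 τ).symm⟩⟩
      mul_mem' := by
        rintro _ _ ⟨a, b, ⟨ha, hb, rfl⟩ | ⟨ha, hb, rfl⟩⟩ ⟨c, d, ⟨hc, hd, rfl⟩ | ⟨hc, hd, rfl⟩⟩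
        · exact ⟨_, _, .inl ⟨ha.mul hc, hb.mul hd, tm ..⟩⟩
        · exact ⟨_, _, .inr ⟨n1 ha hc, n1 hb hd, tm' ..⟩⟩
        · exact ⟨a * c⁻¹, b * d⁻¹, .inr ⟨mul_comm c⁻¹ a ▸ n1 hc.inv ha, mul_comm d⁻¹ b ▸ n1 hd.inv hb,
            by rw [mul_assoc, g.ut, tm']⟩⟩
        · exact ⟨_, _, .inl ⟨n2 ha hc, n2 hb hd, by rw [mul_assoc, g.ut', g.uu, mul_one, tm]⟩⟩
      inv_mem' := by
        rintro _ ⟨a, b, ⟨ha, hb, rfl⟩ | ⟨ha, hb, rfl⟩⟩
        · exact ⟨_, _, .inl ⟨ha.inv, hb.inv, tinv ..⟩⟩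
        · exact ⟨a, b, .inr ⟨ha, hb, by rw [mul_inv_rev, g.ui, tinv, g.ut, inv_inv, inv_inv]⟩⟩ }
  have tE : τ (z, z) ∈ E := ⟨z, z, .inl ⟨z4.zsq, z4.zsq, rfl⟩⟩
  have EM : E ≤ h.gz.M := by
    rintro _ ⟨a, b, ⟨ha, hb, rfl⟩ | ⟨ha, hb, rfl⟩⟩
    · exact ⟨a, b, ha.mul hb, .inl rfl⟩
    · exact ⟨a, b, by simpa using n2 ha (n3 hb), .inr (.inl rfl)⟩
  have E2 : ∀ s ∈ E, s * s = 1 := by
    rintro _ ⟨a, b, ⟨⟨a, rfl⟩, ⟨b, rfl⟩, rfl⟩ | ⟨ha, hb, rfl⟩⟩
    · rw [tm, q4, q4, t1]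
    · rw [mul_assoc, g.ut', g.uu, mul_one, tm]; simp [t1]
  have sE : IsStronglyClosed E (S : Subgroup G) := by
    refine ⟨EM.trans z4.M_le, fun x hx c hc => ?_⟩
    have k : InE τ u z x → c * x * c⁻¹ ∈ E := fun e => by
      have := (h.fe _ hc).1 ((isConj_iff.2 ⟨c, rfl⟩ : IsConj x (c * x * c⁻¹)).symm.trans
        ((h.fe x (z4.M_le (EM hx))).2 e))
      rcases this with f | f | ⟨a, b, ha, hb, f⟩
      · exact ⟨z, 1, .inl ⟨z4.zsq, by simp, f⟩⟩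
      · exact ⟨1, z, .inl ⟨by simp, z4.zsq, f⟩⟩
      · exact ⟨a, b, .inr ⟨ha, hb, f⟩⟩
    obtain ⟨a, b, ⟨ha, hb, rfl⟩ | ⟨ha, hb, rfl⟩⟩ := hx
    · rcases qs a ha with rfl | rfl <;> rcases qs b hb with rfl | rfl
      · rw [t1]; simp
      · exact k (.inr (.inl rfl))
      · exact k (.inl rfl)
      · rw [h.cen, mul_inv_cancel_right]; exact tE
    · exact k (.inr (.inr ⟨a, b, ha, hb, rfl⟩))
  haveI : (zpowers (τ (z, z))).Normal := ⟨by
    rintro _ ⟨n, rfl⟩ c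
    simp only
    rw [← conj_zpow, h.cen, mul_inv_cancel_right]; exact zpow_mem (mem_zpowers _) n⟩
  let π := QuotientGroup.mk' (zpowers (τ (z, z)))
  have πt : π (τ (z, z)) = 1 := (QuotientGroup.eq_one_iff _).2 (mem_zpowers _)
  have lift : ∀ {A : Subgroup G}, τ (z, z) ∈ A → ∀ {x}, π x ∈ A.map π → x ∈ A := by
    rintro A ht x ⟨a, ha, e⟩
    have : a⁻¹ * x ∈ zpowers (τ (z, z)) := QuotientGroup.eq.1 e
    simpa using mul_mem ha (zpowers_le.2 ht this)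
  let S' : Sylow 2 (G ⧸ zpowers (τ (z, z))) := S.mapSurjective (QuotientGroup.mk'_surjective _)
  have sc : ∀ {A : Subgroup G}, IsStronglyClosed A (S : Subgroup G) →
      IsStronglyClosed (A.map π) (S' : Subgroup _) := fun {A} hA => by
    refine ⟨map_mono hA.1, ?_⟩
    rintro _ ⟨a, ha, rfl⟩ c hc
    obtain ⟨c, rfl⟩ := QuotientGroup.mk'_surjective _ c
    exact ⟨_, hA.2 a ha c (lift (g.tS z z) (by rw [map_mul, map_mul, map_inv]; exact hc)), by simp [π]⟩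
  have sqQ : ∀ q ∈ h.gz.Q, π q * π q = 1 := by
    rintro _ ⟨a, rfl | rfl⟩
    · rw [← map_mul, tm]
      rcases z4.inv2 (q4 a) with e | e
      · rw [← mul_inv, e, inv_one, t1, map_one]
      · rw [← mul_inv, e, z4.zi, πt]
    · rw [← map_mul, mul_assoc, g.vt', g.vv, mul_one, tm, mul_left_comm, mul_inv_cancel, mul_one,
        inv_mul_cancel_right, πt]
  have sqQ' : ∀ q ∈ h.gz.flp.Q, π q * π q = 1 := by
    intro q hq
    obtain ⟨a, rfl | rfl⟩ := z4.memQ'.1 hq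
    · rw [← map_mul, tm]
      rcases z4.inv2 (q4 a) with e | e
      · rw [e, t1, map_one]
      · rw [e, πt]
    · rw [← map_mul, mul_assoc, mul_assoc u, g.vt', g.ut', g.vu', g.vv, mul_one, g.uu, mul_one, tm,
        mul_inv, z4.zi, mul_left_comm, mul_inv_cancel, mul_one, mul_inv_cancel_right, πt]
  have sqM : ∀ m ∈ h.gz.M.map π, m * m = 1 := by
    rintro _ ⟨m, hm, rfl⟩
    obtain ⟨a, ha, b, hb, rfl⟩ := z4.M_eq hm
    have := congrArg π (z4.Q_comm ha hb)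
    rw [map_mul, map_mul] at this
    rw [map_mul, mul_assoc, ← mul_assoc (π b), ← this, mul_assoc, sqQ b hb, mul_one, sqQ' a ha]
  have cm : ∀ {A B : Subgroup G}, A ≤ h.gz.M → B ≤ h.gz.M → ∀ a ∈ A.map π, ∀ b ∈ B.map π, a * b = b * a := by
    intro A B hA hB a ha b hb
    have e1 := inv_eq_of_mul_eq_one_right (sqM a (map_mono hA ha))
    have e2 := inv_eq_of_mul_eq_one_right (sqM b (map_mono hB hb))
    have e3 := inv_eq_of_mul_eq_one_right (sqM _ (mul_mem (map_mono hA ha) (map_mono hB hb)))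
    rw [← e3, mul_inv_rev, e1, e2]
  have it : ∀ {A B : Subgroup G}, τ (z, z) ∈ B → (∀ s ∈ A, s ∈ B → s = 1 ∨ s = τ (z, z)) →
      A.map π ⊓ B.map π = ⊥ := by
    intro A B ht e
    refine eq_bot_iff.2 ?_
    rintro _ ⟨⟨a, ha, rfl⟩, hb⟩
    rcases e a ha (lift ht hb) with rfl | rfl
    · simp
    · exact πt
  have hO' := GO.Jn.jO h.cen z4.tt hO
  have mE1 : ∀ a : K, τ (1, a * a) ∈ E := fun a => ⟨1, a * a, .inl ⟨by simp, ⟨a, rfl⟩, rfl⟩⟩
  have mE2 : ∀ a b : K, ¬ IsSquare b → τ (ρ, a * a * b) * u ∈ E := fun a b hb =>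
    ⟨ρ, a * a * b, .inr ⟨nρ, n1 ⟨a, rfl⟩ hb, rfl⟩⟩
  have mQ1 : ∀ a : K, τ (a, a⁻¹) ∈ h.gz.Q := fun a => ⟨a, .inl rfl⟩
  have mQ2 : ∀ a : K, τ (a, z * a⁻¹) * v ∈ h.gz.Q := fun a => ⟨a, .inr rfl⟩
  have l1 : h.gz.flp.Q ≤ h.gz.Q ⊔ E := by
    intro q hq
    obtain ⟨a, rfl | rfl⟩ := z4.memQ'.1 hq
    · have := mul_mem_sup (mQ1 a) (mE1 a)
      simpa [tm] using this
    · have := mul_mem (mem_sup_right (S := h.gz.Q)
        (mE2 a _ (n3 nρ))) (mem_sup_left (mQ2 (ρ * a⁻¹)))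
      rw [mul_assoc, g.ut', tm'] at this
      convert this using 3
      refine Prod.ext ?_ ?_
      · simp
      · simp only [mul_inv, inv_inv, z4.zi]
        rw [mul_left_comm, mul_assoc, inv_mul_cancel_left, mul_inv_cancel_right]
  have l2 : h.gz.Q ≤ h.gz.flp.Q ⊔ E := by
    rintro _ ⟨a, rfl | rfl⟩
    · have := mul_mem_sup (z4.memQ'.2 ⟨a, .inl rfl⟩ : τ (a, a) ∈ h.gz.flp.Q)
        (mE1 a⁻¹)
      simpa [tm] using this
    · have := mul_mem (mem_sup_right (S := h.gz.flp.Q)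
        (mE2 a⁻¹ _ nρ))
        (mem_sup_left (z4.memQ'.2 ⟨ρ * a⁻¹, .inr rfl⟩ : τ (ρ * a⁻¹, z * (ρ * a⁻¹)) * (u * v) ∈ h.gz.flp.Q))
      rw [mul_assoc, g.ut', tm', g.uu'] at this
      convert this using 3
      refine Prod.ext ?_ ?_
      · simp
      · simp only [mul_inv, inv_inv, z4.zi]
        rw [mul_left_comm, mul_assoc, mul_inv_cancel_left, inv_mul_cancel_right]
  have N1 := b5_abs H hO' S' (sc s1) (sc s2) (sc sE) (cm z4.Q_le' z4.Q_le) (cm z4.Q_le' EM)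
    (it z4.tQ fun s a b => z4.Q_inf a b) (it tE fun s a b => z4.Q_inv' a (E2 s b))
    (by rw [← Subgroup.map_sup]; exact map_mono l1)
  have N2 := b5_abs H hO' S' (sc s2) (sc s1) (sc sE) (cm z4.Q_le z4.Q_le') (cm z4.Q_le EM)
    (it z4.tQ' fun s a b => z4.Q_inf b a) (it tE fun s a b => z4.Q_inv a (E2 s b))
    (by rw [← Subgroup.map_sup]; exact map_mono l2)
  refine ⟨fun m hm c => ?_⟩
  obtain ⟨a, ha, b, hb, rfl⟩ := z4.M_eq hm
  rw [← conj_mul]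
  exact mul_mem (z4.Q_le' (lift z4.tQ' (by simpa using N1.conj_mem _ ⟨a, ha, rfl⟩ (π c))))
    (z4.Q_le (lift z4.tQ (by simpa using N2.conj_mem _ ⟨b, hb, rfl⟩ (π c))))

end Cfsg.Agent.H7.Bf
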