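import Mathlib
import Cfsg.Agent.H26.Adj
import Cfsg.Agent.H11.Orth

/-! Adjoint-closed fields; quadratic forms. -/

set_option autoImplicit false
set_option maxHeartbeats 400000

namespace Cfsg.Agent.H26

open Matrix Cfsg.Geo
open scoped Kronecker

section invol
variable {K : Type*} [Field K] {τ : K →+* K}

theorem card_eq_sq_of_invol (h : ∀ a, τ (τ a) = a) (hne : ∃ a, τ a ≠ a) :
    Nat.card K = Nat.card (fixF τ) ^ 2 := by
  obtain ⟨a, ha⟩ := hne
  have ha' := sub_ne_zero.2 ha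
  rw [sq, ← Nat.card_prod]
  refine (Nat.card_eq_of_bijective (fun p : fixF τ × fixF τ => (p.1 : K) + p.2 * a) ⟨?_, ?_⟩).symm
  · rintro ⟨s, t⟩ ⟨s', t'⟩ h1
    have h2 := congrArg τ h1
    simp only [map_add, map_mul, mem_fixF.1 s.2, mem_fixF.1 t.2, mem_fixF.1 s'.2,
      mem_fixF.1 t'.2] at h1 h2
    have h3 : (t : K) = t' := mul_right_cancel₀ ha' (by linear_combination h2 - h1)
    exact Prod.ext (Subtype.ext (by linear_combination h1 - a * h3)) (Subtype.ext h3)
  · intro x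
    have h1 : τ ((τ x - x) / (τ a - a)) = (τ x - x) / (τ a - a) := by
      rw [map_div₀, map_sub, map_sub, h, h, ← neg_sub, ← neg_sub (τ a), neg_div_neg_eq]
    refine ⟨(⟨x - (τ x - x) / (τ a - a) * a, mem_fixF.2 ?_⟩, ⟨_, mem_fixF.2 h1⟩), by simp⟩
    rw [map_sub, map_mul, h1]
    field_simp
    ring

theorem invol_eq_pow [Finite K] (h : ∀ a, τ (τ a) = a) (x : K) (hne : ∃ a, τ a ≠ a) :
    τ x = x ^ Nat.card (fixF τ) := by
  obtain ⟨φ, hφ⟩ := exists_ringHom_pow_card (fixF τ) 1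
  simp only [pow_one] at hφ
  have h0 : ∀ y, τ y = y → φ y = y := fun y hy => by
    rw [hφ]; exact pow_card_subfield (mem_fixF.2 hy)
  have h1 := h0 (x + τ x) (by rw [map_add, h, add_comm])
  have h2 := h0 (x * τ x) (by rw [map_mul, h, mul_comm])
  rw [map_add] at h1
  rw [map_mul] at h2
  have h3 : (φ x - x) * (φ x - τ x) = 0 := by linear_combination φ x * h1 - h2
  rcases mul_eq_zero.1 h3 with h4 | h4
  · rw [sub_eq_zero, hφ] at h4
    rw [h4]
    exact mem_fixF.1 (mem_subfield_iff_pow_card.2 h4)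
  · rw [← hφ, sub_eq_zero.1 h4]

end invol

variable {ι κ : Type} [Fintype ι] [DecidableEq ι] [Fintype κ] [DecidableEq κ]
  {F : Type*} [Field F] {σ : F →+* F} {G : Matrix ι ι F} {ε : F}

/-- the adjoint as a ring endomorphism of a commutative adjoint-closed subalgebra -/
noncomputable def AdjSt.hom (h : HF σ G ε) {K : Subalgebra F (Matrix ι ι F)} (hA : AdjSt σ G K)
    (hK : ∀ x ∈ K, ∀ y ∈ K, x * y = y * x) : K →+* K where
  toFun x := ⟨adj σ G x, hA x x.2⟩
  map_one' := Subtype.ext h.adj_one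
  map_mul' x y := Subtype.ext (by
    simp only [MulMemClass.coe_mul, h.adj_mul]; exact hK _ (hA _ y.2) _ (hA _ x.2))
  map_zero' := Subtype.ext adj_zero
  map_add' x y := Subtype.ext (adj_add _ _)

theorem card_subalgebra [Fintype F] {r : ℕ} {K : Subalgebra F (Matrix ι ι F)}
    (hK : IsFieldSubalgebra r K) : Nat.card K = Fintype.card F ^ r := by
  rw [Module.natCard_eq_pow_finrank (K := F), hK.finrank_eq, Nat.card_eq_fintype_card]

theorem AdjSt.self_or_even [Fintype F] [Nonempty ι] (h : HF (RingHom.id F) G ε) {r : ℕ}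
    {K : Subalgebra F (Matrix ι ι F)} (hK : IsFieldSubalgebra r K) (hA : AdjSt (RingHom.id F) G K) :
    (∀ k ∈ K, adj (RingHom.id F) G k = k) ∨ Even r := by
  refine or_iff_not_imp_left.2 fun h1 => ?_
  simp only [not_forall] at h1
  obtain ⟨k, hk, h1⟩ := h1
  letI := (isField_of_isFieldSubalgebra hK).toField
  have h2 := card_eq_sq_of_invol (τ := hA.hom h hK.comm) (fun a => Subtype.ext (h.adj_adj _))
    ⟨⟨k, hk⟩, fun h3 => h1 (congrArg Subtype.val h3)⟩
  let W : Submodule F K :=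
    { carrier := {x | adj (RingHom.id F) G x = x}
      add_mem' := fun {a b} ha hb => by
        simp only [Set.mem_ofPred_eq, AddMemClass.coe_add, adj_add] at ha hb ⊢
        rw [ha, hb]
      zero_mem' := adj_zero
      smul_mem' := fun c x hx => by
        simp only [Set.mem_ofPred_eq, SetLike.val_smul, adj_smul] at hx ⊢
        rw [hx]; rfl }
  have h3 : Nat.card (fixF (hA.hom h hK.comm)) = Nat.card W :=
    Nat.card_congr (Equiv.subtypeEquivRight fun x => mem_fixF.trans Subtype.ext_iff)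
  rw [h3, card_subalgebra hK, Module.natCard_eq_pow_finrank (K := F), Nat.card_eq_fintype_card,
    ← pow_mul] at h2
  rw [Nat.pow_right_injective Fintype.one_lt_card h2]
  exact even_two.mul_left _

theorem AdjSt.odd [Fintype F] [Nonempty ι] (h : HF σ G ε) (hne : ∃ a, σ a ≠ a) {r : ℕ}
    {K : Subalgebra F (Matrix ι ι F)} (hK : IsFieldSubalgebra r K) (hA : AdjSt σ G K) : Odd r := by
  by_contra h1
  obtain ⟨s, rfl⟩ := Nat.not_odd_iff_even.1 h1
  obtain ⟨a, ha⟩ := hne
  letI := (isField_of_isFieldSubalgebra hK).toField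
  have : Finite K := Subtype.finite
  have h0 : ∀ c : F, (hA.hom h hK.comm) (algebraMap F K c) = algebraMap F K (σ c) := fun c =>
    Subtype.ext (by
      change adj σ G (algebraMap F _ c) = algebraMap F _ (σ c)
      simp only [Algebra.algebraMap_eq_smul_one, adj_smul, h.adj_one])
  have hi : ∀ a, (hA.hom h hK.comm) ((hA.hom h hK.comm) a) = a :=
    fun a => Subtype.ext (h.adj_adj _)
  have hne' : ∃ a, (hA.hom h hK.comm) a ≠ a :=
    ⟨_, fun h3 => ha ((algebraMap F K).injective ((h0 a).symm.trans h3))⟩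
  have h2 := card_eq_sq_of_invol hi hne'
  have h3 := invol_eq_pow hi (algebraMap F K a) hne'
  rw [card_subalgebra hK, pow_add, ← sq] at h2
  rw [← Nat.pow_left_injective two_ne_zero h2, h0, ← map_pow, FiniteField.pow_card_pow] at h3
  exact ha ((algebraMap F K).injective h3)

theorem exists_sq_of_field [Finite F] [Nonempty ι] (h2 : (2 : F) = 0) {r : ℕ}
    {K : Subalgebra F (Matrix ι ι F)} (hK : IsFieldSubalgebra r K) {k : Matrix ι ι F} (hk : k ∈ K) :
    ∃ a ∈ K, a * a = k := by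
  letI := (isField_of_isFieldSubalgebra hK).toField
  have : Finite K := Subtype.finite
  obtain ⟨b, hb⟩ := exists_sq_eq_of_two_eq_zero (F := K) (by
    rw [← map_ofNat (algebraMap F K), h2, map_zero]) ⟨k, hk⟩
  exact ⟨b, b.2, by rw [sq] at hb; exact congrArg Subtype.val hb⟩

theorem Alt.fm_self_adj [Finite F] [Nonempty ι] {G : Matrix ι ι F} (hG : Alt G) (hu : IsUnit G)
    {r : ℕ} {K : Subalgebra F (Matrix ι ι F)} (hK : IsFieldSubalgebra r K)
    (hA : AdjSt (RingHom.id F) G K) {k : Matrix ι ι F} (hk : k ∈ K)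
    (hs : adj (RingHom.id F) G k = k) (v : ι → F) : fm (RingHom.id F) G (k *ᵥ v) v = 0 := by
  have h := hf_alt hG hu
  by_cases h2 : (2 : F) = 0
  · obtain ⟨a, ha, rfl⟩ := exists_sq_of_field h2 hK hk
    have h3 : adj (RingHom.id F) G a = a := by
      by_contra h3
      have h4 := isUnit_of_mem_field hK (sub_mem (hA a ha) ha) (sub_ne_zero.2 h3)
      apply (h4.mul h4).ne_zero
      rw [h.adj_mul] at hs
      rw [mul_sub, sub_mul, sub_mul, hs, hK.comm a ha _ (hA a ha)]
      have : ∀ y : Matrix ι ι F, y + y = 0 := fun y => by rw [← two_smul F, h2, zero_smul]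
      linear_combination (norm := abel_nf) this (a * a) - this (adj (RingHom.id F) G a * a)
    rw [← Matrix.mulVec_mulVec, h.fm_adj, h3, hG.fm_self]
  · have h3 := h.swap (k *ᵥ v) v
    rw [← hs, ← h.fm_adj, hs, RingHom.id_apply] at h3
    exact (mul_eq_zero.1 (by linear_combination h3)).resolve_left h2

theorem isUnit_smul' {c : F} (hc : c ≠ 0) {x : Matrix ι ι F} (hx : IsUnit x) : IsUnit (c • x) :=
  hx.smul (Units.mk0 c hc)

/-! ### quadratic forms -/

/-- `Q` is a quadratic form with non-degenerate polar Gram matrix `G` -/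
structure QF (Q : (ι → F) → F) (G : Matrix ι ι F) : Prop where
  smul : ∀ (c : F) v, Q (c • v) = c ^ 2 * Q v
  add : ∀ u v, Q (u + v) = Q u + Q v + fm (RingHom.id F) G u v
  unit : IsUnit G

variable {Q Q' : (ι → F) → F}

theorem QF.polar (h : QF Q G) : QuadraticMap.polar Q = fm (RingHom.id F) G := by
  ext u v; rw [QuadraticMap.polar, h.add]; ring

theorem QF.symm (h : QF Q G) : Gᵀ = G :=
  eq_of_fm_eq (σ := RingHom.id F) fun u v => by
    rw [← fm_id_swap, ← h.polar, QuadraticMap.polar_comm]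

theorem QF.hf (h : QF Q G) : HF (RingHom.id F) G 1 := hf_symm h.symm h.unit

theorem QF.comm (h : QF Q G) (u v : ι → F) :
    fm (RingHom.id F) G u v = fm (RingHom.id F) G v u := by rw [fm_id_swap, h.symm]

theorem QF.nondeg (h : QF Q G) : IsNondegenerateQuadraticForm Q :=
  ⟨h.smul, h.polar ▸ isBilinearForm_fm G, h.polar ▸ isNondegenerateForm_fm h.unit⟩

theorem exists_qf (hQ : IsNondegenerateQuadraticForm Q) : ∃ G, QF Q G := by
  obtain ⟨G, hG, -, h1, -⟩ := fixes_polar (N := ⊥) hQ (by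
    rintro _ ⟨g, hg, rfl⟩ v
    simp [Subgroup.mem_bot.1 hg])
  exact ⟨G, hQ.smul, fun u v => by rw [← h1, QuadraticMap.polar]; ring, hG⟩

theorem QF.isQuad (h : QF Q G) : H11.IsQuad (fmB (RingHom.id F) G) Q :=
  H11.IsQuad.of_add_smul (fun x y => by rw [h.add, fmB_apply, h.comm])
    fun c x => by rw [h.smul, sq]

theorem QF.zero (h : QF Q G) : Q 0 = 0 := by simpa using h.smul 0 0

theorem QF.diag (h : QF Q G) (v : ι → F) : fm (RingHom.id F) G v v = 2 * Q v := h.isQuad.diag' v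

theorem QF.alt (h : QF Q G) (h2 : (2 : F) = 0) : Alt G :=
  alt_of_fm_self fun v => by rw [h.diag, h2, zero_mul]

theorem QF.const_mul (h : QF Q G) {c : F} (hc : c ≠ 0) : QF (fun v => c * Q v) (c • G) :=
  ⟨fun a v => by rw [h.smul]; ring, fun u v => by rw [h.add, fm_smul]; ring,
    isUnit_smul' hc h.unit⟩

theorem QF.comp (h : QF Q G) {x : Matrix ι ι F} (hx : IsUnit x) :
    QF (fun v => Q (x *ᵥ v)) (pull (RingHom.id F) G x) :=
  ⟨fun a v => by rw [Matrix.mulVec_smul, h.smul],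
    fun u v => by rw [Matrix.mulVec_add, h.add, fm_pull], isUnit_pull h.unit hx⟩

theorem qf_fm {B : Matrix ι ι F} (h : B + Bᵀ = G) (hG : IsUnit G) :
    QF (fun v => fm (RingHom.id F) B v v) G :=
  ⟨fm_self_smul B, fun u v => by
    have := polar_fm_self B u v
    rw [QuadraticMap.polar, h] at this
    linear_combination this, hG⟩

theorem mem_isometryGroup {g : GL ι F} :
    g ∈ isometryGroup F Q ↔ ∀ v, Q ((g : Matrix ι ι F) *ᵥ v) = Q v :=
  ⟨fun h v => h v v, fun h v _ => h v⟩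

theorem QF.isometryGroup_le (h : QF Q G) : isometryGroup F Q ≤ isom (RingHom.id F) G := by
  intro g hg
  refine mem_isom.2 (eq_of_fm_eq (σ := RingHom.id F) fun u v => ?_)
  rw [← fm_pull, ← h.polar]
  simp only [QuadraticMap.polar, ← Matrix.mulVec_add, mem_isometryGroup.1 hg]

theorem QF.isom_le (h : QF Q G) (h2 : (2 : F) ≠ 0) : isom (RingHom.id F) G ≤ isometryGroup F Q :=
  fun g hg => mem_isometryGroup.2 fun v => mul_left_cancel₀ h2 (by
    rw [← h.diag, fm_isom hg, h.diag])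

theorem isometryGroup_le_quadSim : isometryGroup F Q ≤ quadSimilarityGroup Q :=
  fun _ hg => ⟨1, fun v => by simpa using mem_isometryGroup.1 hg v⟩

theorem fixesQuadForm_iff {N : Subgroup (GL ι F)} :
    FixesQuadForm (matrixSet N) Q ↔ N ≤ isometryGroup F Q :=
  ⟨fun h g hg => mem_isometryGroup.2 (h _ ⟨g, hg, rfl⟩),
    fun h _ ⟨_, hg, h1⟩ => h1 ▸ mem_isometryGroup.1 (h hg)⟩

theorem QF.mem_isometryGroup_of_sim [Nonempty ι] (h : QF Q G) {g : GL ι F}
    (hg : g ∈ quadSimilarityGroup Q) (hi : g ∈ isom (RingHom.id F) G) : g ∈ isometryGroup F Q := by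
  obtain ⟨c, hc⟩ := hg
  have h1 : (c : F) = 1 := by
    obtain ⟨i⟩ := ‹Nonempty ι›
    obtain ⟨x, hx⟩ := exists_fm_ne_zero_left (σ := RingHom.id F) h.unit
      (v := Pi.single i 1) (by simp)
    have h2 := fm_isom hi x (Pi.single i 1)
    rw [← h.polar] at hx h2
    simp only [QuadraticMap.polar, ← Matrix.mulVec_add, hc] at hx h2
    exact mul_right_cancel₀ hx (by linear_combination h2)
  exact mem_isometryGroup.2 fun v => by simpa [h1] using hc v

/-- the singular vectors of a totally isotropic subspace form a subspace -/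
def QF.ker (h : QF Q G) (W : Submodule F (ι → F))
    (hW : IsTotallySingularFor (fm (RingHom.id F) G) W) : Submodule F (ι → F) where
  carrier := {v | v ∈ W ∧ Q v = 0}
  add_mem' {a b} ha hb := ⟨W.add_mem ha.1 hb.1, by rw [h.add, ha.2, hb.2, hW a ha.1 b hb.1]; simp⟩
  zero_mem' := ⟨W.zero_mem, h.zero⟩
  smul_mem' c x hx := ⟨W.smul_mem c hx.1, by rw [h.smul, hx.2, mul_zero]⟩

theorem QF.exists_singular [Finite F] (h : QF Q G) {W : Submodule F (ι → F)}
    (hW : IsTotallySingularFor (fm (RingHom.id F) G) W) (h2 : 2 ≤ Module.finrank F W) :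
    ∃ v ∈ W, v ≠ 0 ∧ Q v = 0 := by
  by_cases h0 : (2 : F) = 0
  · exact exists_root_of_additive h0 h2 Q (fun u hu v hv => by rw [h.add, hW u hu v hv, add_zero])
      h.smul
  · obtain ⟨v, hv, hv0⟩ := (Submodule.ne_bot_iff W).1 (by rintro rfl; simp at h2)
    exact ⟨v, hv, hv0, (mul_eq_zero.1 ((h.diag v).symm.trans (hW v hv v hv))).resolve_left h0⟩

theorem QF.unique [Finite F] (h : QF Q G) (h' : QF Q' G) {N : Subgroup (GL ι F)} (hN : Irr N)
    (hn : 2 ≤ Fintype.card ι) (h1 : N ≤ isometryGroup F Q) (h2 : N ≤ isometryGroup F Q') :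
    Q = Q' := by
  by_cases h0 : (2 : F) = 0
  swap
  · ext v
    exact mul_left_cancel₀ h0 ((h.diag v).symm.trans (h'.diag v))
  let W : Submodule F (ι → F) :=
    { carrier := {v | Q v = Q' v}
      add_mem' := fun {a b} ha hb => by
        simp only [Set.mem_ofPred_eq] at ha hb ⊢
        rw [h.add, h'.add, ha, hb]
      zero_mem' := h.zero.trans h'.zero.symm
      smul_mem' := fun c x hx => by
        simp only [Set.mem_ofPred_eq] at hx ⊢
        rw [h.smul, h'.smul, hx] }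
  rcases hN W fun g hg v hv => ((h1 hg v v).trans hv).trans (h2 hg v v).symm with h3 | h3
  · obtain ⟨v, -, hv0, hv⟩ := exists_root_of_additive h0 (W := ⊤) (by simpa using hn)
      (fun v => Q v - Q' v) (fun u _ v _ => by rw [h.add, h'.add]; ring)
      fun c v => by rw [h.smul, h'.smul]; ring
    exact absurd (h3.le (show v ∈ W from sub_eq_zero.1 hv)) hv0
  · ext v
    exact (h3.ge trivial : v ∈ W)

theorem QF.le_of_nrm [Finite F] (h : QF Q G) {H N : Subgroup (GL ι F)} (hHN : Nrm H N) (hN : Irr N)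
    (hn : 2 ≤ Fintype.card ι) (h1 : N ≤ isometryGroup F Q) (hH : H ≤ isom (RingHom.id F) G) :
    H ≤ isometryGroup F Q := by
  intro g hg
  have h2 := h.comp g.isUnit
  rw [mem_isom.1 (hH hg)] at h2
  refine mem_isometryGroup.2
    (congrFun (h2.unique h hN hn (fun x hx => mem_isometryGroup.2 fun v => ?_) h1))
  change Q ((g : Matrix ι ι F) *ᵥ ((x : Matrix ι ι F) *ᵥ v)) = Q ((g : Matrix ι ι F) *ᵥ v)
  rw [← mem_isometryGroup.1 (h1 (hHN g hg x hx)) ((g : Matrix ι ι F) *ᵥ v), ← cj_coe, cj_mulVec]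

theorem exists_qf_of_omega (h2 : (2 : F) = 0) (hG : Alt G) (hu : IsUnit G) {H : Subgroup (GL ι F)}
    (hH : H ≤ isom (RingHom.id F) G) {ω : Matrix ι ι F} (hω : ω + adj (RingHom.id F) G ω = 1)
    (h1 : ∀ g ∈ H, ∀ v, fm (RingHom.id F) G (cj g ω *ᵥ v) v = fm (RingHom.id F) G (ω *ᵥ v) v) :
    QF (fun v => fm (RingHom.id F) G (ω *ᵥ v) v) G ∧
      H ≤ isometryGroup F fun v => fm (RingHom.id F) G (ω *ᵥ v) v := by
  have h := hf_alt hG hu
  have hs : Gᵀ = G := by rw [hG.1, neg_eq_iff_add_eq_zero, ← two_smul F, h2, zero_smul]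
  refine ⟨?_, fun g hg => mem_isometryGroup.2 fun v => ?_⟩
  · simp only [fm_mulVec_left]
    refine qf_fm ?_ hu
    have := h.mul_adj ω
    rw [RingHom.coe_id, Matrix.map_id] at this
    rw [Matrix.transpose_mul, Matrix.transpose_transpose, hs, ← this, ← mul_add, add_comm, hω,
      mul_one]
  · change fm _ G (ω *ᵥ ((g : Matrix ι ι F) *ᵥ v)) ((g : Matrix ι ι F) *ᵥ v) = _
    rw [← h1 g hg, cj_mulVec, fm_isom (hH hg)]

theorem exists_qf_of_pair (h2 : (2 : F) = 0) (hG : Alt G) (hu : IsUnit G) {H : Subgroup (GL ι F)}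
    (hH : H ≤ isom (RingHom.id F) G) {e : Matrix ι ι F} (he : adj (RingHom.id F) G e = 1 - e)
    (h1 : ∀ g ∈ H, cj g e = e ∨ cj g e = 1 - e) :
    QF (fun v => fm (RingHom.id F) G (e *ᵥ v) v) G ∧
      H ≤ isometryGroup F fun v => fm (RingHom.id F) G (e *ᵥ v) v := by
  refine exists_qf_of_omega h2 hG hu hH (by rw [he]; simp) fun g hg v => ?_
  rcases h1 g hg with h3 | h3 <;> rw [h3]
  rw [Matrix.sub_mulVec, fm_sub_left, Matrix.one_mulVec, hG.fm_self]
  linear_combination (-fm (RingHom.id F) G (e *ᵥ v) v) * h2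

theorem exists_qf_of_field [Finite F] [Nonempty ι] (h2 : (2 : F) = 0) (hG : Alt G) (hu : IsUnit G)
    {H : Subgroup (GL ι F)} (hH : H ≤ isom (RingHom.id F) G) {r : ℕ}
    {K : Subalgebra F (Matrix ι ι F)} (hK : IsFieldSubalgebra r K) (hA : AdjSt (RingHom.id F) G K)
    (hst : Stable H K) (hns : ¬ ∀ k ∈ K, adj (RingHom.id F) G k = k) :
    ∃ ω ∈ K, QF (fun v => fm (RingHom.id F) G (ω *ᵥ v) v) G ∧
      H ≤ isometryGroup F fun v => fm (RingHom.id F) G (ω *ᵥ v) v := by
  have h := hf_alt hG hu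
  have h22 : ∀ y : Matrix ι ι F, y + y = 0 := fun y => by rw [← two_smul F, h2, zero_smul]
  simp only [not_forall] at hns
  obtain ⟨x, hx, hx1⟩ := hns
  have hc := add_mem hx (hA x hx)
  obtain ⟨y, hy, hxy⟩ := hK.inv _ hc fun h0 => hx1 (by
    rw [← add_zero (adj _ G x), ← h0, add_left_comm, h22, add_zero])
  have hy' : adj (RingHom.id F) G y = y := by
    have h3 := congrArg (adj (RingHom.id F) G) hxy
    rw [h.adj_mul, adj_add, h.adj_adj, add_comm, h.adj_one] at h3
    rw [← mul_one (adj _ G y), ← hxy, ← mul_assoc, h3, one_mul]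
  have hω : x * y + adj (RingHom.id F) G (x * y) = 1 := by
    rw [h.adj_mul, hy', ← hK.comm _ (hA x hx) y hy, ← add_mul, hxy]
  refine ⟨x * y, mul_mem hx hy, exists_qf_of_omega h2 hG hu hH hω fun g hg v => ?_⟩
  rw [← sub_eq_zero, ← fm_sub_left, ← Matrix.sub_mulVec]
  refine hG.fm_self_adj hu hK hA (sub_mem (hst g hg _ (mul_mem hx hy)) (mul_mem hx hy)) ?_ v
  rw [adj_sub, h.adj_cj (isom_le_similarityGroup _ _ (hH hg)), eq_sub_of_add_eq' hω, map_sub, map_one]
  linear_combination (norm := abel_nf) h22 (x * y) - h22 (cj g (x * y))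

end Cfsg.Agent.H26
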