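import Mathlib
import Cfsg.Agent.H26.Fld
import Cfsg.Agent.H11.ClassifyQ

/-! Tensor decompositions relative to a form. -/

set_option autoImplicit false
set_option maxHeartbeats 400000

namespace Cfsg.Agent.H26

open Matrix Cfsg.Geo
open scoped Kronecker

variable {ι κ β : Type} [Fintype ι] [DecidableEq ι] [Fintype κ] [DecidableEq κ]
  [Fintype β] [DecidableEq β] {F : Type*} [Field F] {σ : F →+* F} {G : Matrix ι ι F} {ε : F}

omit [Fintype κ] [DecidableEq κ] [Fintype β] [DecidableEq β] in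
theorem kronecker_map (σ : F →+* F) (a : Matrix κ κ F) (b : Matrix β β F) :
    (a ⊗ₖ b).map σ = a.map σ ⊗ₖ b.map σ := by
  ext i j; simp

omit [DecidableEq κ] [DecidableEq β] in
theorem pull_kronecker (σ : F →+* F) (G₁ a : Matrix κ κ F) (G₂ b : Matrix β β F) :
    pull σ (G₁ ⊗ₖ G₂) (a ⊗ₖ b) = pull σ G₁ a ⊗ₖ pull σ G₂ b := by
  simp only [pull, kronecker_map, Matrix.mul_kronecker_mul, ← Matrix.kroneckerMap_transpose]

/-- Kronecker product of units -/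
def kronG (a : GL κ F) (b : GL β F) : GL (κ × β) F where
  val := (a : Matrix κ κ F) ⊗ₖ (b : Matrix β β F)
  inv := ((a⁻¹ : GL κ F) : Matrix κ κ F) ⊗ₖ ((b⁻¹ : GL β F) : Matrix β β F)
  val_inv := by simp [← Matrix.mul_kronecker_mul]
  inv_val := by simp [← Matrix.mul_kronecker_mul]

theorem coe_kronG (a : GL κ F) (b : GL β F) :
    (kronG a b : Matrix (κ × β) (κ × β) F) = (a : Matrix κ κ F) ⊗ₖ (b : Matrix β β F) := rfl

theorem kronG_mul (a a' : GL κ F) (b b' : GL β F) :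
    kronG (a * a') (b * b') = kronG a b * kronG a' b' :=
  Units.ext (Matrix.mul_kronecker_mul _ _ _ _)

theorem kronG_inv (a : GL κ F) (b : GL β F) : kronG a⁻¹ b⁻¹ = (kronG a b)⁻¹ := Units.ext rfl

theorem kronG_one : kronG (1 : GL κ F) (1 : GL β F) = 1 := Units.ext Matrix.one_kronecker_one

theorem cj_kronG (a : GL κ F) (b : GL β F) (x : Matrix κ κ F) (y : Matrix β β F) :
    cj (kronG a b) (x ⊗ₖ y) = cj a x ⊗ₖ cj b y := by
  simp only [cj_apply, ← kronG_inv, coe_kronG, Matrix.mul_kronecker_mul]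

theorem isUnit_kronecker {a : Matrix κ κ F} {b : Matrix β β F} (ha : IsUnit a) (hb : IsUnit b) :
    IsUnit (a ⊗ₖ b) := (kronG ha.unit hb.unit).isUnit

theorem HF.kronecker {G₁ : Matrix κ κ F} {G₂ : Matrix β β F} {ε₁ ε₂ : F} (h₁ : HF σ G₁ ε₁)
    (h₂ : HF σ G₂ ε₂) : HF σ (G₁ ⊗ₖ G₂) (ε₁ * ε₂) :=
  ⟨h₁.inv, isUnit_kronecker h₁.unit h₂.unit, by
    rw [kronecker_map, ← Matrix.kroneckerMap_transpose, h₁.herm, h₂.herm, Matrix.smul_kronecker,
      Matrix.kronecker_smul, smul_smul]⟩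

theorem HF.adj_kronecker {G₁ : Matrix κ κ F} {G₂ : Matrix β β F} {ε₁ ε₂ : F} (h₁ : HF σ G₁ ε₁)
    (h₂ : HF σ G₂ ε₂) (x : Matrix κ κ F) (y : Matrix β β F) :
    adj σ (G₁ ⊗ₖ G₂) (x ⊗ₖ y) = adj σ G₁ x ⊗ₖ adj σ G₂ y :=
  (h₁.kronecker h₂).adj_eq' (by
    rw [kronecker_map, ← Matrix.kroneckerMap_transpose, ← Matrix.mul_kronecker_mul,
      ← Matrix.mul_kronecker_mul, h₁.mul_adj, h₂.mul_adj])

theorem HF.eps_unique [Nonempty ι] {ε' : F} (h : HF σ G ε) (h' : HF σ G ε') : ε = ε' :=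
  smul_left_injective F h.unit.ne_zero (h.herm.symm.trans h'.herm)

theorem HF.smul (h : HF σ G ε) {c : F} (hc : c ≠ 0) : HF σ (c • G) (σ c * ε / c) :=
  ⟨h.inv, isUnit_smul' hc h.unit, by
    rw [Matrix.map_smul' _ _ _ (map_mul σ), Matrix.transpose_smul, h.herm, smul_smul, smul_smul,
      div_mul_cancel₀ _ hc]⟩

theorem adj_smul_left {c : F} (hc : c ≠ 0) (h : HF σ G ε) (x : Matrix ι ι F) :
    adj σ (c • G) x = adj σ G x :=
  (h.smul hc).adj_eq fun u v => by rw [fm_smul, fm_smul, h.fm_adj]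

theorem similarityGroup_smul {c : F} (hc : c ≠ 0) :
    similarityGroup (fm σ (c • G)) = similarityGroup (fm σ G) := by
  ext g
  simp only [mem_similarityGroup_fm, pull_smul, smul_comm _ c,
    (smul_right_injective _ hc).eq_iff]

theorem HF.pull (h : HF σ G ε) {T : Matrix ι ι F} (hT : IsUnit T) : HF σ (pull σ G T) ε :=
  ⟨h.inv, isUnit_pull h.unit hT, by rw [pull_conj σ h.inv, h.herm, pull_smul]⟩

theorem HF.id_cases [Nonempty ι] (h : HF (RingHom.id F) G ε) : ε = 1 ∨ ε = -1 :=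
  mul_self_eq_one_iff.1 h.eps

theorem HF.transpose (h : HF (RingHom.id F) G ε) : Gᵀ = ε • G := by simpa using h.herm

theorem HF.symm_or_skew [Nonempty ι] (h : HF (RingHom.id F) G ε) : Gᵀ = G ∨ Gᵀ = -G :=
  H26.symm_or_skew h.unit h.transpose

theorem HF.exists_kronecker [Nonempty κ] [Nonempty β] {G : Matrix (κ × β) (κ × β) F}
    (h : HF σ G ε) (hadj : ∀ x : Matrix κ κ F, ∃ y : Matrix κ κ F,
      adj σ G (x ⊗ₖ (1 : Matrix β β F)) = y ⊗ₖ (1 : Matrix β β F)) :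
    ∃ (G₁ : Matrix κ κ F) (G₂ : Matrix β β F) (ε₁ ε₂ : F), HF σ G₁ ε₁ ∧ HF σ G₂ ε₂ ∧
      G = G₁ ⊗ₖ G₂ := by
  obtain ⟨a, b, hab⟩ := exists_eq_kronecker_of_normalizes h.unit.unit fun x => by
    obtain ⟨y, hy⟩ := hadj (x.map σ)
    refine ⟨yᵀ, ?_⟩
    have h1 := h.mul_adj (y ⊗ₖ (1 : Matrix β β F))
    rw [← hy, h.adj_adj, kronecker_map, h.map_map, Matrix.map_one σ (map_zero σ) (map_one σ),
      hy] at h1
    rw [Units.mul_inv_eq_iff_eq_mul, IsUnit.unit_spec, h1, ← Matrix.kroneckerMap_transpose,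
      Matrix.transpose_one]
  rw [IsUnit.unit_spec] at hab
  have h1 := h.herm
  rw [hab, kronecker_map, ← Matrix.kroneckerMap_transpose, ← Matrix.kronecker_smul] at h1
  obtain ⟨c, hc, h2, h3⟩ := exists_smul_of_kronecker_eq h1.symm a.ne_zero
    (smul_ne_zero (left_ne_zero_of_mul_eq_one h.eps) b.ne_zero)
  exact ⟨a, b, c, c⁻¹ * ε, ⟨h.inv, a.isUnit, h2⟩,
    ⟨h.inv, b.isUnit, by rw [mul_smul, h3, inv_smul_smul₀ hc]⟩, hab⟩

theorem sim_of_kronecker [Nonempty κ] [Nonempty β] {G₁ : Matrix κ κ F} {G₂ : Matrix β β F}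
    (h₁ : IsUnit G₁) (h₂ : IsUnit G₂) {a : GL κ F} {b : GL β F} {c : F} (hc : c ≠ 0)
    (h : pull σ (G₁ ⊗ₖ G₂) ((a : Matrix κ κ F) ⊗ₖ (b : Matrix β β F)) = c • G₁ ⊗ₖ G₂) :
    ∃ d : F, d ≠ 0 ∧ pull σ G₁ a = d • G₁ ∧ pull σ G₂ b = (d⁻¹ * c) • G₂ := by
  rw [pull_kronecker, ← Matrix.kronecker_smul] at h
  obtain ⟨d, hd, h2, h3⟩ := exists_smul_of_kronecker_eq h.symm h₁.ne_zero
    (smul_ne_zero hc h₂.ne_zero)
  exact ⟨d, hd, h2, by rw [mul_smul, h3, inv_smul_smul₀ hd]⟩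

theorem trA_trG_mul (e : ι ≃ κ) (P : GL ι F) (T : GL κ F) (x : Matrix κ κ F) :
    trA e (trG e P T * P) x = trA e P (cj T x) := by
  rw [trA_cj, trA_apply, cj_mul, ← trA_apply]

theorem unF_trG_mul (e : ι ≃ κ) (P : GL ι F) (T : GL κ F) :
    unF σ e (trG e P T * P) G = pull σ (unF σ e P G) T := by
  rw [pull_unF, unF, unF, Units.val_mul, pull_mul, coe_trG]

/-- the group of pure tensors -/
def tenG (e : ι ≃ κ × β) (P : GL ι F) : Subgroup (GL ι F) where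
  carrier := {h | ∃ (a : GL κ F) (b : GL β F), h = trG e P (kronG a b)}
  mul_mem' := by
    rintro _ _ ⟨a, b, rfl⟩ ⟨a', b', rfl⟩
    exact ⟨a * a', b * b', by rw [kronG_mul, map_mul]⟩
  one_mem' := ⟨1, 1, by rw [kronG_one, map_one]⟩
  inv_mem' := by
    rintro _ ⟨a, b, rfl⟩
    exact ⟨a⁻¹, b⁻¹, by rw [kronG_inv, map_inv]⟩

theorem mem_tenG {e : ι ≃ κ × β} {P h : GL ι F} : h ∈ tenG e P ↔ ∃ (a : GL κ F) (b : GL β F),
    (h : Matrix ι ι F) = trA e P ((a : Matrix κ κ F) ⊗ₖ (b : Matrix β β F)) :=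
  exists₂_congr fun _ _ => Units.ext_iff

theorem tenG_eq {a b : ℕ} (e : ι ≃ Fin a × Fin b) (P : GL ι F) :
    tenG e P = tensorProductSubgroup a b e P := by
  ext h; rw [mem_tenG, mem_tensorProductSubgroup]

theorem tenG_swap (e : ι ≃ κ × β) (P : GL ι F) :
    tenG (e.trans (Equiv.prodComm κ β)) P = tenG e P := by
  ext h
  simp only [mem_tenG, trA_kronecker_swap e]
  exact exists_comm

/-- the projection to the left tensor factor -/
def projL (e : ι ≃ κ × β) (P : GL ι F) (H : Subgroup (GL ι F)) : Subgroup (GL κ F) where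
  carrier := {a | ∃ b : GL β F, trG e P (kronG a b) ∈ H}
  mul_mem' := by
    rintro a a' ⟨b, h⟩ ⟨b', h'⟩
    exact ⟨b * b', by rw [kronG_mul, map_mul]; exact H.mul_mem h h'⟩
  one_mem' := ⟨1, by rw [kronG_one, map_one]; exact H.one_mem⟩
  inv_mem' := by
    rintro a ⟨b, h⟩
    exact ⟨b⁻¹, by rw [kronG_inv, map_inv]; exact H.inv_mem h⟩

theorem crd_eq_zero {e : ι ≃ κ} {P : GL ι F} {y : κ → F}
    (h : (P : Matrix ι ι F) *ᵥ (y ∘ e) = 0) : y = 0 := by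
  have h1 := congrArg (((P⁻¹ : GL ι F) : Matrix ι ι F) *ᵥ ·) h
  simp only [inv_mulVec_mulVec, Matrix.mulVec_zero] at h1
  ext k
  simpa using congrFun h1 (e.symm k)

theorem exists_crd (e : ι ≃ κ) (P : GL ι F) (u : ι → F) :
    ∃ y : κ → F, u = (P : Matrix ι ι F) *ᵥ (y ∘ e) :=
  ⟨(((P⁻¹ : GL ι F) : Matrix ι ι F) *ᵥ u) ∘ e.symm, by
    rw [Function.comp_assoc, e.symm_comp_self, Function.comp_id, mulVec_inv_mulVec]⟩

theorem crd_injective (e : ι ≃ κ) (P : GL ι F) {y z : κ → F}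
    (h : (P : Matrix ι ι F) *ᵥ (y ∘ e) = (P : Matrix ι ι F) *ᵥ (z ∘ e)) : y = z :=
  sub_eq_zero.1 (crd_eq_zero (e := e) (P := P) (by
    rw [← sub_eq_zero, ← Matrix.mulVec_sub] at h; exact h))

theorem irr_projL [Nonempty β] {e : ι ≃ κ × β} {P : GL ι F} {H : Subgroup (GL ι F)} (hirr : Irr H)
    (hle : H ≤ tenG e P) : Irr (projL e P H) := by
  intro W hW
  let U : Submodule F (ι → F) :=
    { carrier := {v | ∃ y : κ × β → F, v = (P : Matrix ι ι F) *ᵥ (y ∘ e) ∧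
        ∀ j, (fun i => y (i, j)) ∈ W}
      add_mem' := by
        rintro _ _ ⟨y, rfl, hy⟩ ⟨z, rfl, hz⟩
        exact ⟨y + z, by rw [← Matrix.mulVec_add]; rfl, fun j => W.add_mem (hy j) (hz j)⟩
      zero_mem' := ⟨0, by simp, fun _ => W.zero_mem⟩
      smul_mem' := by
        rintro c _ ⟨y, rfl, hy⟩
        exact ⟨c • y, by rw [← Matrix.mulVec_smul]; rfl, fun j => W.smul_mem c (hy j)⟩ }
  obtain ⟨j₀⟩ := ‹Nonempty β›
  rcases hirr U (by
    rintro h hh _ ⟨y, rfl, hy⟩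
    obtain ⟨a, b, rfl⟩ := hle hh
    refine ⟨_, trA_mulVec e P _ y, fun j => ?_⟩
    have : (fun i => ((kronG a b : Matrix (κ × β) (κ × β) F) *ᵥ y) (i, j)) =
        ∑ l, (b : Matrix β β F) j l • ((a : Matrix κ κ F) *ᵥ fun i => y (i, l)) := by
      ext i
      simp only [coe_kronG, Matrix.mulVec, dotProduct, Fintype.sum_prod_type,
        Matrix.kroneckerMap_apply, Finset.sum_apply, Pi.smul_apply, smul_eq_mul, Finset.mul_sum]
      rw [Finset.sum_comm]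
      exact Finset.sum_congr rfl fun _ _ => Finset.sum_congr rfl fun _ _ => by ring
    rw [this]
    exact W.sum_mem fun l _ => W.smul_mem _ (hW a ⟨b, hh⟩ _ (hy l))) with h | h
  · refine Or.inl (eq_bot_iff.2 fun w hw => ?_)
    have h1 := crd_eq_zero (h.le (⟨fun p => w p.1, rfl, fun _ => hw⟩ : _ ∈ U))
    exact funext fun i => congrFun h1 (i, j₀)
  · refine Or.inr (eq_top_iff.2 fun w _ => ?_)
    obtain ⟨y, h1, hy⟩ : (P : Matrix ι ι F) *ᵥ ((fun p => w p.1) ∘ e) ∈ U := h.ge trivial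
    rw [← crd_injective e P h1] at hy
    exact hy j₀

/-- there is a non-scalar commutative stable adjoint-closed subalgebra -/
def HasComm (σ : F →+* F) (G : Matrix ι ι F) (H : Subgroup (GL ι F)) : Prop :=
  ∃ C : Subalgebra F (Matrix ι ι F), Stable H C ∧ (∀ x ∈ C, ∀ y ∈ C, x * y = y * x) ∧
    AdjSt σ G C ∧ C ≠ ⊥

theorem HasComm.mono {H K : Subgroup (GL ι F)} (h : HasComm σ G K) (hle : H ≤ K) :
    HasComm σ G H :=
  let ⟨C, h1, h2⟩ := h; ⟨C, h1.mono hle, h2⟩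

theorem hasComm_of_eigen (h : HF σ G ε) {H : Subgroup (GL ι F)} {s : Matrix ι ι F}
    (hs : ∀ c : F, s ≠ c • (1 : Matrix ι ι F)) (h1 : ∀ g ∈ H, cj g s ∈ Algebra.adjoin F {s})
    (h2 : adj σ G s ∈ Algebra.adjoin F {s}) : HasComm σ G H := by
  have hc : ∀ x ∈ Algebra.adjoin F {s}, ∀ y ∈ Algebra.adjoin F {s}, x * y = y * x :=
    fun x hx y hy => Algebra.commute_of_mem_adjoin_singleton_of_commute hy
      (Algebra.commute_of_mem_adjoin_self hx).symm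
  refine ⟨Algebra.adjoin F {s}, fun g hg x hx => ?_, hc, fun x hx => ?_, fun h0 => ?_⟩
  · have : Algebra.adjoin F {s} ≤ (Algebra.adjoin F {s}).comap (cj g : _ →ₐ[F] _) :=
      Algebra.adjoin_le (by rintro _ rfl; exact h1 g hg)
    exact this hx
  · induction hx using Algebra.adjoin_induction with
    | mem x hx => rw [hx]; exact h2
    | algebraMap c =>
      rw [Algebra.algebraMap_eq_smul_one, adj_smul, h.adj_one]
      exact Subalgebra.smul_mem _ (one_mem _) _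
    | add x y _ _ hx hy => rw [adj_add]; exact add_mem hx hy
    | mul x y _ _ hx hy => rw [h.adj_mul]; exact mul_mem hy hx
  · obtain ⟨c, hc⟩ := Algebra.mem_bot.1 (h0.le (Algebra.self_mem_adjoin_singleton F s))
    exact hs c (by rw [← hc, Algebra.algebraMap_eq_smul_one])

/-- two non-proportional bilinear forms -/
theorem hasComm_of_two_forms {B : Matrix ι ι F} {ε' : F} (h : HF (RingHom.id F) G ε)
    (h' : HF (RingHom.id F) B ε') {H : Subgroup (GL ι F)}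
    (hH : H ≤ similarityGroup (fm (RingHom.id F) G)) (hH' : H ≤ similarityGroup (fm (RingHom.id F) B))
    (hne : ∀ c : F, B ≠ c • G) : HasComm (RingHom.id F) G H := by
  rcases isEmpty_or_nonempty ι with h0 | h0
  · exact absurd (Subsingleton.elim _ _) (hne 0)
  have hd := (Matrix.isUnit_iff_isUnit_det _).1 h.unit
  have h3 : G * (G⁻¹ * B) = B := Matrix.mul_nonsing_inv_cancel_left _ _ hd
  have h4 : ∀ u v, fm (RingHom.id F) G u ((G⁻¹ * B) *ᵥ v) = fm (RingHom.id F) B u v := fun u v => by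
    rw [fm_mulVec_right, RingHom.coe_id, Matrix.map_id, h3]
  refine hasComm_of_eigen h (s := G⁻¹ * B) (fun c hc => hne c (by rw [← h3, hc]; simp))
    (fun g hg => ?_) ?_
  · obtain ⟨c, hc, h5⟩ := fm_sim (hH hg)
    obtain ⟨d, hd, h6⟩ := fm_sim (hH' hg)
    have : cj g (G⁻¹ * B) = (c / d) • (G⁻¹ * B) := by
      refine matrix_ext_mulVec fun v => sub_eq_zero.1 (h.eq_zero_right fun u => ?_)
      rw [← mulVec_inv_mulVec g u, ← mulVec_inv_mulVec g v, fm_sub_right, cj_mulVec, h5,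
        Matrix.smul_mulVec, fm_smul_right, h4, h4, h6, RingHom.id_apply]
      field_simp
      ring
    rw [this]
    exact Subalgebra.smul_mem _ (Algebra.self_mem_adjoin_singleton F _) _
  · have : adj (RingHom.id F) G (G⁻¹ * B) = (ε * ε') • (G⁻¹ * B) := h.adj_eq fun u v => by
      have h5 := h.swap v ((G⁻¹ * B) *ᵥ u)
      have h6 := h'.swap u v
      simp only [RingHom.id_apply, h4] at h5 h6
      rw [h5, h6, Matrix.smul_mulVec, fm_smul_right, h4, RingHom.id_apply, mul_assoc]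
    rw [this]
    exact Subalgebra.smul_mem _ (Algebra.self_mem_adjoin_singleton F _) _

theorem hasComm_of_symm_two (h2 : (2 : F) ≠ 0) {G : Matrix (Fin 2) (Fin 2) F}
    (h : HF (RingHom.id F) G 1) {H : Subgroup (GL (Fin 2) F)}
    (hH : H ≤ similarityGroup (fm (RingHom.id F) G)) : HasComm (RingHom.id F) G H := by
  refine hasComm_of_two_forms h (hf_alt alt_J₂ isUnit_J₂) hH (fun a _ => mem_similarityGroup_J₂ a)
    fun c hc => h2 ?_
  have h1 := congrFun (congrFun h.transpose 0) 1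
  have h3 := congrFun (congrFun hc 0) 1
  have h4 := congrFun (congrFun hc 1) 0
  simp [J₂] at h1 h3 h4
  linear_combination h3 - h4 - c * h1

/-- a tensor decomposition of the form `G` preserved by `H` -/
structure Ten (σ : F →+* F) (G : Matrix ι ι F) (H : Subgroup (GL ι F)) (e : ι ≃ κ × β)
    (P : GL ι F) (G₁ : Matrix κ κ F) (G₂ : Matrix β β F) (ε₁ ε₂ : F) : Prop where
  hf₁ : HF σ G₁ ε₁
  hf₂ : HF σ G₂ ε₂
  eq : unF σ e P G = G₁ ⊗ₖ G₂
  le : H ≤ tenG e P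

variable {H : Subgroup (GL ι F)} {e : ι ≃ κ × β} {P : GL ι F} {G₁ : Matrix κ κ F}
  {G₂ : Matrix β β F} {ε₁ ε₂ : F}

theorem Ten.swap (h : Ten σ G H e P G₁ G₂ ε₁ ε₂) :
    Ten σ G H (e.trans (Equiv.prodComm κ β)) P G₂ G₁ ε₂ ε₁ :=
  ⟨h.hf₂, h.hf₁, by
    ext ⟨i, j⟩ ⟨k, l⟩
    have := congrFun (congrFun h.eq (j, i)) (l, k)
    simp only [unF, Matrix.submatrix_apply, Matrix.kroneckerMap_apply] at this ⊢
    rw [mul_comm, ← this]; rfl, by rw [tenG_swap]; exact h.le⟩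

theorem Ten.eps [Nonempty κ] [Nonempty β] (h : Ten σ G H e P G₁ G₂ ε₁ ε₂) (hG : HF σ G ε) :
    ε₁ * ε₂ = ε :=
  (h.hf₁.kronecker h.hf₂).eps_unique (h.eq ▸ hG.unF e P)

theorem Ten.smul (h : Ten σ G H e P G₁ G₂ ε₁ ε₂) {c : F} (hc : c ≠ 0) :
    Ten σ G H e P (c • G₁) (c⁻¹ • G₂) (σ c * ε₁ / c) (σ c⁻¹ * ε₂ / c⁻¹) :=
  ⟨h.hf₁.smul hc, h.hf₂.smul (inv_ne_zero hc), by
    rw [h.eq, Matrix.smul_kronecker, Matrix.kronecker_smul, smul_inv_smul₀ hc], h.le⟩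

theorem Ten.change (h : Ten σ G H e P G₁ G₂ ε₁ ε₂) (T : GL κ F) :
    Ten σ G H e (trG e P (kronG T 1) * P) (pull σ G₁ T) G₂ ε₁ ε₂ :=
  ⟨h.hf₁.pull T.isUnit, h.hf₂, by
    rw [unF_trG_mul, h.eq, coe_kronG, pull_kronecker, Units.val_one, pull_one], fun g hg => by
    obtain ⟨a, b, hab⟩ := mem_tenG.1 (h.le hg)
    refine mem_tenG.2 ⟨T⁻¹ * a * T⁻¹⁻¹, b, ?_⟩
    rw [trA_trG_mul, cj_kronG, ← cj_coe, cj_cj_inv, cj_one, hab]⟩

theorem Ten.exists_pull [Nonempty κ] [Nonempty β] (h : Ten σ G H e P G₁ G₂ ε₁ ε₂) {a : GL κ F}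
    {b : GL β F} {c : F} (hc : c ≠ 0) (hab : pull σ G (trG e P (kronG a b)) = c • G) :
    ∃ d : F, d ≠ 0 ∧ pull σ G₁ a = d • G₁ ∧ pull σ G₂ b = (d⁻¹ * c) • G₂ :=
  sim_of_kronecker h.hf₁.unit h.hf₂.unit hc (by
    rw [← h.eq, pull_unF, ← unF_smul, ← hab, coe_trG, coe_kronG])

theorem Ten.sim [Nonempty κ] [Nonempty β] (h : Ten σ G H e P G₁ G₂ ε₁ ε₂)
    (hH : H ≤ similarityGroup (fm σ G)) : projL e P H ≤ similarityGroup (fm σ G₁) := by
  rintro a ⟨b, hb⟩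
  obtain ⟨c, hc, h1⟩ := mem_similarityGroup_fm.1 (hH hb)
  obtain ⟨d, hd, h2, -⟩ := h.exists_pull hc h1
  exact mem_similarityGroup_fm.2 ⟨d, hd, h2⟩

theorem tenL_apply (e : ι ≃ κ × β) (P : GL ι F) (x : Matrix κ κ F) :
    (trA e P).toAlgHom.comp (kronL κ β F) x = trA e P (x ⊗ₖ (1 : Matrix β β F)) := rfl

theorem Ten.hasComm [Nonempty κ] [Nonempty β] (h : Ten σ G H e P G₁ G₂ ε₁ ε₂) (hG : HF σ G ε)
    (hc : HasComm σ G₁ (projL e P H)) : HasComm σ G H := by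
  obtain ⟨C, h1, h2, h3, h4⟩ := hc
  have : Nonempty ι := ⟨e.symm (Classical.arbitrary _)⟩
  refine ⟨_, stable_map_kronL e P h1 fun g hg => ?_, ?_, ?_, fun h0 => h4 (eq_bot_iff.2 ?_)⟩
  · obtain ⟨a, b, rfl⟩ := h.le hg
    exact ⟨a, ⟨b, hg⟩, b, by rw [coe_trG, coe_kronG]⟩
  · intro x' hx' y' hy'
    obtain ⟨x, hx, rfl⟩ := Subalgebra.mem_map.1 hx'
    obtain ⟨y, hy, rfl⟩ := Subalgebra.mem_map.1 hy'
    rw [← map_mul, ← map_mul, h2 x hx y hy]
  · intro x' hx'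
    obtain ⟨x, hx, rfl⟩ := Subalgebra.mem_map.1 hx'
    refine Subalgebra.mem_map.2 ⟨_, h3 x hx, ?_⟩
    rw [tenL_apply, tenL_apply, hG.adj_trA, h.eq, h.hf₁.adj_kronecker h.hf₂, h.hf₂.adj_one]
  · intro x hx
    obtain ⟨c, hc⟩ := Algebra.mem_bot.1 (h0.le (Subalgebra.mem_map.2 ⟨x, hx, rfl⟩))
    rw [tenL_apply, ← (trA e P).commutes, (trA e P).injective.eq_iff,
      Algebra.algebraMap_eq_smul_one, ← Matrix.one_kronecker_one, ← Matrix.smul_kronecker] at hc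
    exact Algebra.mem_bot.2 ⟨c, by rw [← kronecker_one_injective hc, Algebra.algebraMap_eq_smul_one]⟩

theorem Ten.isTensorFormStructure {a b : ℕ} {e : ι ≃ Fin a × Fin b} {G₁ : Matrix (Fin a) (Fin a) F}
    {G₂ : Matrix (Fin b) (Fin b) F} (h : Ten σ G H e P G₁ G₂ ε₁ ε₂) :
    IsTensorFormStructure σ (fm σ G) (fm σ G₁) (fm σ G₂) e P :=
  ⟨1, one_ne_zero, fun x y => by
    rw [fm_unF, h.eq, one_mul, gramMatrix_fm, gramMatrix_fm, formOfGram_eq]⟩

theorem HF.exists_ten [Finite F] [Nonempty ι] (hG : HF σ G ε) {H N : Subgroup (GL ι F)}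
    (hirr : Irr H) (hN : Nrm H N) (hNs : N ≤ similarityGroup (fm σ G)) (hns : ¬ N ≤ scalars ι F)
    (hnt : spanAlg N ≠ ⊤) (hc : ¬ HasComm σ G H) :
    ∃ (a b : ℕ) (e : ι ≃ Fin a × Fin b) (P : GL ι F) (G₁ : Matrix (Fin a) (Fin a) F)
      (G₂ : Matrix (Fin b) (Fin b) F) (ε₁ ε₂ : F), 2 ≤ a ∧ 2 ≤ b ∧ Ten σ G H e P G₁ G₂ ε₁ ε₂ := by
  have h0 := hG.adjSt_spanAlg hNs
  obtain ⟨a, b, e, P, ha, hb, h1, h2⟩ := exists_tensor_of_not_aqp hirr hN hns hnt (by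
    by_contra h3
    exact hc ⟨_, hN.stable_spanAlg.ctr, ctr_comm _, h0.ctr hG, h3⟩)
  have : Nonempty (Fin a) := ⟨⟨0, by omega⟩⟩
  have : Nonempty (Fin b) := ⟨⟨0, by omega⟩⟩
  obtain ⟨G₁, G₂, ε₁, ε₂, h3, h4, h5⟩ := (hG.unF e P).exists_kronecker fun x => by
    obtain ⟨y, hy⟩ := (h1 _).1 (h0 _ ((h1 _).2 ⟨x, rfl⟩))
    exact ⟨y, (trA e P).injective (by rw [← hy, hG.adj_trA])⟩
  exact ⟨a, b, e, P, G₁, G₂, ε₁, ε₂, ha, hb, h3, h4, h5, fun g hg => mem_tenG.2 (h2 g hg)⟩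

theorem Alt.exists_add_transpose {G : Matrix ι ι F} (h : Alt G) :
    ∃ U : Matrix ι ι F, U - Uᵀ = G := by
  let r := Fintype.equivFin ι
  refine ⟨Matrix.of fun i j => if r i < r j then G i j else 0, ?_⟩
  ext i j
  have h1 := congrFun (congrFun h.1 i) j
  simp only [Matrix.sub_apply, Matrix.of_apply, Matrix.transpose_apply, Matrix.neg_apply] at h1 ⊢
  rcases lt_trichotomy (r i) (r j) with h2 | h2 | h2
  · simp [h2, h2.not_gt]
  · obtain rfl := r.injective h2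
    simp [h.2]
  · simp [h2, h2.not_gt, h1]

omit [DecidableEq κ] [DecidableEq β] in
theorem fm_kronecker (σ : F →+* F) (G₁ : Matrix κ κ F) (G₂ : Matrix β β F) (x x' : κ → F)
    (y y' : β → F) : fm σ (G₁ ⊗ₖ G₂) (fun p => x p.1 * y p.2) (fun p => x' p.1 * y' p.2) =
      fm σ G₁ x x' * fm σ G₂ y y' := by
  simp only [fm_eq_sum, Fintype.sum_prod_type, Matrix.kroneckerMap_apply, map_mul]
  rw [Finset.sum_mul_sum]
  refine Finset.sum_congr rfl fun _ _ => Finset.sum_congr rfl fun _ _ => ?_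
  rw [Finset.sum_mul_sum]
  exact Finset.sum_congr rfl fun _ _ => Finset.sum_congr rfl fun _ _ => by ring

theorem neg_eq_of_two {M : Type*} [AddCommGroup M] [Module F M] (h2 : (2 : F) = 0) (x : M) :
    -x = x := by rw [neg_eq_iff_add_eq_zero, ← two_smul F, h2, zero_smul]

theorem trF_add (σ : F →+* F) (e : ι ≃ κ) (P : GL ι F) (A B : Matrix κ κ F) :
    trF σ e P (A + B) = trF σ e P A + trF σ e P B := by
  simp only [trF, pull, Matrix.submatrix_add, Pi.add_apply, mul_add, add_mul]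

theorem fm_sub (σ : F →+* F) (A B : Matrix ι ι F) (u v : ι → F) :
    fm σ (A - B) u v = fm σ A u v - fm σ B u v := by
  simp only [fm, Matrix.sub_mulVec, dotProduct_sub]

theorem alt_pull_sub_kronecker (h2 : (2 : F) = 0) {U a : Matrix κ κ F} {d : F} (hd : d ≠ 0)
    (h : pull (RingHom.id F) (U + Uᵀ) a = d • (U + Uᵀ)) (h₂ : Alt G₂) :
    Alt ((d⁻¹ • pull (RingHom.id F) U a) ⊗ₖ G₂ - U ⊗ₖ G₂) := by
  have hs : G₂ᵀ = G₂ := h₂.1.trans (neg_eq_of_two h2 _)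
  refine ⟨?_, fun i => by simp [h₂.2]⟩
  have h6 := pull_conj (RingHom.id F) (fun _ => rfl) U a
  simp only [RingHom.coe_id, Matrix.map_id] at h6
  have h7 : pull (RingHom.id F) Uᵀ a = d • (U + Uᵀ) - pull (RingHom.id F) U a := by
    rw [← h]; simp only [pull, mul_add, add_mul, add_sub_cancel_left]
  rw [Matrix.transpose_sub, ← Matrix.kroneckerMap_transpose, ← Matrix.kroneckerMap_transpose, hs,
    Matrix.transpose_smul, h6, h7, smul_sub, inv_smul_smul₀ hd, sub_eq_add_neg (U + Uᵀ),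
    neg_eq_of_two h2 (d⁻¹ • _), Matrix.add_kronecker, Matrix.add_kronecker,
    neg_eq_of_two h2 (_ - _), sub_eq_add_neg _ (U ⊗ₖ G₂), neg_eq_of_two h2 (U ⊗ₖ G₂)]
  abel

theorem mem_isometryGroup_trG {e : ι ≃ κ} {P : GL ι F} {B : Matrix κ κ F} {g : GL κ F}
    (h : Alt (pull (RingHom.id F) B g - B)) : trG e P g ∈
      isometryGroup F fun v => fm (RingHom.id F) (trF (RingHom.id F) e P B) v v := by
  refine mem_isometryGroup.2 fun v => ?_
  obtain ⟨y, rfl⟩ := exists_crd e P v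
  rw [coe_trG, trA_mulVec, fm_unF, fm_unF, unF_trF, fm_pull, ← sub_eq_zero, ← fm_sub, h.fm_self]

theorem Ten.exists_qf [Nonempty κ] [Nonempty β] (h2 : (2 : F) = 0)
    (h : Ten (RingHom.id F) G H e P G₁ G₂ ε₁ ε₂) (h₁ : Alt G₁) (h₂ : Alt G₂)
    (hH : H ≤ isom (RingHom.id F) G) :
    ∃ Q, QF Q G ∧ H ≤ isometryGroup F Q ∧ ∀ (x : κ → F) (y : β → F),
      Q ((P : Matrix ι ι F) *ᵥ ((fun p : κ × β => x p.1 * y p.2) ∘ e)) = 0 := by
  obtain ⟨U, hU⟩ := h₁.exists_add_transpose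
  have hs : G₂ᵀ = G₂ := h₂.1.trans (neg_eq_of_two h2 _)
  rw [sub_eq_add_neg, neg_eq_of_two h2] at hU
  have hG : G = trF (RingHom.id F) e P (G₁ ⊗ₖ G₂) := by rw [← h.eq, trF_unF]
  have hu : IsUnit G := by
    rw [hG]; exact isUnit_trF _ _ (isUnit_kronecker h.hf₁.unit h.hf₂.unit)
  have h0 : trF (RingHom.id F) e P (U ⊗ₖ G₂) + (trF (RingHom.id F) e P (U ⊗ₖ G₂))ᵀ = G := by
    have h3 := trF_conj (σ := RingHom.id F) (fun _ => rfl) e P (U ⊗ₖ G₂)
    simp only [RingHom.coe_id, Matrix.map_id] at h3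
    rw [h3, hG, ← hU, ← Matrix.kroneckerMap_transpose, hs, Matrix.add_kronecker, trF_add]
  refine ⟨_, qf_fm h0 hu, fun g hg => ?_, fun x y => ?_⟩
  · obtain ⟨a, b, hab⟩ := h.le hg
    obtain ⟨d, hd, h3, h4⟩ := h.exists_pull (a := a) (b := b) one_ne_zero
      (by rw [one_smul, ← hab]; exact mem_isom.1 (hH hg))
    rw [hab]
    refine mem_isometryGroup_trG ?_
    rw [coe_kronG, pull_kronecker, h4, Matrix.kronecker_smul, ← Matrix.smul_kronecker, mul_one]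
    exact alt_pull_sub_kronecker h2 hd (by rw [hU, h3]) h₂
  · beta_reduce
    rw [fm_unF, unF_trF, fm_kronecker, h₂.fm_self, mul_zero]

/-! ### classification of forms in matrix terms -/

theorem exists_GL_of_equiv (φ : (ι → F) ≃ₗ[F] (ι → F)) :
    ∃ T : GL ι F, ∀ v, (T : Matrix ι ι F) *ᵥ v = φ v :=
  ⟨⟨LinearMap.toMatrix' φ.toLinearMap, LinearMap.toMatrix' φ.symm.toLinearMap,
    by rw [← LinearMap.toMatrix'_mul]; simp [Module.End.mul_eq_comp],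
    by rw [← LinearMap.toMatrix'_mul]; simp [Module.End.mul_eq_comp]⟩, fun v => by simp⟩

theorem HF.isForm (h : HF σ G 1) (hne : ∃ a, σ a ≠ a) :
    H11.IsForm 1 1 (H11.trHom σ) (fmB σ G) fun x => fmB σ G x x :=
  H11.isForm_herm (by rintro rfl; simp at hne) h.inv ⟨fun x y => by simp [h.swap]⟩

theorem HF.exists_pull_eq_one [Finite F] (h : HF σ G 1) (hne : ∃ a, σ a ≠ a) :
    ∃ T : GL ι F, H26.pull σ G T = 1 := by
  obtain ⟨b, hb⟩ := H11.exists_orthonormal_basis (by rintro rfl; simp at hne) (h.isForm hne) h.sep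
    (Module.finrank_fintype_fun_eq_card F)
  obtain ⟨T, hT⟩ := exists_GL_of_equiv ((Pi.basisFun F ι).equiv b (Fintype.equivFin ι))
  refine ⟨T, ?_⟩
  ext i j
  rw [← fm_single σ (H26.pull σ G T), ← fm_pull, hT, hT, ← Pi.basisFun_apply, ← Pi.basisFun_apply,
    Module.Basis.equiv_apply, Module.Basis.equiv_apply, ← fmB_apply, hb, Matrix.one_apply]
  simp [eq_comm]

theorem HF.exists_pull_eq [Finite F] {G' : Matrix ι ι F} (h : HF σ G 1) (h' : HF σ G' 1)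
    (hne : ∃ a, σ a ≠ a) : ∃ T : GL ι F, H26.pull σ G T = G' := by
  obtain ⟨T, hT⟩ := h.exists_pull_eq_one hne
  obtain ⟨T', hT'⟩ := h'.exists_pull_eq_one hne
  exact ⟨T * T'⁻¹, by rw [Units.val_mul, pull_mul, hT, ← hT', ← pull_mul]; simp⟩

theorem HF.qf (h2 : (2 : F) ≠ 0) (h : HF (RingHom.id F) G 1) :
    QF (fun v => fm (RingHom.id F) G v v / 2) G :=
  ⟨fun c v => by rw [fm_self_smul]; ring, fun u v => by
    have := h.swap u v
    rw [fm_add_left, fm_add_right, fm_add_right, RingHom.id_apply, one_mul] at *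
    rw [this]; field_simp; ring, h.unit⟩

theorem HF.exists_pull_eq_smul [Finite F] (h2 : (2 : F) ≠ 0) {G' : Matrix ι ι F}
    (h : HF (RingHom.id F) G 1) (h' : HF (RingHom.id F) G' 1) (ho : Odd (Fintype.card ι)) :
    ∃ (c : F) (T : GL ι F), c ≠ 0 ∧ H26.pull (RingHom.id F) G T = c • G' := by
  obtain ⟨c, φ, hc, h1, -⟩ := (h'.qf h2).isQuad.exists_equiv_of_odd h'.sep (h.qf h2).isQuad h.sep
    (by simpa using ho) rfl
  obtain ⟨T, hT⟩ := exists_GL_of_equiv φ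
  exact ⟨c, T, hc, eq_of_fm_eq (σ := RingHom.id F) fun u v => by
    rw [← fm_pull, hT, hT, fm_smul]; exact h1 v u⟩

end Cfsg.Agent.H26
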