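import Mathlib
import Cfsg.Agent.H26.TenF

/-! Tensor powers and subfield structures relative to a form. -/

set_option autoImplicit false
set_option maxHeartbeats 400000

namespace Cfsg.Agent.H26

open Matrix Cfsg.Geo
open scoped Kronecker

variable {ι κ β : Type} [Fintype ι] [DecidableEq ι] [Fintype κ] [DecidableEq κ]
  [Fintype β] [DecidableEq β] {F : Type*} [Field F] {σ : F →+* F} {G : Matrix ι ι F} {ε : F}
  {T : Type} [Fintype T] [DecidableEq T]

theorem hf_tpw (hσ : ∀ a, σ (σ a) = a) {G : T → Matrix κ κ F} {ε : T → F}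
    (h : ∀ i, HF σ (G i) (ε i)) : HF σ (tpw G) (∏ i, ε i) :=
  ⟨hσ, isUnit_tpw fun i => (h i).unit, by
    rw [tpw_map, tpw_transpose, ← tpw_smul]; simp only [(h _).herm]⟩

theorem adj_tpw (hσ : ∀ a, σ (σ a) = a) {G : T → Matrix κ κ F} {ε : T → F}
    (h : ∀ i, HF σ (G i) (ε i)) (x : T → Matrix κ κ F) :
    adj σ (tpw G) (tpw x) = tpw fun i => adj σ (G i) (x i) :=
  (hf_tpw hσ h).adj_eq' (by
    rw [tpw_map, tpw_transpose, ← map_mul, ← map_mul]
    congr 1
    ext1 i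
    exact ((h i).mul_adj _).symm)

/-- a tensor power decomposition of the form `G` preserved by `H` -/
structure Wr (σ : F →+* F) (G : Matrix ι ι F) (H : Subgroup (GL ι F)) (e : ι ≃ (T → κ))
    (P : GL ι F) (c : F) (G₀ : Matrix κ κ F) (ε₀ : F) : Prop where
  hf : HF σ G₀ ε₀
  ne : c ≠ 0
  eq : unF σ e P G = c • tpw fun _ : T => G₀
  mem : ∀ h ∈ H, ∃ (τ : Equiv.Perm T) (a : T → GL κ F), h = trG e P (facPerm κ F τ * tpwG a)

section wr
variable {H : Subgroup (GL ι F)} {e : ι ≃ (T → κ)} {P : GL ι F} {c : F} {G₀ : Matrix κ κ F} {ε₀ : F}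

theorem Wr.eps [Nonempty κ] (h : Wr σ G H e P c G₀ ε₀) (hG : HF σ G ε) :
    σ c * ε₀ ^ Fintype.card T / c = ε := by
  have := (hf_tpw h.hf.inv (T := T) fun _ => h.hf).smul h.ne
  rw [← h.eq, Finset.prod_const, Finset.card_univ] at this
  exact this.eps_unique (hG.unF e P)

theorem Wr.eps_id [Nonempty κ] (h : Wr (RingHom.id F) G H e P c G₀ ε₀)
    (hG : HF (RingHom.id F) G ε) : ε₀ ^ Fintype.card T = ε := by
  rw [← h.eps hG, RingHom.id_apply, mul_div_cancel_left₀ _ h.ne]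

theorem Wr.smul (h : Wr σ G H e P c G₀ ε₀) {d : F} (hd : d ≠ 0) :
    Wr σ G H e P (c / d ^ Fintype.card T) (d • G₀) (σ d * ε₀ / d) :=
  ⟨h.hf.smul hd, div_ne_zero h.ne (pow_ne_zero _ hd), by
    rw [h.eq, tpw_smul (fun _ => d), Finset.prod_const, Finset.card_univ, smul_smul,
      div_mul_cancel₀ _ (pow_ne_zero _ hd)], h.mem⟩

end wr

theorem Wr.le {t k : ℕ} {H : Subgroup (GL ι F)} {e : ι ≃ (Fin t → Fin k)} {P : GL ι F} {c : F}
    {G₀ : Matrix (Fin k) (Fin k) F} {ε₀ : F} (h : Wr σ G H e P c G₀ ε₀) :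
    H ≤ tensorWreathSubgroup k t e P := by
  intro g hg
  obtain ⟨τ, a, ha⟩ := h.mem g hg
  rw [mem_tensorWreathSubgroup, ha, MulEquiv.symm_apply_apply]
  exact mem_tensorWreathStandard_of τ a

theorem Wr.isTensorPowerFormStructure {t k : ℕ} {H : Subgroup (GL ι F)} {e : ι ≃ (Fin t → Fin k)}
    {P : GL ι F} {c : F} {G₀ : Matrix (Fin k) (Fin k) F} {ε₀ : F} (h : Wr σ G H e P c G₀ ε₀) :
    IsTensorPowerFormStructure σ (fm σ G) (fm σ G₀) e P :=
  ⟨c, h.ne, fun x y => by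
    rw [fm_unF, h.eq, fm_smul, fm_eq_sum, gramMatrix_fm]; rfl⟩

theorem unF_trans (e : ι ≃ κ) (φ : κ ≃ β) (P : GL ι F) :
    unF σ (e.trans φ) P G = (unF σ e P G).submatrix φ.symm φ.symm := rfl

theorem Ten.wr {H : Subgroup (GL ι F)} {e : ι ≃ κ × κ} {P : GL ι F} {G₀ : Matrix κ κ F} {c ε₁ ε₂ : F}
    (h : Ten σ G H e P (c • G₀) G₀ ε₁ ε₂) (hc : c ≠ 0) :
    Wr σ G H (e.trans (finTwoArrowEquiv κ).symm) P c G₀ ε₂ :=
  ⟨h.hf₂, hc, by
    rw [unF_trans, h.eq, Matrix.smul_kronecker]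
    ext a b
    simp [tpw_apply, finTwoArrowEquiv], fun g hg => by
    obtain ⟨a, b, hab⟩ := mem_tenG.1 (h.le hg)
    exact ⟨1, _, eq_trG_wreath_of_kronecker e P g a b hab⟩⟩

theorem trG_tpwG (e : ι ≃ (T → κ)) (P : GL ι F) (i : T) (a : T → GL κ F) :
    trG e P (tpwG a) = trG (e.trans (Equiv.funSplitAt i κ)) P
      (kronG (a i) (tpwG fun j : {j // j ≠ i} => a j)) :=
  Units.ext (by rw [coe_trG, coe_trG, coe_tpwG, trA_tpw e P i, coe_kronG, coe_tpwG])

theorem facG_eq_tpwG (i : T) (x : GL κ F) : facG i x = tpwG (Pi.mulSingle i x : T → GL κ F) :=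
  Units.ext (by
    rw [coe_facG, coe_tpwG, fac_apply]
    congr 1
    ext1 j
    exact (Pi.apply_mulSingle (fun _ (g : GL κ F) => (g : Matrix κ κ F)) (fun _ => rfl) i x j).symm)

theorem trG_facG (e : ι ≃ (T → κ)) (P : GL ι F) (i : T) (x : GL κ F) :
    trG e P (facG i x) = trG (e.trans (Equiv.funSplitAt i κ)) P (kronG x 1) := by
  rw [facG_eq_tpwG, trG_tpwG e P i, Pi.mulSingle_eq_same, ← tpwG_one]
  congr 3
  ext1 j
  exact Pi.mulSingle_eq_of_ne j.2 _

theorem unF_split (e : ι ≃ (T → κ)) (P : GL ι F) (i : T) {c : F} {G₀ : T → Matrix κ κ F}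
    (h : unF σ e P G = c • tpw G₀) : unF σ (e.trans (Equiv.funSplitAt i κ)) P G =
      (c • G₀ i) ⊗ₖ tpw fun j : {j // j ≠ i} => G₀ j := by
  rw [unF_trans, h, tpw_eq_kronecker i, Matrix.smul_kronecker]
  ext a b
  simp

section ind
variable {H N : Subgroup (GL ι F)} {t m : ℕ} {e : ι ≃ (Fin t → Fin m)} {P : GL ι F}
  {L : Subgroup (GL (Fin m) F)}

theorem TensorInd.le_tenG (h : TensorInd H N t m e P L) (i : Fin t) :
    N ≤ tenG (e.trans (Equiv.funSplitAt i (Fin m))) P :=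
  h.gen _ fun j x _ => ⟨_, _, by rw [facG_eq_tpwG, trG_tpwG e P i]⟩

theorem TensorInd.exists_wr (h : TensorInd H N t m e P L) (hG : HF σ G ε) (hN : N ≤ isom σ G) :
    ∃ (c : F) (G₀ : Matrix (Fin m) (Fin m) F) (ε₀ : F), Wr σ G H e P c G₀ ε₀ ∧ L ≤ isom σ G₀ := by
  have h1 := h.two_le_m
  have h2 := h.two_le_t
  have : Nonempty (Fin m) := ⟨⟨0, by omega⟩⟩
  have : Nonempty ι := ⟨e.symm (Classical.arbitrary _)⟩
  let i : Fin t := ⟨0, by omega⟩
  have h3 : ∀ x ∈ L, kronG x 1 ∈ isom σ (unF σ (e.trans (Equiv.funSplitAt i (Fin m))) P G) :=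
    fun x hx => by rw [← trG_mem_isom, ← trG_facG]; exact hN (h.mem i x hx)
  have h4 := hG.unF (e.trans (Equiv.funSplitAt i (Fin m))) P
  obtain ⟨G₁, G₂, ε₁, ε₂, h5, h6, h7⟩ := h4.exists_kronecker fun x => by
    refine spanAlg_induction (p := fun x => ∃ y, adj σ _ (x ⊗ₖ (1 : Matrix _ _ F)) =
      y ⊗ₖ (1 : Matrix _ _ F)) ?_ ?_ ?_ ?_ (h.spanL.ge (Algebra.mem_top (x := x)))
    · intro g hg
      have := h4.adj_isom (h3 g hg)
      rw [← kronG_inv, inv_one, coe_kronG, coe_kronG, Units.val_one] at this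
      exact ⟨_, this⟩
    · exact ⟨0, by rw [Matrix.zero_kronecker, adj_zero]⟩
    · rintro x y ⟨x', hx⟩ ⟨y', hy⟩
      exact ⟨x' + y', by rw [Matrix.add_kronecker, adj_add, hx, hy, Matrix.add_kronecker]⟩
    · rintro c x ⟨x', hx⟩
      exact ⟨σ c • x', by rw [Matrix.smul_kronecker, adj_smul, hx, Matrix.smul_kronecker]⟩
  have h8 : L ≤ isom σ G₁ := fun x hx => by
    have h9 := mem_isom.1 (h3 x hx)
    rw [h7, coe_kronG] at h9
    obtain ⟨d, hd, h10, h11⟩ := sim_of_kronecker h5.unit h6.unit one_ne_zero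
      (h9.trans (one_smul _ _).symm)
    rw [Units.val_one, pull_one, mul_one] at h11
    have h12 : d⁻¹ = 1 := smul_left_injective F h6.unit.ne_zero
      (h11.symm.trans (one_smul _ _).symm)
    rw [mem_isom, h10, inv_eq_one.1 h12, one_smul]
  obtain ⟨c, hc⟩ := eq_smul_of_isom h.span
    (isUnit_trF (σ := σ) e P (isUnit_tpw fun _ : Fin t => h5.unit)) (h.gen _ fun j x hx => by
      rw [trG_mem_isom, unF_trF, mem_isom, facG_eq_tpwG, coe_tpwG, pull_tpw]
      congr 1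
      ext1 k
      by_cases hk : k = j
      · subst hk; rw [Pi.mulSingle_eq_same]; exact mem_isom.1 (h8 hx)
      · rw [Pi.mulSingle_eq_of_ne hk, Units.val_one, pull_one]) hN
  exact ⟨c, G₁, ε₁, ⟨h5, by rintro rfl; exact hG.unit.ne_zero (hc.trans (zero_smul _ _)),
    by rw [hc, unF_smul, unF_trF], h.wreath⟩, h8⟩

theorem alt_smul {G : Matrix ι ι F} (h : Alt G) (c : F) : Alt (c • G) :=
  ⟨by rw [Matrix.transpose_smul, h.1, smul_neg], fun i => by simp [h.2]⟩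

theorem alt_tpw (h2 : (2 : F) = 0) [Nonempty T] {G : T → Matrix κ κ F} (h : ∀ i, Alt (G i)) :
    Alt (tpw G) :=
  ⟨by rw [neg_eq_of_two h2, tpw_transpose]; simp only [(h _).1, neg_eq_of_two h2], fun a => by
    rw [tpw_apply]
    exact Finset.prod_eq_zero (Finset.mem_univ (Classical.arbitrary T)) ((h _).2 _)⟩

theorem TensorInd.ten (h : TensorInd H N t m e P L) {c ε₀ : F} {G₀ : Matrix (Fin m) (Fin m) F}
    (hw : Wr σ G H e P c G₀ ε₀) (i : Fin t) :
    Ten σ G N (e.trans (Equiv.funSplitAt i (Fin m))) P (c • G₀)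
      (tpw fun _ : {j // j ≠ i} => G₀) (σ c * ε₀ / c) (∏ _ : {j // j ≠ i}, ε₀) :=
  ⟨hw.hf.smul hw.ne, hf_tpw hw.hf.inv fun _ => hw.hf, unF_split e P i hw.eq, h.le_tenG i⟩

end ind

/-! ### subfields -/

theorem map_mem_subfield [Finite F] (σ : F →+* F) {F₀ : Subfield F} {x : F} (hx : x ∈ F₀) :
    σ x ∈ F₀ := by
  rw [mem_subfield_iff_pow_card] at hx ⊢
  rw [← map_pow, hx]

theorem HF.adj_cj' (h : HF σ G ε) (P : GL ι F) (y : Matrix ι ι F) :
    adj σ G (cj P y) = cj P (adj σ (H26.pull σ G P) y) :=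
  h.adj_eq fun u v => by
    rw [← mulVec_inv_mulVec P u, ← mulVec_inv_mulVec P v, cj_mulVec, cj_mulVec, fm_pull, fm_pull,
      (h.pull P.isUnit).fm_adj]

theorem HF.exists_rat [Finite F] [Nonempty ι] (h : HF σ G ε) {F₀ : Subfield F} {P : GL ι F}
    (hadj : ∀ x, (∀ i j, cj P⁻¹ x i j ∈ F₀) → ∀ i j, cj P⁻¹ (adj σ G x) i j ∈ F₀) :
    ∃ c : F, c ≠ 0 ∧ ∀ i j, c * H26.pull σ G P i j ∈ F₀ := by
  have h' := h.pull P.isUnit
  refine exists_smul_mem_of_normalizes F₀ _ (h'.unit.unit⁻¹ : GL ι F) (Units.ne_zero _)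
    fun i j a b => ?_
  have h1 := hadj (cj P (single i j 1)) (by simpa using single_mem_subfield F₀ i j) b a
  rw [h.adj_cj', cj_inv_cj] at h1
  have h2 := h'.mul_adj (adj σ (H26.pull σ G P) (single i j 1))
  rw [h'.adj_adj, Matrix.map_single, map_one] at h2
  rw [h2, mul_assoc, IsUnit.mul_val_inv, mul_one]
  exact h1

/-- the raw subfield case -/
def SubCase [Fintype F] (σ : F →+* F) (G : Matrix ι ι F) (H : Subgroup (GL ι F)) : Prop :=
  ∃ (F₀ : Subfield F) (r : ℕ) (P : GL ι F) (c : F), r.Prime ∧ Fintype.card F = Nat.card F₀ ^ r ∧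
    c ≠ 0 ∧ (∀ i j, c * pull σ G P i j ∈ F₀) ∧ H ≤ subfieldSubgroup F₀ P

theorem HF.subCase [Fintype F] [Nonempty ι] (h : HF σ G ε) {H N : Subgroup (GL ι F)} (hHN : Nrm H N)
    (hN : spanAlg N = ⊤) (hi : N ≤ isom σ G) {F₀ : Subfield F} (h0 : F₀ ≠ ⊤)
    (htr : ∀ g ∈ N, (g : Matrix ι ι F).trace ∈ F₀) : SubCase σ G H := by
  obtain ⟨F₁, r, P, hr, hc, h1, h2⟩ := subfield_case hHN hN h0 htr
  obtain ⟨c, hc0, h3⟩ := h.exists_rat (F₀ := F₁) (P := P) fun x hx => (h1 _).1 (by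
    refine spanAlg₀_induction (p := fun x => adj σ G x ∈ spanAlg₀ F₁ N) ?_ ?_ ?_ ?_ ((h1 x).2 hx)
    · intro g hg
      rw [h.adj_isom (hi hg)]
      exact coe_mem_spanAlg₀ (N.inv_mem hg)
    · rw [adj_zero]; exact zero_mem _
    · intro x y hx hy; rw [adj_add]; exact add_mem hx hy
    · intro c hc x hx; rw [adj_smul]; exact smul_mem_spanAlg₀ (map_mem_subfield σ hc) hx)
  exact ⟨F₁, r, P, c, hr, hc, hc0, h3, h2⟩

theorem fm_mem_subfield [Finite F] {F₀ : Subfield F} (h : ∀ i j, G i j ∈ F₀) {u v : ι → F}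
    (hu : ∀ i, u i ∈ F₀) (hv : ∀ i, v i ∈ F₀) : fm σ G u v ∈ F₀ := by
  rw [fm_eq_sum]
  exact sum_mem fun i _ => sum_mem fun j _ =>
    mul_mem (mul_mem (hu i) (h i j)) (map_mem_subfield σ (hv j))

theorem isFormRationalStructure_fm [Finite F] {F₀ : Subfield F} {P : GL ι F} {c : F}
    (h : ∀ i j, c * pull σ G P i j ∈ F₀) : IsFormRationalStructure (fm σ G) F₀ c P :=
  fun u v hu hv => by
    rw [fm_pull, ← fm_smul]
    exact fm_mem_subfield h hu hv

theorem cj_smul (s : Fˣ) (P : GL ι F) (x : Matrix ι ι F) : cj (s • P) x = cj P x := by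
  rw [cj_apply, Units.mul_inv_eq_iff_eq_mul, Units.val_smul, Matrix.mul_smul, cj_mul_coe,
    Matrix.smul_mul]

theorem subfieldSubgroup_smul [Nonempty ι] (F₀ : Subfield F) (s : Fˣ) (P : GL ι F) :
    subfieldSubgroup F₀ (s • P) = subfieldSubgroup F₀ P := by
  ext h
  simp only [mem_subfieldSubgroup_iff, smul_inv', Units.smul_inv, cj_smul]

theorem subfieldSubgroup_mono [Nonempty ι] {F₀ F₁ : Subfield F} (h : F₀ ≤ F₁) (P : GL ι F) :
    subfieldSubgroup F₀ P ≤ subfieldSubgroup F₁ P := fun g hg => by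
  obtain ⟨c, hc, h1⟩ := (mem_subfieldSubgroup_iff _ _ _).1 hg
  exact (mem_subfieldSubgroup_iff _ _ _).2 ⟨c, hc, fun i j => h (h1 i j)⟩

theorem pull_units_smul (s : Fˣ) (P : GL ι F) :
    pull σ G (s • P : GL ι F) = (s * σ s) • pull σ G P := by
  rw [Units.val_smul, Units.smul_def, pull_smul_right]

theorem subfield_eq_of_card [Finite F] {F₀ F₁ : Subfield F} (h : Nat.card F₀ = Nat.card F₁) :
    F₀ = F₁ := by
  ext x; rw [mem_subfield_iff_pow_card, mem_subfield_iff_pow_card, h]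

theorem alt_pull {G : Matrix ι ι F} (h : Alt G) (x : Matrix ι ι F) :
    Alt (pull (RingHom.id F) G x) := alt_of_fm_self fun v => by rw [← fm_pull, h.fm_self]

theorem pull_cj_inv (P g : GL ι F) : pull σ (pull σ G P) (cj P⁻¹ g) = pull σ (pull σ G g) P := by
  rw [← pull_mul, ← pull_mul, cj_apply, inv_inv, ← mul_assoc, ← mul_assoc, Units.mul_inv, one_mul]

theorem HF.exists_entry_ne_zero [Nonempty ι] (h : HF σ G ε) : ∃ i j, G i j ≠ 0 := by
  by_contra! h0
  exact h.unit.ne_zero (Matrix.ext h0)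

theorem HF.eps_mem [Finite F] [Nonempty ι] (h : HF σ G ε) {F₀ : Subfield F} (h0 : ∀ i j, G i j ∈ F₀) :
    ε ∈ F₀ := by
  obtain ⟨i, j, hij⟩ := h.exists_entry_ne_zero
  have h1 : σ (G j i) = ε * G i j := congrFun (congrFun h.herm i) j
  rw [eq_div_of_mul_eq hij h1.symm]
  exact div_mem (map_mem_subfield σ (h0 j i)) (h0 i j)

theorem SubCase.unitary [Fintype F] (hG : HF σ G 1) (hne : ∃ a, σ a ≠ a) {H : Subgroup (GL ι F)}
    (hirr : Irr H) (hn : 2 ≤ Fintype.card ι) (hH : H ≤ similarityGroup (fm σ G))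
    (h : SubCase σ G H) :
    (∃ (F₀ : Subfield F) (r : ℕ) (P : GL ι F), r.Prime ∧ Odd r ∧ Fintype.card F = Nat.card F₀ ^ r ∧
      IsFormRationalStructure (fm σ G) F₀ 1 P ∧ H ≤ subfieldSubgroup F₀ P) ∨
    (∃ (F₀ : Subfield F) (P : GL ι F), Odd (Fintype.card F) ∧ Fintype.card F = Nat.card F₀ ^ 2 ∧
      IsFormRationalStructure (fm σ G) F₀ 1 P ∧ H ≤ subfieldSubgroup F₀ P) ∨
    ∃ (F₀ : Subfield F) (P : GL ι F) (ζ : F), Even (Fintype.card ι) ∧
      Fintype.card F = Nat.card F₀ ^ 2 ∧ ζ ≠ 0 ∧ ζ + σ ζ = 0 ∧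
      IsFormRationalStructure (fm σ G) F₀ ζ P ∧
      (∀ u : ι → F, (∀ i, u i ∈ F₀) →
        fm σ G ((P : Matrix ι ι F) *ᵥ u) ((P : Matrix ι ι F) *ᵥ u) = 0) ∧
      H ≤ subfieldSubgroup F₀ P := by
  have : Nonempty ι := Fintype.card_pos_iff.1 (by omega)
  obtain ⟨F₀, r, P, c, hr, hc, hc0, h1, h2⟩ := h
  have hcard := card_eq_sq_of_invol hG.inv hne
  rw [Nat.card_eq_fintype_card] at hcard
  have h3 := (hG.pull P.isUnit).smul hc0
  have key : ∀ (F₁ : Subfield F) (a : F), a ≠ 0 → σ a = a → (∀ i j, a * pull σ G P i j ∈ F₁) →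
      H ≤ subfieldSubgroup F₁ P →
      ∃ P', IsFormRationalStructure (fm σ G) F₁ 1 P' ∧ H ≤ subfieldSubgroup F₁ P' := by
    intro F₁ a ha h4 h5 h6
    obtain ⟨s, hs⟩ := H11.exists_norm_eq (by rintro rfl; simp at hne) hG.inv h4
    refine ⟨Units.mk0 s (by rintro rfl; simp [ha.symm] at hs) • P,
      isFormRationalStructure_fm fun i j => ?_, by rwa [subfieldSubgroup_smul]⟩
    rw [pull_units_smul, Units.val_mk0, mul_comm s, hs, one_mul]
    exact h5 i j
  by_cases h4 : ∃ a ∈ F₀, σ a ≠ a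
  · left
    obtain ⟨d, hd, hd0, h5⟩ := exists_hilbert90 hG.inv F₀ (fun _ => map_mem_subfield σ) h4
      (h3.eps_mem h1) h3.eps
    obtain ⟨P', h6, h7⟩ := key F₀ (d * c) (mul_ne_zero hd0 hc0)
      (by rw [map_mul]; field_simp at h5; linear_combination h5)
      (fun i j => by rw [mul_assoc]; exact mul_mem hd (h1 i j)) h2
    refine ⟨F₀, r, P', hr, hr.odd_of_ne_two ?_, hc, h6, h7⟩
    rintro rfl
    obtain ⟨a, ha, h8⟩ := h4
    rw [subfield_eq_of_card (Nat.pow_left_injective two_ne_zero (hc.symm.trans hcard))] at ha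
    exact h8 ha
  right
  push Not at h4
  replace h1 : ∀ i j, (c • pull σ G P) i j ∈ fixF σ := fun i j => h4 _ (h1 i j)
  replace h2 := h2.trans (subfieldSubgroup_mono (F₁ := fixF σ) h4 P)
  have hmap : ∀ x : Matrix ι ι F, (∀ i j, x i j ∈ fixF σ) → x.map σ = x := fun x hx =>
    Matrix.ext hx
  have h5 : HF (RingHom.id F) (c • pull σ G P) (σ c * 1 / c) :=
    ⟨fun _ => rfl, h3.unit, by
      have := h3.herm
      rw [hmap _ h1] at this
      simpa using this⟩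
  have h6 := h5.pull (P⁻¹).isUnit
  have h7 : pull (RingHom.id F) (pull (RingHom.id F) (c • pull σ G P) (P⁻¹ : GL ι F)) P =
      c • pull σ G P := by rw [← pull_mul, Units.inv_mul, pull_one]
  rcases alt_or_symm hirr hn h6.symm_or_skew (fun g hg => by
    obtain ⟨l, hl, h8⟩ := (mem_subfieldSubgroup_iff _ _ _).1 (h2 hg)
    obtain ⟨d, hd, h9⟩ := mem_similarityGroup_fm.1 (hH hg)
    refine mem_similarityGroup_fm.2 ⟨σ l * d / l, by simp [hl, hd], ?_⟩
    have h10 : ∀ B, pull (RingHom.id F) B (l • cj P⁻¹ g) = pull σ B (l • cj P⁻¹ g) := fun B => by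
      rw [pull, pull, hmap (l • cj P⁻¹ g) h8, RingHom.coe_id, Matrix.map_id]
    replace h10 := h10 (c • pull σ G P)
    rw [pull_smul_right, pull_smul_right, pull_smul σ, pull_cj_inv, h9, pull_smul σ, smul_comm c d,
      smul_smul _ d, RingHom.id_apply] at h10
    rw [← pull_mul, ← cj_mul_coe, pull_mul, ← pull_smul (RingHom.id F) (σ l * d / l),
      (eq_inv_smul_iff₀ (mul_ne_zero hl hl)).2 h10, smul_smul]
    congr 2
    field_simp) with h8 | ⟨h8, h9⟩
  · right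
    have h9 := alt_pull h8 P
    rw [h7] at h9
    have h10 := h5.eps_unique (hf_alt h9 h5.unit)
    refine ⟨_, P, c, h9.even_card' h5.unit, hcard, hc0, ?_, isFormRationalStructure_fm h1,
      fun u hu => ?_, h2⟩
    · field_simp at h10
      linear_combination h10
    · have h11 := h9.fm_self u
      rw [fm_smul, fm, show (RingHom.id F) ∘ u = σ ∘ u from funext fun i => (hu i).symm] at h11
      rw [fm_pull]
      exact (mul_eq_zero.1 h11).resolve_left hc0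
  · left
    have h10 := h6.eps_unique (hf_symm h9 h6.unit)
    obtain ⟨P', h11, h12⟩ := key _ c hc0 (by field_simp at h10; exact h10) h1 h2
    exact ⟨_, P', h8, hcard, h11, h12⟩

theorem det_mem_subfield {F₀ : Subfield F} {x : Matrix ι ι F} (h : ∀ i j, x i j ∈ F₀) :
    x.det ∈ F₀ := by
  rw [Matrix.det_apply']
  exact sum_mem fun _ _ => mul_mem (intCast_mem _ _) (prod_mem fun _ _ => h _ _)

theorem det_pull_id (G x : Matrix ι ι F) : (pull (RingHom.id F) G x).det = x.det ^ 2 * G.det := by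
  simp only [pull, RingHom.coe_id, Matrix.map_id, Matrix.det_mul, Matrix.det_transpose]; ring

theorem SubCase.orth_odd [Fintype F] {Q : (ι → F) → F} (hQ : QF Q G) (h2 : (2 : F) ≠ 0)
    (ho : Odd (Fintype.card ι)) (hd : ∀ F₀ : Subfield F, G.det ∈ F₀) {H : Subgroup (GL ι F)}
    (h : SubCase (RingHom.id F) G H) :
    ∃ (F₀ : Subfield F) (r : ℕ) (P : GL ι F), r.Prime ∧ Fintype.card F = Nat.card F₀ ^ r ∧
      IsQuadFormRationalStructure Q F₀ P ∧ H ≤ subfieldSubgroup F₀ P := by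
  have : Nonempty ι := Fintype.card_pos_iff.1 ho.pos
  obtain ⟨F₀, r, P, c, hr, hc, hc0, h1, h3⟩ := h
  obtain ⟨k, hk⟩ := ho
  have h4 := det_mem_subfield (x := c • pull (RingHom.id F) G P) h1
  rw [Matrix.det_smul, det_pull_id, hk] at h4
  have h5 : G.det ≠ 0 := ((Matrix.isUnit_iff_isUnit_det _).1 hQ.unit).ne_zero
  have h6 : (P : Matrix ι ι F).det ≠ 0 := (Matrix.isUnits_det_units P).ne_zero
  have h7 : c ^ k * (P : Matrix ι ι F).det ≠ 0 := mul_ne_zero (pow_ne_zero _ hc0) h6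
  refine ⟨F₀, r, (Units.mk0 _ h7)⁻¹ • P, hr, hc, fun u hu => ?_, by rwa [subfieldSubgroup_smul]⟩
  have h8 := isFormRationalStructure_fm h1 u u hu hu
  rw [hQ.diag] at h8
  rw [Units.val_smul, Units.smul_def, Matrix.smul_mulVec, hQ.smul]
  convert div_mem (mul_mem h8 (hd F₀)) (mul_mem h4 (natCast_mem F₀ 2)) using 1
  simp only [Units.val_inv_eq_inv_val, Units.val_mk0, Nat.cast_ofNat]
  field_simp
  ring

theorem SubCase.quad [Fintype F] {Q : (ι → F) → F} (hQ : QF Q G) {H : Subgroup (GL ι F)}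
    (hirr : Irr H) (hn : 2 ≤ Fintype.card ι) (hH : H ≤ isometryGroup F Q)
    (h : SubCase (RingHom.id F) G H) :
    ∃ (F₀ : Subfield F) (r : ℕ) (P : GL ι F) (c : F), r.Prime ∧ Fintype.card F = Nat.card F₀ ^ r ∧
      c ≠ 0 ∧ (∀ i j, c * pull (RingHom.id F) G P i j ∈ F₀) ∧
      IsQuadFormRationalStructure (fun v => c * Q v) F₀ P ∧ H ≤ subfieldSubgroup F₀ P := by
  have : Nonempty ι := Fintype.card_pos_iff.1 (by omega)
  obtain ⟨F₀, r, P, c, hr, hc, hc0, h1, h3⟩ := h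
  refine ⟨F₀, r, P, c, hr, hc, hc0, h1, ?_, h3⟩
  obtain ⟨φ₀, hφ₀⟩ := exists_ringHom_pow_card F₀ 1
  let φ : F ≃+* F := RingEquiv.ofBijective φ₀ (Finite.injective_iff_bijective.1 φ₀.injective)
  have hφ : ∀ x, x ∈ F₀ ↔ φ x = x := fun x => by
    rw [mem_subfield_iff_pow_card, ← pow_one (Nat.card F₀), ← hφ₀]; rfl
  have hψ : ∀ x ∈ F₀, φ.symm x = x := fun x hx => by rw [RingEquiv.symm_apply_eq, (hφ x).1 hx]
  have hQ₁ := (hQ.comp P.isUnit).const_mul hc0
  have hmap : ∀ (τ : F →+* F) (x : Matrix ι ι F), (∀ i j, τ (x i j) = x i j) → ∀ u,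
      τ ∘ (x *ᵥ u) = x *ᵥ (τ ∘ u) := fun τ x hx u => by
    rw [comp_mulVec, show x.map τ = x from Matrix.ext hx]
  have hQ₂ : QF (fun v => φ (c * Q ((P : Matrix ι ι F) *ᵥ (φ.symm ∘ v))))
      (c • pull (RingHom.id F) G P) := by
    refine ⟨fun a v => ?_, fun u v => ?_, hQ₁.unit⟩
    · rw [show φ.symm ∘ (a • v) = φ.symm a • (φ.symm ∘ v) from funext fun i => map_mul _ _ _,
        hQ₁.smul]
      simp
    · rw [show φ.symm ∘ (u + v) = φ.symm ∘ u + φ.symm ∘ v from funext fun i => map_add _ _ _,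
        hQ₁.add, map_add, map_add, fm_eq_sum, fm_eq_sum]
      simp [fun i j => (hφ _).1 (h1 i j), -Matrix.smul_apply,
        show ∀ i j, (c • pull (RingHom.id F) G P) i j = c * pull (RingHom.id F) G P i j from
          fun _ _ => rfl, -map_mul, map_mul φ (_ * _), map_mul φ (φ.symm _)]
  have hQ₃ := (hQ₂.comp (P⁻¹).isUnit).const_mul (inv_ne_zero hc0)
  rw [pull_smul, ← pull_mul, Units.mul_inv, pull_one, inv_smul_smul₀ hc0] at hQ₃
  have h4 := hQ₃.unique hQ hirr hn (fun g hg => mem_isometryGroup.2 fun v => by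
    obtain ⟨l, hl, h5⟩ := (mem_subfieldSubgroup_iff _ _ _).1 (h3 hg)
    have h6 : ∀ y, (P : Matrix ι ι F) *ᵥ ((l • cj P⁻¹ g) *ᵥ y) =
        l • (g : Matrix ι ι F) *ᵥ ((P : Matrix ι ι F) *ᵥ y) := fun y => by
      rw [← cj_mulVec, map_smul, cj_cj_inv, Matrix.smul_mulVec]
    have h7 : l ^ 2 ∈ F₀ := by
      obtain ⟨i, j, hij⟩ := hQ₁.hf.exists_entry_ne_zero
      have h8 := fm_mem_subfield (σ := RingHom.id F) (G := c • pull (RingHom.id F) G P) h1
        (u := (l • cj P⁻¹ g) *ᵥ Pi.single i 1) (v := (l • cj P⁻¹ g) *ᵥ Pi.single j 1)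
        (fun a => by rw [Matrix.mulVec_single_one]; exact h5 a i)
        (fun a => by rw [Matrix.mulVec_single_one]; exact h5 a j)
      rw [fm_smul, ← fm_pull, h6, h6, fm_smul_left, fm_smul_right,
        fm_isom (hQ.isometryGroup_le (hH hg)), fm_pull, fm_single, RingHom.id_apply] at h8
      convert div_mem h8 (h1 i j) using 1
      have : pull (RingHom.id F) G P i j ≠ 0 := right_ne_zero_of_mul hij
      field_simp
    rw [← cj_mulVec, ← inv_smul_smul₀ hl (cj P⁻¹ g), Matrix.smul_mulVec,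
      show ∀ w : ι → F, φ.symm ∘ (l⁻¹ • w) = φ.symm l⁻¹ • (φ.symm ∘ w) from
        fun w => funext fun i => map_mul _ _ _, Matrix.mulVec_smul, hQ.smul]
    have h8 := hmap φ.symm.toRingHom (l • cj P⁻¹ g) fun i j => hψ _ (h5 i j)
    simp only [RingEquiv.toRingHom_eq_coe, RingHom.coe_coe] at h8
    rw [h8, h6, hQ.smul, mem_isometryGroup.1 (hH hg)]
    simp only [map_mul, map_pow φ (φ.symm _), RingEquiv.apply_symm_apply, (hφ _).1 h7]
    field_simp) hH
  intro u hu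
  have h5 := congrFun h4 ((P : Matrix ι ι F) *ᵥ u)
  simp only [inv_mulVec_mulVec, show φ.symm ∘ u = u from funext fun i => hψ _ (hu i)] at h5
  rw [hφ, ← mul_inv_cancel_left₀ hc0 (φ _), h5]

theorem HF.trace_adj (h : HF σ G ε) (x : Matrix ι ι F) : (adj σ G x).trace = σ x.trace := by
  rw [adj, ← AddMonoidHom.map_trace, Matrix.trace_mul_comm, ← mul_assoc,
    Matrix.mul_nonsing_inv _ ((Matrix.isUnit_iff_isUnit_det _).1 h.unit), one_mul,
    Matrix.trace_transpose]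

theorem subCase_of_comm_adj [Fintype F] [Nonempty ι] (h : HF σ G ε) (hne : ∃ a, σ a ≠ a)
    {B : Matrix ι ι F} {ε' : F} (h' : HF (RingHom.id F) B ε')
    (hc : ∀ x, adj (RingHom.id F) B (adj σ G x) = adj σ G (adj (RingHom.id F) B x))
    {H : Subgroup (GL ι F)} (hH : H ≤ similarityGroup (fm σ G))
    (hH' : H ≤ similarityGroup (fm (RingHom.id F) B)) : SubCase σ G H := by
  let A : Subalgebra (fixF σ) (Matrix ι ι F) :=
    { carrier := {x | adj σ G x = adj (RingHom.id F) B x}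
      mul_mem' := fun {a b} ha hb => by
        simp only [Set.mem_ofPred_eq] at ha hb ⊢
        rw [h.adj_mul, h'.adj_mul, ha, hb]
      add_mem' := fun {a b} ha hb => by
        simp only [Set.mem_ofPred_eq] at ha hb ⊢
        rw [adj_add, adj_add, ha, hb]
      algebraMap_mem' := fun c => by
        simp only [Set.mem_ofPred_eq, Algebra.algebraMap_eq_smul_one, Subfield.smul_def]
        rw [adj_smul, adj_smul, h.adj_one, h'.adj_one, mem_fixF.1 c.2, RingHom.id_apply] }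
  have hA : ∀ x, x ∈ A ↔ adj σ G x = adj (RingHom.id F) B x := fun _ => Iff.rfl
  obtain ⟨P, hP⟩ := exists_subfield_form (fixF σ) A (eq_top_iff.2 fun x _ => by
    obtain ⟨a, ha⟩ := hne
    have h1 : ∀ y, y + adj (RingHom.id F) B (adj σ G y) ∈ Submodule.span F (A : Set (Matrix ι ι F)) :=
      fun y => Submodule.subset_span ((hA _).2 (by
        rw [adj_add, adj_add, h'.adj_adj, hc, h.adj_adj, add_comm]))
    have h2 := sub_mem (Submodule.smul_mem _ (σ a) (h1 x)) (h1 (a • x))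
    rw [adj_smul, adj_smul, RingHom.id_apply, smul_add, add_sub_add_right_eq_sub, ← sub_smul] at h2
    exact (Submodule.smul_mem_iff _ (sub_ne_zero.2 ha)).1 h2) fun x hx => by
      rw [mem_fixF, ← h.trace_adj, (hA x).1 hx, h'.trace_adj, RingHom.id_apply]
  obtain ⟨c, hc0, h1⟩ := h.exists_rat (F₀ := fixF σ) (P := P) fun x hx => (hP _).1 ((hA _).2 (by
    rw [h.adj_adj, ((hA _).1 ((hP x).2 hx)), h'.adj_adj]))
  refine ⟨_, 2, P, c, Nat.prime_two, by rw [← card_eq_sq_of_invol h.inv hne, Nat.card_eq_fintype_card],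
    hc0, h1, le_subfieldSubgroup hP fun g hg x hx => (hA _).2 ?_⟩
  rw [h.adj_cj (hH hg), h'.adj_cj (hH' hg), (hA _).1 hx]

theorem adj_J₂ (x : Matrix (Fin 2) (Fin 2) F) :
    adj (RingHom.id F) (J₂ F) x = x.trace • (1 : Matrix (Fin 2) (Fin 2) F) - x :=
  (hf_alt alt_J₂ isUnit_J₂).adj_eq' (by
    ext i j
    fin_cases i <;> fin_cases j <;>
      simp [J₂, Matrix.mul_apply, Fin.sum_univ_two, Matrix.trace_fin_two])

theorem Wr.subCase [Fintype F] {t : ℕ} {H : Subgroup (GL ι F)} {e : ι ≃ (Fin t → Fin 2)} {P : GL ι F}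
    {c ε₀ : F} {G₀ : Matrix (Fin 2) (Fin 2) F} (h : Wr σ G H e P c G₀ ε₀) (hG : HF σ G ε)
    (hne : ∃ a, σ a ≠ a) (hH : H ≤ similarityGroup (fm σ G)) : SubCase σ G H := by
  have : Nonempty ι := ⟨e.symm 0⟩
  obtain ⟨B, hB, h1, h2, h3⟩ := exists_bilin_of_wreath_two e P
  have hB' : HF (RingHom.id F) B ((-1) ^ t) := ⟨fun _ => rfl, hB, by simpa using h1⟩
  refine subCase_of_comm_adj hG hne hB' (fun x => ?_) hH fun g hg => ?_
  · obtain ⟨x, rfl⟩ := (trA e P).surjective x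
    have h4 := hf_tpw (T := Fin t) h.hf.inv fun _ => h.hf
    simp only [hG.adj_trA, hB'.adj_trA, h.eq, h2, adj_smul_left h.ne h4]
    congr 1
    induction x using Matrix.induction_on' with
    | h_zero => simp only [adj_zero]
    | h_add x y hx hy => simp only [adj_add, hx, hy]
    | h_std_basis a b x =>
      rw [show single a b x = x • single a b (1 : F) by simp, ← tpw_single]
      simp only [adj_smul, adj_tpw h.hf.inv fun _ => h.hf,
        adj_tpw (fun _ => rfl) fun _ => hf_alt (alt_J₂ (F := F)) isUnit_J₂, adj_J₂, adj_sub,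
        h.hf.adj_one, h.hf.trace_adj, RingHom.id_apply]
  · obtain ⟨τ, a, ha⟩ := h.mem g hg
    rw [ha]
    exact h3 τ a

end Cfsg.Agent.H26
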