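import Mathlib
import Cfsg.Agent.H26.Rat
import Cfsg.Agent.H6.Frobenius
import Cfsg.Agent.H11.OrthOrder
import Cfsg.Agent.H11.Bridge

/-! Small solvable classical groups, block coordinates relative to a form, frames. -/

set_option autoImplicit false
set_option maxHeartbeats 400000

namespace Cfsg.Agent.H26

open Matrix Cfsg.Geo
open scoped Kronecker

variable {ι κ β : Type} [Fintype ι] [DecidableEq ι] [Fintype κ] [DecidableEq κ]
  [Fintype β] [DecidableEq β] {F : Type*} [Field F] {σ : F →+* F} {G : Matrix ι ι F} {ε : F}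

theorem eq_bot_of_perfect {Γ : Type*} [Group Γ] [Finite Γ] {X L : Subgroup Γ} (hL : L ≤ X)
    (hp : ⁅L, L⁆ = L) (h : ∀ r : ℕ, r.Prime → r ∣ Nat.card X → r = 2 ∨ r = 3) : L = ⊥ := by
  have h1 : Group.IsSolvable L := H6.isSolvable_of_two_primes Nat.prime_two Nat.prime_three
    fun r hr hd => h r hr (hd.trans (Subgroup.card_dvd_of_le hL))
  by_contra h0
  have : Nontrivial L := (Subgroup.nontrivial_iff_ne_bot L).2 h0
  apply (Group.IsSolvable.commutator_lt_top_of_nontrivial L).ne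
  apply Subgroup.map_injective L.subtype_injective
  rw [Subgroup.map_subtype_commutator, hp, ← MonoidHom.range_eq_map, Subgroup.range_subtype]

theorem two_or_three_of_dvd {r a b : ℕ} (hr : r.Prime) (h : r ∣ 2 ^ a * 3 ^ b) : r = 2 ∨ r = 3 :=
  ((Nat.Prime.dvd_mul hr).1 h).imp
    (fun h => (Nat.prime_dvd_prime_iff_eq hr Nat.prime_two).1 (hr.dvd_of_dvd_pow h))
    fun h => (Nat.prime_dvd_prime_iff_eq hr Nat.prime_three).1 (hr.dvd_of_dvd_pow h)

theorem le_isom_of_perfect {L : Subgroup (GL ι F)} (hp : ⁅L, L⁆ = L)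
    (hL : L ≤ similarityGroup (fm σ G)) : L ≤ isom σ G := by
  rw [← hp, Subgroup.commutator_le]
  intro a ha b hb
  obtain ⟨c, hc, h1⟩ := fm_sim (hL ha)
  obtain ⟨d, hd, h2⟩ := fm_sim (hL hb)
  refine mem_isom.2 (eq_of_fm_eq (σ := σ) fun u v => ?_)
  have h3 := h2 (((b⁻¹ : GL ι F) : Matrix ι ι F) *ᵥ u) (((b⁻¹ : GL ι F) : Matrix ι ι F) *ᵥ v)
  have h4 := h1 (((a⁻¹ : GL ι F) : Matrix ι ι F) *ᵥ (((b⁻¹ : GL ι F) : Matrix ι ι F) *ᵥ u))
    (((a⁻¹ : GL ι F) : Matrix ι ι F) *ᵥ (((b⁻¹ : GL ι F) : Matrix ι ι F) *ᵥ v))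
  simp only [mulVec_inv_mulVec] at h3 h4
  simp only [← fm_pull, commutatorElement_def, Units.val_mul, ← Matrix.mulVec_mulVec]
  rw [h1, h2, h3, h4]; ring

theorem eq_bot_of_perfect_GL2 [Fintype F] (hq : Fintype.card F ≤ 3) {L : Subgroup (GL (Fin 2) F)}
    (hp : ⁅L, L⁆ = L) : L = ⊥ := by
  refine eq_bot_of_perfect le_top hp fun r hr hd => ?_
  rw [Subgroup.card_top, Matrix.card_GL_field] at hd
  have : 1 < Fintype.card F := Fintype.one_lt_card
  interval_cases Fintype.card F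
  · exact two_or_three_of_dvd (a := 1) (b := 1) hr (by simpa using hd)
  · exact two_or_three_of_dvd (a := 4) (b := 1) hr (by simpa using hd)

theorem eq_bot_of_perfect_O3 [Fintype F] (hq : Fintype.card F = 3) (hn : Fintype.card ι = 3)
    (hG : HF (RingHom.id F) G 1) {L : Subgroup (GL ι F)} (hp : ⁅L, L⁆ = L)
    (hL : L ≤ similarityGroup (fm (RingHom.id F) G)) : L = ⊥ := by
  have h2 : (2 : F) ≠ 0 := two_ne_zero_iff_odd.2 (by rw [hq]; decide)
  have hQ := hG.qf h2
  refine eq_bot_of_perfect ((le_isom_of_perfect hp hL).trans (hQ.isom_le h2)) hp fun r hr hd => ?_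
  obtain ⟨ν, hν⟩ := hQ.isQuad.exists_wittIdx
  have h3 := hQ.isQuad.two_mul_wittIdx_le hG.sep hν
  have h4 := hQ.isQuad.finrank_le_wittIdx' hG.sep hν
  rw [Module.finrank_fintype_fun_eq_card, hn] at h3 h4
  obtain rfl : ν = 1 := by omega
  have h5 := H11.IsQuad.card_isom_odd 1 hQ.isQuad hG.sep hν
    (by rw [Module.finrank_fintype_fun_eq_card, hn])
  rw [← Nat.card_congr (H11.oEquiv hQ.isQuad).toEquiv, Nat.card_eq_fintype_card (α := F), hq] at h5
  refine two_or_three_of_dvd (a := 4) (b := 1) hr ?_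
  norm_num at h5
  rwa [show Nat.card _ = 48 by exact_mod_cast h5] at hd

theorem eq_bot_of_perfect_U [Fintype F] (hq : Fintype.card F = 4) (hn : 2 ≤ Fintype.card ι)
    (hn' : Fintype.card ι ≤ 3) (hG : HF σ G 1) (hne : ∃ a, σ a ≠ a) {L : Subgroup (GL ι F)}
    (hp : ⁅L, L⁆ = L) (hL : L ≤ similarityGroup (fm σ G)) : L = ⊥ := by
  have h2 : (2 : F) = 0 := by
    by_contra h
    exact absurd (two_ne_zero_iff_odd.1 h) (by rw [hq]; decide)
  refine eq_bot_of_perfect (le_isom_of_perfect hp hL) hp fun r hr hd => ?_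
  have hf := hG.isForm hne
  obtain ⟨T, hT⟩ := hG.exists_pull_eq_one hne
  obtain ⟨i, j, hij⟩ := Fintype.one_lt_card_iff.1 hn
  have he : fmB σ G ((T : Matrix ι ι F) *ᵥ (Pi.single i 1 + Pi.single j 1))
      ((T : Matrix ι ι F) *ᵥ (Pi.single i 1 + Pi.single j 1)) = 0 := by
    rw [fmB_apply, fm_pull, hT, fm_add_left, fm_add_right, fm_add_right]
    simp only [fm_single, Matrix.one_apply, hij, hij.symm, if_true, if_false]
    linear_combination h2
  obtain ⟨f, hf0, hef⟩ := hf.exists_partner hG.sep he fun h0 => by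
    have := congrFun (crd_eq_zero (e := Equiv.refl ι) h0) i
    simp [hij] at this
  have h3 := hf.card_isom_pair hG.sep he hf0 hef
  have h4 := hf.card_level he hf0 hef ⟨0, (map_zero _).symm⟩
  have h5 := hf.finrank_hperp hG.sep he hf0 hef
  have h6 := hf.separatingLeft_hperp hG.sep he hf0 hef
  have h7 := hf.card_nonzero_singular
  set W := H11.hperp (fmB σ G) _ f
  rw [Module.finrank_fintype_fun_eq_card] at h5
  have hW : ∀ w : W, w ≠ 0 → ∀ y : W, ∃ c : F, c • w = y := fun w hw =>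
    (finrank_eq_one_iff_of_nonzero' w hw).1 (by
      have := (Module.finrank_pos_iff_exists_ne_zero (R := F)).2 ⟨w, hw⟩
      omega)
  have h8 : Nat.card {w : W // fmB σ G w w = 0} = 1 :=
    H11.card_level_zero_of_aniso (hf.restrict W) fun w hw => by
      by_contra h0
      refine h0 (h6 w fun y => ?_)
      obtain ⟨c, rfl⟩ := hW w h0 y
      rw [map_smul]
      exact smul_eq_zero_of_right c hw
  have h9 : Nat.card (H11.trHom σ).ker = 2 := by
    have h10 := card_eq_sq_of_invol hG.inv hne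
    rw [Nat.card_eq_fintype_card, hq] at h10
    rw [Nat.pow_left_injective two_ne_zero (show 2 ^ 2 = _ from h10)]
    refine Nat.card_congr (Equiv.subtypeEquivRight fun x => ?_)
    rw [mem_fixF, AddMonoidHom.mem_ker]
    change x + σ x = 0 ↔ _
    rw [← neg_eq_iff_add_eq_zero, neg_eq_of_two h2, eq_comm]
  have h10 : Nat.card W = 4 ^ Module.finrank F W := by
    rw [Module.natCard_eq_pow_finrank (K := F), Nat.card_eq_fintype_card, hq]
  have h11 : Nat.card (isom σ G) = Nat.card (H11.Isom (fmB σ G) fun x => fmB σ G x x) :=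
    Nat.card_congr (H11.subgroupEquivOfIff (H11.glEquiv ι F) (isom σ G)
      (H11.Isom (fmB σ G) fun x => fmB σ G x x) fun g =>
      ⟨fun hg => H11.mem_Isom.2 ⟨fun x y => fm_isom hg y x, fun x => fm_isom hg x x⟩,
        fun hg u v => (H11.mem_Isom.1 hg).1 v u⟩).toEquiv
  rw [h8, h9, h10, Nat.card_eq_fintype_card (α := F), hq] at h4
  rw [h11, h3, h9, h10] at hd
  rcases (by omega : Module.finrank F W = 0 ∨ Module.finrank F W = 1) with h12 | h12
  · rw [H11.card_isom_of_finrank_zero _ _ h12, h12] at hd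
    rw [h12] at h4
    refine two_or_three_of_dvd (a := 1) (b := 2) hr ?_
    rwa [show Nat.card {v // _ ∧ _} = 9 by omega] at hd
  · obtain ⟨w, hw⟩ := (Module.finrank_pos_iff_exists_ne_zero (R := F) (M := W)).1 (h12 ▸ one_pos)
    have hinj : Function.Injective
      (fun g : H11.Isom (H11.pull (fmB σ G) W.subtype) (fun x => fmB σ G x x) =>
        (⟨g.1 w, by simpa using hw⟩ : {y : W // y ≠ 0})) := fun g g' hg => by
        ext y
        obtain ⟨c, rfl⟩ := hW w hw y
        rw [map_smul, map_smul, show g.1 w = g'.1 w from congrArg Subtype.val hg]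
    have h13 := Nat.card_le_card_of_injective _ hinj
    have := Finite.of_injective _ hinj
    have h14 : Nat.card {y : W // y ≠ 0} = 3 := by
      classical
      have := Fintype.ofFinite W
      rw [Nat.card_eq_fintype_card, Fintype.card_subtype_compl, ← Nat.card_eq_fintype_card, h10, h12]
      simp
    have h15 := Nat.card_pos
      (α := H11.Isom (H11.pull (fmB σ G) W.subtype) (fun x => fmB σ G x x))
    rw [h12] at h4 hd
    rw [show Nat.card {v // _ ∧ _} = 27 by omega] at hd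
    refine two_or_three_of_dvd (a := 4) (b := 4) hr (hd.trans ?_)
    rw [h14] at h13
    interval_cases Nat.card (H11.Isom (H11.pull (fmB σ G) W.subtype) (fun x => fmB σ G x x)) <;>
      norm_num

theorem hasComm_or_rType [Finite F] (hG : HF σ G ε) {H : Subgroup (GL ι F)}
    (hH : H ≤ similarityGroup (fm σ G)) (hirr : Irr H) (hn : (Fintype.card ι).Prime)
    (hp : ∀ L ≤ H, ⁅L, L⁆ = L → L = ⊥) :
    HasComm σ G H ∨ ∃ R ≤ H, Nrm H R ∧ RType (Fintype.card ι) R := by
  have : Nonempty ι := Fintype.card_pos_iff.1 hn.pos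
  refine or_iff_not_imp_left.2 fun hc => ?_
  rcases structure_of_aqp (not_le_scalars_of_irr hirr hn.two_le) (fun N hN h1 => by
    by_contra! h2
    obtain ⟨a, b, e, -, -, -, -, -, ha, hb, -⟩ := hG.exists_ten hirr h1 (hN.trans hH) h2.1 h2.2 hc
    have h3 : Fintype.card ι = a * b := by simpa using Fintype.card_congr e
    rw [h3] at hn
    exact Nat.not_prime_mul (by omega) (by omega) hn) with
    ⟨r, R, h1, h2, h3⟩ | ⟨P, h⟩ | ⟨N, t, m, e, P, L, h⟩
  · exact ⟨R, h1, h2, h3.eq_of_card hn (pow_one _).symm ▸ h3⟩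
  · exact absurd (by rw [hp P h.le h.perfect]; exact bot_le) h.nonscalar
  · have h3 : Fintype.card ι = m ^ t := by simpa using Fintype.card_congr e
    rw [h3] at hn
    exact absurd hn (Nat.Prime.not_prime_pow h.two_le_t)

theorem spanAlg_bot_ne_top (hn : 2 ≤ Fintype.card ι) : spanAlg (⊥ : Subgroup (GL ι F)) ≠ ⊤ :=
  fun h => not_le_scalars_of_irr (irr_of_spanAlg_eq_top h) hn bot_le

theorem hasComm_O3 [Fintype F] (hq : Fintype.card F = 3) (hn : Fintype.card ι = 3)
    (hG : HF (RingHom.id F) G 1) {H : Subgroup (GL ι F)}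
    (hH : H ≤ similarityGroup (fm (RingHom.id F) G)) (hirr : Irr H) : HasComm (RingHom.id F) G H :=
  (hasComm_or_rType hG hH hirr (hn ▸ Nat.prime_three) fun _ hL hp =>
    eq_bot_of_perfect_O3 hq hn hG hp (hL.trans hH)).resolve_right fun ⟨_, _, _, h⟩ =>
      h.ne_char (by rw [hn, ← hq]; exact FiniteField.cast_card_eq_zero F)

theorem hasComm_U2 [Fintype F] (hq : Fintype.card F = 4) (hn : Fintype.card ι = 2)
    (hG : HF σ G 1) (hne : ∃ a, σ a ≠ a) {H : Subgroup (GL ι F)}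
    (hH : H ≤ similarityGroup (fm σ G)) (hirr : Irr H) : HasComm σ G H :=
  (hasComm_or_rType hG hH hirr (hn ▸ Nat.prime_two) fun _ hL hp =>
    eq_bot_of_perfect_U hq hn.ge (by omega) hG hne hp (hL.trans hH)).resolve_right
      fun ⟨_, _, _, h⟩ => absurd (two_ne_zero_iff_odd.1 (by simpa [hn] using h.ne_char))
        (by rw [hq]; decide)

theorem hasComm_GL2 [Fintype F] (hq : Fintype.card F = 2) {G : Matrix (Fin 2) (Fin 2) F}
    (hG : HF σ G ε) {H : Subgroup (GL (Fin 2) F)}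
    (hH : H ≤ similarityGroup (fm σ G)) (hirr : Irr H) : HasComm σ G H :=
  (hasComm_or_rType hG hH hirr (by simpa using Nat.prime_two) fun _ _ hp =>
    eq_bot_of_perfect_GL2 (by omega) hp).resolve_right
      fun ⟨_, _, _, h⟩ => absurd (two_ne_zero_iff_odd.1 (by simpa using h.ne_char))
        (by rw [hq]; decide)

/-! ### restriction of a form to a subspace -/

theorem exists_restrict (hG : HF σ G ε) {W : Submodule F (ι → F)}
    (hW : IsNondegenerateOn (fm σ G) W) {k : ℕ} (hk : Module.finrank F W = k) :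
    ∃ (φ : (Fin k → F) ≃ₗ[F] W) (G₀ : Matrix (Fin k) (Fin k) F), HF σ G₀ ε ∧
      ∀ x y, fm σ G₀ x y = fm σ G (φ x) (φ y) := by
  let φ := (Module.finBasisOfFinrankEq F W hk).equivFun.symm
  have h1 := eq_fm_of_sesq σ (f := fun x y => fm σ G (φ x) (φ y))
    (fun x y v => by rw [map_add, Submodule.coe_add, fm_add_left])
    (fun c x v => by rw [map_smul, Submodule.coe_smul, fm_smul_left])
    (fun x y v => by rw [map_add, Submodule.coe_add, fm_add_right])
    (fun c x v => by rw [map_smul, Submodule.coe_smul, fm_smul_right])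
  refine ⟨φ, _, ⟨hG.inv, isUnit_of_fm_right hG.surj fun v hv => ?_, ?_⟩,
    fun x y => (congrFun₂ h1 x y).symm⟩
  · obtain ⟨x, hx, h2⟩ := (hW (φ v) (φ v).2 (by simpa using hv)).1
    exact ⟨φ.symm ⟨x, hx⟩, by rw [← h1]; simpa using h2⟩
  · ext i j
    exact hG.swap _ _

theorem Alt.even_finrank {G : Matrix ι ι F} (h : Alt G) (hu : IsUnit G) {W : Submodule F (ι → F)}
    (hW : IsNondegenerateOn (fm (RingHom.id F) G) W) : Even (Module.finrank F W) := by
  obtain ⟨φ, G₀, h1, h2⟩ := exists_restrict (hf_alt h hu) hW rfl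
  simpa using (alt_of_fm_self fun v => by rw [h2, h.fm_self]).even_card' h1.unit

/-! ### block coordinates -/

/-- block coordinates for a decomposition -/
structure Blk {t m : ℕ} (D : Fin t → Submodule F (ι → F)) (e : ι ≃ Fin m × Fin t) (P : GL ι F) :
    Prop where
  mem : ∀ i v, v ∈ D i ↔ ∃ x : Fin m → F, v = (P : Matrix ι ι F) *ᵥ (blkVec i x ∘ e)
  stab : ∀ h ∈ decompositionStabilizer D, ∃ (τ : Equiv.Perm (Fin t)) (a : Fin t → GL (Fin m) F),
    (h : Matrix ι ι F) = trA e P (blk τ fun j => (a j : Matrix (Fin m) (Fin m) F))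

section blk
variable {t m : ℕ} {D : Fin t → Submodule F (ι → F)} {e : ι ≃ Fin m × Fin t} {P : GL ι F}

theorem exists_blk (hD : IsMDecomposition m D) : ∃ (e : ι ≃ Fin m × Fin t) (P : GL ι F), Blk D e P :=
  let ⟨e, P, h1, h2⟩ := exists_block_coords hD; ⟨e, P, h1, h2⟩

theorem blk_mul {T : Type} [Fintype T] [DecidableEq T] (τ τ' : Equiv.Perm T)
    (a b : T → Matrix κ κ F) : blk τ a * blk τ' b = blk (τ * τ') fun j => a (τ' j) * b j := by
  ext ⟨k, i⟩ ⟨l, j⟩
  simp only [Matrix.mul_apply, Fintype.sum_prod_type, blk_apply, Equiv.Perm.mul_apply]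
  by_cases h : i = τ (τ' j) <;> simp [h]

theorem blk_one {T : Type} [Fintype T] [DecidableEq T] :
    blk (1 : Equiv.Perm T) (fun _ => (1 : Matrix κ κ F)) = 1 := by
  ext ⟨k, i⟩ ⟨l, j⟩
  by_cases h : i = j <;> simp [blk_apply, Matrix.one_apply, h]

/-- block diagonal units -/
def blkG {T : Type} [Fintype T] [DecidableEq T] (a : T → GL κ F) : GL (κ × T) F where
  val := blk 1 fun j => (a j : Matrix κ κ F)
  inv := blk 1 fun j => (((a j)⁻¹ : GL κ F) : Matrix κ κ F)
  val_inv := by simp [blk_mul, blk_one]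
  inv_val := by simp [blk_mul, blk_one]

theorem coe_blkG {T : Type} [Fintype T] [DecidableEq T] (a : T → GL κ F) :
    (blkG a : Matrix (κ × T) (κ × T) F) = blk 1 fun j => (a j : Matrix κ κ F) := rfl

theorem Blk.change (h : Blk D e P) (T : Fin t → GL (Fin m) F) :
    Blk D e (trG e P (blkG T) * P) := by
  have h1 : ∀ i x, ((trG e P (blkG T) * P : GL ι F) : Matrix ι ι F) *ᵥ (blkVec i x ∘ e) =
      (P : Matrix ι ι F) *ᵥ (blkVec i ((T i : Matrix (Fin m) (Fin m) F) *ᵥ x) ∘ e) := fun i x => by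
    rw [Units.val_mul, ← Matrix.mulVec_mulVec, coe_trG, trA_mulVec, coe_blkG, blk_mulVec]; rfl
  refine ⟨fun i v => (h.mem i v).trans ⟨?_, ?_⟩, fun g hg => ?_⟩
  · rintro ⟨x, rfl⟩
    exact ⟨_, by rw [h1, mulVec_inv_mulVec]⟩
  · rintro ⟨x, rfl⟩
    exact ⟨_, h1 i x⟩
  · obtain ⟨τ, a, ha⟩ := h.stab g hg
    refine ⟨τ, fun j => (T (τ j))⁻¹ * a j * T j, ?_⟩
    rw [trA_trG_mul, ha, cj_apply, eq_comm, (trA e P).injective.eq_iff, Units.mul_inv_eq_iff_eq_mul,
      coe_blkG, blk_mul, blk_mul]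
    simp [mul_assoc]

theorem blkVec_single {T : Type} [DecidableEq T] (i : T) (k : κ) :
    blkVec i (Pi.single k (1 : F)) = Pi.single (k, i) 1 := by
  ext ⟨l, j⟩
  by_cases h : j = i <;> simp [blkVec, Pi.single_apply, h]

theorem hf_of_blockDiagonal {T : Type} [Fintype T] [DecidableEq T] {Gs : T → Matrix κ κ F}
    (h : HF σ (Matrix.blockDiagonal Gs) ε) (j : T) : HF σ (Gs j) ε := by
  refine ⟨h.inv, ?_, ?_⟩
  · have := ((Matrix.isUnit_iff_isUnit_det _).1 h.unit).ne_zero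
    rw [Matrix.det_blockDiagonal] at this
    exact (Matrix.isUnit_iff_isUnit_det _).2
      (Finset.prod_ne_zero_iff.1 this j (Finset.mem_univ j)).isUnit
  · ext k l
    simpa using congrFun (congrFun h.herm (k, j)) (l, j)

theorem Blk.exists_eq (h : Blk D e P) (hG : HF σ G ε)
    (hD : ∀ i j, i ≠ j → AreOrthogonalFor (fm σ G) (D i) (D j)) :
    ∃ Gs : Fin t → Matrix (Fin m) (Fin m) F, unF σ e P G = Matrix.blockDiagonal Gs ∧
      ∀ j, HF σ (Gs j) ε := by
  have h1 : unF σ e P G = Matrix.blockDiagonal fun j => Matrix.of fun k l => unF σ e P G (k, j) (l, j) := by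
    ext ⟨k, i⟩ ⟨l, j⟩
    rw [Matrix.blockDiagonal_apply]
    split_ifs with hij
    · obtain rfl : i = j := hij
      rfl
    · rw [← fm_single σ (unF σ e P G), ← fm_unF, ← blkVec_single, ← blkVec_single]
      exact hD i j hij _ ((h.mem _ _).2 ⟨_, rfl⟩) _ ((h.mem _ _).2 ⟨_, rfl⟩)
  exact ⟨_, h1, hf_of_blockDiagonal (h1 ▸ hG.unF e P)⟩

theorem unF_change {Gs : Fin t → Matrix (Fin m) (Fin m) F}
    (h : unF σ e P G = Matrix.blockDiagonal Gs) (T : Fin t → GL (Fin m) F) :
    unF σ e (trG e P (blkG T) * P) G = Matrix.blockDiagonal fun j => pull σ (Gs j) (T j) := by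
  rw [unF_trG_mul, h, coe_blkG, pull_blk]; rfl

theorem Blk.stab_isom (h : Blk D e P) {Gs : Fin t → Matrix (Fin m) (Fin m) F}
    (h1 : unF σ e P G = Matrix.blockDiagonal Gs) {g : GL ι F} (hg : g ∈ decompositionStabilizer D)
    (hi : g ∈ isom σ G) : ∃ (τ : Equiv.Perm (Fin t)) (a : Fin t → GL (Fin m) F),
      (g : Matrix ι ι F) = trA e P (blk τ fun j => (a j : Matrix (Fin m) (Fin m) F)) ∧
      ∀ j, pull σ (Gs (τ j)) (a j) = Gs j := by
  obtain ⟨τ, a, ha⟩ := h.stab g hg
  refine ⟨τ, a, ha, fun j => ?_⟩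
  have h2 := pull_unF σ e P G (blk τ fun j => (a j : Matrix (Fin m) (Fin m) F))
  rw [← ha, mem_isom.1 hi, h1, pull_blk] at h2
  exact congrFun (Matrix.blockDiagonal_injective h2) j

theorem fm_blkVec {T : Type} [Fintype T] [DecidableEq T] (Gs : T → Matrix κ κ F) (j : T)
    (x y : κ → F) : fm σ (Matrix.blockDiagonal Gs) (blkVec j x) (blkVec j y) = fm σ (Gs j) x y := by
  simp [fm_eq_sum, Fintype.sum_prod_type, blkVec, Matrix.blockDiagonal_apply, apply_ite σ]

end blk

/-! ### frames -/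

/-- every column has at most one non-zero entry -/
def IsMono (a : Matrix κ κ F) : Prop := ∀ l, ∃ k, ∀ k', k' ≠ k → a k' l = 0

theorem isMono_blk {T : Type} [Fintype T] [DecidableEq T] (τ : Equiv.Perm T) {a : T → Matrix κ κ F}
    (h : ∀ j, IsMono (a j)) : IsMono (blk τ a) := by
  rintro ⟨l, j⟩
  obtain ⟨k, hk⟩ := h j l
  refine ⟨(k, τ j), ?_⟩
  rintro ⟨k', i⟩ hne
  rw [blk_apply]
  split_ifs with h1
  · exact hk k' fun h2 => hne (Prod.ext h2 h1)
  · rfl

theorem le_decompositionStabilizer_of_map {t m : ℕ} {D : Fin t → Submodule F (ι → F)}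
    (hD : IsMDecomposition m D) {g : GL ι F}
    (h : ∀ i, ∃ j, ∀ v ∈ D i, (g : Matrix ι ι F) *ᵥ v ∈ D j) : g ∈ decompositionStabilizer D := by
  choose f hf using h
  have h1 : ∀ i, (D i).map (Matrix.toLin' (g : Matrix ι ι F)) = D (f i) := fun i =>
    Submodule.eq_of_le_of_finrank_eq (by rintro _ ⟨v, hv, rfl⟩; exact hf i v hv)
      (by rw [finrank_map_GL, hD.finrank_eq, hD.finrank_eq])
  refine ⟨Equiv.ofBijective f (Finite.injective_iff_bijective.1 fun i j hij => ?_), h1⟩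
  by_contra hne
  obtain ⟨u, hu, hu0⟩ := hD.h26_exists_ne_zero i
  obtain ⟨v, hv, huv⟩ : (g : Matrix ι ι F) *ᵥ u ∈ (D j).map (Matrix.toLin' (g : Matrix ι ι F)) := by
    rw [h1, ← hij]; exact hf i u hu
  have h2 := congrArg (((g⁻¹ : GL ι F) : Matrix ι ι F) *ᵥ ·) huv
  simp only [Matrix.toLin'_apply, inv_mulVec_mulVec] at h2
  exact hu0 (Submodule.disjoint_def.1 (hD.indep.pairwiseDisjoint hne) u hu (h2 ▸ hv))

/-- the frame given by the coordinate vectors -/
def frame {t : ℕ} (φ : Fin t ≃ κ) (e : ι ≃ κ) (P : GL ι F) : Fin t → Submodule F (ι → F) :=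
  fun i => colSp (trA e P (single (φ i) (φ i) 1))

theorem orthIdems_frame {t : ℕ} (φ : Fin t ≃ κ) (e : ι ≃ κ) (P : GL ι F) :
    OrthIdems fun i => trA e P (single (φ i) (φ i) (1 : F)) :=
  ⟨fun i => by rw [← map_mul, Matrix.single_mul_single_same, one_mul],
    fun i h => by simpa using congrFun (congrFun ((trA e P).map_eq_zero_iff.1 h) (φ i)) (φ i),
    fun i j hij => by
      rw [← map_mul, Matrix.single_mul_single_of_ne _ _ _ _ (φ.injective.ne hij), map_zero],
    by rw [← map_sum, φ.sum_comp fun k => single k k (1 : F), Matrix.sum_single_one, map_one]⟩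

theorem mem_frame {t : ℕ} {φ : Fin t ≃ κ} {e : ι ≃ κ} {P : GL ι F} {i : Fin t} {v : ι → F} :
    v ∈ frame φ e P i ↔ ∃ c : F, v = (P : Matrix ι ι F) *ᵥ (Pi.single (φ i) c ∘ e) := by
  rw [frame, mem_colSp]
  constructor
  · rintro ⟨w, rfl⟩
    obtain ⟨y, rfl⟩ := exists_crd e P w
    exact ⟨y (φ i), by rw [trA_mulVec, Matrix.single_mulVec, one_mul]; rfl⟩
  · rintro ⟨c, rfl⟩
    exact ⟨(P : Matrix ι ι F) *ᵥ (Pi.single (φ i) c ∘ e), by
      rw [trA_mulVec, Matrix.single_mulVec, one_mul, Pi.single_eq_same]; rfl⟩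

theorem isMDecomposition_frame {t : ℕ} (ht : 2 ≤ t) (φ : Fin t ≃ κ) (e : ι ≃ κ) (P : GL ι F) :
    IsMDecomposition 1 (frame φ e P) :=
  ⟨ht, one_pos, fun i => by
    rw [frame, ← rank_eq_finrank_colSp, rank_trA]
    refine le_antisymm ?_ (Nat.pos_of_ne_zero fun h => ?_)
    · rw [Matrix.single_eq_single_vecMulVec_single]; exact Matrix.rank_vecMulVec_le _ _
    · rw [rank_eq_finrank_colSp, Submodule.finrank_eq_zero, colSp_eq_bot_iff] at h
      simpa using congrFun (congrFun h (φ i)) (φ i),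
    (orthIdems_frame φ e P).indep, (orthIdems_frame φ e P).iSup_eq_top⟩

theorem mem_stab_frame {t : ℕ} (ht : 2 ≤ t) (φ : Fin t ≃ κ) {e : ι ≃ κ} {P g : GL ι F}
    {x : Matrix κ κ F} (hg : (g : Matrix ι ι F) = trA e P x) (hx : IsMono x) :
    g ∈ decompositionStabilizer (frame φ e P) := by
  refine le_decompositionStabilizer_of_map (isMDecomposition_frame ht φ e P) fun i => ?_
  obtain ⟨k, hk⟩ := hx (φ i)
  refine ⟨φ.symm k, fun v hv => ?_⟩
  obtain ⟨c, rfl⟩ := mem_frame.1 hv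
  refine mem_frame.2 ⟨x k (φ i) * c, ?_⟩
  rw [hg, trA_mulVec, Equiv.apply_symm_apply]
  congr 2
  ext k'
  by_cases h : k' = k
  · simp [h]
  · simp [h, hk k' h]

theorem HF.nondeg_frame (hG : HF σ G ε) {t : ℕ} (ht : 2 ≤ t) (φ : Fin t ≃ κ) {e : ι ≃ κ} {P : GL ι F}
    {d : κ → F} (h : H26.unF σ e P G = Matrix.diagonal d) :
    IsNondegenerateMDecomposition (fm σ G) 1 (frame φ e P) :=
  hG.nondegDecomp_of_orthIdems (orthIdems_frame φ e P) (fun i => by
    rw [hG.adj_trA, (hG.unF e P).adj_eq' (y := single (φ i) (φ i) 1)]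
    rw [h, Matrix.map_single, map_one, Matrix.transpose_single]
    ext a b
    simp only [Matrix.mul_diagonal, Matrix.diagonal_mul, Matrix.single_apply]
    split_ifs with h1
    · rw [← h1.1, ← h1.2, mul_comm]
    · simp) (isMDecomposition_frame ht φ e P)

end Cfsg.Agent.H26
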