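import Mathlib
import Cfsg.Agent.H26.Small

/-! Symplectic-type groups: construction, tensor products, interaction with forms. -/

set_option autoImplicit false
set_option maxHeartbeats 400000

namespace Cfsg.Agent.H26

open Matrix Cfsg.Geo
open scoped Kronecker

variable {ι κ β : Type} [Fintype ι] [DecidableEq ι] [Fintype κ] [DecidableEq κ]
  [Fintype β] [DecidableEq β] {F : Type*} [Field F] {σ : F →+* F} {G : Matrix ι ι F} {ε : F}

/-- everything in `RType` except the condition on characteristic abelian subgroups -/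
structure PreR (r : ℕ) (N : Subgroup (GL ι F)) : Prop where
  prime : r.Prime
  span : spanAlg N = ⊤
  comm : ∀ x ∈ N, ∀ y ∈ N, ∃ z ∈ scalars ι F, y * x = z * (x * y)
  pow : ∀ x ∈ N, x ^ r ∈ scalars ι F
  pow_eq : ∀ x ∈ N, x ^ (r * Nat.gcd 2 r) = 1
  nonscalar : ¬ N ≤ scalars ι F

theorem PreR.exists_not_comm [Nonempty ι] {r : ℕ} {N : Subgroup (GL ι F)} (h : PreR r N) {x : GL ι F}
    (hxs : x ∉ scalars ι F) : ∃ y ∈ N, y * x ≠ x * y := by
  by_contra! h1
  exact hxs (mem_scalars_of_comm h.span h1)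

theorem PreR.comm_pow {r : ℕ} {N : Subgroup (GL ι F)} (h : PreR r N) {x y z : GL ι F}
    (hy : y ∈ N) (hz : z ∈ scalars ι F) (hzz : y * x = z * (x * y)) : z ^ r = 1 := by
  have := pow_mul_class2 hzz (comm_of_mem_scalars hz) r
  rw [comm_of_mem_scalars (h.pow y hy)] at this
  exact (mul_eq_right.1 this.symm)

theorem PreR.comm_mem {N : Subgroup (GL ι F)} {x y z : GL ι F} (hx : x ∈ N)
    (hy : y ∈ N) (hzz : y * x = z * (x * y)) : z ∈ N := by
  rw [← mul_inv_eq_iff_eq_mul] at hzz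
  rw [← hzz]
  exact N.mul_mem (N.mul_mem hy hx) (N.inv_mem (N.mul_mem hx hy))

theorem eq_of_smul_one_eq [Nonempty ι] {c d : F}
    (h : c • (1 : Matrix ι ι F) = d • (1 : Matrix ι ι F)) : c = d := by
  obtain ⟨i⟩ := ‹Nonempty ι›
  simpa using congrFun (congrFun h i) i

theorem pow_eq_one_of_scalar [Nonempty ι] {z : GL ι F} {c : F} {k : ℕ}
    (hc : (z : Matrix ι ι F) = c • (1 : Matrix ι ι F)) : z ^ k = 1 ↔ c ^ k = 1 := by
  rw [← Units.val_eq_one, Units.val_pow_eq_pow_val, hc, smul_pow, one_pow]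
  exact ⟨fun h => eq_of_smul_one_eq (h.trans (one_smul _ _).symm), fun h => by rw [h, one_smul]⟩

theorem PreR.exists_scalar [Nonempty ι] {r : ℕ} {N : Subgroup (GL ι F)} (h : PreR r N) :
    ∃ z ∈ N, z ∈ scalars ι F ∧ z ≠ 1 ∧ z ^ r = 1 := by
  obtain ⟨x, hx, hxs⟩ := SetLike.not_le_iff_exists.1 h.nonscalar
  obtain ⟨y, hy, hne⟩ := h.exists_not_comm hxs
  obtain ⟨z, hz, hzz⟩ := h.comm x hx y hy
  exact ⟨z, PreR.comm_mem hx hy hzz, hz, by rintro rfl; exact hne (by simpa using hzz),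
    h.comm_pow hy hz hzz⟩

theorem PreR.ne_char [Nonempty ι] {r : ℕ} {N : Subgroup (GL ι F)} (h : PreR r N) : (r : F) ≠ 0 := by
  obtain ⟨z, -, hz, hz1, hzr⟩ := h.exists_scalar
  intro h0
  obtain ⟨c, hc⟩ := (mem_scalars_iff z).1 hz
  have : CharP F r := (CharP.charP_iff_prime_eq_zero h.prime).2 h0
  have : Fact r.Prime := ⟨h.prime⟩
  have h6 := (pow_eq_one_of_scalar hc).1 hzr
  have h7 : ((c : F) - 1) ^ r = 0 := by rw [sub_pow_char, h6, one_pow, sub_self]
  apply hz1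
  apply Units.ext
  rw [hc, sub_eq_zero.1 (pow_eq_zero_iff h.prime.ne_zero |>.1 h7)]
  simp

theorem PreR.rType [Finite F] [Nonempty ι] {r : ℕ} {N : Subgroup (GL ι F)} (h : PreR r N)
    (hch : ∀ A : Subgroup N, A.Characteristic → IsMulCommutative A → IsCyclic A) : RType r N := by
  have hr := h.prime
  have hN := h.span
  have h4 := h.pow_eq
  have hnc : ¬ ∀ x ∈ N, ∀ y ∈ N, x * y = y * x := fun h1 =>
    h.nonscalar fun y hy => mem_scalars_of_comm hN fun x hx => h1 x hx y hy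
  have hexpdvd : Monoid.exponent N ∣ r * Nat.gcd 2 r :=
    Monoid.exponent_dvd_of_forall_pow_eq_one fun x => Subtype.ext (h4 x x.2)
  have hexp2 : ¬ Monoid.exponent N ∣ 2 := by
    intro hd
    apply hnc
    intro x hx y hy
    have hsq : ∀ x : N, x ^ 2 = 1 := Monoid.exponent_dvd_iff_forall_pow_eq_one.1 hd
    exact congrArg Subtype.val (Commute.of_orderOf_dvd_two
      (fun g => orderOf_dvd_of_pow_eq_one (hsq g)) (⟨x, hx⟩ : N) ⟨y, hy⟩)
  have hexp : Monoid.exponent N = r * Nat.gcd 2 r := by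
    rcases hr.eq_two_or_odd' with rfl | hodd
    · change _ ∣ 2 ^ 2 at hexpdvd
      obtain ⟨j, hj, hj'⟩ := (Nat.dvd_prime_pow Nat.prime_two).1 hexpdvd
      rw [hj'] at hexp2 ⊢
      interval_cases j <;> simp_all
    · rw [Nat.Coprime.gcd_eq_one (Nat.coprime_two_left.2 hodd), mul_one] at hexpdvd ⊢
      refine ((Nat.dvd_prime hr).1 hexpdvd).resolve_left fun h => hexp2 ?_
      rw [h]; exact one_dvd _
  have hpg : IsPGroup r N := by
    intro x
    refine ⟨2, Subtype.ext ?_⟩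
    obtain ⟨k, hk⟩ : r * Nat.gcd 2 r ∣ r ^ 2 := by
      rw [sq]; exact Nat.mul_dvd_mul_left r (Nat.gcd_dvd_right 2 r)
    rw [hk, pow_mul, Subgroup.coe_pow, Subgroup.coe_pow, h4 x x.2, one_pow]
    rfl
  obtain ⟨z, hzN, hz, hz1, hzr⟩ := h.exists_scalar
  have htr : ∀ x ∈ N, x ∉ scalars ι F → (x : Matrix ι ι F).trace = 0 := fun x hx hxs =>
    trace_eq_zero_of_comm hN h.comm hx hxs
  have hcyc : IsCyclic (Subgroup.center N) :=
    isCyclic_of_le_scalars _ fun x hx => by rw [center_eq_scalars hN] at hx; exact hx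
  have hZdvd : Nat.card (Subgroup.center N) ∣ r * Nat.gcd 2 r := by
    rw [← IsCyclic.exponent_eq_card]
    exact Monoid.exponent_dvd_of_forall_pow_eq_one fun x => Subtype.ext (Subtype.ext (h4 _ x.1.2))
  have hdvdZ : r ∣ Nat.card (Subgroup.center N) := by
    have : Fact r.Prime := ⟨hr⟩
    let z' : Subgroup.center N := ⟨⟨z, hzN⟩, by rw [center_eq_scalars hN]; exact hz⟩
    have : orderOf z' = r := orderOf_eq_prime (Subtype.ext (Subtype.ext hzr))
      fun h => hz1 (congrArg (fun x : Subgroup.center N => ((x : N) : GL ι F)) h)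
    rw [← this]
    exact orderOf_dvd_natCard z'
  refine ⟨hN, ⟨hr, hpg, hch, hexp⟩, h.ne_char, htr,
    card_ne_zero_of_trace hN htr, h4, fun x => by rw [center_eq_scalars hN]; rfl, ?_, ?_⟩
  · rcases hr.eq_two_or_odd' with rfl | hodd
    · right
      refine ⟨rfl, ?_⟩
      change _ ∣ 2 ^ 2 at hZdvd
      obtain ⟨j, hj, hj'⟩ := (Nat.dvd_prime_pow Nat.prime_two).1 hZdvd
      rw [hj'] at hdvdZ ⊢
      interval_cases j <;> simp_all
    · left
      rw [Nat.Coprime.gcd_eq_one (Nat.coprime_two_left.2 hodd), mul_one] at hZdvd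
      exact ⟨hodd, Nat.dvd_antisymm hZdvd hdvdZ⟩
  · have : Fact r.Prime := ⟨hr⟩
    obtain ⟨j, hj⟩ := IsPGroup.iff_card.1 hpg
    have h5 := Subgroup.card_eq_card_quotient_mul_card_subgroup ((scalars ι F).subgroupOf N)
    rw [card_quotient_eq_sq hN htr, ← center_eq_scalars hN] at h5
    have h6 : Fintype.card ι ∣ r ^ j := by
      rw [← hj, h5, sq, mul_assoc]; exact dvd_mul_right _ _
    obtain ⟨k, -, hk⟩ := (Nat.dvd_prime_pow hr).1 h6
    refine ⟨k, ?_, hk, by rw [h5, hk, ← pow_mul, mul_comm, mul_comm k]⟩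
    by_contra! hk0
    have : k = 0 := by omega
    subst this
    have hs : Subsingleton ι := Fintype.card_le_one_iff_subsingleton.1 (by simp [hk])
    apply hnc
    intro x _ y _
    ext i j
    simp [Matrix.mul_apply, Subsingleton.elim j i, mul_comm,
      Fintype.sum_subsingleton _ i]

theorem RType.preR [Finite F] [Nonempty ι] {r : ℕ} {R : Subgroup (GL ι F)} (h : RType r R)
    (hn : Fintype.card ι = r) : PreR r R := by
  obtain ⟨k, hk, hk1, hk2⟩ := h.dim
  have hr := h.sympl.prime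
  have := Fact.mk hr
  obtain rfl : k = 1 := Nat.pow_right_injective hr.two_le (by simp only; rw [← hk1, hn, pow_one])
  have h1 : Nat.card (R ⧸ Subgroup.center R) = r ^ 2 := by
    rw [Subgroup.card_eq_card_quotient_mul_card_subgroup (Subgroup.center R), mul_comm] at hk2
    exact Nat.eq_of_mul_eq_mul_left Nat.card_pos hk2
  have h2 := IsPGroup.isMulCommutative_of_card_eq_prime_sq h1
  have hc' : ∀ x y : R, y * x * (x * y)⁻¹ ∈ Subgroup.center R := fun x y =>
    (QuotientGroup.eq_one_iff _).1 (by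
      rw [QuotientGroup.mk_mul, QuotientGroup.mk_inv, QuotientGroup.mk_mul, QuotientGroup.mk_mul,
        mul_inv_eq_one]
      exact h2.is_comm.comm _ _)
  have hc : ∀ x ∈ R, ∀ y ∈ R, ∃ z ∈ scalars ι F, y * x = z * (x * y) := fun x hx y hy =>
    ⟨y * x * (x * y)⁻¹, (h.center _).1 (hc' ⟨x, hx⟩ ⟨y, hy⟩), by rw [inv_mul_cancel_right]⟩
  refine ⟨hr, h.span, hc, fun x hx => mem_scalars_of_comm h.span fun y hy => ?_, h.pow_eq,
    not_le_scalars_of_irr (irr_of_spanAlg_eq_top h.span) (hn ▸ hr.two_le)⟩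
  obtain ⟨z, hz, hzz⟩ := hc y hy x hx
  obtain ⟨c, hc⟩ := (mem_scalars_iff z).1 hz
  have h3 := congrArg (fun g : GL ι F => (g : Matrix ι ι F).det) hzz
  simp only [Units.val_mul, Matrix.det_mul, hc, Matrix.det_smul, Matrix.det_one, mul_one, hn] at h3
  rw [mul_comm (y : Matrix ι ι F).det, eq_comm, mul_eq_right₀ (mul_ne_zero
    (Matrix.isUnits_det_units x).ne_zero (Matrix.isUnits_det_units y).ne_zero)] at h3
  rw [pow_mul_class2 hzz (comm_of_mem_scalars hz) r, (pow_eq_one_of_scalar hc).2 h3, one_mul]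

theorem isCyclic_of_conj [Finite F] {N : Subgroup (GL ι F)}
    (h : ∀ x ∈ N, x ∉ scalars ι F → ∃ t : GL ι F, (∀ z ∈ N, t * z * t⁻¹ ∈ N) ∧
      t * x * t⁻¹ * x ≠ x * (t * x * t⁻¹))
    (A : Subgroup N) (hA : A.Characteristic) (hAc : IsMulCommutative A) : IsCyclic A := by
  refine isCyclic_of_le_scalars A fun x hx => ?_
  by_contra hxs
  obtain ⟨t, h1, h2⟩ := h x x.2 hxs
  let f : N →* N := MonoidHom.mk' (fun z => ⟨t * z * t⁻¹, h1 z z.2⟩)
    fun a b => Subtype.ext (by simp [mul_assoc])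
  have hf : Function.Bijective f := Finite.injective_iff_bijective.1 fun a b hab =>
    Subtype.ext (by simpa [f] using hab)
  have h3 : f x ∈ A := (Subgroup.characteristic_iff_le_comap.1 hA (MulEquiv.ofBijective f hf)) hx
  exact h2 (congrArg (fun a : A => ((a : N) : GL ι F)) (hAc.is_comm.comm ⟨f x, h3⟩ ⟨x, hx⟩))

theorem PreR.sq_cases [Nonempty ι] {N : Subgroup (GL ι F)} (h : PreR 2 N) {x : GL ι F} (hx : x ∈ N) :
    (x : Matrix ι ι F) * x = 1 ∨ (x : Matrix ι ι F) * x = -1 := by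
  obtain ⟨c, hc⟩ := (mem_scalars_iff _).1 (h.pow x hx)
  have h1 : (x ^ 2) ^ 2 = 1 := by rw [← pow_mul]; exact h.pow_eq x hx
  rw [pow_eq_one_of_scalar hc, sq_eq_one_iff] at h1
  rw [sq, Units.val_mul] at hc
  rcases h1 with h1 | h1 <;> simp [hc, h1]

theorem PreR.comm_cases [Nonempty ι] {N : Subgroup (GL ι F)} (h : PreR 2 N) {x y : GL ι F}
    (hx : x ∈ N) (hy : y ∈ N) :
    (y : Matrix ι ι F) * x = x * y ∨ (y : Matrix ι ι F) * x = -(x * y) := by
  obtain ⟨z, hz, hzz⟩ := h.comm x hx y hy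
  obtain ⟨c, hc⟩ := (mem_scalars_iff _).1 hz
  have h1 := h.comm_pow hy hz hzz
  rw [pow_eq_one_of_scalar hc, sq_eq_one_iff] at h1
  have h2 := congrArg Units.val hzz
  simp only [Units.val_mul, hc] at h2
  rcases h1 with h1 | h1 <;> simp [h2, h1]

theorem PreR.rType_two [Finite F] [Nonempty ι] {N : Subgroup (GL ι F)} (h : PreR 2 N)
    (h1 : ∀ x ∈ N, x ∉ scalars ι F → ∃ y ∈ N, (y : Matrix ι ι F) * y = -1 ∧
      (y : Matrix ι ι F) * x = -(x * y)) : RType 2 N := by
  have h2 : (2 : F) ≠ 0 := by simpa using h.ne_char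
  refine h.rType (isCyclic_of_conj fun x hx hxs => ?_)
  obtain ⟨y, hy, hyy, hyx⟩ := h1 x hx hxs
  have h3 : (1 + (y : Matrix ι ι F)) * ((2 : F)⁻¹ • (1 - (y : Matrix ι ι F))) = 1 := by
    rw [mul_smul_comm, mul_sub, add_mul, add_mul, hyy, inv_smul_eq_iff₀ h2, two_smul]
    simp only [one_mul, mul_one]; abel
  let t : GL ι F := ⟨1 + y, (2 : F)⁻¹ • (1 - (y : Matrix ι ι F)), h3, mul_eq_one_comm.1 h3⟩
  have h4 : ∀ z : GL ι F, (y : Matrix ι ι F) * z = -(z * y) → t * z * t⁻¹ = y * z := fun z hz => by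
    rw [mul_inv_eq_iff_eq_mul]
    apply Units.ext
    simp only [Units.val_mul, t, mul_add, add_mul, one_mul, mul_one]
    rw [mul_assoc, ← neg_neg ((z : Matrix ι ι F) * y), ← hz, mul_neg, ← mul_assoc, hyy]
    simp [add_comm]
  refine ⟨t, fun z hz => ?_, fun h5 => ?_⟩
  · rcases h.comm_cases hz hy with h5 | h5
    · rwa [show t * z = z * t from Units.ext (by simp [t, mul_add, add_mul, h5]), mul_inv_cancel_right]
    · rw [h4 z h5]; exact N.mul_mem hy hz
  · rw [h4 x hyx, ← mul_assoc, mul_left_inj] at h5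
    have h6 := congrArg Units.val h5
    rw [Units.val_mul, Units.val_mul, hyx, neg_eq_iff_add_eq_zero, ← two_smul F, smul_eq_zero] at h6
    exact (x * y).ne_zero (h6.resolve_left h2)

theorem PreR.rType_three [Finite F] [Nonempty ι] {N : Subgroup (GL ι F)} (h : PreR 3 N) :
    RType 3 N := by
  have h3 : (3 : F) ≠ 0 := by simpa using h.ne_char
  refine h.rType (isCyclic_of_conj fun x hx hxs => ?_)
  obtain ⟨y, hy, hne⟩ := h.exists_not_comm hxs
  obtain ⟨w, hw, hww⟩ := h.comm x hx y hy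
  obtain ⟨ω, hω⟩ : ∃ c : F, (w : Matrix ι ι F) = c • 1 := ((mem_scalars_iff _).1 hw).elim
    fun c h => ⟨c, h⟩
  have hω3 := (pow_eq_one_of_scalar hω).1 (h.comm_pow hy hw hww)
  have hω1 : ω ≠ 1 := by
    rintro rfl
    exact hne (by rw [hww, show w = 1 from Units.ext (by simp [hω]), one_mul])
  have hω2 : ω ^ 2 + ω + 1 = 0 :=
    mul_left_cancel₀ (sub_ne_zero.2 hω1) (by linear_combination hω3)
  have hy3 : (y : Matrix ι ι F) * y * y = 1 := by
    simpa [pow_succ] using congrArg Units.val (h.pow_eq y hy)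
  have hy3' : ∀ z, z * (y : Matrix ι ι F) * y * y = z := fun z => by
    rw [mul_assoc z, mul_assoc z, hy3, mul_one]
  have h4 : (1 + ω ^ 2 • (y : Matrix ι ι F) + y * y) *
      ((3 : F)⁻¹ • (1 + (y : Matrix ι ι F) + ω • ((y : Matrix ι ι F) * y))) = 1 := by
    rw [mul_smul_comm, inv_smul_eq_iff₀ h3]
    simp only [mul_add, add_mul, one_mul, mul_one, smul_mul_assoc, mul_smul_comm, ← mul_assoc, hy3]
    match_scalars <;> grind
  let t : GL ι F := ⟨_, _, h4, mul_eq_one_comm.1 h4⟩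
  have h5 : ∀ (z : GL ι F) (s : F), (y : Matrix ι ι F) * z = s • (z * y) →
      (t * z : GL ι F) = (z : Matrix ι ι F) + (ω ^ 2 * s) • ((z : Matrix ι ι F) * y) +
        s ^ 2 • ((z : Matrix ι ι F) * y * y) := fun z s hz => by
    simp only [Units.val_mul, t, add_mul, one_mul, smul_mul_assoc, mul_assoc, hz, mul_smul_comm]
    rw [← mul_assoc, hz]
    simp only [smul_mul_assoc, mul_assoc]
    module
  have h6 : ∀ z : GL ι F, (y : Matrix ι ι F) * z = ω • (z * y) → t * z * t⁻¹ = z * y := fun z hz => by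
    rw [mul_inv_eq_iff_eq_mul]
    apply Units.ext
    rw [h5 z ω hz]
    simp only [Units.val_mul, t, mul_add, mul_one, mul_smul_comm, ← mul_assoc, hy3']
    match_scalars <;> grind
  have h7 := congrArg Units.val hww
  simp only [Units.val_mul, hω, smul_mul_assoc, one_mul] at h7
  refine ⟨t, fun z hz => ?_, fun h8 => ?_⟩
  · obtain ⟨u, hu, huu⟩ := h.comm z hz y hy
    obtain ⟨s, hs⟩ : ∃ c : F, (u : Matrix ι ι F) = c • 1 := ((mem_scalars_iff _).1 hu).elim
      fun c h => ⟨c, h⟩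
    have hs3 := (pow_eq_one_of_scalar hs).1 (h.comm_pow hy hu huu)
    have h9 := congrArg Units.val huu
    simp only [Units.val_mul, hs, smul_mul_assoc, one_mul] at h9
    have h10 : (s - 1) * ((s - ω) * (s - ω ^ 2)) = 0 := by grind
    rcases mul_eq_zero.1 h10 with h11 | h11
    · rw [sub_eq_zero.1 h11] at h9
      have : t * z = z * t := Units.ext (by
        rw [h5 z 1 h9]
        simp [t, mul_add, mul_assoc])
      rwa [this, mul_inv_cancel_right]
    rcases mul_eq_zero.1 h11 with h11 | h11 <;> rw [sub_eq_zero.1 h11] at h9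
    · rw [h6 z h9]; exact N.mul_mem hz hy
    · have : t * z = w * (z * y * y) * t := Units.ext (by
        rw [h5 z _ h9]
        simp only [Units.val_mul, t, mul_add, mul_one, mul_smul_comm, ← mul_assoc, hy3', hω,
          smul_mul_assoc, one_mul]
        match_scalars <;> grind)
      rw [this, mul_inv_cancel_right]
      exact N.mul_mem (PreR.comm_mem hx hy hww) (N.mul_mem (N.mul_mem hz hy) hy)
  · rw [h6 x h7, mul_assoc, mul_right_inj] at h8
    exact hne h8

/-! ### tensor products -/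

/-- `(a, b) ↦ a ⊗ b` in coordinates -/
def kronH (e : ι ≃ κ × β) (P : GL ι F) : GL κ F × GL β F →* GL ι F :=
  MonoidHom.mk' (fun p => trG e P (kronG p.1 p.2)) fun p q => by
    rw [← map_mul, ← kronG_mul]; rfl

theorem kronH_apply (e : ι ≃ κ × β) (P : GL ι F) (a : GL κ F) (b : GL β F) :
    kronH e P (a, b) = trG e P (kronG a b) := rfl

theorem coe_kronH (e : ι ≃ κ × β) (P : GL ι F) (a : GL κ F) (b : GL β F) :
    (kronH e P (a, b) : Matrix ι ι F) = trA e P ((a : Matrix κ κ F) ⊗ₖ (b : Matrix β β F)) := by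
  rw [kronH_apply, coe_trG, coe_kronG]

theorem kronH_mem_scalars [Nonempty ι] {e : ι ≃ κ × β} {P : GL ι F} {a : GL κ F} {b : GL β F}
    (ha : a ∈ scalars κ F) (hb : b ∈ scalars β F) : kronH e P (a, b) ∈ scalars ι F := by
  obtain ⟨c, hc⟩ := (mem_scalars_iff _).1 ha
  obtain ⟨d, hd⟩ := (mem_scalars_iff _).1 hb
  refine mem_scalars_of_eq_smul (c := c * d) ?_
  rw [coe_kronH, hc, hd, Matrix.smul_kronecker, Matrix.kronecker_smul, Matrix.one_kronecker_one,
    smul_smul, map_smul, map_one]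

theorem scalars_of_kronH [Nonempty κ] [Nonempty β] {e : ι ≃ κ × β} {P : GL ι F} {a : GL κ F}
    {b : GL β F} (h : kronH e P (a, b) ∈ scalars ι F) : a ∈ scalars κ F ∧ b ∈ scalars β F := by
  obtain ⟨c, hc⟩ := (mem_scalars_iff _).1 h
  rw [coe_kronH, ← map_one (trA e P), ← map_smul, (trA e P).injective.eq_iff,
    ← Matrix.one_kronecker_one, ← Matrix.smul_kronecker] at hc
  obtain ⟨d, hd, h1, h2⟩ := exists_smul_of_kronecker_eq hc (Units.ne_zero a) (Units.ne_zero b)
  exact ⟨mem_scalars_of_eq_smul (c := d⁻¹ * c) (by rw [mul_smul, h1, inv_smul_smul₀ hd]),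
    mem_scalars_of_eq_smul (c := d) h2⟩

/-- the central product of two matrix groups acting on a tensor product -/
def kronS (e : ι ≃ κ × β) (P : GL ι F) (A : Subgroup (GL κ F)) (B : Subgroup (GL β F)) :
    Subgroup (GL ι F) := (A.prod B).map (kronH e P)

theorem mem_kronS {e : ι ≃ κ × β} {P : GL ι F} {A : Subgroup (GL κ F)} {B : Subgroup (GL β F)}
    {x : GL ι F} : x ∈ kronS e P A B ↔ ∃ a ∈ A, ∃ b ∈ B, kronH e P (a, b) = x :=
  by simp only [kronS, Subgroup.mem_map, Subgroup.mem_prod, Prod.exists]; tauto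

theorem spanAlg_kronS (e : ι ≃ κ × β) (P : GL ι F) {A : Subgroup (GL κ F)} {B : Subgroup (GL β F)}
    (hA : spanAlg A = ⊤) (hB : spanAlg B = ⊤) : spanAlg (kronS e P A B) = ⊤ := by
  have h1 : ∀ x y, trA e P (x ⊗ₖ y) ∈ spanAlg (kronS e P A B) := by
    intro x y
    have hx : x ∈ spanAlg A := by rw [hA]; exact Algebra.mem_top
    have hy : y ∈ spanAlg B := by rw [hB]; exact Algebra.mem_top
    refine spanAlg_induction (p := fun x => trA e P (x ⊗ₖ y) ∈ spanAlg (kronS e P A B))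
      (fun a ha => ?_) (by simp)
      (fun _ _ h h' => by rw [Matrix.add_kronecker, map_add]; exact add_mem h h')
      (fun c _ h => by rw [Matrix.smul_kronecker, map_smul]; exact Subalgebra.smul_mem _ h c) hx
    refine spanAlg_induction (p := fun y => trA e P (a.val ⊗ₖ y) ∈ spanAlg (kronS e P A B))
      (fun b hb => ?_) (by simp)
      (fun _ _ h h' => by rw [Matrix.kronecker_add, map_add]; exact add_mem h h')
      (fun c _ h => by rw [Matrix.kronecker_smul, map_smul]; exact Subalgebra.smul_mem _ h c) hy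
    rw [← coe_kronH]; exact coe_mem_spanAlg (mem_kronS.2 ⟨a, ha, b, hb, rfl⟩)
  refine eq_top_iff.2 fun x _ => ?_
  obtain ⟨y, rfl⟩ := (trA e P).surjective x
  rw [Matrix.matrix_eq_sum_single y, map_sum]
  refine sum_mem fun p _ => ?_
  rw [map_sum]
  refine sum_mem fun q _ => ?_
  simpa [Matrix.single_kronecker_single] using h1 (single p.1 q.1 (y p q)) (single p.2 q.2 1)

theorem PreR.kron [Nonempty κ] [Nonempty β] {r : ℕ} (e : ι ≃ κ × β) (P : GL ι F)
    {A : Subgroup (GL κ F)} {B : Subgroup (GL β F)} (hA : PreR r A) (hB : PreR r B) :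
    PreR r (kronS e P A B) := by
  have : Nonempty ι := ⟨e.symm (Classical.arbitrary _)⟩
  refine ⟨hA.prime, spanAlg_kronS e P hA.span hB.span, fun x hx y hy => ?_, fun x hx => ?_,
    fun x hx => ?_, fun h => hA.nonscalar fun a ha =>
      (scalars_of_kronH (h (mem_kronS.2 ⟨a, ha, 1, B.one_mem, rfl⟩))).1⟩
  all_goals obtain ⟨a, ha, b, hb, rfl⟩ := mem_kronS.1 hx
  · obtain ⟨a', ha', b', hb', rfl⟩ := mem_kronS.1 hy
    obtain ⟨z, hz, h1⟩ := hA.comm a ha a' ha'
    obtain ⟨z', hz', h2⟩ := hB.comm b hb b' hb'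
    exact ⟨kronH e P (z, z'), kronH_mem_scalars hz hz', by
      simp only [← map_mul, Prod.mk_mul_mk, h1, h2]⟩
  · rw [← map_pow]; exact kronH_mem_scalars (hA.pow a ha) (hB.pow b hb)
  · rw [← map_pow, Prod.pow_mk, hA.pow_eq a ha, hB.pow_eq b hb]; exact map_one _

theorem PreR.exists_anti [Nonempty ι] {N : Subgroup (GL ι F)} (h : PreR 2 N) {x : GL ι F}
    (hx : x ∈ N) (hxs : x ∉ scalars ι F) : ∃ y ∈ N, (y : Matrix ι ι F) * x = -(x * y) :=
  let ⟨y, hy, h1⟩ := h.exists_not_comm hxs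
  ⟨y, hy, (h.comm_cases hx hy).resolve_left fun h2 => h1 (Units.ext h2)⟩

theorem PreR.exists_anti_of_sq [Nonempty ι] {N : Subgroup (GL ι F)} (h : PreR 2 N) {x : GL ι F}
    (hx : x ∈ N) (hxs : x ∉ scalars ι F) (hxx : (x : Matrix ι ι F) * x = 1) :
    ∃ y ∈ N, (y : Matrix ι ι F) * y = -1 ∧ (y : Matrix ι ι F) * x = -(x * y) := by
  obtain ⟨y, hy, h1⟩ := h.exists_anti hx hxs
  rcases h.sq_cases hy with h2 | h2
  · refine ⟨x * y, N.mul_mem hx hy, ?_, ?_⟩ <;> rw [Units.val_mul]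
    · rw [mul_assoc, ← mul_assoc (y : Matrix ι ι F), h1, neg_mul, mul_assoc, h2, mul_one, mul_neg, hxx]
    · rw [mul_assoc, h1, mul_neg]
  · exact ⟨y, hy, h2, h1⟩

theorem PreR.exists_sq_neg [Nonempty ι] {N : Subgroup (GL ι F)} (h : PreR 2 N) :
    ∃ y ∈ N, (y : Matrix ι ι F) * y = -1 := by
  obtain ⟨x, hx, hxs⟩ := SetLike.not_le_iff_exists.1 h.nonscalar
  rcases h.sq_cases hx with h1 | h1
  · exact let ⟨y, hy, h2, _⟩ := h.exists_anti_of_sq hx hxs h1; ⟨y, hy, h2⟩
  · exact ⟨x, hx, h1⟩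

theorem PreR.kron_aux [Nonempty κ] [Nonempty β] {A : Subgroup (GL κ F)} {B : Subgroup (GL β F)}
    (hA : PreR 2 A) (hB : PreR 2 B) {a : GL κ F} {b : GL β F} (ha : a ∈ A) (hb : b ∈ B)
    (has : a ∉ scalars κ F) (hb' : b ∈ scalars β F ∨ (b : Matrix β β F) * b = -1) :
    ∃ y ∈ A, ∃ c ∈ B, (y.val * y.val) ⊗ₖ (c.val * c.val) = -1 ∧
      (y.val * a.val) ⊗ₖ (c.val * b.val) =
        -((a.val * y.val) ⊗ₖ (b.val * c.val)) := by
  have hn : ∀ (x : Matrix κ κ F) (y : Matrix β β F), (-x) ⊗ₖ y = -(x ⊗ₖ y) := fun x y => by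
    ext; simp
  have hn' : ∀ (x : Matrix κ κ F) (y : Matrix β β F), x ⊗ₖ (-y) = -(x ⊗ₖ y) := fun x y => by
    ext; simp
  obtain ⟨y, hy, h1⟩ := hA.exists_anti ha has
  rcases hA.sq_cases hy with h2 | h2
  · obtain ⟨c, hc, h3, h4⟩ : ∃ c ∈ B, (c : Matrix β β F) * c = -1 ∧ c * b = b * c := by
      rcases hb' with h | h
      · exact let ⟨c, hc, h3⟩ := hB.exists_sq_neg; ⟨c, hc, h3, (comm_of_mem_scalars h c).symm⟩
      · exact ⟨b, hb, h, rfl⟩
    exact ⟨y, hy, c, hc, by rw [h2, h3, hn', Matrix.one_kronecker_one],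
      by rw [h1, hn, ← Units.val_mul c, h4, Units.val_mul]⟩
  · exact ⟨y, hy, 1, B.one_mem, by simp [h2, hn], by simp [h1, hn]⟩

theorem PreR.kron_two [Finite F] [Nonempty κ] [Nonempty β] (e : ι ≃ κ × β) (P : GL ι F)
    {A : Subgroup (GL κ F)} {B : Subgroup (GL β F)} (hA : PreR 2 A) (hB : PreR 2 B) :
    RType 2 (kronS e P A B) := by
  have : Nonempty ι := ⟨e.symm (Classical.arbitrary _)⟩
  refine (hA.kron e P hB).rType_two fun x hx hxs => ?_
  obtain ⟨a, ha, b, hb, rfl⟩ := mem_kronS.1 hx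
  suffices h : ∃ y ∈ A, ∃ c ∈ B, (y.val * y.val) ⊗ₖ (c.val * c.val) = -1 ∧
      (y.val * a.val) ⊗ₖ (c.val * b.val) =
        -((a.val * y.val) ⊗ₖ (b.val * c.val)) by
    obtain ⟨y, hy, c, hc, h1, h2⟩ := h
    refine ⟨_, mem_kronS.2 ⟨y, hy, c, hc, rfl⟩, ?_, ?_⟩ <;>
      simp only [coe_kronH, ← map_mul, ← Matrix.mul_kronecker_mul, h1, h2, map_neg, map_one]
  have hn' : ∀ (x : Matrix κ κ F) (y : Matrix β β F), x ⊗ₖ (-y) = -(x ⊗ₖ y) := fun x y => by
    ext; simp
  by_cases hbs : b ∈ scalars β F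
  · exact hA.kron_aux hB ha hb (fun h => hxs (kronH_mem_scalars h hbs)) (Or.inl hbs)
  rcases hB.sq_cases hb with h1 | h1
  · obtain ⟨c, hc, h2, h3⟩ := hB.exists_anti_of_sq hb hbs h1
    exact ⟨1, A.one_mem, c, hc, by simp [h2, hn'], by simp [h3, hn']⟩
  by_cases has : a ∈ scalars κ F
  · obtain ⟨c, hc, y, hy, h2, h3⟩ := hB.kron_aux hA hb ha hbs (Or.inl has)
    refine ⟨y, hy, c, hc, ?_, ?_⟩ <;> ext ⟨i, k⟩ ⟨j, l⟩
    · simpa [mul_comm, Matrix.one_apply, and_comm] using congrFun (congrFun h2 (k, i)) (l, j)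
    · simpa [mul_comm] using congrFun (congrFun h3 (k, i)) (l, j)
  · exact hA.kron_aux hB ha hb has (Or.inr h1)

theorem nrm_kronS {e : ι ≃ κ × β} {P : GL ι F} {H : Subgroup (GL ι F)} {A A' : Subgroup (GL κ F)}
    {B B' : Subgroup (GL β F)} (hH : H ≤ kronS e P A' B') (hA : Nrm A' A) (hB : Nrm B' B) :
    Nrm H (kronS e P A B) := by
  intro h hh x hx
  obtain ⟨a', ha', b', hb', rfl⟩ := mem_kronS.1 (hH hh)
  obtain ⟨a, ha, b, hb, rfl⟩ := mem_kronS.1 hx
  exact mem_kronS.2 ⟨_, hA a' ha' a ha, _, hB b' hb' b hb, by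
    rw [← map_inv, ← map_mul, ← map_mul]; rfl⟩

theorem le_kronS_proj {e : ι ≃ κ × β} {P : GL ι F} {H : Subgroup (GL ι F)} (hH : H ≤ tenG e P) :
    H ≤ kronS e P (projL e P H) (projL (e.trans (Equiv.prodComm κ β)) P H) := by
  intro h hh
  obtain ⟨a, b, hab⟩ := hH hh
  refine mem_kronS.2 ⟨a, ⟨b, hab ▸ hh⟩, b, ⟨a, ?_⟩, hab.symm⟩
  rwa [show trG (e.trans (Equiv.prodComm κ β)) P (kronG b a) = h from Units.ext (by
    rw [hab, coe_trG, coe_trG, coe_kronG, coe_kronG, trA_kronecker_swap e])]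

theorem kronS_le_sim {e : ι ≃ κ × β} {P : GL ι F} {G₁ : Matrix κ κ F} {G₂ : Matrix β β F}
    (h : unF σ e P G = G₁ ⊗ₖ G₂) {A : Subgroup (GL κ F)} {B : Subgroup (GL β F)}
    (hA : A ≤ similarityGroup (fm σ G₁)) (hB : B ≤ similarityGroup (fm σ G₂)) :
    kronS e P A B ≤ similarityGroup (fm σ G) := by
  intro x hx
  obtain ⟨a, ha, b, hb, rfl⟩ := mem_kronS.1 hx
  obtain ⟨c, hc, h1⟩ := mem_similarityGroup_fm.1 (hA ha)
  obtain ⟨d, hd, h2⟩ := mem_similarityGroup_fm.1 (hB hb)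
  rw [kronH_apply, trG_mem_similarityGroup, h, mem_similarityGroup_fm]
  exact ⟨c * d, mul_ne_zero hc hd, by
    rw [coe_kronG, pull_kronecker, h1, h2, Matrix.smul_kronecker, Matrix.kronecker_smul, smul_smul]⟩

theorem kronS_le_isom {e : ι ≃ κ × β} {P : GL ι F} {G₁ : Matrix κ κ F} {G₂ : Matrix β β F}
    (h : unF σ e P G = G₁ ⊗ₖ G₂) {A : Subgroup (GL κ F)} {B : Subgroup (GL β F)}
    (hA : A ≤ isom σ G₁) (hB : B ≤ isom σ G₂) : kronS e P A B ≤ isom σ G := by
  intro x hx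
  obtain ⟨a, ha, b, hb, rfl⟩ := mem_kronS.1 hx
  rw [kronH_apply, trG_mem_isom, h, mem_isom, coe_kronG, pull_kronecker, mem_isom.1 (hA ha),
    mem_isom.1 (hB hb)]

/-! ### symplectic-type groups fixing a form -/

theorem RType.card_center_dvd_of [Finite F] [Nonempty ι] {r k : ℕ} {R : Subgroup (GL ι F)}
    (h : RType r R) (hk : ∀ x ∈ R, ∀ c : F, (x : Matrix ι ι F) = c • 1 → c ^ k = 1) :
    Nat.card (Subgroup.center R) ∣ k := by
  have hcyc : IsCyclic (Subgroup.center R) :=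
    isCyclic_of_le_scalars _ fun x hx => (h.center x).1 hx
  rw [← IsCyclic.exponent_eq_card]
  refine Monoid.exponent_dvd_of_forall_pow_eq_one fun x => Subtype.ext (Subtype.ext ?_)
  obtain ⟨c, hc⟩ := (mem_scalars_iff _).1 ((h.center x).1 x.2)
  exact (pow_eq_one_of_scalar hc).2 (hk _ x.1.2 c hc)

theorem mul_conj_eq_one_of_isom [Nonempty ι] (hG : IsUnit G) {x : GL ι F} (hx : x ∈ isom σ G) {c : F}
    (hc : (x : Matrix ι ι F) = c • 1) : c * σ c = 1 := by
  have h1 := mem_isom.1 hx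
  rw [hc, pull_smul_right, pull, Matrix.transpose_one, one_mul, Matrix.map_one _ (map_zero σ)
    (map_one σ), mul_one] at h1
  exact smul_left_injective F hG.ne_zero (h1.trans (one_smul _ _).symm)

theorem RType.two_of_isom [Finite F] [Nonempty ι] {r : ℕ} {R : Subgroup (GL ι F)} (h : RType r R)
    (hG : IsUnit G) (hR : R ≤ isom (RingHom.id F) G) :
    r = 2 ∧ Nat.card (Subgroup.center R) = 2 := by
  have h1 := h.card_center_dvd_of (k := 2) fun x hx c hc => by
    simpa [sq] using mul_conj_eq_one_of_isom hG (hR hx) hc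
  have h2 := Nat.le_of_dvd two_pos h1
  have h3 := h.sympl.prime.two_le
  rcases h.center_card with ⟨⟨k, hk⟩, h4⟩ | ⟨h4, h5 | h5⟩ <;> omega

theorem HF.nondeg_colSp (h : HF σ G ε) {η : Matrix ι ι F} (hη : η * η = η) (hadj : adj σ G η = η) :
    IsNondegenerateOn (fm σ G) (colSp η) :=
  h.nondeg_iff.2 (eq_bot_iff.2 fun w hw => h.eq_zero_left fun x => by
    rw [← (mem_colSp_of_idem hη).1 hw.1, h.fm_adj, hadj]
    exact H26.mem_prp.1 hw.2 _ (mulVec_mem_colSp _ _))

theorem OrthIdems.sum_finrank {t : ℕ} {η : Fin t → Matrix ι ι F} (h : OrthIdems η) :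
    ∑ i, Module.finrank F (colSp (η i)) = Fintype.card ι := by
  have h1 := (DirectSum.isInternal_submodule_of_iSupIndep_of_iSup_eq_top h.indep h.iSup_eq_top)
  simpa [Module.finrank_directSum] using
    (LinearEquiv.ofBijective (DirectSum.coeLinearMap _) h1).finrank_eq

theorem RType.isOfMinusType [Finite F] [Nonempty ι] {R : Subgroup (GL ι F)} (h : RType 2 R)
    (hG : Alt G) (hu : IsUnit G) (hR : R ≤ isom (RingHom.id F) G) {k : ℕ}
    (hk : Fintype.card ι = 2 ^ k) : IsOfMinusType k R := by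
  intro A hA hA2
  have hf := hf_alt hG hu
  have h2 : (2 : F) ≠ 0 := by simpa using h.ne_char
  let A' := A.map R.subtype
  have hsq : ∀ x ∈ A', (x : Matrix ι ι F) * x = 1 := by
    rintro _ ⟨x, hx, rfl⟩
    exact congrArg (fun y : R => ((y : GL ι F) : Matrix ι ι F)) (hA2 x hx)
  have hc : ∀ x ∈ spanAlg A', ∀ y ∈ spanAlg A', x * y = y * x := fun x hx y hy =>
    comm_of_mem_spanAlg (fun g hg => (comm_of_mem_spanAlg (fun g' hg' => by
      obtain ⟨g, hg, rfl⟩ := hg
      obtain ⟨g', hg', rfl⟩ := hg'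
      exact congrArg (fun y : A => (((y : R) : GL ι F) : Matrix ι ι F))
        (hA.is_comm.comm ⟨g', hg'⟩ ⟨g, hg⟩)) hy).symm) hx
  have hadj : ∀ x ∈ spanAlg A', adj (RingHom.id F) G x = x := fun x hx =>
    spanAlg_induction (p := fun x => adj (RingHom.id F) G x = x) (fun g hg => by
      rw [hf.adj_isom (hR (Subgroup.map_subtype_le A hg))]
      exact (Units.inv_eq_of_mul_eq_one_right (hsq g hg)))
      adj_zero (fun _ _ h h' => by rw [adj_add, h, h']) (fun c _ h => by rw [adj_smul, h]; rfl) hx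
  have hS := idemSys_of_comm hc
  obtain ⟨t, η, hη, hat, -⟩ := hS.exists_orthIdems (H := ⊥) fun g hg x hx => by
    rwa [cj_of_mem_scalars (bot_le (a := scalars ι F) hg)]
  have hmem : ∀ i, IsAtomOf _ (η i) := fun i => (hat _).2 ⟨i, rfl⟩
  have h3 : t * 2 ≤ 2 ^ k := by
    rw [← hk, ← hη.sum_finrank]
    refine le_of_eq_of_le (by simp) (Finset.card_nsmul_le_sum _ _ 2 fun i _ => ?_)
    obtain ⟨m, hm⟩ := hG.even_finrank hu (hf.nondeg_colSp (hη.idem i) (hadj _ (hmem i).1.1))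
    have : Module.finrank F (colSp (η i)) ≠ 0 := fun h0 =>
      hη.ne_zero i (colSp_eq_bot_iff.1 (Submodule.finrank_eq_zero.1 h0))
    omega
  have h4 : ∀ x ∈ A', (x : Matrix ι ι F) ∈ Submodule.span F (Set.range η) := fun x hx => by
    let p : Matrix ι ι F := (2 : F)⁻¹ • (1 + (x : Matrix ι ι F))
    have hp : p ∈ {x | x ∈ spanAlg A' ∧ x * x = x} :=
      ⟨Subalgebra.smul_mem _ (add_mem (one_mem _) (coe_mem_spanAlg hx)) _, by
        simp only [p, smul_mul_assoc, mul_smul_comm, mul_add, add_mul, one_mul, mul_one, hsq x hx]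
        match_scalars <;> field_simp <;> ring⟩
    have h5 : (x : Matrix ι ι F) = (2 : F) • p - 1 := by simp [p, smul_smul, h2]
    rw [h5, ← mul_one p, ← hη.sum, Finset.mul_sum]
    refine sub_mem (Submodule.smul_mem _ _ (sum_mem fun i _ => ?_))
      (sum_mem fun i _ => Submodule.subset_span ⟨i, rfl⟩)
    rcases (hmem i).2.2 _ (hS.mul_mem _ hp _ (hmem i).1) (by rw [mul_assoc, hη.idem]) with h6 | h6 <;>
      rw [h6]
    · exact zero_mem _
    · exact Submodule.subset_span ⟨i, rfl⟩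
  have := Fintype.ofFinite (A ⧸ (Subgroup.center R).subgroupOf A)
  let b : A ⧸ (Subgroup.center R).subgroupOf A → GL ι F := fun q => ((q.out : A) : R)
  have hli := linearIndependent_of_trace h.dim_ne h.trace_zero b (fun q => (q.out : R).2)
    fun k l hkl => by
      rw [← k.out_eq, ← l.out_eq]
      exact QuotientGroup.eq.2 ((h.center _).2 hkl)
  have h5 : Fintype.card (A ⧸ (Subgroup.center R).subgroupOf A) ≤ t := by
    rw [← finrank_span_eq_card hli]
    refine (Submodule.finrank_mono (Submodule.span_le.2 ?_)).trans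
      ((finrank_range_le_card η).trans (by simp))
    rintro _ ⟨q, rfl⟩
    exact h4 _ ⟨_, q.out.2, rfl⟩
  have h6 : Nat.card ((Subgroup.center R).subgroupOf A) ≤ 2 := by
    rw [← (h.two_of_isom hu hR).2]
    exact Nat.card_le_card_of_injective (fun x => ⟨x.1.1, x.2⟩) fun x y hxy =>
      Subtype.ext (Subtype.ext (congrArg (fun z : Subgroup.center R => (z : R)) hxy))
  rw [Subgroup.card_eq_card_quotient_mul_card_subgroup ((Subgroup.center R).subgroupOf A),
    Nat.card_eq_fintype_card, pow_succ]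
  have h7 : 0 < 2 ^ k := by positivity
  have := Nat.mul_le_mul h5 h6
  omega

/-- a group fixing a bilinear and a sesquilinear form has traces in the fixed field -/
theorem trace_mem_fixF {τ : F →+* F} {B : Matrix ι ι F} (hG : IsUnit G) (hB : IsUnit B)
    {g : GL ι F} (h1 : g ∈ isom (RingHom.id F) G) (h2 : g ∈ isom τ B) :
    (g : Matrix ι ι F).trace ∈ fixF τ := by
  have h3 := trace_eq_of_isom hG h1
  rw [RingHom.id_apply] at h3
  rw [mem_fixF, h3, ← trace_eq_of_isom hB h2, h3]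

theorem fixF_ne_top {τ : F →+* F} (h : ∃ a, τ a ≠ a) : fixF τ ≠ ⊤ := fun h1 =>
  let ⟨a, ha⟩ := h; ha (mem_fixF.1 (h1 ▸ Subfield.mem_top a))

end Cfsg.Agent.H26
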