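import Mathlib
import Cfsg.Agent.H26.RForm

/-! The common skeleton of the class theorems for groups with a form; transvections of a form. -/

set_option autoImplicit false
set_option maxHeartbeats 400000

namespace Cfsg.Agent.H26

open Matrix Cfsg.Geo
open scoped Kronecker

variable {ι κ β : Type} [Fintype ι] [DecidableEq ι] [Fintype κ] [DecidableEq κ]
  [Fintype β] [DecidableEq β] {F : Type*} [Field F] {σ : F →+* F} {G : Matrix ι ι F} {ε : F}

theorem MinNS.preR [Finite F] [Nonempty ι] {H N : Subgroup (GL ι F)} (h : MinNS H N)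
    (hN : spanAlg N = ⊤) (hcomm : ⁅N, N⁆ ≤ scalars ι F) : ∃ r, PreR r N := by
  have hc : ∀ x ∈ N, ∀ y ∈ N, ∃ z ∈ scalars ι F, y * x = z * (x * y) := fun x hx y hy =>
    ⟨y * x * y⁻¹ * x⁻¹, hcomm (Subgroup.commutator_mem_commutator hy hx), by
      simp [mul_assoc]⟩
  have hnc : ¬ ∀ x ∈ N, ∀ y ∈ N, x * y = y * x := fun h1 =>
    h.nonscalar fun y hy => mem_scalars_of_comm hN fun x hx => h1 x hx y hy
  obtain ⟨r, hr, x₀, hx₀, hx₀s, hx₀r⟩ :
      ∃ r : ℕ, r.Prime ∧ ∃ x ∈ N, x ∉ scalars ι F ∧ x ^ r ∈ scalars ι F := by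
    obtain ⟨x, hx, hxs⟩ := SetLike.not_le_iff_exists.1 h.nonscalar
    let q : GL ι F ⧸ scalars ι F := QuotientGroup.mk x
    have hq : orderOf q ≠ 1 := by
      rw [Ne, orderOf_eq_one_iff, QuotientGroup.eq_one_iff]; exact hxs
    obtain ⟨r, hr, k, hk⟩ := Nat.exists_prime_and_dvd hq
    have hpos := orderOf_pos q
    have hk0 : k ≠ 0 := by rintro rfl; omega
    refine ⟨r, hr, x ^ k, N.pow_mem hx k, ?_, ?_⟩
    · rw [← QuotientGroup.eq_one_iff, QuotientGroup.mk_pow]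
      refine pow_ne_one_of_lt_orderOf hk0 ?_
      change k < orderOf q
      have := hr.two_le
      rw [hk]
      exact lt_mul_left (Nat.pos_of_ne_zero hk0) (by omega)
    · rw [← QuotientGroup.eq_one_iff, ← pow_mul, QuotientGroup.mk_pow, mul_comm, ← hk]
      exact pow_orderOf_eq_one q
  have hconj : ∀ (g x : GL ι F) (m : ℕ), (g * x * g⁻¹) ^ m = g * x ^ m * g⁻¹ := fun g x m =>
    conj_pow
  -- all `r`-th powers are scalar
  have h1 : ∀ x ∈ N, x ^ r ∈ scalars ι F := by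
    let M : Subgroup (GL ι F) :=
      { carrier := {x | x ∈ N ∧ x ^ r ∈ scalars ι F}
        mul_mem' := fun {a b} ha hb => ⟨N.mul_mem ha.1 hb.1, by
          obtain ⟨z, hz, hzz⟩ := hc a ha.1 b hb.1
          rw [mul_pow_class2 hzz (comm_of_mem_scalars hz)]
          exact mul_mem (pow_mem hz _) (mul_mem ha.2 hb.2)⟩
        one_mem' := ⟨N.one_mem, by simp⟩
        inv_mem' := fun {a} ha => ⟨N.inv_mem ha.1, by rw [inv_pow]; exact inv_mem ha.2⟩ }
    have := (h.min M (fun x hx => hx.1) fun g hg x hx => ⟨h.nrm g hg x hx.1, by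
      rw [hconj]; exact Subgroup.Normal.conj_mem inferInstance _ hx.2 g⟩).resolve_left
      fun hle => hx₀s (hle ⟨hx₀, hx₀r⟩)
    intro x hx
    exact (this ▸ hx : x ∈ M).2
  have h2 : ∀ x ∈ N, ∀ y ∈ N, ∀ z ∈ scalars ι F, y * x = z * (x * y) → z ^ r = 1 := by
    intro x hx y hy z hz hzz
    have := pow_mul_class2 hzz (comm_of_mem_scalars hz) r
    rw [comm_of_mem_scalars (h1 y hy)] at this
    exact (mul_eq_right.1 this.symm)
  have h3 : ∀ x ∈ N, ∀ y ∈ N,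
      (x * y) ^ (r * Nat.gcd 2 r) = x ^ (r * Nat.gcd 2 r) * y ^ (r * Nat.gcd 2 r) := by
    intro x hx y hy
    obtain ⟨z, hz, hzz⟩ := hc x hx y hy
    obtain ⟨k, hk⟩ := dvd_choose_two hr
    rw [mul_pow_class2 hzz (comm_of_mem_scalars hz), hk, pow_mul, h2 x hx y hy z hz hzz, one_pow,
      one_mul]
  have h4 : ∀ x ∈ N, x ^ (r * Nat.gcd 2 r) = 1 := by
    let M : Subgroup (GL ι F) :=
      { carrier := {x | x ∈ N ∧ x ^ (r * Nat.gcd 2 r) = 1}
        mul_mem' := fun {a b} ha hb => ⟨N.mul_mem ha.1 hb.1, by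
          rw [h3 a ha.1 b hb.1, ha.2, hb.2, one_mul]⟩
        one_mem' := ⟨N.one_mem, by simp⟩
        inv_mem' := fun {a} ha => ⟨N.inv_mem ha.1, by rw [inv_pow, ha.2, inv_one]⟩ }
    rcases h.min M (fun x hx => hx.1) fun g hg x hx => ⟨h.nrm g hg x hx.1, by
      rw [hconj, hx.2]; simp⟩ with hle | heq
    · exfalso
      apply hnc
      let f : N →* scalars ι F := MonoidHom.mk' (fun x => ⟨(x : GL ι F) ^ (r * Nat.gcd 2 r), by
        rw [pow_mul]; exact pow_mem (h1 x x.2) _⟩) fun a b => Subtype.ext (h3 a a.2 b b.2)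
      have hker : f.ker ≤ Subgroup.center N := fun x hx => by
        rw [center_eq_scalars hN]
        exact hle ⟨x.2, congrArg Subtype.val hx⟩
      intro x hx y hy
      exact congrArg Subtype.val 
        ((f.isMulCommutative_of_isCyclic_of_ker_le_center hker).is_comm.comm ⟨x, hx⟩ ⟨y, hy⟩)
    · intro x hx
      exact (heq ▸ hx : x ∈ M).2
  exact ⟨r, hr, hN, hc, h1, h4, h.nonscalar⟩

theorem PreR.prime_eq [Finite F] [Nonempty ι] {r s : ℕ} {R : Subgroup (GL ι F)} (h : PreR r R)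
    (h' : RType s R) : r = s := by
  obtain ⟨z, hz, -, hz1, hzr⟩ := h.exists_scalar
  have := Fact.mk h.prime
  have h1 : orderOf z ∣ s * Nat.gcd 2 s := orderOf_dvd_of_pow_eq_one (h'.pow_eq z hz)
  rw [orderOf_eq_prime hzr hz1] at h1
  exact (Nat.prime_dvd_prime_iff_eq h.prime h'.sympl.prime).1
    (((Nat.Prime.dvd_mul h.prime).1 h1).elim id fun h2 => h2.trans (Nat.gcd_dvd_right 2 s))

theorem HF.cases [Finite F] (hG : HF σ G ε) (hn : 2 ≤ Fintype.card ι) {H : Subgroup (GL ι F)}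
    (hH : H ≤ similarityGroup (fm σ G)) (hirr : Irr H) (hc : ¬ HasComm σ G H) :
    (∃ (a b : ℕ) (e : ι ≃ Fin a × Fin b) (P : GL ι F) (G₁ : Matrix (Fin a) (Fin a) F)
      (G₂ : Matrix (Fin b) (Fin b) F) (ε₁ ε₂ : F), 2 ≤ a ∧ 2 ≤ b ∧ Ten σ G H e P G₁ G₂ ε₁ ε₂) ∨
    (∃ r R, R ≤ H ∧ Nrm H R ∧ RType r R ∧ PreR r R) ∨ (∃ P, Core H P) ∨
      ∃ N t m e P L, TensorInd H N t m e P L := by
  have : Nonempty ι := Fintype.card_pos_iff.1 (by omega)
  obtain ⟨N, hle, hN⟩ := exists_minNS (nrm_self H) (not_le_scalars_of_irr hirr hn)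
  by_cases hsp : spanAlg N = ⊤
  swap
  · exact Or.inl (hG.exists_ten hirr hN.nrm (hle.trans hH) hN.nonscalar hsp hc)
  rcases hN.min _ (Subgroup.commutator_le_self N) (hN.nrm.commutator hN.nrm) with h | h
  · obtain ⟨r, hr⟩ := hN.rType hsp h
    obtain ⟨s, hs⟩ := hN.preR hsp h
    exact Or.inr (Or.inl ⟨r, N, hle, hN.nrm, hr, hs.prime_eq hr ▸ hs⟩)
  · rcases hN.perfect_case hle hsp h with h1 | h1
    · exact Or.inr (Or.inr (Or.inl ⟨N, h1⟩))
    · exact Or.inr (Or.inr (Or.inr ⟨N, h1⟩))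

/-- a non-scalar element of a symplectic-type group moves at least half of the space -/
theorem PreR.le_rank [Nonempty ι] {r : ℕ} {R : Subgroup (GL ι F)} (h : PreR r R) {x : GL ι F}
    (hx : x ∈ R) (hxs : x ∉ scalars ι F) : Fintype.card ι ≤ 2 * ((x : Matrix ι ι F) - 1).rank := by
  obtain ⟨y, hy, hne⟩ := h.exists_not_comm hxs
  obtain ⟨z, hz, hzz⟩ := h.comm y hy x hx
  by_contra! hlt
  obtain ⟨c, hc⟩ := (mem_scalars_iff _).1 hz
  have h3 := eq_one_of_scalar_of_rank hc (by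
    have : (z : Matrix ι ι F) - 1 = (cj x y - y) * ((y⁻¹ : GL ι F) : Matrix ι ι F) := by
      rw [cj_coe, hzz]; simp [sub_mul, mul_assoc]
    rw [this]
    exact ((Matrix.rank_mul_le_left _ _).trans (rank_cj_sub_le x y)).trans_lt hlt)
  exact hne (by rw [hzz, show z = 1 from Units.ext h3, one_mul])

theorem PreR.eq_one_of_rank [Nonempty ι] {r : ℕ} {R : Subgroup (GL ι F)} (h : PreR r R) {g : GL ι F}
    (hg : g ∈ subgroupNormalizer R) (hr : 4 * ((g : Matrix ι ι F) - 1).rank < Fintype.card ι) :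
    g = 1 := by
  have h1 : g ∈ scalars ι F := mem_scalars_of_comm h.span fun x hx => by
    have h1 : g * x * g⁻¹ * x⁻¹ ∈ R :=
      R.mul_mem ((Subgroup.mem_normalizer_iff.1 hg x).1 hx) (R.inv_mem hx)
    have h2 : (((g * x * g⁻¹ * x⁻¹ : GL ι F) : Matrix ι ι F) - 1).rank ≤
        2 * ((g : Matrix ι ι F) - 1).rank := by
      have : ((g * x * g⁻¹ * x⁻¹ : GL ι F) : Matrix ι ι F) - 1 =
        (cj g x - x) * ((x⁻¹ : GL ι F) : Matrix ι ι F) := by simp [cj_apply, sub_mul]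
      rw [this]
      exact (Matrix.rank_mul_le_left _ _).trans (rank_cj_sub_le g x)
    have h3 : g * x * g⁻¹ * x⁻¹ ∈ scalars ι F := by
      by_contra hs
      have := h.le_rank h1 hs
      omega
    obtain ⟨c, hc⟩ := (mem_scalars_iff _).1 h3
    have h4 : g * x * g⁻¹ * x⁻¹ = 1 := Units.ext (eq_one_of_scalar_of_rank hc (by omega))
    rw [mul_inv_eq_one, mul_inv_eq_iff_eq_mul] at h4
    exact h4.symm
  obtain ⟨c, hc⟩ := (mem_scalars_iff _).1 h1
  exact Units.ext (eq_one_of_scalar_of_rank hc (by omega))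

/-! ### transvections of a form -/

theorem smul_dot_fm (c : F) (v x : ι → F) : (c • G *ᵥ (σ ∘ v)) ⬝ᵥ x = c * fm σ G x v := by
  rw [smul_dotProduct, dotProduct_comm]; rfl

/-- the transvection `x ↦ x + c f(x, v) v` -/
def tvf (σ : F →+* F) (G : Matrix ι ι F) (v : ι → F) (c : F) (hv : fm σ G v v = 0) : GL ι F :=
  tv v (c • G *ᵥ (σ ∘ v)) (by rw [smul_dot_fm, hv, mul_zero])

theorem tvf_mulVec {v : ι → F} (c : F) (hv : fm σ G v v = 0) (x : ι → F) :
    (tvf σ G v c hv : Matrix ι ι F) *ᵥ x = x + (c * fm σ G x v) • v := by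
  rw [tvf, tv_mulVec, smul_dot_fm]

theorem HF.tvf_mem (hG : HF σ G ε) {v : ι → F} {c : F} (hv : fm σ G v v = 0)
    (hc : c + σ c * ε = 0) : tvf σ G v c hv ∈ isom σ G := by
  intro x y
  change fm σ G ((tvf σ G v c hv : Matrix ι ι F) *ᵥ x) ((tvf σ G v c hv : Matrix ι ι F) *ᵥ y) = _
  simp only [tvf_mulVec, fm_add_left, fm_add_right, fm_smul_left, fm_smul_right, hv, map_mul,
    hG.swap]
  linear_combination (fm σ G x v * fm σ G v y) * hc

theorem HF.smul_mulVec_ne (hG : HF σ G ε) {v : ι → F} {c : F} (hv : v ≠ 0) (hc : c ≠ 0) :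
    c • G *ᵥ (σ ∘ v) ≠ 0 := fun h => hv (hG.eq_zero_right fun x => by
  simpa [h, hc] using (smul_dot_fm (σ := σ) (G := G) c v x).symm)

/-- a group containing enough transvections of the form -/
structure TvG (σ : F →+* F) (G : Matrix ι ι F) (ε : F) (X : Subgroup (GL ι F)) : Prop where
  hf : HF σ G ε
  mem : ∀ v c hv, c + σ c * ε = 0 → tvf σ G v c hv ∈ X
  coef : ∃ c : F, c ≠ 0 ∧ c + σ c * ε = 0
  span : ∀ W : Submodule F (ι → F), W ≠ ⊤ → ∃ v, v ∉ W ∧ fm σ G v v = 0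

variable {X : Subgroup (GL ι F)}

theorem TvG.exists_tv [Nonempty ι] (h : TvG σ G ε X) :
    ∃ (v φ : ι → F) (hv : φ ⬝ᵥ v = 0), v ≠ 0 ∧ φ ≠ 0 ∧ tv v φ hv ∈ X := by
  obtain ⟨c, hc, h1⟩ := h.coef
  obtain ⟨v, hv, h2⟩ := h.span ⊥ bot_ne_top
  exact ⟨v, _, _, hv, h.hf.smul_mulVec_ne hv hc, h.mem v c h2 h1⟩

theorem TvG.not_le_stab (h : TvG σ G ε X) {W : Submodule F (ι → F)} (h1 : W ≠ ⊥) (h2 : W ≠ ⊤) :
    ¬ X ≤ subspaceStabilizer W := by
  intro hle
  obtain ⟨c, hc, hc1⟩ := h.coef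
  have h3 : ∀ v, fm σ G v v = 0 → v ∈ W ∨ v ∈ prp σ G W := fun v hv => by
    refine or_iff_not_imp_left.2 fun hW => h.hf.mem_prp.2 fun u hu => ?_
    by_contra h0
    have := inv_of_le hle _ (h.mem v c hv hc1) u hu
    rw [tvf_mulVec, W.add_mem_iff_right hu, W.smul_mem_iff (mul_ne_zero hc h0)] at this
    exact hW this
  obtain ⟨a, ha, ha0⟩ := h.span W h2
  obtain ⟨b, hb, hb0⟩ := h.span (prp σ G W) fun h4 => h1 (by
    have := h.hf.finrank_prp W
    rw [h4, finrank_top, Module.finrank_fintype_fun_eq_card] at this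
    exact Submodule.finrank_eq_zero.1 (by omega))
  have ha' := (h3 a ha0).resolve_left ha
  have hb' := (h3 b hb0).resolve_right hb
  rcases h3 (a + b) (by rw [fm_add_left, fm_add_right, fm_add_right, ha0, hb0,
    mem_prp.1 ha' b hb', h.hf.mem_prp.1 ha' b hb']; simp) with h4 | h4
  · exact ha ((W.add_mem_iff_left hb').1 h4)
  · exact hb (((prp σ G W).add_mem_iff_right ha').1 h4)

theorem TvG.not_le_field (h : TvG σ G ε X) (hn : 3 ≤ Fintype.card ι) {r : ℕ}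
    {K : Subalgebra F (Matrix ι ι F)} (hK : IsFieldSubalgebra r K) (hr : r ≠ 1) :
    ¬ X ≤ subalgebraNormalizer K := fun hle =>
  have : Nonempty ι := Fintype.card_pos_iff.1 (by omega)
  let ⟨_, _, hv, h1, h2, h3⟩ := h.exists_tv
  tv_not_mem_normalizer_field hK hr hn hv h1 h2 (hle h3)

theorem TvG.not_le_ten (h : TvG σ G ε X) {a b : ℕ} (ha : 2 ≤ a) (hb : 2 ≤ b)
    (e : ι ≃ Fin a × Fin b) (P : GL ι F) : ¬ X ≤ tensorProductSubgroup a b e P := fun hle => by
  have : Nonempty ι := ⟨e.symm (⟨0, by omega⟩, ⟨0, by omega⟩)⟩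
  obtain ⟨v, φ, hv, h1, h2, h3⟩ := h.exists_tv
  have := rank_tv_sub_one v φ hv
  exact tv_ne_one hv h1 h2 (eq_one_of_mem_tensorProductSubgroup (hle h3) (by omega) (by omega))

theorem TvG.not_le_ext (h : TvG σ G ε X) (hn : 5 ≤ Fintype.card ι) {r : ℕ} {R : Subgroup (GL ι F)}
    (hR : PreR r R) : ¬ X ≤ subgroupNormalizer R := fun hle => by
  have : Nonempty ι := Fintype.card_pos_iff.1 (by omega)
  obtain ⟨v, φ, hv, h1, h2, h3⟩ := h.exists_tv
  have := rank_tv_sub_one v φ hv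
  exact tv_ne_one hv h1 h2 (hR.eq_one_of_rank (hle h3) (by omega))

/-- the centre of a transvection stabilising a decomposition lies in the sum of two members -/
theorem HF.mem_of_tvf_mem (hG : HF σ G ε) {t m : ℕ} {D : Fin t → Submodule F (ι → F)}
    (hD : IsMDecomposition m D) {v : ι → F} {c : F} (hc : c ≠ 0) (hv : fm σ G v v = 0)
    (h : tvf σ G v c hv ∈ decompositionStabilizer D) :
    (∃ i, v ∈ D i) ∨ (m = 1 ∧ ∃ i j, v ∈ D i ⊔ D j) := by
  by_cases hv0 : v = 0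
  · exact Or.inl ⟨⟨0, by have := hD.two_le; omega⟩, hv0 ▸ zero_mem _⟩
  obtain ⟨i, u, hu, huv⟩ : ∃ i, ∃ u ∈ D i, fm σ G u v ≠ 0 := by
    by_contra! h0
    refine hv0 (hG.eq_zero_right fun x => ?_)
    have hx : x ∈ iSup D := hD.iSup_eq_top ▸ Submodule.mem_top
    exact Submodule.iSup_induction D (motive := fun x => fm σ G x v = 0) hx h0 (by simp [fm])
      fun a b ha hb => by rw [fm_add_left, ha, hb, add_zero]
  obtain ⟨τ, hτ⟩ := h
  have h1 : ∀ w ∈ D i, w + (c * fm σ G w v) • v ∈ D (τ i) := fun w hw =>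
    hτ i ▸ ⟨w, hw, by rw [Matrix.toLin'_apply, tvf_mulVec]⟩
  by_cases hi : τ i = i
  · have := h1 u hu
    rw [hi, (D i).add_mem_iff_right hu, (D i).smul_mem_iff (mul_ne_zero hc huv)] at this
    exact Or.inl ⟨i, this⟩
  refine Or.inr ⟨?_, i, τ i, ?_⟩
  · rw [← hD.finrank_eq i]
    refine le_antisymm ?_ (hD.finrank_eq i ▸ hD.pos)
    rw [← Module.finrank_self F]
    refine LinearMap.finrank_le_finrank_of_injective (f := (fmB σ G v).comp (D i).subtype)
      ((injective_iff_map_eq_zero _).2 fun w hw => Subtype.ext ?_)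
    have := h1 w w.2
    rw [show fm σ G w v = 0 from hw, mul_zero, zero_smul, add_zero] at this
    exact Submodule.disjoint_def.1 (hD.indep.pairwiseDisjoint hi) _ this w.2
  · rw [← Submodule.smul_mem_iff _ (mul_ne_zero hc huv),
      ← Submodule.add_mem_iff_right _ (Submodule.mem_sup_left hu)]
    exact Submodule.mem_sup_right (h1 u hu)

theorem TvG.not_le_dec (h : TvG σ G ε X) {t m : ℕ} {D : Fin t → Submodule F (ι → F)}
    (hD : IsMDecomposition m D) (hm : m ≠ 1) : ¬ X ≤ decompositionStabilizer D := by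
  intro hle
  obtain ⟨c, hc, hc1⟩ := h.coef
  have h1 : ∀ v, fm σ G v v = 0 → ∃ i, v ∈ D i := fun v hv =>
    (h.hf.mem_of_tvf_mem hD hc hv (hle (h.mem v c hv hc1))).resolve_right fun h => hm h.1
  have h2 : ∀ i, D i ≠ ⊤ := fun i hi => by
    have := Fin.nontrivial_iff_two_le.2 hD.two_le
    obtain ⟨j, hj⟩ := exists_ne i
    obtain ⟨u, hu, hu0⟩ := hD.h26_exists_ne_zero j
    exact hu0 (Submodule.disjoint_def.1 (hD.indep.pairwiseDisjoint hj) u hu (hi ▸ trivial))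
  obtain ⟨a, ha, ha0⟩ := h.span ⊥ fun h0 => h2 ⟨0, by have := hD.two_le; omega⟩
    (eq_top_iff.2 (h0 ▸ bot_le))
  obtain ⟨i, hi⟩ := h1 a ha0
  obtain ⟨b, hb, hb0⟩ := h.span _ (h2 i)
  obtain ⟨j, hj⟩ := h1 b hb0
  obtain ⟨d, hd, hd1⟩ : ∃ d : F, d ≠ 0 ∧ d * fm σ G b a + σ d * fm σ G a b = 0 := by
    by_cases h3 : fm σ G b a = 0
    · exact ⟨1, one_ne_zero, by simp [h3, h.hf.refl h3]⟩
    have : Nonempty ι := by
      by_contra h0
      exact ha (by rw [not_nonempty_iff] at h0; exact Subsingleton.elim a 0 ▸ zero_mem _)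
    have h4 := h.hf.eps
    have h5 := h.hf.swap a b
    have h6 : σ (fm σ G b a) ≠ 0 := (map_ne_zero σ).2 h3
    refine ⟨σ c / fm σ G b a, div_ne_zero ((map_ne_zero σ).2 hc) h3, ?_⟩
    rw [map_div₀, h.hf.inv, div_mul_cancel₀ _ h3, h5]
    have h7 : ε ≠ 0 := left_ne_zero_of_mul (h4 ▸ one_ne_zero)
    have h8 : fm σ G a b ≠ 0 := right_ne_zero_of_mul (h5 ▸ h6)
    field_simp
    linear_combination hc1
  obtain ⟨k, hk⟩ := h1 (a + d • b) (by
    simp only [fm_add_left, fm_add_right, fm_smul_left, fm_smul_right, ha0, hb0]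
    linear_combination hd1)
  exact not_mem_of_decomp hD (fun h0 : i = j => hb (h0 ▸ hj)) hi ((D j).smul_mem d hj) ha
    (smul_ne_zero hd fun h0 => hb (h0 ▸ zero_mem _)) k hk

theorem trace_tvf_mul {v w : ι → F} (c d : F) (hv : fm σ G v v = 0) (hw : fm σ G w w = 0) :
    ((tvf σ G v c hv : Matrix ι ι F) * tvf σ G w d hw).trace =
      Fintype.card ι + c * fm σ G w v * (d * fm σ G v w) := by
  rw [tvf, tvf, trace_tv_mul_tv, smul_dot_fm, smul_dot_fm]

end Cfsg.Agent.H26
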