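import Mathlib
import Cfsg.Agent.H26.Core

/-! Aschbacher's theorem for symplectic groups. -/

set_option autoImplicit false
set_option maxHeartbeats 400000

namespace Cfsg.Agent.H26

open Matrix Cfsg.Geo
open scoped Kronecker

variable {ι κ β : Type} [Fintype ι] [DecidableEq ι] [Fintype κ] [DecidableEq κ]
  [Fintype β] [DecidableEq β] {F : Type*} [Field F] {G : Matrix ι ι F}

/-- the refined list of geometric cases for the symplectic groups -/
inductive SpCase [Fintype F] (G : Matrix ι ι F) (rel : Subgroup (GL ι F) → Prop) : Prop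
  | ts (W : Submodule F (ι → F)) (h1 : W ≠ ⊥) (h2 : IsTotallySingularFor (fm (RingHom.id F) G) W)
      (h : rel (subspaceStabilizer W))
  | nd (W : Submodule F (ι → F)) (h1 : W ≠ ⊥) (h2 : IsNondegenerateOn (fm (RingHom.id F) G) W)
      (h3 : 2 * Module.finrank F W < Fintype.card ι) (h : rel (subspaceStabilizer W))
  | dec (t k : ℕ) (D : Fin t → Submodule F (ι → F))
      (hD : IsNondegenerateMDecomposition (fm (RingHom.id F) G) k D) (hk : Even k)
      (h1 : k = 2 → 3 ≤ Fintype.card F) (h : rel (decompositionStabilizer D))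
  | pair (m : ℕ) (D : Fin 2 → Submodule F (ι → F)) (hq : Odd (Fintype.card F))
      (hD : IsMDecomposition m D) (h1 : ∀ i, IsTotallySingularFor (fm (RingHom.id F) G) (D i))
      (h : rel (decompositionStabilizer D))
  | fld (r : ℕ) (K : Subalgebra F (Matrix ι ι F)) (hr : r.Prime) (hK : IsFieldSubalgebra r K)
      (h1 : IsSelfAdjointFor (fm (RingHom.id F) G) K)
      (h2 : ∀ k ∈ K, ∀ v, fm (RingHom.id F) G (k *ᵥ v) v = 0) (h : rel (subalgebraNormalizer K))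
  | ufld (K : Subalgebra F (Matrix ι ι F)) (hq : Odd (Fintype.card F)) (hK : IsFieldSubalgebra 2 K)
      (h1 : IsAdjointClosedFor (fm (RingHom.id F) G) K)
      (h2 : ¬ IsSelfAdjointFor (fm (RingHom.id F) G) K) (h : rel (subalgebraNormalizer K))
  | ten (n₁ n₂ : ℕ) (e : ι ≃ Fin n₁ × Fin n₂) (P : GL ι F) (G₁ : Matrix (Fin n₁) (Fin n₁) F)
      (G₂ : Matrix (Fin n₂) (Fin n₂) F) (hq : Odd (Fintype.card F)) (h1 : 2 ≤ n₁) (h2 : 3 ≤ n₂)
      (h3 : n₂ = 3 → 5 ≤ Fintype.card F) (h4 : Alt G₁)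
      (hT : Ten (RingHom.id F) G ⊥ e P G₁ G₂ (-1) 1) (h : rel (tensorProductSubgroup n₁ n₂ e P))
  | sub (F₀ : Subfield F) (r : ℕ) (P : GL ι F) (ζ : F) (hr : r.Prime)
      (hc : Fintype.card F = Nat.card F₀ ^ r) (h1 : ζ ≠ 0)
      (h2 : IsFormRationalStructure (fm (RingHom.id F) G) F₀ ζ P) (h : rel (subfieldSubgroup F₀ P))
  | ext (R : Subgroup (GL ι F)) (k : ℕ) (hR : RType 2 R) (hR' : PreR 2 R)
      (h1 : R ≤ isom (RingHom.id F) G) (hp : (Fintype.card F).Prime) (hq : Odd (Fintype.card F))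
      (hk : Fintype.card ι = 2 ^ k) (h : rel (subgroupNormalizer R))
  | wr (k t : ℕ) (e : ι ≃ (Fin t → Fin k)) (P : GL ι F) (c : F) (G₀ : Matrix (Fin k) (Fin k) F)
      (hq : Odd (Fintype.card F)) (h1 : Odd t) (h2 : 3 ≤ t) (h3 : 2 ≤ k)
      (h4 : ¬ (Fintype.card F = 3 ∧ k = 2)) (h5 : Alt G₀)
      (hW : Wr (RingHom.id F) G ⊥ e P c G₀ (-1)) (h : rel (tensorWreathSubgroup k t e P))
  | orth (Q : (ι → F) → F) (hq : ¬ Odd (Fintype.card F)) (hQ : QF Q G)
      (h : rel (quadSimilarityGroup Q))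

theorem alt_of_blockDiagonal {T : Type} [Fintype T] [DecidableEq T] {Gs : T → Matrix κ κ F}
    (h : Alt (Matrix.blockDiagonal Gs)) (j : T) : Alt (Gs j) :=
  alt_of_fm_self fun v => by rw [← fm_blkVec]; exact h.fm_self _

theorem alt_blockDiagonal {T : Type} [Fintype T] [DecidableEq T] {Gs : T → Matrix κ κ F}
    (h : ∀ j, Alt (Gs j)) : Alt (Matrix.blockDiagonal Gs) :=
  ⟨by rw [Matrix.blockDiagonal_transpose, ← Matrix.blockDiagonal_neg]; congr 1; ext1 j; exact (h j).1,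
    fun ⟨i, j⟩ => by simp [(h j).2]⟩

theorem alt_unF (h : Alt G) (e : ι ≃ κ) (P : GL ι F) : Alt (unF (RingHom.id F) e P G) :=
  alt_of_fm_self fun v => by rw [← fm_unF]; exact h.fm_self _

theorem Alt.eq_smul_J₂ {G : Matrix (Fin 2) (Fin 2) F} (h : Alt G) : G = G 0 1 • J₂ F := by
  have h1 := congrFun (congrFun h.1 0) 1
  ext i j; fin_cases i <;> fin_cases j <;> simp_all [J₂, h.2]

theorem unF_add (σ : F →+* F) (e : ι ≃ κ) (P : GL ι F) (A B : Matrix ι ι F) :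
    unF σ e P (A + B) = unF σ e P A + unF σ e P B := by
  simp [unF, pull, mul_add, add_mul, Matrix.submatrix_add]

/-- `Sp₂(2) ≀ S_t` fixes a quadratic form -/
theorem exists_qf_of_planes [Fintype F] (hq : Fintype.card F = 2) (hG : Alt G) (hu : IsUnit G) {t : ℕ}
    {D : Fin t → Submodule F (ι → F)} (hD : IsNondegenerateMDecomposition (fm (RingHom.id F) G) 2 D) :
    ∃ Q, QF Q G ∧ decompositionStabilizer D ≤ isometryGroup F Q := by
  have h2 : (2 : F) = 0 := by simpa [hq] using FiniteField.cast_card_eq_zero F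
  have h11 : (1 : F) + 1 = 0 := by rw [one_add_one_eq_two, h2]
  obtain ⟨e, P, hB⟩ := exists_blk hD.decomp
  obtain ⟨Gs, h1, h3⟩ := hB.exists_eq (hf_alt hG hu) hD.orthogonal
  let U : Matrix (Fin 2) (Fin 2) F := !![1, 1; 0, 1]
  have h4 : ∀ j, Gs j = U + Uᵀ := fun j => by
    have h5 := (alt_of_blockDiagonal (h1 ▸ alt_unF hG e P) j).eq_smul_J₂
    rcases eq_zero_or_one hq (Gs j 0 1) with h6 | h6 <;> rw [h6] at h5
    · exact absurd (by simpa using h5) (h3 j).unit.ne_zero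
    · rw [h5]; ext a b; fin_cases a <;> fin_cases b <;> simp [U, J₂, h11, neg_eq_of_two h2]
  refine ⟨_, qf_fm (B := trF (RingHom.id F) e P (Matrix.blockDiagonal fun _ => U)) ?_ hu,
    fun g hg => ?_⟩
  · apply unF_injective (RingHom.id F) e P
    rw [unF_add, ← unF_transpose, unF_trF, h1, Matrix.blockDiagonal_transpose,
      ← Matrix.blockDiagonal_add]
    congr 1; ext1 j; exact (h4 j).symm
  · obtain ⟨τ, a, ha⟩ := hB.stab g hg
    rw [← (trG e P).apply_symm_apply g]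
    refine mem_isometryGroup_trG ?_
    rw [coe_trG_symm, ha, AlgEquiv.symm_apply_apply, pull_blk, ← Matrix.blockDiagonal_sub]
    refine alt_blockDiagonal fun j => alt_of_fm_self fun v => ?_
    have h5 : ∀ w : Fin 2 → F, w ≠ 0 → fm (RingHom.id F) U w w = 1 := fun w hw => by
      have h6 : ¬ (w 0 = 0 ∧ w 1 = 0) := fun h => hw (by ext i; fin_cases i <;> simp [h.1, h.2])
      rcases eq_zero_or_one hq (w 0) with a | a <;> rcases eq_zero_or_one hq (w 1) with b | b <;>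
        simp_all [fm_eq_sum, U]
    by_cases hv : v = 0
    · simp [hv, fm]
    · rw [Pi.sub_apply, fm_sub, ← fm_pull, h5 v hv, h5 _ fun h => hv (by
        rw [← inv_mulVec_mulVec (a j) v, h, Matrix.mulVec_zero]), sub_self]

theorem spCase_of_qf [Fintype F] (h2 : (2 : F) = 0) {H : Subgroup (GL ι F)} {Q : (ι → F) → F}
    (hQ : QF Q G) (h : H ≤ isometryGroup F Q) : SpCase G (H ≤ ·) :=
  .orth Q (fun h => two_ne_zero_iff_odd.2 h h2) hQ (h.trans isometryGroup_le_quadSim)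

theorem spCase_of_dec [Fintype F] (hG : Alt G) (hu : IsUnit G) {H : Subgroup (GL ι F)} {t k : ℕ}
    {D : Fin t → Submodule F (ι → F)} (hD : IsNondegenerateMDecomposition (fm (RingHom.id F) G) k D)
    (h : H ≤ decompositionStabilizer D) : SpCase G (H ≤ ·) := by
  have hq : 1 < Fintype.card F := Fintype.one_lt_card
  by_cases h1 : k = 2 ∧ Fintype.card F = 2
  · obtain ⟨rfl, h1⟩ := h1
    obtain ⟨Q, hQ, h2⟩ := exists_qf_of_planes h1 hG hu hD
    exact spCase_of_qf (by simpa [h1] using FiniteField.cast_card_eq_zero F) hQ (h.trans h2)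
  · have h2 := hG.even_finrank hu (hD.nondegenerate ⟨0, by have := hD.decomp.two_le; omega⟩)
    exact .dec t k D hD (hD.decomp.finrank_eq _ ▸ h2) (by omega) h

theorem spCase_of_sub [Fintype F] {H : Subgroup (GL ι F)} (h : SubCase (RingHom.id F) G H) :
    SpCase G (H ≤ ·) :=
  let ⟨F₀, r, P, c, hr, hc, h0, h1, h2⟩ := h
  .sub F₀ r P c hr hc h0 (isFormRationalStructure_fm h1) h2

theorem spCase_of_hasComm [Fintype F] [Nonempty ι] (hG : Alt G) (hu : IsUnit G)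
    {H : Subgroup (GL ι F)} (hH : H ≤ isom (RingHom.id F) G) (hirr : Irr H)
    (hc : HasComm (RingHom.id F) G H) : SpCase G (H ≤ ·) := by
  have hf := hf_alt hG hu
  obtain ⟨C, h1, h2, h3, h4⟩ := hc
  rcases hf.comm_case (hH.trans (isom_le_similarityGroup _ _)) hirr h1 h2 h3 h4 with
    ⟨t, k, D, hD, h⟩ | ⟨m, e, -, he, h5, hD, h6, h⟩ | ⟨r, K, hr, hK, h5, h6⟩
  · exact spCase_of_dec hG hu hD h
  · by_cases h2 : (2 : F) = 0
    · exact let ⟨hQ, h7⟩ := exists_qf_of_pair h2 hG hu hH he h5; spCase_of_qf h2 hQ h7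
    · exact .pair m _ (two_ne_zero_iff_odd.1 h2) hD h6 h
  · by_cases h7 : ∀ k ∈ K, adj (RingHom.id F) G k = k
    · exact .fld r K hr hK (hf.isSelfAdjointFor_iff.2 h7)
        (fun k hk => hG.fm_self_adj hu hK h5 hk (h7 k hk)) h6.le_normalizer
    by_cases h2 : (2 : F) = 0
    · exact let ⟨_, _, hQ, h8⟩ := exists_qf_of_field h2 hG hu hH hK h5 h6 h7; spCase_of_qf h2 hQ h8
    obtain rfl := hr.even_iff.1 ((h5.self_or_even hf hK).resolve_left h7)
    exact .ufld K (two_ne_zero_iff_odd.1 h2) hK (h5.isAdjointClosedFor hf)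
      (mt hf.isSelfAdjointFor_iff.1 h7) h6.le_normalizer

theorem Ten.mono {σ : F →+* F} {H H' : Subgroup (GL ι F)} {e : ι ≃ κ × β} {P : GL ι F}
    {G₁ : Matrix κ κ F} {G₂ : Matrix β β F} {ε₁ ε₂ : F} (h : Ten σ G H e P G₁ G₂ ε₁ ε₂)
    (hle : H' ≤ H) : Ten σ G H' e P G₁ G₂ ε₁ ε₂ := ⟨h.hf₁, h.hf₂, h.eq, hle.trans h.le⟩

theorem Wr.mono {σ : F →+* F} {T : Type} [Fintype T] [DecidableEq T] {H H' : Subgroup (GL ι F)}
    {e : ι ≃ (T → κ)} {P : GL ι F} {c ε₀ : F} {G₀ : Matrix κ κ F} (h : Wr σ G H e P c G₀ ε₀)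
    (hle : H' ≤ H) : Wr σ G H' e P c G₀ ε₀ := ⟨h.hf, h.ne, h.eq, fun g hg => h.mem g (hle hg)⟩

theorem HF.alt_of_irr [Finite F] {ε : F} (h : HF (RingHom.id F) G ε) (h2 : (2 : F) = 0)
    {H : Subgroup (GL ι F)} (hH : Irr H) (hn : 2 ≤ Fintype.card ι)
    (hsim : H ≤ similarityGroup (fm (RingHom.id F) G)) : Alt G :=
  have : Nonempty ι := Fintype.card_pos_iff.1 (by omega)
  H26.alt_of_irr h2 hH hn (h.symm_or_skew.elim id fun h1 => by rw [h1, neg_eq_of_two h2]) hsim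

theorem HF.alt (h : HF (RingHom.id F) G (-1)) (h2 : (2 : F) ≠ 0) : Alt G :=
  alt_of_skew h2 (by simpa using h.transpose)

theorem Ten.exists_qf' [Finite F] (h2 : (2 : F) = 0) {H : Subgroup (GL ι F)} {e : ι ≃ κ × β}
    {P : GL ι F} {G₁ : Matrix κ κ F} {G₂ : Matrix β β F} {ε₁ ε₂ : F}
    (h : Ten (RingHom.id F) G H e P G₁ G₂ ε₁ ε₂) (ha : 2 ≤ Fintype.card κ) (hb : 2 ≤ Fintype.card β)
    (hH : H ≤ isom (RingHom.id F) G) (hirr : Irr H) : Alt G₁ ∧ Alt G₂ ∧
    ∃ Q, QF Q G ∧ H ≤ isometryGroup F Q ∧ ∀ (x : κ → F) (y : β → F),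
      Q ((P : Matrix ι ι F) *ᵥ ((fun p : κ × β => x p.1 * y p.2) ∘ e)) = 0 := by
  have : Nonempty κ := Fintype.card_pos_iff.1 (by omega)
  have : Nonempty β := Fintype.card_pos_iff.1 (by omega)
  have hs := hH.trans (isom_le_similarityGroup _ _)
  have h3 := h.hf₁.alt_of_irr h2 (irr_projL hirr h.le) ha (h.sim hs)
  have h4 := h.hf₂.alt_of_irr h2 (irr_projL hirr h.swap.le) hb (h.swap.sim hs)
  exact ⟨h3, h4, h.exists_qf h2 h3 h4 hH⟩

theorem spCase_of_ten [Fintype F] (hG : Alt G) (hu : IsUnit G) {H : Subgroup (GL ι F)}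
    (hH : H ≤ isom (RingHom.id F) G) (hirr : Irr H) (hc : ¬ HasComm (RingHom.id F) G H)
    (h2 : (2 : F) ≠ 0) {a b : ℕ} (ha : 2 ≤ a) (hb : 2 ≤ b) {e : ι ≃ Fin a × Fin b} {P : GL ι F}
    {G₁ : Matrix (Fin a) (Fin a) F} {G₂ : Matrix (Fin b) (Fin b) F}
    (h : Ten (RingHom.id F) G H e P G₁ G₂ (-1) 1) : SpCase G (H ≤ ·) := by
  have : Nonempty (Fin a) := ⟨⟨0, by omega⟩⟩
  have : Nonempty (Fin b) := ⟨⟨0, by omega⟩⟩
  have hs := h.swap.sim (hH.trans (isom_le_similarityGroup _ _))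
  have hq := two_ne_zero_iff_odd.1 h2
  refine .ten a b e P G₁ G₂ hq ha ?_ ?_ (h.hf₁.alt h2) (h.mono bot_le) (tenG_eq e P ▸ h.le)
  · by_contra h3
    obtain rfl : b = 2 := by omega
    exact hc (h.swap.hasComm (hf_alt hG hu) (hasComm_of_symm_two h2 h.hf₂ hs))
  · rintro rfl
    by_contra h3
    have h4 : 1 < Fintype.card F := Fintype.one_lt_card
    obtain ⟨k, hk⟩ := hq
    exact hc (h.swap.hasComm (hf_alt hG hu) (hasComm_O3 (by omega) (by simp) h.hf₂ hs
      (irr_projL hirr h.swap.le)))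

theorem TensorInd.exists_qf [Finite F] (h2 : (2 : F) = 0) {H N : Subgroup (GL ι F)} {t m : ℕ}
    {e : ι ≃ (Fin t → Fin m)} {P : GL ι F} {L : Subgroup (GL (Fin m) F)}
    (h : TensorInd H N t m e P L) {c ε₀ : F} {G₀ : Matrix (Fin m) (Fin m) F}
    (hw : Wr (RingHom.id F) G H e P c G₀ ε₀) (hH : H ≤ isom (RingHom.id F) G) :
    ∃ Q, QF Q G ∧ H ≤ isometryGroup F Q := by
  have h1 := h.two_le_t
  have h3 := h.two_le_m
  have h4 : 2 ≤ Fintype.card ({j // j ≠ (⟨0, by omega⟩ : Fin t)} → Fin m) := by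
    simp only [Fintype.card_pi, Fintype.card_fin, Finset.prod_const, Finset.card_univ,
      Fintype.card_subtype_compl, Fintype.card_unique]
    exact h3.trans (Nat.le_self_pow (by omega) m)
  obtain ⟨-, -, Q, hQ, h5, -⟩ := (h.ten hw ⟨0, by omega⟩).exists_qf' h2 (by simpa using h3) h4
    (h.le.trans hH) (irr_of_spanAlg_eq_top h.span)
  refine ⟨Q, hQ, hQ.le_of_nrm h.nrm (irr_of_spanAlg_eq_top h.span) ?_ h5 hH⟩
  rw [Fintype.card_congr e]
  simpa using h3.trans (Nat.le_self_pow (by omega) m)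

/-- **Aschbacher's theorem**, refined symplectic case -/
theorem sp_cases [Fintype F] (hG : Alt G) (hu : IsUnit G) (hn : 2 ≤ Fintype.card ι)
    {H : Subgroup (GL ι F)} (hH : H ≤ isom (RingHom.id F) G) :
    SpCase G (H ≤ ·) ∨ InSymplecticResidualClass H := by
  have : Nonempty ι := Fintype.card_pos_iff.1 (by omega)
  have hf := hf_alt hG hu
  have hs := hH.trans (isom_le_similarityGroup _ _)
  by_cases hirr : Irr H
  swap
  · rcases hf.red' hs hirr with ⟨W, h1, h2, h⟩ | ⟨W, h1, h2, h3, h⟩ | ⟨m, D, hD, h⟩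
    · exact Or.inl (.ts W h1 h2 h)
    · exact Or.inl (.nd W h1 h2 h3 h)
    · exact Or.inl (spCase_of_dec hG hu hD h)
  by_cases hc : HasComm (RingHom.id F) G H
  · exact Or.inl (spCase_of_hasComm hG hu hH hirr hc)
  rcases hf.cases hn hs hirr hc with ⟨a, b, e, P, G₁, G₂, ε₁, ε₂, ha, hb, h⟩ |
    ⟨r, R, h1, h2, h, h'⟩ | ⟨P, h⟩ | ⟨N, t, m, e, P, L, h⟩
  · left
    by_cases h2 : (2 : F) = 0
    · obtain ⟨-, -, Q, hQ, h3, -⟩ := h.exists_qf' h2 (by simpa) (by simpa) hH hirr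
      exact spCase_of_qf h2 hQ h3
    have : Nonempty (Fin a) := ⟨⟨0, by omega⟩⟩
    have : Nonempty (Fin b) := ⟨⟨0, by omega⟩⟩
    have h3 := h.eps hf
    rcases h.hf₂.id_cases with rfl | rfl
    · obtain rfl : ε₁ = -1 := by simpa using h3
      exact spCase_of_ten hG hu hH hirr hc h2 ha hb h
    · obtain rfl : ε₁ = 1 := by simpa using h3
      exact spCase_of_ten hG hu hH hirr hc h2 hb ha h.swap
  · left
    obtain ⟨rfl, h3⟩ := h.two_of_isom hu (h1.trans hH)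
    rcases h.subfield_or_minimal with ⟨F₀, h4, h5⟩ | ⟨p, e, hrp, hmin⟩
    · exact spCase_of_sub (hf.subCase h2 h.span (h1.trans hH) h4 h5)
    obtain rfl := (h.le_two_of_minimal hrp hmin).2 h3
    obtain ⟨k, -, hk, -⟩ := h.dim
    exact .ext R k h h' (h1.trans hH) (by rw [hmin.2.2.1, pow_one]; exact hmin.1)
      (two_ne_zero_iff_odd.1 (by simpa using h.ne_char)) hk h2.le_normalizer
  · have hP := h.le.trans hH
    by_cases h1 : ∃ F₀ : Subfield F, F₀ ≠ ⊤ ∧ ∀ g ∈ P, (g : Matrix ι ι F).trace ∈ F₀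
    · obtain ⟨F₀, h1, h2⟩ := h1
      exact Or.inl (spCase_of_sub (hf.subCase h.nrm h.span hP h1 h2))
    by_cases h2 : ∃ Q : (ι → F) → F, IsNondegenerateQuadraticForm Q ∧ FixesQuadForm (matrixSet P) Q
    · obtain ⟨Q, h2, h3⟩ := h2
      obtain ⟨G', hQ⟩ := exists_qf h2
      rw [fixesQuadForm_iff] at h3
      obtain ⟨c, rfl⟩ := eq_smul_of_isom h.span hu hP (h3.trans hQ.isometryGroup_le)
      have hc0 : c ≠ 0 := by rintro rfl; exact hQ.unit.ne_zero (zero_smul _ _)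
      have h4 := hQ.const_mul (inv_ne_zero hc0)
      rw [inv_smul_smul₀ hc0] at h4
      have h5 : (2 : F) = 0 := by
        have h6 := h4.symm
        rw [hG.1, neg_eq_iff_add_eq_zero, ← two_smul F, smul_eq_zero] at h6
        exact h6.resolve_right hu.ne_zero
      exact Or.inl (spCase_of_qf h5 h4 (h4.le_of_nrm h.nrm (irr_of_spanAlg_eq_top h.span) hn
        (fun g hg => mem_isometryGroup.2 fun v => by rw [mem_isometryGroup.1 (h3 hg)]) hH))
    refine Or.inr ⟨P, h.isResidualCore fun F₀ h5 h6 =>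
      h1 ⟨F₀, h5, trace_mem_of_realisableOver h6⟩, h2, ?_⟩
    rintro ⟨τ, f, h4, h5⟩
    obtain ⟨B, hB, -, rfl⟩ := unitary_eq_fm h4
    refine h1 ⟨fixF τ, fixF_ne_top ?_, fun g hg => trace_mem_fixF hu hB (hP hg) (fixesForm_iff.1 h5 hg)⟩
    by_contra! h6
    exact h4.ne_refl (RingEquiv.ext h6)
  · left
    obtain ⟨c, G₀, ε₀, hw, hL⟩ := h.exists_wr hf (h.le.trans hH)
    by_cases h2 : (2 : F) = 0
    · exact let ⟨Q, hQ, h3⟩ := h.exists_qf h2 hw hH; spCase_of_qf h2 hQ h3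
    have h3 := h.two_le_m
    have h4 := h.two_le_t
    have : Nonempty (Fin m) := ⟨⟨0, by omega⟩⟩
    have h5 := hw.eps_id hf
    have h6 : (1 : F) ≠ -1 := fun h => h2 (by linear_combination h)
    rw [Fintype.card_fin] at h5
    obtain rfl : ε₀ = -1 := hw.hf.id_cases.resolve_left fun h => h6 (by simpa [h] using h5)
    have h7 : Odd t := Nat.not_even_iff_odd.1 fun h => h6 (by rw [← h5, h.neg_one_pow])
    refine .wr m t e P c G₀ (two_ne_zero_iff_odd.1 h2) h7 (by obtain ⟨k, hk⟩ := h7; omega) h3 ?_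
      (hw.hf.alt h2) (hw.mono bot_le) hw.le
    rintro ⟨h8, rfl⟩
    exact spanAlg_bot_ne_top (ι := Fin 2) (F := F) (by simp)
      (eq_bot_of_perfect_GL2 h8.le h.perfectL ▸ h.spanL)

/-! ### properness -/

theorem tvG_sp (hG : Alt G) (hu : IsUnit G) :
    TvG (RingHom.id F) G (-1) (isom (RingHom.id F) G) :=
  ⟨hf_alt hG hu, fun _ _ hv hc => (hf_alt hG hu).tvf_mem hv hc, ⟨1, one_ne_zero, by simp⟩,
    fun W hW => by
      by_contra! h
      exact hW (eq_top_iff.2 fun v _ => by_contra fun hv => h v hv (hG.fm_self v))⟩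

theorem sp_not_le_sub [Finite F] [Nonempty ι] (hG : Alt G) (hu : IsUnit G) {F₀ : Subfield F}
    (h0 : F₀ ≠ ⊤) (P : GL ι F) : ¬ isom (RingHom.id F) G ≤ subfieldSubgroup F₀ P := by
  intro hle
  have hf := hf_alt hG hu
  obtain ⟨v, hv⟩ := exists_ne (0 : ι → F)
  obtain ⟨w, hw⟩ := exists_fm_ne_zero_left (σ := RingHom.id F) hu hv
  refine h0 (eq_top_iff.2 fun a _ => ?_)
  have h1 := trace_mem_of_mem_ratSub (mul_mem
    (tv_mem_ratSub (hle (hf.tvf_mem (c := a / fm (RingHom.id F) G w v) (hG.fm_self v) (by simp))))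
    (tv_mem_ratSub (hle (hf.tvf_mem (c := 1 / fm (RingHom.id F) G v w) (hG.fm_self w) (by simp)))))
  have h2 := trace_tvf_mul (a / fm (RingHom.id F) G w v) (1 / fm (RingHom.id F) G v w)
    (hG.fm_self v) (hG.fm_self w)
  rw [div_mul_cancel₀ _ hw, div_mul_cancel₀ _ fun h => hw (hf.refl h), mul_one] at h2
  rw [Units.val_mul] at h1
  exact (add_mem_cancel_left (natCast_mem F₀ (Fintype.card ι))).1 (h2 ▸ h1 : _ + a ∈ F₀)

theorem sp_not_le_orth (hG : Alt G) (hn : 3 ≤ Fintype.card ι) {Q : (ι → F) → F} (hQ : QF Q G) :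
    ¬ isom (RingHom.id F) G ≤ quadSimilarityGroup Q := by
  intro hle
  have : Nonempty ι := Fintype.card_pos_iff.1 (by omega)
  have hf := hf_alt hG hQ.unit
  have h1 : ∀ v, v ≠ 0 → Q v = -1 := fun v hv => by
    obtain ⟨w, hw⟩ := exists_fm_ne_zero_left (σ := RingHom.id F) hQ.unit hv
    have h2 := hf.tvf_mem (c := 1) (hG.fm_self v) (by simp)
    have h3 := mem_isometryGroup.1 (hQ.mem_isometryGroup_of_sim (hle h2) h2) w
    rw [tvf_mulVec, hQ.add, hQ.smul, fm_smul_right, RingHom.id_apply, one_mul] at h3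
    exact mul_left_cancel₀ (pow_ne_zero 2 hw) (by linear_combination h3)
  obtain ⟨i, j, k, hij, hik, hjk⟩ := exists_three hn
  have h2 : ∀ u v : ι → F, u ≠ 0 → v ≠ 0 → u + v ≠ 0 → fm (RingHom.id F) G u v = 1 :=
    fun u v hu hv huv => by
      have := hQ.add u v
      rw [h1 u hu, h1 v hv, h1 _ huv] at this
      linear_combination -this
  have h3 := h2 (Pi.single i 1) (Pi.single j 1 + Pi.single k 1) (by simp)
    (fun h => by simpa [hjk] using congrFun h j) fun h => by simpa [hij, hik] using congrFun h i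
  rw [fm_add_right, h2 _ _ (by simp) (by simp) fun h => by simpa [hij] using congrFun h i,
    h2 _ _ (by simp) (by simp) fun h => by simpa [hik] using congrFun h i] at h3
  simp at h3

theorem sp_not_le_ext [Fintype F] (hG : Alt G) (hu : IsUnit G) (hn : 4 ≤ Fintype.card ι)
    {R : Subgroup (GL ι F)} (hR : RType 2 R) (hR' : PreR 2 R) (h1 : R ≤ isom (RingHom.id F) G) :
    ¬ isom (RingHom.id F) G ≤ subgroupNormalizer R := by
  rcases hn.lt_or_eq with hn | hn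
  · exact (tvG_sp hG hu).not_le_ext hn hR'
  intro hle
  have : Nonempty ι := Fintype.card_pos_iff.1 (by omega)
  have hf := hf_alt hG hu
  obtain ⟨v, hv⟩ := exists_ne (0 : ι → F)
  have h2 := hf.smul_mulVec_ne hv one_ne_zero
  have h3 := hle (hf.tvf_mem (c := 1) (hG.fm_self v) (by simp))
  by_cases hq : 4 ≤ Fintype.card F
  · obtain ⟨c, hc, hc1⟩ := exists_sq_ne_one hq
    refine hR.not_two_tv (by omega) _ hv h2 hc hc1 h3 ?_
    simpa [tvf] using hle (hf.tvf_mem (c := c) (hG.fm_self v) (by simp))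
  have h4 : 1 < Fintype.card F := Fintype.one_lt_card
  obtain ⟨k, hk⟩ := two_ne_zero_iff_odd.1 (by simpa using hR.ne_char : (2 : F) ≠ 0)
  have h5 : Fintype.card F = 3 := by omega
  have h6 : (3 : F) = 0 := by simpa [h5] using FiniteField.cast_card_eq_zero F
  refine hR.not_mem_of_comm _ hv h2 fun x hx => (hR.comm_scalar h3 hx ?_ ?_).symm
  · have := rank_tv_sub_one v _ (by rw [smul_dot_fm, hG.fm_self, mul_zero] :
      ((1 : F) • G *ᵥ (RingHom.id F ∘ v)) ⬝ᵥ v = 0)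
    rw [tvf]
    omega
  · rw [tvf, trace_tv_comm, smul_dot_fm, smul_dot_fm, ← hn, ← hf.adj_isom (h1 hx), hf.fm_adj',
      fm_id_swap G, hG.1, ← neg_one_smul F G, fm_smul]
    intro h7
    generalize fm (RingHom.id F) G v (x.val *ᵥ v) = a at h7
    by_cases ha : a = 0
    · rw [ha] at h7
      exact one_ne_zero (by push_cast at h7; linear_combination h7 - h6)
    · have h8 := FiniteField.pow_card_sub_one_eq_one a ha
      rw [h5] at h8
      exact one_ne_zero (α := F) (by push_cast at h7; linear_combination 2 * h6 - h7 + h8)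

theorem sp_not_le_wr [Fintype F] (hG : Alt G) (hu : IsUnit G) (hq : 5 ≤ Fintype.card F)
    (ho : Odd (Fintype.card F)) {k : ℕ} (hk : 2 ≤ k) (e : ι ≃ (Fin 3 → Fin k)) (P : GL ι F) :
    ¬ isom (RingHom.id F) G ≤ tensorWreathSubgroup k 3 e P := by
  intro hle
  have : Nonempty ι := ⟨e.symm fun _ => ⟨0, by omega⟩⟩
  have hf := hf_alt hG hu
  obtain ⟨v, hv⟩ := exists_ne (0 : ι → F)
  have h1 := fun c => hle (hf.tvf_mem (c := c) (hG.fm_self v) (by simp))
  rcases (by obtain ⟨k, hk⟩ := ho; omega : Fintype.card F = 5 ∨ 6 < Fintype.card F) with h | h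
  · have h5 : (5 : F) = 0 := by simpa [h] using FiniteField.cast_card_eq_zero F
    have h2 := pow_eq_one_of_mem_wreath (by omega) (h1 1) (by
      rw [tvf, tv_pow]; exact (rank_tv_sub_one _ _ _).trans_lt (by omega))
    rw [tvf, tv_pow] at h2
    refine tv_ne_one _ hv (smul_ne_zero (fun h => ?_) (hf.smul_mulVec_ne hv one_ne_zero)) h2
    norm_num [Nat.factorial] at h
    exact one_ne_zero (by linear_combination h - h5)
  · obtain ⟨c, d, hcd, h2⟩ := exists_eq_of_mem_wreath (t := 3) (by omega) (α := F) h _ h1 fun c d => by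
      rw [tvf, tvf, tv_inv, tv_mul_tv]; exact (rank_tv_sub_one _ _ _).trans_lt (by omega)
    obtain ⟨w, hw⟩ := exists_fm_ne_zero_left (σ := RingHom.id F) hu hv
    have h3 := congrArg (fun g : GL ι F => (g : Matrix ι ι F) *ᵥ w) h2
    simp only [tvf_mulVec, add_right_inj] at h3
    exact hcd (mul_right_cancel₀ hw (smul_left_injective F hv h3))

theorem ne_top_of_ts {σ : F →+* F} {ε : F} (hf : HF σ G ε) {W : Submodule F (ι → F)} (h1 : W ≠ ⊥)
    (h2 : IsTotallySingularFor (fm σ G) W) : W ≠ ⊤ := by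
  rintro rfl
  exact h1 (eq_bot_iff.2 fun v _ => hf.eq_zero_left fun x => h2 v trivial x trivial)

theorem ne_top_of_finrank {W : Submodule F (ι → F)} (h : 2 * Module.finrank F W < Fintype.card ι) :
    W ≠ ⊤ := by
  rintro rfl
  rw [finrank_top, Module.finrank_fintype_fun_eq_card] at h
  omega

theorem SpCase.eq_inf [Fintype F] (hG : Alt G) (hu : IsUnit G) (hn : 4 ≤ Fintype.card ι)
    (hn' : Fintype.card ι < 32) {H : Subgroup (GL ι F)} (hH : IsMaximalIn (isom (RingHom.id F) G) H)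
    (h : SpCase G (H ≤ ·)) : SpCase G fun M => H = M ⊓ isom (RingHom.id F) G := by
  have : Nonempty ι := Fintype.card_pos_iff.1 (by omega)
  have hT := tvG_sp hG hu
  rcases h with ⟨W, h1, h2, h⟩ | ⟨W, h1, h2, h3, h⟩ | ⟨t, k, D, hD, hk, h1, h⟩ | ⟨m, D, hq, hD, h1, h⟩ |
    ⟨r, K, hr, hK, h1, h2, h⟩ | ⟨K, hq, hK, h1, h2, h⟩ |
    ⟨n₁, n₂, e, P, G₁, G₂, hq, h1, h2, h3, h4, h5, h⟩ | ⟨F₀, r, P, ζ, hr, hc, h1, h2, h⟩ |
    ⟨R, k, hR, hR', h1, hp, hq, hk, h⟩ | ⟨k, t, e, P, c, G₀, hq, h1, h2, h3, h4, h5, hW, h⟩ |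
    ⟨Q, hq, hQ, h⟩
  · exact .ts W h1 h2 (eq_inf_of_isMaximalIn hH h (hT.not_le_stab h1 (ne_top_of_ts hT.hf h1 h2)))
  · exact .nd W h1 h2 h3 (eq_inf_of_isMaximalIn hH h (hT.not_le_stab h1 (ne_top_of_finrank h3)))
  · exact .dec t k D hD hk h1 (eq_inf_of_isMaximalIn hH h (hT.not_le_dec hD.decomp
      (by rintro rfl; simp at hk)))
  · exact .pair m D hq hD h1 (eq_inf_of_isMaximalIn hH h (hT.not_le_dec hD
      (by have := hD.h26_card; omega)))
  · exact .fld r K hr hK h1 h2 (eq_inf_of_isMaximalIn hH h (hT.not_le_field (by omega) hK hr.ne_one))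
  · exact .ufld K hq hK h1 h2 (eq_inf_of_isMaximalIn hH h (hT.not_le_field (by omega) hK (by omega)))
  · exact .ten n₁ n₂ e P G₁ G₂ hq h1 h2 h3 h4 h5
      (eq_inf_of_isMaximalIn hH h (hT.not_le_ten h1 (by omega) e P))
  · exact .sub F₀ r P ζ hr hc h1 h2
      (eq_inf_of_isMaximalIn hH h (sp_not_le_sub hG hu (subfield_ne_top hr hc) P))
  · exact .ext R k hR hR' h1 hp hq hk (eq_inf_of_isMaximalIn hH h (sp_not_le_ext hG hu hn hR hR' h1))
  · have h6 : Fintype.card ι = k ^ t := by simpa using Fintype.card_congr e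
    obtain rfl : t = 3 := by
      by_contra h7
      obtain ⟨s, hs⟩ := h1
      have : 2 ^ 5 ≤ k ^ t :=
        (Nat.pow_le_pow_left h3 5).trans (Nat.pow_le_pow_right (by omega) (by omega))
      omega
    obtain rfl : k = 2 := by
      by_contra h7
      have h8 := h5.even_card' hW.hf.unit
      rw [Fintype.card_fin] at h8
      obtain ⟨s, hs⟩ := h8
      have : 4 ^ 3 ≤ k ^ 3 := Nat.pow_le_pow_left (by omega) 3
      omega
    have h7 : 1 < Fintype.card F := Fintype.one_lt_card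
    exact .wr 2 3 e P c G₀ hq h1 h2 h3 h4 h5 hW (eq_inf_of_isMaximalIn hH h
      (sp_not_le_wr hG hu (by obtain ⟨s, hs⟩ := hq; omega) hq le_rfl e P))
  · exact .orth Q hq hQ (eq_inf_of_isMaximalIn hH h (sp_not_le_orth hG (by omega) hQ))

/-! ### the standard form -/

theorem sympForm_eq (m : ℕ) (F : Type*) [Field F] :
    sympForm m F = fm (RingHom.id F) (Matrix.J (Fin m) F) := rfl

theorem spGL_eq (m : ℕ) (F : Type*) [Field F] :
    spGL m F = isom (RingHom.id F) (Matrix.J (Fin m) F) := rfl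

theorem alt_J (m : ℕ) : Alt (Matrix.J (Fin m) F) :=
  ⟨Matrix.J_transpose _ _, by rintro (i | i) <;> simp [Matrix.J]⟩

theorem isUnit_J (m : ℕ) : IsUnit (Matrix.J (Fin m) F) :=
  (Matrix.isUnit_iff_isUnit_det _).2 (Matrix.isUnit_det_J _ _)

theorem sp_max [Fintype F] {m : ℕ} (hm : 2 ≤ m) (hm' : m < 16)
    {H : Subgroup (GL (Fin m ⊕ Fin m) F)} (hH : IsMaximalIn (spGL m F) H) :
    (SpCase (Matrix.J (Fin m) F) fun M => H = M ⊓ spGL m F) ∨ InSymplecticResidualClass H :=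
  (sp_cases (alt_J m) (isUnit_J m) (by simp; omega) hH.1.le).imp_left fun h =>
    h.eq_inf (alt_J m) (isUnit_J m) (by simp; omega) (by simp; omega) hH

theorem RType.card_eq {R : Subgroup (GL ι F)} {r k : ℕ} (h : RType r R) (hk : Fintype.card ι = r ^ k) :
    Nat.card R = Nat.card (Subgroup.center R) * r ^ (2 * k) := by
  obtain ⟨j, -, h1, h2⟩ := h.dim
  rw [h2, Nat.pow_right_injective h.sympl.prime.two_le (h1.symm.trans hk)]

/-- **Aschbacher's theorem** for the symplectic groups -/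
theorem aschbacher_sp [Fintype F] {m : ℕ} (hm : 1 ≤ m) {H : Subgroup (GL (Fin m ⊕ Fin m) F)}
    (hH : H ≤ spGL m F) : (∃ M, InSymplecticClass m F M ∧ H ≤ M) ∨ InSymplecticResidualClass H := by
  refine (sp_cases (alt_J m) (isUnit_J m) (by simp; omega) hH).imp_left fun h => ?_
  have : Nonempty (Fin m) := ⟨⟨0, hm⟩⟩
  rcases h with ⟨W, h1, h2, h⟩ | ⟨W, h1, h2, h3, h⟩ | ⟨t, k, D, hD, hk, h1, h⟩ | ⟨k, D, hq, hD, h1, h⟩ |
    ⟨r, K, hr, hK, h1, h2, h⟩ | ⟨K, hq, hK, h1, h2, h⟩ |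
    ⟨n₁, n₂, e, P, G₁, G₂, hq, h1, h2, h3, h4, h5, h⟩ | ⟨F₀, r, P, ζ, hr, hc, h1, h2, h⟩ |
    ⟨R, k, hR, hR', h1, hp, hq, hk, h⟩ | ⟨k, t, e, P, c, G₀, hq, h1, h2, h3, h4, h5, hW, h⟩ |
    ⟨Q, hq, hQ, h⟩ <;> refine ⟨_, ?_, le_inf h hH⟩
  · exact .inl (.inl ⟨W, h1, h2, rfl⟩)
  · exact .inl (.inr (.inl ⟨W, h1, h2, by simp at h3; omega, rfl⟩))
  · exact .inl (.inr (.inr (.inl ⟨t, k, D, hD, rfl⟩)))
  · obtain rfl : k = m := by have := hD.h26_card; simp at this; omega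
    exact .inl (.inr (.inr (.inr (.inl ⟨D, hq, hD, h1, rfl⟩))))
  · exact .inr (.inl ⟨r, K, hr, hK, h1, h2, rfl⟩)
  · exact .inr (.inr (.inl ⟨K, hq, hK, h1, h2, rfl⟩))
  · exact .inr (.inr (.inr (.inl ⟨n₁, n₂, e, P, _, _, hq, h2, isSymplecticForm_fm h4 h5.hf₁.unit,
      isSymmetricForm_fm (by simpa using h5.hf₂.transpose) h5.hf₂.unit, h5.isTensorFormStructure,
      rfl⟩)))
  · exact .inl (.inr (.inr (.inr (.inr (.inl ⟨F₀, r, P, ζ, hr, hc, h1, h2, rfl⟩)))))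
  · have h2 := (hR.two_of_isom (isUnit_J m) h1).2
    exact .inl (.inr (.inr (.inr (.inr (.inr (.inl ⟨R, _, k, hR.sympl,
      absIrr_of_spanAlg_eq_top hR.span, h1.trans (isom_le_similarityGroup _ _), hp, hq, rfl,
      by rw [hR.card_eq hk, h2, pow_add, pow_one], h2,
      hR.isOfMinusType (alt_J m) (isUnit_J m) h1 hk, rfl⟩))))))
  · exact .inr (.inr (.inr (.inr ⟨k, t, e, P, _, hq, h1, h2, h4, isSymplecticForm_fm h5 hW.hf.unit,
      hW.isTensorPowerFormStructure, rfl⟩)))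
  · exact .inl (.inr (.inr (.inr (.inr (.inr (.inr ⟨Q, hq, hQ.nondeg,
      fun u v => congrFun₂ hQ.polar u v, rfl⟩))))))

end Cfsg.Agent.H26
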