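import Mathlib
import Cfsg.Agent.H26.Sp

/-! Numerical conditions for the symplectic classes. -/

set_option autoImplicit false
set_option maxHeartbeats 400000

namespace Cfsg.Agent.H26

open Matrix Cfsg.Geo

variable {ι : Type} [Fintype ι] [DecidableEq ι] {F : Type*} [Field F] {G : Matrix ι ι F}

theorem field_degree_dvd_finrank {r : ℕ} {K : Subalgebra F (Matrix ι ι F)} [Nonempty ι]
    (hK : IsFieldSubalgebra r K) {W : Submodule F (ι → F)} (hW : ∀ k ∈ K, ∀ v ∈ W, k *ᵥ v ∈ W) :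
    r ∣ Module.finrank F W := by
  letI := (isField_of_isFieldSubalgebra hK).toField
  letI inst : Module K W :=
    { smul := fun k w => ⟨k.1 *ᵥ w, hW _ k.2 _ w.2⟩
      one_smul := fun w => Subtype.ext (Matrix.one_mulVec _)
      mul_smul := fun a b w => Subtype.ext (Matrix.mulVec_mulVec _ _ _).symm
      smul_zero := fun a => Subtype.ext (Matrix.mulVec_zero _)
      smul_add := fun a v w => Subtype.ext (Matrix.mulVec_add _ _ _)
      add_smul := fun a b w => Subtype.ext (Matrix.add_mulVec _ _ _)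
      zero_smul := fun w => Subtype.ext (Matrix.zero_mulVec _) }
  have h1 : @IsScalarTower F K W _ inst.toSMul _ := ⟨fun c k v =>
    Subtype.ext (Matrix.smul_mulVec _ _ _)⟩
  have := @Module.finrank_mul_finrank F K W _ _ _ _ inst _ h1 _ _ _ _
  rw [hK.finrank_eq] at this
  exact ⟨_, this.symm⟩

/-- the subspace `K v` -/
def fldLine (K : Subalgebra F (Matrix ι ι F)) (v : ι → F) : Submodule F (ι → F) where
  carrier := {w | ∃ k ∈ K, k *ᵥ v = w}
  add_mem' := by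
    rintro _ _ ⟨a, ha, rfl⟩ ⟨b, hb, rfl⟩
    exact ⟨a + b, add_mem ha hb, Matrix.add_mulVec _ _ _⟩
  zero_mem' := ⟨0, zero_mem _, Matrix.zero_mulVec _⟩
  smul_mem' := by
    rintro c _ ⟨a, ha, rfl⟩
    exact ⟨c • a, K.smul_mem ha c, Matrix.smul_mulVec _ _ _⟩

theorem sp_field_dvd [Nonempty ι] {ε : F} (hf : HF (RingHom.id F) G ε) {r : ℕ}
    {K : Subalgebra F (Matrix ι ι F)} (hK : IsFieldSubalgebra r K)
    (h1 : IsSelfAdjointFor (fm (RingHom.id F) G) K)
    (h2 : ∀ k ∈ K, ∀ v, fm (RingHom.id F) G (k *ᵥ v) v = 0) : 2 * r ∣ Fintype.card ι := by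
  obtain ⟨W, ⟨h3, h4⟩, hmax⟩ := (wellFounded_gt (α := Submodule F (ι → F))).has_min
    {W | IsTotallySingularFor (fm (RingHom.id F) G) W ∧ ∀ k ∈ K, ∀ v ∈ W, k *ᵥ v ∈ W}
    ⟨⊥, fun u hu v _ => by simp [(Submodule.mem_bot F).1 hu, fm],
      fun k _ v hv => by simp [(Submodule.mem_bot F).1 hv]⟩
  have h5 : prp (RingHom.id F) G W = W := by
    refine le_antisymm (fun v hv => by_contra fun hvW => hmax (W ⊔ fldLine K v) ⟨?_, ?_⟩ ?_)
      fun w hw => mem_prp.2 fun x hx => h3 w hw x hx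
    · intro x hx y hy
      obtain ⟨w, hw, _, ⟨a, ha, rfl⟩, rfl⟩ := Submodule.mem_sup.1 hx
      obtain ⟨w', hw', _, ⟨b, hb, rfl⟩, rfl⟩ := Submodule.mem_sup.1 hy
      rw [fm_add_left, fm_add_right, fm_add_right, h3 w hw w' hw', ← h1 b hb, ← h1 b hb,
        hf.mem_prp.1 hv _ (h4 b hb w hw), h1 a ha v w', mem_prp.1 hv _ (h4 a ha w' hw'),
        Matrix.mulVec_mulVec, h2 _ (mul_mem hb ha)]
      simp
    · intro k hk x hx
      obtain ⟨w, hw, _, ⟨a, ha, rfl⟩, rfl⟩ := Submodule.mem_sup.1 hx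
      rw [Matrix.mulVec_add, Matrix.mulVec_mulVec]
      exact Submodule.add_mem_sup (h4 k hk w hw) ⟨_, mul_mem hk ha, rfl⟩
    · exact left_lt_sup.2 fun h => hvW (h ⟨1, one_mem _, Matrix.one_mulVec _⟩)
  have h6 := hf.finrank_prp W
  rw [h5, ← two_mul] at h6
  exact h6 ▸ Nat.mul_dvd_mul_left 2 (field_degree_dvd_finrank hK h4)

end Cfsg.Agent.H26
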