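import Mathlib
import Cfsg.Agent.H26.SpNum

/-! Aschbacher's theorem for unitary groups. -/

set_option autoImplicit false
set_option maxHeartbeats 400000

namespace Cfsg.Agent.H26

open Matrix Cfsg.Geo
open scoped Kronecker

variable {ι κ β : Type} [Fintype ι] [DecidableEq ι] [Fintype κ] [DecidableEq κ]
  [Fintype β] [DecidableEq β] {F : Type*} [Field F] {σ : F →+* F} {G : Matrix ι ι F}

/-- the refined list of geometric cases for the unitary groups -/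
inductive SuCase [Fintype F] (σ : F →+* F) (G : Matrix ι ι F) (rel : Subgroup (GL ι F) → Prop) : Prop
  | ts (W : Submodule F (ι → F)) (h1 : W ≠ ⊥) (h2 : IsTotallySingularFor (fm σ G) W)
      (h : rel (subspaceStabilizer W))
  | nd (W : Submodule F (ι → F)) (h1 : W ≠ ⊥) (h2 : IsNondegenerateOn (fm σ G) W)
      (h3 : 2 * Module.finrank F W < Fintype.card ι) (h : rel (subspaceStabilizer W))
  | dec (t k : ℕ) (D : Fin t → Submodule F (ι → F))
      (hD : IsNondegenerateMDecomposition (fm σ G) k D)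
      (h1 : k = 2 → Fintype.card F ≠ 4) (h : rel (decompositionStabilizer D))
  | pair (m : ℕ) (D : Fin 2 → Submodule F (ι → F))
      (hD : IsMDecomposition m D) (h1 : ∀ i, IsTotallySingularFor (fm σ G) (D i))
      (h : rel (decompositionStabilizer D))
  | fld (r : ℕ) (K : Subalgebra F (Matrix ι ι F)) (hr : r.Prime) (ho : Odd r)
      (hK : IsFieldSubalgebra r K) (h1 : IsAdjointClosedFor (fm σ G) K)
      (h : rel (subalgebraNormalizer K))
  | ten (n₁ n₂ : ℕ) (e : ι ≃ Fin n₁ × Fin n₂) (P : GL ι F) (G₁ : Matrix (Fin n₁) (Fin n₁) F)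
      (G₂ : Matrix (Fin n₂) (Fin n₂) F) (h1 : 2 ≤ n₁) (h2 : n₁ < n₂)
      (h3 : n₁ = 2 → Fintype.card F ≠ 4) (hT : Ten σ G ⊥ e P G₁ G₂ 1 1)
      (h : rel (tensorProductSubgroup n₁ n₂ e P))
  | sub (F₀ : Subfield F) (r : ℕ) (P : GL ι F) (hr : r.Prime) (ho : Odd r)
      (hc : Fintype.card F = Nat.card F₀ ^ r) (h1 : IsFormRationalStructure (fm σ G) F₀ 1 P)
      (h : rel (subfieldSubgroup F₀ P))
  | subO (F₀ : Subfield F) (P : GL ι F) (hq : Odd (Fintype.card F))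
      (hc : Fintype.card F = Nat.card F₀ ^ 2) (h1 : IsFormRationalStructure (fm σ G) F₀ 1 P)
      (h : rel (subfieldSubgroup F₀ P))
  | subS (F₀ : Subfield F) (P : GL ι F) (ζ : F) (hn : Even (Fintype.card ι))
      (hc : Fintype.card F = Nat.card F₀ ^ 2) (h0 : ζ ≠ 0) (h1 : ζ + σ ζ = 0)
      (h2 : IsFormRationalStructure (fm σ G) F₀ ζ P)
      (h3 : ∀ u : ι → F, (∀ i, u i ∈ F₀) →
        fm σ G ((P : Matrix ι ι F) *ᵥ u) ((P : Matrix ι ι F) *ᵥ u) = 0)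
      (h : rel (subfieldSubgroup F₀ P))
  | ext (r : ℕ) (R : Subgroup (GL ι F)) (p e : ℕ) (hR : RType r R) (hR' : PreR r R)
      (h1 : R ≤ isom σ G) (hp : r ≠ p)
      (hm : IsMinimalFieldFor (Nat.card (Subgroup.center R)) p e F)
      (h2 : (Odd r ∧ Nat.card (Subgroup.center R) = r) ∨
        (r = 2 ∧ e = 2 ∧ Nat.card (Subgroup.center R) = 4)) (h : rel (subgroupNormalizer R))
  | wr (k t : ℕ) (e : ι ≃ (Fin t → Fin k)) (P : GL ι F) (c : F) (G₀ : Matrix (Fin k) (Fin k) F)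
      (h1 : 3 ≤ k) (h2 : 2 ≤ t) (h3 : ¬ (Fintype.card F = 4 ∧ k = 3))
      (hW : Wr σ G ⊥ e P c G₀ 1) (h : rel (tensorWreathSubgroup k t e P))

theorem invol_eq_sq [Fintype F] (hq : Fintype.card F = 4) (h : ∀ a, σ (σ a) = a)
    (hne : ∃ a, σ a ≠ a) (x : F) : σ x = x ^ 2 := by
  have h1 := card_eq_sq_of_invol h hne
  rw [Nat.card_eq_fintype_card, hq] at h1
  rw [invol_eq_pow h x hne, ← Nat.pow_left_injective two_ne_zero (show 2 ^ 2 = _ from h1)]

theorem norm_eq_one_of_four [Fintype F] (hq : Fintype.card F = 4) (h : ∀ a, σ (σ a) = a)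
    (hne : ∃ a, σ a ≠ a) {x : F} (hx : x ≠ 0) : x * σ x = 1 := by
  have := FiniteField.pow_card_sub_one_eq_one x hx
  rw [hq] at this
  rw [invol_eq_sq hq h hne, ← this]; ring

theorem exists_blk_one [Finite F] (hG : HF σ G 1) (hne : ∃ a, σ a ≠ a) {t k : ℕ}
    {D : Fin t → Submodule F (ι → F)} (hD : IsNondegenerateMDecomposition (fm σ G) k D) :
    ∃ (e : ι ≃ Fin k × Fin t) (P : GL ι F), Blk D e P ∧ unF σ e P G = 1 := by
  obtain ⟨e, P, hB⟩ := exists_blk hD.decomp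
  obtain ⟨Gs, h1, h2⟩ := hB.exists_eq hG hD.orthogonal
  choose T hT using fun j => (h2 j).exists_pull_eq_one hne
  refine ⟨e, _, hB.change T, ?_⟩
  rw [unF_change h1, ← Matrix.blockDiagonal_one]
  congr 1; ext1 j; exact hT j

theorem isMono_of_unitary [Fintype F] (hq : Fintype.card F = 4) (h : ∀ a, σ (σ a) = a)
    (hne : ∃ a, σ a ≠ a) {a : Matrix (Fin 2) (Fin 2) F} (ha : pull σ 1 a = 1) : IsMono a := by
  intro l
  have h1 := congrFun (congrFun ha l) l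
  simp only [pull, mul_one, Matrix.mul_apply, Fin.sum_univ_two, Matrix.transpose_apply,
    Matrix.map_apply, Matrix.one_apply_eq] at h1
  by_cases h0 : a 0 l = 0
  · exact ⟨1, fun k hk => by fin_cases k <;> simp_all⟩
  refine ⟨0, fun k hk => ?_⟩
  obtain rfl : k = 1 := by omega
  by_contra h2
  rw [norm_eq_one_of_four hq h hne h0, norm_eq_one_of_four hq h hne h2] at h1
  simp at h1

/-- `GU₂(2) ≀ S_t` stabilises a frame -/
theorem exists_frame_of_planes [Fintype F] (hq : Fintype.card F = 4) (hG : HF σ G 1)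
    (hne : ∃ a, σ a ≠ a) {t : ℕ} {D : Fin t → Submodule F (ι → F)}
    (hD : IsNondegenerateMDecomposition (fm σ G) 2 D) :
    ∃ D' : Fin (2 * t) → Submodule F (ι → F), IsNondegenerateMDecomposition (fm σ G) 1 D' ∧
      decompositionStabilizer D ⊓ isom σ G ≤ decompositionStabilizer D' := by
  obtain ⟨e, P, hB, h1⟩ := exists_blk_one hG hne hD
  have ht : 2 ≤ 2 * t := by have := hD.decomp.two_le; omega
  refine ⟨frame finProdFinEquiv.symm e P,
    hG.nondeg_frame ht _ (d := fun _ => 1) (by rw [h1, Matrix.diagonal_one]), fun g hg => ?_⟩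
  obtain ⟨τ, a, h2, h3⟩ := hB.stab_isom (Gs := 1) (by rw [h1, Matrix.blockDiagonal_one]) hg.1 hg.2
  exact mem_stab_frame ht _ h2 (isMono_blk τ fun j => isMono_of_unitary hq hG.inv hne (h3 j))

theorem suCase_of_dec [Fintype F] (hG : HF σ G 1) (hne : ∃ a, σ a ≠ a) {H : Subgroup (GL ι F)}
    (hH : H ≤ isom σ G) {t k : ℕ} {D : Fin t → Submodule F (ι → F)}
    (hD : IsNondegenerateMDecomposition (fm σ G) k D) (h : H ≤ decompositionStabilizer D) :
    SuCase σ G (H ≤ ·) := by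
  by_cases h1 : k = 2 ∧ Fintype.card F = 4
  · obtain ⟨rfl, h1⟩ := h1
    obtain ⟨D', h2, h3⟩ := exists_frame_of_planes h1 hG hne hD
    exact .dec _ 1 D' h2 (by omega) ((le_inf h hH).trans h3)
  · exact .dec t k D hD (by omega) h

theorem suCase_of_sub [Fintype F] (hG : HF σ G 1) (hne : ∃ a, σ a ≠ a) {H : Subgroup (GL ι F)}
    (hirr : Irr H) (hn : 2 ≤ Fintype.card ι) (hH : H ≤ isom σ G) (h : SubCase σ G H) :
    SuCase σ G (H ≤ ·) := by
  rcases h.unitary hG hne hirr hn (hH.trans (isom_le_similarityGroup _ _)) with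
    ⟨F₀, r, P, h1, h2, h3, h4, h5⟩ | ⟨F₀, P, h1, h2, h3, h4⟩ | ⟨F₀, P, ζ, h1, h2, h3, h4, h5, h6, h7⟩
  · exact .sub F₀ r P h1 h2 h3 h4 h5
  · exact .subO F₀ P h1 h2 h3 h4
  · exact .subS F₀ P ζ h1 h2 h3 h4 h5 h6 h7

theorem suCase_of_hasComm [Fintype F] [Nonempty ι] (hG : HF σ G 1) (hne : ∃ a, σ a ≠ a)
    {H : Subgroup (GL ι F)} (hH : H ≤ isom σ G) (hirr : Irr H) (hc : HasComm σ G H) :
    SuCase σ G (H ≤ ·) := by
  obtain ⟨C, h1, h2, h3, h4⟩ := hc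
  rcases hG.comm_case (hH.trans (isom_le_similarityGroup _ _)) hirr h1 h2 h3 h4 with
    ⟨t, k, D, hD, h⟩ | ⟨m, e, -, -, -, hD, h6, h⟩ | ⟨r, K, hr, hK, h5, h6⟩
  · exact suCase_of_dec hG hne hH hD h
  · exact .pair m _ hD h6 h
  · exact .fld r K hr (h5.odd hG hne hK) hK (h5.isAdjointClosedFor hG) h6.le_normalizer

theorem suCase_of_rType [Fintype F] (hG : HF σ G 1) (hne : ∃ a, σ a ≠ a) {H R : Subgroup (GL ι F)}
    (hirr : Irr H) (hn : 2 ≤ Fintype.card ι) (hH : H ≤ isom σ G) {r : ℕ} (h : RType r R)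
    (h' : PreR r R) (h1 : R ≤ isom σ G) (h2 : Nrm H R) : SuCase σ G (H ≤ ·) := by
  have : Nonempty ι := Fintype.card_pos_iff.1 (by omega)
  rcases h.subfield_or_minimal with ⟨F₀, h4, h5⟩ | ⟨p, e, hrp, hmin⟩
  · exact suCase_of_sub hG hne hirr hn hH (hG.subCase h2 h.span h1 h4 h5)
  refine .ext r R p e h h' h1 hrp hmin ?_ h2.le_normalizer
  have h3 : e ≠ 1 := by
    rintro rfl
    have h3 := card_eq_sq_of_invol hG.inv hne
    rw [Nat.card_eq_fintype_card, hmin.2.2.1, pow_one] at h3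
    exact Nat.Prime.not_prime_pow le_rfl (h3 ▸ hmin.1)
  rcases h.center_card with h4 | ⟨rfl, h4⟩
  · exact Or.inl h4
  · have := h.le_two_of_minimal hrp hmin
    exact Or.inr ⟨rfl, by omega, by omega⟩

theorem HF.sim_le_isom_of_four [Fintype F] [Nonempty ι] (hq : Fintype.card F = 4) (hG : HF σ G 1)
    (hne : ∃ a, σ a ≠ a) : similarityGroup (fm σ G) ≤ isom σ G := by
  intro g hg
  obtain ⟨c, hc, h1⟩ := mem_similarityGroup_fm.1 hg
  have h2 := (hG.smul hc).eps_unique (h1 ▸ hG.pull g.isUnit)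
  rw [mul_one, div_eq_one_iff_eq hc, invol_eq_sq hq hG.inv hne, sq, mul_eq_left₀ hc] at h2
  rw [mem_isom, h1, h2, one_smul]

theorem HF.exists_smul_one [Nonempty ι] {ε : F} (h : HF σ G ε) (hne : ∃ a, σ a ≠ a) :
    ∃ d : F, d ≠ 0 ∧ σ d * ε / d = 1 := by
  obtain ⟨a, ha⟩ := hne
  obtain ⟨d, -, hd, h1⟩ := exists_hilbert90 h.inv ⊤ (fun _ _ => trivial) ⟨a, trivial, ha⟩ trivial h.eps
  exact ⟨d, hd, by rw [h1, div_self hd]⟩

theorem suCase_of_ten_lt [Fintype F] (hG : HF σ G 1) (hne : ∃ a, σ a ≠ a) {H : Subgroup (GL ι F)}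
    (hH : H ≤ isom σ G) (hirr : Irr H) (hc : ¬ HasComm σ G H) {a b : ℕ} (ha : 2 ≤ a) (hb : a < b)
    {e : ι ≃ Fin a × Fin b} {P : GL ι F} {G₁ : Matrix (Fin a) (Fin a) F}
    {G₂ : Matrix (Fin b) (Fin b) F} (h : Ten σ G H e P G₁ G₂ 1 1) : SuCase σ G (H ≤ ·) := by
  have : Nonempty (Fin a) := ⟨⟨0, by omega⟩⟩
  have : Nonempty (Fin b) := ⟨⟨0, by omega⟩⟩
  refine .ten a b e P G₁ G₂ ha hb ?_ (h.mono bot_le) (tenG_eq e P ▸ h.le)
  rintro rfl hq
  exact hc (h.hasComm hG (hasComm_U2 hq (by simp) h.hf₁ hne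
    (h.sim (hH.trans (isom_le_similarityGroup _ _))) (irr_projL hirr h.le)))

theorem suCase_of_ten [Fintype F] (hG : HF σ G 1) (hne : ∃ a, σ a ≠ a) {H : Subgroup (GL ι F)}
    (hH : H ≤ isom σ G) (hirr : Irr H) (hc : ¬ HasComm σ G H) {a b : ℕ} (ha : 2 ≤ a) (hb : 2 ≤ b)
    {e : ι ≃ Fin a × Fin b} {P : GL ι F} {G₁ : Matrix (Fin a) (Fin a) F}
    {G₂ : Matrix (Fin b) (Fin b) F} (h : Ten σ G H e P G₁ G₂ 1 1) : SuCase σ G (H ≤ ·) := by
  rcases lt_trichotomy a b with hab | rfl | hab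
  · exact suCase_of_ten_lt hG hne hH hirr hc ha hab h
  swap
  · exact suCase_of_ten_lt hG hne hH hirr hc hb hab h.swap
  have : Nonempty (Fin a) := ⟨⟨0, by omega⟩⟩
  have hn : 2 ≤ Fintype.card ι := by
    rw [Fintype.card_congr e, Fintype.card_prod, Fintype.card_fin]; nlinarith
  have hs := hH.trans (isom_le_similarityGroup _ _)
  by_cases h1 : Fintype.card F = 4 ∧ a = 3
  · obtain ⟨hq, rfl⟩ := h1
    have h2 : ∀ {e : ι ≃ Fin 3 × Fin 3} {G₁ G₂ : Matrix (Fin 3) (Fin 3) F},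
        Ten σ G H e P G₁ G₂ 1 1 → ∃ R ≤ isom σ G₁, Nrm (projL e P H) R ∧ PreR 3 R := fun h => by
      obtain ⟨R, h3, h4, h5⟩ := (hasComm_or_rType h.hf₁ (h.sim hs) (irr_projL hirr h.le)
        (by simpa using Nat.prime_three) fun L hL hp => eq_bot_of_perfect_U hq (by simp) (by simp)
          h.hf₁ hne hp (hL.trans (h.sim hs))).resolve_left fun h3 => hc (h.hasComm hG h3)
      exact ⟨R, h3.trans ((h.sim hs).trans (h.hf₁.sim_le_isom_of_four hq hne)), h4,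
        by simpa using h5.preR rfl⟩
    obtain ⟨R₁, h3, h4, h5⟩ := h2 h
    obtain ⟨R₂, h6, h7, h8⟩ := h2 h.swap
    have : Nonempty ι := Fintype.card_pos_iff.1 (by omega)
    exact suCase_of_rType hG hne hirr hn hH (h5.kron e P h8).rType_three (h5.kron e P h8)
      (kronS_le_isom h.eq h3 h6) (nrm_kronS (le_kronS_proj h.le) h4 h7)
  obtain ⟨T, hT⟩ := h.hf₁.exists_pull_eq h.hf₂ hne
  have h2 := h.change T
  rw [hT, ← one_smul F G₂] at h2
  conv at h2 => enter [7]; rw [one_smul]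
  have h3 := h2.wr one_ne_zero
  rcases ha.eq_or_lt with rfl | ha
  · exact suCase_of_sub hG hne hirr hn hH (h3.subCase hG hne hs)
  · exact .wr a 2 _ _ _ _ ha le_rfl h1 (h3.mono bot_le) h3.le

/-- **Aschbacher's theorem**, refined unitary case -/
theorem su_cases [Fintype F] (hG : HF σ G 1) (hne : ∃ a, σ a ≠ a) (hn : 2 ≤ Fintype.card ι)
    {H : Subgroup (GL ι F)} (hH : H ≤ isom σ G) :
    SuCase σ G (H ≤ ·) ∨ InUnitaryResidualClass H := by
  have : Nonempty ι := Fintype.card_pos_iff.1 (by omega)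
  have hs := hH.trans (isom_le_similarityGroup _ _)
  by_cases hirr : Irr H
  swap
  · rcases hG.red' hs hirr with ⟨W, h1, h2, h⟩ | ⟨W, h1, h2, h3, h⟩ | ⟨m, D, hD, h⟩
    · exact Or.inl (.ts W h1 h2 h)
    · exact Or.inl (.nd W h1 h2 h3 h)
    · exact Or.inl (suCase_of_dec hG hne hH hD h)
  by_cases hc : HasComm σ G H
  · exact Or.inl (suCase_of_hasComm hG hne hH hirr hc)
  rcases hG.cases hn hs hirr hc with ⟨a, b, e, P, G₁, G₂, ε₁, ε₂, ha, hb, h⟩ |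
    ⟨r, R, h1, h2, h, h'⟩ | ⟨P, h⟩ | ⟨N, t, m, e, P, L, h⟩
  · have : Nonempty (Fin a) := ⟨⟨0, by omega⟩⟩
    have : Nonempty (Fin b) := ⟨⟨0, by omega⟩⟩
    obtain ⟨d, hd, h1⟩ := h.hf₁.exists_smul_one hne
    have h2 := h.smul hd
    have h3 := h2.eps hG
    rw [h1, one_mul] at h3
    rw [h1, h3] at h2
    exact Or.inl (suCase_of_ten hG hne hH hirr hc ha hb h2)
  · exact Or.inl (suCase_of_rType hG hne hirr hn hH h h' (h1.trans hH) h2)
  · have hP := h.le.trans hH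
    by_cases h1 : ∃ F₀ : Subfield F, F₀ ≠ ⊤ ∧ ∀ g ∈ P, (g : Matrix ι ι F).trace ∈ F₀
    · obtain ⟨F₀, h1, h2⟩ := h1
      exact Or.inl (suCase_of_sub hG hne hirr hn hH (hG.subCase h.nrm h.span hP h1 h2))
    have h2 : ∀ B, IsUnit B → ¬ P ≤ isom (RingHom.id F) B := fun B hB h2 =>
      h1 ⟨fixF σ, fixF_ne_top hne, fun g hg => trace_mem_fixF hB hG.unit (h2 hg) (hP hg)⟩
    refine Or.inr ⟨P, h.isResidualCore fun F₀ h5 h6 =>
      h1 ⟨F₀, h5, trace_mem_of_realisableOver h6⟩, ?_, ?_⟩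
    · rintro ⟨Q, h3, h4⟩
      obtain ⟨B, hB, -, -, h5⟩ := fixes_polar h3 h4
      exact h2 B hB h5
    · rintro ⟨f, h3, h4⟩
      obtain ⟨B, hB, -, rfl⟩ := symplectic_eq_fm h3
      exact h2 B hB (fixesForm_iff.1 h4)
  · left
    obtain ⟨c, G₀, ε₀, hw, hL⟩ := h.exists_wr hG (h.le.trans hH)
    have h3 := h.two_le_m
    have : Nonempty (Fin m) := ⟨⟨0, by omega⟩⟩
    obtain ⟨d, hd, h1⟩ := hw.hf.exists_smul_one hne
    have h2 := hw.smul hd
    rw [h1] at h2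
    rcases h3.eq_or_lt with rfl | h3
    · exact suCase_of_sub hG hne hirr hn hH (h2.subCase hG hne hs)
    refine .wr m t e P _ _ h3 h.two_le_t ?_ (h2.mono bot_le) h2.le
    rintro ⟨hq, rfl⟩
    exact spanAlg_bot_ne_top (ι := Fin 3) (F := F) (by simp) (eq_bot_of_perfect_U hq (by simp)
      (by simp) h2.hf hne h.perfectL ((hL.trans (isom_le_isom_smul σ G₀ d)).trans
        (isom_le_similarityGroup _ _)) ▸ h.spanL)

/-! ### properness -/

theorem exists_norm_neg_one [Finite F] (h : ∀ a, σ (σ a) = a) (hne : ∃ a, σ a ≠ a) :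
    ∃ δ : F, δ * σ δ = -1 ∧ δ + σ δ ≠ 0 := by
  obtain ⟨a, ha⟩ := hne
  obtain ⟨α, hα⟩ := H11.exists_norm_eq (fun h0 => ha (by rw [h0]; rfl)) h (a := -1) (by simp)
  by_cases h1 : α + σ α = 0
  swap
  · exact ⟨α, by rw [mul_comm, hα], h1⟩
  have ha0 : a ≠ 0 := by rintro rfl; simp at ha
  have ha1 : σ a ≠ 0 := (map_ne_zero σ).2 ha0
  have h2 : σ α = -α := by linear_combination h1
  have h3 : α * α = 1 := by rw [h2] at hα; linear_combination -hα
  have h4 : σ α = α := by rcases mul_self_eq_one_iff.1 h3 with h | h <;> simp [h]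
  have h5 : (2 : F) = 0 := by rw [h4] at h1; linear_combination α * h1 - 2 * h3
  refine ⟨a / σ a, by rw [map_div₀, h]; field_simp; linear_combination h5, fun h6 => ha ?_⟩
  rw [map_div₀, h] at h6
  field_simp at h6
  exact sub_eq_zero.1 (pow_eq_zero_iff two_ne_zero |>.1 (by linear_combination h6 - a * σ a * h5))

theorem fm_one (u v : ι → F) : fm σ 1 u v = ∑ i, u i * σ (v i) := by
  simp [fm, dotProduct]

theorem fm_one_pair {i j k l : ι} (a b : F) :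
    fm σ 1 (Pi.single i 1 + a • Pi.single j 1) (Pi.single k 1 + b • Pi.single l 1) =
      (if i = k then 1 else 0) + (if i = l then σ b else 0) + (if j = k then a else 0) +
        if j = l then a * σ b else 0 := by
  simp only [fm_add_left, fm_add_right, fm_smul_left, fm_smul_right, fm_single, Matrix.one_apply]
  split_ifs <;> ring

theorem tvG_su [Finite F] (hG : HF σ G 1) (hne : ∃ a, σ a ≠ a) (hn : 2 ≤ Fintype.card ι) :
    TvG σ G 1 (isom σ G ⊓ specialLinear ι F) := by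
  refine ⟨hG, fun _ _ hv hc => ⟨hG.tvf_mem hv hc, tv_mem_specialLinear _ _ _⟩, ?_, fun W hW => ?_⟩
  · obtain ⟨a, ha⟩ := hne
    exact ⟨σ a - a, sub_ne_zero.2 ha, by simp [hG.inv]⟩
  obtain ⟨T, hT⟩ := hG.exists_pull_eq_one hne
  obtain ⟨δ, h1, h2⟩ := exists_norm_neg_one hG.inv hne
  by_contra! h
  refine hW (eq_top_iff.2 fun v _ => ?_)
  have h3 : ∀ i j, i ≠ j → ∀ d, d * σ d = -1 →
      (T : Matrix ι ι F) *ᵥ (Pi.single i 1 + d • Pi.single j 1) ∈ W := fun i j hij d hd =>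
    by_contra fun h0 => h _ h0 (by rw [fm_pull, hT, fm_one_pair]; simp [hij, hij.symm, hd])
  have h4 : ∀ j, (T : Matrix ι ι F) *ᵥ Pi.single j 1 ∈ W := fun j => by
    have := Fintype.one_lt_card_iff_nontrivial.1 hn
    obtain ⟨i, hi⟩ := exists_ne j
    have h5 := W.sub_mem (h3 i j hi δ h1) (h3 i j hi (-σ δ) (by
      rw [map_neg, hG.inv, neg_mul_neg, mul_comm, h1]))
    rwa [← Matrix.mulVec_sub, add_sub_add_left_eq_sub, ← sub_smul, Matrix.mulVec_smul,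
      W.smul_mem_iff (by rwa [sub_neg_eq_add])] at h5
  rw [← mulVec_inv_mulVec T v, ← Finset.univ_sum_single (_ *ᵥ v), Matrix.mulVec_sum]
  refine W.sum_mem fun j _ => ?_
  rw [← mul_one (((T⁻¹ : GL ι F) : Matrix ι ι F).mulVec v j), ← smul_eq_mul, Pi.single_smul,
    Matrix.mulVec_smul]
  exact W.smul_mem _ (h4 j)

theorem trace_tvf_three {u v w : ι → F} (c d e : F) (hu : fm σ G u u = 0) (hv : fm σ G v v = 0)
    (hw : fm σ G w w = 0) :
    ((tvf σ G u c hu : Matrix ι ι F) * tvf σ G v d hv * tvf σ G w e hw).trace =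
      Fintype.card ι + c * fm σ G v u * (d * fm σ G u v) + c * fm σ G w u * (e * fm σ G u w) +
        d * fm σ G w v * (e * fm σ G v w) + c * fm σ G v u * (d * fm σ G w v) * (e * fm σ G u w) := by
  simp only [tvf, coe_tv, mul_add, add_mul, one_mul, mul_one, Matrix.trace_add, Matrix.trace_one,
    Matrix.vecMulVec_mul_vecMulVec, Matrix.trace_vecMulVec, dotProduct_smul, smul_eq_mul,
    smul_dotProduct]
  simp only [show ∀ x y, (G *ᵥ σ ∘ y) ⬝ᵥ x = fm σ G x y from fun x y => dotProduct_comm _ _,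
    show ∀ x y, x ⬝ᵥ (G *ᵥ σ ∘ y) = fm σ G x y from fun x y => rfl, hu, hv, hw]
  ring

theorem su_not_le_sub [Finite F] (hG : HF σ G 1) (hne : ∃ a, σ a ≠ a) (hn : 3 ≤ Fintype.card ι)
    {F₀ : Subfield F} (h0 : F₀ ≠ ⊤) (P : GL ι F) :
    ¬ isom σ G ⊓ specialLinear ι F ≤ subfieldSubgroup F₀ P := by
  intro hle
  have : Nonempty ι := Fintype.card_pos_iff.1 (by omega)
  have hT := tvG_su hG hne (by omega)
  obtain ⟨c, hc, hc1⟩ := hT.coef
  obtain ⟨T, h1⟩ := hG.exists_pull_eq_one hne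
  obtain ⟨δ, h2, h3⟩ := exists_norm_neg_one hG.inv hne
  obtain ⟨i, j, k, hij, hik, hjk⟩ := exists_three hn
  have h2' : σ δ * δ = -1 := by rw [mul_comm, h2]
  let u := (T : Matrix ι ι F) *ᵥ (Pi.single i 1 + δ • Pi.single j 1)
  let v := (T : Matrix ι ι F) *ᵥ (Pi.single j 1 + δ • Pi.single k 1)
  let w := (T : Matrix ι ι F) *ᵥ (Pi.single k 1 + σ δ • Pi.single i 1)
  have h4 : fm σ G u u = 0 ∧ fm σ G v v = 0 ∧ fm σ G w w = 0 ∧ fm σ G u v = δ ∧ fm σ G v u = σ δ ∧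
      fm σ G u w = δ ∧ fm σ G w u = σ δ ∧ fm σ G v w = δ ∧ fm σ G w v = σ δ := by
    simp only [u, v, w, fm_pull, h1, fm_one_pair]
    simp [hij, hik, hjk, hij.symm, hik.symm, hjk.symm, h2, h2', hG.inv]
  obtain ⟨hu, hv, hw, e1, e2, e3, e4, e5, e6⟩ := h4
  have h5 := fun x d hx hd => tv_mem_ratSub (hle (hT.mem x d hx hd))
  have hσc : σ c = -c := by linear_combination hc1
  have h6 : ∀ s, σ s = s → s ∈ F₀ := fun s hs => by
    have h7 := trace_mem_of_mem_ratSub (mul_mem (h5 u c hu hc1) (h5 v (s / c) hv (by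
      rw [map_div₀, hs, hσc]; ring)))
    rw [Units.val_mul] at h7
    have h8 := trace_tvf_mul c (s / c) hu hv
    rw [e1, e2, show c * σ δ * (s / c * δ) = -s by field_simp; linear_combination s * h2] at h8
    exact neg_mem_iff.1 ((add_mem_cancel_left (natCast_mem F₀ _)).1 (h8 ▸ h7 : _ + -s ∈ F₀))
  have h7 := trace_mem_of_mem_ratSub (mul_mem (mul_mem (h5 u c hu hc1) (h5 v c hv hc1))
    (h5 w c hw hc1))
  rw [Units.val_mul, Units.val_mul] at h7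
  have h8 := trace_tvf_three c c c hu hv hw
  rw [e1, e2, e3, e4, e5, e6] at h8
  have h9 : c * σ δ ∈ F₀ := by
    have h10 := h6 (c * c) (by rw [map_mul, hσc]; ring)
    have h11 : c * σ δ = ((Fintype.card ι : F) - 3 * (c * c) - (Fintype.card ι +
        c * σ δ * (c * δ) + c * σ δ * (c * δ) + c * σ δ * (c * δ) +
        c * σ δ * (c * σ δ) * (c * δ))) / (c * c) := by
      rw [eq_div_iff (mul_ne_zero hc hc)]
      linear_combination (3 * c ^ 2 + c ^ 3 * σ δ) * h2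
    rw [h11]
    exact div_mem (sub_mem (sub_mem (natCast_mem _ _) (mul_mem (ofNat_mem _ 3) h10)) (h8 ▸ h7)) h10
  have h10 : c * σ δ - σ (c * σ δ) ≠ 0 := by
    rw [map_mul, hG.inv, hσc, show c * σ δ - -c * δ = c * (δ + σ δ) by ring]
    exact mul_ne_zero hc h3
  refine h0 (eq_top_iff.2 fun y _ => ?_)
  generalize c * σ δ = x at h9 h10
  have h11 : σ ((y - σ y) / (x - σ x)) = (y - σ y) / (x - σ x) := by
    rw [map_div₀, map_sub, map_sub, hG.inv, hG.inv, ← neg_div_neg_eq, neg_sub, neg_sub]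
  rw [← sub_add_cancel y ((y - σ y) / (x - σ x) * x)]
  refine add_mem (h6 _ ?_) (mul_mem (h6 _ h11) h9)
  rw [map_sub, map_mul, h11]
  field_simp
  ring

theorem rank_mul_sub_one (x y : Matrix ι ι F) : (x * y - 1).rank ≤ (x - 1).rank + (y - 1).rank := by
  rw [show x * y - 1 = (x - 1) * y + (y - 1) by noncomm_ring]
  exact (rank_add_le' _ _).trans (Nat.add_le_add_right (Matrix.rank_mul_le_left _ _) _)

theorem TvG.not_le_wr {ε : F} {X : Subgroup (GL ι F)} (h : TvG σ G ε X) {k : ℕ} (hk : 3 ≤ k)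
    (e : ι ≃ (Fin 2 → Fin k)) (P : GL ι F) : ¬ X ≤ tensorWreathSubgroup k 2 e P := by
  intro hle
  have : Nonempty ι := ⟨e.symm fun _ => ⟨0, by omega⟩⟩
  obtain ⟨c, hc, hc1⟩ := h.coef
  obtain ⟨v, hv, hv0⟩ := h.span ⊥ bot_ne_top
  obtain ⟨w, hw, hw0⟩ := h.span (F ∙ v) fun h0 => by
    have h1 := finrank_span_singleton (K := F) hv
    rw [h0, finrank_top, Module.finrank_fintype_fun_eq_card, Fintype.card_congr e] at h1
    simp at h1; omega
  have hw1 : w ≠ 0 := fun h0 => hw (h0 ▸ zero_mem _)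
  have h1 : ∀ x hx d, ((tvf σ G x d hx : Matrix ι ι F) - 1).rank ≤ 1 ∧
      ((((tvf σ G x d hx)⁻¹ : GL ι F) : Matrix ι ι F) - 1).rank ≤ 1 := fun x hx d =>
    ⟨rank_tv_sub_one _ _ _, by rw [tvf, tv_inv]; exact rank_tv_sub_one _ _ _⟩
  have h2 : ∀ x y hx hy, x ≠ 0 → tvf σ G y c hy = tvf σ G x c hx → x ∈ F ∙ y := fun x y hx hy h0 h2 => by
    obtain ⟨u, hu⟩ := exists_fm_ne_zero_left (σ := σ) h.hf.unit h0
    have h3 := congrArg (fun g : GL ι F => (g : Matrix ι ι F) *ᵥ u) h2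
    simp only [tvf_mulVec, add_right_inj] at h3
    rw [← Submodule.smul_mem_iff _ (mul_ne_zero hc hu), ← h3]
    exact Submodule.smul_mem _ _ (Submodule.mem_span_singleton_self y)
  have h0 : fm σ G 0 0 = 0 := by simp [fm]
  let x : Fin 3 → {x // fm σ G x x = 0} := ![⟨0, h0⟩, ⟨v, hv0⟩, ⟨w, hw0⟩]
  obtain ⟨a, b, hab, h3⟩ := exists_eq_of_mem_wreath le_rfl (α := Fin 3) (by decide)
    (fun a => tvf σ G (x a) c (x a).2) (fun a => hle (h.mem _ _ _ hc1)) fun a b => by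
      have := (h1 _ (x a).2 c).2
      have := (h1 _ (x b).2 c).1
      exact (rank_mul_sub_one _ _).trans_lt (by omega)
  have h4 := fun (y : ι → F) hy (hy0 : y ≠ 0) h5 => hy0 (by simpa using h2 y 0 hy h0 hy0 h5)
  fin_cases a <;> fin_cases b <;> simp only [x] at hab h3
  all_goals first
    | exact hab rfl | exact h4 _ _ hv h3 | exact h4 _ _ hv h3.symm | exact h4 _ _ hw1 h3
    | exact h4 _ _ hw1 h3.symm | exact hw (h2 _ _ _ _ hw1 h3) | exact hw (h2 _ _ _ _ hw1 h3.symm)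

theorem Blk.card_supp {t : ℕ} {D : Fin t → Submodule F (ι → F)} {e : ι ≃ Fin 1 × Fin t} {P : GL ι F}
    (h : Blk D e P) {y : Fin 1 × Fin t → F} {i j : Fin t}
    (hy : (P : Matrix ι ι F) *ᵥ (y ∘ e) ∈ D i ⊔ D j) {l : Fin t} (hi : l ≠ i) (hj : l ≠ j) :
    y (0, l) = 0 := by
  obtain ⟨a, ha, b, hb, hab⟩ := Submodule.mem_sup.1 hy
  obtain ⟨x, rfl⟩ := (h.mem i a).1 ha
  obtain ⟨x', rfl⟩ := (h.mem j b).1 hb
  rw [← Matrix.mulVec_add] at hab
  rw [← crd_injective e P (y := blkVec i x + blkVec j x') hab]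
  simp [blkVec, hi, hj]

theorem su_not_le_frame_of [Finite F] (hG : HF σ G 1) (hne : ∃ a, σ a ≠ a) {t : ℕ}
    {D : Fin t → Submodule F (ι → F)} (hD : IsNondegenerateMDecomposition (fm σ G) 1 D)
    (hy : ∃ (y : Fin t → F) (i j k : Fin t), i ≠ j ∧ i ≠ k ∧ j ≠ k ∧ y i ≠ 0 ∧ y j ≠ 0 ∧ y k ≠ 0 ∧
      ∑ l, y l * σ (y l) = 0) : ¬ isom σ G ⊓ specialLinear ι F ≤ decompositionStabilizer D := by
  intro hle
  have hT := tvG_su hG hne (by have := hD.decomp.h26_card; have := hD.decomp.two_le; omega)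
  obtain ⟨c, hc, hc1⟩ := hT.coef
  obtain ⟨e, P, hB, h1⟩ := exists_blk_one hG hne hD
  obtain ⟨y, i, j, k, hij, hik, hjk, hi, hj, hk, hy⟩ := hy
  have hv : fm σ G ((P : Matrix ι ι F) *ᵥ ((fun p => y p.2) ∘ e))
      ((P : Matrix ι ι F) *ᵥ ((fun p => y p.2) ∘ e)) = 0 := by
    rw [fm_unF, h1, fm_one, Fintype.sum_prod_type, Fin.sum_univ_one, hy]
  obtain ⟨a, b, hab⟩ : ∃ a b, (P : Matrix ι ι F) *ᵥ ((fun p => y p.2) ∘ e) ∈ D a ⊔ D b := by
    rcases hG.mem_of_tvf_mem hD.decomp hc hv (hle (hT.mem _ c hv hc1)) with ⟨a, ha⟩ | h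
    · exact ⟨a, a, Submodule.mem_sup_left ha⟩
    · exact h.2
  have h2 : ∀ l, y l ≠ 0 → l = a ∨ l = b := fun l hl => by
    by_contra! h
    exact hl (hB.card_supp hab h.1 h.2)
  have := h2 i hi
  have := h2 j hj
  have := h2 k hk
  omega

theorem su_not_le_dec [Finite F] (hG : HF σ G 1) (hne : ∃ a, σ a ≠ a) (hn : 4 ≤ Fintype.card ι)
    {t k : ℕ} {D : Fin t → Submodule F (ι → F)} (hD : IsNondegenerateMDecomposition (fm σ G) k D) :
    ¬ isom σ G ⊓ specialLinear ι F ≤ decompositionStabilizer D := by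
  by_cases hk : k = 1
  swap
  · exact (tvG_su hG hne (by omega)).not_le_dec hD.decomp hk
  subst hk
  obtain ⟨δ, h1, -⟩ := exists_norm_neg_one hG.inv hne
  obtain ⟨s, rfl⟩ : ∃ s, t = s + 4 := ⟨t - 4, by have := hD.decomp.h26_card; omega⟩
  have h2 : δ ≠ 0 := by rintro rfl; simp at h1
  exact su_not_le_frame_of hG hne hD ⟨Fin.cons 1 (Fin.cons δ (Fin.cons 1 (Fin.cons δ 0))), 0,
    Fin.succ 0, Fin.succ (Fin.succ 0), (Fin.succ_ne_zero _).symm, (Fin.succ_ne_zero _).symm,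
    fun h => Fin.succ_ne_zero _ (Fin.succ_injective _ h).symm, one_ne_zero, h2, one_ne_zero,
    by simp [Fin.sum_univ_succ, h1]⟩

theorem SuCase.eq_inf [Fintype F] (hG : HF σ G 1) (hne : ∃ a, σ a ≠ a) (hn : 5 ≤ Fintype.card ι)
    (hn' : Fintype.card ι < 27) {H : Subgroup (GL ι F)}
    (hH : IsMaximalIn (isom σ G ⊓ specialLinear ι F) H) (h : SuCase σ G (H ≤ ·)) :
    SuCase σ G fun M => H = M ⊓ (isom σ G ⊓ specialLinear ι F) := by
  have hT := tvG_su hG hne (by omega)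
  rcases h with ⟨W, h1, h2, h⟩ | ⟨W, h1, h2, h3, h⟩ | ⟨t, k, D, hD, h1, h⟩ | ⟨m, D, hD, h1, h⟩ |
    ⟨r, K, hr, ho, hK, h1, h⟩ | ⟨n₁, n₂, e, P, G₁, G₂, h1, h2, h3, h4, h⟩ |
    ⟨F₀, r, P, hr, ho, hc, h1, h⟩ | ⟨F₀, P, hq, hc, h1, h⟩ | ⟨F₀, P, ζ, he, hc, h0, h1, h2, h3, h⟩ |
    ⟨r, R, p, e, hR, hR', h1, hp, hm, h2, h⟩ | ⟨k, t, e, P, c, G₀, h1, h2, h3, hW, h⟩
  · exact .ts W h1 h2 (eq_inf_of_isMaximalIn hH h (hT.not_le_stab h1 (ne_top_of_ts hG h1 h2)))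
  · exact .nd W h1 h2 h3 (eq_inf_of_isMaximalIn hH h (hT.not_le_stab h1 (ne_top_of_finrank h3)))
  · exact .dec t k D hD h1 (eq_inf_of_isMaximalIn hH h (su_not_le_dec hG hne (by omega) hD))
  · exact .pair m D hD h1 (eq_inf_of_isMaximalIn hH h (hT.not_le_dec hD
      (by have := hD.h26_card; omega)))
  · exact .fld r K hr ho hK h1 (eq_inf_of_isMaximalIn hH h (hT.not_le_field (by omega) hK hr.ne_one))
  · exact .ten n₁ n₂ e P G₁ G₂ h1 h2 h3 h4
      (eq_inf_of_isMaximalIn hH h (hT.not_le_ten h1 (by omega) e P))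
  · exact .sub F₀ r P hr ho hc h1 (eq_inf_of_isMaximalIn hH h
      (su_not_le_sub hG hne (by omega) (subfield_ne_top hr hc) P))
  · exact .subO F₀ P hq hc h1 (eq_inf_of_isMaximalIn hH h
      (su_not_le_sub hG hne (by omega) (subfield_ne_top Nat.prime_two hc) P))
  · exact .subS F₀ P ζ he hc h0 h1 h2 h3 (eq_inf_of_isMaximalIn hH h
      (su_not_le_sub hG hne (by omega) (subfield_ne_top Nat.prime_two hc) P))
  · exact .ext r R p e hR hR' h1 hp hm h2 (eq_inf_of_isMaximalIn hH h (hT.not_le_ext hn hR'))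
  · have h6 : Fintype.card ι = k ^ t := by simpa using Fintype.card_congr e
    obtain rfl : t = 2 := by
      by_contra h7
      have : 3 ^ 3 ≤ k ^ t :=
        (Nat.pow_le_pow_left h1 3).trans (Nat.pow_le_pow_right (by omega) (by omega))
      omega
    exact .wr k 2 e P c G₀ h1 h2 h3 hW (eq_inf_of_isMaximalIn hH h (hT.not_le_wr h1 e P))

/-! ### the standard form -/

theorem exists_std_unitary [Fintype F] {q : ℕ} (hF : Fintype.card F = q ^ 2) (n : ℕ) :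
    ∃ σ : F →+* F, (fun x : F => x ^ q) = σ ∧ (∃ a, σ a ≠ a) ∧
      HF σ (1 : Matrix (Fin n) (Fin n) F) 1 ∧ hermForm n F q = fm σ 1 ∧ GU n F q = isom σ 1 := by
  obtain ⟨σ, h1, h2, h3⟩ := exists_involution hF
  have h4 : hermForm n F q = fm (σ : F →+* F) 1 := by
    ext u v; simp [hermForm, fm_one, h1]
  exact ⟨σ, (funext h1).symm, h3, ⟨h2, isUnit_one, by simp⟩, h4, by rw [GU, h4]; rfl⟩

theorem HF.isUnitaryFormPow {q : ℕ} (hσ : (fun x : F => x ^ q) = σ) (h : HF σ G 1) :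
    IsUnitaryFormPow q (fm σ G) :=
  ⟨fm_add_left σ G, fm_smul_left σ G, fun v w => by
    rw [show fm σ G w v ^ q = σ (fm σ G w v) from congrFun hσ _, h.swap, one_mul],
    isNondegenerateForm_fm h.unit⟩

theorem uni_minimal [Fintype F] {q z p e : ℕ} (hF : Fintype.card F = q ^ 2)
    (h : IsMinimalFieldFor z p e F) : ∃ d, e = 2 * d ∧ q = p ^ d ∧ orderOf (p : ZMod z) = 2 * d := by
  have h1 : q ^ 2 = p ^ e := hF.symm.trans h.2.2.1
  obtain ⟨d, -, rfl⟩ := (Nat.dvd_prime_pow h.1).1 (h1 ▸ dvd_pow_self q two_ne_zero)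
  rw [← pow_mul] at h1
  have h2 := Nat.pow_right_injective h.1.two_le h1
  exact ⟨d, by omega, rfl, by rw [orderOf_eq_of_minimal h]; omega⟩

theorem su_max [Fintype F] {q n : ℕ} (hF : Fintype.card F = q ^ 2) (hn : 5 ≤ n) (hn' : n < 27)
    {H : Subgroup (GL (Fin n) F)} (hH : IsMaximalIn (GU n F q ⊓ specialLinear (Fin n) F) H) :
    ∃ σ : F →+* F, (fun x : F => x ^ q) = σ ∧ hermForm n F q = fm σ 1 ∧ GU n F q = isom σ 1 ∧
      ((SuCase σ 1 fun M => H = M ⊓ (GU n F q ⊓ specialLinear (Fin n) F)) ∨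
        InUnitaryResidualClass H) := by
  obtain ⟨σ, hσ, hne, hG, hf, hI⟩ := exists_std_unitary hF n
  refine ⟨σ, hσ, hf, hI, ?_⟩
  rw [hI] at hH ⊢
  exact (su_cases hG hne (by simp; omega) (hH.1.le.trans inf_le_left)).imp_left fun h =>
    h.eq_inf hG hne (by simpa) (by simpa) hH

/-- **Aschbacher's theorem** for the unitary groups -/
theorem aschbacher_su [Fintype F] {q n : ℕ} (hF : Fintype.card F = q ^ 2) (hn : 2 ≤ n)
    {H : Subgroup (GL (Fin n) F)} (hH : H ≤ GU n F q) :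
    (∃ M, InUnitaryClass n F q M ∧ H ≤ M) ∨ InUnitaryResidualClass H := by
  obtain ⟨σ, hσ, hne, hG, hf, hI⟩ := exists_std_unitary hF n
  refine (su_cases hG hne (by simpa) (hI ▸ hH)).imp_left fun h => ?_
  simp only [InUnitaryClass, InUnitaryPartialClass, hf, hσ]
  rcases h with ⟨W, h1, h2, h⟩ | ⟨W, h1, h2, h3, h⟩ | ⟨t, k, D, hD, h1, h⟩ | ⟨m, D, hD, h1, h⟩ |
    ⟨r, K, hr, ho, hK, h1, h⟩ | ⟨n₁, n₂, e, P, G₁, G₂, h1, h2, h3, h4, h⟩ |
    ⟨F₀, r, P, hr, ho, hc, h1, h⟩ | ⟨F₀, P, hq, hc, h1, h⟩ | ⟨F₀, P, ζ, he, hc, h0, h1, h2, h3, h⟩ |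
    ⟨r, R, p, e, hR, hR', h1, hp, hm, h2, h⟩ | ⟨k, t, e, P, c, G₀, h1, h2, h3, hW, h⟩ <;>
    refine ⟨_, ?_, le_inf h hH⟩
  · exact .inl (.inl ⟨W, h1, h2, rfl⟩)
  · exact .inl (.inr (.inl ⟨W, h1, h2, by simpa using h3, rfl⟩))
  · exact .inl (.inr (.inr (.inl ⟨t, k, D, hD, rfl⟩)))
  · exact .inl (.inr (.inr (.inr (.inl ⟨m, D, by simpa using hD.h26_card, hD, h1, rfl⟩))))
  · exact .inr (.inl ⟨r, K, hr, ho, hK, h1, rfl⟩)
  · exact .inr (.inr (.inl ⟨n₁, n₂, e, P, _, _, h1, h2, h4.hf₁.isUnitaryFormPow hσ,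
      h4.hf₂.isUnitaryFormPow hσ, h4.isTensorFormStructure, rfl⟩))
  · exact .inl (.inr (.inr (.inr (.inr (.inl ⟨F₀, r, P, hr, ho, hc, h1, rfl⟩)))))
  · exact .inl (.inr (.inr (.inr (.inr (.inr (.inl ⟨F₀, P,
      (Nat.odd_pow_iff two_ne_zero).1 (hF ▸ hq), hc, h1, rfl⟩))))))
  · exact .inl (.inr (.inr (.inr (.inr (.inr (.inr (.inl ⟨F₀, P, ζ, by simpa using he, hc, h0,
      by rw [← h1, ← hσ], h2, h3, rfl⟩)))))))
  · obtain ⟨k, hk, -, hk2⟩ := hR.dim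
    refine .inl (.inr (.inr (.inr (.inr (.inr (.inr (.inr ⟨r, R, p, e, k, hR.sympl,
      absIrr_of_spanAlg_eq_top hR.span, h1.trans (isom_le_similarityGroup _ _), hp, hm, ?_,
      rfl⟩)))))))
    rcases h2 with ⟨h3, h4⟩ | ⟨rfl, h3, h4⟩
    · exact .inl ⟨h3, h4, hk, by rw [hk2, h4, pow_add, pow_one]⟩
    · exact .inr ⟨rfl, h3, h4, by rw [hk2, h4, pow_add]; rfl⟩
  · exact .inr (.inr (.inr ⟨k, t, e, P, _, h1, h2, fun h4 => h3 ⟨by rw [hF, h4.1]; rfl, h4.2⟩,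
      hW.hf.isUnitaryFormPow hσ, hW.isTensorPowerFormStructure, rfl⟩))

end Cfsg.Agent.H26
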