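import Mathlib
import Cfsg.Agent.H26.SU

/-! Numerical conditions for the unitary classes. -/

set_option autoImplicit false

namespace Cfsg.Agent.H26

open Matrix Cfsg.Geo

theorem uni_numerics {F : Type*} [Field F] [Fintype F] {q z p e : ℕ} (hz : 1 < z)
    (hF : Fintype.card F = q ^ 2) (h : IsMinimalFieldFor z p e F) :
    ∃ d, q = p ^ d ∧ d < z / 2 + 1 ∧ p % z < z ∧ 0 < d ∧ (p % z) ^ (2 * d) % z = 1 ∧
      ∀ j < 2 * d, 0 < j → (p % z) ^ j % z ≠ 1 := by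
  obtain ⟨d, rfl, h1, h2⟩ := uni_minimal hF h
  have : NeZero z := ⟨by omega⟩
  have h3 : ∀ j, (p % z) ^ j % z = 1 ↔ z ∣ p ^ j - 1 := fun j => by
    rw [← Nat.pow_mod, ← Nat.modEq_iff_dvd' (Nat.one_le_pow _ _ h.1.pos), Nat.ModEq,
      Nat.mod_eq_of_lt hz, eq_comm]
  have h4 := orderOf_le_card_univ (x := (p : ZMod z))
  rw [ZMod.card] at h4
  refine ⟨d, h1, by omega, Nat.mod_lt _ (by omega), Nat.pos_of_ne_zero ?_, (h3 _).2 h.2.2.2.1,
    fun j hj hj0 h5 => h.2.2.2.2 j hj0 hj ((h3 j).1 h5)⟩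
  rintro rfl
  have : 1 < Fintype.card F := Fintype.one_lt_card
  rw [hF, h1] at this
  simp at this

end Cfsg.Agent.H26
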