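import Mathlib
import Cfsg.Agent.H26.SUNum
import Cfsg.Agent.H11.Bridge2

/-! Orthogonal groups: Eichler elements, the Dickson invariant, properness of the classes. -/

set_option autoImplicit false
set_option maxHeartbeats 400000

namespace Cfsg.Agent.H26

open Matrix Cfsg.Geo
open scoped Kronecker

/-- the bilinear form with Gram matrix `G` -/
scoped notation "𝔟" => fm (RingHom.id _)

variable {ι κ β : Type} [Fintype ι] [DecidableEq ι] [Fintype κ] [DecidableEq κ]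
  [Fintype β] [DecidableEq β] {F : Type*} [Field F] {G : Matrix ι ι F} {Q : (ι → F) → F}

theorem QF.fmB (h : QF Q G) (x y : ι → F) : fmB (RingHom.id F) G x y = 𝔟 G x y := h.comm y x

theorem QF.sep (h : QF Q G) : (H26.fmB (RingHom.id F) G).SeparatingLeft := h.hf.sep

theorem finrank_fun : Module.finrank F (ι → F) = Fintype.card ι :=
  Module.finrank_fintype_fun_eq_card F

theorem QF.nonExc (h : QF Q G) (hn : Fintype.card ι ≠ 4) : H11.NonExc (H26.fmB (RingHom.id F) G) Q :=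
  h.isQuad.nonExc_of_finrank h.sep (by rwa [finrank_fun])

theorem omegaGL_le : omegaGL Q ≤ isometryGroup F Q := Subgroup.map_subtype_le _

theorem QF.omega_le (h : QF Q G) : omegaGL Q ≤ isom (RingHom.id F) G :=
  omegaGL_le.trans h.isometryGroup_le

theorem QF.mem_omega (h : QF Q G) {g : GL ι F} (hg : g ∈ isometryGroup F Q) :
    g ∈ omegaGL Q ↔ H11.oEquiv h.isQuad ⟨g, hg⟩ ∈ commutator _ := by
  rw [← H11.mem_Omega_iff]
  exact ⟨fun ⟨x, hx, h1⟩ => by rwa [show (⟨g, hg⟩ : isometryGroup F Q) = x from Subtype.ext h1.symm],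
    fun hx => ⟨_, hx, rfl⟩⟩

/-- the matrix of an abstract isometry -/
noncomputable def QF.mat (h : QF Q G) (g : H11.Isom (H26.fmB (RingHom.id F) G) Q) : GL ι F :=
  ((H11.oEquiv h.isQuad).symm g).1

theorem QF.mat_mulVec (h : QF Q G) (g : H11.Isom (H26.fmB (RingHom.id F) G) Q) (v : ι → F) :
    (h.mat g : Matrix ι ι F) *ᵥ v = g.1 v := H11.oEquiv_symm_mulVec h.isQuad g v

theorem QF.mat_mem (h : QF Q G) (g : H11.Isom (H26.fmB (RingHom.id F) G) Q) :
    h.mat g ∈ isometryGroup F Q := ((H11.oEquiv h.isQuad).symm g).2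

theorem QF.mat_mem_omega (h : QF Q G) {g : H11.Isom (H26.fmB (RingHom.id F) G) Q} :
    h.mat g ∈ omegaGL Q ↔ g ∈ commutator _ := by
  rw [h.mem_omega (h.mat_mem g)]
  exact iff_of_eq (congrArg (· ∈ _) ((H11.oEquiv h.isQuad).apply_symm_apply g))

/-- the Eichler transformation -/
noncomputable def QF.eich (h : QF Q G) {u w : ι → F} (hu : Q u = 0) (huw : 𝔟 G u w = 0) : GL ι F :=
  h.mat (h.isQuad.eich hu ((h.fmB u w).trans huw))

theorem QF.eich_mulVec (h : QF Q G) {u w : ι → F} (hu : Q u = 0) (huw : 𝔟 G u w = 0) (x : ι → F) :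
    (h.eich hu huw : Matrix ι ι F) *ᵥ x =
      x + 𝔟 G w x • u - 𝔟 G u x • w - (Q w * 𝔟 G u x) • u := by
  rw [QF.eich, h.mat_mulVec, h.isQuad.eich_apply, h.fmB, h.fmB]

theorem QF.eich_mem [Finite F] (h : QF Q G) (hn : Fintype.card ι ≠ 4) {u w : ι → F} (hu : Q u = 0)
    (huw : 𝔟 G u w = 0) : h.eich hu huw ∈ omegaGL Q :=
  h.mat_mem_omega.2 (h.isQuad.eich_mem_commutator h.sep (h.nonExc hn) hu _)

theorem GL_ext_mulVec {g g' : GL ι F}
    (h : ∀ v, (g : Matrix ι ι F) *ᵥ v = (g' : Matrix ι ι F) *ᵥ v) : g = g' :=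
  Units.ext (matrix_ext_mulVec h)

theorem QF.self_zero (h : QF Q G) {u : ι → F} (hu : Q u = 0) : 𝔟 G u u = 0 := by
  rw [h.diag, hu, mul_zero]

theorem QF.eich_mul (h : QF Q G) {u w w' : ι → F} (hu : Q u = 0) (huw : 𝔟 G u w = 0)
    (huw' : 𝔟 G u w' = 0) : h.eich hu huw * h.eich hu huw' =
      h.eich hu (w := w + w') (by rw [fm_add_right, huw, huw', add_zero]) := by
  refine GL_ext_mulVec fun x => ?_
  rw [Units.val_mul, ← Matrix.mulVec_mulVec]
  simp only [h.eich_mulVec, fm_add_right, fm_sub_right, fm_smul_right, fm_add_left, h.add,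
    RingHom.id_apply, h.self_zero hu, huw', h.comm w u, huw]
  module

theorem QF.eich_pow (h : QF Q G) {u w : ι → F} (hu : Q u = 0) (huw : 𝔟 G u w = 0) (k : ℕ) :
    h.eich hu huw ^ k = h.eich hu (w := (k : F) • w) (by rw [fm_smul_right, huw, mul_zero]) := by
  induction k with
  | zero => exact GL_ext_mulVec fun x => by simp [h.eich_mulVec, h.zero, fm]
  | succ k ih => rw [pow_succ, ih, h.eich_mul]; congr 1; simp [add_smul]

theorem QF.rank_eich (h : QF Q G) {u w : ι → F} (hu : Q u = 0) (huw : 𝔟 G u w = 0) :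
    ((h.eich hu huw : Matrix ι ι F) - 1).rank ≤ 2 := by
  rw [rank_eq_finrank_colSp]
  refine (Submodule.finrank_mono (t := Submodule.span F (Set.range ![u, w])) ?_).trans
    ((finrank_range_le_card _).trans (by simp))
  rintro _ ⟨x, rfl⟩
  have h1 : u ∈ Submodule.span F (Set.range ![u, w]) := Submodule.subset_span ⟨0, rfl⟩
  have h2 : w ∈ Submodule.span F (Set.range ![u, w]) := Submodule.subset_span ⟨1, rfl⟩
  rw [Matrix.toLin'_apply, Matrix.sub_mulVec, h.eich_mulVec, Matrix.one_mulVec,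
    show ∀ a b c : ι → F, x + a - b - c - x = a - b - c from fun a b c => by abel]
  exact sub_mem (sub_mem (Submodule.smul_mem _ _ h1) (Submodule.smul_mem _ _ h2))
    (Submodule.smul_mem _ _ h1)

theorem QF.exists_sing [Finite F] (h : QF Q G) {W : Submodule F (ι → F)}
    (hW : 3 ≤ Module.finrank F W) : ∃ v ∈ W, v ≠ 0 ∧ Q v = 0 :=
  let ⟨v, h1, h2⟩ := H11.IsQuad.exists_singular (h.isQuad.restrict W) hW
  ⟨v, v.2, fun h => h1 (Subtype.ext h), h2⟩

theorem HF.exists_perp {σ : F →+* F} {ε : F} (h : HF σ G ε) {W : Submodule F (ι → F)} {x : ι → F}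
    (hx : x ∉ W) : ∃ y, (∀ w ∈ W, fm σ G w y = 0) ∧ fm σ G x y = 1 := by
  rw [← h.prp_prp W, H26.mem_prp] at hx
  push Not at hx
  obtain ⟨y, hy, h1⟩ := hx
  obtain ⟨c, hc⟩ := h.surj (fm σ G x y)⁻¹
  exact ⟨c • y, fun w hw => by rw [fm_smul_right, h.mem_prp.1 hy w hw, mul_zero],
    by rw [fm_smul_right, hc, inv_mul_cancel₀ h1]⟩

theorem HF.exists_perp_one {σ : F →+* F} {ε : F} (h : HF σ G ε) {u x : ι → F}
    (hx : ∀ c : F, x ≠ c • u) : ∃ y, fm σ G u y = 0 ∧ fm σ G x y = 1 :=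
  let ⟨y, h1, h2⟩ := h.exists_perp (W := Submodule.span F {u}) (x := x) fun hx' =>
    let ⟨c, hc⟩ := Submodule.mem_span_singleton.1 hx'; hx c hc.symm
  ⟨y, h1 u (Submodule.mem_span_singleton_self u), h2⟩

/-- adding an orthogonal singular vector -/
theorem QF.exists_omega_add [Finite F] (h : QF Q G) (hn : Fintype.card ι ≠ 4) {u x : ι → F}
    (hu : Q u = 0) (hux : 𝔟 G u x = 0) (hx : ∀ c : F, x ≠ c • u) :
    ∃ g ∈ omegaGL Q, (g : Matrix ι ι F) *ᵥ x = x + u := by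
  obtain ⟨w, h1, h2⟩ := h.hf.exists_perp_one hx
  exact ⟨_, h.eich_mem hn hu h1, by simp [h.eich_mulVec, hux, h.comm w x, h2]⟩

theorem QF.exists_sing_perp [Finite F] (h : QF Q G) (hn : 5 ≤ Fintype.card ι) {u : ι → F}
    (hu : Q u = 0) : ∃ w, Q w = 0 ∧ 𝔟 G u w = 0 ∧ ∀ c : F, w ≠ c • u := by
  by_cases hu0 : u = 0
  · obtain ⟨w, -, h1, h2⟩ := h.exists_sing (W := ⊤) (by rw [finrank_top, finrank_fun]; omega)
    exact ⟨w, h2, by simp [hu0, fm], by simpa [hu0]⟩
  obtain ⟨f, hf⟩ := exists_fm_ne_zero_right (σ := RingHom.id F) h.unit hu0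
  have h1 := h.hf.finrank_prp (Submodule.span F (Set.range ![u, f]))
  have h2 := finrank_range_le_card (R := F) ![u, f]
  obtain ⟨w, hw, h3, h4⟩ := h.exists_sing (W := prp (RingHom.id F) G (Submodule.span F (Set.range ![u, f])))
    (by simp only [Set.finrank, Fintype.card_fin] at h2; omega)
  refine ⟨w, h4, h.hf.mem_prp.1 hw u (Submodule.subset_span ⟨0, rfl⟩), ?_⟩
  rintro c rfl
  have h5 := mem_prp.1 hw f (Submodule.subset_span ⟨1, rfl⟩)
  rw [fm_smul_left, mul_eq_zero, or_iff_left hf] at h5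
  exact h3 (by rw [h5, zero_smul])

theorem QF.exists_sing_not_perp [Finite F] (h : QF Q G) (hn : 3 ≤ Fintype.card ι) {x : ι → F}
    (hx : x ≠ 0) : ∃ u, Q u = 0 ∧ 𝔟 G u x ≠ 0 := by
  obtain ⟨e, -, he0, he⟩ := h.exists_sing (W := ⊤) (by rwa [finrank_top, finrank_fun])
  by_contra! h1
  have h2 : ∀ y, 𝔟 G e y ≠ 0 → 𝔟 G y x = 0 := fun y hy => by
    obtain ⟨c, hc⟩ := h.isQuad.exists_add_smul_singular he (by rwa [h.fmB])
    have := h1 _ hc
    rwa [fm_add_left, fm_smul_left, h1 e he, mul_zero, add_zero] at this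
  obtain ⟨y₀, hy₀⟩ := exists_fm_ne_zero_right (σ := RingHom.id F) h.unit he0
  refine hx (h.hf.eq_zero_right fun y => ?_)
  by_cases hy : 𝔟 G e y = 0
  · have := h2 (y + y₀) (by rwa [fm_add_right, hy, zero_add])
    rwa [fm_add_left, h2 y₀ hy₀, add_zero] at this
  · exact h2 y hy

theorem QF.eq_top_of_sing [Finite F] (h : QF Q G) (hn : 3 ≤ Fintype.card ι)
    {W : Submodule F (ι → F)} (hW : ∀ u, Q u = 0 → u ∈ W) : W = ⊤ := by
  rw [← h.hf.prp_prp W, eq_top_iff]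
  refine fun v _ => mem_prp.2 fun x hx => ?_
  by_cases hx0 : x = 0
  · simp [hx0, fm]
  · obtain ⟨u, h1, h2⟩ := h.exists_sing_not_perp hn hx0
    exact absurd (h.hf.mem_prp.1 hx u (hW u h1)) h2

/-- `Ω` is transitive on singular points -/
theorem QF.exists_omega_sing [Finite F] (h : QF Q G) (hn : 5 ≤ Fintype.card ι) {u v : ι → F}
    (hu : Q u = 0) (hu0 : u ≠ 0) (hv : Q v = 0) (hv0 : v ≠ 0) :
    ∃ g ∈ omegaGL Q, ∃ c : F, v = c • (g : Matrix ι ι F) *ᵥ u := by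
  have h1 : ∀ u, Q u = 0 → H11.TotSing (H26.fmB (RingHom.id F) G) Q (Submodule.span F {u}) :=
    fun u hu => h.isQuad.totSing_span (by simpa) (by simpa [h.fmB] using h.self_zero hu)
  obtain ⟨g, hg, h2⟩ := h.isQuad.exists_commutator_map_eq_totSing h.sep (h.nonExc (by omega))
    (h1 u hu) (h1 v hv) (by rw [finrank_span_singleton hu0, finrank_span_singleton hv0])
    (by rw [finrank_span_singleton hu0, finrank_fun]; omega)
  rw [Submodule.map_span, Set.image_singleton] at h2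
  obtain ⟨c, hc⟩ := Submodule.mem_span_singleton.1 (h2 ▸ Submodule.mem_span_singleton_self v)
  exact ⟨_, h.mat_mem_omega.2 hg, c, by rw [h.mat_mulVec]; exact hc.symm⟩

theorem QF.irr_omega [Finite F] (h : QF Q G) (hn : 5 ≤ Fintype.card ι) : Irr (omegaGL Q) := by
  intro W hW
  refine or_iff_not_imp_left.2 fun h0 => ?_
  obtain ⟨x, hx, hx0⟩ := (Submodule.ne_bot_iff W).1 h0
  obtain ⟨u, hu, hux⟩ := h.exists_sing_not_perp (by omega) hx0
  obtain ⟨w, hw, huw, h1⟩ := h.exists_sing_perp hn hu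
  have h2 := W.sub_mem (hW _ (h.eich_mem (by omega) hu huw) x hx) hx
  rw [h.eich_mulVec, hw, zero_mul, zero_smul, sub_zero, add_sub_assoc, add_sub_cancel_left] at h2
  refine h.eq_top_of_sing (by omega) fun v hv => ?_
  by_cases hv0 : v = 0
  · exact hv0 ▸ W.zero_mem
  obtain ⟨g, hg, c, rfl⟩ := h.exists_omega_sing hn (u := 𝔟 G w x • u - 𝔟 G u x • w)
    (by rw [sub_eq_add_neg, ← neg_smul, h.add, h.smul, h.smul, hu, hw, fm_smul_left, fm_smul_right, huw]; simp)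
    (fun h3 => h1 (𝔟 G w x / 𝔟 G u x) (by
      rw [div_eq_inv_mul, mul_smul, sub_eq_zero.1 h3, inv_smul_smul₀ hux])) hv hv0
  exact W.smul_mem c (hW g hg _ h2)

theorem QF.not_le_stab [Finite F] (h : QF Q G) (hn : 5 ≤ Fintype.card ι) {W : Submodule F (ι → F)}
    (h1 : W ≠ ⊥) (h2 : W ≠ ⊤) : ¬ omegaGL Q ≤ subspaceStabilizer W := fun hle =>
  (h.irr_omega hn W (inv_of_le hle)).elim h1 h2

theorem QF.not_le_dec [Finite F] (h : QF Q G) (hn : 5 ≤ Fintype.card ι) {t k : ℕ}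
    {D : Fin t → Submodule F (ι → F)} (hD : IsNondegenerateMDecomposition (𝔟 G) k D) :
    ¬ omegaGL Q ≤ decompositionStabilizer D := by
  intro hle
  have h1 := hD.decomp.two_le
  let i : Fin t := ⟨0, by omega⟩
  obtain ⟨x, hx, hx0⟩ := hD.decomp.h26_exists_ne_zero i
  have h2 := h.hf.finrank_prp (D i)
  have h3 := hD.decomp.h26_card
  rw [hD.decomp.finrank_eq] at h2
  have h4 := h.hf.nondeg_iff.1 (hD.nondegenerate i)
  have h5 : ∀ y ∈ D i, y ∈ prp (RingHom.id F) G (D i) → y = 0 := fun y h1 h2 =>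
    (Submodule.mem_bot F).1 (h4 ▸ Submodule.mem_inf.2 ⟨h1, h2⟩)
  obtain ⟨u, hu, hu0, hQ⟩ := h.exists_sing (W := prp (RingHom.id F) G (D i)) (by nlinarith)
  obtain ⟨g, hg, h6⟩ := h.exists_omega_add (by omega) hQ (mem_prp.1 hu x hx)
    (fun c hc => hx0 (h5 x hx (hc ▸ Submodule.smul_mem _ c hu)))
  obtain ⟨j, hj⟩ := mulVec_mem_of_mem_decompositionStabilizer (hle hg) hx
  rw [h6] at hj
  by_cases hij : j = i
  · exact hu0 (h5 u ((add_mem_cancel_left hx).1 (hij ▸ hj)) hu)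
  · exact hx0 (h5 x hx ((add_mem_cancel_right hu).1
      (mem_prp.2 fun y hy => hD.orthogonal j i hij _ hj y hy)))

theorem QF.not_le_pair [Finite F] (h : QF Q G) (hn : 5 ≤ Fintype.card ι) {m : ℕ}
    {D : Fin 2 → Submodule F (ι → F)} (hD : IsMDecomposition m D)
    (h1 : ∀ i, IsTotallySingularQuad Q (D i)) : ¬ omegaGL Q ≤ decompositionStabilizer D := by
  intro hle
  obtain ⟨x, hx, hx0⟩ := hD.h26_exists_ne_zero 0
  have h2 := h.hf.finrank_prp (Submodule.span F {x})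
  have h3 := hD.h26_card
  have h4 := Submodule.finrank_sup_add_finrank_inf_eq (D 1) (prp (RingHom.id F) G (Submodule.span F {x}))
  have h5 := Submodule.finrank_le (D 1 ⊔ prp (RingHom.id F) G (Submodule.span F {x}))
  rw [finrank_span_singleton hx0] at h2
  rw [hD.finrank_eq] at h4
  rw [finrank_fun] at h5
  obtain ⟨u, ⟨hu, hu'⟩, hu0⟩ := (Submodule.ne_bot_iff _).1
    (show D 1 ⊓ prp (RingHom.id F) G (Submodule.span F {x}) ≠ ⊥ from fun h => by
      rw [h, finrank_bot] at h4; omega)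
  obtain ⟨g, hg, h6⟩ := h.exists_omega_add (by omega) (h1 1 u hu)
    (mem_prp.1 hu' x (Submodule.mem_span_singleton_self x)) (fun c hc =>
      not_mem_of_decomp hD (i := 0) (j := 1) (by simp) hx hu hx0 hu0 1
        (hc ▸ add_mem ((D 1).smul_mem c hu) hu))
  obtain ⟨j, hj⟩ := mulVec_mem_of_mem_decompositionStabilizer (hle hg) hx
  exact not_mem_of_decomp hD (i := 0) (j := 1) (by simp) hx hu hx0 hu0 j (h6 ▸ hj)

theorem QF.eigen_of_comm (h : QF Q G) (hn : 3 ≤ Fintype.card ι) {u : ι → F} (hu : Q u = 0)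
    {z : Matrix ι ι F} (hz : ∀ w (huw : 𝔟 G u w = 0), (h.eich hu huw).val * z = z * (h.eich hu huw).val) :
    ∃ c : F, z *ᵥ u = c • u := by
  have h1 : ∀ w, 𝔟 G u w = 0 → 𝔟 G w (z *ᵥ u) • u - 𝔟 G u (z *ᵥ u) • w -
      (Q w * 𝔟 G u (z *ᵥ u)) • u = 0 := fun w huw => by
    have h2 := congrArg (· *ᵥ u) (hz w huw)
    simp only [← Matrix.mulVec_mulVec, h.eich_mulVec, h.self_zero hu, h.comm w u, huw, zero_smul,
      mul_zero, add_zero, sub_zero] at h2
    linear_combination (norm := module) h2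
  by_cases hu0 : u = 0
  · exact ⟨0, by simp [hu0]⟩
  have h2 : 𝔟 G u (z *ᵥ u) = 0 := by
    by_contra h2
    have h3 := h.hf.finrank_prp (Submodule.span F {u})
    have h4 : prp (RingHom.id F) G (Submodule.span F {u}) ≤ Submodule.span F {u} := fun w hw => by
      have h5 := h1 w (h.hf.mem_prp.1 hw u (Submodule.mem_span_singleton_self u))
      refine Submodule.mem_span_singleton.2 ⟨(𝔟 G u (z *ᵥ u))⁻¹ *
        (𝔟 G w (z *ᵥ u) - Q w * 𝔟 G u (z *ᵥ u)), ?_⟩
      rw [mul_smul, inv_smul_eq_iff₀ h2]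
      linear_combination (norm := module) h5
    have h5 := Submodule.finrank_mono h4
    rw [finrank_span_singleton hu0] at h3 h5
    omega
  by_contra! h3
  obtain ⟨w, h4, h5⟩ := h.hf.exists_perp_one h3
  have h6 := h1 w h4
  rw [h2, h.comm w, h5] at h6
  exact hu0 (by simpa using h6)

theorem QF.not_le_field [Finite F] (h : QF Q G) (hn : 5 ≤ Fintype.card ι) {r : ℕ}
    {K : Subalgebra F (Matrix ι ι F)} (hK : IsFieldSubalgebra r K) (hr : r ≠ 1) :
    ¬ omegaGL Q ≤ subalgebraNormalizer K := by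
  intro hle
  obtain ⟨u, -, hu0, hu⟩ := h.exists_sing (W := ⊤) (by rw [finrank_top, finrank_fun]; omega)
  exact not_invariant_line hK hr hu0 fun k hk => h.eigen_of_comm (by omega) hu fun w huw =>
    comm_of_mem_normalizer_field hK (hle (h.eich_mem (by omega) hu huw))
      (by have := h.rank_eich hu huw; omega) k hk

theorem rank_kronecker_trA (e : ι ≃ κ) (P : GL ι F) (x : Matrix κ κ F) :
    (trA e P x - 1).rank = (x - 1).rank := by
  rw [← rank_trA e P, map_sub, map_one]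

theorem QF.not_le_ten [Finite F] (h : QF Q G) {a b : ℕ} (ha : 2 ≤ a) (hb : 3 ≤ b)
    (e : ι ≃ Fin a × Fin b) (P : GL ι F) : ¬ omegaGL Q ≤ tensorProductSubgroup a b e P := by
  intro hle
  have hn : 6 ≤ Fintype.card ι := by
    rw [Fintype.card_congr e]; simpa using Nat.mul_le_mul ha hb
  obtain ⟨u, -, hu0, hu⟩ := h.exists_sing (W := ⊤) (by rw [finrank_top, finrank_fun]; omega)
  let φ := (trA e P).toAlgHom.comp (kronL (Fin a) (Fin b) F)
  have h1 : ∀ x, ∃ c : F, φ x *ᵥ u = c • u := fun x => h.eigen_of_comm (by omega) hu fun w huw => by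
    obtain ⟨y, z, h1⟩ := mem_tenG.1 (tenG_eq e P ▸ hle (h.eich_mem (by omega) hu huw))
    have h2 := h.rank_eich hu huw
    rw [h1, rank_kronecker_trA] at h2
    obtain ⟨c, hc⟩ := scalar_left_of_kronecker_rank (h2.trans_lt (by simp; omega))
    rw [h1, tenL_apply, ← map_mul, ← map_mul, ← Matrix.mul_kronecker_mul, ← Matrix.mul_kronecker_mul,
      hc]
    simp
  have h2 : ∀ i j, i ≠ j → φ (single i j 1) *ᵥ u = 0 := fun i j hij => by
    obtain ⟨c, hc⟩ := h1 (single i j 1)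
    have h3 := congrArg (φ (single i j 1) *ᵥ ·) hc
    rw [Matrix.mulVec_mulVec, ← map_mul, Matrix.single_mul_single_of_ne _ _ _ _ hij.symm,
      map_zero, Matrix.zero_mulVec, Matrix.mulVec_smul, hc, smul_smul] at h3
    rw [hc, mul_self_eq_zero.1 ((smul_eq_zero.1 h3.symm).resolve_right hu0), zero_smul]
  have : Nontrivial (Fin a) := Fin.nontrivial_iff_two_le.2 ha
  have h3 : ∀ i, φ (single i i 1) *ᵥ u = 0 := fun i => by
    obtain ⟨j, hj⟩ := exists_ne i
    rw [show single i i (1 : F) = single i j 1 * single j i 1 by simp, map_mul,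
      ← Matrix.mulVec_mulVec, h2 j i hj, Matrix.mulVec_zero]
  apply hu0
  rw [← Matrix.one_mulVec u, ← map_one φ, Matrix.matrix_eq_sum_single (1 : Matrix (Fin a) (Fin a) F),
    map_sum, Matrix.sum_mulVec]
  refine Finset.sum_eq_zero fun i _ => ?_
  rw [map_sum, Matrix.sum_mulVec]
  refine Finset.sum_eq_zero fun j _ => ?_
  by_cases hij : i = j
  · rw [hij, Matrix.one_apply_eq, h3]
  · rw [Matrix.one_apply_ne hij, Matrix.single_zero, map_zero, Matrix.zero_mulVec]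

theorem QF.eich_ne_one (h : QF Q G) {u w : ι → F} (hu : Q u = 0) (huw : 𝔟 G u w = 0) (hu0 : u ≠ 0)
    (hw : ∀ c : F, w ≠ c • u) : h.eich hu huw ≠ 1 := fun h1 => by
  obtain ⟨x, h2, h3⟩ := h.hf.exists_perp_one hw
  have h4 := h.eich_mulVec hu huw x
  rw [h1, h2, h3] at h4
  exact hu0 (by simpa using h4)

theorem QF.not_le_wr [Finite F] (h : QF Q G) (h2 : (2 : F) ≠ 0) {k : ℕ} (hk : 3 ≤ k)
    (e : ι ≃ (Fin 2 → Fin k)) (P : GL ι F) : ¬ omegaGL Q ≤ tensorWreathSubgroup k 2 e P := by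
  intro hle
  have hn : 9 ≤ Fintype.card ι := by
    rw [Fintype.card_congr e]; simpa using Nat.pow_le_pow_left hk 2
  obtain ⟨u, -, hu0, hu⟩ := h.exists_sing (W := ⊤) (by rw [finrank_top, finrank_fun]; omega)
  obtain ⟨w, -, huw, hw⟩ := h.exists_sing_perp (by omega) hu
  have h1 := pow_eq_one_of_mem_wreath le_rfl (hle (h.eich_mem (by omega) hu huw))
    (by rw [h.eich_pow]; exact (h.rank_eich _ _).trans_lt hk)
  rw [h.eich_pow] at h1
  refine h.eich_ne_one hu _ hu0 (fun c hc => hw (c / 2) ?_) h1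
  rw [div_eq_inv_mul, mul_smul, ← hc]
  simp [Nat.factorial, smul_smul, h2]

theorem QF.not_le_sub [Finite F] (h : QF Q G) (hn : 5 ≤ Fintype.card ι) {F₀ : Subfield F}
    (h0 : F₀ ≠ ⊤) (P : GL ι F) : ¬ omegaGL Q ≤ subfieldSubgroup F₀ P := by
  intro hle
  have : Nonempty ι := Fintype.card_pos_iff.1 (by omega)
  obtain ⟨u, -, hu0, hu⟩ := h.exists_sing (W := ⊤) (by rw [finrank_top, finrank_fun]; omega)
  obtain ⟨w, hQ, huw, hw⟩ := h.exists_sing_perp hn hu
  obtain ⟨p, hp⟩ := CharP.exists F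
  have hp' := CharP.char_is_prime F p
  have h1 : ∀ a : F, 𝔟 G u (a • w) = 0 := fun a => by rw [fm_smul_right, huw, mul_zero]
  have h2 : ∀ (a : F) i j, cj P⁻¹ ((h.eich hu (h1 a)).val - 1) i j ∈ F₀ := fun a i j => by
    rw [map_sub, map_one, Matrix.sub_apply]
    refine sub_mem (entries_mem_of_pow_char (hle (h.eich_mem (by omega) hu _)) hp' (k := 1)
      (CharP.cast_eq_zero F p) ?_ i j) ?_
    · rw [pow_one, h.eich_pow]
      exact GL_ext_mulVec fun x => by simp [h.eich_mulVec, h.zero, fm]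
    · rw [Matrix.one_apply]; split_ifs; exacts [one_mem _, zero_mem _]
  have h3 : ∀ a : F, (h.eich hu (h1 a)).val - 1 = a • ((h.eich hu (h1 1)).val - 1) := fun a =>
    matrix_ext_mulVec fun x => by
      simp only [Matrix.sub_mulVec, Matrix.smul_mulVec, h.eich_mulVec, h.smul, hQ, fm_smul_left,
        Matrix.one_mulVec]
      module
  have h4 : cj P⁻¹ ((h.eich hu (h1 1)).val - 1) ≠ 0 := by
    rw [Ne, map_eq_zero_iff _ (AlgEquiv.injective _), sub_eq_zero, Units.val_eq_one]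
    exact h.eich_ne_one hu _ hu0 (by simpa using hw)
  obtain ⟨i, j, h5⟩ : ∃ i j, cj P⁻¹ ((h.eich hu (h1 1)).val - 1) i j ≠ 0 := by
    by_contra! h5
    exact h4 (Matrix.ext h5)
  refine h0 (eq_top_iff.2 fun a _ => ?_)
  have h6 := div_mem (h2 a i j) (h2 1 i j)
  rwa [h3 a, map_smul, Matrix.smul_apply, smul_eq_mul, mul_div_cancel_right₀ _ h5] at h6

/-! ### the Dickson invariant -/

theorem QF.totSing (h : QF Q G) {W : Submodule F (ι → F)} :
    H11.TotSing (H26.fmB (RingHom.id F) G) Q W ↔ IsTotallySingularQuad Q W := h.isQuad.totSing_iff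

theorem QF.fm_eq_zero (h : QF Q G) {W : Submodule F (ι → F)} (hW : IsTotallySingularQuad Q W) :
    IsTotallySingularFor (𝔟 G) W := fun x hx y hy => (h.totSing.2 hW).2 y hy x hx

theorem QF.even_of_rank (h : QF Q G) (hn : Fintype.card ι ≠ 4) {U : Submodule F (ι → F)}
    (hU : IsTotallySingularQuad Q U) (hm : Fintype.card ι = 2 * Module.finrank F U) {g : GL ι F}
    (hg : g ∈ isometryGroup F Q) : Even ((g.val - 1).rank) ↔ Even (Module.finrank F U +
      Module.finrank F ↥(U ⊓ U.map (Matrix.toLin' g.val))) := by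
  have h1 := h.isQuad.dick_eq_finrank_inf h.sep (h.nonExc hn) (by rwa [finrank_fun])
    (h.totSing.2 hU) rfl (H11.oEquiv h.isQuad ⟨g, hg⟩)
  rw [H11.oEquiv_coe, H11.dick, H11.finrank_movS_glEquiv, H11.glEquiv_toLinearMap] at h1
  rw [← ZMod.natCast_eq_zero_iff_even, ← ZMod.natCast_eq_zero_iff_even, h1, Nat.cast_add]
  rfl

theorem QF.even_rank (h : QF Q G) {g : GL ι F} (hg : g ∈ omegaGL Q) : Even ((g.val - 1).rank) := by
  have h1 := h.isQuad.dick_eq_zero_of_mem_commutator h.sep ((h.mem_omega (omegaGL_le hg)).1 hg)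
  rwa [H11.oEquiv_coe, H11.dick_eq_zero_iff, H11.finrank_movS_glEquiv] at h1

theorem QF.even_inf (h : QF Q G) (hn : Fintype.card ι ≠ 4) {U : Submodule F (ι → F)}
    (hU : IsTotallySingularQuad Q U) (hm : Fintype.card ι = 2 * Module.finrank F U) {g : GL ι F}
    (hg : g ∈ omegaGL Q) :
    Even (Module.finrank F U + Module.finrank F ↥(U ⊓ U.map (Matrix.toLin' g.val))) :=
  (h.even_of_rank hn hU hm (omegaGL_le hg)).1 (h.even_rank hg)

theorem QF.plus_iff (h : QF Q G) {m : ℕ} (hm : Fintype.card ι = 2 * m) :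
    IsPlusTypeOn Q ⊤ ↔ H11.WittIdx (H26.fmB (RingHom.id F) G) Q m := by
  constructor
  · rintro ⟨U, -, h1, h2⟩
    rw [finrank_top, finrank_fun] at h2
    obtain rfl : m = Module.finrank F U := by omega
    exact h.isQuad.wittIdx_of_totSing h.sep (h.totSing.2 h1) (by rw [finrank_fun]; omega)
  · rintro ⟨U, h1, h2⟩
    exact ⟨U, le_top, h.totSing.1 h1.1, by rw [finrank_top, finrank_fun, h2, hm]⟩

/-- an `(m-1)`-dimensional totally singular subspace of the plus type space -/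
theorem QF.exists_max_of_pred (h : QF Q G) (hn : Fintype.card ι ≠ 4) (hp : IsPlusTypeOn Q ⊤)
    {W : Submodule F (ι → F)} (hW : IsTotallySingularQuad Q W)
    (hm : 2 * Module.finrank F W + 2 = Fintype.card ι) :
    ∃ U, W < U ∧ IsTotallySingularQuad Q U ∧ 2 * Module.finrank F U = Fintype.card ι ∧
      subspaceStabilizer W ⊓ omegaGL Q ≤ subspaceStabilizer U := by
  obtain ⟨U, hU, h1⟩ := h.isQuad.exists_maxTotSing_ge (h.totSing.2 hW)
  have h2 := h.isQuad.wittIdx_unique h.sep ((h.plus_iff (m := Module.finrank F W + 1) (by omega)).1 hp)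
    ⟨U, hU, rfl⟩
  refine ⟨U, h1.lt_of_ne (by rintro rfl; omega), h.totSing.1 hU.1, by omega,
    le_subspaceStabilizer fun g hg v hv => ?_⟩
  have h3 := h.even_inf hn (h.totSing.1 hU.1) (by omega) hg.2
  have h4 : W ≤ U ⊓ U.map (Matrix.toLin' g.val) := le_inf h1 (by
    rw [← (inv_of_le le_rfl).map_eq hg.1]; exact Submodule.map_mono h1)
  have h5 := Submodule.finrank_mono h4
  have h6 := Submodule.finrank_mono (inf_le_right : U ⊓ U.map (Matrix.toLin' g.val) ≤ _)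
  rw [finrank_map_GL] at h6
  have h7 := Submodule.eq_of_le_of_finrank_eq (inf_le_right : U ⊓ U.map (Matrix.toLin' g.val) ≤ _)
    (by rw [finrank_map_GL]; obtain ⟨k, hk⟩ := h3; omega)
  exact (h7.ge ⟨v, hv, rfl⟩).1

theorem QF.inv_of_odd (h : QF Q G) {U : Submodule F (ι → F)}
    (hU : IsTotallySingularQuad Q U) (hm : Fintype.card ι = 2 * Module.finrank F U)
    (ho : Odd (Module.finrank F U)) {g : GL ι F} (hg : g ∈ omegaGL Q) :
    U ⊓ U.map (Matrix.toLin' g.val) ≠ ⊥ := fun h1 => by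
  have h2 := h.even_inf (by obtain ⟨k, hk⟩ := ho; omega) hU hm hg
  rw [h1, finrank_bot, add_zero] at h2
  exact Nat.not_even_iff_odd.2 ho h2

theorem QF.pair_le (h : QF Q G) {m : ℕ} {D : Fin 2 → Submodule F (ι → F)} (hD : IsMDecomposition m D)
    (h1 : ∀ i, IsTotallySingularQuad Q (D i)) (ho : Odd m) :
    decompositionStabilizer D ⊓ omegaGL Q ≤ subspaceStabilizer (D 0) := by
  refine le_subspaceStabilizer fun g hg v hv => ?_
  obtain ⟨x, ⟨hx, y, hy, rfl⟩, hx0⟩ := (Submodule.ne_bot_iff _).1 (h.inv_of_odd (h1 0)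
    (by rw [hD.finrank_eq, hD.h26_card]) (by rwa [hD.finrank_eq]) hg.2)
  obtain ⟨σ, hσ⟩ := hg.1
  have h2 : g.val *ᵥ y ∈ D (σ 0) := hσ 0 ▸ ⟨y, hy, rfl⟩
  have h3 : σ 0 = 0 := by_contra fun h3 => hx0 ((Submodule.mem_bot F).1
    ((hD.indep.pairwiseDisjoint h3).le_bot ⟨h2, hx⟩))
  exact h3 ▸ hσ 0 ▸ ⟨v, hv, rfl⟩

/-- a maximal `K`-invariant totally singular subspace -/
theorem QF.exists_max_inv (h : QF Q G) {K : Subalgebra F (Matrix ι ι F)}
    (hA : AdjSt (RingHom.id F) G K) : ∃ W, IsTotallySingularQuad Q W ∧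
      (∀ k ∈ K, ∀ v ∈ W, k *ᵥ v ∈ W) ∧
      ∀ v ∈ prp (RingHom.id F) G W, (∀ k ∈ K, Q (k *ᵥ v) = 0) → v ∈ W := by
  obtain ⟨W, ⟨h3, h4⟩, hmax⟩ := (wellFounded_gt (α := Submodule F (ι → F))).has_min
    {W | IsTotallySingularQuad Q W ∧ ∀ k ∈ K, ∀ v ∈ W, k *ᵥ v ∈ W}
    ⟨⊥, fun u hu => by simp [(Submodule.mem_bot F).1 hu, h.zero],
      fun k _ v hv => by simp [(Submodule.mem_bot F).1 hv]⟩
  refine ⟨W, h3, h4, fun v hv h5 => by_contra fun hvW => hmax (W ⊔ fldLine K v) ⟨?_, ?_⟩ ?_⟩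
  · intro x hx
    obtain ⟨w, hw, _, ⟨a, ha, rfl⟩, rfl⟩ := Submodule.mem_sup.1 hx
    rw [h.add, h3 w hw, h5 a ha, ← h.hf.fm_adj', h.hf.mem_prp.1 hv _ (h4 _ (hA a ha) w hw)]
    simp
  · intro k hk x hx
    obtain ⟨w, hw, _, ⟨a, ha, rfl⟩, rfl⟩ := Submodule.mem_sup.1 hx
    rw [Matrix.mulVec_add, Matrix.mulVec_mulVec]
    exact Submodule.add_mem_sup (h4 k hk w hw) ⟨_, mul_mem hk ha, rfl⟩
  · exact left_lt_sup.2 fun h => hvW (h ⟨1, one_mem _, Matrix.one_mulVec _⟩)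

/-- a unitary structure on a plus type space has even dimension -/
theorem QF.even_of_ufld [Nonempty ι] (h : QF Q G) {m : ℕ} (hm : Fintype.card ι = 2 * m)
    (hp : IsPlusTypeOn Q ⊤) {K : Subalgebra F (Matrix ι ι F)} (hK : IsFieldSubalgebra 2 K)
    (hA : AdjSt (RingHom.id F) G K) (hQ : ∀ k ∈ K, ∃ c : F, ∀ v, Q (k *ᵥ v) = c * Q v) : Even m := by
  obtain ⟨W, h1, h2, h3⟩ := h.exists_max_inv hA
  rw [h.isQuad.wittIdx_unique h.sep ((h.plus_iff hm).1 hp) ⟨W, ⟨h.totSing.2 h1, fun x hx h4 =>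
    h3 x h4 fun k hk => let ⟨c, hc⟩ := hQ k hk; by rw [hc, hx, mul_zero]⟩, rfl⟩]
  exact even_iff_two_dvd.2 (field_degree_dvd_finrank hK h2)

end Cfsg.Agent.H26
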