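import Mathlib
import Cfsg.Agent.H26.O1

/-! Orthogonal groups: plus and minus types. -/

set_option autoImplicit false
set_option maxHeartbeats 400000

namespace Cfsg.Agent.H26

open Matrix Cfsg.Geo Module
open scoped Kronecker

variable {ι κ β : Type} [Fintype ι] [DecidableEq ι] [Fintype κ] [DecidableEq κ]
  [Fintype β] [DecidableEq β] {F : Type*} [Field F] {G : Matrix ι ι F} {Q : (ι → F) → F}

omit [DecidableEq ι] [DecidableEq κ] in
theorem plus_range_iff {Q₀ : (κ → F) → F} {φ : (κ → F) →ₗ[F] (ι → F)} (hφ : Function.Injective φ)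
    (h : ∀ x, Q (φ x) = Q₀ x) : IsPlusTypeOn Q (LinearMap.range φ) ↔ IsPlusTypeOn Q₀ ⊤ := by
  have h0 : finrank F (LinearMap.range φ) = finrank F (⊤ : Submodule F (κ → F)) := by
    rw [LinearMap.finrank_range_of_inj hφ, finrank_top]
  constructor
  · rintro ⟨U, h1, h2, h3⟩
    refine ⟨U.comap φ, le_top, fun x hx => by rw [← h, h2 _ hx], ?_⟩
    rw [← h0, ← h3, (Submodule.equivMapOfInjective φ hφ (U.comap φ)).finrank_eq,
      Submodule.map_comap_eq_self h1]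
  · rintro ⟨U, -, h2, h3⟩
    refine ⟨U.map φ, LinearMap.map_le_range, ?_, ?_⟩
    · rintro _ ⟨x, hx, rfl⟩; rw [h, h2 x hx]
    · rw [h0, ← h3, (Submodule.equivMapOfInjective φ hφ U).finrank_eq]

theorem QF.of_comp (h : QF Q G) {φ : (κ → F) →ₗ[F] (ι → F)} {G₀ : Matrix κ κ F} (hu : IsUnit G₀)
    (h1 : ∀ x y, 𝔟 G₀ x y = 𝔟 G (φ x) (φ y)) : QF (fun x => Q (φ x)) G₀ :=
  ⟨fun c v => by rw [map_smul, h.smul], fun u v => by rw [map_add, h.add, h1], hu⟩

theorem QF.exists_model (h : QF Q G) {W : Submodule F (ι → F)} (hW : IsNondegenerateOn (𝔟 G) W)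
    {k : ℕ} (hk : finrank F W = k) : ∃ (φ : (Fin k → F) ≃ₗ[F] W) (G₀ : Matrix (Fin k) (Fin k) F),
      QF (fun x => Q (φ x)) G₀ ∧ (∀ x y, 𝔟 G₀ x y = 𝔟 G (φ x) (φ y)) ∧
      (IsPlusTypeOn Q W ↔ IsPlusTypeOn (fun x => Q (φ x)) ⊤) := by
  obtain ⟨φ, G₀, h1, h2⟩ := exists_restrict h.hf hW hk
  refine ⟨φ, G₀, h.of_comp (φ := W.subtype ∘ₗ φ.toLinearMap) h1.unit h2, h2, ?_⟩
  refine Iff.trans ?_ (plus_range_iff (Q := Q) (φ := W.subtype ∘ₗ φ.toLinearMap)
    (W.injective_subtype.comp φ.injective) fun _ => rfl)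
  simp [LinearMap.range_comp]

theorem AreIsometricFor.h26_plus {W W' : Submodule F (ι → F)} (h : AreIsometricFor Q W W')
    (hW : IsPlusTypeOn Q W) : IsPlusTypeOn Q W' := by
  obtain ⟨φ, hφ⟩ := h
  obtain ⟨U, h1, h2, h3⟩ := hW
  let ψ := W'.subtype ∘ₗ φ.toLinearMap
  refine ⟨(U.comap W.subtype).map ψ, ?_, ?_, ?_⟩
  · rintro _ ⟨x, -, rfl⟩; exact (φ x).2
  · rintro _ ⟨x, hx, rfl⟩; exact (hφ x).trans (h2 _ hx)
  · rw [← φ.finrank_eq, ← h3, ← (Submodule.equivMapOfInjective ψ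
      (W'.injective_subtype.comp φ.injective) _).finrank_eq, (Submodule.comapSubtypeEquivOfLe h1).finrank_eq]

theorem isometric_of_map {W W' : Submodule F (ι → F)} {g : GL ι F} (hg : g ∈ isometryGroup F Q)
    (h : W.map (Matrix.toLin' g.val) = W') : AreIsometricFor Q W W' :=
  ⟨(H11.glEquiv ι F g).ofSubmodules W W' h, fun w => mem_isometryGroup.1 hg w⟩

theorem QF.witt_cases [Finite F] (h : QF Q G) {m : ℕ} (hm : Fintype.card ι = 2 * m)
    (hp : ¬ IsPlusTypeOn Q ⊤) : H11.WittIdx (H26.fmB (RingHom.id F) G) Q (m - 1) ∧ m ≠ 0 := by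
  rw [h.plus_iff hm] at hp
  cases m with
  | zero => exact absurd (h.isQuad.wittIdx_of_totSing h.sep h.isQuad.totSing_bot
      (by rw [finrank_fun]; omega)) (by rwa [finrank_bot])
  | succ m => exact ⟨(h.isQuad.wittIdx_even_cases h.sep (by rwa [finrank_fun])).resolve_left hp,
      by omega⟩

theorem plus_const_mul {c : F} (hc : c ≠ 0) {W : Submodule F (ι → F)} :
    IsPlusTypeOn (fun v => c * Q v) W ↔ IsPlusTypeOn Q W := by
  simp [IsPlusTypeOn, IsTotallySingularQuad, hc]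

theorem QF.exists_equiv [Finite F] (h : QF Q G) {Q' : (ι → F) → F} {G' : Matrix ι ι F}
    (h' : QF Q' G') (he : Even (Fintype.card ι)) (hp : IsPlusTypeOn Q ⊤ ↔ IsPlusTypeOn Q' ⊤) :
    ∃ T : GL ι F, ∀ x, Q' (T.val *ᵥ x) = Q x := by
  obtain ⟨m, hm⟩ := he
  rw [← two_mul] at hm
  obtain ⟨ν, h1, h2⟩ : ∃ ν, H11.WittIdx (H26.fmB (RingHom.id F) G) Q ν ∧
      H11.WittIdx (H26.fmB (RingHom.id F) G') Q' ν := by
    by_cases h1 : IsPlusTypeOn Q ⊤
    · exact ⟨m, (h.plus_iff hm).1 h1, (h'.plus_iff hm).1 (hp.1 h1)⟩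
    · exact ⟨m - 1, (h.witt_cases hm h1).1, (h'.witt_cases hm (mt hp.2 h1)).1⟩
  obtain ⟨e, -, h3⟩ := h.isQuad.exists_equiv_of_wittIdx h.sep h'.isQuad h'.sep
    (by rw [finrank_fun, hm]; simp) rfl h1 h2
  obtain ⟨T, hT⟩ := exists_GL_of_equiv e
  exact ⟨T, fun x => by rw [hT, h3]⟩

theorem gram_fmB (G : Matrix ι ι F) :
    (H11.gram (H26.fmB (RingHom.id F) G) (Pi.basisFun F ι)).det = G.det := by
  rw [← Matrix.det_transpose G]
  congr 1
  ext i j
  simp [H11.gram, fmB, fm_single]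

theorem QF.exists_equiv_of_disc [Finite F] (h : QF Q G) (h2 : (2 : F) ≠ 0) {Q' : (ι → F) → F}
    {G' : Matrix ι ι F} (h' : QF Q' G') (hd : IsSquare (G.det * G'.det)) :
    ∃ T : GL ι F, ∀ x, Q' (T.val *ᵥ x) = Q x := by
  obtain ⟨e, -, h3⟩ := h.isQuad.exists_equiv_of_disc h.sep h'.isQuad h'.sep h2 (Pi.basisFun F ι)
    (Pi.basisFun F ι) rfl (by rwa [gram_fmB, gram_fmB])
  obtain ⟨T, hT⟩ := exists_GL_of_equiv e
  exact ⟨T, fun x => by rw [hT, h3]⟩

theorem QF.plus_iff_disc [Finite F] (h : QF Q G) (h2 : (2 : F) ≠ 0) {m : ℕ}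
    (hm : Fintype.card ι = 2 * m) : IsPlusTypeOn Q ⊤ ↔ IsSquare ((-1) ^ m * G.det) := by
  rw [h.plus_iff hm, h.isQuad.wittIdx_iff_disc h.sep h2 (by rwa [finrank_fun]) (Pi.basisFun F ι),
    gram_fmB]

theorem QF.gram_eq (h : QF Q G) {G' : Matrix ι ι F} (h' : QF Q G') : G = G' :=
  eq_of_fm_eq fun u v => by rw [← h.polar, ← h'.polar]

theorem QF.pull_eq (h : QF Q G) {Q' : (ι → F) → F} {G' : Matrix ι ι F} (h' : QF Q' G') {T : GL ι F}
    (hT : ∀ x, Q' (T.val *ᵥ x) = Q x) : pull (RingHom.id F) G' T = G :=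
  (h'.comp T.isUnit).gram_eq (by rwa [funext hT])

theorem det_unF (e : ι ≃ κ) (P : GL ι F) (G : Matrix ι ι F) :
    (unF (RingHom.id F) e P G).det = P.val.det ^ 2 * G.det := by
  rw [unF, Matrix.det_submatrix_equiv_self, det_pull_id]

theorem isSquare_sq_mul {a b : F} (ha : a ≠ 0) : IsSquare (a ^ 2 * b) ↔ IsSquare b :=
  H11.isSquare_mul_iff_of_isSquare (pow_ne_zero 2 ha) ⟨a, sq a⟩

theorem QF.plus_iff_unF [Finite F] (h : QF Q G) (h2 : (2 : F) ≠ 0) {m : ℕ}
    (hm : Fintype.card ι = 2 * m) (e : ι ≃ κ) (P : GL ι F) :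
    IsPlusTypeOn Q ⊤ ↔ IsSquare ((-1) ^ m * (unF (RingHom.id F) e P G).det) := by
  rw [h.plus_iff_disc h2 hm, det_unF, mul_left_comm, isSquare_sq_mul P.det_ne_zero]

/-- subspaces of the same even dimension and type are similar with any factor -/
theorem QF.exists_equiv_on [Finite F] (h : QF Q G) {W W' : Submodule F (ι → F)}
    (hW : IsNondegenerateOn (𝔟 G) W) (hW' : IsNondegenerateOn (𝔟 G) W')
    (hd : finrank F W' = finrank F W) (he : Even (finrank F W))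
    (hp : IsPlusTypeOn Q W ↔ IsPlusTypeOn Q W') {c : F} (hc : c ≠ 0) :
    ∃ φ : W ≃ₗ[F] W', ∀ w, Q (φ w) = c * Q w := by
  obtain ⟨φ, G₀, h1, -, h2⟩ := h.exists_model hW rfl
  obtain ⟨φ', G₀', h1', -, h2'⟩ := h.exists_model hW' hd
  obtain ⟨T, hT⟩ := (h1.const_mul hc).exists_equiv h1' (by simpa using he)
    (by rw [plus_const_mul hc, ← h2, ← h2', hp])
  exact ⟨φ.symm.trans ((H11.glEquiv _ F T).trans φ'), fun w => (hT _).trans (by simp)⟩

theorem HF.disjoint_of_orth {σ : F →+* F} {ε : F} (h : HF σ G ε) {W W' : Submodule F (ι → F)}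
    (hW : IsNondegenerateOn (fm σ G) W) (ho : AreOrthogonalFor (fm σ G) W W') : W ⊓ W' = ⊥ :=
  eq_bot_iff.2 (h.nondeg_iff.1 hW ▸ inf_le_inf_left W fun v hv => h.mem_prp.2 fun x hx => ho x hx v hv)

theorem HF.finrank_sup_orth {σ : F →+* F} {ε : F} (h : HF σ G ε) {W W' : Submodule F (ι → F)}
    (hW : IsNondegenerateOn (fm σ G) W) (ho : AreOrthogonalFor (fm σ G) W W') :
    finrank F ↥(W ⊔ W') = finrank F W + finrank F W' := by
  rw [← Submodule.finrank_sup_add_finrank_inf_eq, h.disjoint_of_orth hW ho, finrank_bot, add_zero]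

theorem HF.nondeg_sup {σ : F →+* F} {ε : F} (h : HF σ G ε) {W W' : Submodule F (ι → F)}
    (hW : IsNondegenerateOn (fm σ G) W) (hW' : IsNondegenerateOn (fm σ G) W')
    (ho : AreOrthogonalFor (fm σ G) W W') : IsNondegenerateOn (fm σ G) (W ⊔ W') := by
  rw [h.nondeg_iff, eq_bot_iff] at *
  rintro x ⟨hx, h1⟩
  obtain ⟨a, ha, b, hb, rfl⟩ := Submodule.mem_sup.1 hx
  have h2 := H26.mem_prp.1 h1
  have h3 : a = 0 := hW ⟨ha, H26.mem_prp.2 fun y hy => by
    simpa [fm_add_left, h.refl (ho y hy b hb)] using h2 y (Submodule.mem_sup_left hy)⟩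
  have h4 : b = 0 := hW' ⟨hb, H26.mem_prp.2 fun y hy => by
    simpa [fm_add_left, ho a ha y hy] using h2 y (Submodule.mem_sup_right hy)⟩
  simp [h3, h4]

/-- the graph of an anti-isometry -/
theorem QF.plus_sup_of_same [Finite F] (h : QF Q G) {W W' : Submodule F (ι → F)}
    (hW : IsNondegenerateOn (𝔟 G) W) (hW' : IsNondegenerateOn (𝔟 G) W')
    (ho : AreOrthogonalFor (𝔟 G) W W') (hd : finrank F W' = finrank F W) (he : Even (finrank F W))
    (hp : IsPlusTypeOn Q W ↔ IsPlusTypeOn Q W') : IsPlusTypeOn Q (W ⊔ W') := by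
  obtain ⟨φ, hφ⟩ := h.exists_equiv_on hW hW' hd he hp (c := -1) (by simp)
  let ψ := W.subtype + W'.subtype ∘ₗ φ.toLinearMap
  refine ⟨LinearMap.range ψ, ?_, ?_, ?_⟩
  · rintro _ ⟨x, rfl⟩; exact Submodule.add_mem_sup x.2 (φ x).2
  · rintro _ ⟨x, rfl⟩
    exact (h.add x (φ x)).trans (by rw [ho _ x.2 _ (φ x).2, hφ x]; simp)
  · rw [h.hf.finrank_sup_orth hW ho, hd, LinearMap.finrank_range_of_inj, two_mul]
    refine (injective_iff_map_eq_zero ψ).2 fun x hx => Subtype.ext ?_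
    have h1 : x.1 ∈ W ⊓ W' := ⟨x.2, (show x.1 = -(φ x).1 from eq_neg_of_add_eq_zero_left hx).symm ▸
      W'.neg_mem (φ x).2⟩
    rwa [h.hf.disjoint_of_orth hW ho] at h1

theorem HF.finrank_inf_prp {σ : F →+* F} {ε : F} (h : HF σ G ε) (M U : Submodule F (ι → F)) :
    finrank F ↥(M ⊓ prp σ G U) + finrank F U = finrank F M + finrank F ↥(prp σ G M ⊓ U) := by
  have h1 := h.finrank_prp (prp σ G M ⊔ U)
  have h2 := h.finrank_prp M
  have h3 := Submodule.finrank_sup_add_finrank_inf_eq (prp σ G M) U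
  rw [show prp σ G (prp σ G M ⊔ U) = prp σ G (prp σ G M) ⊓ prp σ G U from H11.perp_sup _ _ _,
    h.prp_prp] at h1
  omega

theorem QF.two_mul_le (h : QF Q G) {A U : Submodule F (ι → F)} (hA : IsNondegenerateOn (𝔟 G) A)
    (hU : U ≤ A) (h1 : IsTotallySingularQuad Q U) : 2 * finrank F U ≤ finrank F A := by
  have h6 := h.hf.finrank_inf_prp A U
  rw [eq_bot_iff.2 (h.hf.nondeg_iff.1 hA ▸ inf_comm A _ ▸ inf_le_inf_left _ hU :
    prp (RingHom.id F) G A ⊓ U ≤ ⊥), finrank_bot] at h6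
  have := Submodule.finrank_mono (le_inf hU fun v hv => mem_prp.2 fun x hx =>
    h.fm_eq_zero h1 v hv x hx)
  omega

/-- cancellation of a plus type summand -/
theorem QF.plus_sup_iff (h : QF Q G) {A A' : Submodule F (ι → F)} (hA : IsNondegenerateOn (𝔟 G) A)
    (hA' : IsNondegenerateOn (𝔟 G) A') (ho : AreOrthogonalFor (𝔟 G) A A') (hp : IsPlusTypeOn Q A) :
    IsPlusTypeOn Q (A ⊔ A') ↔ IsPlusTypeOn Q A' := by
  obtain ⟨U, hU, h1, h2⟩ := hp
  have h0 := h.hf.finrank_sup_orth hA ho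
  have h3 : ∀ U' ≤ A', finrank F ↥(U ⊔ U') = finrank F U + finrank F U' := fun U' h3 => by
    rw [← Submodule.finrank_sup_add_finrank_inf_eq, show U ⊓ U' = ⊥ from
      eq_bot_iff.2 (h.hf.disjoint_of_orth hA ho ▸ inf_le_inf hU h3), finrank_bot, add_zero]
  constructor
  · rintro ⟨M, hM, h4, h5⟩
    have h6 : A ⊓ prp (RingHom.id F) G U = U := by
      have h6 := h.hf.finrank_inf_prp A U
      rw [eq_bot_iff.2 (h.hf.nondeg_iff.1 hA ▸ inf_comm A _ ▸ inf_le_inf_left _ hU :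
        prp (RingHom.id F) G A ⊓ U ≤ ⊥), finrank_bot] at h6
      exact (Submodule.eq_of_le_of_finrank_eq (le_inf hU fun v hv => mem_prp.2 fun x hx =>
        h.fm_eq_zero h1 v hv x hx) (by omega)).symm
    let M' := (M ⊓ prp (RingHom.id F) G U) ⊔ U
    have h7 : IsTotallySingularQuad Q M' := fun x hx => by
      obtain ⟨a, ha, b, hb, rfl⟩ := Submodule.mem_sup.1 hx
      rw [h.add, h4 a ha.1, h1 b hb, mem_prp.1 ha.2 b hb]; simp
    have h8 : M' = U ⊔ (M' ⊓ A') := by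
      refine le_antisymm (sup_le (fun x hx => ?_) le_sup_left) (sup_le le_sup_right inf_le_left)
      obtain ⟨a, ha, b, hb, rfl⟩ := Submodule.mem_sup.1 (hM hx.1)
      have h8 : a ∈ U := h6.le ⟨ha, mem_prp.2 fun y hy => by
        simpa [fm_add_left, h.hf.refl (ho y (hU hy) b hb)] using mem_prp.1 hx.2 y hy⟩
      exact Submodule.add_mem_sup h8 ⟨(add_mem_cancel_left (Submodule.mem_sup_right h8)).1
        (Submodule.mem_sup_left hx), hb⟩
    have h9 := h3 (M' ⊓ A') inf_le_right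
    have h10 := Submodule.finrank_sup_add_finrank_inf_eq (M ⊓ prp (RingHom.id F) G U) U
    have h11 := h.hf.finrank_inf_prp M U
    have h12 := Submodule.finrank_mono (show M ⊓ prp (RingHom.id F) G U ⊓ U ≤
      prp (RingHom.id F) G M ⊓ U from inf_le_inf_right U fun v hv => mem_prp.2 fun x hx =>
        h.fm_eq_zero h4 v hv.1 x hx)
    have h13 := h.two_mul_le hA' (inf_le_right (a := M')) fun x hx => h7 x hx.1
    rw [← h8] at h9
    exact ⟨M' ⊓ A', inf_le_right, fun x hx => h7 x hx.1, by simp only [M'] at *; omega⟩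
  · rintro ⟨U', h4, h5, h6⟩
    refine ⟨U ⊔ U', sup_le_sup hU h4, fun x hx => ?_, by rw [h0, h3 U' h4]; omega⟩
    obtain ⟨a, ha, b, hb, rfl⟩ := Submodule.mem_sup.1 hx
    rw [h.add, h1 a ha, h5 b hb, ho a (hU ha) b (h4 hb)]; simp

theorem plus_bot (h0 : Q 0 = 0) : IsPlusTypeOn Q ⊥ :=
  ⟨⊥, le_rfl, fun x hx => by rw [(Submodule.mem_bot F).1 hx, h0], by simp⟩

theorem QF.isometric_prp [Finite F] (h : QF Q G) (hp : IsPlusTypeOn Q ⊤) {W : Submodule F (ι → F)}
    (hW : IsNondegenerateOn (𝔟 G) W) (hd : 2 * finrank F W = Fintype.card ι) (he : Even (finrank F W)) :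
    AreIsometricFor Q W (prp (RingHom.id F) G W) := by
  have h1 := h.hf.finrank_prp W
  have h2 := h.hf.nondeg_prp hW
  have h3 := (h.hf.isCompl_prp hW).sup_eq_top
  have h4 : AreOrthogonalFor (𝔟 G) W (prp (RingHom.id F) G W) := fun x hx y hy => h.hf.mem_prp.1 hy x hx
  obtain ⟨φ, hφ⟩ := h.exists_equiv_on hW h2 (by omega) he
    ⟨fun h5 => (h.plus_sup_iff hW h2 h4 h5).1 (h3 ▸ hp), fun h5 => (h.plus_sup_iff h2 hW
      (fun x hx y hy => mem_prp.1 hx y hy) h5).1 (sup_comm W _ ▸ h3 ▸ hp)⟩ one_ne_zero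
  exact ⟨φ, fun w => by rw [hφ, one_mul]⟩

theorem AreIsometricFor.h26_symm {W W' : Submodule F (ι → F)} (h : AreIsometricFor Q W W') :
    AreIsometricFor Q W' W :=
  let ⟨φ, hφ⟩ := h; ⟨φ.symm, fun w => by rw [← hφ, φ.apply_symm_apply]⟩

theorem QF.nondegDec (h : QF Q G) {t k : ℕ} {D : Fin t → Submodule F (ι → F)}
    (hD : IsOrthogonalMDecomposition Q k D) : IsNondegenerateMDecomposition (𝔟 G) k D :=
  h.polar ▸ hD.decomp

/-- the type of an orthogonal sum of isometric even-dimensional subspaces -/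
theorem QF.plus_dec_iff [Finite F] (h : QF Q G) {t k : ℕ} {D : Fin t → Submodule F (ι → F)}
    (hD : IsOrthogonalMDecomposition Q k D) (hk : Even k) (i₀ : Fin t) :
    IsPlusTypeOn Q ⊤ ↔ Even t ∨ IsPlusTypeOn Q (D i₀) := by
  have h1 := h.nondegDec hD
  have ho : ∀ (A : Submodule F (ι → F)) (s : Finset (Fin t)),
      (∀ j ∈ s, AreOrthogonalFor (𝔟 G) A (D j)) → AreOrthogonalFor (𝔟 G) A (s.sup D) :=
    fun A s hs x hx y hy => h.hf.mem_prp.1 ((Finset.sup_le fun j hj v hv =>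
      mem_prp.2 fun z hz => h.hf.refl (hs j hj z hz v hv) : s.sup D ≤ prp _ G A) hy) x hx
  have hn : ∀ s : Finset (Fin t), IsNondegenerateOn (𝔟 G) (s.sup D) := fun s => by
    induction s using Finset.induction_on with
    | empty => simp [IsNondegenerateOn]
    | insert a s ha ih =>
      rw [Finset.sup_insert]
      exact h.hf.nondeg_sup (h1.nondegenerate a) ih (ho _ _ fun j hj =>
        h1.orthogonal a j (by rintro rfl; exact ha hj))
  have hp : ∀ i j, IsPlusTypeOn Q (D i) ↔ IsPlusTypeOn Q (D j) := fun i j =>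
    ⟨AreIsometricFor.h26_plus (hD.isometric i j), AreIsometricFor.h26_plus (hD.isometric j i)⟩
  have h2 : ∀ (c : ℕ) (s : Finset (Fin t)), s.card = c →
      (IsPlusTypeOn Q (s.sup D) ↔ Even c ∨ IsPlusTypeOn Q (D i₀)) := fun c => by
    induction c using Nat.twoStepInduction with
    | zero => intro s hs; simp [Finset.card_eq_zero.1 hs, plus_bot h.zero]
    | one => intro s hs; obtain ⟨a, rfl⟩ := Finset.card_eq_one.1 hs; simp [hp a i₀]
    | more c ih _ =>
      intro s hs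
      obtain ⟨a, s, ha, rfl, hs'⟩ := Finset.card_eq_succ.1 hs
      clear hs
      obtain ⟨b, s, hb, rfl, hs⟩ := Finset.card_eq_succ.1 hs'
      have hab : a ≠ b := by rintro rfl; simp at ha
      rw [Finset.sup_insert, Finset.sup_insert, ← sup_assoc, h.plus_sup_iff (h.hf.nondeg_sup
        (h1.nondegenerate a) (h1.nondegenerate b) (h1.orthogonal a b hab)) (hn s) (ho _ _ ?_)
        (h.plus_sup_of_same (h1.nondegenerate a) (h1.nondegenerate b) (h1.orthogonal a b hab)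
          (by rw [h1.decomp.finrank_eq, h1.decomp.finrank_eq]) (by rwa [h1.decomp.finrank_eq])
          (hp a b)), ih s hs, Nat.even_add]
      · simp
      · intro j hj x hx y hy
        obtain ⟨u, hu, v, hv, rfl⟩ := Submodule.mem_sup.1 hx
        rw [fm_add_left, h1.orthogonal a j (by rintro rfl; simp [hj] at ha) u hu y hy,
          h1.orthogonal b j (by rintro rfl; exact hb hj) v hv y hy, add_zero]
  rw [← h1.decomp.iSup_eq_top, ← Finset.sup_univ_eq_iSup]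
  exact h2 t _ (by simp)

/-! ### subfields -/

theorem exists_irred_root [Fintype F] {F₀ : Subfield F} (hc : Fintype.card F = Nat.card F₀ ^ 2) :
    ∃ (z : F₀) (t : F), (∀ s : F₀, s ^ 2 + s + z ≠ 0) ∧ t ^ 2 + t + z = 0 := by
  obtain ⟨σ, h1, h2, a, ha⟩ := exists_involution hc
  have h3 : ∀ x, x ∈ F₀ ↔ σ x = x := fun x => by rw [mem_subfield_iff_pow_card, h1]
  obtain ⟨t, ht, h4⟩ : ∃ t, t + σ t = -1 ∧ σ t ≠ t := by
    obtain ⟨t, ht⟩ := H11.exists_trace_eq (σ := (σ : F →+* F)) (a := -1)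
      (fun h => ha (RingHom.congr_fun h a)) h2 (by simp)
    replace ht : t + σ t = -1 := ht
    by_cases h4 : σ t = t
    · refine ⟨t + (a - σ a), by rw [map_add, map_sub, h2]; linear_combination ht, fun h5 => ha ?_⟩
      rw [map_add, map_sub, h2, h4] at h5
      rw [h4] at ht
      linear_combination -t * h5 + (σ a - a) * ht
    · exact ⟨t, ht, h4⟩
  refine ⟨⟨t * σ t, (h3 _).2 (by rw [map_mul, h2, mul_comm])⟩, t, fun s hs => ?_,
    by simp only; linear_combination t * ht⟩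
  have h5 := congrArg Subtype.val hs
  have h6 := (h3 s).1 s.2
  push_cast at h5
  rcases mul_eq_zero.1 (show (s - t) * (s - σ t) = 0 by linear_combination h5 - s * ht) with h7 | h7
  · exact h4 (sub_eq_zero.1 h7 ▸ h6)
  · rw [sub_eq_zero.1 h7, h2] at h6
    exact h4 h6.symm

theorem QF.plus_of_rat [Fintype F] (h : QF Q G) (he : Even (Fintype.card ι)) {F₀ : Subfield F}
    (hc : Fintype.card F = Nat.card F₀ ^ 2) (h1 : ∀ i j, G i j ∈ F₀)
    (h2 : ∀ u : ι → F, (∀ i, u i ∈ F₀) → Q u ∈ F₀) : IsPlusTypeOn Q ⊤ := by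
  obtain ⟨m, hm⟩ := he
  rw [← two_mul] at hm
  let G₀ : Matrix ι ι F₀ := Matrix.of fun i j => ⟨G i j, h1 i j⟩
  let Q₀ : (ι → F₀) → F₀ := fun u => ⟨Q (algebraMap F₀ F ∘ u), h2 _ fun i => (u i).2⟩
  have h3 : ∀ u v, ((𝔟 G₀ u v : F₀) : F) = 𝔟 G (algebraMap F₀ F ∘ u) (algebraMap F₀ F ∘ v) :=
    fun u v => by simp [fm_eq_sum, G₀]; rfl
  have h4 : QF Q₀ G₀ := ⟨fun c v => Subtype.ext (h.smul c _), fun u v => Subtype.ext
      ((h.add (algebraMap F₀ F ∘ u) (algebraMap F₀ F ∘ v)).trans (by rw [← h3]; rfl)),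
    (Matrix.isUnit_iff_isUnit_det _).2 (Ne.isUnit fun h4 => ((Matrix.isUnit_iff_isUnit_det _).1
      h.unit).ne_zero (by
        rw [← show F₀.subtype.mapMatrix G₀ = G from rfl, ← RingHom.map_det, h4, map_zero]))⟩
  have h5 : ∀ {k : ℕ} {e f : Fin k → ι → F₀}, H11.HypSys (H26.fmB (RingHom.id F₀) G₀) Q₀ e f →
      H11.TotSing (H26.fmB (RingHom.id F) G) Q (Submodule.span F (Set.range fun i => algebraMap F₀ F ∘ e i)) ∧
      finrank F (Submodule.span F (Set.range fun i => algebraMap F₀ F ∘ e i)) = k := fun hs =>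
    ⟨h.isQuad.totSing_span (by rintro _ ⟨i, rfl⟩; exact congrArg Subtype.val (hs.Qe i)) (by
      rintro _ ⟨i, rfl⟩ _ ⟨j, rfl⟩; exact (h3 _ _).symm.trans (congrArg Subtype.val (hs.ee i j))),
    by rw [finrank_span_eq_card (linearIndependent_algebraMap_comp_iff.2
      (hs.linearIndependent_e h4.isQuad)), Fintype.card_fin]⟩
  by_cases h6 : IsPlusTypeOn Q₀ ⊤
  · obtain ⟨b, hb⟩ := h4.isQuad.exists_hyp_basis h4.sep ((h4.plus_iff hm).1 h6) (by rwa [finrank_fun])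
    exact ⟨_, le_top, h.totSing.1 (h5 hb).1, by rw [(h5 hb).2, finrank_top, finrank_fun, hm]⟩
  by_contra h7
  obtain ⟨h8, h9⟩ := h4.witt_cases hm h6
  obtain ⟨z, t, hz, ht⟩ := exists_irred_root hc
  obtain ⟨-, -, h10⟩ := h4.isQuad.exists_ell_basis h4.sep h8 (by rw [finrank_fun]; omega)
  obtain ⟨b, hb, h11, h12, h13, h14⟩ := h10 z hz
  have h15 := (h.isQuad.maxTotSing_of_finrank h.sep (h.witt_cases hm h7).1 (h5 hb).1 (h5 hb).2).2
    (t • (algebraMap F₀ F ∘ b (.inr 0)) + algebraMap F₀ F ∘ b (.inr 1)) (by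
      rw [h.add, h.smul, fm_smul_left, ← h3, ← h4.fmB, h13, ← ht]
      rw [show Q (algebraMap F₀ F ∘ b (.inr 0)) = (1 : F₀) from congrArg Subtype.val h12,
        show Q (algebraMap F₀ F ∘ b (.inr 1)) = z from congrArg Subtype.val h14]
      push_cast; ring) fun u hu => H11.mem_perp_span.2 ?_ u hu
  · have h16 : LinearIndependent F fun i => algebraMap F₀ F ∘ b i :=
      linearIndependent_algebraMap_comp_iff.2 b.linearIndependent
    refine h16.notMem_span_image (s := {.inr 1}ᶜ) (x := .inr 1) (by simp) ?_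
    generalize hS : Submodule.span F ((fun i => algebraMap F₀ F ∘ b i) '' {.inr 1}ᶜ) = S
    have h17 : ∀ i, i ≠ .inr 1 → algebraMap F₀ F ∘ b i ∈ S := fun i hi =>
      hS ▸ Submodule.subset_span ⟨i, hi, rfl⟩
    exact (add_mem_cancel_left (S.smul_mem t (h17 _ (by simp)))).1 (Submodule.span_le.2
      (by rintro _ ⟨i, rfl⟩; exact h17 _ (by simp)) h15)
  · rintro _ ⟨i, rfl⟩
    rw [h.fmB, fm_add_right, fm_smul_right, ← h3, ← h3, ← h4.fmB, ← h4.fmB, h11, h11]
    simp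

theorem QF.plus_of_sub [Fintype F] (h : QF Q G) (he : Even (Fintype.card ι)) {F₀ : Subfield F}
    (hc : Fintype.card F = Nat.card F₀ ^ 2) {P : GL ι F} {c : F} (h0 : c ≠ 0)
    (h1 : ∀ i j, c * pull (RingHom.id F) G P i j ∈ F₀)
    (h2 : IsQuadFormRationalStructure (fun v => c * Q v) F₀ P) : IsPlusTypeOn Q ⊤ := by
  have h3 := ((h.comp P.isUnit).const_mul h0).plus_of_rat he hc h1 h2
  have h4 := (plus_range_iff (Q := Q) (φ := Matrix.toLin' P.val)
    (H11.glEquiv ι F P).injective fun _ => rfl).2 ((plus_const_mul h0).1 h3)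
  rwa [LinearMap.range_eq_top.2 (show Function.Surjective (Matrix.toLin' P.val) from
    (H11.glEquiv ι F P).surjective)] at h4

/-! ### tensor products and extraspecial groups -/

theorem plus_of_pure {b : ℕ} {e : ι ≃ Fin 2 × Fin b} {P : GL ι F}
    (h : ∀ (x : Fin 2 → F) (y : Fin b → F), Q (P.val *ᵥ ((fun p : Fin 2 × Fin b => x p.1 * y p.2) ∘ e)) = 0) :
    IsPlusTypeOn Q ⊤ := by
  let φ : (Fin b → F) →ₗ[F] (ι → F) :=
    { toFun y := P.val *ᵥ ((fun p : Fin 2 × Fin b => (![1, 0] : Fin 2 → F) p.1 * y p.2) ∘ e)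
      map_add' y z := by rw [← Matrix.mulVec_add]; congr 1; ext; simp [mul_add]
      map_smul' c y := by rw [← Matrix.mulVec_smul]; congr 1; ext; simp [mul_left_comm] }
  refine ⟨LinearMap.range φ, le_top, by rintro _ ⟨y, rfl⟩; exact h _ y, ?_⟩
  rw [LinearMap.finrank_range_of_inj, finrank_top, finrank_fun, finrank_fun, Fintype.card_congr e]
  · simp
  · intro y z hyz
    ext j
    simpa using congrFun (crd_injective e P hyz) (0, j)

theorem Ten.plus_iff [Finite F] (hQ : QF Q G) (h2 : (2 : F) ≠ 0) {H : Subgroup (GL ι F)} {a b : ℕ}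
    {e : ι ≃ Fin a × Fin (2 * b)} {P : GL ι F} {G₁ : Matrix (Fin a) (Fin a) F}
    {G₂ : Matrix (Fin (2 * b)) (Fin (2 * b)) F} (h : Ten (RingHom.id F) G H e P G₁ G₂ 1 1)
    (ha : Odd a) : IsPlusTypeOn Q ⊤ ↔ IsPlusTypeOn (fun v => 𝔟 G₂ v v) ⊤ := by
  have h3 : QF (fun v => 𝔟 G₂ v v) ((2 : F) • G₂) := qf_fm
    (by rw [h.hf₂.transpose, one_smul, two_smul]) (isUnit_smul' h2 h.hf₂.unit)
  have h4 := ((Matrix.isUnit_iff_isUnit_det _).1 h.hf₁.unit).ne_zero
  have h5 := ((Matrix.isUnit_iff_isUnit_det _).1 h.hf₂.unit).ne_zero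
  obtain ⟨k, rfl⟩ := ha
  rw [hQ.plus_iff_unF h2 (m := (2 * k + 1) * b) (by rw [Fintype.card_congr e]; simp; ring) e P, h.eq,
    h3.plus_iff_disc h2 (m := b) (by simp), Matrix.det_kronecker, Matrix.det_smul,
    ← isSquare_sq_mul (a := 2 ^ b) (pow_ne_zero _ h2),
    ← isSquare_sq_mul (a := G₁.det ^ b * G₂.det ^ k * (-1) ^ (k * b)) (b := _ * (2 ^ _ * _)) (by simp [h4, h5])]
  simp only [Fintype.card_fin]
  ring_nf

theorem PreR.exists_invol [Nonempty ι] {R : Subgroup (GL ι F)} (h : PreR 2 R)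
    (hG : HF (RingHom.id F) G 1) (hR : R ≤ isom (RingHom.id F) G) (hn : 2 ≤ Fintype.card ι) :
    ∃ s ∈ R, s ∉ scalars ι F ∧ s.val * s.val = 1 := by
  by_contra! h1
  have h2 : ∀ a, ∃ c : F, a + adj (RingHom.id F) G a = c • 1 := fun a => by
    refine spanAlg_induction (N := R) (p := fun a => ∃ c : F, a + adj (RingHom.id F) G a = c • 1)
      (fun g hg => ?_) ⟨0, by simp [adj_zero]⟩ ?_ ?_ (h.span ▸ trivial)
    · by_cases hs : g ∈ scalars ι F
      · obtain ⟨c, hc⟩ := (mem_scalars_iff g).1 hs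
        exact ⟨c + c, by rw [hc, adj_smul, hG.adj_one, add_smul]; rfl⟩
      · refine ⟨0, ?_⟩
        have h3 := (h.sq_cases hg).resolve_left (h1 g hg hs)
        rw [hG.adj_isom (hR hg), Units.inv_eq_of_mul_eq_one_right (a := -g.val) (by simp [h3])]
        simp
    · rintro x y ⟨c, hc⟩ ⟨d, hd⟩
      exact ⟨c + d, by rw [adj_add, add_smul, ← hc, ← hd]; abel⟩
    · rintro c x ⟨d, hd⟩
      exact ⟨c * d, by rw [adj_smul, mul_smul, ← hd, smul_add]; rfl⟩
  obtain ⟨v, hv⟩ := exists_ne (0 : ι → F)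
  have h3 : ∀ x, vecMulVec v (G *ᵥ v) *ᵥ x = 𝔟 G x v • v := fun x => by
    rw [vecMulVec_mulVec', dotProduct_comm]; rfl
  obtain ⟨c, hc⟩ := h2 (vecMulVec v (G *ᵥ v))
  rw [hG.adj_eq (y := vecMulVec v (G *ᵥ v)) fun u w => by
    have := hG.swap v w
    rw [h3, h3, fm_smul_left, fm_smul_right, mul_comm]; simp_all] at hc
  have h4 := hG.finrank_prp (Submodule.span F {v})
  rw [finrank_span_singleton hv] at h4
  obtain ⟨w, hw, hw0⟩ := (Submodule.ne_bot_iff (prp (RingHom.id F) G (Submodule.span F {v}))).1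
    fun h => by rw [h, finrank_bot] at h4; omega
  have h5 := congrArg (· *ᵥ w) hc
  simp only [Matrix.add_mulVec, h3, mem_prp.1 hw v (Submodule.mem_span_singleton_self v), zero_smul,
    add_zero, Matrix.smul_mulVec, Matrix.one_mulVec] at h5
  obtain ⟨x, hx⟩ := exists_fm_ne_zero_left (σ := RingHom.id F) hG.unit hv
  have h6 := congrArg (· *ᵥ x) hc
  simp only [h3, (smul_eq_zero.1 h5.symm).resolve_right hw0, zero_smul,
    Matrix.zero_mulVec, ← two_smul F, Matrix.smul_mulVec, smul_eq_zero] at h6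
  exact h.ne_char (by simpa [hx, hv] using h6)

theorem PreR.plus [Finite F] [Nonempty ι] {R : Subgroup (GL ι F)} (h : PreR 2 R) (hQ : QF Q G)
    (hR : R ≤ isometryGroup F Q) (hn : 4 ∣ Fintype.card ι) : IsPlusTypeOn Q ⊤ := by
  have h2 : (2 : F) ≠ 0 := by simpa using h.ne_char
  obtain ⟨s, hs, h1, h3⟩ := h.exists_invol hQ.hf (hR.trans hQ.isometryGroup_le)
    (by have := Nat.le_of_dvd Fintype.card_pos hn; omega)
  obtain ⟨y, hy, h4⟩ := h.exists_anti hs h1
  let η : Matrix ι ι F := (2⁻¹ : F) • (1 + s.val)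
  have h5 : η * η = η := by
    simp only [η, smul_mul_smul_comm, mul_add, add_mul, h3, mul_one, one_mul]
    rw [mul_smul, add_comm s.val, ← two_smul F, inv_smul_smul₀ h2]
  have h6 : adj (RingHom.id F) G η = η := by
    rw [adj_smul, adj_add, hQ.hf.adj_one, hQ.hf.adj_isom (hQ.isometryGroup_le (hR hs)),
      Units.inv_eq_of_mul_eq_one_right h3]; rfl
  have h7 : cj y η = 1 - η := by
    rw [map_smul, map_add, map_one, cj_apply, h4, neg_mul, Units.mul_inv_cancel_right]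
    simp only [η]
    match_scalars <;> field_simp <;> ring
  have h8 : (colSp η).map (Matrix.toLin' y.val) = colSp (1 - η) := by rw [map_colSp, h7]
  have h9 := isometric_of_map (hR hy) h8
  have h10 : AreOrthogonalFor (𝔟 G) (colSp η) (colSp (1 - η)) := by
    rintro _ ⟨a, rfl⟩ _ ⟨b, rfl⟩
    rw [Matrix.toLin'_apply, Matrix.toLin'_apply, hQ.hf.fm_adj, h6, Matrix.mulVec_mulVec, mul_sub, h5]
    simp [fm]
  have h11 : colSp η ⊔ colSp (1 - η) = ⊤ := eq_top_iff.2 fun v _ => by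
    have := Submodule.add_mem_sup (mulVec_mem_colSp η v) (mulVec_mem_colSp (1 - η) v)
    rwa [← Matrix.add_mulVec, add_sub_cancel, Matrix.one_mulVec] at this
  have h12 := hQ.hf.finrank_sup_orth (hQ.hf.nondeg_colSp h5 h6) h10
  have h13 := finrank_map_GL y (colSp η)
  rw [h8] at h13
  rw [h11, finrank_top, finrank_fun] at h12
  obtain ⟨k, hk⟩ := hn
  exact h11 ▸ hQ.plus_sup_of_same (hQ.hf.nondeg_colSp h5 h6) (hQ.hf.nondeg_colSp
    (by simp [mul_sub, sub_mul, h5]) (by rw [adj_sub, h6, hQ.hf.adj_one])) h10 h13 ⟨k, by omega⟩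
    ⟨AreIsometricFor.h26_plus h9, AreIsometricFor.h26_plus (AreIsometricFor.h26_symm h9)⟩

end Cfsg.Agent.H26
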