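import Mathlib
import Cfsg.Agent.H26.O2

/-! The space and the quadratic form over an embedded extension field. -/

set_option autoImplicit false
set_option maxHeartbeats 400000

namespace Cfsg.Agent.H26

open Matrix Cfsg.Geo Module

variable {ι : Type} [Fintype ι] [DecidableEq ι] {F : Type*} [Field F] {G : Matrix ι ι F}
  {Q : (ι → F) → F} {E : Type*} [Field E] [Algebra F E]

/-- the column space as a vector space over the embedded field `E` -/
def EV (_φ : E →ₐ[F] Matrix ι ι F) : Type _ := ι → F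

namespace EV
variable (φ : E →ₐ[F] Matrix ι ι F)

instance instACG : AddCommGroup (EV φ) := inferInstanceAs (AddCommGroup (ι → F))
instance instModF : Module F (EV φ) := inferInstanceAs (Module F (ι → F))

/-- the identification with the column space -/
def eq : EV φ ≃ₗ[F] (ι → F) := LinearEquiv.refl F (ι → F)

instance instModE : Module E (EV φ) where
  smul k x := (eq φ).symm (φ k *ᵥ eq φ x)
  one_smul x := by change φ 1 *ᵥ eq φ x = x; rw [map_one, Matrix.one_mulVec]; rfl
  mul_smul a b x := by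
    change φ (a * b) *ᵥ eq φ x = φ a *ᵥ φ b *ᵥ eq φ x; rw [map_mul, Matrix.mulVec_mulVec]
  smul_zero _ := Matrix.mulVec_zero _
  smul_add _ _ _ := Matrix.mulVec_add _ _ _
  add_smul a b x := by
    change φ (a + b) *ᵥ eq φ x = φ a *ᵥ eq φ x + φ b *ᵥ eq φ x; rw [map_add, Matrix.add_mulVec]
  zero_smul x := by change φ 0 *ᵥ eq φ x = 0; rw [map_zero, Matrix.zero_mulVec]

theorem eq_smul (k : E) (x : EV φ) : eq φ (k • x) = φ k *ᵥ eq φ x := rfl

instance instTower : IsScalarTower F E (EV φ) :=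
  ⟨fun c k x => (eq φ).injective (by rw [eq_smul, map_smul, map_smul, eq_smul, Matrix.smul_mulVec])⟩

instance instFinF : Module.Finite F (EV φ) := inferInstanceAs (Module.Finite F (ι → F))
instance instFinE : Module.Finite E (EV φ) := Module.Finite.of_restrictScalars_finite F E _

theorem finrank_mul : finrank F E * finrank E (EV φ) = Fintype.card ι := by
  rw [Module.finrank_mul_finrank, (eq φ).finrank_eq, finrank_fun]

/-- a matrix commuting with `E` as an `E`-linear map -/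
def lin (M : Matrix ι ι F) (hM : ∀ k, M * φ k = φ k * M) : EV φ →ₗ[E] EV φ where
  toFun x := (eq φ).symm (M *ᵥ eq φ x)
  map_add' _ _ := Matrix.mulVec_add _ _ _
  map_smul' k x := by
    change M *ᵥ φ k *ᵥ eq φ x = φ k *ᵥ M *ᵥ eq φ x
    rw [Matrix.mulVec_mulVec, hM, Matrix.mulVec_mulVec]

theorem eq_lin (M : Matrix ι ι F) (hM : ∀ k, M * φ k = φ k * M) (x : EV φ) :
    eq φ (lin φ M hM x) = M *ᵥ eq φ x := rfl

/-- the matrix of an `E`-linear map -/
noncomputable def mat (f : EV φ →ₗ[E] EV φ) : Matrix ι ι F :=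
  LinearMap.toMatrix' ((eq φ).conj (f.restrictScalars F))

theorem mat_mulVec (f : EV φ →ₗ[E] EV φ) (x : EV φ) : mat φ f *ᵥ eq φ x = eq φ (f x) := by
  rw [mat, LinearMap.toMatrix'_mulVec]; rfl

theorem ext_mulVec {M N : Matrix ι ι F} (h : ∀ x, M *ᵥ eq φ x = N *ᵥ eq φ x) : M = N :=
  matrix_ext_mulVec fun v => h ((eq φ).symm v)

theorem mat_comm (f : EV φ →ₗ[E] EV φ) (k : E) : mat φ f * φ k = φ k * mat φ f :=
  ext_mulVec φ fun x => by
    rw [← Matrix.mulVec_mulVec, ← Matrix.mulVec_mulVec, ← eq_smul, mat_mulVec, mat_mulVec, map_smul,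
      eq_smul]

end EV

section trace
variable [Finite E]

theorem finite_of_algebra (F E : Type*) [Field F] [Field E] [Algebra F E] [Finite E] : Finite F :=
  Finite.of_injective _ (algebraMap F E).injective

theorem trace_ext {a b : E} (h : ∀ k, Algebra.trace F E (k * a) = Algebra.trace F E (k * b)) :
    a = b := by
  have := finite_of_algebra F E
  refine sub_eq_zero.1 ((traceForm_nondegenerate F E).1 _ fun k => ?_)
  rw [Algebra.traceForm_apply, mul_comm, mul_sub, map_sub, h, sub_self]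

theorem trace_ext_sq {a b : E}
    (h : ∀ k, Algebra.trace F E (k ^ 2 * a) = Algebra.trace F E (k ^ 2 * b)) : a = b := by
  refine trace_ext (F := F) fun k => ?_
  by_cases h2 : (2 : E) = 0
  · obtain ⟨j, rfl⟩ := exists_sq_eq_of_two_eq_zero h2 k
    exact h j
  · have h3 : ∀ c, k * c = ((k + 1) / 2) ^ 2 * c - ((k - 1) / 2) ^ 2 * c := fun c => by
      field_simp; ring
    rw [h3, h3, map_sub, map_sub, h, h]

theorem exists_trace_eq (l : E →ₗ[F] F) : ∃ a, ∀ k, Algebra.trace F E (k * a) = l k := by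
  have := finite_of_algebra F E
  obtain ⟨a, ha⟩ := ((Algebra.traceForm F E).toDual (traceForm_nondegenerate F E)).surjective l
  exact ⟨a, fun k => by rw [← ha, mul_comm]; rfl⟩

end trace

theorem exists_aut [Nonempty ι] [Finite E] (φ : E →ₐ[F] Matrix ι ι F) {g : GL ι F}
    (hg : ∀ k, cj g (φ k) ∈ φ.range) : ∃ θ : E ≃ₐ[F] E, ∀ k, g.val * φ k = φ (θ k) * g.val := by
  let θ : E →ₐ[F] E := (AlgEquiv.ofInjective φ φ.injective).symm.toAlgHom.comp
    (((cj g).toAlgHom.comp φ).codRestrict φ.range hg)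
  refine ⟨AlgEquiv.ofBijective θ (Finite.injective_iff_bijective.1 θ.injective), fun k => ?_⟩
  rw [← cj_mul_coe]
  congr 1
  exact (congrArg Subtype.val ((AlgEquiv.ofInjective φ φ.injective).apply_symm_apply ⟨_, hg k⟩)).symm

/-- the form over the extension field -/
structure EForm (φ : E →ₐ[F] Matrix ι ι F) (Q : (ι → F) → F) (G : Matrix ι ι F)
    (B : EV φ →ₗ[E] EV φ →ₗ[E] E) (Q' : EV φ → E) : Prop where
  quad : H11.IsQuad B Q'
  sep : B.SeparatingLeft
  trB : ∀ k x y, Algebra.trace F E (k * B x y) = 𝔟 G (φ k *ᵥ EV.eq φ x) (EV.eq φ y)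
  trQ : ∀ k x, Algebra.trace F E (k ^ 2 * Q' x) = Q (φ k *ᵥ EV.eq φ x)

theorem QF.exists_eform [Finite E] (h : QF Q G) (φ : E →ₐ[F] Matrix ι ι F)
    (hs : ∀ k, adj (RingHom.id F) G (φ k) = φ k) : ∃ B Q', EForm φ Q G B Q' := by
  have h1 : ∀ k u v, 𝔟 G (φ k *ᵥ u) v = 𝔟 G u (φ k *ᵥ v) := fun k u v => by rw [h.hf.fm_adj, hs]
  have h2 : ∀ x y : EV φ, ∃ a, ∀ k, Algebra.trace F E (k * a) =
      𝔟 G (φ k *ᵥ EV.eq φ x) (EV.eq φ y) := fun x y => exists_trace_eq
    { toFun k := 𝔟 G (φ k *ᵥ EV.eq φ x) (EV.eq φ y)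
      map_add' a b := by rw [map_add, Matrix.add_mulVec, fm_add_left]
      map_smul' c a := by rw [map_smul, Matrix.smul_mulVec, fm_smul_left]; rfl }
  choose b hb using h2
  have h3 : ∀ x y, b x y = b y x := fun x y => trace_ext (F := F) fun k => by rw [hb, hb, h1, h.comm]
  have h4 : ∀ x y z, b (x + y) z = b x z + b y z := fun x y z => trace_ext (F := F) fun k => by
    rw [mul_add, map_add, hb, hb, hb, map_add, Matrix.mulVec_add, fm_add_left]
  have h5 : ∀ (c : E) x y, b (c • x) y = c • b x y := fun c x y => trace_ext (F := F) fun k => by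
    rw [smul_eq_mul, ← mul_assoc, hb, hb, EV.eq_smul, Matrix.mulVec_mulVec, map_mul]
  have h6 : ∀ k x y, 𝔟 G (φ k *ᵥ EV.eq φ x) (φ k *ᵥ EV.eq φ y) =
      Algebra.trace F E (k ^ 2 * b x y) := fun k x y => by
    rw [hb, ← h1, Matrix.mulVec_mulVec, sq, map_mul]
  have h7 : ∀ x : EV φ, ∃ a, ∀ k, Algebra.trace F E (k ^ 2 * a) = Q (φ k *ᵥ EV.eq φ x) := fun x => by
    by_cases h2 : (2 : F) = 0
    · have h2' : (2 : E) = 0 := by rw [← map_ofNat (algebraMap F E), h2, map_zero]
      have := finite_of_algebra F E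
      choose s hs using exists_sq_eq_of_two_eq_zero h2'
      have h8 : ∀ a b : E, a ^ 2 = b ^ 2 → a = b := fun a b hab => sub_eq_zero.1
        (pow_eq_zero_iff two_ne_zero |>.1 (by linear_combination hab + (b ^ 2 - a * b) * h2'))
      obtain ⟨a, ha⟩ := exists_trace_eq (F := F) (E := E)
        { toFun k := Q (φ (s k) *ᵥ EV.eq φ x)
          map_add' a b := by
            obtain ⟨c, hc⟩ := exists_sq_eq_of_two_eq_zero h2' (s b * s a)
            rw [h8 (s (a + b)) (s a + s b) (by rw [add_sq, hs, hs, hs, h2']; ring), map_add,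
              Matrix.add_mulVec, h.add, ← h1, Matrix.mulVec_mulVec, ← map_mul, ← hc, sq, map_mul,
              ← Matrix.mulVec_mulVec, h1, h.diag, h2, zero_mul, add_zero]
          map_smul' c a := by
            obtain ⟨d, rfl⟩ := exists_sq_eq_of_two_eq_zero h2 c
            rw [h8 (s (d ^ 2 • a)) (d • s a) (by rw [smul_pow, hs, hs]), map_smul,
              Matrix.smul_mulVec, h.smul]; rfl }
      exact ⟨a, fun k => (ha _).trans (by simp only [LinearMap.coe_mk, AddHom.coe_mk, h8 _ _ (hs _)])⟩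
    · exact ⟨(2⁻¹ : F) • b x x, fun k => by
        rw [mul_smul_comm, map_smul, ← h6, h.diag, smul_eq_mul, inv_mul_cancel_left₀ h2]⟩
  choose Q' hQ' using h7
  refine ⟨LinearMap.mk₂ E b h4 h5 (fun x y z => by rw [h3, h4, h3 y, h3 z])
    (fun c x y => by rw [h3, h5, h3]), Q', H11.IsQuad.of_add_smul (fun x y => ?_) fun c x => ?_,
    fun x hx => ?_, fun k x y => hb x y k, fun k x => hQ' x k⟩
  · refine trace_ext_sq (F := F) fun k => ?_
    rw [mul_add, mul_add, map_add, map_add, hQ', hQ', hQ', map_add, Matrix.mulVec_add, h.add, h6]; rfl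
  · refine trace_ext_sq (F := F) fun k => ?_
    rw [hQ', EV.eq_smul, Matrix.mulVec_mulVec, ← map_mul, ← hQ']
    congr 1; ring
  · refine (EV.eq φ).map_eq_zero_iff.1 (h.hf.eq_zero_left fun y => ?_)
    have := hb x ((EV.eq φ).symm y) 1
    rw [show b x _ = 0 from hx _] at this
    simpa using this.symm

variable {φ : E →ₐ[F] Matrix ι ι F} {B : EV φ →ₗ[E] EV φ →ₗ[E] E} {Q' : EV φ → E}

theorem EForm.semi [Finite E] (h : EForm φ Q G B Q') {g : GL ι F} (hg : g ∈ isometryGroup F Q)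
    {θ : E ≃ₐ[F] E} (hθ : ∀ k, g.val * φ k = φ (θ k) * g.val) {x y : EV φ}
    (hxy : EV.eq φ y = g.val *ᵥ EV.eq φ x) : Q' y = θ (Q' x) := by
  refine trace_ext_sq (F := F) fun k => ?_
  obtain ⟨k, rfl⟩ := θ.surjective k
  rw [← map_pow, ← map_mul, Algebra.trace_eq_of_algEquiv, map_pow, h.trQ, h.trQ, hxy,
    Matrix.mulVec_mulVec, ← hθ, ← Matrix.mulVec_mulVec, mem_isometryGroup.1 hg]

theorem mem_range_of_quadratic [Finite E] (ho : Odd (finrank F E)) {t : E} {a b : F}
    (h : t ^ 2 + a • t + algebraMap F E b = 0) : ∃ s, algebraMap F E s = t := by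
  have h1 := minpoly.degree_dvd (Algebra.IsIntegral.isIntegral (R := F) t)
  have h2 : (minpoly F t).natDegree ≤ 2 := by
    refine (Polynomial.natDegree_le_of_dvd (minpoly.dvd F t (p := .X ^ 2 + .C a * .X + .C b)
      (by simpa [Algebra.smul_def] using h)) fun h => ?_).trans (by compute_degree)
    simpa using congrArg (Polynomial.coeff · 2) h
  have h3 := minpoly.natDegree_pos (Algebra.IsIntegral.isIntegral (R := F) t)
  refine minpoly.natDegree_eq_one_iff.1 (by_contra fun h4 => ?_)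
  rw [show (minpoly F t).natDegree = 2 by omega] at h1
  exact Nat.not_even_iff_odd.2 ho (even_iff_two_dvd.2 h1)

theorem EForm.not_irr_one [Finite E] (h : EForm φ Q G B Q') (ho : Odd (finrank F E))
    (hn : Fintype.card ι = finrank F E) (hn' : 2 ≤ Fintype.card ι) {H : Subgroup (GL ι F)}
    (hH : H ≤ isometryGroup F Q) (hs : ∀ g ∈ H, ∀ k, cj g (φ k) ∈ φ.range) : ¬ Irr H := by
  have : Nonempty ι := Fintype.card_pos_iff.1 (by omega)
  have := finite_of_algebra F E
  have h1 : finrank E (EV φ) = 1 := by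
    have := EV.finrank_mul φ
    rwa [hn, mul_eq_left₀ (by omega)] at this
  obtain ⟨x, -, hx⟩ := h.quad.exists_nonsingular (H11.nondegOn_top h.sep)
    (fun h => by rw [← finrank_top, h, finrank_bot] at h1; omega)
  have h2 : (2 : E) ≠ 0 := fun h2 => by simpa [h1] using h.quad.even_finrank_of_char_two h.sep h2
  obtain ⟨c, d, hc, hd⟩ : ∃ (c : F) (d : E), c ≠ 0 ∧ algebraMap F E c * Q' x = d * d := by
    by_cases h3 : IsSquare (Q' x)
    · exact let ⟨d, hd⟩ := h3; ⟨1, d, one_ne_zero, by rw [map_one, one_mul, hd]⟩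
    obtain ⟨c, hc⟩ := FiniteField.exists_nonsquare (F := F) (H11.ringChar_ne_two_of fun h =>
      h2 (by rw [← map_ofNat (algebraMap F E), h, map_zero]))
    obtain ⟨d, hd⟩ := H11.isSquare_mul_of_not_isSquare (a := algebraMap F E c) (by
      rintro ⟨t, ht⟩
      obtain ⟨s, rfl⟩ := mem_range_of_quadratic ho (t := t) (a := 0) (b := -c) (by simp [ht, sq])
      exact hc ⟨s, (algebraMap F E).injective (by rw [ht, map_mul])⟩) h3
    exact ⟨c, d, by rintro rfl; simp at hc, hd⟩
  have hc' : algebraMap F E c ≠ 0 := by simpa using hc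
  have hd0 : d ≠ 0 := by rintro rfl; simp [hx, hc] at hd
  let y := (algebraMap F E c / d) • x
  have h3 : Q' y = algebraMap F E c := by
    rw [h.quad.smul']; field_simp; linear_combination hd
  have hy : y ≠ 0 := fun h4 => hc' (by rw [← h3, h4, h.quad.map_zero])
  have hy' : EV.eq φ y ≠ 0 := by simpa using hy
  intro hirr
  rcases hirr (Submodule.span F {EV.eq φ y}) (fun g hg v hv => by
    obtain ⟨e, rfl⟩ := Submodule.mem_span_singleton.1 hv
    obtain ⟨θ, hθ⟩ := exists_aut φ (hs g hg)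
    obtain ⟨a, ha⟩ := (finrank_eq_one_iff_of_nonzero' y hy).1 h1 ((EV.eq φ).symm (g.val *ᵥ EV.eq φ y))
    have h4 := h.semi (hH hg) hθ (x := y) (y := a • y) (by rw [ha]; rfl)
    rw [h.quad.smul', h3, AlgEquiv.commutes, mul_eq_right₀ hc', mul_self_eq_one_iff] at h4
    rw [Matrix.mulVec_smul, show g.val *ᵥ EV.eq φ y = EV.eq φ (a • y) by rw [ha]; rfl]
    refine Submodule.smul_mem _ e ?_
    rcases h4 with rfl | rfl <;> simp) with h4 | h4
  · exact hy' (by simpa using h4)
  · have := finrank_span_singleton (K := F) hy'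
    rw [h4, finrank_top, finrank_fun] at this
    omega

/-- a generator of a unitary structure -/
structure UGen (Q : (ι → F) → F) (G : Matrix ι ι F) (ω : Matrix ι ι F) (z : F) : Prop where
  irred : ∀ t, t ^ 2 + t + z ≠ 0
  sq : ω * ω = ω - z • 1
  form : ∀ v, 𝔟 G (ω *ᵥ v) v = Q v

theorem exists_irred (F : Type*) [Field F] [Finite F] : ∃ z : F, ∀ t, t ^ 2 + t + z ≠ 0 := by
  by_contra! h
  have h1 : Function.Surjective fun t : F => -(t ^ 2 + t) := fun z =>
    let ⟨t, ht⟩ := h z; ⟨t, by linear_combination -ht⟩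
  simpa using Finite.injective_iff_surjective.2 h1 (a₁ := 0) (a₂ := -1) (by simp)

theorem EForm.exists_ugen [Finite E] (h : EForm φ Q G B Q') (hQ : QF Q G) (ho : Odd (finrank F E))
    (hn : Fintype.card ι = 2 * finrank F E) {H : Subgroup (GL ι F)} (hH : H ≤ omegaGL Q)
    (hirr : Irr H) (hs : ∀ g ∈ H, ∀ k, cj g (φ k) ∈ φ.range) :
    ∃ ω z, UGen Q G ω z ∧ ∀ g ∈ H, cj g ω = ω ∨ cj g ω = 1 - ω := by
  have h0 := ho.pos
  have : Nonempty ι := Fintype.card_pos_iff.1 (by omega)
  have := finite_of_algebra F E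
  have h1 : finrank E (EV φ) = 2 := by
    have := EV.finrank_mul φ
    rw [hn, mul_comm] at this
    exact Nat.eq_of_mul_eq_mul_right h0 this
  have ha : ∀ x, Q' x = 0 → x = 0 := fun x hx => by
    by_contra hx0
    let ψ : E →ₗ[F] (ι → F) := (EV.eq φ).toLinearMap ∘ₗ (LinearMap.toSpanSingleton E _ x).restrictScalars F
    have h2 : finrank F (LinearMap.range ψ) = finrank F E := LinearMap.finrank_range_of_inj
      ((EV.eq φ).injective.comp (smul_left_injective E hx0))
    have h3 : IsTotallySingularQuad Q (LinearMap.range ψ) := by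
      rintro _ ⟨k, rfl⟩
      exact (h.trQ k x).symm.trans (by rw [hx, mul_zero, map_zero])
    rcases hirr (LinearMap.range ψ) (fun g hg => by
      obtain ⟨θ, hθ⟩ := exists_aut φ (hs g hg)
      have h4 : ∀ k, g.val *ᵥ ψ k = φ (θ k) *ᵥ g.val *ᵥ EV.eq φ x := fun k => by
        rw [Matrix.mulVec_mulVec, ← hθ, ← Matrix.mulVec_mulVec]; rfl
      obtain ⟨_, ⟨⟨a, rfl⟩, _, ⟨b, rfl⟩, h5⟩, h6⟩ := (Submodule.ne_bot_iff _).1
        (hQ.inv_of_odd h3 (by rw [h2, hn]) (by rwa [h2]) (hH hg))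
      have h7 : b ≠ 0 := by rintro rfl; exact h6 (by rw [← h5]; simp)
      rintro _ ⟨k, rfl⟩
      refine ⟨θ (k / b) * a, ?_⟩
      rw [← div_mul_cancel₀ k h7, h4, map_mul θ, map_mul φ, ← Matrix.mulVec_mulVec, ← h4,
        show g.val *ᵥ ψ b = ψ a from h5, mul_div_cancel_right₀ _ h7]
      exact congrArg (EV.eq φ) (mul_smul (θ (k / b)) a x)) with h4 | h4 <;> rw [h4] at h2
    · rw [finrank_bot] at h2; omega
    · rw [finrank_top, finrank_fun] at h2; omega
  obtain ⟨z, hz⟩ := exists_irred F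
  have hz' : ∀ t : E, t ^ 2 + t + algebraMap F E z ≠ 0 := fun t ht => by
    obtain ⟨s, rfl⟩ := mem_range_of_quadratic ho (t := t) (a := 1) (by rwa [one_smul])
    exact hz s ((algebraMap F E).injective (by simpa using ht))
  have hz4 : 1 - 4 * algebraMap F E z ≠ 0 := fun h4 => by
    have h2 : (2 : E) ≠ 0 := fun h2 =>
      one_ne_zero (α := E) (by linear_combination h4 + 2 * algebraMap F E z * h2)
    exact hz' (-2⁻¹) (by field_simp; linear_combination -h4)
  obtain ⟨x, -, y, -, h2, h3, h4, h5⟩ := h.quad.exists_aniso_pair' (H11.nondegOn_top h.sep)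
    (by rwa [finrank_top]) (fun x _ => ha x) hz'
  let b := basisOfLinearIndependentOfCardEqFinrank h2 (by simp [h1])
  have h6 : ∀ v, ∃ c d : E, v = c • x + d • y := fun v =>
    ⟨b.repr v 0, b.repr v 1, by simpa [b] using (b.sum_repr v).symm⟩
  let w := b.constr E ![y, y - algebraMap F E z • x]
  have h7 : w x = y := by
    rw [show x = b 0 by simp [b]]; exact b.constr_basis E _ 0
  have h8 : w y = y - algebraMap F E z • x := by
    conv_lhs => rw [show y = b 1 by simp [b]]
    exact b.constr_basis E _ 1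
  have h9 : ∀ v, B (w v) v = Q' v := fun v => by
    obtain ⟨c, d, rfl⟩ := h6 v
    simp only [map_add, map_smul, h7, h8, map_sub, LinearMap.add_apply, LinearMap.smul_apply,
      LinearMap.sub_apply, h.quad.diag', h.quad.add', h.quad.smul', h3, h4, h5, h.quad.comm y x,
      smul_eq_mul]
    ring
  have h10 : ∀ v, w (w v) = w v - algebraMap F E z • v := fun v => by
    obtain ⟨c, d, rfl⟩ := h6 v
    simp only [map_add, map_smul, h7, h8, map_sub]
    module
  have h11 : UGen Q G (EV.mat φ w) z := ⟨hz, EV.ext_mulVec φ fun v => by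
      rw [← Matrix.mulVec_mulVec, EV.mat_mulVec, EV.mat_mulVec, h10, Matrix.sub_mulVec, map_sub,
        EV.mat_mulVec, algebraMap_smul, map_smul, Matrix.smul_mulVec, Matrix.one_mulVec],
    fun v => by
      obtain ⟨v, rfl⟩ := (EV.eq φ).surjective v
      have h11 := h.trB 1 (w v) v
      have h12 := h.trQ 1 v
      simp only [one_pow, one_mul, map_one, Matrix.one_mulVec, h9] at h11 h12
      rw [EV.mat_mulVec, ← h11, h12]⟩
  refine ⟨_, z, h11, fun g hg => ?_⟩
  obtain ⟨θ, hθ⟩ := exists_aut φ (hs g hg)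
  have h12 : ∀ k, cj g (EV.mat φ w) * φ k = φ k * cj g (EV.mat φ w) := fun k => by
    obtain ⟨k, rfl⟩ := θ.surjective k
    have : φ (θ k) = cj g (φ k) := by rw [cj_apply, hθ, Units.mul_inv_cancel_right]
    rw [this, ← map_mul, EV.mat_comm, map_mul]
  let w' := EV.lin φ _ h12
  have h13 : ∀ v, B (w' v) v = Q' v := fun v => trace_ext_sq (F := F) fun k => by
    rw [h.trQ, sq, mul_assoc, ← smul_eq_mul k (B _ _), ← map_smul, h.trB, ← EV.eq_smul, ← map_smul,
      EV.eq_lin, EV.eq_smul, ← mulVec_inv_mulVec g (φ k *ᵥ _), cj_mulVec,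
      fm_isom (hQ.omega_le (hH hg)), h11.form, mem_isometryGroup.1 (omegaGL_le (hH hg))]
  have h14 : ∀ v, w' (w' v) = w' v - algebraMap F E z • v := fun v => (EV.eq φ).injective (by
    rw [map_sub, EV.eq_lin, EV.eq_lin, Matrix.mulVec_mulVec, ← map_mul, h11.sq, map_sub, map_smul,
      map_one, algebraMap_smul, map_smul, Matrix.sub_mulVec, Matrix.smul_mulVec, Matrix.one_mulVec])
  obtain ⟨c, d, h15⟩ := h6 (w' x)
  have h16 := h13 x
  have h17 := h13 (w' x)
  have h18 := h14 x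
  rw [h14] at h17
  simp only [h15, map_add, map_smul, map_sub, LinearMap.add_apply, LinearMap.smul_apply,
    LinearMap.sub_apply, h.quad.diag', h.quad.add', h.quad.smul', h3, h4, h5, h.quad.comm y x,
    smul_eq_mul] at h16 h17
  obtain rfl : d = 1 - 2 * c := by linear_combination h16
  rcases mul_eq_zero.1 ((mul_eq_zero.1 (show c * (1 - c) * (1 - 4 * algebraMap F E z) = 0 by
    linear_combination h17)).resolve_right hz4) with h19 | h19
  · refine Or.inl (EV.ext_mulVec φ fun v => ?_)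
    obtain ⟨e, f, rfl⟩ := h6 v
    simp only [h19, zero_smul, zero_add, mul_zero, sub_zero, one_smul] at h15
    rw [h15] at h18
    rw [EV.mat_mulVec, ← EV.eq_lin φ _ h12]
    simp only [w'] at h15 h18
    simp only [map_add, map_smul, h7, h8, h15, h18]
  · refine Or.inr (EV.ext_mulVec φ fun v => ?_)
    obtain ⟨e, f, rfl⟩ := h6 v
    obtain rfl : 1 = c := sub_eq_zero.1 h19
    rw [h15, map_add, map_smul, map_smul, h15] at h18
    have h20 : w' y = algebraMap F E z • x := by linear_combination (norm := module) (-1 : E) • h18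
    rw [Matrix.sub_mulVec, Matrix.one_mulVec, EV.mat_mulVec, ← EV.eq_lin φ _ h12, ← map_sub]
    simp only [w'] at h15 h20
    congr 1
    simp only [map_add, map_smul, h7, h8, h15, h20]
    module

theorem UGen.adj (hQ : QF Q G) {ω : Matrix ι ι F} {z : F} (h : UGen Q G ω z) :
    adj (RingHom.id F) G ω = 1 - ω := hQ.hf.adj_eq fun u v => by
  have h1 := h.form (u + v)
  rw [Matrix.mulVec_add, fm_add_left, fm_add_right, fm_add_right, h.form, h.form, hQ.add] at h1
  rw [Matrix.sub_mulVec, Matrix.one_mulVec, fm_sub_right, hQ.comm u (ω *ᵥ v)]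
  linear_combination h1

/-- the algebra generated by a quadratic element -/
def UGen.alg {ω : Matrix ι ι F} {z : F} (h : UGen Q G ω z) : Subalgebra F (Matrix ι ι F) :=
  (Submodule.span F (Set.range ![1, ω])).toSubalgebra (Submodule.subset_span ⟨0, rfl⟩) (by
    simp only [Matrix.range_cons, Matrix.range_empty, Set.union_empty, Set.union_singleton,
      Submodule.mem_span_pair]
    rintro _ _ ⟨a, b, rfl⟩ ⟨c, d, rfl⟩
    refine ⟨a * c + a * d + b * c, b * d - a * c * z, ?_⟩
    simp only [mul_add, add_mul, smul_mul_smul_comm, h.sq, mul_one, one_mul]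
    module)

theorem UGen.mem_alg {ω : Matrix ι ι F} {z : F} (h : UGen Q G ω z) {x : Matrix ι ι F} :
    x ∈ h.alg ↔ ∃ a b : F, a • ω + b • 1 = x := by
  simp [UGen.alg, Submodule.mem_span_pair]

theorem UGen.isField [Nonempty ι] {ω : Matrix ι ι F} {z : F} (h : UGen Q G ω z) :
    IsFieldSubalgebra 2 h.alg := by
  have h1 : ∀ a b : F, a • ω + b • (1 : Matrix ι ι F) ≠ 0 → b ^ 2 + a * b + a ^ 2 * z ≠ 0 :=
    fun a b h1 h2 => by
      by_cases ha : a = 0
      · exact h1 (by simp_all)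
      · exact h.irred (b / a) (by field_simp; linear_combination h2)
  refine ⟨fun x hx y hy => ?_, fun x hx hx0 => ?_, ?_⟩
  · obtain ⟨a, b, rfl⟩ := h.mem_alg.1 hx
    obtain ⟨c, d, rfl⟩ := h.mem_alg.1 hy
    simp only [mul_add, add_mul, smul_mul_smul_comm, mul_one, one_mul]
    module
  · obtain ⟨a, b, rfl⟩ := h.mem_alg.1 hx
    have h2 := h1 a b hx0
    refine ⟨(b ^ 2 + a * b + a ^ 2 * z)⁻¹ • ((-a) • ω + (a + b) • 1),
      Subalgebra.smul_mem _ (h.mem_alg.2 ⟨_, _, rfl⟩) _, ?_⟩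
    rw [mul_smul_comm, inv_smul_eq_iff₀ h2]
    simp only [mul_add, add_mul, smul_mul_smul_comm, h.sq, mul_one, one_mul]
    module
  · refine (finrank_span_eq_card (LinearIndependent.pair_iff.2 fun a b hab => ?_)).trans (by simp)
    by_cases hb : b = 0
    · simp_all
    have h2 : ω = (-a / b) • 1 := by
      rw [div_eq_inv_mul, mul_smul, eq_inv_smul_iff₀ hb]; linear_combination (norm := module) hab
    have h3 := h.sq
    rw [h2, smul_mul_smul_comm, mul_one, ← sub_smul] at h3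
    exact absurd (by linear_combination eq_of_smul_one_eq h3) (h.irred (a / b))

theorem UGen.adjSt (hQ : QF Q G) {ω : Matrix ι ι F} {z : F} (h : UGen Q G ω z) :
    AdjSt (RingHom.id F) G h.alg := fun x hx => by
  obtain ⟨a, b, rfl⟩ := h.mem_alg.1 hx
  exact h.mem_alg.2 ⟨-a, a + b, by
    rw [adj_add, adj_smul, adj_smul, h.adj hQ, hQ.hf.adj_one, RingHom.id_apply, RingHom.id_apply]
    module⟩

theorem UGen.not_self [Nonempty ι] (hQ : QF Q G) {ω : Matrix ι ι F} {z : F} (h : UGen Q G ω z) :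
    ¬ ∀ k ∈ h.alg, H26.adj (RingHom.id F) G k = k := fun h1 => by
  have h2 := h1 ω (h.mem_alg.2 ⟨1, 0, by simp⟩)
  rw [h.adj hQ, sub_eq_iff_eq_add, ← two_smul F] at h2
  have h3 : (2 : F) ≠ 0 := fun h3 => by simp [h3] at h2
  have h4 := h.sq
  rw [show ω = (2⁻¹ : F) • 1 by rw [h2, inv_smul_smul₀ h3], smul_mul_smul_comm, mul_one,
    ← sub_smul] at h4
  exact h.irred (-2⁻¹) (by linear_combination eq_of_smul_one_eq h4)

theorem UGen.stable {ω : Matrix ι ι F} {z : F} (h : UGen Q G ω z) {H : Subgroup (GL ι F)}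
    (h1 : ∀ g ∈ H, cj g ω = ω ∨ cj g ω = 1 - ω) : Stable H h.alg := fun g hg x hx => by
  obtain ⟨a, b, rfl⟩ := h.mem_alg.1 hx
  rw [map_add, map_smul, map_smul, map_one]
  rcases h1 g hg with h2 | h2 <;> rw [h2]
  · exact hx
  · exact h.mem_alg.2 ⟨-a, a + b, by module⟩

/-- the case `n = r` -/
theorem QF.not_irr_of_field [Finite F] (hQ : QF Q G) {r : ℕ} {K : Subalgebra F (Matrix ι ι F)}
    (hK : IsFieldSubalgebra r K) (hs : ∀ k ∈ K, adj (RingHom.id F) G k = k) (ho : Odd r)
    (hn : Fintype.card ι = r) (hn' : 2 ≤ r) {H : Subgroup (GL ι F)} (hH : H ≤ isometryGroup F Q)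
    (hst : Stable H K) : ¬ Irr H := by
  have : Nonempty ι := Fintype.card_pos_iff.1 (by omega)
  letI := (isField_of_isFieldSubalgebra hK).toField
  obtain ⟨B, Q', h⟩ := hQ.exists_eform (E := K) K.val fun k => hs k k.2
  exact h.not_irr_one (hK.finrank_eq ▸ ho) (hn.trans hK.finrank_eq.symm) (by omega) hH
    fun g hg k => ⟨⟨_, hst g hg k k.2⟩, rfl⟩

/-- the case `n = 2 r` -/
theorem QF.ugen_of_field [Finite F] (hQ : QF Q G) {r : ℕ} {K : Subalgebra F (Matrix ι ι F)}
    (hK : IsFieldSubalgebra r K) (hs : ∀ k ∈ K, adj (RingHom.id F) G k = k) (ho : Odd r)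
    (hn : Fintype.card ι = 2 * r) {H : Subgroup (GL ι F)} (hH : H ≤ omegaGL Q) (hirr : Irr H)
    (hst : Stable H K) : ∃ ω z, UGen Q G ω z ∧ ∀ g ∈ H, cj g ω = ω ∨ cj g ω = 1 - ω := by
  have : Nonempty ι := Fintype.card_pos_iff.1 (by have := ho.pos; omega)
  letI := (isField_of_isFieldSubalgebra hK).toField
  obtain ⟨B, Q', h⟩ := hQ.exists_eform (E := K) K.val fun k => hs k k.2
  exact h.exists_ugen hQ (hK.finrank_eq ▸ ho) (hK.finrank_eq ▸ hn) hH hirr
    fun g hg k => ⟨⟨_, hst g hg k k.2⟩, rfl⟩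

theorem QF.sim_of_ufld [Finite F] [Nonempty ι] (hQ : QF Q G) {K : Subalgebra F (Matrix ι ι F)}
    (hK : IsFieldSubalgebra 2 K) (hA : AdjSt (RingHom.id F) G K)
    (hns : ¬ ∀ k ∈ K, adj (RingHom.id F) G k = k) {H : Subgroup (GL ι F)} (hirr : Irr H)
    (hn : 2 ≤ Fintype.card ι) (hH : H ≤ isometryGroup F Q) (hst : Stable H K) :
    ∀ k ∈ K, ∃ c : F, ∀ v, Q (k *ᵥ v) = c * Q v := by
  obtain ⟨ω, hω, h1⟩ : ∃ ω ∈ K, ∀ v, Q v = 𝔟 G (ω *ᵥ v) v := by
    by_cases h2 : (2 : F) = 0
    · obtain ⟨ω, hω, h3, h4⟩ := exists_qf_of_field h2 (hQ.alt h2) hQ.unit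
        (hH.trans hQ.isometryGroup_le) hK hA hst hns
      exact ⟨ω, hω, congrFun (hQ.unique h3 hirr hn hH h4)⟩
    · exact ⟨(2⁻¹ : F) • 1, K.smul_mem K.one_mem _, fun v => by
        rw [Matrix.smul_mulVec, Matrix.one_mulVec, fm_smul_left, hQ.diag, inv_mul_cancel_left₀ h2]⟩
  push Not at hns
  obtain ⟨a, ha, hns⟩ := hns
  have h2 : LinearIndependent F ![(1 : K), ⟨a, ha⟩] := LinearIndependent.pair_iff.2 fun s t hst => by
    have h2 : s • 1 + t • a = 0 := congrArg Subtype.val hst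
    have h3 := congrArg (adj (RingHom.id F) G) h2
    rw [adj_add, adj_smul, adj_smul, hQ.hf.adj_one, adj_zero, ← h2, RingHom.id_apply,
      add_right_inj] at h3
    obtain rfl : t = 0 := by_contra fun ht => hns (smul_right_injective _ ht h3)
    simpa using h2
  intro k hk
  let b := basisOfLinearIndependentOfCardEqFinrank h2 (by simp [hK.finrank_eq])
  obtain ⟨s, t, h3⟩ : ∃ s t : F, adj (RingHom.id F) G k * k = s • 1 + t • a :=
    ⟨b.repr ⟨_, mul_mem (hA k hk) hk⟩ 0, b.repr ⟨_, mul_mem (hA k hk) hk⟩ 1, by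
      simpa [b] using congrArg Subtype.val (b.sum_repr ⟨_, mul_mem (hA k hk) hk⟩).symm⟩
  have h4 := congrArg (adj (RingHom.id F) G) h3
  rw [hQ.hf.adj_mul, hQ.hf.adj_adj, h3, adj_add, adj_smul, adj_smul, hQ.hf.adj_one,
    RingHom.id_apply, add_right_inj] at h4
  obtain rfl : t = 0 := by_contra fun ht => hns (smul_right_injective _ ht h4.symm)
  refine ⟨s, fun v => ?_⟩
  rw [h1, h1, ← hQ.hf.fm_adj', Matrix.mulVec_mulVec, Matrix.mulVec_mulVec, mul_assoc,
    hK.comm ω hω k hk, ← mul_assoc, h3, zero_smul, add_zero, smul_mul_assoc, one_mul,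
    Matrix.smul_mulVec, fm_smul_left]

end Cfsg.Agent.H26
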