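import Mathlib
import Cfsg.Agent.H26.MXa
import Cfsg.Agent.H26.O3
import Cfsg.Agent.H10.Mx5

/-! Overgroups of extension field subgroups: the maximal intersection argument. -/

set_option autoImplicit false
set_option maxHeartbeats 400000

namespace Cfsg.Agent.H26.MX

open Module

variable {F : Type*} [Field F] {V : Type*} [AddCommGroup V] [Module F V]
  {M : Subgroup (V ≃ₗ[F] V)}

/-- the `t` with `1 + t ∈ M`, killing `W` and with image in `W` -/
def Th (M : Subgroup (V ≃ₗ[F] V)) (W : Submodule F V) : AddSubgroup (End F V) where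
  carrier := {t | (∀ x, t x ∈ W) ∧ (∀ x ∈ W, t x = 0) ∧ ∃ g ∈ M, ∀ x, g x = x + t x}
  zero_mem' := ⟨by simp, by simp, 1, M.one_mem, by simp⟩
  add_mem' := by
    rintro a b ⟨h1, h2, g, hg, h3⟩ ⟨h4, h5, g', hg', h6⟩
    refine ⟨fun x => add_mem (h1 x) (h4 x), fun x hx => by simp [h2 x hx, h5 x hx], g * g',
      mul_mem hg hg', fun x => by simp [h3, h6, h2 _ (h4 x)]; abel⟩
  neg_mem' := by
    rintro a ⟨h1, h2, g, hg, h3⟩
    exact ⟨fun x => neg_mem (h1 x), fun x hx => by simp [h2 x hx], g⁻¹, inv_mem hg,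
      fun x => inv_eq_of (by simp [h3, h2 _ (h1 x)])⟩

variable {W W' : Submodule F V} {a b : End F V}

theorem Th.conj {g : V ≃ₗ[F] V} (hg : g ∈ M) (ha : a ∈ Th M W) (h1 : ∀ x ∈ W, g x ∈ W')
    (h2 : ∀ x ∈ W', g⁻¹ x ∈ W) (h : ∀ x, b (g x) = g (a x)) : b ∈ Th M W' := by
  obtain ⟨h3, h4, s, hs, h5⟩ := ha
  have h6 : ∀ x, b x = g (a (g⁻¹ x)) := fun x => by rw [← h, app_inv]
  exact ⟨fun x => h6 x ▸ h1 _ (h3 _), fun x hx => by rw [h6, h4 _ (h2 x hx), map_zero], g * s * g⁻¹,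
    mul_mem (mul_mem hg hs) (inv_mem hg), fun x => by simp [h5, h6]⟩

theorem Th.key (ha : a ∈ Th M W) (hb : b ∈ Th M W') (h : ∀ x ∈ W, b x ∈ W) :
    b * a - a * b - b * a * b ∈ Th M W := by
  obtain ⟨h1, h2, s, hs, h3⟩ := hb
  have h4 : ∀ x, b (b x) = 0 := fun x => h2 _ (h1 x)
  have h5 := Th.conj (b := a + (b * a - a * b - b * a * b)) hs ha (fun x hx => h3 x ▸ add_mem hx (h x hx))
    (fun x hx => by
      rw [inv_eq_of (x := x - b x) (by simp [h3, h4])]; exact sub_mem hx (h x hx))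
    fun x => by simp [h3, h4]; abel
  simpa using sub_mem h5 ha

theorem Th.cube (ha : ∀ c : F, c • a ∈ Th M W) (hb : ∀ c : F, c • b ∈ Th M W')
    (h : ∀ x ∈ W, b x ∈ W) {c : F} (h0 : c ≠ 0) (h1 : c ≠ 1) (d : F) : d • (b * a * b) ∈ Th M W := by
  let e := d / (c - c * c)
  have h2 : c - c * c ≠ 0 := by
    rw [show c - c * c = c * (1 - c) by ring]; exact mul_ne_zero h0 (sub_ne_zero.2 h1.symm)
  have h3 := sub_mem (Th.key (ha e) (hb c) fun x hx => W.smul_mem c (h x hx))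
    (Th.key (ha (c * e)) (by simpa using hb 1) h)
  convert h3 using 1
  simp only [smul_mul_assoc, mul_smul_comm]
  rw [show d = (c - c * c) * e by rw [mul_div_cancel₀ _ h2]]
  module

theorem Th.tv {u : V} {ψ : Dual F V} (ha : a ∈ Th M W) (h : ∀ x, a x = ψ x • u) (hu : u ≠ 0) :
    Tv M u ψ := by
  obtain ⟨h1, h2, g, hg, h3⟩ := ha
  refine Tv.of hg ?_ fun x => by rw [h3, h]
  by_contra h4
  have h5 := h2 _ (h1 u)
  simp [h, h4, hu] at h5

/-- `M` contains a full root subgroup of transvections -/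
def HasTv (M : Subgroup (V ≃ₗ[F] V)) : Prop :=
  ∃ (u : V) (ψ : Dual F V), u ≠ 0 ∧ ψ ≠ 0 ∧ ∀ c : F, Tv M u (c • ψ)

theorem hasTv_of_th {u : V} {ψ : Dual F V} (ha : ∀ c : F, c • a ∈ Th M W) (h : ∀ x, a x = ψ x • u)
    (hu : u ≠ 0) (hψ : ψ ≠ 0) : HasTv M :=
  ⟨u, ψ, hu, hψ, fun c => Th.tv (ha c) (fun x => by simp [h, smul_smul]) hu⟩

theorem smul_mem_of_two {A : Type*} [AddCommGroup A] [Module F A] (hq : ∀ c : F, c = 0 ∨ c = 1)
    {S : AddSubgroup A} {x : A} (hx : x ∈ S) (c : F) : c • x ∈ S := by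
  rcases hq c with rfl | rfl <;> simp [hx]

theorem hasTv_of_two (hq : ∀ c : F, c = 0 ∨ c = 1) {g : V ≃ₗ[F] V} (hg : g ∈ M) {u x : V}
    (h : ∀ y, g y - y ∈ F ∙ u) (h1 : g u = u) (hu : u ≠ 0) (hx : g x ≠ x) : HasTv M := by
  let t : V →ₗ[F] (F ∙ u) := ((g : V →ₗ[F] V) - 1).codRestrict _ h
  let ψ := (LinearEquiv.coord F V u hu).toLinearMap ∘ₗ t
  have h2 : ∀ y, g y = y + ψ y • u := fun y => by
    rw [show ψ y • u = t y from LinearEquiv.coord_apply_smul F V u hu (t y)]; simp [t]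
  have h3 : Tv M u ψ := Tv.of hg (by simpa [h1, hu] using h2 u) h2
  refine ⟨u, ψ, hu, fun h0 => hx (by simp [h2, h0]), fun c => ?_⟩
  rcases hq c with rfl | rfl
  · simpa using tv_zero M u
  · simpa using h3

/-- a pair of subspaces meeting in a common hyperplane -/
structure Adj (W W' : Submodule F V) (w x : V) (μ ν : Dual F V) : Prop where
  w_mem : w ∈ W
  x_mem : x ∈ W'
  μw : μ w = 1
  νx : ν x = 1
  left : ∀ y ∈ W, y - μ y • w ∈ W'
  right : ∀ y ∈ W', y - ν y • x ∈ W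
  μ0 : ∀ y ∈ W, y ∈ W' → μ y = 0
  ν0 : ∀ y ∈ W, y ∈ W' → ν y = 0

theorem exists_adj [FiniteDimensional F V] (hd : finrank F W = finrank F W') {x : V} (hx : x ∈ W')
    (hx' : x ∉ W) (h : ∀ y ∈ W', ∃ c : F, y - c • x ∈ W) {w : V} (hw : w ∈ W) (hw' : w ∉ W') :
    ∃ μ ν, Adj W W' w x μ ν := by
  obtain ⟨μ, h1, h2⟩ := exists_dual hw'
  obtain ⟨ν, h3, h4⟩ := exists_dual hx'
  have h5 : W' ≤ W ⊓ W' ⊔ F ∙ x := fun y hy => by
    obtain ⟨c, hc⟩ := h y hy
    exact Submodule.mem_sup.2 ⟨_, ⟨hc, sub_mem hy (W'.smul_mem c hx)⟩, c • x,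
      Submodule.smul_mem _ _ (Submodule.mem_span_singleton_self x), by simp⟩
  have h6 : W ⊓ W' ⊔ F ∙ w = W := by
    refine Submodule.eq_of_le_of_finrank_le (sup_le inf_le_left
      ((Submodule.span_singleton_le_iff_mem _ _).2 hw)) ?_
    have := Submodule.finrank_mono h5
    have := Submodule.finrank_add_le_finrank_add_finrank (W ⊓ W') (F ∙ x)
    have := finrank_span_one_le (F := F) x
    have := Submodule.finrank_lt_finrank_of_lt (show W ⊓ W' < W ⊓ W' ⊔ F ∙ w from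
      left_lt_sup.2 fun h7 => hw' (h7 (Submodule.mem_span_singleton_self w)).2)
    omega
  refine ⟨μ, ν, hw, hx, h1, h3, fun y hy => ?_, fun y hy => ?_, fun y _ => h2 y, fun y hy _ => h4 y hy⟩
  · obtain ⟨z, hz, y, hy', rfl⟩ := Submodule.mem_sup.1 (h6.ge hy)
    obtain ⟨c, rfl⟩ := Submodule.mem_span_singleton.1 hy'
    simpa [h1, h2 z hz.2] using hz.2
  · obtain ⟨c, hc⟩ := h y hy
    have := h4 _ hc
    simp only [map_sub, map_smul, h3, smul_eq_mul, mul_one, sub_eq_zero] at this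
    rwa [this]

variable {w x : V} {μ ν : Dual F V}

theorem Adj.symm (h : Adj W W' w x μ ν) : Adj W' W x w ν μ :=
  ⟨h.x_mem, h.w_mem, h.νx, h.μw, h.right, h.left, fun y a b => h.ν0 y b a, fun y a b => h.μ0 y b a⟩

theorem Adj.app (h : Adj W W' w x μ ν) (ha : a ∈ Th M W) {y : V} (hy : y ∈ W') :
    a y = ν y • a x := by
  simpa [sub_eq_zero] using ha.2.1 _ (h.right y hy)

theorem Adj.maps (h : Adj W W' w x μ ν) (hb : b ∈ Th M W') (h1 : b w ∈ W) (y : V) (hy : y ∈ W) :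
    b y ∈ W := h.symm.app hb hy ▸ W.smul_mem _ h1

theorem Adj.hasTv_big (h : Adj W W' w x μ ν) (ha : ∀ c : F, c • a ∈ Th M W)
    (hb : ∀ c : F, c • b ∈ Th M W') (h1 : b w ∈ W) (h2 : b w ≠ 0) (h3 : μ (a x) ≠ 0) {y : V}
    (h4 : ν (b y) ≠ 0) {c : F} (h0 : c ≠ 0) (h5 : c ≠ 1) : HasTv M := by
  have ha1 : a ∈ Th M W := by simpa using ha 1
  have hb1 : b ∈ Th M W' := by simpa using hb 1
  refine hasTv_of_th (Th.cube ha hb (h.maps hb1 h1) h0 h5) (u := b w) (ψ := μ (a x) • ν ∘ₗ b)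
    (fun z => ?_) h2 fun h6 => ?_
  · simp [h.app ha1 (hb1.1 z), h.symm.app hb1 (ha1.1 x), smul_smul, mul_comm]
  · simpa [h3, h4] using LinearMap.congr_fun h6 y

theorem Adj.hasTv_zero (h : Adj W W' w x μ ν) (ha : ∀ c : F, c • a ∈ Th M W) (hb : b ∈ Th M W')
    (h1 : b w = 0) (h3 : a x ≠ 0) {y : V} (h4 : ν (b y) ≠ 0) : HasTv M := by
  have ha1 : a ∈ Th M W := by simpa using ha 1
  have h2 : ∀ z, b (a z) = 0 := fun z => by rw [h.symm.app hb (ha1.1 z), h1, smul_zero]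
  refine hasTv_of_th (a := a * b) (W := W) (fun c => ?_) (u := a x) (ψ := ν ∘ₗ b)
    (fun z => h.app ha1 (hb.1 z)) h3 fun h6 => h4 (LinearMap.congr_fun h6 y)
  convert neg_mem (Th.key (ha c) hb (h.maps hb (h1 ▸ W.zero_mem))) using 1
  ext z; simp [h2]

/-- the maximal intersection in an `M`-invariant family -/
theorem exists_max_pair [Finite V] [FiniteDimensional F V] {S : Set (Submodule F V)} (hW : W ∈ S)
    (hW' : W' ∈ S) (hne : W ≠ W') (h0 : W ⊓ W' ≠ ⊥) : ∃ U ∈ S, ∃ U' ∈ S, U ≠ U' ∧ U ⊓ U' ≠ ⊥ ∧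
      ∀ X ∈ S, ∀ X' ∈ S, finrank F ↥(U ⊓ U') < finrank F ↥(X ⊓ X') → X = X' := by
  obtain ⟨⟨U, U'⟩, ⟨h1, h2, h3⟩, h4⟩ := Set.exists_max_image
    {p : Submodule F V × Submodule F V | p.1 ∈ S ∧ p.2 ∈ S ∧ p.1 ≠ p.2}
    (fun p => finrank F ↥(p.1 ⊓ p.2)) (Set.toFinite _) ⟨(W, W'), hW, hW', hne⟩
  refine ⟨U, h1, U', h2, h3, fun h5 => h0 ?_, fun X hX X' hX' h5 => by_contra fun h6 =>
    absurd (h4 (X, X') ⟨hX, hX', h6⟩) (not_le.2 h5)⟩
  have := h4 (W, W') ⟨hW, hW', hne⟩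
  dsimp only at this
  rw [h5, finrank_bot, nonpos_iff_eq_zero] at this
  exact Submodule.finrank_eq_zero.1 this

/-- an element fixing the intersection and keeping one more vector inside stabilises `W'` -/
theorem stab_of_max [FiniteDimensional F V] {g : V ≃ₗ[F] V}
    (hmax : finrank F ↥(W ⊓ W') < finrank F ↥(W'.map (g : V →ₗ[F] V) ⊓ W') →
      W'.map (g : V →ₗ[F] V) = W') (h1 : ∀ y ∈ W, y ∈ W' → g y = y) (hx : x ∈ W') (hx' : g x ∉ W)
    (h2 : g x ∈ W') : ∀ y ∈ W', g y ∈ W' := fun y hy => by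
  rw [← hmax (Submodule.finrank_lt_finrank_of_lt (lt_of_le_of_ne
    (fun z hz => ⟨⟨z, hz.2, h1 z hz.1 hz.2⟩, hz.2⟩) fun h3 => hx' (h3.ge ⟨⟨x, hx, rfl⟩, h2⟩).1))]
  exact ⟨y, hy, rfl⟩

section ext
variable {E : Type*} [Field E] [Algebra F E] [Module E V] [IsScalarTower F E V]

/-- restriction of scalars -/
def rs (F : Type*) [Field F] [Algebra F E] [Module F V] [IsScalarTower F E V] :
    (V ≃ₗ[E] V) →* (V ≃ₗ[F] V) where
  toFun g := g.restrictScalars F
  map_one' := rfl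
  map_mul' _ _ := rfl

@[simp] theorem rs_apply (g : V ≃ₗ[E] V) (x : V) : rs F g x = g x := rfl

/-- the line over the extension field -/
def Ln (F E : Type*) [Field F] [Field E] [Algebra F E] [Module F V] [Module E V]
    [IsScalarTower F E V] (v : V) : Submodule F V := (E ∙ v).restrictScalars F

theorem mem_Ln {v x : V} : x ∈ Ln F E v ↔ ∃ k : E, k • v = x := Submodule.mem_span_singleton

theorem smul_mem_Ln (k : E) (v : V) : k • v ∈ Ln F E v := mem_Ln.2 ⟨k, rfl⟩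

theorem self_mem_Ln (v : V) : v ∈ Ln F E v := mem_Ln.2 ⟨1, one_smul _ _⟩

theorem finrank_Ln {v : V} (hv : v ≠ 0) : finrank F (Ln F E v) = finrank F E :=
  ((LinearEquiv.toSpanNonzeroSingleton E V v hv).restrictScalars F).finrank_eq.symm

/-- normalising the extension field -/
def NrmE (E : Type*) [Field E] [Module E V] (y : V ≃ₗ[F] V) : Prop :=
  ∀ k : E, ∃ k' : E, ∀ v, y (k • v) = k' • y v

theorem nrmE_of (hm : 2 ≤ finrank E V) {y : V ≃ₗ[F] V}
    (h : ∀ v, ∀ k : E, y (k • v) ∈ Ln F E (y v)) : NrmE E y := fun k => by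
  choose l hl using fun v => mem_Ln.1 (h v k)
  have key : ∀ u v, y u ≠ 0 → y v ∉ E ∙ y u → l u = l v := fun u v hu hv => by
    have h1 := hl (u + v)
    rw [smul_add, map_add, map_add, ← hl, ← hl, smul_add] at h1
    have h2 : (l (u + v) - l v) • y v = (l u - l (u + v)) • y u := by
      rw [sub_smul, sub_smul, sub_eq_sub_iff_add_eq_add, add_comm, h1]
    by_cases h3 : l (u + v) - l v = 0
    · rw [h3, zero_smul, eq_comm, smul_eq_zero_iff_left hu] at h2
      linear_combination h2 + h3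
    · exact absurd ((Submodule.smul_mem_iff _ h3).1 (h2 ▸ Submodule.smul_mem _ _
        (Submodule.mem_span_singleton_self _))) hv
  have : Module.Finite E V := Module.finite_of_finrank_pos (by omega)
  have h1 : ∀ u : V, E ∙ u ≠ ⊤ := fun u h => by
    have := finrank_span_one_le (F := E) u; rw [h, finrank_top] at this; omega
  obtain ⟨u, hu, -⟩ := exists_not_mem_two (W := ⊥) (fun h => h1 0 (by simpa using h)) (h1 0)
  refine ⟨l (y⁻¹ u), fun v => ?_⟩
  by_cases hv : y v = 0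
  · simp [← hl, hv]
  obtain ⟨z, h2, h3⟩ := exists_not_mem_two (h1 u) (h1 (y v))
  rw [← hl, key v (y⁻¹ z) hv (by simpa), key (y⁻¹ u) (y⁻¹ z) (by simpa using hu) (by simpa)]

theorem exists_norm_one [Finite E] (hr : 2 ≤ finrank F E) :
    ∃ β : E, Algebra.norm F β = 1 ∧ β ∉ (⊥ : Subalgebra F E) := by
  have := finite_of_algebra F E
  have := Fintype.ofFinite F
  by_contra! h
  have hq : 1 < Fintype.card F := Fintype.one_lt_card
  have h1 : ∀ a : Eˣ, a ^ ((Fintype.card F - 1) * (Fintype.card F - 1)) = 1 := fun a => by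
    obtain ⟨c, hc⟩ := h (a ^ (Fintype.card F - 1)) (by
      rw [map_pow, FiniteField.pow_card_sub_one_eq_one _ (Algebra.norm_ne_zero_iff.2 a.ne_zero)])
    have hc0 : c ≠ 0 := by rintro rfl; exact pow_ne_zero _ a.ne_zero (hc.symm.trans (map_zero _))
    ext
    rw [pow_mul, Units.val_pow_eq_pow_val, Units.val_pow_eq_pow_val, ← hc]
    change algebraMap F E c ^ _ = 1
    rw [← map_pow, FiniteField.pow_card_sub_one_eq_one _ hc0, map_one]
  have h2 := Nat.le_of_dvd (Nat.mul_pos (by omega) (by omega))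
    (Monoid.exponent_dvd_of_forall_pow_eq_one h1)
  rw [IsCyclic.exponent_eq_card, Nat.card_units, Module.natCard_eq_pow_finrank (K := F),
    Nat.card_eq_fintype_card] at h2
  have h3 := Nat.pow_le_pow_right hq.le hr
  obtain ⟨q, hq⟩ := Nat.exists_eq_add_of_lt hq
  rw [hq] at h2 h3
  simp only [Nat.add_sub_cancel] at h2
  have : (1 + q + 1) ^ 2 = (1 + q) * (1 + q) + 2 * q + 3 := by ring
  omega

theorem eq_top_of_prime (hr : (finrank F E).Prime) {A : Subalgebra F E} {β : E} (h : β ∈ A)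
    (h1 : β ∉ (⊥ : Subalgebra F E)) : A = ⊤ :=
  ((Subalgebra.isSimpleOrder_of_finrank_prime F E hr).eq_bot_or_eq_top A).resolve_left
    fun h2 => h1 (h2 ▸ h)

/-- the multipliers of a subspace of the extension field -/
def mulr (S : Submodule F E) : Subalgebra F E where
  carrier := {k | ∀ s ∈ S, k * s ∈ S}
  mul_mem' ha hb s hs := by rw [mul_assoc]; exact ha _ (hb s hs)
  add_mem' ha hb s hs := by rw [add_mul]; exact add_mem (ha s hs) (hb s hs)
  algebraMap_mem' c s hs := by rw [← Algebra.smul_def]; exact S.smul_mem c hs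

theorem eq_top_of_mul (hr : (finrank F E).Prime) {S : Submodule F E} {β s : E}
    (h : ∀ s ∈ S, β * s ∈ S) (h1 : β ∉ (⊥ : Subalgebra F E)) (hs : s ∈ S) (h0 : s ≠ 0) (k : E) :
    k ∈ S := by
  simpa [h0] using (eq_top_of_prime hr (A := mulr S) h h1).ge (Algebra.mem_top (x := k * s⁻¹)) s hs

/-- the trace of a functional over the extension field -/
noncomputable def trD (F : Type*) [Field F] [Algebra F E] [Module F V] [IsScalarTower F E V] :
    Dual E V →ₗ[F] Dual F V where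
  toFun φ := Algebra.trace F E ∘ₗ φ.restrictScalars F
  map_add' _ _ := by ext; simp
  map_smul' _ _ := by ext; simp

@[simp] theorem trD_apply (φ : Dual E V) (x : V) : trD F φ x = Algebra.trace F E (φ x) := rfl

theorem exists_trD [Finite E] (χ : Dual F V) : ∃ φ : Dual E V, trD F φ = χ := by
  choose f hf using fun x : V => exists_trace_eq (F := F)
    (χ ∘ₗ (LinearMap.toSpanSingleton E V x).restrictScalars F)
  refine ⟨⟨⟨f, fun x y => trace_ext (F := F) fun k => ?_⟩, fun c x => trace_ext (F := F) fun k => ?_⟩,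
    LinearMap.ext fun x => by simpa using hf x 1⟩
  · simp [mul_add, hf]
  · simp [← mul_assoc, hf, smul_smul]

theorem exists_trace_one [Finite E] : ∃ k : E, Algebra.trace F E k = 1 := by
  have := finite_of_algebra F E
  exact Algebra.trace_surjective F E 1

/-- `M` contains the elements linear over `E` whose determinant has norm one -/
def OvE (E : Type*) [Field E] [Algebra F E] [Module E V] [IsScalarTower F E V]
    (M : Subgroup (V ≃ₗ[F] V)) : Prop :=
  ∀ g : V ≃ₗ[E] V, Algebra.norm F (LinearMap.det (g : V →ₗ[E] V)) = 1 → rs F g ∈ M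

theorem OvE.sl (h : OvE E M) {g : V ≃ₗ[E] V} (hg : g ∈ SLv E V) : rs F g ∈ M :=
  h g (by rw [mem_SLv.1 hg, map_one])

variable [Finite E] [Module.Finite E V]

theorem OvE.sl_le (h : OvE E M) (hr : (finrank F E).Prime) (hm : 2 ≤ finrank E V) (ht : HasTv M) :
    SLv F V ≤ M := by
  have := finite_of_algebra F E
  have : Module.Finite F V := Module.Finite.trans E V
  obtain ⟨u, ψ, hu, hψ, ht⟩ := ht
  obtain ⟨k₀, hk₀⟩ := exists_trace_one (F := F) (E := E)
  let S : Submodule F (Dual E V) :=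
    { carrier := {φ | ∀ c : F, Tv M u (c • trD F φ)}
      add_mem' := fun ha hb c => by simpa using (ha c).add (hb c)
      zero_mem' := fun c => by simpa using tv_zero M u
      smul_mem' := fun d _ ha c => by simpa [smul_smul] using ha (c * d) }
  have hS : ∀ g : V ≃ₗ[E] V, rs F g ∈ M → g u = u → ∀ φ ∈ S, dc φ g ∈ S := fun g hg hgu φ hφ c => by
    convert (hφ c).fix hg hgu using 1
    ext; simp
  have h1 : ∀ u : V, E ∙ u ≠ ⊤ := fun u h => by
    have := finrank_span_one_le (F := E) u; rw [h, finrank_top] at this; omega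
  obtain ⟨ψ, rfl⟩ := exists_trD (E := E) ψ
  have hψ0 : ψ ≠ 0 := by rintro rfl; simp at hψ
  obtain ⟨β, hβ, hβ'⟩ := exists_norm_one (F := F) (E := E) hr.two_le
  have h2 : ∀ φ : Dual E V, φ u = 0 → φ ∈ S := fun φ hφ => by
    by_cases h0 : φ = 0
    · exact h0 ▸ S.zero_mem
    obtain ⟨w, h3, h4⟩ := exists_not_mem_two (LinearMap.ker_eq_top.not.2 h0) (LinearMap.ker_eq_top.not.2 hψ0)
    rw [LinearMap.mem_ker] at h3 h4
    have hβ0 : β ≠ 0 := by rintro rfl; simp at hβ'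
    have h5 : 1 + (((β - 1) / φ w) • φ) w = β := by simp [h3]
    have h5' := h5.trans_ne hβ0
    have h6 : ∀ χ ∈ S, (χ w * ((β - 1) / φ w)) • φ ∈ S := fun χ hχ => by
      convert sub_mem (hS (H10.dtv w (((β - 1) / φ w) • φ)) (h _ (by rw [H10.det_dtv h5', h5, hβ]))
        (H10.dtv_fix _ (by simp [hφ])) χ hχ) hχ using 1
      ext y; simp [H10.dtv_apply' h5']; ring
    simpa using eq_top_of_mul hr (S := S.comap ((LinearMap.toSpanSingleton E _ φ).restrictScalars F))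
      (β := β) (s := ψ w * ((β - 1) / φ w)) (fun s hs => by
        have := add_mem hs (h6 _ hs)
        simp only [Submodule.mem_comap, LinearMap.restrictScalars_apply,
          LinearMap.toSpanSingleton_apply, LinearMap.smul_apply, smul_eq_mul, ← add_smul] at this ⊢
        rwa [show β * s = s + s * φ w * ((β - 1) / φ w) by field_simp; ring]) hβ' (h6 ψ ht)
      (mul_ne_zero h4 (div_ne_zero (sub_ne_zero.2 fun h => hβ' (h ▸ one_mem _)) h3)) 1
  have h3 : ∀ v (φ : Dual E V), v ≠ 0 → φ v = 0 → Tv M v (trD F φ) := fun v φ hv hφ => by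
    obtain ⟨g, hg, rfl⟩ := exists_map_of_tv hm (fun _ _ => tv_SLv) hu hv
    convert (by simpa using h2 (dc φ g) hφ 1 : Tv M u (trD F (dc φ g))).conj (h.sl hg) using 1
    · rfl
    ext y; simp [← map_inv]
  refine sl_le_of_full fun u χ hχ => ?_
  obtain ⟨φ, rfl⟩ := exists_trD (E := E) χ
  by_cases hu : u = 0
  · exact hu ▸ tv_zero_left M _
  by_cases h4 : φ u = 0
  · exact h3 u φ hu h4
  obtain ⟨v, ⟨-, h5⟩, h6⟩ := exists_not_mem_of_lt (W := ⊥) (U := ⊤ ⊓ LinearMap.ker φ) (by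
    have := finrank_le_inf_ker ⊤ φ; rw [finrank_top] at this; rw [finrank_bot]; omega)
  replace h5 : φ v = 0 := h5
  obtain ⟨φ', h7, h8⟩ := exists_dual_pair (F := E) (u := u) (x := v) fun c hc =>
    h6 (by simp [hc, show c = 0 by simpa [hc, h4] using h5])
  simpa [h7, hk₀] using (h3 u (k₀ • φ') hu (by simp [h8])).comm (h3 v φ h6 h5) hχ

end ext

end Cfsg.Agent.H26.MX
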