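import Mathlib
import Cfsg.Agent.H26.NM2
import Cfsg.Agent.H26.MXa

/-! Non-maximality of some geometric subgroups: the results. -/

set_option autoImplicit false
set_option maxHeartbeats 400000

namespace Cfsg.Agent.H26

open Matrix Cfsg.Geo Module
open scoped Kronecker commutatorElement

variable {ι κ β : Type} [Fintype ι] [DecidableEq ι] [Fintype κ] [DecidableEq κ]
  [Fintype β] [DecidableEq β] {F : Type*} [Field F] {σ : F →+* F} {G : Matrix ι ι F} {ε : F}
  {Q : (ι → F) → F}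

/-- `A ⊓ X` is not maximal in `X` -/
abbrev Btw {Γ : Type*} [Group Γ] (A X : Subgroup Γ) : Prop := ∃ K : Subgroup Γ, A ⊓ X < K ∧ K < X

section
variable {t k : ℕ} {D : Fin t → Submodule F (ι → F)}

theorem TvG.inf_sl {X : Subgroup (GL ι F)} (h : TvG σ G ε X) : TvG σ G ε (X ⊓ specialLinear ι F) :=
  ⟨h.hf, fun v c hv hc => ⟨h.mem v c hv hc, tv_mem_specialLinear _ _ _⟩, h.coef, h.span⟩

theorem pull_one_one {a : GL (Fin 1) F} (h : ∀ c : F, c ≠ 0 → c * σ c = 1) : pull σ 1 a.val = 1 := by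
  ext i j
  have h1 : a.val 0 0 ≠ 0 := by simpa using (Matrix.isUnits_det_units a).ne_zero
  obtain rfl := Subsingleton.elim i 0
  obtain rfl := Subsingleton.elim j 0
  simp [pull, Matrix.mul_apply, h _ h1]

theorem nm_sl_dec [Fintype F] (hn : 5 ≤ Fintype.card ι) (hD : IsMDecomposition k D)
    (h : (k = 1 ∧ Fintype.card F ≤ 4) ∨ (k = 2 ∧ Fintype.card F = 2)) :
    Btw (decompositionStabilizer D) (specialLinear ι F) := by
  have hq : 1 < Fintype.card F := Fintype.one_lt_card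
  have key : ∀ {σ : F →+* F} {G : Matrix ι ι F} {Y : Subgroup (GL ι F)}, IsUnit G →
      decompositionStabilizer D ≤ isom σ G → Y ≤ isom σ G ⊓ specialLinear ι F →
      ¬ Y ≤ decompositionStabilizer D → Btw (decompositionStabilizer D) (specialLinear ι F) :=
    fun hG h1 h2 h3 => exists_between (inf_le_left.trans h1)
      (fun h => sl_not_le_similarityGroup (by omega) hG (h.trans (isom_le_similarityGroup _ _)))
      (exists_of_not_le (h2.trans inf_le_right) (h2.trans inf_le_left) h3)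
  have hc := fun c : F => FiniteField.pow_card_sub_one_eq_one c
  rcases h with ⟨rfl, h⟩ | ⟨rfl, h⟩
  · interval_cases h1 : Fintype.card F
    · obtain ⟨G, e, P, hG, hB, h2, h3, h4⟩ := exists_isom_of_decomp' hD
        (hf_symm (F := F) transpose_one isUnit_one)
      have h5 : (2 : F) = 0 := by simpa [h1] using FiniteField.cast_card_eq_zero F
      have ht : 5 ≤ t := by have := hD.h26_card; omega
      obtain ⟨t, rfl⟩ := Nat.exists_eq_add_of_le' ht
      let y : Fin 1 × Fin (t + 5) → F := fun p => if p.2.val < 4 then 1 else 0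
      have hv : 𝔟 G (P.val *ᵥ (y ∘ e)) (P.val *ᵥ (y ∘ e)) = 0 := by
        rw [fm_unF, h2.trans Matrix.blockDiagonal_one, fm_one]
        simp [y, Fintype.sum_prod_type, Fin.sum_univ_succ, show ∀ x : ℕ, ¬ x + 1 + 1 + 1 + 1 + 1 < 4 by omega]
        linear_combination 2 * h5
      refine key hG.unit (h4 fun a => pull_one_one fun c h => by simpa using by simp [show c = 1 by simpa using hc c h])
        (Y := Subgroup.zpowers (tvf _ G _ 1 hv)) (Subgroup.zpowers_le.2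
          ⟨hG.tvf_mem hv (by simp; linear_combination h5), tv_mem_specialLinear _ _ _⟩) fun h => ?_
      obtain ⟨a, b, hab⟩ : ∃ a b, P.val *ᵥ (y ∘ e) ∈ D a ⊔ D b := by
        rcases hG.mem_of_tvf_mem hD one_ne_zero hv (h (Subgroup.mem_zpowers _)) with ⟨a, ha⟩ | h
        · exact ⟨a, a, Submodule.mem_sup_left ha⟩
        · exact h.2
      have h6 : ∀ l : Fin (t + 5), l.val < 4 → l = a ∨ l = b := fun l hl => by
        by_contra! h
        simpa [y, hl] using hB.card_supp hab h.1 h.2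
      have := h6 0 (by simp)
      have := h6 1 (by simp)
      have := h6 ⟨2, by omega⟩ (by simp)
      simp only [Fin.ext_iff, Fin.val_zero, Fin.val_one] at *
      omega
    · obtain ⟨G, e, P, hG, hB, h2, h3, h4⟩ := exists_isom_of_decomp' hD
        (hf_symm (F := F) transpose_one isUnit_one)
      have h5 : (2 : F) ≠ 0 := two_ne_zero_iff_odd.2 (by rw [h1]; decide)
      have hQ := hG.qf h5
      exact key hG.unit (h4 fun a => pull_one_one fun c h => by simpa [sq] using hc c h)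
        (le_inf hQ.omega_le fun g hg => mem_specialLinear.2 (det_of_mem_omega hg)) (hQ.not_le_dec hn h3)
    · obtain ⟨σ, h3, h4, h5⟩ := exists_involution (F := F) (q := 2) h1
      obtain ⟨G, e, P, hG, hB, h2, h6, h7⟩ := exists_isom_of_decomp' hD
        (⟨h4, isUnit_one, by simp⟩ : HF (σ : F →+* F) 1 1)
      exact key hG.unit (h7 fun a => pull_one_one fun c h => by
        change c * σ c = 1
        rw [h3, ← hc c h]; ring) le_rfl (su_not_le_dec hG h5 (by omega) h6)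
  · obtain ⟨G, e, P, hG, hB, h2, h3, h4⟩ := exists_isom_of_decomp' hD (hf_J₂ (F := F))
    have h5 : Alt G := alt_of_fm_self fun v => by
      obtain ⟨y, rfl⟩ := exists_crd e P v
      rw [fm_unF, h2]; exact (alt_blockDiagonal fun _ => alt_J₂).fm_self _
    exact key hG.unit (h4 fun a => by
      rw [pull_J₂, (eq_zero_or_one h _).resolve_left (Matrix.isUnits_det_units a).ne_zero, one_smul])
      le_rfl ((tvG_sp h5 hG.unit).inf_sl.not_le_dec hD (by decide))

theorem nm_sp_dec [Fintype F] (hq : Fintype.card F = 2) (hG : Alt G) (hu : IsUnit G)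
    (hn : 5 ≤ Fintype.card ι) (hD : IsNondegenerateMDecomposition (𝔟 G) 2 D) :
    Btw (decompositionStabilizer D) (isom (RingHom.id F) G) := by
  obtain ⟨Q, hQ, h⟩ := exists_qf_of_planes hq hG hu hD
  exact exists_between (inf_le_left.trans h)
    (fun h1 => sp_not_le_orth hG (by omega) hQ (h1.trans isometryGroup_le_quadSim))
    (exists_of_not_le hQ.omega_le omegaGL_le (hQ.not_le_dec hn hD))

theorem nm_su_dec [Fintype F] (hq : Fintype.card F = 4) (hG : HF σ G 1) (hne : ∃ a, σ a ≠ a)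
    (hD : IsNondegenerateMDecomposition (fm σ G) 2 D) :
    Btw (decompositionStabilizer D) (isom σ G ⊓ specialLinear ι F) := by
  obtain ⟨e, P, hB, h1⟩ := exists_blk_one hG hne hD
  have ht0 := hD.decomp.two_le
  have ht : 2 ≤ 2 * t := by omega
  have hD' := hG.nondeg_frame ht finProdFinEquiv.symm (e := e) (P := P) (d := fun _ => 1)
    (by rw [h1, Matrix.diagonal_one])
  refine exists_between (fun g hg => ?_)
    (su_not_le_dec hG hne (by have := hD.decomp.h26_card; omega) hD')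
    (su_refine_strict hG hne hD.decomp hD' (by omega) fun i => ⟨(finProdFinEquiv.symm i).2, fun v hv => ?_⟩)
  · obtain ⟨τ, a, h2, h3⟩ := hB.stab_isom (Gs := 1) (by rw [h1, Matrix.blockDiagonal_one]) hg.1 hg.2.1
    exact mem_stab_frame ht _ h2 (isMono_blk τ fun j => isMono_of_unitary hq hG.inv hne (h3 j))
  · obtain ⟨c, rfl⟩ := mem_frame.1 hv
    refine (hB.mem _ _).2 ⟨Pi.single (finProdFinEquiv.symm i).1 c, ?_⟩
    congr 2
    ext ⟨a, b⟩
    simp only [blkVec, Pi.single_apply, Prod.ext_iff]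
    split_ifs <;> simp_all

end

section ten
variable {a b : ℕ} {H : Subgroup (GL ι F)} {P : GL ι F} {ε₂ : F}

theorem Ten.three [Fintype F] (hq : Fintype.card F = 3) (hG : HF (RingHom.id F) G ε)
    {e : ι ≃ Fin 3 × Fin b} {G₁ : Matrix (Fin 3) (Fin 3) F} {G₂ : Matrix (Fin b) (Fin b) F}
    (h : Ten (RingHom.id F) G H e P G₁ G₂ 1 ε₂) (hb : 0 < b) :
    ∃ D : Fin 3 → Submodule F (ι → F), IsNondegenerateMDecomposition (𝔟 G) b D ∧
      H ⊓ isom (RingHom.id F) G ≤ decompositionStabilizer D := by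
  obtain ⟨c, T, hc, hT⟩ := h.hf₁.exists_pull_eq_smul (two_ne_zero_iff_odd.2 (by rw [hq]; decide))
    (hf_symm transpose_one isUnit_one) (by decide)
  exact ⟨_, (hT ▸ (h.change T).swap).le_dec hG (by decide) hb fun a ha => isMono_of_sim_three hq hc ha⟩

theorem Ten.two [Fintype F] (hq : Fintype.card F = 4) (hG : HF σ G ε) (hne : ∃ a, σ a ≠ a)
    {e : ι ≃ Fin 2 × Fin b} {G₁ : Matrix (Fin 2) (Fin 2) F} {G₂ : Matrix (Fin b) (Fin b) F}
    (h : Ten σ G H e P G₁ G₂ 1 ε₂) (hb : 0 < b) :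
    ∃ D : Fin 2 → Submodule F (ι → F), IsNondegenerateMDecomposition (fm σ G) b D ∧
      H ⊓ isom σ G ≤ decompositionStabilizer D := by
  obtain ⟨T, hT⟩ := h.hf₁.exists_pull_eq_one hne
  have h1 : HF σ (1 : Matrix (Fin 2) (Fin 2) F) 1 := ⟨hG.inv, isUnit_one, by simp⟩
  exact ⟨_, (((one_smul F (1 : Matrix (Fin 2) (Fin 2) F)).symm ▸ hT) ▸ (h.change T).swap).le_dec hG
    le_rfl hb fun a ha => isMono_of_unitary hq hG.inv hne (mem_isom.1
      (h1.sim_le_isom_of_four hq hne (by simpa using ha)))⟩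

theorem TvG.btw_ten {X : Subgroup (GL ι F)} (h : TvG σ G ε X) (hX : X ≤ isom σ G) (ha : 2 ≤ a)
    (hb : 2 ≤ b) {e : ι ≃ Fin a × Fin b} {t k : ℕ} {D : Fin t → Submodule F (ι → F)}
    (hD : IsNondegenerateMDecomposition (fm σ G) k D) (hk : k ≠ 1)
    (h1 : tensorProductSubgroup a b e P ⊓ isom σ G ≤ decompositionStabilizer D)
    (hv : ∀ W, IsNondegenerateOn (fm σ G) W → finrank F W = k → ∃ v ∈ W, v ≠ 0 ∧ fm σ G v v = 0) :
    Btw (tensorProductSubgroup a b e P) X := by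
  have i : Fin t := ⟨0, by have := hD.decomp.two_le; omega⟩
  obtain ⟨v, h2, h3, h4⟩ := hv _ (hD.nondegenerate i) (hD.decomp.finrank_eq i)
  obtain ⟨c, hc, hc1⟩ := h.coef
  refine exists_between ((inf_le_inf_left _ hX).trans h1) (h.not_le_dec hD.decomp hk)
    ⟨_, h.mem v c h4 hc1, tvf_mem_dec hD h2 c h4, fun h5 => ?_⟩
  have h6 := rank_tv_sub_one v (c • G *ᵥ (σ ∘ v)) (by rw [smul_dot_fm, h4, mul_zero])
  exact tv_ne_one _ h3 (h.hf.smul_mulVec_ne h3 hc)
    (eq_one_of_mem_tensorProductSubgroup h5 (h6.trans_lt (by omega)) (h6.trans_lt (by omega)))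

theorem hf_gram_symm {f : (κ → F) → (κ → F) → F} (h : IsSymmetricForm f) :
    HF (RingHom.id F) (gramMatrix f) 1 :=
  hf_symm (by ext i j; exact h.symm _ _)
    (isUnit_of_nondegenerate Function.surjective_id (h.bilinear.h26_eq_fm ▸ h.nondegenerate))

theorem alt_gram {f : (κ → F) → (κ → F) → F} (h : IsSymplecticForm f) :
    Alt (gramMatrix f) ∧ IsUnit (gramMatrix f) :=
  ⟨alt_of_fm_self fun v => h.bilinear.h26_eq_fm ▸ h.alternating v,
    isUnit_of_nondegenerate Function.surjective_id (h.bilinear.h26_eq_fm ▸ h.nondegenerate)⟩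

theorem hf_gram_unitary {q : ℕ} (hσ : (fun x : F => x ^ q) = σ) (hi : ∀ a, σ (σ a) = a)
    {f : (κ → F) → (κ → F) → F} (h : IsUnitaryFormPow q f) : HF σ (gramMatrix f) 1 := by
  obtain ⟨h1, h2⟩ := eq_fm_of_herm σ hi h.add_left h.smul_left fun v w => by
    rw [h.herm]; exact congrFun hσ _
  exact ⟨hi, isUnit_of_nondegenerate (fun a => ⟨σ a, hi a⟩) (h1 ▸ h.nondegenerate), by simpa using h2⟩

theorem nm_sp_ten [Fintype F] (hq : Fintype.card F = 3) (hG : Alt G) (hu : IsUnit G) (ha : 2 ≤ a)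
    {e : ι ≃ Fin a × Fin 3} {f₁ : (Fin a → F) → (Fin a → F) → F}
    {f₂ : (Fin 3 → F) → (Fin 3 → F) → F} (h₁ : IsSymplecticForm f₁) (h₂ : IsSymmetricForm f₂)
    (hT : IsTensorFormStructure id (𝔟 G) f₁ f₂ e P) :
    Btw (tensorProductSubgroup a 3 e P) (isom (RingHom.id F) G) := by
  obtain ⟨c, hc, h⟩ := unF_of_structure (σ := RingHom.id F) hT
  have h3 : Ten (RingHom.id F) G (tensorProductSubgroup a 3 e P) e P _ _ _ _ :=
    ⟨(hf_alt (alt_gram h₁).1 (alt_gram h₁).2).smul hc, hf_gram_symm h₂,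
      h.trans (Matrix.smul_kronecker _ _ _).symm, (tenG_eq e P).ge⟩
  obtain ⟨D, hD, h4⟩ := h3.swap.three hq (hf_alt hG hu) (by omega)
  refine (tvG_sp hG hu).btw_ten le_rfl ha (by decide) hD (by omega) h4 fun W _ hW => ?_
  obtain ⟨v, hv, h0⟩ := W.ne_bot_iff.1 (by rintro rfl; simp at hW; omega)
  exact ⟨v, hv, h0, hG.fm_self v⟩

theorem nm_su_ten [Fintype F] (hq : Fintype.card F = 4) (hG : HF σ G 1) (hne : ∃ a, σ a ≠ a)
    (hσ : (fun x : F => x ^ 2) = σ) (hb : 2 ≤ b)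
    {e : ι ≃ Fin 2 × Fin b} {f₁ : (Fin 2 → F) → (Fin 2 → F) → F}
    {f₂ : (Fin b → F) → (Fin b → F) → F} (h₁ : IsUnitaryFormPow 2 f₁) (h₂ : IsUnitaryFormPow 2 f₂)
    (hT : IsTensorFormStructure σ (fm σ G) f₁ f₂ e P) :
    Btw (tensorProductSubgroup 2 b e P) (isom σ G ⊓ specialLinear ι F) := by
  obtain ⟨c, hc, h⟩ := unF_of_structure hT
  have h3 : Ten σ G (tensorProductSubgroup 2 b e P) e P _ _ _ _ :=
    ⟨hf_gram_unitary hσ hG.inv h₁, (hf_gram_unitary hσ hG.inv h₂).smul hc,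
      h.trans (Matrix.kronecker_smul _ _ _).symm, (tenG_eq e P).ge⟩
  obtain ⟨D, hD, h4⟩ := h3.two hq hG hne (by omega)
  refine (tvG_su hG hne (by have := hD.decomp.h26_card; omega)).btw_ten inf_le_left le_rfl hb hD
    (by omega) h4 fun W h5 hW => ?_
  obtain ⟨φ, G₀, h6, h7⟩ := exists_restrict hG h5 hW
  obtain ⟨v, hv, h0⟩ := (tvG_su h6 hne (by simpa)).span ⊥ (by
    have : Nontrivial (Fin b → F) := by have := Fin.pos_iff_nonempty.1 (show 0 < b by omega); infer_instance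
    exact bot_ne_top)
  exact ⟨φ v, (φ v).2, by simpa using hv, by rw [← h7, h0]⟩

theorem nm_o_ten3 [Fintype F] (hq : Fintype.card F = 3) (hQ : QF Q G) (hb : 3 ≤ b)
    {e : ι ≃ Fin 3 × Fin b} {f₁ : (Fin 3 → F) → (Fin 3 → F) → F}
    {f₂ : (Fin b → F) → (Fin b → F) → F} (h₁ : IsSymmetricForm f₁) (h₂ : IsSymmetricForm f₂)
    (hT : IsTensorFormStructure id (QuadraticMap.polar Q) f₁ f₂ e P) :
    Btw (tensorProductSubgroup 3 b e P) (omegaGL Q) := by
  obtain ⟨c, hc, h⟩ := unF_of_structure (σ := RingHom.id F) (hQ.polar ▸ hT)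
  have h3 : Ten (RingHom.id F) G (tensorProductSubgroup 3 b e P) e P _ _ _ _ :=
    ⟨hf_gram_symm h₁, (hf_gram_symm h₂).smul hc, h.trans (Matrix.kronecker_smul _ _ _).symm,
      (tenG_eq e P).ge⟩
  obtain ⟨D, hD, h4⟩ := h3.three hq hQ.hf (by omega)
  have hn := hD.decomp.h26_card
  obtain ⟨u, h5, h6, h7⟩ := hQ.exists_sing (W := D 0) (by rw [hD.decomp.finrank_eq]; exact hb)
  obtain ⟨w, ⟨h8, h9⟩, h10⟩ := MX.exists_not_mem_of_lt (W := F ∙ u)
    (U := D 0 ⊓ LinearMap.ker (fmB (RingHom.id F) G u)) (by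
      have := MX.finrank_le_inf_ker (D 0) (fmB (RingHom.id F) G u)
      rw [hD.decomp.finrank_eq] at this
      rw [finrank_span_singleton h6]; omega)
  have h11 : 𝔟 G u w = 0 := (hQ.fmB u w).symm.trans h9
  have h12 := hQ.rank_eich h7 h11
  exact exists_between ((inf_le_inf_left _ hQ.omega_le).trans h4) (hQ.not_le_dec (by omega) hD)
    ⟨_, hQ.eich_mem (by omega) h7 h11, hQ.eich_mem_dec hD h7 h11 h5 h8, fun h13 =>
      hQ.eich_ne_one h7 h11 h6 (fun c hc => h10 (Submodule.mem_span_singleton.2 ⟨c, hc.symm⟩))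
        (eq_one_of_mem_tensorProductSubgroup h13 (by omega) (by omega))⟩

theorem mem_normalizer_of_comm {K : Subalgebra F (Matrix ι ι F)} {g : GL ι F}
    (h : ∀ k ∈ K, g.val * k = k * g.val) : g ∈ subalgebraNormalizer K := fun k => by
  change _ ↔ cj g k ∈ K
  refine ⟨fun hk => by rwa [(cj_eq_self_iff g k).2 (h k hk)], fun hk => ?_⟩
  rwa [← (cj g).injective ((cj_eq_self_iff g _).2 (h _ hk))]

theorem exists_field_ten [Fintype F] (hq : Fintype.card F = 2) (hb : 0 < b) (e : ι ≃ Fin 2 × Fin b)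
    (P : GL ι F) : ∃ K : Subalgebra F (Matrix ι ι F), IsFieldSubalgebra 2 K ∧
      tensorProductSubgroup 2 b e P ≤ subalgebraNormalizer K ∧ ∀ g : GL ι F,
        g.val * trA e P (!![0, 1; 1, 1] ⊗ₖ 1) = trA e P (!![0, 1; 1, 1] ⊗ₖ 1) * g.val →
        g ∈ subalgebraNormalizer K := by
  obtain ⟨K, hK, hst, h⟩ := exists_field_two' hq
  have : Nonempty ι := ⟨e.symm (0, ⟨0, hb⟩)⟩
  refine ⟨_, isFieldSubalgebra_map hK ((trA e P).toAlgHom.comp (kronL (Fin 2) (Fin b) F)),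
    (stable_map_kronL e P hst fun h hh => ?_).le_normalizer, fun g hg => mem_normalizer_of_comm ?_⟩
  · obtain ⟨x, y, hxy⟩ := (mem_tensorProductSubgroup e P h).1 hh
    exact ⟨x, trivial, y, hxy⟩
  · rintro _ ⟨x, hx, rfl⟩
    obtain ⟨c, d, rfl⟩ := (h x).1 hx
    simp only [AlgHom.toRingHom_eq_coe, RingHom.coe_coe, map_add, map_smul, map_one, tenL_apply]
    simp only [mul_add, add_mul, mul_smul_comm, smul_mul_assoc, hg, mul_one, one_mul]

theorem sl_not_le_field (hn : 3 ≤ Fintype.card ι) {r : ℕ} {K : Subalgebra F (Matrix ι ι F)}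
    (hK : IsFieldSubalgebra r K) (hr : r ≠ 1) : ¬ specialLinear ι F ≤ subalgebraNormalizer K := by
  obtain ⟨i, j, -, hij, -⟩ := exists_three hn
  exact fun h => tv_not_mem_normalizer_field hK hr hn (single_dot_single hij) (by simp) (by simp)
    (h (tv_mem_specialLinear _ _ _))

theorem nm_sl_ten [Fintype F] (hq : Fintype.card F = 2) (hb : 2 ≤ b) (e : ι ≃ Fin 2 × Fin b)
    (P : GL ι F) : Btw (tensorProductSubgroup 2 b e P) (specialLinear ι F) := by
  obtain ⟨K, hK, h1, h2⟩ := exists_field_ten hq (by omega) e P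
  obtain ⟨b, rfl⟩ := Nat.exists_eq_add_of_le' hb
  let N : Matrix (Fin 2 × Fin (b + 2)) (Fin 2 × Fin (b + 2)) F := !![0, 1; 1, 1] ⊗ₖ single 0 1 1
  have hN : N * N = 0 := by
    rw [← Matrix.mul_kronecker_mul, Matrix.single_mul_single_of_ne _ _ _ _ (by simp),
      Matrix.kronecker_zero]
  let g : GL (Fin 2 × Fin (b + 2)) F := ⟨1 + N, 1 - N, by simp [mul_sub, add_mul, hN],
    by simp [sub_mul, mul_add, hN]⟩
  refine exists_between (inf_le_left.trans h1) (sl_not_le_field (by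
    rw [Fintype.card_congr e]; simp; omega) hK (by decide)) ⟨trG e P g, mem_specialLinear.2
      ((eq_zero_or_one hq _).resolve_left (Matrix.isUnits_det_units _).ne_zero), h2 _ ?_, fun h => ?_⟩
  · rw [coe_trG, ← map_mul, ← map_mul]
    simp only [g, N, add_mul, mul_add, one_mul, mul_one, ← Matrix.mul_kronecker_mul]
  · obtain ⟨x, y, h⟩ := (mem_tensorProductSubgroup e P _).1 h
    replace h := (trA e P).injective h
    have h3 := congrFun (congrFun h (0, 0)) (0, 0)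
    have h4 := congrFun (congrFun h (0, 0)) (1, 0)
    have h5 := congrFun (congrFun h (0, 0)) (1, 1)
    simp [g, N] at h3 h4 h5
    rcases h4 with h4 | h4 <;> simp [h4] at h3 h5

theorem nm_o_ten2 [Fintype F] (hq : Fintype.card F = 2) (hQ : QF Q G) (hb : 3 ≤ b)
    {e : ι ≃ Fin 2 × Fin b} {f₁ : (Fin 2 → F) → (Fin 2 → F) → F}
    {f₂ : (Fin b → F) → (Fin b → F) → F} (h₁ : IsSymplecticForm f₁) (h₂ : IsSymplecticForm f₂)
    (hT : IsTensorFormStructure id (QuadraticMap.polar Q) f₁ f₂ e P)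
    (hp : ∀ (x : Fin 2 → F) (y : Fin b → F), Q (P.val *ᵥ ((fun a => x a.1 * y a.2) ∘ e)) = 0) :
    Btw (tensorProductSubgroup 2 b e P) (omegaGL Q) := by
  obtain ⟨K, hK, h1, h2⟩ := exists_field_ten hq (by omega) e P
  obtain ⟨c, hc, h⟩ := unF_of_structure (σ := RingHom.id F) (hQ.polar ▸ hT)
  obtain rfl := (eq_zero_or_one hq _).resolve_left hc
  obtain ⟨h3, h4⟩ := alt_gram h₁
  obtain ⟨h5, h6⟩ := alt_gram h₂
  have h7 : gramMatrix f₁ = J₂ F := by
    rcases eq_zero_or_one hq (gramMatrix f₁ 0 1) with h7 | h7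
    · rw [h3.eq_smul_J₂, h7, zero_smul] at h4; simp at h4
    · rw [h3.eq_smul_J₂, h7, one_smul]
  rw [h7, one_smul] at h
  generalize gramMatrix f₂ = G₂ at h h5 h6
  have hn : Fintype.card ι = 2 * b := by simpa using Fintype.card_congr e
  have h0 : (2 : F) = 0 := by simpa [hq] using FiniteField.cast_card_eq_zero F
  let p : (Fin 2 → F) →ₗ[F] (Fin b → F) →ₗ[F] ι → F := LinearMap.mk₂ F
    (fun x y => P.val *ᵥ ((fun a => x a.1 * y a.2) ∘ e))
    (fun _ _ _ => by rw [← Matrix.mulVec_add]; congr 1; ext; simp [add_mul])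
    (fun _ _ _ => by rw [← Matrix.mulVec_smul]; congr 1; ext; simp [mul_assoc])
    (fun _ _ _ => by rw [← Matrix.mulVec_add]; congr 1; ext; simp [mul_add])
    (fun _ _ _ => by rw [← Matrix.mulVec_smul]; congr 1; ext; simp [mul_left_comm])
  have hp1 : ∀ x y, Q (p x y) = 0 := hp
  have hp2 : ∀ x y x' y', 𝔟 G (p x y) (p x' y') = (x 0 * x' 1 - x 1 * x' 0) * 𝔟 G₂ y y' :=
    fun x y x' y' => by
      refine (fm_unF _ e P G _ _).trans ?_
      rw [h, fm_kronecker]; simp [fm_eq_sum, J₂, sub_eq_add_neg]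
  have hp3 : ∀ (A : Matrix (Fin 2) (Fin 2) F) (B : Matrix (Fin b) (Fin b) F) x y,
      trA e P (A ⊗ₖ B) *ᵥ p x y = p (A *ᵥ x) (B *ᵥ y) := fun A B x y => by
    refine (trA_mulVec e P _ _).trans ?_
    change _ = P.val *ᵥ _
    congr 2; ext a
    simp only [Matrix.mulVec, dotProduct, Fintype.sum_prod_type, Finset.sum_mul_sum, Matrix.kroneckerMap_apply]
    exact Finset.sum_congr rfl fun _ _ => Finset.sum_congr rfl fun _ _ => by ring
  have hf := hf_alt h5 h6
  obtain ⟨y₂, hy₂⟩ : ∃ y : Fin b → F, y ≠ 0 := by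
    have := Fin.pos_iff_nonempty.1 (show 0 < b by omega); exact exists_ne 0
  obtain ⟨y₁, ⟨-, h8⟩, h9⟩ := MX.exists_not_mem_of_lt (W := F ∙ y₂)
    (U := ⊤ ⊓ LinearMap.ker (fmB (RingHom.id F) G₂ y₂)) (by
      have := MX.finrank_le_inf_ker ⊤ (fmB (RingHom.id F) G₂ y₂)
      rw [finrank_top, finrank_fun, Fintype.card_fin] at this
      rw [finrank_span_singleton hy₂]; omega)
  replace h8 : 𝔟 G₂ y₁ y₂ = 0 := h8
  have h8' := hf.refl h8
  obtain ⟨y, h10, h11⟩ := hf.exists_perp h9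
  replace h10 := h10 y₂ (Submodule.mem_span_singleton_self _)
  let ω := trA e P (!![0, 1; 1, 1] ⊗ₖ (1 : Matrix (Fin b) (Fin b) F))
  let v := p ![1, 0] y₁ + p ![0, 1] y₂
  have hωv : ω *ᵥ v = p ![0, 1] y₁ + p ![1, 1] y₂ := by
    rw [Matrix.mulVec_add, hp3, hp3, Matrix.one_mulVec, Matrix.one_mulVec]
    congr 3 <;> ext i <;> fin_cases i <;> simp
  have hω : ∀ x, ω *ᵥ ω *ᵥ x = ω *ᵥ x + x := fun x => by
    rw [Matrix.mulVec_mulVec, ← map_mul, ← Matrix.mul_kronecker_mul, mul_one,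
      show (!![0, 1; 1, 1] * !![0, 1; 1, 1] : Matrix (Fin 2) (Fin 2) F) = !![0, 1; 1, 1] + 1 by
        ext i j; fin_cases i <;> fin_cases j <;> simp [one_add_one_eq_two, h0],
      Matrix.add_kronecker, Matrix.one_kronecker_one, map_add, map_one, Matrix.add_mulVec,
      Matrix.one_mulVec]
  have hω' : ∀ x y, 𝔟 G (ω *ᵥ x) (ω *ᵥ y) = 𝔟 G x y := fun x y => by
    rw [fm_pull]; congr 1
    apply unF_injective _ e P
    rw [← pull_unF, h, pull_kronecker, pull_J₂]
    simp [pull, neg_eq_of_two h0]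
  have hv : Q v = 0 := by simp [v, hQ.add, hp1, hp2, h8]
  have hv' : 𝔟 G v (ω *ᵥ v) = 0 := by
    simp [hωv, v, fm_add_left, fm_add_right, hp2, h8, h8', h5.fm_self]
  have hv2 : Q (ω *ᵥ v) = 0 := by simp [hωv, hQ.add, hp1, hp2, h8]
  refine exists_between (inf_le_left.trans h1) (hQ.not_le_field (by omega) hK (by decide))
    ⟨_, hQ.eich_mem (by omega) hv hv', h2 _ (matrix_ext_mulVec fun x => ?_), fun h12 => ?_⟩
  · have h12 : 𝔟 G v (ω *ᵥ x) = 𝔟 G v x + 𝔟 G (ω *ᵥ v) x := by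
      have := hω' (ω *ᵥ v + v) x
      rw [Matrix.mulVec_add, hω, fm_add_left _ _ (ω *ᵥ v + v), fm_add_left _ _ (ω *ᵥ v) v,
        fm_add_left _ _ (ω *ᵥ v) v] at this
      linear_combination this - 𝔟 G (ω *ᵥ v) (ω *ᵥ x) * h0
    change (_ * ω) *ᵥ x = (ω * _) *ᵥ x
    clear_value v ω
    rw [← Matrix.mulVec_mulVec, ← Matrix.mulVec_mulVec, hQ.eich_mulVec, hQ.eich_mulVec, hv2, hω', h12]
    simp only [Matrix.mulVec_sub, Matrix.mulVec_add, Matrix.mulVec_smul, hω]
    match_scalars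
    · rfl
    · linear_combination 𝔟 G v x * h0
    · linear_combination -𝔟 G (ω *ᵥ v) x * h0
  · obtain ⟨A, B, h13⟩ := (mem_tensorProductSubgroup e P _).1 h12
    obtain ⟨d, hd⟩ := scalar_left_of_kronecker_rank (a := A.val) (b := B.val) (by
      rw [← rank_kronecker_trA e P, ← h13, Fintype.card_fin]; exact (hQ.rank_eich hv hv').trans_lt hb)
    obtain ⟨z, hz⟩ := exists_fm_ne_zero_left (σ := RingHom.id F) h6 hy₂
    have h14 := congrArg (fun x => 𝔟 G (p ![1, 0] z) x) (hQ.eich_mulVec hv hv' (p ![1, 0] y))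
    rw [h13, hp3, hd] at h14
    simp [hωv, v, fm_add_left, fm_add_right, fm_sub_right, fm_smul_right, hp2, h10, h11,
      Matrix.smul_mulVec, fm_neg_right] at h14
    exact hz h14

end ten

section orth
variable {t k : ℕ} {D : Fin t → Submodule F (ι → F)}

theorem QF.exists_omega_fix [Finite F] (h : QF Q G) (hn : Fintype.card ι ≠ 4) {u x : ι → F}
    {Z : Submodule F (ι → F)} (hu : Q u = 0) (hux : 𝔟 G u x = 0) (hZ : ∀ z ∈ Z, 𝔟 G u z = 0)
    (hx : x ∉ Z ⊔ F ∙ u) : ∃ g ∈ omegaGL Q, (∀ z ∈ Z, g.val *ᵥ z = z) ∧ g.val *ᵥ x = x + u := by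
  obtain ⟨w, h1, h2⟩ := h.hf.exists_perp hx
  exact ⟨_, h.eich_mem hn hu (h1 u (Submodule.mem_sup_right (Submodule.mem_span_singleton_self u))),
    fun z hz => by simp [h.eich_mulVec, hZ z hz, h.comm w z, h1 z (Submodule.mem_sup_left hz)],
    by simp [h.eich_mulVec, hux, h.comm w x, h2]⟩

theorem HF.not_mem_sup_prp (h : HF σ G ε) {W U : Submodule F (ι → F)}
    (hW : IsNondegenerateOn (fm σ G) W) (hU : U ≤ W) {x : ι → F} (hx : x ∈ W) (hxU : x ∉ U) :
    x ∉ U ⊔ prp σ G W := fun h1 => by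
  obtain ⟨a, ha, b, hb, rfl⟩ := Submodule.mem_sup.1 h1
  have : b ∈ W ⊓ prp σ G W := ⟨(W.add_mem_iff_right (hU ha)).1 hx, hb⟩
  rw [h.nondeg_iff.1 hW, Submodule.mem_bot] at this
  exact hxU (by simpa [this] using ha)

theorem nm_o_plane [Fintype F] (h : QF Q G) (hq : Fintype.card F ≤ 3) (hn : 5 ≤ Fintype.card ι)
    {W : Submodule F (ι → F)} (hW : IsNondegenerateOn (𝔟 G) W) (h2 : finrank F W = 2)
    (hp : IsPlusTypeOn Q W) : Btw (subspaceStabilizer W) (omegaGL Q) := by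
  obtain ⟨v, h3, h4, h5⟩ := h.exists_line_of_plus hq hW h2 hp
  have hv : v ≠ 0 := by rintro rfl; simp [h.zero] at h4
  obtain ⟨u, h6, h7, h8⟩ := h.exists_sing (W := prp (RingHom.id F) G W) (by
    have := h.hf.finrank_prp W; omega)
  obtain ⟨x, h9, h10⟩ := MX.exists_not_mem_of_lt (W := F ∙ v) (U := W) (by
    rw [finrank_span_singleton hv]; omega)
  have h11 := (Submodule.span_singleton_le_iff_mem _ _).2 h3
  obtain ⟨g, hg, h12, h13⟩ := h.exists_omega_fix (by omega) h8 (mem_prp.1 h6 x h9)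
    (fun z hz => mem_prp.1 h6 z (h11 hz)) fun h12 => h.hf.not_mem_sup_prp hW h11 h9 h10
      (sup_le_sup_left ((Submodule.span_singleton_le_iff_mem _ _).2 h6) _ h12)
  refine exists_between (B := subspaceStabilizer (F ∙ v)) (fun a ha => mem_stab_of_le fun y hy => ?_)
    (h.not_le_stab hn (by simpa) fun h14 => ?_)
    ⟨g, hg, mem_stab_of_le fun z hz => by rwa [h12 z hz], fun h14 => h7 ?_⟩
  · obtain ⟨c, rfl⟩ := Submodule.mem_span_singleton.1 hy
    rw [Matrix.mulVec_smul]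
    exact Submodule.smul_mem _ _ (h5 _ ((mem_subspaceStabilizer.1 ha.1 v).1 h3)
      ((mem_isometryGroup.1 (omegaGL_le ha.2) v).trans h4))
  · exact h10 (h14 ▸ trivial)
  · have h15 := (mem_subspaceStabilizer.1 h14 x).1 h9
    rw [h13, W.add_mem_iff_right h9] at h15
    exact (Submodule.mem_bot F).1 (h.hf.nondeg_iff.1 hW ▸ ⟨h15, h6⟩)

theorem nm_o_ts [Finite F] (h : QF Q G) (hn : 5 ≤ Fintype.card ι) (hp : IsPlusTypeOn Q ⊤)
    {W : Submodule F (ι → F)} (hW : IsTotallySingularQuad Q W)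
    (hm : 2 * finrank F W + 2 = Fintype.card ι) : Btw (subspaceStabilizer W) (omegaGL Q) := by
  obtain ⟨U, h1, h2, h3, h4⟩ := h.exists_max_of_pred (by omega) hp hW hm
  obtain ⟨u, h5, h6⟩ := SetLike.exists_of_lt h1
  obtain ⟨x, h7, h8⟩ := W.ne_bot_iff.1 (by rintro rfl; simp at hm; omega)
  obtain ⟨w, h9, h10⟩ := h.hf.exists_perp_one (u := u) (x := x) fun c hc => h6 (by
    have hc0 : c ≠ 0 := by rintro rfl; simp [h8] at hc
    rwa [hc, W.smul_mem_iff hc0] at h7)
  have h11 := h.fm_eq_zero h2 u h5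
  refine exists_between h4 (h.not_le_stab hn (ne_bot_of_gt h1) (by
    rintro rfl; rw [finrank_top, finrank_fun] at h3; omega))
    ⟨_, h.eich_mem (by omega) (h2 u h5) h9, mem_stab_of_le fun y hy => ?_, fun h12 => h6 ?_⟩
  · simpa [h.eich_mulVec, h11 y hy] using add_mem hy (U.smul_mem _ h5)
  · simpa [h.eich_mulVec, h11 x (h1.le h7), h.comm w x, h10, W.add_mem_iff_right h7] using
      (mem_subspaceStabilizer.1 h12 x).1 h7

theorem nm_o_pair [Finite F] (h : QF Q G) (hn : 5 ≤ Fintype.card ι) {D : Fin 2 → Submodule F (ι → F)}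
    (hD : IsMDecomposition k D) (h1 : ∀ i, IsTotallySingularQuad Q (D i)) (ho : Odd k) :
    Btw (decompositionStabilizer D) (omegaGL Q) := by
  have hk := hD.h26_card
  obtain ⟨w, h2, h3⟩ := hD.h26_exists_ne_zero 0
  obtain ⟨u, h4, h5⟩ := MX.exists_not_mem_of_lt (W := F ∙ w) (U := D 0) (by
    rw [finrank_span_singleton h3, hD.finrank_eq]; omega)
  have hu : u ≠ 0 := by rintro rfl; simp at h5
  obtain ⟨y, h6, h7⟩ := h.hf.exists_perp_one (u := u) (x := w) fun c hc => h5 (by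
    have hc0 : c ≠ 0 := by rintro rfl; simp [h3] at hc
    exact Submodule.mem_span_singleton.2 ⟨c⁻¹, by simp [hc, hc0]⟩)
  obtain ⟨a, ha, b, hb, rfl⟩ := Submodule.mem_sup.1 (show y ∈ D 0 ⊔ D 1 by
    refine (show ⊤ ≤ D 0 ⊔ D 1 from hD.iSup_eq_top ▸ iSup_le fun i => ?_) trivial
    fin_cases i
    exacts [le_sup_left, le_sup_right])
  have h8 := h.fm_eq_zero (h1 0)
  rw [fm_add_right, h8 u h4 a ha, zero_add] at h6
  rw [fm_add_right, h8 w h2 a ha, zero_add] at h7
  refine exists_between (h.pair_le hD h1 ho) (h.not_le_stab hn (fun h9 => h3 (by simpa [h9] using h2))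
    (fun h9 => by have := hD.finrank_eq 0; rw [h9, finrank_top, finrank_fun] at this; omega))
    ⟨_, h.eich_mem (by omega) (h1 0 u h4) (h8 u h4 w h2), mem_stab_of_le fun y hy => ?_, fun h9 => ?_⟩
  · simpa [h.eich_mulVec, h8 u h4 y hy, h8 w h2 y hy] using hy
  · obtain ⟨j, hj⟩ := mulVec_mem_of_mem_decompositionStabilizer h9 hb
    simp only [h.eich_mulVec, h6, h7, one_smul, zero_smul, mul_zero, sub_zero] at hj
    exact not_mem_of_decomp hD (by decide) hb h4 (by rintro rfl; simp [fm] at h7) hu j hj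

theorem nm_o_refine [Finite F] (h : QF Q G) (hn : 5 ≤ Fintype.card ι) (hD : IsMDecomposition k D)
    {s k' : ℕ} (hs : 2 ≤ s) (h1 : ∃ D' : Fin (s * t) → Submodule F (ι → F),
      IsOrthogonalMDecomposition Q k' D' ∧ (∀ i, ∃ j, D' i ≤ D j) ∧
      decompositionStabilizer D ⊓ isometryGroup F Q ≤ decompositionStabilizer D') :
    Btw (decompositionStabilizer D) (omegaGL Q) := by
  obtain ⟨D', h1, h2, h3⟩ := h1
  exact exists_between ((inf_le_inf_left _ omegaGL_le).trans h3) (h.not_le_dec hn (h.nondegDec h1))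
    (h.refine_strict hD h1 (by have := hD.two_le; nlinarith) h2)

theorem nm_o_planes [Fintype F] (h : QF Q G) (hq : Fintype.card F ≤ 3) (hn : 10 ≤ Fintype.card ι)
    (hD : IsNondegenerateMDecomposition (𝔟 G) 2 D) (hp : ∀ i, IsPlusTypeOn Q (D i)) :
    Btw (decompositionStabilizer D) (omegaGL Q) := by
  choose v h2 h3 h4 using fun i => h.exists_line_of_plus hq (hD.nondegenerate i) (hD.decomp.finrank_eq i) (hp i)
  have ht := hD.decomp.h26_card
  have i : Fin t := ⟨0, by omega⟩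
  have hv : v i ≠ 0 := fun h0 => by simpa [h0, h.zero] using h3 i
  have h5 := finrank_range_le_card (R := F) v
  rw [Set.finrank, Fintype.card_fin] at h5
  obtain ⟨u, h6, h7, h8⟩ := h.exists_sing
    (W := prp (RingHom.id F) G (Submodule.span F (Set.range v) ⊔ D i)) (by
      have := h.hf.finrank_prp (Submodule.span F (Set.range v) ⊔ D i)
      have := Submodule.finrank_add_le_finrank_add_finrank (Submodule.span F (Set.range v)) (D i)
      have := hD.decomp.finrank_eq i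
      omega)
  obtain ⟨x, h9, h10⟩ := MX.exists_not_mem_of_lt (W := F ∙ v i) (U := D i) (by
    rw [finrank_span_singleton hv, hD.decomp.finrank_eq]; omega)
  have h11 : ∀ y ∈ D i, 𝔟 G u y = 0 := fun y hy => mem_prp.1 h6 y (Submodule.mem_sup_right hy)
  obtain ⟨g, hg, h12, h13⟩ := h.exists_omega_fix (by omega) h8 (h11 x h9)
    (fun z hz => mem_prp.1 h6 z (Submodule.mem_sup_left hz)) fun h12 =>
      h.hf.not_mem_sup_prp (hD.nondegenerate i) ((Submodule.span_singleton_le_iff_mem _ _).2 (h2 i))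
        h9 h10 ((sup_le (Submodule.span_le.2 (by
          rintro _ ⟨j, rfl⟩
          by_cases hj : j = i
          · exact Submodule.mem_sup_left (hj ▸ Submodule.mem_span_singleton_self _)
          · exact Submodule.mem_sup_right (mem_prp.2 (hD.orthogonal j i hj _ (h2 j)))))
          ((Submodule.span_singleton_le_iff_mem _ _).2 (Submodule.mem_sup_right (mem_prp.2 h11))) :
            _ ≤ _) h12)
  refine exists_between (B := subspaceStabilizer (Submodule.span F (Set.range v)))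
    (le_subspaceStabilizer fun a ha w hw => ?_) (h.not_le_stab (by omega) (fun h14 => hv ?_) fun h14 => ?_)
    ⟨g, hg, mem_stab_of_le fun z hz => by rwa [h12 z hz], not_mem_dec_of_perp h.hf hD h9
      (by rintro rfl; simp at h10) h7 (fun y hy => h.hf.refl (h11 y hy)) h13⟩
  · refine (Submodule.span_le.2 ?_ : _ ≤ Submodule.comap (Matrix.toLin' a.val)
      (Submodule.span F (Set.range v))) hw
    rintro _ ⟨i, rfl⟩
    obtain ⟨j, hj⟩ := mulVec_mem_of_mem_decompositionStabilizer ha.1 (h2 i)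
    exact Submodule.span_mono (by simp) (h4 j _ hj ((mem_isometryGroup.1 (omegaGL_le ha.2) _).trans (h3 i)))
  · exact Submodule.span_eq_bot.1 h14 _ ⟨_, rfl⟩
  · rw [h14, finrank_top, finrank_fun] at h5; omega

theorem QF.eich_mem_subfield [Finite F] [Nonempty ι] (h : QF Q G) {F₀ : Subfield F} {P : GL ι F}
    (h1 : ∀ i j, pull (RingHom.id F) G P i j ∈ F₀) {u w : ι → F} (h2 : ∀ i, u i ∈ F₀)
    (h3 : ∀ i, w i ∈ F₀) (hu : Q (P.val *ᵥ u) = 0) (huw : 𝔟 G (P.val *ᵥ u) (P.val *ᵥ w) = 0)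
    (hw : Q (P.val *ᵥ w) ∈ F₀) : h.eich hu huw ∈ subfieldSubgroup F₀ P := by
  refine (mem_subfieldSubgroup_iff _ _ _).2 ⟨1, one_ne_zero, fun i j => ?_⟩
  have h4 : ∀ i, (Pi.single j 1 : ι → F) i ∈ F₀ := fun i => by
    rw [Pi.single_apply]; split_ifs <;> simp
  have h5 := congrFun (cj_mulVec P⁻¹ (h.eich hu huw).val (P.val *ᵥ Pi.single j 1)) i
  rw [inv_mulVec_mulVec, h.eich_mulVec] at h5
  simp only [Matrix.mulVec_sub, Matrix.mulVec_add, Matrix.mulVec_smul, inv_mulVec_mulVec, fm_pull] at h5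
  rw [Matrix.mulVec_single_one, Matrix.col_apply] at h5
  rw [one_mul, h5]
  exact sub_mem (sub_mem (add_mem (h4 i) (mul_mem (fm_mem_subfield h1 h3 h4) (h2 i)))
    (mul_mem (fm_mem_subfield h1 h2 h4) (h3 i))) (mul_mem (mul_mem hw (fm_mem_subfield h1 h2 h4)) (h2 i))

theorem nm_o_four [Fintype F] (h : QF Q G) (hq : Fintype.card F = 4) (hn : 5 ≤ Fintype.card ι)
    (hD : IsNondegenerateMDecomposition (𝔟 G) 2 D) (hp : ∀ i, IsPlusTypeOn Q (D i)) :
    Btw (decompositionStabilizer D) (omegaGL Q) := by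
  have : Nonempty ι := Fintype.card_pos_iff.1 (by omega)
  have h2 : (2 : F) = 0 := by_contra fun h2 => absurd (hq ▸ two_ne_zero_iff_odd.1 h2) (by decide)
  obtain ⟨w, hw0, hw1⟩ := exists_sq_ne_one hq.ge
  have hw := sq_eq_of_card hw0 (k := 3) hq
  obtain ⟨e, P, hB⟩ := h.exists_oblk_even hD even_two (qf_norm h2) fun j => iff_of_true (hp j)
    (((qf_norm h2).plus_two_iff (by simp)).2 ⟨![w, 1], by simp, by simp; grind⟩)
  have h0 : ∀ a ∈ isometryGroup F fun x : Fin 2 → F => x 0 ^ 2 + x 0 * x 1 + x 1 ^ 2, ∀ i j,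
      a.val i j ∈ (⊥ : Subfield F) := fun a ha i j => by
    have h3 := mem_isometryGroup.1 ha (Pi.single j 1)
    have h4 : (Pi.single j 1 : Fin 2 → F) 0 ^ 2 + (Pi.single j 1 : Fin 2 → F) 0 *
        (Pi.single j 1 : Fin 2 → F) 1 + (Pi.single j 1 : Fin 2 → F) 1 ^ 2 = 1 := by fin_cases j <;> simp
    rw [h4, Matrix.mulVec_single_one] at h3
    have h5 := fun i (hi : a.val i j ≠ 0) => sq_eq_of_card hi (k := 3) hq
    have h6 : ∀ x y : F, (x ≠ 0 → x ^ 3 = 1) → (y ≠ 0 → y ^ 3 = 1) → x ^ 2 + x * y + y ^ 2 = 1 →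
        x ∈ (⊥ : Subfield F) := fun x y hx hy hxy => by
      by_cases h7 : x = 0
      · simp [h7]
      obtain rfl : x = 1 := by by_cases h8 : y = 0 <;> grind
      simp
    fin_cases i
    · exact h6 _ _ (h5 0) (h5 1) h3
    · exact h6 (a.val 1 j) _ (h5 1) (h5 0) (by simp only [Matrix.col_apply] at h3; linear_combination h3)
  have ht := hD.decomp.h26_card
  obtain ⟨t, rfl⟩ := Nat.exists_eq_add_of_le' (show 3 ≤ t by omega)
  have h3 : P.val *ᵥ ((blkVec 1 ![1, 0] + blkVec 2 ![1, 0]) ∘ e) =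
      blkL e P 1 ![1, 0] + blkL e P 2 ![1, 0] := (Matrix.mulVec_add _ _ _)
  have h4 := fm_blkL hB.eq
  have h20 : 2 % (t + 3) = 2 := Nat.mod_eq_of_lt (by omega)
  have hu : Q (P.val *ᵥ ((blkVec 1 ![1, 0] + blkVec 2 ![1, 0]) ∘ e)) = 0 := by
    rw [h3, h.add, hB.val, hB.val, h4]; simp [one_add_one_eq_two, h2, Fin.ext_iff, h20]
  have huw : 𝔟 G (P.val *ᵥ ((blkVec 1 ![1, 0] + blkVec 2 ![1, 0]) ∘ e)) (blkL e P 0 ![0, 1]) = 0 := by
    rw [h3, fm_add_left, h4, h4]; simp [Fin.ext_iff, h20]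
  have h5 : ∀ (j : Fin (t + 3)) (x : Fin 2 → F), (∀ a, x a ∈ (⊥ : Subfield F)) → ∀ p, blkVec j x p ∈ (⊥ : Subfield F) :=
    fun j x hx p => by unfold blkVec; split_ifs <;> simp [hx]
  refine exists_between (B := subfieldSubgroup ⊥ P) (fun g hg =>
    (mem_subfieldSubgroup_iff _ _ _).2 ⟨1, one_ne_zero, fun i j => ?_⟩)
    (h.not_le_sub hn (subfield_bot_ne_top (by rw [hq]; decide)) P)
    ⟨_, h.eich_mem (by omega) hu huw, h.eich_mem_subfield (fun i j => ?_)
      (fun i => add_mem (h5 _ _ (by simp [Fin.forall_fin_succ]) _) (h5 _ _ (by simp [Fin.forall_fin_succ]) _))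
      (fun i => h5 _ _ (by simp [Fin.forall_fin_succ]) _) hu huw (by erw [hB.val]; simp),
      not_mem_dec_of_perp h.hf hD (i := 0) (x := blkL e P 0 ![1, 0]) (hB.blk.range 0 ▸ ⟨_, rfl⟩)
        (fun h6 => by simpa [h6, h.zero] using hB.val 0 ![1, 0])
        (u := blkL e P 1 ![1, 0] + blkL e P 2 ![1, 0]) (fun h6 => ?_) ?_ ?_⟩
  · obtain ⟨τ, a, h6, -, h7⟩ := hB.stab hg.1 (omegaGL_le hg.2)
    rw [h6, trA_apply, cj_inv_cj, one_mul, Matrix.submatrix_apply, blk_apply]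
    split_ifs
    · exact h0 _ (mem_isometryGroup.2 (h7 _)) _ _
    · simp
  · have h6 := congrFun (congrFun hB.eq (e i)) (e j)
    simp only [unF, Matrix.submatrix_apply, Equiv.symm_apply_apply, Matrix.blockDiagonal_apply] at h6
    rw [h6]
    split_ifs
    · generalize (e i).1 = a; generalize (e j).1 = b; fin_cases a <;> fin_cases b <;> simp
    · simp
  · have := congrArg (𝔟 G (blkL e P 1 ![0, 1])) h6
    rw [fm_add_right, h4, h4] at this
    simp [Fin.ext_iff, fm_eq_sum, h20] at this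
  · rw [← hB.blk.range]
    rintro _ ⟨y, rfl⟩
    rw [fm_add_right, h4, h4]; simp [Fin.ext_iff, h20]
  · rw [h.eich_mulVec, h3, fm_add_left, h4, h4, h4]; simp [Fin.ext_iff, fm_eq_sum, h20]

theorem nm_o_dec [Fintype F] (h : QF Q G) (hn : 10 ≤ Fintype.card ι)
    (hD : IsOrthogonalMDecomposition Q k D)
    (hc : (k = 2 ∧ (Fintype.card F = 3 ∨ ((∀ i, IsPlusTypeOn Q (D i)) ∧ (Fintype.card F = 2 ∨
      Fintype.card F = 4 ∨ Fintype.card F = 5)))) ∨ (k = 3 ∧ Fintype.card F = 3) ∨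
      (k = 4 ∧ Fintype.card F = 2 ∧ ∀ i, IsPlusTypeOn Q (D i))) :
    Btw (decompositionStabilizer D) (omegaGL Q) := by
  have hD' := h.nondegDec hD
  rcases hc with ⟨rfl, hq | ⟨hp, hq | hq | hq⟩⟩ | ⟨rfl, hq⟩ | ⟨rfl, hq, hp⟩
  · by_cases hp : ∀ i, IsPlusTypeOn Q (D i)
    · exact nm_o_planes h hq.le hn hD' hp
    · push Not at hp
      obtain ⟨j, hj⟩ := hp
      exact nm_o_refine h (by omega) hD'.decomp le_rfl (h.exists_frame' hD
        (.inr (.inl ⟨hq, rfl, fun i hi => hj (AreIsometricFor.h26_plus (hD.isometric i j) hi)⟩)))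
  · exact nm_o_planes h (by omega) hn hD' hp
  · exact nm_o_four h hq (by omega) hD' hp
  · exact nm_o_refine h (by omega) hD'.decomp le_rfl (h.exists_frame' hD (.inr (.inr ⟨hq, rfl, hp⟩)))
  · exact nm_o_refine h (by omega) hD'.decomp (by decide) (h.exists_frame' hD (.inl ⟨hq, rfl⟩))
  · exact nm_o_refine h (by omega) hD'.decomp le_rfl (h.exists_planes' hq hD' hp)

end orth

end Cfsg.Agent.H26
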