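import Mathlib
import Cfsg.Agent.H26.NM3

/-! Semilinear involutions and coordinates over an embedded field. -/

set_option autoImplicit false
set_option maxHeartbeats 400000

namespace Cfsg.Agent.H26

open Matrix Cfsg.Geo Module

variable {ι : Type} [Fintype ι] [DecidableEq ι] {F : Type*} [Field F] {σ : F →+* F}
  {G : Matrix ι ι F} {ε : F}

theorem exists_GL_cols {S : Set (ι → F)} (hS : Submodule.span F S = ⊤) :
    ∃ P : GL ι F, ∀ j, P.val *ᵥ Pi.single j 1 ∈ S := by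
  obtain ⟨b, hb, h1, h2⟩ := exists_linearIndependent F S
  let B := Basis.mk h2 (by rw [Subtype.range_coe, h1, hS])
  let e := (Pi.basisFun F ι).indexEquiv B
  let T := (Pi.basisFun F ι).equiv B e
  refine ⟨(Matrix.GeneralLinearGroup.toLin (n := ι) (R := F)).symm
    (LinearMap.GeneralLinearGroup.ofLinearEquiv T), fun j => ?_⟩
  have : T (Pi.single j 1) ∈ S := by
    rw [← Pi.basisFun_apply, Basis.equiv_apply, Basis.mk_apply]; exact hb (e j).2
  convert this
  exact LinearMap.toMatrix'_mulVec T.toLinearMap _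

theorem exists_semi_basis (hσ : ∀ a, σ (σ a) = a) (hne : ∃ a, σ a ≠ a) {θ : (ι → F) →+ (ι → F)}
    (h1 : ∀ c x, θ (c • x) = σ c • θ x) (h2 : ∀ x, θ (θ x) = x) :
    ∃ P : GL ι F, ∀ x, θ (P.val *ᵥ x) = P.val *ᵥ (σ ∘ x) := by
  obtain ⟨a, ha⟩ := hne
  obtain ⟨P, hP⟩ := exists_GL_cols (S := {x | θ x = x}) (eq_top_iff.2 fun x _ => by
    have h3 : x = (σ a - a)⁻¹ • (σ a • (x + θ x) - (a • x + θ (a • x))) := by
      rw [h1, eq_inv_smul_iff₀ (sub_ne_zero.2 ha)]; module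
    rw [h3]
    refine Submodule.smul_mem _ _ (sub_mem (Submodule.smul_mem _ _ ?_) ?_) <;>
      exact Submodule.subset_span (by simp [h2, add_comm]))
  refine ⟨P, fun x => ?_⟩
  have h3 : ∀ y : ι → F, P.val *ᵥ y = ∑ j, y j • P.val *ᵥ Pi.single j 1 := fun y => by
    simp only [← Matrix.mulVec_smul, ← Matrix.mulVec_sum]
    rw [← pi_eq_sum_univ' y]
  rw [h3 x, h3 (σ ∘ x), map_sum]
  exact Finset.sum_congr rfl fun j _ => by rw [h1, hP j]; rfl

theorem semi_map {θ : (ι → F) →+ (ι → F)} {P : GL ι F} (hσ : Function.Surjective σ)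
    (hP : ∀ x, θ (P.val *ᵥ x) = P.val *ᵥ (σ ∘ x)) {g b : Matrix ι ι F}
    (h : ∀ x, θ (g *ᵥ x) = b *ᵥ g *ᵥ θ x) : (cj P⁻¹ g).map σ = cj P⁻¹ (b * g) := by
  refine matrix_ext_mulVec fun y => ?_
  obtain ⟨x, rfl⟩ := hσ.comp_left y
  have h1 := h (P.val *ᵥ x)
  rw [← mulVec_inv_mulVec P (g *ᵥ _), hP, hP] at h1
  have h2 := cj_mulVec P⁻¹ g (P.val *ᵥ x)
  have h3 := cj_mulVec P⁻¹ (b * g) (P.val *ᵥ (σ ∘ x))
  rw [inv_mulVec_mulVec] at h2 h3
  rw [← comp_mulVec, h2, h3, ← Matrix.mulVec_mulVec, ← h1, inv_mulVec_mulVec]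

theorem semi_det {θ : (ι → F) →+ (ι → F)} {P : GL ι F} (hσ : Function.Surjective σ)
    (hP : ∀ x, θ (P.val *ᵥ x) = P.val *ᵥ (σ ∘ x)) {g b : Matrix ι ι F}
    (h : ∀ x, θ (g *ᵥ x) = b *ᵥ g *ᵥ θ x) : σ g.det = b.det * g.det := by
  have h1 := congrArg Matrix.det (semi_map hσ hP h)
  have h2 : ∀ x : Matrix ι ι F, (cj P⁻¹ x).det = x.det := fun x => by
    rw [cj_apply]; exact Matrix.det_units_conj _ _
  rw [h2, Matrix.det_mul, ← RingHom.mapMatrix_apply, ← RingHom.map_det, h2] at h1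
  exact h1

theorem semi_mem [Nonempty ι] {θ : (ι → F) →+ (ι → F)} {P : GL ι F} (hσ : Function.Surjective σ)
    (hP : ∀ x, θ (P.val *ᵥ x) = P.val *ᵥ (σ ∘ x)) {g : GL ι F} {c : F}
    (h : ∀ x, θ (g.val *ᵥ x) = c • g.val *ᵥ θ x) : g ∈ subfieldSubgroup (fixF σ) P := by
  have h1 := semi_map hσ hP (g := g) (b := c • 1) fun x => by rw [h, Matrix.smul_mulVec, one_mulVec]
  rw [smul_mul_assoc, one_mul, map_smul] at h1
  obtain ⟨i, j, hij⟩ : ∃ i j, cj P⁻¹ g.val i j ≠ 0 := by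
    by_contra! h2
    exact g.ne_zero ((map_eq_zero_iff _ (cj P⁻¹).injective).1 (Matrix.ext h2))
  have h2 : ∀ k l, σ (cj P⁻¹ g.val k l) = c * cj P⁻¹ g.val k l := fun k l => congrFun₂ h1 k l
  have hc : c ≠ 0 := fun h0 => hij (by simpa [h0] using h2 i j)
  exact (mem_subfieldSubgroup_iff _ _ _).2 ⟨_, inv_ne_zero hij, fun k l => mem_fixF.2 (by
    rw [map_mul, map_inv₀, h2, h2]; field_simp)⟩

section coord
variable {E : Type*} [Field E] [Algebra F E] {β : Type} [Fintype β] [DecidableEq β]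

/-- coordinates over the embedded field -/
def Crd (φ : E →ₐ[F] Matrix ι ι F) (e : (β → E) ≃ₗ[F] (ι → F)) : Prop :=
  ∀ (k : E) y, e (k • y) = φ k *ᵥ e y

theorem exists_crdE (φ : E →ₐ[F] Matrix ι ι F) [Module.Finite F E] {m : ℕ}
    (h : Fintype.card ι = finrank F E * m) : ∃ e : (Fin m → E) ≃ₗ[F] (ι → F), Crd φ e := by
  have h1 : finrank E (EV φ) = m :=
    Nat.eq_of_mul_eq_mul_left finrank_pos ((EV.finrank_mul φ).trans h)
  let b := (finBasisOfFinrankEq E (EV φ) h1).equivFun.symm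
  exact ⟨(b.restrictScalars F).trans (EV.eq φ), fun k y => by simp [EV.eq_smul]⟩

variable {φ : E →ₐ[F] Matrix ι ι F} {e : (β → E) ≃ₗ[F] (ι → F)}

theorem det_of_crd [Module.Finite F E] {b : Matrix ι ι F} {N : Matrix β β E}
    (h : ∀ y, b *ᵥ e y = e (N *ᵥ y)) : b.det = Algebra.norm F N.det := by
  rw [← LinearMap.det_toLin' N, ← LinearMap.det_restrictScalars, ← LinearMap.det_toLin',
    ← LinearMap.det_conj _ e]
  congr 1
  refine LinearMap.ext fun x => ?_
  obtain ⟨y, rfl⟩ := e.surjective x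
  simp [h]

theorem Crd.exists_mat (h : Crd φ e) {g : Matrix ι ι F} {ρ : E →+* E}
    (hg : ∀ k, g * φ k = φ (ρ k) * g) :
    ∃ M : Matrix β β E, ∀ y, g *ᵥ e y = e (M *ᵥ (ρ ∘ y)) := by
  refine ⟨Matrix.of fun i j => e.symm (g *ᵥ e (Pi.single j 1)) i, fun y => ?_⟩
  have h1 : (Matrix.of fun i j => e.symm (g *ᵥ e (Pi.single j 1)) i) *ᵥ (ρ ∘ y) =
      ∑ j, ρ (y j) • e.symm (g *ᵥ e (Pi.single j 1)) := by
    ext i; simp [Matrix.mulVec, dotProduct, mul_comm]
  rw [h1, map_sum]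
  conv_lhs => rw [pi_eq_sum_univ' y, map_sum, Matrix.mulVec_sum]
  exact Finset.sum_congr rfl fun j _ => by
    rw [h, h, Matrix.mulVec_mulVec, hg, ← Matrix.mulVec_mulVec, e.apply_symm_apply]

/-- the semilinear map given by a matrix over the extension field -/
def semiE (e : (β → E) ≃ₗ[F] (ι → F)) (τ : E →+* E) (A : Matrix β β E) : (ι → F) →+ (ι → F) where
  toFun x := e (A *ᵥ (τ ∘ e.symm x))
  map_zero' := by simp
  map_add' x y := by
    rw [← map_add, ← Matrix.mulVec_add, map_add]; congr 2; ext; simp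

theorem semiE_apply (τ : E →+* E) (A : Matrix β β E) (y : β → E) :
    semiE e τ A (e y) = e (A *ᵥ (τ ∘ y)) := by simp [semiE]

theorem semiE_smul {τ : E →+* E} (hτ : ∀ c, τ (algebraMap F E c) = algebraMap F E (σ c))
    (A : Matrix β β E) (c : F) (x : ι → F) : semiE e τ A (c • x) = σ c • semiE e τ A x := by
  obtain ⟨y, rfl⟩ := e.surjective x
  rw [← map_smul, semiE_apply, semiE_apply, ← map_smul, ← Matrix.mulVec_smul]
  congr 2; ext i; simp [Algebra.smul_def, hτ]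

theorem exists_pow_hom (E : Type*) [Field E] [Finite E] {p : ℕ} (hp : p.Prime) (h : (p : E) = 0)
    (n : ℕ) : ∃ τ : E →+* E, ∀ x, τ x = x ^ p ^ n := by
  have : Fact p.Prime := ⟨hp⟩
  have : CharP E p := (CharP.charP_iff_prime_eq_zero hp).2 h
  exact ⟨iterateFrobenius E p n, fun _ => rfl⟩

theorem singer_four [Fintype F] (hq : Fintype.card F = 4) (hn : Fintype.card ι = 3) [Finite E]
    (hr : finrank F E = 3) (φ : E →ₐ[F] Matrix ι ι F) : ∃ (F₀ : Subfield F) (P : GL ι F),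
      Fintype.card F = Nat.card F₀ ^ 2 ∧ ∀ g ∈ specialLinear ι F, (∀ k, cj g (φ k) ∈ φ.range) →
        g ∈ subfieldSubgroup F₀ P := by
  have : Nonempty ι := Fintype.card_pos_iff.1 (by omega)
  obtain ⟨σ, h1, h2, h3⟩ := exists_involution (F := F) (q := 2) hq
  obtain ⟨e, he⟩ := exists_crdE φ (m := 1) (by omega)
  have hE : Nat.card E = 64 := by
    rw [Module.natCard_eq_pow_finrank (K := F), hr, Nat.card_eq_fintype_card, hq]; rfl
  have h0 : (2 : F) = 0 := by_contra fun h2 => absurd (hq ▸ two_ne_zero_iff_odd.1 h2) (by decide)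
  obtain ⟨τ, hτ⟩ := exists_pow_hom E Nat.prime_two
    (by simpa [map_ofNat] using congrArg (algebraMap F E) h0) 3
  have := Fintype.ofFinite E
  have h4 := fun x : E => FiniteField.pow_card x
  have h4' := fun c : F => FiniteField.pow_card c
  rw [← Nat.card_eq_fintype_card, hE] at h4
  rw [hq] at h4'
  obtain ⟨P, hP⟩ := exists_semi_basis (σ := (σ : F →+* F)) h2 h3 (θ := semiE e τ 1)
    (semiE_smul (fun c => by
      rw [hτ, ← map_pow]; congr 1
      rw [RingHom.coe_coe, h1, show 2 ^ 3 = 4 * 2 by rfl, pow_mul, h4']) 1) fun x => by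
    obtain ⟨y, rfl⟩ := e.surjective x
    rw [semiE_apply, semiE_apply, one_mulVec, one_mulVec]
    congr 1; ext i; simp [hτ, ← pow_mul, h4]
  refine ⟨fixF (σ : F →+* F), P, by
    rw [← card_eq_sq_of_invol (τ := (σ : F →+* F)) h2 h3, Nat.card_eq_fintype_card], fun g hg hk => ?_⟩
  obtain ⟨ρ, hρ⟩ := exists_aut φ hk
  obtain ⟨M, hM⟩ := he.exists_mat (ρ := (ρ : E →+* E)) hρ
  have h5 : ∀ x, semiE e τ 1 (g.val *ᵥ x) = φ (M 0 0 ^ 7) *ᵥ g.val *ᵥ semiE e τ 1 x := fun x => by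
    obtain ⟨y, rfl⟩ := e.surjective x
    rw [hM, semiE_apply, semiE_apply, hM, ← he]
    congr 1; ext i; obtain rfl := Subsingleton.elim i 0
    simp [hτ, Matrix.mulVec, dotProduct]; ring
  have h6 := semi_det (σ := (σ : F →+* F)) σ.surjective hP h5
  rw [mem_specialLinear.1 hg, map_one, mul_one, det_of_crd (e := e) (N := M 0 0 ^ 7 • 1) fun y => by
    rw [← he, Matrix.smul_mulVec, one_mulVec]] at h6
  have h7 := congrArg (algebraMap F E) h6
  rw [FiniteField.algebraMap_norm_eq_pow, hE, Nat.card_eq_fintype_card, hq, map_one] at h7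
  simp only [Matrix.det_unique, Matrix.smul_apply, Matrix.one_apply_eq, smul_eq_mul, mul_one,
    Fin.default_eq_zero] at h7
  obtain ⟨c, hc⟩ : M 0 0 ^ 7 ∈ (algebraMap F E).fieldRange := by
    rw [mem_subfield_iff_pow_card, ← Nat.card_congr (algebraMap F E).rangeRestrictFieldEquiv.toEquiv,
      Nat.card_eq_fintype_card, hq]
    have := h4 (M 0 0)
    grind
  exact semi_mem σ.surjective hP (c := c) fun x => by
    rw [h5, ← hc, AlgHom.commutes, Algebra.algebraMap_eq_smul_one, Matrix.smul_mulVec, one_mulVec]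

end coord

theorem singer_four' [Fintype F] (hq : Fintype.card F = 4) (hn : Fintype.card ι = 3)
    {K : Subalgebra F (Matrix ι ι F)} (hK : IsFieldSubalgebra 3 K) : ∃ (F₀ : Subfield F) (P : GL ι F),
      Fintype.card F = Nat.card F₀ ^ 2 ∧
        subalgebraNormalizer K ⊓ specialLinear ι F ≤ subfieldSubgroup F₀ P := by
  have : Nonempty ι := Fintype.card_pos_iff.1 (by omega)
  letI := (isField_of_isFieldSubalgebra hK).toField
  obtain ⟨F₀, P, h1, h2⟩ := singer_four (E := K) hq hn hK.finrank_eq K.val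
  exact ⟨F₀, P, h1, fun g hg => h2 g hg.2 fun k => ⟨⟨_, (hg.1 k).1 k.2⟩, rfl⟩⟩

end Cfsg.Agent.H26
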