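import Mathlib
import Cfsg.Agent.H26.C3a
import Cfsg.Agent.H26.Cs1

/-! Maximality of the extension field subgroups of the linear groups. -/

set_option autoImplicit false
set_option maxHeartbeats 400000

namespace Cfsg.Agent.H26.MX

open Module

variable {F : Type*} [Field F] {V : Type*} [AddCommGroup V] [Module F V]
  {M : Subgroup (V ≃ₗ[F] V)} {E : Type*} [Field E] [Algebra F E] [Module E V] [IsScalarTower F E V]

/-- a rank one map over the extension field -/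
def aE (F : Type*) [Field F] [Module F V] [Algebra F E] [IsScalarTower F E V] (v : V)
    (φ : Dual E V) : End F V := (φ.smulRight v).restrictScalars F

@[simp] theorem aE_apply (v : V) (φ : Dual E V) (x : V) : aE F v φ x = φ x • v := rfl

theorem finrank_map_inf (g : V ≃ₗ[F] V) (A B : Submodule F V) :
    finrank F ↥(A.map (g : V →ₗ[F] V) ⊓ B.map (g : V →ₗ[F] V)) = finrank F ↥(A ⊓ B) := by
  rw [← Submodule.map_inf _ g.injective, finrank_map]

theorem map_map' (g g' : V ≃ₗ[F] V) (A : Submodule F V) :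
    (A.map (g' : V →ₗ[F] V)).map (g : V →ₗ[F] V) = A.map ((g * g' : V ≃ₗ[F] V) : V →ₗ[F] V) :=
  (Submodule.map_comp _ _ _).symm

/-- the normalised maximal pair for a family of translates of `E`-lines -/
theorem exists_max_Ln [Finite V] [FiniteDimensional F V] {P : V → Prop} {y : V ≃ₗ[F] V} (hy : y ∈ M)
    {v : V} (h1 : P v) (h2 : P (y v)) {k : E} (h3 : y (k • v) ∉ Ln F E (y v)) :
    ∃ v v', P v ∧ P v' ∧ ∃ y ∈ M, ∃ W, W = (Ln F E v').map (y : V →ₗ[F] V) ∧ Ln F E v ≠ W ∧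
      Ln F E v ⊓ W ≠ ⊥ ∧ ∀ g ∈ M, ∀ g' ∈ M, ∀ u u', P u → P u' → finrank F ↥(Ln F E v ⊓ W) <
        finrank F ↥((Ln F E u).map (g : V →ₗ[F] V) ⊓ (Ln F E u').map (g' : V →ₗ[F] V)) →
        (Ln F E u).map (g : V →ₗ[F] V) = (Ln F E u').map (g' : V →ₗ[F] V) := by
  have hv : y v ≠ 0 := fun h => h3 (by simp [show v = 0 by simpa using h])
  obtain ⟨_, ⟨a, ha, u, hu, rfl⟩, _, ⟨b, hb, u', hu', rfl⟩, h4, h5, h6⟩ := exists_max_pair
    (S := {W | ∃ y ∈ M, ∃ v, P v ∧ W = (Ln F E v).map (y : V →ₗ[F] V)}) (W := Ln F E (y v))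
    (W' := (Ln F E v).map (y : V →ₗ[F] V)) ⟨1, M.one_mem, _, h2, (Submodule.map_id _).symm⟩
    ⟨y, hy, v, h1, rfl⟩ (fun h => h3 (h ▸ ⟨_, smul_mem_Ln k v, rfl⟩))
    fun h => hv ((Submodule.mem_bot F).1 (h ▸ ⟨self_mem_Ln _, _, self_mem_Ln v, rfl⟩))
  have h7 : ((Ln F E u').map ((a⁻¹ * b : V ≃ₗ[F] V) : V →ₗ[F] V)).map (a : V →ₗ[F] V) =
      (Ln F E u').map (b : V →ₗ[F] V) := by rw [map_map', mul_inv_cancel_left]
  refine ⟨u, u', hu, hu', a⁻¹ * b, mul_mem (inv_mem ha) hb, _, rfl, fun h => h4 (by rw [h, h7]),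
    fun h => h5 ?_, fun g hg g' hg' w w' hw hw' h => h6 _ ⟨g, hg, w, hw, rfl⟩ _ ⟨g', hg', w', hw', rfl⟩ ?_⟩
  · rw [← h7, ← Submodule.map_inf _ a.injective, h, Submodule.map_bot]
  · rwa [← h7, finrank_map_inf]

/-- the subspace of coefficients -/
def coefs (E : Type*) [Field E] [Algebra F E] [Module E V] [IsScalarTower F E V] (v : V)
    (W : Submodule F V) : Submodule F E :=
  W.comap ((LinearMap.toSpanSingleton E V v).restrictScalars F)

theorem mem_coefs {v : V} {W : Submodule F V} {k : E} : k ∈ coefs E v W ↔ k • v ∈ W := Iff.rfl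

theorem not_Ln_le [Module.Finite F V] {v : V} {W : Submodule F V} (hne : Ln F E v ≠ W)
    (hd : finrank F (Ln F E v) = finrank F W) : ¬ ∀ k : E, k • v ∈ W := fun h =>
  hne (Submodule.eq_of_le_of_finrank_eq (fun x hx => by
    obtain ⟨k, rfl⟩ := mem_Ln.1 hx; exact h k) hd)

theorem mem_bot_of_mul (hr : (finrank F E).Prime) {v : V} {W : Submodule F V}
    (h0 : Ln F E v ⊓ W ≠ ⊥) (h1 : ¬ ∀ k : E, k • v ∈ W) {κ : E}
    (h : ∀ k : E, k • v ∈ W → (κ * k) • v ∈ W) : ∃ c : F, algebraMap F E c = κ := by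
  obtain ⟨_, ⟨h2, h3⟩, h4⟩ := (Submodule.ne_bot_iff _).1 h0
  obtain ⟨s, rfl⟩ := mem_Ln.1 h2
  by_contra h5
  exact h1 (eq_top_of_mul hr (S := coefs E v W) h h5 h3 (by rintro rfl; simp at h4))

theorem hyper_of_key (hr : (finrank F E).Prime) {v x : V} {W : Submodule F V}
    (h0 : Ln F E v ⊓ W ≠ ⊥) (h1 : ¬ ∀ k : E, k • v ∈ W) (hx : x ∉ Ln F E v)
    (key : ∀ φ : Dual E V, φ v = 0 → φ x • v ∈ W → ∀ y ∈ W, φ y • v ∈ W) :
    ∀ y ∈ W, ∃ c : F, y - c • x ∈ Ln F E v := fun y hy => by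
  obtain ⟨α, κ, rfl⟩ : ∃ α κ : E, y = α • v + κ • x := by
    by_contra! h2
    obtain ⟨φ, h3, h4, h5⟩ := exists_dual_triple h2
    exact h1 fun k => by simpa [h3] using key (k • φ) (by simp [h4]) (by simp [h5]) y hy
  obtain ⟨φ, h3, h4⟩ := exists_dual_pair (F := E) (u := v) (x := x) fun c hc => hx (hc ▸ smul_mem_Ln c v)
  obtain ⟨c, rfl⟩ := mem_bot_of_mul hr h0 h1 (κ := κ) fun k hk => by
    simpa [h3, h4, mul_comm] using key (k • φ) (by simp [h4]) (by simpa [h3]) _ hy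
  exact ⟨c, by simpa using smul_mem_Ln α v⟩

theorem exists_equiv_two (hm : finrank E V = 2) {v x v' x' : V} (h : LinearIndependent E ![v, x])
    (h' : LinearIndependent E ![v', x']) : ∃ g : V ≃ₗ[E] V, g v = v' ∧ g x = x' := by
  let b := basisOfLinearIndependentOfCardEqFinrank h (by simp [hm])
  let b' := basisOfLinearIndependentOfCardEqFinrank h' (by simp [hm])
  exact ⟨b.equiv b' (Equiv.refl _), by simpa [b, b'] using b.equiv_apply 0 b' (Equiv.refl _),
    by simpa [b, b'] using b.equiv_apply 1 b' (Equiv.refl _)⟩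

theorem exists_coords (hm : finrank E V = 2) {v x : V} (h : LinearIndependent E ![v, x]) (y : V) :
    ∃ a b : E, y = a • v + b • x := by
  let b := basisOfLinearIndependentOfCardEqFinrank h (by simp [hm])
  exact ⟨b.repr y 0, b.repr y 1, by simpa [b] using (b.sum_repr y).symm⟩

variable [Finite E] [Module.Finite E V]

omit [Finite E] in
theorem OvE.th (h : OvE E M) {v : V} {φ : Dual E V} (hφ : φ v = 0) (c : F) :
    c • aE F v φ ∈ Th M (Ln F E v) := by
  refine ⟨fun x => Submodule.smul_mem _ c (smul_mem_Ln _ _), fun x hx => ?_, _,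
    h.sl (tvE_mem_SLv v (c • φ) (by simp [hφ])), fun x => by simp⟩
  obtain ⟨k, rfl⟩ := mem_Ln.1 hx
  simp [hφ]

omit [Finite E] in
theorem OvE.exists_th (h : OvE E M) {y : V ≃ₗ[F] V} (hy : y ∈ M) {v : V} {φ : Dual E V}
    (hφ : φ v = 0) : ∃ b : End F V, (∀ c : F, c • b ∈ Th M ((Ln F E v).map (y : V →ₗ[F] V))) ∧
      ∀ x, b x = y (φ (y⁻¹ x) • v) :=
  ⟨(y : V →ₗ[F] V) ∘ₗ aE F v φ ∘ₗ ((y⁻¹ : V ≃ₗ[F] V) : V →ₗ[F] V), fun c => Th.conj hy (h.th hφ c)
    (fun x hx => ⟨x, hx, rfl⟩) (fun x hx => mem_map_iff.1 hx) fun x => by simp [← map_inv], fun _ => rfl⟩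

omit [Finite E] [Module.Finite E V] in
theorem hasTv_four (hq : ∀ c : F, c = 0 ∨ c = 1) (hr : finrank F E = 2) (hm : finrank E V = 2)
    (h : ∀ g : V ≃ₗ[E] V, rs F g ∈ M) {v x : V} (hvx : LinearIndependent E ![v, x]) {W : Submodule F V}
    (hv : v ∈ W) (hx : x ∈ W) (hW : ∀ y ∈ W, ∃ a b : F, y = a • v + b • x)
    (hb : ∀ w ∉ W, ∃ b ∈ Th M W, b w = x ∧ ∀ y, b y = 0 → y ∈ W) : HasTv M := by
  have : FiniteDimensional F E := Module.finite_of_finrank_pos (by omega)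
  have h2 : (2 : F) = 0 := by
    rcases hq 2 with h | h
    · exact h
    · exact absurd (by linear_combination h : (1 : F) = 0) one_ne_zero
  have h2' : (2 : E) = 0 := by simpa [map_ofNat] using congrArg (algebraMap F E) h2
  have hl := LinearIndependent.pair_iff.1 hvx
  obtain ⟨ω, -, hω⟩ := exists_not_mem_of_lt (W := F ∙ (1 : E)) (U := ⊤) (by
    have := finrank_span_one_le (F := F) (1 : E); rw [finrank_top]; omega)
  have h3 : ∀ a b : F, a • (1 : E) + b • ω = 0 → a = 0 ∧ b = 0 := fun a b hab => by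
    rcases hq b with rfl | rfl
    · simpa using hab
    · exact absurd (Submodule.mem_span_singleton.2 ⟨-a, by
        rw [one_smul] at hab; rw [neg_smul]; linear_combination -hab⟩) hω
  have h4 := exists_coords hr (LinearIndependent.pair_iff.2 h3)
  have h0 : ω ≠ 0 := by rintro rfl; simp at hω
  have h1 : ω ≠ 1 := by rintro rfl; exact hω (Submodule.mem_span_singleton_self _)
  have h5 : ω * ω = ω + 1 := by
    obtain ⟨a, b, h5⟩ := h4 (ω * ω)
    rcases hq a with rfl | rfl <;> rcases hq b with rfl | rfl <;> simp at h5 <;> grind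
  have h6 : ∀ a b : E, a • v + b • x ∈ W → a ≠ ω ∧ a ≠ ω + 1 ∧ b ≠ ω := fun a b hab => by
    obtain ⟨c, d, h6⟩ := hW _ hab
    obtain ⟨h7, h8⟩ := hl (a - algebraMap F E c) (b - algebraMap F E d) (by
      simp only [sub_smul, algebraMap_smul]; linear_combination (norm := module) h6)
    rcases hq c with rfl | rfl <;> rcases hq d with rfl | rfl <;> simp at h7 h8 <;> grind
  obtain ⟨b, ⟨h7, h8, s, hs, h9⟩, h10, h11⟩ := hb (ω • v) fun h => (h6 ω 0 (by simpa)).1 rfl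
  obtain ⟨δ, ε, h12, h13⟩ : ∃ (δ : E) (ε : F), b (ω • x) = v + ε • x ∧
      (ε = 1 ∧ δ = ω + 1 ∨ ε = 0 ∧ δ = ω) := by
    obtain ⟨c, d, h12⟩ := hW _ (h7 (ω • x))
    rcases hq c with rfl | rfl <;> rcases hq d with rfl | rfl
    · exact absurd rfl (h6 0 ω (by simpa using h11 _ (by simpa using h12))).2.2
    · refine absurd rfl (h6 ω ω (h11 _ ?_)).1
      rw [map_add, h10, h12, zero_smul, zero_add, one_smul, ← two_smul F, h2, zero_smul]
    · exact ⟨ω, 0, by simpa using h12, by simp⟩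
    · exact ⟨ω + 1, 1, by simpa using h12, by simp⟩
  have hδ : δ ≠ 0 := by grind
  obtain ⟨g, g1, g2⟩ := exists_equiv_two hm hvx (v' := ω • v) (x' := δ • x)
    (LinearIndependent.pair_iff.2 fun a b hab => by simpa [h0, hδ] using hl (a * ω) (b * δ) (by simpa [mul_smul]))
  obtain ⟨g', g3, g4⟩ := exists_equiv_two hm hvx (v' := ω • x) (x' := ω • v)
    (LinearIndependent.pair_iff.2 fun a b hab => by
      simpa [h0, and_comm] using hl (b * ω) (a * ω) (by simpa [mul_smul, add_comm]))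
  have s1 : s v = v := by simp [h9, h8 v hv]
  have s2 : s x = x := by simp [h9, h8 x hx]
  have s3 : s (ω • v) = ω • v + x := by simp [h9, h10]
  have s4 : s (ω • x) = ω • x + (v + ε • x) := by simp [h9, h12]
  have e1 : ∀ y : V, ω • ω • y = ω • y + y := fun y => by rw [smul_smul, h5, add_smul, one_smul]
  have e2 : ∀ y : V, y + y = 0 := fun y => by rw [← two_smul F, h2, zero_smul]
  have e3 : ∀ y z : V, y + (y + z) = z := fun y z => by rw [← add_assoc, e2, zero_add]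
  let t := s * rs F g * s * rs F g'
  have t1 : t v = v + (ω • v + ω • x) ∧ t (ω • v) = ω • v ∧ t x = x + (ω • v + ω • x) ∧
      t (ω • x) = ω • x := by
    rcases h13 with ⟨rfl, rfl⟩ | ⟨rfl, rfl⟩ <;>
      simp [t, g1, g2, g3, g4, s1, s2, s3, s4, e1, e2, e3, add_smul, add_assoc, add_comm, add_left_comm]
  have hu : ω • v + ω • x ≠ 0 := fun h => h0 (hl _ _ h).1
  refine hasTv_of_two hq (g := t) (mul_mem (mul_mem (mul_mem hs (h g)) hs) (h g')) (x := x)
    (fun y => ?_) (by simp [t1]) hu (by simpa [t1])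
  obtain ⟨a, b, rfl⟩ := exists_coords hm hvx y
  obtain ⟨a, a', rfl⟩ := h4 a
  obtain ⟨b, b', rfl⟩ := h4 b
  refine Submodule.mem_span_singleton.2 ⟨a + b, ?_⟩
  simp only [add_smul, smul_assoc, one_smul, map_add, map_smul, t1]
  module

omit [Finite E] in
theorem hasTv_bimod (hq : ∀ c : F, c = 0 ∨ c = 1) (hr : (finrank F E).Prime) (hr3 : 3 ≤ finrank F E)
    (hm : finrank E V = 2) (h : ∀ g : V ≃ₗ[E] V, rs F g ∈ M) {v w x : V} {W : Submodule F V}
    {μ ν : Dual F V} (hA : Adj (Ln F E v) W w x μ ν) (hv : v ≠ 0)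
    (hb : ∀ z ∈ W, ∃ b ∈ Th M W, b w = z) : HasTv M := by
  have : FiniteDimensional F E := Module.finite_of_finrank_pos (by omega)
  have hO : OvE E M := fun g _ => h g
  have hx : x ∉ Ln F E v := fun hx => by simpa [hA.νx] using hA.ν0 x hx hA.x_mem
  have hvx : LinearIndependent E ![v, x] := (LinearIndependent.pair_iff' hv).2 fun a ha => hx (mem_Ln.2 ⟨a, ha⟩)
  obtain ⟨φ, h3, h4⟩ := exists_dual_pair (F := E) (u := v) (x := x) fun c hc => hx (hc ▸ smul_mem_Ln c v)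
  let e : E → E → End F V := fun s k => (μ ∘ₗ aE F v (k • φ)).smulRight (s • v)
  have he : ∀ s k y, e s k y = μ ((k * φ y) • v) • s • v := fun _ _ _ => rfl
  have h1 : ∀ k : E, μ (k • v) = 0 → k • v ∈ W := fun k hk => by simpa [hk] using hA.left _ (smul_mem_Ln k v)
  by_contra hT
  have h2 : ∀ ζ k : E, ζ ≠ 0 → μ (ζ • v) = 0 → e ζ k - e k ζ - μ (k • v) • e ζ ζ ∈ Th M (Ln F E v) := by
    intro ζ k h0 hζ
    obtain ⟨b, hb, h5⟩ := hb _ (h1 ζ hζ)
    have h6 : ∀ k : E, aE F v (k • φ) ∈ Th M (Ln F E v) := fun k => by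
      simpa using hO.th (φ := k • φ) (by simp [h4]) 1
    have h7 := fun k => Th.key (h6 k) hb (hA.maps hb (h5 ▸ smul_mem_Ln _ _))
    have h8 : ∀ k y, (b * aE F v (k • φ) - aE F v (k • φ) * b - b * aE F v (k • φ) * b) y =
        e ζ k y - ν (b y) • k • v - (μ (k • v) * ν (b y)) • ζ • v := fun k y => by
      simp only [LinearMap.sub_apply, End.mul_apply, hA.app (h6 k) (hb.1 y), map_smul,
        hA.symm.app hb ((h6 k).1 _), h5, he]
      simp [h3, smul_smul, mul_comm]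
    have h9 : ∀ y, ν (b y) = μ ((ζ * φ y) • v) := by
      by_contra! h9
      obtain ⟨y, h9⟩ := h9
      refine hT (hasTv_of_th (smul_mem_of_two hq (h7 ζ)) (u := ζ • v)
        (ψ := μ ∘ₗ aE F v (ζ • φ) - ν ∘ₗ b) (fun y => ?_) (smul_ne_zero h0 hv) fun h => h9 ?_)
      · simp [h8, he, hζ, sub_smul]
      · exact (sub_eq_zero.1 (LinearMap.congr_fun h y)).symm
    convert h7 k using 1
    ext y; simp [h8, he, h9, smul_smul]
  have h5 : ∀ s k s' k' : E, e s k - e s' k' ∈ Th M (Ln F E v) → ∀ α δ : E,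
      e (α * s) (δ * k) - e (α * s') (δ * k') ∈ Th M (Ln F E v) := fun s k s' k' h5 α δ => by
    by_cases hα : α = 0
    · convert (Th M (Ln F E v)).zero_mem; ext; simp [he, hα]
    by_cases hδ : δ = 0
    · convert (Th M (Ln F E v)).zero_mem; ext; simp [he, hδ]
    obtain ⟨g, g1, g2⟩ := exists_equiv_two hm hvx (v' := α • v) (x' := δ⁻¹ • x)
      (LinearIndependent.pair_iff.2 fun a b hab => by
        simpa [hα, hδ] using LinearIndependent.pair_iff.1 hvx (a * α) (b * δ⁻¹) (by simpa [mul_smul]))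
    refine Th.conj (h g) h5 (fun y hy => ?_) (fun y hy => ?_) fun y => ?_
    · obtain ⟨k, rfl⟩ := mem_Ln.1 hy
      simpa [g1, smul_smul] using smul_mem_Ln _ v
    · obtain ⟨k, rfl⟩ := mem_Ln.1 hy
      rw [inv_eq_of (x := (k * α⁻¹) • v) (by simp [g1, smul_smul, hα])]
      exact smul_mem_Ln _ v
    · obtain ⟨a, b, rfl⟩ := exists_coords hm hvx y
      have : ∀ k, δ * k * (b * δ⁻¹) = k * b := fun k => by field_simp
      have h6 : ∀ (c : F) (z : V), g (c • z) = c • g z := (rs F g).map_smul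
      simp [he, g1, g2, h3, h4, h6, this, smul_smul, mul_comm α]
  let X := LinearMap.ker (μ ∘ₗ (LinearMap.toSpanSingleton E V v).restrictScalars F)
  have hX : 2 ≤ finrank F X := by
    have := finrank_le_inf_ker ⊤ (μ ∘ₗ (LinearMap.toSpanSingleton E V v).restrictScalars F)
    rw [finrank_top, top_inf_eq] at this; change _ ≤ finrank F X + 1 at this; omega
  obtain ⟨ζ, h6, h7⟩ := exists_not_mem_of_lt (W := ⊥) (U := X) (by rw [finrank_bot]; omega)
  obtain ⟨k, h8, h9⟩ := exists_not_mem_of_lt (W := F ∙ ζ) (U := X) (by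
    have := finrank_span_one_le (F := F) ζ; omega)
  replace h6 : μ (ζ • v) = 0 := h6
  replace h8 : μ (k • v) = 0 := h8
  replace h7 : ζ ≠ 0 := h7
  let A : Subalgebra F E :=
    { carrier := {u | ∀ α δ, e (α * u) δ - e α (δ * u) ∈ Th M (Ln F E v)}
      mul_mem' := fun {a b} ha hb α δ => by
        simpa [mul_assoc, mul_comm a b] using add_mem (hb (α * a) δ) (ha α (δ * b))
      add_mem' := fun {a b} ha hb α δ => by
        convert add_mem (ha α δ) (hb α δ) using 1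
        ext; simp [he, mul_add, add_mul, add_smul]; abel
      algebraMap_mem' := fun c α δ => by
        convert (Th M (Ln F E v)).zero_mem
        ext y
        simp [he, mul_comm _ (algebraMap F E c), ← Algebra.smul_def, smul_smul, smul_comm c]
        rw [smul_comm α c v, smul_comm (δ * φ y) c v, μ.map_smul c, smul_smul, smul_eq_mul, mul_comm c, sub_self] }
  have h10 := eq_top_of_prime hr (A := A) (β := k / ζ) (fun α δ => by
    convert h5 k ζ ζ k (by simpa [h8] using neg_mem (h2 ζ k h7 h6)) (α / ζ) (δ / ζ) using 3 <;>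
      field_simp) fun ⟨c, hc⟩ => h9 (Submodule.mem_span_singleton.2 ⟨c, by
        rw [Algebra.smul_def, show algebraMap F E c = k / ζ from hc]; field_simp⟩)
  obtain ⟨k₀, rfl⟩ := mem_Ln.1 hA.w_mem
  have h11 := sub_mem (h10.ge (Algebra.mem_top (x := ζ / k₀)) k₀ k₀) (h2 ζ k₀ h7 h6)
  have h12 : k₀ ≠ 0 := by rintro rfl; simpa using hA.μw
  rw [mul_div_cancel₀ _ h12, hA.μw, one_smul, sub_sub_cancel] at h11
  refine hT (hasTv_of_th (smul_mem_of_two hq h11) (ψ := μ ∘ₗ aE F v (ζ • φ)) (he ζ ζ) (smul_ne_zero h7 hv) fun h => ?_)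
  simpa [h3, smul_smul, div_mul_cancel₀ _ h7, hA.μw] using LinearMap.congr_fun h ((k₀ / ζ) • x)

theorem OvE.hasTv (h : OvE E M) (hr : (finrank F E).Prime) (hm : 2 ≤ finrank E V)
    {y : V ≃ₗ[F] V} (hy : y ∈ M) (hn : ¬ NrmE E y) : HasTv M := by
  have := finite_of_algebra F E
  have : Module.Finite F V := Module.Finite.trans E V
  have : Finite V := Module.finite_of_finite E
  obtain ⟨v, k, h1⟩ : ∃ v, ∃ k : E, y (k • v) ∉ Ln F E (y v) := by
    by_contra! h1; exact hn (nrmE_of hm h1)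
  have hv : v ≠ 0 := by rintro rfl; simp at h1
  obtain ⟨v, v', hv, hv', y, hy, W, hW, hne, h0, hmax⟩ := exists_max_Ln (P := (· ≠ 0)) hy hv
    (app_ne_zero y hv) h1
  have hd : finrank F (Ln F E v) = finrank F W := by rw [hW, finrank_map, finrank_Ln hv, finrank_Ln hv']
  have h2 := not_Ln_le hne hd
  obtain ⟨x, hx, hx'⟩ := SetLike.not_le_iff_exists.1 fun h : W ≤ Ln F E v =>
    hne (Submodule.eq_of_le_of_finrank_eq h hd.symm).symm
  have h3 := hyper_of_key hr h0 h2 hx' fun φ hφ h3 z hz => by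
    have h4 := stab_of_max (W := Ln F E v) (g := rs F (tvE v φ hφ)) (fun h4 => by
      rw [hW, map_map'] at h4 ⊢
      exact hmax _ (mul_mem (h.sl (tvE_mem_SLv _ _ _)) hy) _ hy _ _ hv' hv' (hW ▸ h4))
      (fun z hz _ => by obtain ⟨k, rfl⟩ := mem_Ln.1 hz; simp [hφ]) hx
      (by simpa [Submodule.add_mem_iff_left _ (smul_mem_Ln _ v)]) (add_mem hx h3) z hz
    exact (W.add_mem_iff_right hz).1 h4
  push Not at h2
  obtain ⟨k₀, hk₀⟩ := h2
  obtain ⟨μ, ν, hA⟩ := exists_adj hd hx hx' h3 (smul_mem_Ln k₀ v) hk₀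
  obtain ⟨φ, h4, h5⟩ := exists_dual_pair (F := E) (u := v) (x := x) fun c hc => hx' (hc ▸ smul_mem_Ln c v)
  have h6 : ∀ ψ : Dual E V, ψ ≠ 0 → ∀ b : End F V, (∀ x, b x = y (ψ (y⁻¹ x) • v')) → ∃ z, ν (b z) ≠ 0 :=
    fun ψ hψ b hb => by
      obtain ⟨_, h6, rfl⟩ := hW ▸ hx
      obtain ⟨k, rfl⟩ := mem_Ln.1 h6
      obtain ⟨z, hz⟩ := exists_apply_eq_one hψ
      exact ⟨y (k • z), by simpa [hb, hz] using hA.νx.trans_ne one_ne_zero⟩
  have h7 : ∀ w ∉ W, ∀ c : E, y⁻¹ w ≠ c • v' := fun w hw c hc =>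
    hw (hW ▸ mem_map_iff.2 (hc ▸ smul_mem_Ln c v'))
  have h8 : ∀ w ∉ W, ∀ z ∈ W, ∃ (ψ : Dual E V) (b : End F V), ψ v' = 0 ∧ (∀ c : F, c • b ∈ Th M W) ∧
      (∀ x, b x = y (ψ (y⁻¹ x) • v')) ∧ b w = z := fun w hw z hz => by
    obtain ⟨ψ, h8, h9⟩ := exists_dual_pair (h7 w hw)
    obtain ⟨k, hk⟩ := mem_Ln.1 (mem_map_iff.1 (hW ▸ hz))
    obtain ⟨b, h10, h11⟩ := h.exists_th hy (φ := k • ψ) (v := v') (by simp [h9])
    exact ⟨k • ψ, b, by simp [h9], hW ▸ h10, h11, by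
      rw [h11, LinearMap.smul_apply, h8, smul_eq_mul, mul_one, hk, app_inv]⟩
  by_cases hq : ∀ c : F, c = 0 ∨ c = 1
  swap
  · push Not at hq
    obtain ⟨c, hc0, hc1⟩ := hq
    obtain ⟨z, ⟨h9, h10⟩, h11⟩ := (Submodule.ne_bot_iff _).1 h0
    obtain ⟨ψ, b, -, h12, h13, h14⟩ := h8 _ hk₀ z h10
    obtain ⟨u, hu⟩ := h6 ψ (by rintro rfl; simp [← h14, h13] at h11) b h13
    exact hA.hasTv_big (h.th (φ := k₀ • φ) (by simp [h5])) h12 (h14 ▸ h9) (h14 ▸ h11)
      (by simp [h4, hA.μw]) hu hc0 hc1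
  rcases hm.eq_or_lt with hm | hm
  swap
  · obtain ⟨u, -, hu⟩ := exists_not_mem_of_lt (W := Submodule.span E {v', y⁻¹ (k₀ • v)}) (U := ⊤) (by
      have := finrank_span_pair_le (F := E) v' (y⁻¹ (k₀ • v)); rw [finrank_top]; omega)
    obtain ⟨ψ, h9, h10⟩ := exists_dual hu
    obtain ⟨b, h11, h12⟩ := h.exists_th hy (h10 v' (Submodule.subset_span (by simp)))
    obtain ⟨z, hz⟩ := h6 ψ (by rintro rfl; simp at h9) b h12
    exact hA.hasTv_zero (h.th h5) (by simpa [hW] using h11 1)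
      (by rw [h12, h10 _ (Submodule.subset_span (by simp)), zero_smul, map_zero]) (by simpa [h4]) hz
  have h9 : ∀ g : V ≃ₗ[E] V, rs F g ∈ M := fun g => h g ((hq _).resolve_left
    (Algebra.norm_ne_zero_iff.2 (LinearEquiv.isUnit_det' g).ne_zero))
  rcases hr.two_le.eq_or_lt with hr2 | hr2
  swap
  · exact hasTv_bimod hq hr hr2 hm.symm h9 hA hv fun z hz => by
      obtain ⟨-, b, -, h10, -, h11⟩ := h8 _ hk₀ z hz
      exact ⟨b, by simpa using h10 1, h11⟩
  obtain ⟨z, ⟨h10, h11⟩, h12⟩ := (Submodule.ne_bot_iff _).1 h0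
  have hx0 : x ≠ 0 := by rintro rfl; simp at hx'
  refine hasTv_four hq hr2.symm hm.symm h9 (v := z) ((LinearIndependent.pair_iff' h12).2 fun a ha =>
    hx' (by rw [← ha]; exact (E ∙ v).smul_mem a h10)) h11 hx (fun u hu => ?_) fun w hw => ?_
  · obtain ⟨a, b, h13⟩ := exists_coords (E := F) (V := W) (by rw [← hd, finrank_Ln hv, hr2])
      (v := ⟨z, h11⟩) (x := ⟨x, hx⟩) ((LinearIndependent.pair_iff' (by simpa)).2 fun a ha =>
        hx' (by rw [← show a • z = x from congrArg Subtype.val ha]; exact Submodule.smul_mem _ a h10)) ⟨u, hu⟩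
    exact ⟨a, b, congrArg Subtype.val h13⟩
  · obtain ⟨ψ, b, h13, h14, h15, h16⟩ := h8 w hw x hx
    refine ⟨b, by simpa using h14 1, h16, fun u hu => ?_⟩
    obtain ⟨c, d, h17⟩ := exists_coords hm.symm ((LinearIndependent.pair_iff' hv').2 fun a ha =>
      h7 w hw a ha.symm) (y⁻¹ u)
    have h18 : ψ (y⁻¹ w) ≠ 0 := fun h => hx0 (by rw [← h16, h15, h, zero_smul, map_zero])
    obtain rfl : d = 0 := by
      rw [h15, h17, map_add ψ, map_smul ψ, map_smul ψ, h13] at hu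
      exact (mul_eq_zero.1 (by simpa [hv'] using hu)).resolve_right h18
    exact hW ▸ mem_map_iff.2 (by rw [h17]; simpa using smul_mem_Ln c v')

theorem OvE.sl_le_of_not (h : OvE E M) (hr : (finrank F E).Prime) (hm : 2 ≤ finrank E V)
    {y : V ≃ₗ[F] V} (hy : y ∈ M) (hn : ¬ NrmE E y) : SLv F V ≤ M :=
  h.sl_le hr hm (h.hasTv hr hm hy hn)

end Cfsg.Agent.H26.MX
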