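import Mathlib
import Cfsg.Agent.H26.C3b
import Cfsg.Agent.H26.NM3

/-! Extension field subgroups of the linear groups, in matrices. -/

set_option autoImplicit false
set_option maxHeartbeats 400000

namespace Cfsg.Agent.H26.MX

open Module Matrix Cfsg.Geo

variable {ι : Type} [Fintype ι] [DecidableEq ι] {F : Type*} [Field F] {E : Type*} [Field E]
  [Algebra F E]

/-- matrices as automorphisms of the column space with its extension field structure -/
noncomputable def gE (φ : E →ₐ[F] Matrix ι ι F) : GL ι F ≃* (EV φ ≃ₗ[F] EV φ) := H11.glEquiv ι F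

variable {φ : E →ₐ[F] Matrix ι ι F}

theorem eq_gE (g : GL ι F) (x : EV φ) : EV.eq φ (gE φ g x) = g.val *ᵥ EV.eq φ x := rfl

theorem det_gE (g : GL ι F) : LinearMap.det (gE φ g : EV φ →ₗ[F] EV φ) = g.val.det :=
  H11.det_glEquiv g

theorem mem_sl_gE (g : GL ι F) : g ∈ specialLinear ι F ↔ gE φ g ∈ SLv F (EV φ) := mem_sl_iff g

theorem rs_mem_normalizer (g : EV φ ≃ₗ[E] EV φ) :
    (gE φ).symm (rs F g) ∈ subalgebraNormalizer φ.range := by
  refine mem_normalizer_of_comm ?_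
  rintro _ ⟨k, rfl⟩
  refine EV.ext_mulVec φ fun x => ?_
  rw [← mulVec_mulVec, ← mulVec_mulVec, ← eq_gE, AlgHom.toRingHom_eq_coe, RingHom.coe_coe,
    ← EV.eq_smul, ← EV.eq_smul, ← eq_gE]
  simp

theorem mem_normalizer_of_nrmE {g : GL ι F} (h : NrmE E (gE φ g)) :
    g ∈ subalgebraNormalizer φ.range := by
  have h1 : φ.range.map (cj g : Matrix ι ι F →ₐ[F] Matrix ι ι F) = φ.range := by
    refine Subalgebra.eq_of_le_of_finrank_eq ?_ ((cj g).subalgebraMap _).toLinearEquiv.finrank_eq.symm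
    rintro _ ⟨_, ⟨k, rfl⟩, rfl⟩
    obtain ⟨k', hk⟩ := h k
    refine ⟨k', EV.ext_mulVec φ fun x => ?_⟩
    obtain ⟨y, rfl⟩ := (gE φ g).surjective x
    change EV.eq φ (k' • gE φ g y) = cj g (φ k) *ᵥ g.val *ᵥ EV.eq φ y
    rw [← hk, eq_gE, EV.eq_smul, cj_apply, mulVec_mulVec, mulVec_mulVec, Units.inv_mul_cancel_right]
  intro k
  change _ ↔ cj g k ∈ φ.range
  conv_rhs => rw [← h1]
  exact ⟨fun hk => ⟨k, hk, rfl⟩, fun ⟨y, hy, h2⟩ => (cj g).injective h2 ▸ hy⟩

theorem nrmE_of_mem_normalizer {g : GL ι F} (h : g ∈ subalgebraNormalizer φ.range) :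
    NrmE E (gE φ g) := fun k => by
  obtain ⟨k', hk⟩ := (h _).1 ⟨k, rfl⟩
  refine ⟨k', fun v => (EV.eq φ).injective ?_⟩
  rw [eq_gE, EV.eq_smul, EV.eq_smul, eq_gE, show φ k' = _ from hk, mulVec_mulVec, mulVec_mulVec,
    Units.inv_mul_cancel_right]
  rfl

theorem two_le_finrank_EV [Module.Finite F E] (hn : finrank F E < Fintype.card ι) :
    2 ≤ finrank E (EV φ) := by
  have := EV.finrank_mul φ
  by_contra h
  obtain h | h : finrank E (EV φ) = 0 ∨ finrank E (EV φ) = 1 := by omega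
  all_goals rw [h] at this; omega

theorem det_rs [Module.Finite F E] (g : EV φ ≃ₗ[E] EV φ) : ((gE φ).symm (rs F g)).val.det =
    Algebra.norm F (LinearMap.det (g : EV φ →ₗ[E] EV φ)) := by
  rw [← det_gE (φ := φ), MulEquiv.apply_symm_apply, ← LinearMap.det_restrictScalars]; rfl

theorem fld_sl_le [Finite E] (hr : (finrank F E).Prime) (hn : finrank F E < Fintype.card ι)
    {M : Subgroup (GL ι F)} (hM : subalgebraNormalizer φ.range ⊓ specialLinear ι F ≤ M) {g : GL ι F}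
    (hg : g ∈ M) (hg' : g ∉ subalgebraNormalizer φ.range) : specialLinear ι F ≤ M := by
  have : Module.Finite F E := Module.finite_of_finrank_pos hr.pos
  have hm := two_le_finrank_EV (φ := φ) hn
  have h1 : OvE E (M.map (gE φ).toMonoidHom) := fun x hx => ⟨(gE φ).symm (rs F x),
    hM ⟨rs_mem_normalizer x, mem_specialLinear.2 (by rw [det_rs, hx])⟩, by simp⟩
  intro x hx
  obtain ⟨y, hy, h2⟩ := h1.sl_le_of_not hr hm ⟨g, hg, rfl⟩ (mt mem_normalizer_of_nrmE hg')
    ((mem_sl_gE x).1 hx)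
  rwa [← (gE φ).injective h2]

theorem exists_det_normalizer [Finite E] [Nonempty ι] (c : Fˣ) :
    ∃ g ∈ subalgebraNormalizer φ.range, g.val.det = c := by
  have := finite_of_algebra F E
  obtain ⟨α, hα⟩ := FiniteField.unitsMap_norm_surjective F E c
  have : Nontrivial (EV φ) := inferInstanceAs (Nontrivial (ι → F))
  obtain ⟨v, hv⟩ := exists_ne (0 : EV φ)
  obtain ⟨ψ, hψ⟩ := exists_dual_one (F := E) hv
  have h1 : 1 + ((α - 1 : E) • ψ) v = α := by simp [hψ]
  exact ⟨_, rs_mem_normalizer (H10.dtv v ((α - 1 : E) • ψ)), by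
    rw [det_rs, H10.det_dtv (h1.trans_ne α.ne_zero), h1, ← hα]; rfl⟩

theorem eq_top_of_sl_le {M : Subgroup (GL ι F)} (h : specialLinear ι F ≤ M)
    (h1 : ∀ c : Fˣ, ∃ g ∈ M, g.val.det = c) : M = ⊤ := by
  refine eq_top_iff.2 fun x _ => ?_
  obtain ⟨g, hg, h2⟩ := h1 (GeneralLinearGroup.det x)
  have h3 : g⁻¹ * x ∈ specialLinear ι F := mem_specialLinear.2 (by
    rw [← GeneralLinearGroup.val_det_apply, map_mul, map_inv,
      show GeneralLinearGroup.det g = GeneralLinearGroup.det x from Units.ext h2, inv_mul_cancel,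
      Units.val_one])
  simpa using mul_mem hg (h h3)

theorem fld_max [Finite F] {r : ℕ} (hr : r.Prime) (hn : r < Fintype.card ι)
    {K : Subalgebra F (Matrix ι ι F)} (hK : IsFieldSubalgebra r K) :
    IsCoatom (subalgebraNormalizer K) ∧
      IsMaximalIn (specialLinear ι F) (subalgebraNormalizer K ⊓ specialLinear ι F) := by
  have : Nonempty ι := Fintype.card_pos_iff.1 (by omega)
  letI := (isField_of_isFieldSubalgebra hK).toField
  have h1 := sl_not_le_field (by have := hr.two_le; omega) hK hr.ne_one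
  have h2 := fun M => fld_sl_le (φ := K.val) (M := M) (hK.finrank_eq ▸ hr) (hK.finrank_eq ▸ hn)
  have h3 := exists_det_normalizer (φ := K.val)
  rw [Subalgebra.range_val] at h2 h3
  refine ⟨⟨fun h => h1 (h ▸ le_top), fun M hM => ?_⟩,
    MaxP.isMaximalIn (fun M hM _ g hg hg' => h2 M hM hg hg') h1⟩
  obtain ⟨g, hg, hg'⟩ := SetLike.exists_of_lt hM
  exact eq_top_of_sl_le (h2 M (inf_le_left.trans hM.le) hg hg') fun c =>
    (h3 c).imp fun _ h => ⟨hM.le h.1, h.2⟩

theorem exists_semi_unip [Module.Finite F E] (hn : finrank F E < Fintype.card ι) (ρ : E →ₐ[F] E)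
    {k₀ : E} (h0 : ρ k₀ ≠ k₀) : ∃ g ∈ specialLinear ι F, g ∉ subalgebraNormalizer φ.range ∧
      ∀ k, ρ k = k → g.val * φ k = φ k * g.val := by
  have hm := two_le_finrank_EV (φ := φ) hn
  have : Nontrivial (EV φ) := Module.nontrivial_of_finrank_pos (R := E) (by omega)
  obtain ⟨v, hv⟩ := exists_ne (0 : EV φ)
  obtain ⟨x, -, hx⟩ := exists_not_mem_of_lt (W := E ∙ v) (U := ⊤) (by
    have := finrank_span_one_le (F := E) v; rw [finrank_top]; omega)
  obtain ⟨ψ, h1, h2⟩ := exists_dual hx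
  have h3 := h2 v (Submodule.mem_span_singleton_self v)
  let g := unip ((LinearMap.toSpanSingleton E _ v).restrictScalars F ∘ₗ ρ.toLinearMap ∘ₗ
    ψ.restrictScalars F) (fun y => by simp [h3])
  have hg : ∀ y, g y = y + ρ (ψ y) • v := fun _ => rfl
  refine ⟨(gE φ).symm g, (mem_sl_gE _).2 (by rw [MulEquiv.apply_symm_apply]; exact unip_mem_SLv _ _), fun h => ?_,
    fun k hk => EV.ext_mulVec φ fun y => ?_⟩
  · obtain ⟨k', hk⟩ := nrmE_of_mem_normalizer h k₀
    have h4 := hk v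
    have h5 := hk x
    simp [hg, h1, h3, smul_left_injective E hv |>.eq_iff] at h4
    simp [hg, h1, ← h4, smul_left_injective E hv |>.eq_iff] at h5
    exact h0 h5
  · rw [← mulVec_mulVec, ← mulVec_mulVec, ← eq_gE, ← EV.eq_smul, ← EV.eq_smul, ← eq_gE]
    simp [hg, hk, mul_smul]

theorem fld_between [Fintype F] {r : ℕ} (hr1 : 1 < r) (hr : ¬ r.Prime) (hn : r < Fintype.card ι)
    {K : Subalgebra F (Matrix ι ι F)} (hK : IsFieldSubalgebra r K) :
    ∃ N : Subgroup (GL ι F), subalgebraNormalizer K ≤ N ∧ ¬ specialLinear ι F ≤ N ∧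
      ∃ g ∈ specialLinear ι F, g ∈ N ∧ g ∉ subalgebraNormalizer K := by
  have : Nonempty ι := Fintype.card_pos_iff.1 (by omega)
  letI := (isField_of_isFieldSubalgebra hK).toField
  obtain ⟨s, hs, h1, h2⟩ := (Nat.not_prime_iff_exists_dvd_lt hr1).1 hr
  have hK₀ := isFieldSubalgebra_frobFix hK hs
  refine ⟨subalgebraNormalizer (frobFix K hK.comm s), (Stable.frobFix (fun g hg x hx => (hg x).1 hx)
    _ _).le_normalizer, sl_not_le_field (by omega) hK₀ (by omega), ?_⟩
  have h3 : ∀ k : K, (FiniteField.frobeniusAlgHom F K ^ s) k = k ^ Fintype.card F ^ s := fun k => by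
    rw [AlgHom.coe_pow, FiniteField.coe_frobeniusAlgHom, pow_iterate]
  obtain ⟨k₀, h0⟩ : ∃ k : K, (FiniteField.frobeniusAlgHom F K ^ s) k ≠ k := by
    by_contra! h
    rw [show frobFix K hK.comm s = K from le_antisymm (fun x hx => hx.1) fun x hx =>
      ⟨hx, congrArg Subtype.val ((h3 _).symm.trans (h ⟨x, hx⟩))⟩] at hK₀
    exact h2.ne (hK₀.finrank_eq.symm.trans hK.finrank_eq)
  obtain ⟨g, h4, h5, h6⟩ := exists_semi_unip (φ := K.val) (hK.finrank_eq ▸ hn) _ h0
  exact ⟨g, h4, mem_normalizer_of_comm fun k hk => h6 ⟨k, hk.1⟩ ((h3 _).trans (Subtype.ext hk.2)),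
    by rwa [Subalgebra.range_val] at h5⟩

end Cfsg.Agent.H26.MX
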