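import Cfsg.Agent.H26.Lf1

namespace Cfsg.Agent.H26.Lf
open Subgroup

variable {G : Type*} [Group G]

/-- elements acting trivially on `A / (A ⊓ B)`. -/
def KK (A B : Subgroup G) : Subgroup G where
  carrier := {x | x ∈ normalizer (B : Set G) ∧ ∀ a ∈ A, x * a * x⁻¹ * a⁻¹ ∈ B}
  one_mem' := ⟨one_mem _, fun a _ => by simp⟩
  mul_mem' := by
    rintro x y ⟨x1, x3⟩ ⟨y1, y3⟩
    refine ⟨mul_mem x1 y1, fun a ha => ?_⟩
    have := B.mul_mem (nm x1 (y3 a ha)) (x3 a ha)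
    simpa [mul_assoc] using this
  inv_mem' := by
    rintro x ⟨x1, x3⟩
    refine ⟨inv_mem x1, fun a ha => ?_⟩
    have := nm (inv_mem x1) (B.inv_mem (x3 a ha))
    simpa [mul_assoc] using this

structure Cx (S A B : Subgroup G) : Prop extends St S A B where
  hz : ∀ z ∈ A ⊓ B, z ≠ 1 → centralizer {z} ≤ normalizer (S : Set G)
  hS : centralizer (S : Set G) ≤ S
  hf : ∀ t : G, orderOf t = 2 → ∃ g : G, g * t * g⁻¹ ∈ A ⊓ B

/-- root groups. -/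
def Rt (V : Subgroup G) : Prop := ∃ S A B : Subgroup G, Cx S A B ∧ V = A ⊓ B

variable [Finite G] {S A B : Subgroup G}

omit [Finite G] in
theorem mem_cj {H : Subgroup G} {g x : G} :
    x ∈ H.map (MulAut.conj g).toMonoidHom ↔ g⁻¹ * x * g ∈ H := by
  constructor
  · rintro ⟨a, ha, rfl⟩; simpa [mul_assoc] using ha
  · intro h; exact ⟨_, h, by simp [mul_assoc]⟩

theorem eq_one_of_odd {x : G} (ho : Odd (orderOf x)) (hp : IsPGroup 2 (zpowers x)) : x = 1 := by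
  obtain ⟨k, hk⟩ := IsPGroup.iff_card.1 hp
  rw [Nat.card_zpowers] at hk
  rcases k with _ | k
  · exact orderOf_eq_one_iff.1 (by simpa using hk)
  · rw [hk] at ho; exact absurd ho (by simp [pow_succ])

theorem dihed {v w : G} (hv : v * v = 1) (hw : w * w = 1) :
    (∃ c ∈ zpowers (v * w), c ≠ 1 ∧ c * c = 1 ∧ c * v = v * c ∧ c * w = w * c) ∨
      ∃ r ∈ zpowers (v * w), (r * v) * (r * v) = 1 ∧ (r * v) * v * (r * v) = w := by
  have iv : v⁻¹ = v := inv_eq_of_mul_eq_one_right hv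
  have iw : w⁻¹ = w := inv_eq_of_mul_eq_one_right hw
  have h1 : ∀ k : ℕ, v * (v * w) ^ k * v⁻¹ = ((v * w) ^ k)⁻¹ := fun k => by
    rw [← conj_pow, ← inv_pow]; congr 1
    rw [mul_inv_rev, iw, ← mul_assoc, hv, one_mul]
  have h2 : ∀ k : ℕ, w * (v * w) ^ k * w⁻¹ = ((v * w) ^ k)⁻¹ := fun k => by
    rw [← conj_pow, ← inv_pow]; congr 1
    rw [mul_inv_rev, iv]; group
    rw [zpow_neg_one, iw]
  rcases Nat.even_or_odd' (orderOf (v * w)) with ⟨k, hk | hk⟩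
  · left
    have hp := orderOf_pos (v * w)
    have hc : (v * w) ^ k * (v * w) ^ k = 1 := by rw [← pow_add, ← two_mul, ← hk, pow_orderOf_eq_one]
    have ic : ((v * w) ^ k)⁻¹ = (v * w) ^ k := inv_eq_of_mul_eq_one_right hc
    refine ⟨(v * w) ^ k, pow_mem (mem_zpowers _) _, pow_ne_one_of_lt_orderOf (by omega) (by omega),
      hc, ?_, ?_⟩
    · have := h1 k; rw [ic] at this; rw [← this]; nth_rewrite 2 [this]; rw [this, ← this]
      calc _ = v * (v * w) ^ k := by group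
        _ = _ := by rw [this]
    · have := h2 k; rw [ic] at this
      calc (v * w) ^ k * w = (w * (v * w) ^ k * w⁻¹) * w := by rw [this]
        _ = _ := by group
  · right
    refine ⟨(v * w) ^ k, pow_mem (mem_zpowers _) _, ?_, ?_⟩
    · have := h1 k; rw [iv] at this
      calc _ = (v * w) ^ k * (v * (v * w) ^ k * v) := by group
        _ = 1 := by rw [this]; group
    · have h3 : (v * w) ^ k * (v * w) ^ k * (v * w) = 1 := by
        rw [← pow_add, ← pow_succ, ← two_mul, ← hk, pow_orderOf_eq_one]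
      calc _ = (v * w) ^ k * (v * v) * (v * w) ^ k * v := by group
        _ = ((v * w) ^ k * (v * w) ^ k * (v * w)) * w⁻¹ * v⁻¹ * v := by rw [hv]; group
        _ = w := by rw [h3, iw]; group

namespace St

theorem leKK (h : St S A B) : S ≤ KK A B := fun _ hs =>
  ⟨h.nB (le_normalizer hs), fun _ ha => (h.comSA hs ha).2⟩

theorem four' (h : St S A B) {σ a : G} (hσ : σ ∈ normalizer (S : Set G)) (ha : a ∈ A) (haB : a ∉ B)
    (e : σ * a * σ⁻¹ * a⁻¹ ∈ B) : σ ∈ KK A B := by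
  obtain ⟨ρ, hρ, s, hs, ho, e1⟩ := h.oddpart hσ
  have hρS : ρ ∈ normalizer (S : Set G) := (zpowers_le).2 hσ hρ
  have h1 : ρ * a * ρ⁻¹ * a⁻¹ ∈ B := by
    have := B.mul_mem (B.inv_mem (nm (h.nB hρS) (h.comSA hs ha).2)) e
    rw [e1] at this
    simpa [mul_assoc] using this
  rw [e1]
  exact mul_mem ⟨h.nB hρS, h.fourA hρS ho ha haB h1⟩ (h.leKK hs)

theorem three (h : St S A B) {ρ σ : G} (hρ : ρ ∈ normalizer (S : Set G))
    (hσ : σ ∈ normalizer (S : Set G)) (hK : ρ ∉ KK A B) :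
    σ ∈ KK A B ∨ ρ⁻¹ * σ ∈ KK A B ∨ ρ * σ ∈ KK A B := by
  obtain ⟨a, ha, haB⟩ := h.exA
  have c1 := nm (h.nA hρ) ha
  have c1B : ρ * a * ρ⁻¹ ∉ B := fun e => haB (nm' (h.nB hρ) e)
  have c2 : a * (ρ * a * ρ⁻¹) ∉ B := fun e => hK (h.four' hρ ha haB (by
    rw [h.invA ha, ← h.commA ha c1]; exact e))
  have key : ∀ {σ : G}, σ ∈ normalizer (S : Set G) → σ ∈ KK A B ∨ ρ⁻¹ * σ ∈ KK A B ∨
      a * (ρ * a * ρ⁻¹) * (σ * a * σ⁻¹) ∈ B := by
    intro σ hσ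
    have d1 := nm (h.nA hσ) ha
    rcases h.cosA ha c1 d1 haB c1B c2 with h4 | h4 | h4 | h4
    · exact absurd (nm' (h.nB hσ) h4) haB
    · exact Or.inl (h.four' hσ ha haB (by rw [h.invA ha, ← h.commA ha d1]; exact h4))
    · refine Or.inr (Or.inl (h.four' (mul_mem (inv_mem hρ) hσ) ha haB ?_))
      have h5 := nm (inv_mem (h.nB hρ)) h4
      have d2 := nm (h.nA (mul_mem (inv_mem hρ) hσ)) ha
      rw [h.invA ha, ← h.commA ha d2]
      simpa [mul_assoc] using h5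
    · exact Or.inr (Or.inr h4)
  rcases key hσ with h1 | h1 | h1
  · exact Or.inl h1
  · exact Or.inr (Or.inl h1)
  right; right
  rcases key (inv_mem hρ) with h2 | h2 | h2
  · exact absurd (inv_mem_iff.1 h2) hK
  · exfalso
    obtain ⟨τ, hτ, s, hs, ho, e1⟩ := h.oddpart hρ
    have h3 : ρ * ρ ∈ KK A B := by simpa using inv_mem h2
    have hτS : τ ∈ normalizer (S : Set G) := (zpowers_le).2 hρ hτ
    have h4 : τ * τ ∈ KK A B := by
      have := mul_mem (mul_mem h3 (inv_mem (h.leKK hs)))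
        (inv_mem (h.leKK (nm (inv_mem hτS) hs)))
      have h5 : τ * τ * (τ⁻¹ * s * τ⁻¹⁻¹) * s = ρ * ρ := by rw [e1]; group
      rw [← h5] at this
      simpa [mul_assoc] using this
    exact hK (e1 ▸ mul_mem (mem_of_sq _ ho h4) (h.leKK hs))
  · refine h.four' (mul_mem hρ hσ) ha haB ?_
    have h5 := nm (h.nB hρ) (B.mul_mem (B.inv_mem h2) h1)
    have d2 := nm (h.nA (mul_mem hρ hσ)) ha
    rw [← h.commA (A.inv_mem ha) d2]
    simpa [mul_assoc] using h5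

/-- every element of `A \ Z` is `B`-conjugate into a second conjugate of `Z`. -/
theorem cover (h : St S A B) {W : Subgroup G} (hW : W ≤ A) (hc : Nat.card W = 4)
    (hd : ∀ w ∈ W, w ∈ B → w = 1) {a : G} (ha : a ∈ A) (haB : a ∉ B) :
    ∃ b ∈ B, ∃ w ∈ W, w ≠ 1 ∧ a = b * w * b⁻¹ := by
  have ex : ∃ w1 ∈ W, ∃ w2 ∈ W, w1 ≠ 1 ∧ w2 ≠ 1 ∧ w1 ≠ w2 := by
    have := Fintype.ofFinite W
    have : 2 < Fintype.card W := by rw [← Nat.card_eq_fintype_card]; omega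
    rw [Fintype.two_lt_card_iff] at this
    obtain ⟨x, y, z, h1, h2, h3⟩ := this
    refine ⟨_, (x⁻¹ * y).2, _, (x⁻¹ * z).2, fun e => h1 ?_, fun e => h2 ?_, fun e => h3 ?_⟩
    · exact inv_mul_eq_one.1 (Subtype.ext e)
    · exact inv_mul_eq_one.1 (Subtype.ext e)
    · exact mul_left_cancel (Subtype.ext e)
  obtain ⟨w1, h1, w2, h2, n1, n2, n3⟩ := ex
  have n4 : w1 * w2 ≠ 1 := fun e => n3 (by rw [← h.invA (hW h2)]; exact eq_inv_of_mul_eq_one_left e)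
  have key : ∀ w ∈ W, w ≠ 1 → w * a ∈ B → ∃ b ∈ B, ∃ w ∈ W, w ≠ 1 ∧ a = b * w * b⁻¹ := by
    intro w hw n e
    obtain ⟨b, hb, e2⟩ := h.onto (hW hw) (fun e => n (hd w hw e)) ⟨A.mul_mem (hW hw) ha, e⟩
    refine ⟨b, hb, w, hw, n, ?_⟩
    rw [h.invA (hW hw)] at e2
    have := congrArg (fun x => w⁻¹ * x) e2
    simpa [mul_assoc] using this.symm
  rcases h.cosA (hW h1) (hW h2) ha (fun e => n1 (hd _ h1 e)) (fun e => n2 (hd _ h2 e))
    (fun e => n4 (hd _ (mul_mem h1 h2) e)) with h4 | h4 | h4 | h4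
  · exact absurd h4 haB
  · exact key _ h1 n1 h4
  · exact key _ h2 n2 h4
  · exact key _ (mul_mem h1 h2) n4 h4

theorem pz (h : St S A B) {s : G} (hs : s ∈ S) : IsPGroup 2 (zpowers s) :=
  h.pS.to_le ((zpowers_le).2 hs)

theorem eq_of_le (h : St S A B) {S' A' B' : Subgroup G} (h' : St S' A' B')
    (hle : S' ≤ normalizer (S : Set G)) : S' = S ∧ A' ⊓ B' = A ⊓ B := by
  have e : S' = S := eq_of_le_of_card_ge (fun s hs => h.mem_of_two (hle hs) (h'.pz hs))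
    (by rw [h.cS, h'.cS])
  subst e
  exact ⟨rfl, le_antisymm (fun z hz => h.mem_Z_of_cen (h'.leZ hz) fun t ht => h'.cenZ ht hz)
    fun z hz => h'.mem_Z_of_cen (h.leZ hz) fun t ht => h.cenZ ht hz⟩

end St

namespace Cx

omit [Finite G] in
theorem symm (h : Cx S A B) : Cx S B A :=
  ⟨h.toSt.symm, by rw [inf_comm]; exact h.hz, h.hS, by rw [inf_comm]; exact h.hf⟩

theorem conj (h : Cx S A B) (g : G) :
    Cx (S.map (MulAut.conj g).toMonoidHom) (A.map (MulAut.conj g).toMonoidHom)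
      (B.map (MulAut.conj g).toMonoidHom) := by
  refine ⟨h.toSt.conj g, fun z hz hz1 c hc => nm_of fun s hs => ?_, fun c hc => ?_, fun t ht => ?_⟩
  · have h1 := h.hz (g⁻¹ * z * g) ⟨mem_cj.1 hz.1, mem_cj.1 hz.2⟩
      (fun e => hz1 (by
        calc z = g * (g⁻¹ * z * g) * g⁻¹ := by group
          _ = 1 := by rw [e]; group))
      (x := g⁻¹ * c * g) (by
        rw [mem_centralizer_singleton_iff] at hc ⊢
        calc _ = g⁻¹ * (c * z) * g := by group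
          _ = _ := by rw [hc]; group)
    have := nm h1 (mem_cj.1 hs)
    rw [mem_cj]; simpa [mul_assoc] using this
  · rw [mem_cj]
    refine h.hS fun s hs => ?_
    have := hc (g * s * g⁻¹) (mem_cj.2 (by simpa [mul_assoc] using hs))
    calc _ = g⁻¹ * (g * s * g⁻¹ * c) * g := by group
      _ = _ := by rw [this]; group
  · obtain ⟨k, hk⟩ := h.hf t ht
    exact ⟨g * k, mem_cj.2 (by simpa [mul_assoc] using hk.1), mem_cj.2 (by simpa [mul_assoc] using hk.2)⟩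

omit [Finite G] in
theorem rt (h : Cx S A B) : Rt (A ⊓ B) := ⟨S, A, B, h, rfl⟩

theorem uniq (h : Cx S A B) {S' A' B' : Subgroup G} (h' : St S' A' B') {t : G} (ht : t ∈ A ⊓ B)
    (ht' : t ∈ A' ⊓ B') (h1 : t ≠ 1) : S' = S ∧ A' ⊓ B' = A ⊓ B :=
  h.toSt.eq_of_le h' fun _ hs => h.hz t ht h1 (mem_centralizer_singleton_iff.2 (h'.cenZ hs ht'))

theorem nS (h : Cx S A B) {g z : G} (hz : z ∈ A ⊓ B) (h1 : z ≠ 1) (hg : g * z * g⁻¹ ∈ A ⊓ B) :
    g ∈ normalizer (S : Set G) := by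
  have := (h.uniq (h.toSt.conj g) hg ⟨⟨z, hz.1, rfl⟩, ⟨z, hz.2, rfl⟩⟩ (by simpa using h1)).1
  exact nm_of fun s hs => this ▸ ⟨s, hs, rfl⟩

theorem nS' (h : Cx S A B) {g : G} (hg : g ∈ normalizer ((A ⊓ B : Subgroup G) : Set G)) :
    g ∈ normalizer (S : Set G) := by
  obtain ⟨z, hz, h1⟩ := h.exZ
  exact h.nS hz h1 (nm hg hz)

theorem odd1 (h : Cx S A B) {ρ : G} (ho : Odd (orderOf ρ)) (e : ∀ s ∈ S, ρ * s = s * ρ) : ρ = 1 :=
  eq_one_of_odd ho (h.pz (h.hS fun s hs => (e s hs).symm))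

theorem tAB (h : Cx S A B) {σ : G} (hσ : σ ∈ normalizer (S : Set G)) (h1 : σ ∈ KK A B)
    (h2 : σ ∈ KK B A) : σ ∈ S := by
  obtain ⟨ρ, hρ, s, hs, ho, e1⟩ := h.oddpart hσ
  have := h.odd1 ho (h.triAB ((zpowers_le).2 hσ hρ) ho ((zpowers_le).2 h1 hρ).2
    ((zpowers_le).2 h2 hρ).2)
  rw [e1, this, one_mul]; exact hs

theorem tAZ (h : Cx S A B) {ρ z : G} (ho : Odd (orderOf ρ)) (h1 : ρ ∈ KK A B) (hz : z ∈ A ⊓ B)
    (hz1 : z ≠ 1) (e : ρ * z = z * ρ) : ρ = 1 := by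
  have hρ := h.hz z hz hz1 (mem_centralizer_singleton_iff.2 e)
  exact h.odd1 ho (h.triAZ hρ ho h1.2 (h.fourZ (h.nZ hρ) ho hz hz1 e))

/-- 2-elements commuting with `z ∈ Z#` and an odd element `x` centralising `z` lie in `Z`. -/
theorem r3 (h : Cx S A B) {x z s : G} (ho : Odd (orderOf x)) (hx : x ≠ 1) (hz : z ∈ A ⊓ B)
    (hz1 : z ≠ 1) (e : x * z = z * x) (hp : IsPGroup 2 (zpowers s)) (e1 : s * z = z * s)
    (e2 : s * x = x * s) : s ∈ A ⊓ B := by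
  have hρ := h.hz z hz hz1 (mem_centralizer_singleton_iff.2 e)
  have hs := h.mem_of_two (h.hz z hz hz1 (mem_centralizer_singleton_iff.2 e1)) hp
  obtain ⟨a, ha, b, hb, rfl⟩ := h.mem_iff.1 hs
  have e3 : x * a * x⁻¹ * a⁻¹ = a * (b * (x * b * x⁻¹)⁻¹) * a⁻¹ := by
    calc _ = (x * (a * b)) * x⁻¹ * (x * b * x⁻¹)⁻¹ * a⁻¹ := by group
      _ = _ := by rw [← e2]; group
  have hB : x * a * x⁻¹ * a⁻¹ ∈ B := by
    rw [e3]; exact h.conjB (h.leA ha) (mul_mem hb (inv_mem (nm (h.nB hρ) hb)))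
  have hA : x * b * x⁻¹ * b⁻¹ ∈ A := by
    have : x * b * x⁻¹ * b⁻¹ = (x * a * x⁻¹)⁻¹ * a := by
      calc _ = (x * a * x⁻¹)⁻¹ * (x * (a * b)) * x⁻¹ * b⁻¹ := by group
        _ = _ := by rw [← e2]; group
    rw [this]; exact mul_mem (inv_mem (nm (h.nA hρ) ha)) ha
  have haB : a ∈ B := by
    by_contra hc
    exact hx (h.tAZ ho (h.four' hρ ha hc hB) hz hz1 e)
  have hbA : b ∈ A := by
    by_contra hc
    exact hx (h.symm.tAZ ho (h.toSt.symm.four' hρ hb hc hA) ⟨hz.2, hz.1⟩ hz1 e)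
  exact ⟨A.mul_mem ha hbA, B.mul_mem haB hb⟩

theorem r4 (h : Cx S A B) {t : G} (h2 : t * t = 1) (h1 : t ≠ 1) : ∃ V, Rt V ∧ t ∈ V := by
  obtain ⟨g, hg⟩ := h.hf t (orderOf_eq_prime (by rw [pow_two, h2]) h1)
  exact ⟨_, (h.conj g⁻¹).rt, mem_cj.2 (by simpa using hg.1), mem_cj.2 (by simpa using hg.2)⟩

theorem compl (h : Cx S A B) {T : Subgroup G} (hT : T ≤ normalizer (S : Set G))
    (ho : ∀ τ ∈ T, Odd (orderOf τ)) {x y : G} (hx : x ∈ T) (hy : y ∈ T) (n1 : x ≠ 1) (n2 : y ≠ 1)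
    (n3 : x⁻¹ * y ≠ 1) (n4 : x * y ≠ 1) {m : G} (hm : m ∈ normalizer (S : Set G)) :
    ∃ s ∈ S, ∃ τ ∈ T, m = s * τ := by
  have ex : ∀ {A B : Subgroup G}, Cx S A B → ∃ p ∈ T, p ∈ KK A B ∧ p ∉ KK B A := by
    intro A B h
    have : ∃ p ∈ T, p ≠ 1 ∧ p ∈ KK A B := by
      by_cases hK : x ∈ KK A B
      · exact ⟨x, hx, n1, hK⟩
      rcases h.three (hT hx) (hT hy) hK with h1 | h1 | h1
      · exact ⟨_, hy, n2, h1⟩
      · exact ⟨_, mul_mem (inv_mem hx) hy, n3, h1⟩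
      · exact ⟨_, mul_mem hx hy, n4, h1⟩
    obtain ⟨p, hp, p1, p2⟩ := this
    exact ⟨p, hp, p2, fun p3 => p1 (eq_one_of_odd (ho p hp) (h.pz (h.tAB (hT hp) p2 p3)))⟩
  obtain ⟨p, hp, p1, p2⟩ := ex h
  obtain ⟨q, hq, q1, q2⟩ := ex h.symm
  have s1 : ∃ τ ∈ T, τ * m ∈ KK A B := by
    rcases h.three (hT hq) hm q2 with h1 | h1 | h1
    · exact ⟨1, one_mem _, by simpa using h1⟩
    · exact ⟨_, inv_mem hq, h1⟩
    · exact ⟨_, hq, h1⟩
  obtain ⟨τ, hτ, t1⟩ := s1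
  have hm' := mul_mem (hT hτ) hm
  have s2 : ∃ σ ∈ T, σ * (τ * m) ∈ KK A B ∧ σ * (τ * m) ∈ KK B A := by
    rcases h.toSt.symm.three (hT hp) hm' p2 with h1 | h1 | h1
    · exact ⟨1, one_mem _, by simpa using t1, by simpa using h1⟩
    · exact ⟨_, inv_mem hp, mul_mem (inv_mem p1) t1, h1⟩
    · exact ⟨_, hp, mul_mem p1 t1, h1⟩
  obtain ⟨σ, hσ, u1, u2⟩ := s2
  have := h.tAB (mul_mem (hT hσ) hm') u1 u2
  have hst := mul_mem hσ hτ
  exact ⟨_, nm (inv_mem (hT hst)) this, (σ * τ)⁻¹, inv_mem hst, by group⟩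

end Cx

namespace Rt
variable {V W : Subgroup G}

theorem conj (h : Rt V) (g : G) : Rt (V.map (MulAut.conj g).toMonoidHom) := by
  obtain ⟨S, A, B, h, rfl⟩ := h
  exact ⟨_, _, _, h.conj g, map_inf _ _ _ (MulAut.conj g).injective⟩

theorem ti (h : Rt V) (h' : Rt W) {t : G} (ht : t ∈ V) (ht' : t ∈ W) (h1 : t ≠ 1) : W = V := by
  obtain ⟨S, A, B, h, rfl⟩ := h
  obtain ⟨S', A', B', h', rfl⟩ := h'
  exact (h.uniq h'.toSt ht ht' h1).2

theorem nrm (h : Rt V) {g t : G} (ht : t ∈ V) (h1 : t ≠ 1) (hg : g * t * g⁻¹ ∈ V) :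
    g ∈ normalizer (V : Set G) := by
  obtain ⟨S, A, B, h, rfl⟩ := h
  exact h.nZ (h.nS ht h1 hg)

omit [Finite G] in
theorem sq (h : Rt V) {t : G} (ht : t ∈ V) : t * t = 1 := by
  obtain ⟨S, A, B, h, rfl⟩ := h
  exact h.sqA t ht.1

omit [Finite G] in
theorem card (h : Rt V) : Nat.card V = 4 := by
  obtain ⟨S, A, B, h, rfl⟩ := h
  exact h.cZ

omit [Finite G] in
theorem ex (h : Rt V) : ∃ t ∈ V, t ≠ 1 := by
  obtain ⟨S, A, B, h, rfl⟩ := h
  exact h.exZ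

theorem cen (h : Rt V) {x t : G} (ho : Odd (orderOf x)) (ht : t ∈ V) (h1 : t ≠ 1)
    (e : x * t = t * x) : ∀ v ∈ V, x * v = v * x := by
  obtain ⟨S, A, B, h, rfl⟩ := h
  exact h.fourZ (h.nZ (h.hz t ht h1 (mem_centralizer_singleton_iff.2 e))) ho ht h1 e

theorem r3 (h : Rt V) {x z s : G} (ho : Odd (orderOf x)) (hx : x ≠ 1) (hz : z ∈ V)
    (hz1 : z ≠ 1) (e : x * z = z * x) (hp : IsPGroup 2 (zpowers s)) (e1 : s * z = z * s)
    (e2 : s * x = x * s) : s ∈ V := by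
  obtain ⟨S, A, B, h, rfl⟩ := h
  exact h.r3 ho hx hz hz1 e hp e1 e2

/-- a 2-element normalising `V` and centralising `x` lies in `V`. -/
theorem r3' (h : Rt V) {x s : G} (ho : Odd (orderOf x)) (hx : x ≠ 1) (e : ∀ v ∈ V, x * v = v * x)
    (hp : IsPGroup 2 (zpowers s)) (e1 : s ∈ normalizer (V : Set G)) (e2 : s * x = x * s) :
    s ∈ V := by
  obtain ⟨S, A, B, h, rfl⟩ := h
  obtain ⟨z, hz, h1⟩ := h.exZ
  exact h.r3 ho hx hz h1 (e z hz) hp (h.cenZ (h.mem_of_two (h.nS' e1) hp) hz) e2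

theorem cen3 (h : Rt V) {T : Subgroup G} (ho : ∀ τ ∈ T, Odd (orderOf τ)) {t x y : G} (ht : t ∈ V)
    (h1 : t ≠ 1) (hx : x ∈ T) (hy : y ∈ T) (n1 : x ≠ 1) (ex : x * t = t * x) (ey : y * t = t * y) :
    y = 1 ∨ x⁻¹ * y = 1 ∨ x * y = 1 := by
  obtain ⟨S, A, B, h, rfl⟩ := h
  have cx := mem_centralizer_singleton_iff.2 ex
  have cy := mem_centralizer_singleton_iff.2 ey
  rcases h.three (h.hz t ht h1 cx) (h.hz t ht h1 cy) (fun hK => n1 (h.tAZ (ho x hx) hK ht h1 ex))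
    with h2 | h2 | h2
  · exact Or.inl (h.tAZ (ho _ hy) h2 ht h1 ey)
  · exact Or.inr (Or.inl (h.tAZ (ho _ (mul_mem (inv_mem hx) hy)) h2 ht h1
      (mem_centralizer_singleton_iff.1 (mul_mem (inv_mem cx) cy))))
  · exact Or.inr (Or.inr (h.tAZ (ho _ (mul_mem hx hy)) h2 ht h1
      (mem_centralizer_singleton_iff.1 (mul_mem cx cy))))

/-- two distinct root groups centralised by `x` are swapped by an involution. -/
theorem swap (h : Rt V) (h' : Rt W) (hne : W ≠ V) {x v w : G} (ho : Odd (orderOf x)) (hx : x ≠ 1)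
    (hv : v ∈ V) (hw : w ∈ W) (v1 : v ≠ 1) (w1 : w ≠ 1) (ev : x * v = v * x) (ew : x * w = w * x) :
    ∃ r ∈ zpowers (v * w), (r * v) * (r * v) = 1 ∧ (r * v) * v * (r * v) = w := by
  rcases dihed (h.sq hv) (h'.sq hw) with ⟨c, hc, c1, c2, c3, c4⟩ | h2
  · have cx : c ∈ centralizer ({x} : Set G) := (zpowers_le).2 (mul_mem
      (mem_centralizer_singleton_iff.2 ev.symm) (mem_centralizer_singleton_iff.2 ew.symm)) hc
    have cx' := mem_centralizer_singleton_iff.1 cx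
    exact absurd (h.ti h' (h.r3 ho hx hv v1 ev (pg_two c2) c3 cx')
      (h'.r3 ho hx hw w1 ew (pg_two c2) c4 cx') c1) hne
  · exact h2

end Rt

/-- the root group centralised by an element of order 3 acting trivially on `B/Z`. -/
theorem Cx.root (h : Cx S A B) {T : Subgroup G} (hT : T ≤ normalizer (S : Set G))
    (hc : ∀ σ ∈ T, ∀ τ ∈ T, σ * τ = τ * σ) {x : G} (hx : x ∈ T) (ho : Odd (orderOf x)) (x1 : x ≠ 1)
    (x3 : x * x * x = 1) (hK : x ∈ KK B A) :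
    ∃ V, Rt V ∧ V ≤ B ∧ (∀ v ∈ V, v ∈ A → v = 1) ∧ (∀ v ∈ V, x * v = v * x) ∧
      T ≤ normalizer (V : Set G) := by
  obtain ⟨b, hb, hbA⟩ := h.toSt.symm.exA
  have nB := h.nB (hT hx)
  have b1 := nm nB hb
  have b2 := nm nB b1
  obtain ⟨t, ht⟩ : ∃ t, t = b * (x * b * x⁻¹) * (x * (x * b * x⁻¹) * x⁻¹) := ⟨_, rfl⟩
  have tB : t ∈ B := ht ▸ mul_mem (mul_mem hb b1) b2
  have tA : t ∉ A := fun e => by
    have k1 := hK.2 _ b1
    rw [h.invB b1, h.commB b2 b1] at k1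
    apply hbA
    have := A.mul_mem e (A.inv_mem k1)
    rwa [ht, mul_assoc b, mul_inv_cancel_right] at this
  have t1 : t ≠ 1 := fun e => tA (e ▸ A.one_mem)
  have xt : x * t = t * x := by
    have e1 : x * t * x⁻¹ = (x * b * x⁻¹) * (x * (x * b * x⁻¹) * x⁻¹) *
        ((x * x * x) * b * (x * x * x)⁻¹) := by rw [ht]; group
    rw [x3, one_mul, inv_one, mul_one, ← h.commB hb (mul_mem b1 b2), ← mul_assoc b, ← ht] at e1
    calc x * t = (x * t * x⁻¹) * x := by group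
      _ = _ := by rw [e1]
  obtain ⟨V, hV, tV⟩ := h.r4 (h.sqB t tB) t1
  have hVB : V ≤ B := by
    intro v hv
    obtain ⟨S', A', B', h', rfl⟩ := hV
    obtain ⟨z, hz, z1⟩ := h.exZ
    have zS : z ∈ S' := h'.mem_of_two (h'.hz t tV t1
      (mem_centralizer_singleton_iff.2 (h.commB hz.2 tB))) (pg_two (h.sqA z hz.1))
    have vS : v ∈ S := h.mem_of_two (h.hz z hz z1
      (mem_centralizer_singleton_iff.2 (h'.cenZ zS hv).symm)) (pg_two (h'.sqA v hv.1))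
    exact h.toSt.symm.cenA tB tA vS (h'.commA hv.1 tV.1)
  refine ⟨V, hV, hVB, fun v hv hvA => ?_, hV.cen ho tV t1 xt, fun τ hτ => ?_⟩
  · by_contra v1
    have := hV.ti h.rt hv ⟨hvA, hVB hv⟩ v1
    exact tA (this ▸ tV : t ∈ A ⊓ B).1
  · have c1 := nm (h.nB (hT hτ)) tB
    refine hV.nrm tV t1 (hV.r3 ho x1 tV t1 xt (pg_two (h.sqB _ c1)) (h.commB c1 tB) ?_)
    calc τ * t * τ⁻¹ * x = τ * (t * x) * τ⁻¹ := by
          rw [mul_assoc (τ * t), hc _ (inv_mem hτ) _ hx]; group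
      _ = (τ * x) * t * τ⁻¹ := by rw [← xt]; group
      _ = _ := by rw [hc _ hτ _ hx]; group

end Cfsg.Agent.H26.Lf
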