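import Cfsg.Agent.H26.Lf2
import Cfsg.Agent.S1220

namespace Cfsg.Agent.H26.Lf
open Subgroup

variable {G : Type*} [Group G]

structure Tor (S A B T : Subgroup G) (x1 x2 y : G) : Prop where
  cx : Cx S A B
  hT : T ≤ normalizer (S : Set G)
  odd : ∀ τ ∈ T, Odd (orderOf τ)
  comm : ∀ σ ∈ T, ∀ τ ∈ T, σ * τ = τ * σ
  cube : ∀ τ ∈ T, τ * τ * τ = 1
  x1T : x1 ∈ T
  x2T : x2 ∈ T
  yT : y ∈ T
  x1K : x1 ∈ KK B A
  x2K : x2 ∈ KK A B
  n1 : x1 ≠ 1
  n2 : x2 ≠ 1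
  part : ∀ τ ∈ T, τ ∈ zpowers y ∨ τ ∈ KK A B ∨ τ ∈ KK B A ∨ ∀ z ∈ A ⊓ B, τ * z = z * τ
  x1y : x1 ∉ zpowers y
  x2y : x2 ∉ zpowers y

structure R1 (S A T : Subgroup G) (x y w : G) (U : Subgroup G) : Prop where
  US : U ≤ S
  dec : ∀ s ∈ S, ∃ a ∈ A, ∃ u ∈ U, s = a * u
  w2 : w * w = 1
  wA : w ∈ normalizer (A : Set G)
  wS : w ∉ normalizer (S : Set G)
  wT : ∀ τ ∈ T, w * τ * w ∈ T
  del : ∀ τ ∈ T, τ * (w * τ⁻¹ * w) ∈ zpowers y
  bru : ∀ u ∈ U, u ≠ 1 → ∃ v1 ∈ U, ∃ v2 ∈ U, ∃ η ∈ zpowers y, w * u * w = v1 * w * η * v2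
  two : ∀ W, Rt W → (∀ v ∈ W, x * v = v * x) → T ≤ normalizer (W : Set G) →
    (∀ u ∈ U, u ∈ W) ∨ (∀ u ∈ U, w * u * w ∈ W)

variable [Finite G] {S A B T : Subgroup G} {x1 x2 y : G}

theorem Rt.trans {U : Subgroup G} (hU : Rt U) {x j : G} (ho : Odd (orderOf x)) (hx : x ≠ 1)
    (e : ∀ v ∈ U, x * v = v * x) (jx : j * x = x * j) (jU : j ∉ normalizer (U : Set G))
    {g1 g2 : G} (e1 : g1 * x = x * g1) (e2 : g2 * x = x * g2) (n1 : g1 ∉ normalizer (U : Set G))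
    (n2 : g2 ∉ normalizer (U : Set G)) :
    ∃ m ∈ normalizer (U : Set G), m * x = x * m ∧ g2⁻¹ * (m * g1) ∈ normalizer (U : Set G) := by
  let H := centralizer ({x} : Set G)
  have mH : ∀ {g : G}, g * x = x * g → g ∈ H := fun h => mem_centralizer_singleton_iff.2 h
  have mH' : ∀ g : H, (g : G) * x = x * g := fun g => mem_centralizer_singleton_iff.1 g.2
  let M : Subgroup H := (normalizer (U : Set G)).subgroupOf H
  obtain ⟨v, hv, v1⟩ := hU.ex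
  have key : ∀ t : H, t ∈ M → orderOf t = 2 → (t : G) ∈ U := fun t ht h2 =>
    hU.r3' ho hx e (pg_two (by
      have := pow_orderOf_eq_one t
      rw [h2, pow_two] at this
      exact congrArg Subtype.val this)) ht (mH' t)
  have hse : Cfsg.IsStronglyEmbedded M := by
    refine ⟨fun h => jU ((h ▸ mem_top (⟨j, mH jx⟩ : H) : (⟨j, mH jx⟩ : H) ∈ M)), ?_, fun g hg => ?_⟩
    · have h1 : orderOf (⟨v, mH (e v hv).symm⟩ : H) = 2 :=
        orderOf_eq_prime (by ext; simpa [pow_two] using hU.sq hv) (fun h => v1 (congrArg Subtype.val h))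
      exact even_iff_two_dvd.2 (h1 ▸ M.orderOf_dvd_natCard (le_normalizer hv))
    · by_contra hc
      obtain ⟨t, ht⟩ := exists_prime_orderOf_dvd_card' 2 (even_iff_two_dvd.1 (Nat.not_odd_iff_even.1 hc))
      have ht2 : orderOf (t : H) = 2 := by rw [orderOf_coe, ht]
      have k1 := key t t.2.1 ht2
      have k2 := key (g⁻¹ * t * g) (mem_cj.1 t.2.2) (by
        rw [← ht2]; simpa using (MulAut.conj g⁻¹).orderOf_eq (t : H))
      have t1 : ((t : H) : G) ≠ 1 := fun h => by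
        have : (t : H) = 1 := Subtype.ext h
        rw [this] at ht2; simp at ht2
      exact hg (inv_mem_iff.1 (hU.nrm (g := (g : G)⁻¹) k1 t1 (by simpa using k2)))
  rcases Cfsg.Agent.S1220.result M hse with h | ⟨h, -⟩
  · obtain ⟨m, hm, h2⟩ := h ⟨g1, mH e1⟩ ⟨g2, mH e2⟩ n1 n2
    exact ⟨m, hm, mH' m, h2⟩
  exfalso
  have pU : IsPGroup 2 U := IsPGroup.of_card (n := 2) (by rw [hU.card]; norm_num)
  have UH : U ≤ H := fun u hu => mH (e u hu).symm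
  obtain ⟨Q, hQ⟩ := (pU.comap_of_injective H.subtype H.subtype_injective).exists_le_sylow
  have pq : ∀ q : (Q : Subgroup H), IsPGroup 2 (zpowers ((q : H) : G)) := fun q =>
    (Q.isPGroup'.map H.subtype).to_le ((zpowers_le).2 ⟨q, q.2, rfl⟩)
  let vq : (Q : Subgroup H) := ⟨⟨v, UH hv⟩, hQ hv⟩
  have : Nontrivial (Q : Subgroup H) := ⟨vq, 1, fun h => v1 (congrArg (fun q : (Q : Subgroup H) => ((q : H) : G)) h)⟩
  have := Q.isPGroup'.center_nontrivial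
  obtain ⟨t0, ht0⟩ := exists_ne (1 : center (Q : Subgroup H))
  have c0 : ∀ q : (Q : Subgroup H), ((q : H) : G) * (t0.1 : H) = (t0.1 : H) * ((q : H) : G) := fun q =>
    congrArg (fun q : (Q : Subgroup H) => ((q : H) : G)) (mem_center_iff.1 t0.2 q)
  have t0U : ((t0.1 : H) : G) ∈ U := hU.r3 ho hx hv v1 (e v hv) (pq _) (c0 vq).symm (mH' _)
  have t01 : ((t0.1 : H) : G) ≠ 1 := fun h => ht0 (Subtype.ext (Subtype.ext (Subtype.ext h)))
  have sq : ∀ q : (Q : Subgroup H), q ^ 2 = 1 := fun q => by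
    have := hU.sq (hU.r3 ho hx t0U t01 (e _ t0U) (pq q) (c0 q) (mH' _))
    ext; simpa [pow_two] using this
  rcases h Q with hc | ⟨m, hm, ⟨f⟩⟩
  · obtain ⟨g, hg⟩ := IsCyclic.exists_ofOrder_eq_natCard (α := (Q : Subgroup H))
    have h1 := Nat.le_of_dvd two_pos (hg ▸ orderOf_dvd_of_pow_eq_one (sq g))
    have h2 := card_le_of_le hQ
    have h3 : Nat.card (U.comap H.subtype) = 4 := by
      rw [← hU.card]; exact Nat.card_congr (subgroupOfEquivOfLe UH).toEquiv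
    omega
  · have h1 := sq (f.symm (QuaternionGroup.xa 0))
    rw [← map_pow, EmbeddingLike.map_eq_one_iff] at h1
    have := Nat.le_of_dvd two_pos (orderOf_dvd_of_pow_eq_one h1)
    rw [QuaternionGroup.orderOf_xa] at this
    omega

theorem Rt.dec {U : Subgroup G} (hU : Rt U) (hT : T ≤ normalizer (U : Set G))
    (ho : ∀ τ ∈ T, Odd (orderOf τ)) (hc : ∀ σ ∈ T, ∀ τ ∈ T, σ * τ = τ * σ) {x y : G} (hx : x ∈ T)
    (hy : y ∈ T) (n1 : x ≠ 1) (n2 : y ≠ 1) (n3 : x⁻¹ * y ≠ 1) (n4 : x * y ≠ 1)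
    (e : ∀ v ∈ U, x * v = v * x) {m : G} (hm : m ∈ normalizer (U : Set G)) (mx : m * x = x * m) :
    ∃ u ∈ U, ∃ τ ∈ T, m = u * τ := by
  have hU' := hU
  obtain ⟨S, A, B, h, rfl⟩ := hU
  obtain ⟨s, hs, τ, hτ, e1⟩ := h.compl (fun τ hτ => h.nS' (hT hτ)) ho hx hy n1 n2 n3 n4 (h.nS' hm)
  refine ⟨s, hU'.r3' (ho x hx) n1 e (h.pz hs) (h.nZ (le_normalizer hs)) ?_, τ, hτ, e1⟩
  have : s = m * τ⁻¹ := by rw [e1]; group
  rw [this, mul_assoc, hc _ (inv_mem hτ) _ hx, ← mul_assoc, mx, mul_assoc]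

namespace Tor

omit [Finite G] in
theorem symm (h : Tor S A B T x1 x2 y) : Tor S B A T x2 x1 y :=
  ⟨h.cx.symm, h.hT, h.odd, h.comm, h.cube, h.x2T, h.x1T, h.yT, h.x2K, h.x1K, h.n2, h.n1,
    fun τ hτ => by rw [inf_comm]; rcases h.part τ hτ with h | h | h | h <;> simp_all, h.x2y, h.x1y⟩

theorem one (h : Tor S A B T x1 x2 y) {τ : G} (hτ : τ ∈ T) (h1 : τ ∈ KK A B) (h2 : τ ∈ KK B A) :
    τ = 1 := eq_one_of_odd (h.odd τ hτ) (h.cx.pz (h.cx.tAB (h.hT hτ) h1 h2))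

theorem inK (h : Tor S A B T x1 x2 y) {τ : G} (hτ : τ ∈ T) (h1 : τ ∈ KK B A) :
    τ ∈ zpowers x1 := by
  rcases h.cx.three (h.hT h.x1T) (h.hT hτ) (fun e => h.n1 (h.one h.x1T e h.x1K)) with e | e | e
  · rw [h.one hτ e h1]; exact one_mem _
  · have := h.one (mul_mem (inv_mem h.x1T) hτ) e (mul_mem (inv_mem h.x1K) h1)
    rw [← inv_mul_eq_one.1 this]; exact mem_zpowers _
  · have := h.one (mul_mem h.x1T hτ) e (mul_mem h.x1K h1)
    rw [eq_inv_of_mul_eq_one_right this]; exact inv_mem (mem_zpowers _)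

theorem n3 (h : Tor S A B T x1 x2 y) : x1⁻¹ * x2 ≠ 1 := fun e =>
  h.n1 (h.one h.x1T (inv_mul_eq_one.1 e ▸ h.x2K) h.x1K)

theorem n4 (h : Tor S A B T x1 x2 y) : x1 * x2 ≠ 1 := fun e =>
  h.n1 (h.one h.x1T (eq_inv_of_mul_eq_one_left e ▸ inv_mem h.x2K) h.x1K)

theorem rank1 (h : Tor S A B T x1 x2 y) : ∃ w U, R1 S A T x1 y w U := by
  have c := h.cx
  have o1 := h.odd _ h.x1T
  obtain ⟨U, hU, UB, UA, xU, TU⟩ := c.root h.hT h.comm h.x1T o1 h.n1 (h.cube _ h.x1T) h.x1K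
  have US : U ≤ S := UB.trans c.leB
  have dec : ∀ s ∈ S, ∃ a ∈ A, ∃ u ∈ U, s = a * u := by
    intro s hs
    obtain ⟨a, ha, b, hb, rfl⟩ := c.mem_iff.1 hs
    by_cases hbA : b ∈ A
    · exact ⟨_, mul_mem ha hbA, 1, one_mem _, by simp⟩
    obtain ⟨a', ha', u, hu, -, rfl⟩ := c.toSt.symm.cover UB hU.card UA hb hbA
    exact ⟨a * (a' * (u * a'⁻¹ * u⁻¹)), mul_mem ha (mul_mem ha' (c.conjA (US hu) (inv_mem ha'))),
      u, hu, by group⟩
  obtain ⟨Z2, hZ2, ZA, ZB, xZ, TZ⟩ := c.symm.root h.hT h.comm h.x2T (h.odd _ h.x2T) h.n2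
    (h.cube _ h.x2T) h.x2K
  obtain ⟨t, ht, t1⟩ := hZ2.ex
  have tB : t ∉ B := fun e => t1 (ZB t ht e)
  obtain ⟨S2, B2, c2, hZ⟩ : ∃ S2 B2, Cx S2 A B2 ∧ Z2 = A ⊓ B2 := by
    obtain ⟨S2, A2, B2, c2, rfl⟩ := hZ2
    rcases c2.elem16 (E := A) (fun a ha => c2.mem_of_two (c2.hz t ht t1
      (mem_centralizer_singleton_iff.2 (c.commA ha (ZA ht)))) (pg_two (c.sqA a ha))) c.sqA c.cA
      with e | e
    · exact ⟨S2, B2, e ▸ c2, by rw [e]⟩
    · exact ⟨S2, A2, e ▸ c2.symm, by rw [e, inf_comm]⟩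
  have TS2 : T ≤ normalizer (S2 : Set G) := fun τ hτ => c2.nS' (hZ ▸ TZ hτ)
  have SS2 : ∀ s ∈ S, s ∈ S2 → s ∈ A := fun s hs hs2 =>
    c.cenA (ZA ht) tB hs (c2.cenZ hs2 (hZ ▸ ht))
  have allW : ∀ W, Rt W → W ≤ A → x1 ∈ normalizer (W : Set G) := by
    intro W hW WA
    obtain ⟨a, ha, a1⟩ := hW.ex
    by_cases haB : a ∈ B
    · rw [c.rt.ti hW ⟨WA ha, haB⟩ ha a1]; exact c.nZ (h.hT h.x1T)
    obtain ⟨b, hb, w, hw, w1, e⟩ := c.cover ZA hZ2.card ZB (WA ha) haB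
    obtain ⟨a0, ha0, u, hu, rfl⟩ := dec b (c.leB hb)
    have e2 : a = u * w * u⁻¹ := by
      have := c.commA ha0 (c.conjA (US hu) (ZA hw))
      calc a = (a0 * (u * w * u⁻¹)) * a0⁻¹ := by rw [e]; group
        _ = _ := by rw [this]; group
    have e3 := hW.ti (hZ2.conj u) ha ⟨w, hw, e2.symm⟩ a1
    refine hW.nrm ha a1 (e3 ▸ ⟨_, nm (TZ h.x1T) hw, ?_⟩)
    have q := xU u hu
    calc u * (x1 * w * x1⁻¹) * u⁻¹ = (u * x1) * w * (u * x1)⁻¹ := by group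
      _ = _ := by rw [← q, e2]; group
  have xK : x1 ∈ KK B2 A := by
    refine ⟨c.nA (h.hT h.x1T), fun b hb => ?_⟩
    have cB : x1 * b * x1⁻¹ * b⁻¹ ∈ B2 := mul_mem (nm (c2.nB (TS2 h.x1T)) hb) (inv_mem hb)
    obtain ⟨z, hz, z1⟩ := c.exZ
    have k1 := allW _ (c.rt.conj b⁻¹) (by
      rintro _ ⟨z, hz, rfl⟩; exact c2.conjA (inv_mem (c2.leB hb)) hz.1)
    have k2 := mem_cj.1 (nm (inv_mem k1) ⟨z, hz, rfl⟩)
    have k3 := nm (c.nZ (h.hT h.x1T)) k2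
    have k4 := c.nS (g := x1 * b * x1⁻¹ * b⁻¹) hz z1 (by simpa [mul_assoc] using k3)
    exact SS2 _ (c.mem_of_two k4 (pg_two (c2.sqB _ cB))) (c2.leB cB)
  obtain ⟨V, hV, VB, VA, xV, TV⟩ := c2.root TS2 h.comm h.x1T o1 h.n1 (h.cube _ h.x1T) xK
  obtain ⟨v, hv, v1⟩ := hU.ex
  obtain ⟨v', hv', v1'⟩ := hV.ex
  have VU : V ≠ U := fun e => v1 (UA v hv (SS2 v (US hv) (c2.leB (VB (e ▸ hv)))))
  have swp : ∀ {W : Subgroup G} {w0 : G}, Rt W → W ≠ U → w0 ∈ W → w0 ≠ 1 → x1 * w0 = w0 * x1 →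
      ∃ j, j * j = 1 ∧ j * v * j = w0 ∧ j * x1 = x1 * j ∧ j ∉ normalizer (U : Set G) ∧
        ∀ K : Subgroup G, v ∈ K → w0 ∈ K → j ∈ K := by
    intro W w0 hW ne hw w1 ew
    obtain ⟨r, hr, j2, e⟩ := hU.swap hW ne o1 h.n1 hv hw v1 w1 (xU v hv) ew
    have hK : ∀ K : Subgroup G, v ∈ K → w0 ∈ K → r * v ∈ K := fun K a b =>
      mul_mem ((zpowers_le).2 (mul_mem a b) hr) a
    refine ⟨r * v, j2, e, mem_centralizer_singleton_iff.1 (hK _
      (mem_centralizer_singleton_iff.2 (xU v hv).symm) (mem_centralizer_singleton_iff.2 ew.symm)),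
      fun hn => ne (hU.ti hW ?_ hw w1), hK⟩
    have := nm hn hv
    rwa [inv_eq_of_mul_eq_one_right j2, e] at this
  obtain ⟨j, j2, jv, jx, jU, jK⟩ := swp hV VU hv' v1' (xV v' hv')
  have ij : j⁻¹ = j := inv_eq_of_mul_eq_one_right j2
  have jv' : j * v' * j = v := by
    rw [← jv]; calc _ = (j * j) * v * (j * j) := by group
      _ = v := by rw [j2]; group
  have UV : ∀ u ∈ U, j * u * j ∈ V := fun u hu => by
    have := hV.ti (hU.conj j) hv' ⟨v, hv, by simp [ij, jv]⟩ v1'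
    exact this ▸ ⟨u, hu, by simp [ij]⟩
  have VU' : ∀ u ∈ V, j * u * j ∈ U := fun u hu => by
    have := hU.ti (hV.conj j) hv ⟨v', hv', by simp [ij, jv']⟩ v1
    exact this ▸ ⟨u, hu, by simp [ij]⟩
  have fl1 : ∀ g ∈ normalizer (U : Set G), j * g * j ∈ normalizer (V : Set G) := fun g hg =>
    hV.nrm hv' v1' (by
      have := UV _ (nm hg hv)
      rw [← jv'] at this
      simpa [mul_assoc, ij] using this)
  have fl2 : ∀ g ∈ normalizer (V : Set G), j * g * j ∈ normalizer (U : Set G) := fun g hg =>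
    hU.nrm hv v1 (by
      have := VU' _ (nm hg hv')
      rw [← jv] at this
      simpa [mul_assoc, ij] using this)
  have jj : ∀ g : G, j * (j * g * j) * j = g := fun g => by
    calc _ = (j * j) * g * (j * j) := by group
      _ = g := by rw [j2]; group
  have jA : j ∈ normalizer (A : Set G) :=
    jK _ (c.nA (le_normalizer (US hv))) (c2.nA (le_normalizer (c2.leB (VB hv'))))
  have jS : j ∉ normalizer (S : Set G) := fun e => by
    have := nm e (US hv)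
    rw [ij, jv] at this
    exact v1' (VA _ hv' (SS2 _ this (c2.leB (VB hv'))))
  have jS2 : j ∉ normalizer (S2 : Set G) := fun e => by
    have := nm e (c2.leB (VB hv'))
    rw [ij, jv'] at this
    exact v1 (UA _ hv (SS2 _ (US hv) this))
  have Md : ∀ m ∈ normalizer (U : Set G), m * x1 = x1 * m → ∃ u ∈ U, ∃ τ ∈ T, m = u * τ :=
    fun m hm mx => hU.dec TU h.odd h.comm h.x1T h.x2T h.n1 h.n2 h.n3 h.n4 xU hm mx
  have UN : ∀ u ∈ U, u ∈ normalizer (V : Set G) → u = 1 := fun u hu hn => by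
    by_contra u1
    exact VU (hU.ti hV hu (hV.r3' o1 h.n1 xV (pg_two (hU.sq hu)) hn (xU u hu).symm) u1)
  have cj : ∀ g : G, g * x1 = x1 * g → j * g * j * x1 = x1 * (j * g * j) := fun g e => by
    rw [mul_assoc, jx, ← mul_assoc, mul_assoc j, e, ← mul_assoc, jx]; group
  have wT : ∀ τ ∈ T, j * τ * j ∈ T := fun τ hτ => by
    obtain ⟨u, hu, σ, hσ, e⟩ := Md _ (fl2 τ (TV hτ)) (cj τ (h.comm _ hτ _ h.x1T))
    have : u = 1 := UN u hu (by
      have := mul_mem (fl1 τ (TU hτ)) (inv_mem (TV hσ))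
      rwa [e, mul_inv_cancel_right] at this)
    rw [e, this, one_mul]; exact hσ
  have del : ∀ τ ∈ T, τ * (j * τ⁻¹ * j) ∈ zpowers y := by
    intro τ hτ
    have k1 := wT _ (inv_mem hτ)
    obtain ⟨δ, hδ⟩ : ∃ δ, δ = τ * (j * τ⁻¹ * j) := ⟨_, rfl⟩
    have δT : δ ∈ T := hδ ▸ mul_mem hτ k1
    have inv : j * δ * j = δ⁻¹ := by
      rw [hδ, h.comm _ hτ _ k1]
      calc _ = (j * j) * τ⁻¹ * (j * τ * j) := by group
        _ = _ := by rw [j2]; simp [mul_assoc, ij]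
    rw [← hδ]
    by_cases d1 : δ = 1
    · rw [d1]; exact one_mem _
    have key : ∀ W, Rt W → W ≤ A → (∀ z ∈ W, δ * z = z * δ) → j ∈ normalizer (W : Set G) := by
      intro W hW WA e
      obtain ⟨t, ht, t1⟩ := hW.ex
      have k2 := nm jA (WA ht)
      refine hW.nrm ht t1 (hW.r3 (h.odd _ δT) d1 ht t1 (e t ht) (pg_two (c.sqA _ k2))
        (c.commA k2 (WA ht)) ?_)
      have k3 : δ⁻¹ * t = t * δ⁻¹ := by
        calc δ⁻¹ * t = δ⁻¹ * (t * δ) * δ⁻¹ := by group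
          _ = _ := by rw [← e t ht]; group
      have k4 : δ = j * δ⁻¹ * j := by rw [← inv, jj]
      rw [k4, ij]
      calc _ = j * (t * (j * j) * δ⁻¹) * j := by group
        _ = j * (δ⁻¹ * (j * j) * t) * j := by rw [j2, mul_one, mul_one, k3]
        _ = _ := by group
    rcases h.part δ δT with e | e | e | e
    · exact e
    · refine absurd (c2.nS' (hZ ▸ key Z2 hZ2 ZA fun z hz => ?_)) jS2
      exact (mem_centralizer_singleton_iff.1 ((zpowers_le).2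
        (mem_centralizer_singleton_iff.2 (xZ z hz)) (h.symm.inK δT e)))
    · exfalso
      have k2 := mem_centralizer_singleton_iff.1 ((zpowers_le).2
        (mem_centralizer_singleton_iff.2 jx.symm) (h.inK δT e))
      rw [← k2, mul_assoc, j2, mul_one] at inv
      exact d1 (eq_one_of_odd (h.odd _ δT) (pg_two (by nth_rewrite 2 [inv]; simp)))
    · exact absurd (c.nS' (key _ c.rt inf_le_left e)) jS
  refine ⟨j, U, US, dec, j2, jA, jS, wT, del, fun u hu u1 => ?_, fun W hW xW TW => ?_⟩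
  · have gx := cj u (xU u hu).symm
    obtain ⟨m, hm, mx, hm'⟩ := hU.trans o1 h.n1 xU jx jU gx jx
      (fun e => u1 (UN u hu (by simpa [jj] using fl1 _ e))) jU
    have cm := mem_centralizer_singleton_iff.2 mx
    obtain ⟨w1, hw1, τ1, hτ1, e1⟩ := Md _ (inv_mem hm) (mem_centralizer_singleton_iff.1 (inv_mem cm))
    obtain ⟨w2, hw2, τ2, hτ2, e2⟩ := Md _ hm' (mem_centralizer_singleton_iff.1
      (mul_mem (inv_mem (mem_centralizer_singleton_iff.2 jx))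
        (mul_mem cm (mem_centralizer_singleton_iff.2 gx))))
    have hv2 := nm (inv_mem (TU hτ2)) hw2
    have hτ := mul_mem (wT _ hτ1) hτ2
    obtain ⟨τ, eτ⟩ : ∃ τ, τ = j * τ1 * j * τ2 := ⟨_, rfl⟩
    obtain ⟨v2, ev2⟩ : ∃ v2, v2 = τ2⁻¹ * w2 * τ2⁻¹⁻¹ := ⟨_, rfl⟩
    rw [← eτ] at hτ
    rw [← ev2] at hv2
    have eg : j * u * j = w1 * j * τ * v2 := by
      calc j * u * j = m⁻¹ * j * (j⁻¹ * (m * (j * u * j))) := by group
        _ = w1 * (j * j) * τ1 * j * (w2 * τ2) := by rw [e2, e1, j2]; group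
        _ = _ := by rw [eτ, ev2]; group
    have g2 : (j * u * j) * (j * u * j) = 1 := by
      calc _ = j * (u * (j * j) * u) * j := by group
        _ = 1 := by rw [j2, mul_one, hU.sq hu, mul_one, j2]
    have ep : j * (τ * (v2 * w1)) * j = (τ * (v2 * w1))⁻¹ := by
      rw [eg] at g2
      apply eq_inv_of_mul_eq_one_left
      calc _ = w1⁻¹ * (w1 * j * τ * v2 * (w1 * j * τ * v2)) * w1 := by group
        _ = 1 := by rw [g2]; group
    have hp : τ * (v2 * w1) ∈ normalizer (U : Set G) :=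
      mul_mem (TU hτ) (le_normalizer (mul_mem hv2 hw1))
    have k1 := fl1 _ (ep ▸ inv_mem hp)
    rw [jj] at k1
    have k2 := UN _ (mul_mem hv2 hw1) (by simpa using mul_mem (inv_mem (TV hτ)) k1)
    rw [k2, mul_one] at ep
    have k3 := del τ hτ
    rw [← ep, jj] at k3
    exact ⟨w1, hw1, v2, hv2, τ, mem_of_sq _ (h.odd _ hτ) k3, eg⟩
  · by_cases e : W = U
    · exact Or.inl fun u hu => e ▸ hu
    right
    obtain ⟨w0, hw0, w01⟩ := hW.ex
    obtain ⟨j', j2', jv', jx', jU', -⟩ := swp hW e hw0 w01 (xW _ hw0)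
    obtain ⟨m, hm, mx, hm'⟩ := hU.trans o1 h.n1 xU jx jU jx' jx jU' jU
    obtain ⟨u, hu, τ0, hτ0, rfl⟩ := Md m hm mx
    have k1 := UV _ (nm hm' hv)
    have w1W := nm (TW hτ0) hw0
    have k2 : u * (τ0 * w0 * τ0⁻¹) * u⁻¹ ∈ V := by
      rw [← jv']
      have i' : j'⁻¹ = j' := inv_eq_of_mul_eq_one_right j2'
      have : j * (j⁻¹ * (u * τ0 * j') * v * (j⁻¹ * (u * τ0 * j'))⁻¹) * j =
          u * (τ0 * (j' * v * j'⁻¹) * τ0⁻¹) * u⁻¹ * (j * j) := by group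
      rwa [this, j2, mul_one, i'] at k1
    have k3 := hV.ti (hW.conj u) k2 ⟨_, w1W, rfl⟩ (by simpa using w01)
    have k4 : ∀ τ ∈ T, τ * u = u * τ := fun τ hτ => by
      have q1 : u * τ * u⁻¹ ∈ normalizer (V : Set G) := hV.nrm k2 (by simpa using w01)
        (k3 ▸ ⟨_, nm (TW hτ) w1W, by simp [mul_assoc]⟩)
      have q2 := UN (u * (τ * u⁻¹ * τ⁻¹)) (mul_mem hu (nm (TU hτ) (inv_mem hu)))
        (by simpa [mul_assoc] using mul_mem q1 (inv_mem (TV hτ)))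
      calc τ * u = (u * (τ * u⁻¹ * τ⁻¹)) * (τ * u) := by rw [q2, one_mul]
        _ = _ := by group
    have u1 : u = 1 := by
      by_contra u1
      rcases hU.cen3 h.odd hu u1 h.x1T h.x2T h.n1 (k4 _ h.x1T) (k4 _ h.x2T) with q | q | q
      · exact h.n2 q
      · exact h.n3 q
      · exact h.n4 q
    intro u' hu'
    have := mem_cj.1 (k3 ▸ UV u' hu' : j * u' * j ∈ W.map (MulAut.conj u).toMonoidHom)
    simpa [u1] using this

end Tor

end Cfsg.Agent.H26.Lf
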