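import Cfsg.Agent.H26.MI9

/-! Minimal index of the orthogonal groups: the bound. -/

set_option autoImplicit false
set_option maxHeartbeats 800000
set_option linter.unusedSectionVars false

namespace Cfsg.Agent.H26.MI

open Module Cfsg.Agent.H11 Cfsg.Agent.H10 MulAction Finset
open scoped Classical

variable {F : Type*} [Field F] [Fintype F] {V : Type*} [AddCommGroup V] [Module F V] [Fintype V]
variable {B : V →ₗ[F] V →ₗ[F] F} {Q : V → F}

theorem exists_sq_ne_one (h : 4 ≤ Nat.card F) : ∃ a : F, a ≠ 0 ∧ a * a ≠ 1 := by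
  by_contra hc
  push Not at hc
  have : (univ : Finset F) ⊆ {0, 1, -1} := fun a _ => by
    by_cases ha : a = 0
    · simp [ha]
    · rcases mul_self_eq_one_iff.1 (hc a ha) with h | h <;> simp [h]
  have := (Finset.card_le_card this).trans Finset.card_le_three
  rw [Finset.card_univ, ← Nat.card_eq_fintype_card] at this
  omega

namespace QC
variable (h : QC B Q) {A : Type*} [MulAction (V ≃ₗ[F] V) A]

/-- the nonzero singular vectors. -/
noncomputable def sing (_h : QC B Q) : Finset V := univ.filter fun e => Q e = 0 ∧ e ≠ 0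

theorem mem_sing {e : V} : e ∈ h.sing ↔ Q e = 0 ∧ e ≠ 0 := by simp [sing]

theorem dcount (hn : 5 ≤ finrank F V) {Ω : Finset A} (hA : Act h.Om Ω) (R : A → V → Prop)
    (hR : ∀ g ∈ h.Om, ∀ ω e, Q e = 0 → R ω e → R (g • ω) (g e)) {ω₀ : A} (hω₀ : ω₀ ∈ Ω) {e₀ : V}
    (he₀ : Q e₀ = 0) (he0 : e₀ ≠ 0) :
    Ω.card * (h.sing.filter (R ω₀)).card = h.sing.card * (Ω.filter (R · e₀)).card :=
  double_count hA.inv hA.trans (fun g hg e he => h.mem_sing.2
    ⟨((h.om_le_isom hg).2 e).trans (h.mem_sing.1 he).1, MX.app_ne_zero g (h.mem_sing.1 he).2⟩)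
    (fun e he e' he' => h.trans1 hn (h.mem_sing.1 he).2 (h.mem_sing.1 he').2
      ((h.mem_sing.1 he').1.trans (h.mem_sing.1 he).1.symm)) R
    (fun g hg ω _ e he => hR g hg ω e (h.mem_sing.1 he).1) hω₀ (h.mem_sing.2 ⟨he₀, he0⟩)

theorem card_full {H : Subgroup (V ≃ₗ[F] V)} (hH : H ≤ Isom B Q) (hp : ¬ h.Om ≤ H) :
    (h.sing.filter (h.Full H)).card + 1 = Nat.card F ^ finrank F (h.fullSpan H) := by
  rw [← card_eq_pow, ← card_filter_mem, ← Finset.card_insert_of_notMem (a := (0 : V))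
    (by simp [h.mem_sing])]
  congr 1
  ext x
  simp only [mem_insert, mem_filter, h.mem_sing, mem_univ, true_and, h.mem_fullSpan hH hp]
  refine ⟨?_, fun hx => (eq_or_ne x 0).imp_right fun h0 => ⟨⟨hx.1, h0⟩, hx⟩⟩
  rintro (rfl | hx)
  · exact h.full_zero
  · exact hx.2

theorem lemC {ν : ℕ} (hν : WittIdx B Q ν) {j : ℕ} (hj : ν = j + 4) (hn : finrank F V = 2 * ν)
    {s₀ : ℕ} (hs₀ : s₀ = (Nat.card F ^ (ν - 1) - 1) * (Nat.card F ^ (ν - 2) + 1))
    {Ω : Finset A} (hA : Act h.Om Ω) {e : V} (he : Q e = 0) (he0 : e ≠ 0)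
    (hs : (h.lev e 0).card = Nat.card F * s₀)
    (hty : ∀ ω ∈ Ω, TotSing B Q (h.U e ω) ∨ finrank F (h.U e ω) ≤ 2) {ω : A} (hω : ω ∈ Ω)
    (ht : TotSing B Q (h.U e ω)) (h3 : 3 ≤ finrank F (h.U e ω)) :
    Nat.card F ^ (j + 1) + 1 ≤ h.nu e Ω 0 ∧ (h.nu e Ω 0 ≤ Nat.card F ^ (j + 1) + 1 →
      finrank F (h.U e ω) = ν ∧ ∀ ω' ∈ Ω, h.Y e ω' = h.Y e ω → ω' ∈ (h.tau e).orb ω) := by
  have hq : 1 < Nat.card F := Finite.one_lt_card
  obtain ⟨y, hy, hye⟩ : ∃ y ∈ h.Y e ω, ∀ a : F, y ≠ a • e := by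
    by_contra hc
    push Not at hc
    have := (Submodule.finrank_mono (h.U_le_self hc)).trans (finrank_span_one_le e)
    omega
  have hQy : Q y = 0 := ht.1 y (Submodule.subset_span hy)
  have hey := h.Y_perp he hy
  have hmu := h.mu_eq_nu (by omega) he he0 (fun g hg _ => hA.inv g hg) hey hye
  rw [hQy, Hm.mu] at hmu
  rw [← hmu]
  have hz := h.card_zs he he0 hQy hey hye (k := 2 * j + 5) (by omega)
  have hsub := h.zs_subset (by omega) hA he he0 hye hω hy ht h3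
  have hle : ∀ ω ∈ Ω, finrank F (h.U e ω) ≤ j + 4 := fun ω hω =>
    (hty ω hω).elim (fun h1 => hj ▸ h.form.finrank_le_wittIdx h.sep hν h1) (by omega)
  subst hj
  set q := Nat.card F with hqd
  obtain ⟨K, hK⟩ : ∃ K, q ^ (j + 4) = K + q ^ 2 :=
    ⟨_, (Nat.sub_add_cancel (Nat.pow_le_pow_right (by omega) (by omega))).symm⟩
  have hlt : q ^ (j + 3) < q ^ (j + 4) := Nat.pow_lt_pow_right hq (by omega)
  have hlt2 : q ^ 2 ≤ q ^ (j + 3) := Nat.pow_le_pow_right (by omega) (by omega)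
  have hZ : (h.zs e y).card = (q ^ (j + 1) + 1) * K := by
    obtain ⟨u, hu⟩ : ∃ u, q ^ (j + 3) = u + 1 :=
      ⟨_, (Nat.sub_add_cancel (Nat.one_le_pow _ _ (by omega))).symm⟩
    rw [hs, hs₀, show j + 4 - 1 = j + 3 by omega, show j + 4 - 2 = j + 2 by omega, hu,
      Nat.add_sub_cancel] at hz
    zify at hz hK hu ⊢
    have e1 : (u : ℤ) = q ^ (j + 3) - 1 := by linarith
    have e2 : (K : ℤ) = q ^ (j + 4) - q ^ 2 := by linarith
    rw [e1] at hz
    rw [e2]
    linear_combination hz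
  have hcov : ∀ O ∈ (h.tau e).orbsY (h.pi e) Ω y, (h.cov e y O).card ≤ K := by
    intro O hO
    obtain ⟨ω', hω', hy', rfl⟩ := ((h.tau e).mem_orbsY (h.pi e)).1 hO
    have := h.card_cov he0 hye hy' (hle ω' hω')
    rw [← hqd] at this
    omega
  have hO : (h.tau e).orb ω ∈ (h.tau e).orbsY (h.pi e) Ω y :=
    ((h.tau e).mem_orbsY (h.pi e)).2 ⟨ω, hω, hy, rfl⟩
  have hK0 : 0 < K := by omega
  have b1 := (Finset.card_le_card hsub).trans Finset.card_biUnion_le
  refine ⟨?_, fun hle' => ⟨?_, fun ω' hω' hY => ?_⟩⟩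
  · have := b1.trans (Finset.sum_le_card_nsmul _ _ _ hcov)
    rw [hZ, smul_eq_mul] at this
    exact Nat.le_of_mul_le_mul_right this hK0
  · by_contra hne
    have c1 := h.card_cov he0 hye hy (k := j + 3) (by have := hle ω hω; omega)
    rw [← hqd] at c1
    rw [← Finset.add_sum_erase _ _ hO] at b1
    have c2 := Finset.sum_le_card_nsmul (((h.tau e).orbsY (h.pi e) Ω y).erase ((h.tau e).orb ω))
      (fun O => (h.cov e y O).card) K fun O hO => hcov O (Finset.mem_of_mem_erase hO)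
    rw [Finset.card_erase_of_mem hO, smul_eq_mul] at c2
    have c3 : (((h.tau e).orbsY (h.pi e) Ω y).card - 1) * K ≤ q ^ (j + 1) * K :=
      Nat.mul_le_mul_right _ (by omega)
    rw [hZ] at b1
    nlinarith
  · by_contra hne
    have hO' : (h.tau e).orb ω' ∈ ((h.tau e).orbsY (h.pi e) Ω y).erase ((h.tau e).orb ω) :=
      Finset.mem_erase.2 ⟨fun h1 => hne (h1 ▸ (h.tau e).self_mem_orb ω'),
        ((h.tau e).mem_orbsY (h.pi e)).2 ⟨ω', hω', by change y ∈ h.Y e ω'; rwa [hY], rfl⟩⟩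
    have hsub' : h.zs e y ⊆ (((h.tau e).orbsY (h.pi e) Ω y).erase ((h.tau e).orb ω)).biUnion
        (h.cov e y) := fun z hz => by
      obtain ⟨O, h1, h2⟩ := Finset.mem_biUnion.1 (hsub hz)
      by_cases h3 : O = (h.tau e).orb ω
      · refine Finset.mem_biUnion.2 ⟨_, hO', ?_⟩
        rw [h3, h.mem_cov] at h2
        rw [h.mem_cov, U, hY]; exact h2
      · exact Finset.mem_biUnion.2 ⟨O, Finset.mem_erase.2 ⟨h3, h1⟩, h2⟩
    have c2 := ((Finset.card_le_card hsub').trans Finset.card_biUnion_le).trans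
      (Finset.sum_le_card_nsmul _ _ K fun O hO => hcov O (Finset.mem_of_mem_erase hO))
    rw [Finset.card_erase_of_mem hO, smul_eq_mul, hZ] at c2
    have := Nat.le_of_mul_le_mul_right c2 hK0
    omega

theorem orth_bound (hn : 7 ≤ finrank F V) {p ν N : ℕ} {s : F → ℕ} (hν : WittIdx B Q ν)
    (hp : p.Prime) (hp0 : (p : F) = 0) (nm : Num (Nat.card F) p (finrank F V) ν N s)
    (hs : ∀ e, Q e = 0 → e ≠ 0 → ∀ c, (h.lev e c).card = Nat.card F * s c)
    (hS : h.sing.card = (Nat.card F - 1) + Nat.card F * s 0 +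
      (Nat.card F - 1) * Nat.card F ^ (finrank F V - 2))
    {Ω : Finset A} (hA : Act h.Om Ω) : N ≤ Ω.card := by
  by_contra hm
  push Not at hm
  have hq : 1 < Nat.card F := Finite.one_lt_card
  obtain ⟨N₀, hN₀⟩ : Nat.card F - 1 ∣ h.sing.card := dvd_card_of_smul (by simp [h.mem_sing])
    fun c hc v hv => h.mem_sing.2 ⟨h.sing_smul (h.mem_sing.1 hv).1 c,
      smul_ne_zero hc (h.mem_sing.1 hv).2⟩
  have hNN : N ≤ N₀ := by
    have := nm.a0
    rw [← hS, hN₀, mul_comm] at this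
    exact Nat.le_of_mul_le_mul_left this (by omega)
  have hI : ∀ ω ∈ Ω, stabilizer (V ≃ₗ[F] V) ω ≤ Isom B Q := fun ω hω =>
    (hA.le ω hω).trans h.om_le_isom
  have hm0 : 0 < Ω.card := hA.ne.card_pos
  have dcF : ∀ ω ∈ Ω, ∀ e, Q e = 0 → e ≠ 0 →
      Ω.card * (Nat.card F ^ finrank F (h.fullSpan (stabilizer (V ≃ₗ[F] V) ω)) - 1) =
      (Nat.card F - 1) * N₀ * (Ω.filter fun ω => h.Full (stabilizer (V ≃ₗ[F] V) ω) e).card := by
    intro ω hω e he he0
    rw [← h.card_full (hI ω hω) (hA.prop ω hω), Nat.add_sub_cancel, ← hN₀]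
    exact h.dcount (by omega) hA (fun ω e => h.Full (stabilizer (V ≃ₗ[F] V) ω) e)
      (fun g hg _ _ _ hf => h.full_smul (h.om_le_isom hg) hf) hω he he0
  have noF : ∀ ω₀ ∈ Ω, finrank F (h.fullSpan (stabilizer (V ≃ₗ[F] V) ω₀)) = 0 → ∀ ω ∈ Ω,
      ∀ f, f ≠ 0 → ¬ h.Full (stabilizer (V ≃ₗ[F] V) ω) f := by
    intro ω₀ hω₀ h0 ω hω f hf0 hf
    obtain ⟨g, hg, rfl⟩ := hA.trans _ hω _ hω₀
    have := (h.full_smul (h.om_le_isom hg) hf).mem
    rw [Submodule.finrank_eq_zero.1 h0] at this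
    exact MX.app_ne_zero g hf0 this
  by_cases hreg : ∃ e, Q e = 0 ∧ e ≠ 0 ∧ ∃ ω ∈ Ω, h.Reg e ω
  · obtain ⟨e₁, he₁, he₁0, ω₁, hω₁, hr₁⟩ := hreg
    have hall : ∀ e, Q e = 0 → e ≠ 0 → ∃ ω ∈ Ω, h.Reg e ω := fun e he he0 => by
      obtain ⟨g, hg, rfl⟩ := h.trans1 (by omega) he₁0 he0 (he.trans he₁.symm)
      exact ⟨g • ω₁, hA.inv g hg _ hω₁,
        (h.reg_cj (h.om_le_isom hg) he₁ one_ne_zero (one_smul F _).symm).2 hr₁⟩
    have k1 : finrank F (h.fullSpan (stabilizer (V ≃ₗ[F] V) ω₁)) < 2 := by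
      by_contra hc
      exact (h.ud (hI _ hω₁)).geoK1 (hA.prop _ hω₁) (by omega) he₁
        fun y hy => Submodule.subset_span (hr₁ y hy)
    by_cases k0 : finrank F (h.fullSpan (stabilizer (V ≃ₗ[F] V) ω₁)) = 0
    · have nF := noF _ hω₁ k0
      by_cases har : ∀ e, Q e = 0 → e ≠ 0 → ∀ ω ∈ Ω, h.Reg e ω
      · refine h.not_regular hn (hI _ hω₁) (fun e w he he0 hw hm => ?_) fun e he he0 g hg => ?_
        · have : w ∈ Submodule.span F {e} := h.mem_of_perp fun y hy => psi_nd fun c => by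
            simpa using h.mem_Y.1 (har e he he0 _ hω₁ (c • y)
              (by simp [hy e (Submodule.mem_span_singleton_self e)])) w hw hm
          obtain ⟨c, hc⟩ := Submodule.mem_span_singleton.1 this
          exact ⟨c, hc.symm⟩
        · have h1 := hA.inv _ (inv_mem hg) _ hω₁
          obtain ⟨d, hd⟩ := (h.tau e).mem_orb.1 ((h.lemA hn hp hp0 nm hA hm he he0 (hs e he he0) hω₁
            (har e he he0 _ hω₁)).1 _ h1 (har e he he0 _ h1))
          refine ⟨d.1, d.2, ?_⟩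
          rw [mem_stabilizer_iff, mul_smul]
          change g • (h.tau e).t d • ω₁ = ω₁
          rw [hd, smul_inv_smul]
      · push Not at har
        obtain ⟨e, he, he0, ω, hω, hr⟩ := har
        obtain ⟨ω', hω', hr'⟩ := hall e he he0
        obtain ⟨-, c2, c3⟩ := h.lemA hn hp hp0 nm hA hm he he0 (hs e he he0) hω' hr'
        have c4 := c3.resolve_left fun hf => nF ω hω e he0 (hf ω hω hr)
        rw [← hS, hN₀, mul_comm] at c4
        have c5 : N₀ = Ω.card + 1 := by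
          have := Nat.le_of_mul_le_mul_right c4 (by omega)
          omega
        have dc : Ω.card * (h.sing.filter fun e => ¬ h.Reg e ω).card =
            h.sing.card * (Ω.filter fun ω => ¬ h.Reg e ω).card := by
          convert h.dcount (by omega) hA (fun ω e => ¬ h.Reg e ω) (fun g hg ω e he hr => by
            rwa [h.reg_cj (h.om_le_isom hg) he one_ne_zero (one_smul F _).symm]) hω he he0
        obtain ⟨α, hα⟩ : Nat.card F - 1 ∣ (h.sing.filter fun e => ¬ h.Reg e ω).card :=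
          dvd_card_of_smul (by simp [h.mem_sing]) fun c hc v hv => by
            rw [mem_filter, h.mem_sing] at hv ⊢
            refine ⟨⟨h.sing_smul hv.1.1 c, smul_ne_zero hc hv.1.2⟩, fun h1 => hv.2 ?_⟩
            have := (h.reg_cj (g := 1) (one_mem _) (h.sing_smul hv.1.1 c) hc (e' := v) rfl).2 h1
            rwa [one_smul] at this
        rw [hα, hN₀, c5] at dc
        have hβ : 0 < (Ω.filter fun ω => ¬ h.Reg e ω).card :=
          Finset.card_pos.2 ⟨ω, mem_filter.2 ⟨hω, hr⟩⟩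
        have hD : 0 < Nat.card F ^ (finrank F V - 2) := by positivity
        set β := (Ω.filter fun ω => ¬ h.Reg e ω).card
        have d1 : Ω.card * α = (Ω.card + 1) * β :=
          Nat.eq_of_mul_eq_mul_left (show 0 < Nat.card F - 1 by omega) (by linarith)
        have d2 : Ω.card ∣ β := (Nat.Coprime.dvd_mul_left (by simp)).1 ⟨α, d1.symm⟩
        have := Nat.le_of_dvd hβ d2
        omega
    · have := dcF _ hω₁ e₁ he₁ he₁0
      rw [show finrank F (h.fullSpan (stabilizer (V ≃ₗ[F] V) ω₁)) = 1 by omega, pow_one, mul_assoc,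
        mul_comm] at this
      have h2 := Nat.eq_of_mul_eq_mul_left (show 0 < Nat.card F - 1 by omega) this
      rcases Nat.eq_zero_or_pos (Ω.filter fun ω => h.Full (stabilizer (V ≃ₗ[F] V) ω) e₁).card
        with h3 | h3
      · rw [h3] at h2; omega
      · nlinarith
  push Not at hreg
  obtain ⟨ω₀, hω₀⟩ := hA.ne
  have hB := fun e he he0 => h.lemB hn hp hp0 nm hA hm he he0 (hs e he he0) (hreg e he he0)
  have u₀ := h.ud (hI _ hω₀)
  obtain ⟨e₀, -, he₀0, he₀⟩ := h.exists_sing3 (W := ⊤) (by rw [finrank_top]; omega)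
  have hty : ∀ e, Q e = 0 → e ≠ 0 → ∀ ω ∈ Ω, TotSing B Q (h.U e ω) ∨ finrank F (h.U e ω) ≤ 2 := by
    intro e he he0
    refine (hB e he he0).resolve_right ?_
    rintro ⟨h8, h2⟩
    have h3 : ∀ f, Q f = 0 → f ≠ 0 → finrank F (h.U f ω₀) ≤ 3 ∧
        (TotSing B Q (h.U f ω₀) → finrank F (h.U f ω₀) ≤ 2) := by
      intro f hf hf0
      obtain ⟨g, hg, rfl⟩ := h.trans1 (by omega) he0 hf0 (hf.trans he.symm)
      have hgI := h.om_le_isom hg
      have := h2 _ (hA.inv _ (inv_mem hg) _ hω₀)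
      rw [← smul_inv_smul g ω₀, h.U_map hgI he, MX.finrank_map]
      exact ⟨this.1, fun ht => this.2 ⟨fun x hx => by rw [← hgI.2]; exact ht.1 _ ⟨x, hx, rfl⟩,
        fun x hx y hy => by rw [← hgI.1]; exact ht.2 _ ⟨x, hx, rfl⟩ _ ⟨y, hy, rfl⟩⟩⟩
    by_cases k0 : finrank F (h.fullSpan (stabilizer (V ≃ₗ[F] V) ω₀)) = 0
    · obtain ⟨a, b, c⟩ := u₀.geo3b hn hν (noF _ hω₀ k0 _ hω₀)
        (Or.inr ⟨h8, fun f hf hf0 => (h3 f hf hf0).1⟩) he he0
      have := (h3 e he he0).2 b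
      omega
    · obtain ⟨a, -, f, hf, hf0, -, c⟩ := u₀.geoK2 hn hν (hA.prop _ hω₀) (by omega)
        fun f hf hf0 => Or.inr (h3 f hf hf0).1
      have := (h3 f hf hf0).1
      omega
  have hcase : finrank F V = 2 * ν ∧ ∃ e, Q e = 0 ∧ e ≠ 0 ∧ TotSing B Q (h.U e ω₀) ∧
      ν ≤ finrank F (h.U e ω₀) + 1 ∧ (finrank F (h.fullSpan (stabilizer (V ≃ₗ[F] V) ω₀)) = 0 ∨
        finrank F (h.fullSpan (stabilizer (V ≃ₗ[F] V) ω₀)) = ν) := by
    by_cases k0 : finrank F (h.fullSpan (stabilizer (V ≃ₗ[F] V) ω₀)) = 0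
    · obtain ⟨a, b, c⟩ := u₀.geo3b hn hν (noF _ hω₀ k0 _ hω₀)
        (Or.inl fun f hf hf0 => hty f hf hf0 _ hω₀) he₀ he₀0
      exact ⟨a, e₀, he₀, he₀0, b, c, Or.inl k0⟩
    · obtain ⟨a, b, f, hf, hf0, c, d⟩ := u₀.geoK2 hn hν (hA.prop _ hω₀) (by omega)
        fun f hf hf0 => (hty f hf hf0 _ hω₀).imp_right (by omega)
      exact ⟨a, f, hf, hf0, c, by omega, Or.inr b⟩
  obtain ⟨hn2, e, he, he0, ht, hd, hk⟩ := hcase
  obtain ⟨j, hj⟩ : ∃ j, ν = j + 4 := ⟨ν - 4, by omega⟩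
  obtain ⟨b1, b2, b3⟩ := nm.a7 hn2
  have low : ∀ e, Q e = 0 → e ≠ 0 → h.nu e Ω 0 * s 0 + ((h.tau e).orbs Ω).card ≤ Ω.card := by
    intro e he he0
    have hf := h.card_formula (by omega) he he0 (fun g hg _ => hA.inv g hg) (hs e he he0)
    have h0 : h.nu e Ω 0 * s 0 ≤ ∑ c, h.nu e Ω c * s c :=
      Finset.single_le_sum (f := fun c => h.nu e Ω c * s c) (fun _ _ => Nat.zero_le _) (mem_univ 0)
    omega
  have c1 := (h.lemC hν hj hn2 b1 hA he he0 (hs e he he0 0) (hty e he he0) hω₀ ht (by omega)).1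
  rcases Nat.eq_zero_or_pos j with rfl | hj0
  swap
  · have := b2 (by omega)
    have := low e he he0
    have : Nat.card F ^ 2 ≤ Nat.card F ^ (j + 1) := Nat.pow_le_pow_right (by omega) (by omega)
    nlinarith
  obtain rfl : ν = 4 := hj
  obtain ⟨b3, b4⟩ := b3 rfl
  set q := Nat.card F with hqd
  obtain ⟨u, hu⟩ : ∃ u, q ^ 3 = u + 1 :=
    ⟨_, (Nat.sub_add_cancel (Nat.one_le_pow _ _ (by omega))).symm⟩
  have hu0 : 0 < u := by
    have : 1 < q ^ 3 := Nat.one_lt_pow (by omega) hq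
    omega
  simp only [show 4 - 1 = 3 from rfl, show 4 - 2 = 2 from rfl, hu, Nat.add_sub_cancel] at b1
  have hN : N₀ = (q ^ 3 + 1) * ((q + 1) * (q ^ 2 + 1)) := by
    rw [hN₀, b1, hn2] at hS
    obtain ⟨r, hr⟩ : ∃ r, q = r + 1 := ⟨q - 1, by omega⟩
    refine Nat.eq_of_mul_eq_mul_left (show 0 < q - 1 by omega) ?_
    rw [hS]
    have : u = r ^ 3 + 3 * r ^ 2 + 3 * r := by rw [hr] at hu; nlinarith
    rw [this, hr, Nat.add_sub_cancel]; ring
  have hβ : ∀ e, Q e = 0 → e ≠ 0 → q ^ 3 * (h.nu e Ω 0 * (q ^ 2 + 1)) ≤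
      (Ω.filter fun ω => ¬ h.Full (stabilizer (V ≃ₗ[F] V) ω) e).card := by
    intro e he he0
    have hb := (h.tau e).sum_bound (Ω := Ω) (K := q ^ 3)
      (fun d ω hω => hA.inv _ (h.sg_mem he d.2) ω hω) fun ω hω => h.card_orb_le he0
        ((hty e he he0 ω hω).elim (h.form.finrank_le_wittIdx h.sep hν) (by omega))
    simp only [← h.full_iff_tau he] at hb
    have := low e he he0
    rw [b1] at this
    refine Nat.le_of_mul_le_mul_left ?_ hu0
    rw [hu, Nat.add_sub_cancel] at hb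
    rw [hu]
    nlinarith
  simp only [zero_add, pow_one] at c1
  have c2 := hβ e he he0
  rcases hk with k0 | k4
  · have nF := noF _ hω₀ k0
    have hm2 : ∀ e, Q e = 0 → e ≠ 0 → q ^ 3 * (h.nu e Ω 0 * (q ^ 2 + 1)) ≤ Ω.card :=
      fun e he he0 => (hβ e he he0).trans (Finset.card_filter_le _ _)
    by_cases h2 : q = 2
    · have := b3 h2
      have := hm2 e he he0
      rw [h2] at this c1
      omega
    obtain ⟨a, ha0, ha⟩ := exists_sq_ne_one (F := F) (by omega)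
    have key : ∀ e, Q e = 0 → e ≠ 0 → TotSing B Q (h.U e ω₀) ∧ finrank F (h.U e ω₀) = 4 ∧
        ∀ ω' ∈ Ω, h.Y e ω' = h.Y e ω₀ → ω' ∈ (h.tau e).orb ω₀ := by
      intro e he he0
      obtain ⟨-, b, c⟩ := u₀.geo3b hn hν (nF _ hω₀) (Or.inl fun f hf hf0 => hty f hf hf0 _ hω₀) he he0
      refine ⟨b, (h.lemC hν (j := 0) rfl hn2 (nm.a7 hn2).1 hA he he0 (hs e he he0 0)
        (hty e he he0) hω₀ b (by omega)).2 ?_⟩
      by_contra hc
      simp only [zero_add, pow_one, not_le] at hc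
      have h1 := hm2 e he he0
      have h3 : q ^ 3 * ((q + 2) * (q ^ 2 + 1)) ≤ q ^ 3 * (h.nu e Ω 0 * (q ^ 2 + 1)) :=
        Nat.mul_le_mul_left _ (Nat.mul_le_mul_right _ hc)
      have h4 : q + 1 ≤ q ^ 3 := by nlinarith
      nlinarith
    refine u₀.spread (by omega) (fun e he he0 => ⟨(key e he he0).1, (key e he he0).2.1⟩)
      (fun e he he0 g hg a ha0 hga => ?_) ha0 ha
    have hge : g e = a • e := hga e (u₀.self e he)
    have hgI := h.om_le_isom hg
    have hY : h.Y e (g⁻¹ • ω₀) = h.Y e ω₀ := by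
      ext y
      rw [← h.Y_cj hgI he ha0 hge, smul_inv_smul]
      constructor
      · intro hy
        have h1 := hga _ (Submodule.subset_span hy)
        rw [map_smul, smul_smul, mul_inv_cancel₀ ha0, one_smul] at h1
        have h2 : a⁻¹ • g y = y := by
          apply g.injective; rw [map_smul, h1]
        rwa [h2] at hy
      · intro hy
        rwa [hga y (Submodule.subset_span hy), smul_smul, inv_mul_cancel₀ ha0, one_smul]
    obtain ⟨d, hd⟩ := (h.tau e).mem_orb.1 ((key e he he0).2.2 _ (hA.inv _ (inv_mem hg) _ hω₀) hY)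
    refine ⟨d.1, d.2, ?_⟩
    rw [mem_stabilizer_iff, mul_smul]
    change g • (h.tau e).t d • ω₀ = ω₀
    rw [hd, smul_inv_smul]
  · have d1 := dcF _ hω₀ e he he0
    have d2 := Finset.card_filter_add_card_filter_not (s := Ω)
      (fun ω => h.Full (stabilizer (V ≃ₗ[F] V) ω) e)
    rw [k4] at d1
    obtain ⟨r, hr⟩ : ∃ r, q = r + 1 := ⟨q - 1, by omega⟩
    have e4 : q ^ 4 - 1 = (q - 1) * ((q + 1) * (q ^ 2 + 1)) := by
      rw [hr, Nat.add_sub_cancel, Nat.sub_eq_iff_eq_add (Nat.one_le_pow _ _ (by omega))]; ring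
    rw [e4, mul_assoc, mul_left_comm] at d1
    have d3 := Nat.eq_of_mul_eq_mul_left (show 0 < q - 1 by omega) d1
    have c3 : q ^ 3 * ((q + 1) * (q ^ 2 + 1)) ≤ q ^ 3 * (h.nu e Ω 0 * (q ^ 2 + 1)) :=
      Nat.mul_le_mul_left _ (Nat.mul_le_mul_right _ c1)
    generalize (q + 1) * (q ^ 2 + 1) = P at *
    have hP : 0 < P := by
      rcases Nat.eq_zero_or_pos P with h0 | h0
      · rw [h0] at hN; omega
      · exact h0
    generalize (Ω.filter fun ω => h.Full (stabilizer (V ≃ₗ[F] V) ω) e).card = x at *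
    generalize (Ω.filter fun ω => ¬ h.Full (stabilizer (V ≃ₗ[F] V) ω) e).card = β at *
    have d4 : Ω.card = (q ^ 3 + 1) * x := by
      refine Nat.eq_of_mul_eq_mul_right hP ?_
      rw [d3, hN]; ring
    have d5 : β = q ^ 3 * x := by nlinarith
    have d6 : P ≤ x := Nat.le_of_mul_le_mul_left (d5 ▸ c3.trans c2) (by omega)
    nlinarith

end QC

end Cfsg.Agent.H26.MI
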