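import Cfsg.Agent.H26.MI10
import Cfsg.Agent.H11.OrthOrder
import Cfsg.Agent.H10.Real4

/-! Minimal index of the orthogonal groups: numerics and transfer. -/

set_option autoImplicit false
set_option maxHeartbeats 800000
set_option linter.unusedSectionVars false

namespace Cfsg.Agent.H26.MI

open Module Cfsg.Agent.H11 Cfsg.Agent.H10 MulAction Finset
open scoped Classical

universe u

section
variable {F : Type*} [Field F] [Fintype F]

theorem card_sq_class {c : F} (hc : c ≠ 0) :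
    Nat.card F - 1 ≤ 2 * (univ.image fun a : Fˣ => (a : F) * a * c).card ∧
      ((2 : F) = 0 → (univ.image fun a : Fˣ => (a : F) * a * c).card = Nat.card F - 1) := by
  rw [← Nat.card_units, Nat.card_eq_fintype_card, ← Finset.card_univ]
  refine ⟨Finset.card_le_mul_card_image _ 2 fun x hx => ?_, fun h2 => Finset.card_image_of_injective _
    fun a b hab => ?_⟩
  · obtain ⟨a, -, rfl⟩ := Finset.mem_image.1 hx
    refine (Finset.card_le_card (t := {a, -a}) fun b hb => ?_).trans Finset.card_le_two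
    have := mul_right_cancel₀ hc (mem_filter.1 hb).2
    rcases mul_self_eq_mul_self_iff.1 this with h | h
    · simp [Units.ext h]
    · have : b = -a := Units.ext (by simpa using h)
      simp [this]
  · have h1 := mul_right_cancel₀ hc hab
    have : ((a : F) - b) ^ 2 = 0 := by linear_combination h1 + ((b : F) * b - a * b) * h2
    exact Units.ext (sub_eq_zero.1 (pow_eq_zero_iff (by norm_num) |>.1 this))

theorem exists_char (F : Type*) [Field F] [Fintype F] : ∃ p : ℕ, p.Prime ∧ (p : F) = 0 ∧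
    (∃ k, Nat.card F = p ^ (k + 1)) := by
  obtain ⟨p, hp, k, hpp, hk⟩ := FiniteField.card' F
  refine ⟨p, hpp, CharP.cast_eq_zero F p, k - 1, ?_⟩
  rw [Nat.card_eq_fintype_card, hk, Nat.sub_add_cancel (show 1 ≤ (k : ℕ) from k.2)]

theorem le_sig {s : F → ℕ} {t : ℕ} (hs : ∀ c, c ≠ 0 → t ≤ s c) {c : F} (hc : c ≠ 0) :
    (univ.image fun a : Fˣ => (a : F) * a * c).card * t ≤ sig s c := by
  rw [← smul_eq_mul]
  refine Finset.card_nsmul_le_sum _ _ _ fun x hx => hs x ?_
  obtain ⟨a, -, rfl⟩ := Finset.mem_image.1 hx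
  simp [hc]

theorem le_sig_one {s : F → ℕ} {t : ℕ} (hs : ∀ c, c ≠ 0 → t ≤ s c) {c : F} (hc : c ≠ 0) :
    t ≤ sig s c := by
  have h1 := le_sig hs hc
  have h2 : 0 < (univ.image fun a : Fˣ => (a : F) * a * c).card :=
    (Finset.univ_nonempty.image _).card_pos
  nlinarith

theorem le_sig_big {p : ℕ} (hp : p.Prime) (hp0 : (p : F) = 0) (hk : ∃ k, Nat.card F = p ^ (k + 1))
    (hq : 4 ≤ Nat.card F) {s : F → ℕ} {t : ℕ} (hs : ∀ c, c ≠ 0 → t ≤ s c) {c : F} (hc : c ≠ 0) :
    2 * t ≤ sig s c ∧ (Nat.card F + 2) * t ≤ p * sig s c := by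
  have h1 := le_sig hs hc
  obtain ⟨h2, h3⟩ := card_sq_class hc
  generalize (univ.image fun a : Fˣ => (a : F) * a * c).card = κ at *
  have h4 : 2 ≤ κ := by omega
  have h5 : Nat.card F + 2 ≤ p * κ := by
    by_cases hp2 : p = 2
    · subst hp2
      have := h3 (by simpa using hp0)
      omega
    by_cases hp3 : p = 3
    · subst hp3
      obtain ⟨k, hk⟩ := hk
      rcases k with _ | k
      · omega
      · have : 9 ≤ Nat.card F := by
          rw [hk, pow_succ, pow_succ]
          have := Nat.one_le_pow k 3 (by omega)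
          omega
        omega
    · have : 5 ≤ p := by
        have := hp.two_le
        have : p ≠ 4 := by rintro rfl; exact absurd hp (by decide)
        omega
      have : 5 * κ ≤ p * κ := Nat.mul_le_mul_right _ this
      omega
  exact ⟨by nlinarith, by nlinarith⟩

theorem Num.of {q p n ν N : ℕ} {s : F → ℕ} (hq : 1 < q)
    (a0 : N * (q - 1) ≤ (q - 1) + q * s 0 + (q - 1) * q ^ (n - 2))
    (a1 : (q - 1) + q * s 0 ≤ (q - 1) * q ^ (n - 2))
    (a3 : ∀ c, c ≠ 0 → (q - 1) + q * s 0 ≤ q * sig s c ∧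
      q * s 0 + (q - 1) * q ^ (n - 2) ≤ (q - 1) * (p * sig s c))
    (a7 : n = 2 * ν → s 0 = (q ^ (ν - 1) - 1) * (q ^ (ν - 2) + 1) ∧ (5 ≤ ν → N ≤ (q ^ 2 + 1) * s 0) ∧
      (ν = 4 → (q = 2 → N ≤ 120) ∧ q ≠ 3)) : Num q p n ν N s := by
  refine ⟨a0, Nat.le_of_mul_le_mul_right (c := q - 1) (by nlinarith) (by omega),
    fun c hc => by nlinarith [(a3 c hc).1], Or.inl fun c hc =>
      Nat.le_of_mul_le_mul_right (c := q - 1) (by nlinarith [(a3 c hc).2]) (by omega), a7⟩

theorem card_level_odd (c : F) (ν : ℕ) : ∀ {V : Type u} [AddCommGroup V]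
    [Module F V] [FiniteDimensional F V] {B : V →ₗ[F] V →ₗ[F] F} {Q : V → F}, IsQuad B Q →
    B.SeparatingLeft → WittIdx B Q ν → finrank F V = 2 * ν + 1 →
    (Nat.card F : ℤ) ^ (2 * ν) - (Nat.card F : ℤ) ^ ν ≤ Nat.card {v : V // Q v = c} := by
  induction ν with
  | zero => intro V _ _ _ B Q h hB hν hn; simp
  | succ ν ih =>
    intro V _ _ _ B Q h hB hν hn
    obtain ⟨e, f, he, hf, hef⟩ := h.exists_pair_of_wittIdx hB hν
    have h1 := h.finrank_hperp hB he hf hef
    have h2 := ih (h.restrict _) (h.separatingLeft_hperp hB he hf hef)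
      (h.wittIdx_hperp hB he hf hef hν) (by omega)
    rw [(IsQuad.step_counts h hB he hf hef (n := 2 * ν + 1) (by omega)).1 c]
    have : (0 : ℤ) ≤ Nat.card F := by positivity
    have := mul_le_mul_of_nonneg_left h2 this
    ring_nf at this ⊢
    linarith

theorem exists_level_odd (h2 : (2 : F) ≠ 0) (ν : ℕ) : ∀ {V : Type u} [AddCommGroup V]
    [Module F V] [FiniteDimensional F V] {B : V →ₗ[F] V →ₗ[F] F} {Q : V → F}, IsQuad B Q →
    B.SeparatingLeft → WittIdx B Q ν → finrank F V = 2 * ν + 1 → ∃ c : F, c ≠ 0 ∧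
    (Nat.card {v : V // Q v = c} : ℤ) = (Nat.card F : ℤ) ^ (2 * ν) - (Nat.card F : ℤ) ^ ν := by
  induction ν with
  | zero =>
    intro V _ _ _ B Q h hB hν hn
    obtain ⟨v, hv0, hv⟩ := finrank_eq_one_iff'.1 hn
    have : ¬ Function.Surjective fun t : F => t * t * Q v := fun hs => by
      have := Finite.injective_iff_surjective.2 hs (a₁ := 1) (a₂ := -1) (by simp)
      exact h2 (by linear_combination this)
    obtain ⟨c, hc⟩ := not_forall.1 this
    refine ⟨c, fun h0 => hc ⟨0, by simp [h0]⟩, ?_⟩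
    have : IsEmpty {v : V // Q v = c} := ⟨fun w => by
      obtain ⟨t, ht⟩ := hv w.1
      exact hc ⟨t, by rw [← w.2, ← ht, h.smul']⟩⟩
    simp
  | succ ν ih =>
    intro V _ _ _ B Q h hB hν hn
    obtain ⟨e, f, he, hf, hef⟩ := h.exists_pair_of_wittIdx hB hν
    have h1 := h.finrank_hperp hB he hf hef
    obtain ⟨c, hc, h2⟩ := ih (h.restrict _) (h.separatingLeft_hperp hB he hf hef)
      (h.wittIdx_hperp hB he hf hef hν) (by omega)
    refine ⟨c, hc, ?_⟩
    rw [(IsQuad.step_counts h hB he hf hef (n := 2 * ν + 1) (by omega)).1 c, h2]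
    ring

end

variable {F : Type*} [Field F] [Fintype F] {V : Type u} [AddCommGroup V] [Module F V] [Fintype V]
variable {B : V →ₗ[F] V →ₗ[F] F} {Q : V → F}

namespace QC
variable (h : QC B Q) {A : Type*} [MulAction (V ≃ₗ[F] V) A]

theorem card_lev_eq (hn : 5 ≤ finrank F V) {e e' : V} (he : Q e = 0) (he0 : e ≠ 0) (he' : Q e' = 0)
    (he0' : e' ≠ 0) (c : F) : (h.lev e c).card = (h.lev e' c).card := by
  obtain ⟨g, hg, rfl⟩ := h.trans1 hn he0 he0' (he'.trans he.symm)
  have hI := h.om_le_isom hg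
  refine Finset.card_bij (fun y _ => g y) (fun y hy => ?_) (fun _ _ _ _ e => g.injective e)
    fun y hy => ⟨g⁻¹ y, ?_, by simp⟩
  · rw [h.mem_lev] at hy ⊢
    exact ⟨by rw [hI.1, hy.1], fun a ha => hy.2.1 a (g.injective (by rw [ha, map_smul])),
      by rw [hI.2, hy.2.2]⟩
  · rw [h.mem_lev] at hy ⊢
    exact ⟨by rw [← hI.1, MX.app_inv, hy.1], fun a ha => hy.2.1 a (by
      rw [← map_smul, ← ha, MX.app_inv]), by rw [← hI.2, MX.app_inv, hy.2.2]⟩

theorem card_sing : h.sing.card + 1 = Nat.card {v : V // Q v = 0} := by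
  rw [← h.form.card_nonzero_singular, Nat.card_eq_fintype_card, Fintype.card_subtype]; rfl

theorem bound_of (hn : 7 ≤ finrank F V) {p ν N : ℕ} (hν : WittIdx B Q ν) (hp : p.Prime)
    (hp0 : (p : F) = 0) {e f : V} (he : Q e = 0) (hf : Q f = 0) (hef : B e f = 1) (s : F → ℕ)
    (hs : ∀ c, (Nat.card {w : hperp B e f // Q w = c} : ℤ) = s c + if c = 0 then 1 else 0)
    (nm : Num (Nat.card F) p (finrank F V) ν N s) {Ω : Finset A} (hA : Act h.Om Ω) :
    N ≤ Ω.card := by
  have he0 : e ≠ 0 := by rintro rfl; simp at hef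
  refine h.orth_bound hn hν hp hp0 nm (fun e' he' he0' c => ?_) ?_ hA
  · rw [h.card_lev_eq (by omega) he' he0' he he0]
    have h1 := h.card_lev he hf hef c
    zify at h1 ⊢
    rw [hs] at h1
    split_ifs at h1 <;> linarith
  · have h1 := h.card_sing
    have h2 := (IsQuad.step_counts h.q h.sep he hf hef (n := finrank F V - 2) (by omega)).1 0
    have hq : 1 < Nat.card F := Finite.one_lt_card
    rw [hs, if_pos rfl] at h2
    zify [hq.le] at h1 ⊢
    linarith

theorem bound_plus {k : ℕ} (hk : 2 ≤ k) (hn : finrank F V = 2 * (k + 2)) (hν : WittIdx B Q (k + 2))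
    {N : ℕ} (hN : 4 ≤ Nat.card F ∧ N = (Nat.card F ^ (k + 2) - 1) * (Nat.card F ^ (k + 1) + 1) /
      (Nat.card F - 1) ∨ Nat.card F = 2 ∧ N = 2 ^ (k + 1) * (2 ^ (k + 2) - 1))
    {Ω : Finset A} (hA : Act h.Om Ω) : N ≤ Ω.card := by
  obtain ⟨p, hp, hp0, hpk⟩ := exists_char F
  obtain ⟨e, f, he, hf, hef⟩ := h.form.exists_pair_of_wittIdx h.sep hν
  have h1 := h.form.finrank_hperp h.sep he hf hef
  have w1 := h.form.separatingLeft_hperp h.sep he hf hef
  have w2 := h.form.wittIdx_hperp h.sep he hf hef hν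
  have hq : 1 < Nat.card F := Finite.one_lt_card
  set q := Nat.card F with hqd
  obtain ⟨r, hr⟩ : ∃ r, q = r + 1 := ⟨q - 1, by omega⟩
  obtain ⟨y, hy⟩ : ∃ y, q ^ k = y := ⟨_, rfl⟩
  have hy2 : q * q ≤ y := by rw [← hy, ← pow_two]; exact Nat.pow_le_pow_right (by omega) hk
  obtain ⟨u, hu⟩ : ∃ u, q * y = u + 1 := ⟨q * y - 1, by have : 0 < q * y := by nlinarith
                                                        omega⟩
  let s : F → ℕ := fun c => if c = 0 then u * (y + 1) else u * y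
  have s0 : s 0 = u * (y + 1) := if_pos rfl
  have s1 : ∀ c, c ≠ 0 → s c = u * y := fun c hc => if_neg hc
  have e1 : q ^ (k + 1) = q * y := by rw [pow_succ, hy, mul_comm]
  have e2 : q ^ (k + 2) = q * (q * y) := by rw [pow_succ, e1, mul_comm]
  have e3 : q ^ (2 * (k + 2) - 2) = (q * y) * (q * y) := by
    rw [← e1, ← pow_add]; congr 1; omega
  refine h.bound_of (by omega) hν hp hp0 he hf hef s (fun c => ?_) ?_ hA
  · have hq0 : (q : ℤ) ≠ 0 := by positivity
    refine mul_left_cancel₀ hq0 ?_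
    have z1 : (q : ℤ) ^ k = y := by exact_mod_cast hy
    have z2 : (u : ℤ) = q * y - 1 := by zify at hu; linarith
    by_cases hc : c = 0
    · subst hc
      rw [IsQuad.card_singular_plus (k + 1) (h.q.restrict _) w1 w2 (by omega), s0, if_pos rfl]
      push_cast
      rw [z2, ← z1]; ring
    · rw [card_level_plus hc (k + 1) (h.q.restrict _) w1 w2 (by omega), s1 c hc, if_neg hc]
      push_cast
      rw [z2, ← z1]; ring
  rw [hn, ← hqd]
  have b7 : s 0 = (q ^ (k + 2 - 1) - 1) * (q ^ (k + 2 - 2) + 1) := by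
    rw [s0, show k + 2 - 1 = k + 1 from rfl, e1, hu, Nat.add_sub_cancel, Nat.add_sub_cancel, hy]
  rcases hN with ⟨h4, hN⟩ | ⟨h2, hN⟩
  · have a0 : N * (q - 1) ≤ (q - 1) + q * s 0 + (q - 1) * q ^ (2 * (k + 2) - 2) := by
      rw [hN]
      refine (Nat.div_mul_le_self _ _).trans (le_of_eq ?_)
      rw [e3, e2, e1, s0, hu]
      have : q * (u + 1) - 1 = q * u + r := by rw [mul_add, mul_one, hr]; omega
      rw [this, hr, Nat.add_sub_cancel]
      rw [hr] at hu
      zify at hu ⊢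
      linear_combination (-(u : ℤ)) * hu
    have hr3 : 3 ≤ r := by omega
    have hy16 : 4 * q ≤ y := by nlinarith
    refine Num.of hq a0 ?_ (fun c hc => ?_) fun _ => ⟨b7, fun h5 => ?_, fun _ => ⟨by omega, by omega⟩⟩
    · rw [e3, s0, hu, hr, Nat.add_sub_cancel]; rw [hr] at hu; nlinarith
    · obtain ⟨b1, b2⟩ := le_sig_big hp hp0 hpk h4 (fun c hc => (s1 c hc).ge) hc
      rw [← hqd] at b2
      rw [e3, s0, hu]
      have : r ≤ u := by nlinarith
      refine ⟨by rw [hr, Nat.add_sub_cancel]; nlinarith, le_trans ?_ (Nat.mul_le_mul_left _ b2)⟩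
      have c1 : (q + 2) * (u * y) = u * (u + 1) + 2 * (u * y) := by rw [← hu]; ring
      have c2 : q * (u * (y + 1)) = u * (u + 1) + q * u := by rw [← hu]; ring
      rw [c1, c2, hr, Nat.add_sub_cancel]
      have c3 : u * (u + 1) = (r + 1) * (u * y) := by rw [← hu, hr]; ring
      have c4 : (r + 1) * u * 4 ≤ u * y := by rw [← hr]; nlinarith
      nlinarith
    · refine Nat.le_of_mul_le_mul_right (a0.trans ?_) (show 0 < q - 1 by omega)
      rw [e3, s0, hu, hr, Nat.add_sub_cancel]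
      rw [hr] at hu
      have c3 : u * (u + 1) = (r + 1) * (u * y) := by rw [← hu]; ring
      have : r ≤ u := by nlinarith
      have c5 : u ≤ u * y := by nlinarith
      nlinarith [Nat.zero_le (r * r * (u * y)), Nat.zero_le (r * r * u)]
  · have hp2 : p = 2 := by
      obtain ⟨j, hj⟩ := hpk
      have : p ∣ 2 := by rw [← h2, hj, pow_succ]; exact dvd_mul_left _ _
      exact (Nat.prime_dvd_prime_iff_eq hp Nat.prime_two).1 this
    rw [h2] at e1 e2 e3 hu hy2 hy b7 ⊢
    have hN' : N = (u + 1) * (2 * u + 1) := by rw [hN, e1, e2, hu]; congr 1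
    have c0 : 2 * (u * y) = u * u + u := by rw [← mul_left_comm, hu]; ring
    have c1 : 7 ≤ u := by omega
    have c2 : 7 * u ≤ u * u := Nat.mul_le_mul_right _ c1
    refine ⟨?_, ?_, fun c hc => ?_, Or.inr ⟨Or.inl ⟨rfl, by omega⟩, fun c c' hcc => ?_⟩,
      fun _ => ⟨b7, fun _ => ?_, fun h4 => ⟨fun _ => ?_, by omega⟩⟩⟩
    · rw [e3, s0, hu, hN']; norm_num; linarith
    · rw [e3, hu, hN']; linarith
    · have := le_sig_one (fun c hc => (s1 c hc).ge) hc
      rw [e3, hu, hN']; norm_num; linarith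
    · have : s c + s c' = u * (y + 1) + u * y := by
        obtain ⟨b, -, hb⟩ := (Nat.card_eq_two_iff' (0 : F)).1 h2
        by_cases hc : c = 0
        · rw [hc, s0, s1 c' (by rintro rfl; exact hcc hc)]
        · have : c' = 0 := by by_contra h0; exact hcc ((hb c hc).trans (hb c' h0).symm)
          rw [this, s0, s1 c hc, add_comm]
      rw [this, hp2, hN']; linarith
    · rw [s0, hN']; linarith
    · obtain rfl : k = 2 := by omega
      rw [hN]; norm_num

theorem bound_minus {k : ℕ} (hk : 2 ≤ k) (hn : finrank F V = 2 * (k + 2)) (hν : WittIdx B Q (k + 1))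
    {Ω : Finset A} (hA : Act h.Om Ω) :
    (Nat.card F ^ (k + 2) + 1) * (Nat.card F ^ (k + 1) - 1) / (Nat.card F - 1) ≤ Ω.card := by
  obtain ⟨p, hp, hp0, hpk⟩ := exists_char F
  obtain ⟨e, f, he, hf, hef⟩ := h.form.exists_pair_of_wittIdx h.sep hν
  have h1 := h.form.finrank_hperp h.sep he hf hef
  have w1 := h.form.separatingLeft_hperp h.sep he hf hef
  have w2 := h.form.wittIdx_hperp h.sep he hf hef hν
  have hq : 1 < Nat.card F := Finite.one_lt_card
  set q := Nat.card F with hqd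
  obtain ⟨r, hr⟩ : ∃ r, q = r + 1 := ⟨q - 1, by omega⟩
  obtain ⟨u, hy⟩ : ∃ u, q ^ k = u + 1 :=
    ⟨_, (Nat.sub_add_cancel (Nat.one_le_pow _ _ (by omega))).symm⟩
  have hy2 : q * q ≤ u + 1 := by rw [← hy, ← pow_two]; exact Nat.pow_le_pow_right (by omega) hk
  let s : F → ℕ := fun c => if c = 0 then (q * (u + 1) + 1) * u else (q * (u + 1) + 1) * (u + 1)
  have s0 : s 0 = (q * (u + 1) + 1) * u := if_pos rfl
  have s1 : ∀ c, c ≠ 0 → s c = (q * (u + 1) + 1) * (u + 1) := fun c hc => if_neg hc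
  have e1 : q ^ (k + 1) = q * (u + 1) := by rw [pow_succ, hy, mul_comm]
  have e2 : q ^ (k + 2) = q * (q * (u + 1)) := by rw [pow_succ, e1, mul_comm]
  have e3 : q ^ (2 * (k + 2) - 2) = (q * (u + 1)) * (q * (u + 1)) := by
    rw [← e1, ← pow_add]; congr 1; omega
  refine h.bound_of (by omega) hν hp hp0 he hf hef s (fun c => ?_) ?_ hA
  · have z2 : (u : ℤ) = q ^ k - 1 := by zify at hy; linarith
    by_cases hc : c = 0
    · subst hc
      rw [IsQuad.card_singular_minus k (h.q.restrict _) w1 w2 (by omega), s0, if_pos rfl]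
      push_cast
      rw [z2]; ring
    · rw [card_level_minus hc k (h.q.restrict _) w1 w2 (by omega), s1 c hc, if_neg hc]
      push_cast
      rw [z2]; ring
  rw [hn, ← hqd]
  generalize hN : (q ^ (k + 2) + 1) * (q ^ (k + 1) - 1) / (q - 1) = N
  have a0 : N * (q - 1) ≤ (q - 1) + q * s 0 + (q - 1) * q ^ (2 * (k + 2) - 2) := by
    rw [← hN]
    refine (Nat.div_mul_le_self _ _).trans (le_of_eq ?_)
    rw [e3, e2, e1, s0]
    have : q * (u + 1) - 1 = q * u + r := by rw [mul_add, mul_one, hr]; omega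
    rw [this, hr, Nat.add_sub_cancel]; ring
  have a1 : (q - 1) + q * s 0 ≤ (q - 1) * q ^ (2 * (k + 2) - 2) := by
    rw [e3, s0, hr, Nat.add_sub_cancel]
    obtain ⟨t, rfl⟩ : ∃ t, r = t + 1 := ⟨r - 1, by omega⟩
    nlinarith [Nat.zero_le (t * u), Nat.zero_le (t * t), Nat.zero_le (t * t * u),
      Nat.zero_le (t * u * u), Nat.zero_le (t * t * u * u), Nat.zero_le (t * t * t * u * u),
      Nat.zero_le (t * t * t * u), Nat.zero_le (t * t * t)]
  have a3 : ∀ c, c ≠ 0 → (q - 1) + q * s 0 ≤ q * sig s c := fun c hc => by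
    have := le_sig_one (fun c hc => (s1 c hc).ge) hc
    rw [s0]
    have : q * ((q * (u + 1) + 1) * (u + 1)) ≤ q * sig s c := Nat.mul_le_mul_left _ this
    nlinarith [Nat.sub_le q 1]
  by_cases h4 : 4 ≤ q
  · refine Num.of hq a0 a1 (fun c hc => ⟨a3 c hc, ?_⟩) fun h => by omega
    obtain ⟨-, b2⟩ := le_sig_big hp hp0 hpk h4 (fun c hc => (s1 c hc).ge) hc
    rw [← hqd] at b2
    refine le_trans ?_ (Nat.mul_le_mul_left _ b2)
    rw [e3, s0, hr, Nat.add_sub_cancel]
    obtain ⟨t, rfl⟩ : ∃ t, r = t + 1 := ⟨r - 1, by omega⟩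
    nlinarith [Nat.zero_le (t * u), Nat.zero_le (t * t), Nat.zero_le (t * t * u),
      Nat.zero_le (t * u * u), Nat.zero_le (t * t * u * u), Nat.zero_le (t * t * t * u * u),
      Nat.zero_le (t * t * t * u), Nat.zero_le (t * t * t)]
  · have hpq : p = q := by
      obtain ⟨j, hj⟩ := hpk
      have hqp : q.Prime := by
        have : q = 2 ∨ q = 3 := by omega
        rcases this with h | h <;> rw [h] <;> norm_num
      exact (Nat.prime_dvd_prime_iff_eq hp hqp).1 (by rw [hj, pow_succ]; exact dvd_mul_left _ _)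
    refine ⟨a0, Nat.le_of_mul_le_mul_right (c := q - 1) (by nlinarith) (by omega),
      fun c hc => by nlinarith [a3 c hc], Or.inr ⟨by omega, fun c c' hcc => ?_⟩, fun h => by omega⟩
    have hs : (q * (u + 1) + 1) * u + (q * (u + 1) + 1) * (u + 1) ≤ s c + s c' := by
      by_cases hc : c = 0
      · rw [hc, s0, s1 c' (by rintro rfl; exact hcc hc)]
      · by_cases hc' : c' = 0
        · rw [hc', s0, s1 c hc, add_comm]
        · rw [s1 c hc, s1 c' hc']; nlinarith
    rw [e3, s0] at a0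
    rw [hpq]
    have : q = 2 ∨ q = 3 := by omega
    rcases this with h | h <;> rw [h] at a0 hs hy2 ⊢ <;> nlinarith

theorem bound_odd {k : ℕ} (hk : 2 ≤ k) (hn : finrank F V = 2 * (k + 1) + 1)
    (hν : WittIdx B Q (k + 1)) {N : ℕ}
    (hN : 4 ≤ Nat.card F ∧ N = (Nat.card F ^ (2 * (k + 1)) - 1) / (Nat.card F - 1) ∨
      Nat.card F = 3 ∧ N = 3 ^ (k + 1) * (3 ^ (k + 1) - 1) / 2)
    {Ω : Finset A} (hA : Act h.Om Ω) : N ≤ Ω.card := by
  obtain ⟨p, hp, hp0, hpk⟩ := exists_char F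
  obtain ⟨e, f, he, hf, hef⟩ := h.form.exists_pair_of_wittIdx h.sep hν
  have h1 := h.form.finrank_hperp h.sep he hf hef
  have w1 := h.form.separatingLeft_hperp h.sep he hf hef
  have w2 := h.form.wittIdx_hperp h.sep he hf hef hν
  have hq : 1 < Nat.card F := Finite.one_lt_card
  set q := Nat.card F with hqd
  obtain ⟨r, hr⟩ : ∃ r, q = r + 1 := ⟨q - 1, by omega⟩
  obtain ⟨u, hy⟩ : ∃ u, q ^ k = u + 1 :=
    ⟨_, (Nat.sub_add_cancel (Nat.one_le_pow _ _ (by omega))).symm⟩
  have hy2 : q * q ≤ u + 1 := by rw [← hy, ← pow_two]; exact Nat.pow_le_pow_right (by omega) hk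
  have z2 : (u : ℤ) = q ^ k - 1 := by zify at hy; linarith
  let s : F → ℕ := fun c => if c = 0 then u * (u + 2) else Nat.card {w : hperp B e f // Q w = c}
  have s0 : s 0 = u * (u + 2) := if_pos rfl
  have s1 : ∀ c, c ≠ 0 → u * (u + 1) ≤ s c := fun c hc => by
    have := card_level_odd c k (h.q.restrict _) w1 w2 (by omega)
    simp only [s, if_neg hc]
    zify
    rw [z2]
    refine le_trans (le_of_eq ?_) this
    ring
  have e1 : q ^ (k + 1) = q * (u + 1) := by rw [pow_succ, hy, mul_comm]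
  have e2 : q ^ (2 * (k + 1)) = (q * (u + 1)) * (q * (u + 1)) := by
    rw [← e1, ← pow_add]; congr 1; omega
  have e3 : q ^ (2 * (k + 1) + 1 - 2) = (q * (u + 1)) * (u + 1) := by
    rw [← e1, ← hy, ← pow_add]; congr 1; omega
  refine h.bound_of (by omega) hν hp hp0 he hf hef s (fun c => ?_) ?_ hA
  · by_cases hc : c = 0
    · subst hc
      rw [IsQuad.card_singular_odd k (h.q.restrict _) w1 w2 (by omega), s0, if_pos rfl]
      push_cast
      rw [z2]; ring
    · simp only [s, if_neg hc, add_zero]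
  rw [hn, ← hqd]
  rcases hN with ⟨h4, hN⟩ | ⟨h3, hN⟩
  · have hr3 : 3 ≤ r := by omega
    have hy16 : 4 * q ≤ u + 1 := by nlinarith
    refine Num.of hq ?_ ?_ (fun c hc => ?_) fun h => by omega
    · rw [hN]
      refine (Nat.div_mul_le_self _ _).trans (le_of_eq ?_)
      rw [e3, e2, s0, hr, Nat.add_sub_cancel, Nat.sub_eq_iff_eq_add (Nat.one_le_iff_ne_zero.2 (by positivity))]; ring
    · rw [e3, s0, hr, Nat.add_sub_cancel]
      obtain ⟨t, rfl⟩ : ∃ t, r = t + 3 := ⟨r - 3, by omega⟩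
      nlinarith [Nat.zero_le (t * u), Nat.zero_le (t * t), Nat.zero_le (t * t * u),
        Nat.zero_le (t * u * u), Nat.zero_le (t * t * u * u), Nat.zero_le (u * u)]
    · obtain ⟨b1, b2⟩ := le_sig_big hp hp0 hpk h4 s1 hc
      rw [← hqd] at b2
      rw [e3, s0]
      have := Nat.mul_le_mul_left q b1
      refine ⟨by rw [hr, Nat.add_sub_cancel] at *; nlinarith, le_trans ?_ (Nat.mul_le_mul_left _ b2)⟩
      rw [hr] at hy16
      rw [hr, Nat.add_sub_cancel]
      have c1 := Nat.mul_le_mul_left (r * (u + 1)) hy16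
      have c2 : 3 * (u * u) ≤ r * (u * u) := Nat.mul_le_mul_right _ hr3
      have c3 : 3 * u ≤ r * u := Nat.mul_le_mul_right _ hr3
      have c4 : 15 * u ≤ u * u := Nat.mul_le_mul_right _ (by omega)
      have c5 : r * (15 * u) ≤ r * (u * u) := Nat.mul_le_mul_left _ c4
      have c6 : r * 15 ≤ r * u := Nat.mul_le_mul_left _ (by omega)
      nlinarith
  · have hp2 : p = 3 := by
      obtain ⟨j, hj⟩ := hpk
      have : p ∣ 3 := by rw [← h3, hj, pow_succ]; exact dvd_mul_left _ _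
      exact (Nat.prime_dvd_prime_iff_eq hp Nat.prime_three).1 this
    rw [h3] at e1 e3 hy2 ⊢
    have hN' : N * 2 ≤ 3 * (u + 1) * (3 * u + 2) := by
      rw [hN, e1]; exact Nat.div_mul_le_self _ _
    refine ⟨?_, ?_, fun c hc => ?_, Or.inr ⟨Or.inr rfl, fun c c' hcc => ?_⟩, fun h => by omega⟩
    · rw [e3, s0]; nlinarith
    · rw [e3]; nlinarith
    · have := le_sig_one s1 hc
      rw [e3]; nlinarith
    · have hall : ∀ c, u * (u + 1) ≤ s c := fun c => by
        by_cases hc : c = 0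
        · rw [hc, s0]; nlinarith
        · exact s1 c hc
      have := hall c
      have := hall c'
      rw [hp2]; nlinarith

end QC

section transfer
variable {ι : Type} [Fintype ι] [DecidableEq ι] {B : (ι → F) →ₗ[F] (ι → F) →ₗ[F] F}
  {Q : (ι → F) → F}

/-- the natural representation of `Omega`. -/
noncomputable def omRep (h : IsQuad B Q) : Omega F Q →* ((ι → F) ≃ₗ[F] (ι → F)) :=
  ((Isom B Q).subtype.comp (commutator (Isom B Q)).subtype).comp (omegaEquiv h).toMonoidHom

theorem omRep_inj (h : IsQuad B Q) : Function.Injective (omRep h) :=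
  Subtype.val_injective.comp (Subtype.val_injective.comp (omegaEquiv h).injective)

theorem omRep_range (h : QC B Q) (hn : 5 ≤ finrank F (ι → F)) : (omRep h.q).range = h.Om := by
  ext g
  constructor
  · rintro ⟨x, rfl⟩
    exact (mem_om_quad h hn _).2 (omegaEquiv h.q x).2
  · intro hg
    refine ⟨(omegaEquiv h.q).symm ⟨⟨g, h.om_le_isom hg⟩, (mem_om_quad h hn _).1 hg⟩, ?_⟩
    simp [omRep]

theorem pomega_lower (h : QC B Q) (hn : 5 ≤ finrank F (ι → F)) {N : ℕ}
    (hb : ∀ (K : Subgroup ((ι → F) ≃ₗ[F] (ι → F))) (Ω : Finset (_ ⧸ K)), Act h.Om Ω → N ≤ Ω.card)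
    (H : Subgroup (POmega F Q)) (hH : H ≠ ⊤) : N ≤ H.index :=
  lower_of_act (omRep h.q) (omRep_inj h.q) (omRep_range h hn) hb H hH

theorem pomega_exists (h : QC B Q) (hn : 5 ≤ finrank F (ι → F)) {v : ι → F} (hv : v ≠ 0)
    (hc : ∀ c : F, c ≠ 0 → c * c * Q v = Q v) : ∃ H : Subgroup (POmega F Q),
      H.index = Nat.card {w : ι → F // Q w = Q v ∧ w ≠ 0} / (Nat.card F - 1) := by
  refine exists_index_line (omRep h.q) hv (T := {w | Q w = Q v ∧ w ≠ 0}) (fun w => ⟨fun hw => ?_, ?_⟩)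
    fun z hz => ?_
  · obtain ⟨g, hg, e⟩ := h.trans1 hn hv hw.2 hw.1
    rw [← omRep_range h hn] at hg
    obtain ⟨x, rfl⟩ := hg
    exact ⟨x, 1, one_ne_zero, by rw [e, one_smul]⟩
  · rintro ⟨g, c, hc0, rfl⟩
    have : omRep h.q g ∈ Isom B Q := h.om_le_isom (omRep_range h hn ▸ ⟨g, rfl⟩)
    exact ⟨by rw [h.qsmul, this.2, hc c hc0], smul_ne_zero hc0 (MX.app_ne_zero _ hv)⟩
  · rw [mem_center_equiv (omegaEquiv h.q), h.q.mem_center_commutator_iff h.sep
      (h.q.nonExc_of_finrank h.sep (by omega)) (by omega)] at hz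
    rcases hz with hz | hz
    · exact ⟨1, by change ((omegaEquiv h.q z).1.1) v = _; rw [hz]; simp⟩
    · exact ⟨-1, by change ((omegaEquiv h.q z).1.1) v = _; rw [hz]; simp [IsQuad.negI]⟩

end transfer

end Cfsg.Agent.H26.MI
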