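import Cfsg.Agent.H26.MI11

/-! Minimal index of the orthogonal groups: the subgroups attaining the bound. -/

set_option autoImplicit false
set_option linter.unusedSectionVars false

namespace Cfsg.Agent.H26.MI

open Module Cfsg.Agent.H11 Cfsg.Agent.H10

variable {F : Type*} [Field F] [Fintype F]
variable {ι : Type} [Fintype ι] [DecidableEq ι] {B : (ι → F) →ₗ[F] (ι → F) →ₗ[F] F}
  {Q : (ι → F) → F}

theorem pomega_exists_sing (h : QC B Q) (hn : 5 ≤ finrank F (ι → F)) {M : ℕ} (hM : M ≠ 0)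
    (e : (Nat.card {w : ι → F // Q w = 0} : ℤ) = M + 1) :
    ∃ H : Subgroup (POmega F Q), H.index = M / (Nat.card F - 1) := by
  have e1 : Nat.card {w : ι → F // Q w = 0 ∧ w ≠ 0} = M := by
    have := h.form.card_nonzero_singular
    zify at this ⊢
    linarith
  obtain ⟨⟨v, hv, hv0⟩⟩ := (Nat.card_ne_zero.1 (e1 ▸ hM)).1
  have := pomega_exists h hn hv0 fun c _ => by rw [hv, mul_zero]
  rwa [hv, e1] at this

theorem pomega_exists_level (h : QC B Q) (hn : 5 ≤ finrank F (ι → F)) {M : ℕ} (hM : M ≠ 0) {c : F}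
    (hc : c ≠ 0) (hq : ∀ a : F, a ≠ 0 → a * a = 1) (e : (Nat.card {w : ι → F // Q w = c} : ℤ) = M) :
    ∃ H : Subgroup (POmega F Q), H.index = M / (Nat.card F - 1) := by
  have e1 : Nat.card {w : ι → F // Q w = c ∧ w ≠ 0} = M := by
    rw [← Nat.cast_inj (R := ℤ), ← e]
    congr 1
    refine Nat.card_congr (Equiv.subtypeEquivRight fun w => ⟨fun h => h.1, fun hw => ⟨hw, ?_⟩⟩)
    rintro rfl
    exact hc (hw.symm.trans h.form.map_zero)
  obtain ⟨⟨v, hv, hv0⟩⟩ := (Nat.card_ne_zero.1 (e1 ▸ hM)).1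
  have := pomega_exists h hn hv0 fun c hc => by rw [hq c hc, one_mul]
  rwa [hv, e1] at this

theorem mul_self_of_card_le (h : Fintype.card F = 2 ∨ Fintype.card F = 3) (a : F) (ha : a ≠ 0) :
    a * a = 1 := by
  have := FiniteField.pow_card_sub_one_eq_one a ha
  rcases h with h | h <;> rw [h] at this
  · rw [show a = 1 by simpa using this, one_mul]
  · rwa [← pow_two]

end Cfsg.Agent.H26.MI
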