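import Cfsg.Agent.H26.MI8

/-! Minimal index of the orthogonal groups: the counting lemmas. -/

set_option autoImplicit false
set_option maxHeartbeats 400000
set_option linter.unusedSectionVars false

namespace Cfsg.Agent.H26.MI

open Module Cfsg.Agent.H11 Cfsg.Agent.H10 MulAction Finset
open scoped Classical

variable {F : Type*} [Field F] [Fintype F] {V : Type*} [AddCommGroup V] [Module F V] [Fintype V]
variable {B : V →ₗ[F] V →ₗ[F] F} {Q : V → F}

/-- the total size of the levels in a square class. -/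
noncomputable def sig (s : F → ℕ) (c : F) : ℕ :=
  ∑ c' ∈ univ.image (fun a : Fˣ => (a : F) * a * c), s c'

/-- the numerical hypotheses. -/
structure Num (q p n ν N : ℕ) (s : F → ℕ) : Prop where
  a0 : N * (q - 1) ≤ (q - 1) + q * s 0 + (q - 1) * q ^ (n - 2)
  a1 : N ≤ 2 * q ^ (n - 2)
  a3 : ∀ c, c ≠ 0 → N * (q - 1) ≤ q ^ (n - 2) * (q - 1) + q * sig s c
  a5 : (∀ c, c ≠ 0 → N ≤ 1 + p * sig s c) ∨
    ((q = 2 ∧ 8 ≤ n ∨ q = 3) ∧ ∀ c c', c ≠ c' → N ≤ 1 + p * (s c + s c'))
  a7 : n = 2 * ν → s 0 = (q ^ (ν - 1) - 1) * (q ^ (ν - 2) + 1) ∧ (5 ≤ ν → N ≤ (q ^ 2 + 1) * s 0) ∧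
    (ν = 4 → (q = 2 → N ≤ 120) ∧ q ≠ 3)

namespace QC
variable (h : QC B Q) {A : Type*} [MulAction (V ≃ₗ[F] V) A]

theorem sig_le (hn : 7 ≤ finrank F V) {e : V} (he : Q e = 0) (he0 : e ≠ 0) {Ω : Finset A}
    (hΩ : ∀ g ∈ h.Om, ∀ a : F, a ≠ 0 → g e = a • e → ∀ ω ∈ Ω, g • ω ∈ Ω) (s : F → ℕ) (c : F) :
    h.nu e Ω c * sig s c ≤ ∑ c, h.nu e Ω c * s c := by
  obtain ⟨z, z1, -, z3, rfl⟩ := h.exists_lev hn (e := e) (y := e) c
  rw [sig, Finset.mul_sum]
  refine le_trans (le_of_eq (Finset.sum_congr rfl fun c' hc' => ?_))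
    (Finset.sum_le_sum_of_subset (Finset.subset_univ _))
  obtain ⟨a, -, rfl⟩ := Finset.mem_image.1 hc'
  rw [h.nu_sq (by omega) he he0 hΩ z1 (fun t ht => z3 (Submodule.mem_span_pair.2 ⟨t, 0, by simp [ht]⟩))
    a.ne_zero]

theorem nu_le (e : V) (Ω : Finset A) (c : F) : h.nu e Ω c ≤ ((h.tau e).orbs Ω).card := by
  rw [nu]; split_ifs
  · exact (h.tau e).mu_le _ _ _
  · exact Nat.zero_le _

theorem U_le_self {e : V} {ω : A} (hY : ∀ y ∈ h.Y e ω, ∃ a : F, y = a • e) :
    h.U e ω ≤ Submodule.span F {e} := Submodule.span_le.2 fun y hy => by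
  obtain ⟨a, rfl⟩ := hY y hy
  exact Submodule.smul_mem _ _ (Submodule.mem_span_singleton_self e)

theorem lemA (hn : 7 ≤ finrank F V) {p ν N : ℕ} {s : F → ℕ} (hp : p.Prime) (hp0 : (p : F) = 0)
    (nm : Num (Nat.card F) p (finrank F V) ν N s) {Ω : Finset A} (hA : Act h.Om Ω)
    (hm : Ω.card < N) {e : V} (he : Q e = 0) (he0 : e ≠ 0)
    (hs : ∀ c, (h.lev e c).card = Nat.card F * s c) {ω₁ : A} (hω₁ : ω₁ ∈ Ω) (hr : h.Reg e ω₁) :
    (∀ ω ∈ Ω, h.Reg e ω → ω ∈ (h.tau e).orb ω₁) ∧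
    Ω.card = Nat.card F ^ (finrank F V - 2) + (Ω.filter fun ω => ¬ h.Reg e ω).card ∧
    ((∀ ω ∈ Ω, ¬ h.Reg e ω → h.Full (stabilizer (V ≃ₗ[F] V) ω) e) ∨
      (Nat.card F - 1) + Nat.card F * s 0 + (Nat.card F - 1) * Nat.card F ^ (finrank F V - 2) ≤
        (Ω.card + 1) * (Nat.card F - 1)) := by
  have hq : 1 < Nat.card F := Finite.one_lt_card
  have hp2 := hp.two_le
  obtain ⟨a0, a1, a3, -, -⟩ := nm
  obtain ⟨r, hr'⟩ : ∃ r, Nat.card F = r + 1 := ⟨Nat.card F - 1, by omega⟩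
  have hsub : ∀ ω ∈ Ω, (h.tau e).orb ω ⊆ Ω := fun ω hω x hx => by
    obtain ⟨d, rfl⟩ := (h.tau e).mem_orb.1 hx
    exact hA.inv _ (h.sg_mem he d.2) ω hω
  have c1 : ∀ ω ∈ Ω, h.Reg e ω → ω ∈ (h.tau e).orb ω₁ := by
    intro ω hω hrω
    by_contra hc
    have hd : Disjoint ((h.tau e).orb ω₁) ((h.tau e).orb ω) := Finset.disjoint_left.2 fun x h1 h2 =>
      hc (by rw [← (h.tau e).orb_eq h1, (h.tau e).orb_eq h2]; exact (h.tau e).self_mem_orb ω)
    have := Finset.card_le_card (Finset.union_subset (hsub _ hω₁) (hsub _ hω))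
    rw [Finset.card_union_of_disjoint hd, h.card_orb_reg he he0 hr, h.card_orb_reg he he0 hrω] at this
    omega
  have c2 : Ω.card = Nat.card F ^ (finrank F V - 2) + (Ω.filter fun ω => ¬ h.Reg e ω).card := by
    rw [← Finset.card_filter_add_card_filter_not (s := Ω) (fun ω => h.Reg e ω),
      ← h.card_orb_reg he he0 hr]
    congr 2
    ext ω
    rw [mem_filter]
    refine ⟨fun hω => c1 ω hω.1 hω.2, fun hω => ⟨hsub _ hω₁ hω, fun y hy => ?_⟩⟩
    change y ∈ (h.tau e).Y (h.pi e) ω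
    rw [(h.tau e).Y_eq (h.pi e) hω]; exact hr y hy
  refine ⟨c1, c2, ?_⟩
  set Ω' := Ω.filter fun ω => ¬ h.Reg e ω with hΩ'
  have hinv : ∀ g ∈ h.Om, ∀ a : F, a ≠ 0 → g e = a • e → ∀ ω ∈ Ω', g • ω ∈ Ω' := by
    intro g hg a ha ge ω hω
    rw [mem_filter] at hω ⊢
    exact ⟨hA.inv g hg ω hω.1, by rw [h.reg_cj (h.om_le_isom hg) he ha ge]; exact hω.2⟩
  have hinv' : ∀ g ∈ h.Om, g e = e → ∀ ω ∈ Ω', g • ω ∈ Ω' := fun g hg ge =>
    hinv g hg 1 one_ne_zero (by rw [ge, one_smul])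
  have hf := h.card_formula (by omega) he he0 hinv' hs
  have hsig := h.sig_le hn he he0 hinv s
  have h0 : h.nu e Ω' 0 * s 0 ≤ ∑ c, h.nu e Ω' c * s c :=
    Finset.single_le_sum (f := fun c => h.nu e Ω' c * s c) (fun _ _ => Nat.zero_le _) (mem_univ 0)
  have hle := h.nu_le e Ω'
  generalize ∑ c, h.nu e Ω' c * s c = T at hf hsig h0
  generalize hD : Nat.card F ^ (finrank F V - 2) = D at *
  have hr1 : 1 ≤ r := by omega
  rw [hr', Nat.add_sub_cancel] at a0 a3 ⊢
  have hsm : ∀ c, h.nu e Ω' c < p := by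
    intro c
    by_contra hc
    have hc2 : 2 ≤ h.nu e Ω' c := by omega
    have := hle c
    by_cases hc0 : c = 0
    · subst hc0
      have : D + 1 + 2 * s 0 ≤ Ω.card := by nlinarith
      nlinarith
    · have := a3 c hc0
      have := hsig c
      have : D + 2 * sig s c ≤ Ω.card := by nlinarith
      nlinarith
  have hU : ∀ ω ∈ Ω', finrank F (h.U e ω) ≤ 1 + 1 := by
    intro ω hω
    by_cases hY : ∀ y ∈ h.Y e ω, ∃ a : F, y = a • e
    · exact (Submodule.finrank_mono (h.U_le_self hY)).trans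
        ((finrank_span_one_le e).trans (by omega))
    · push Not at hY
      obtain ⟨y, hy, hye⟩ := hY
      exact (Submodule.finrank_mono (h.Y_line hn he he0 hinv' hp hp0 hω (mem_filter.1 hω).2 hy hye
        (hsm _))).trans (finrank_span_pair_le e y)
  have hb := (h.tau e).sum_bound (Ω := Ω') (K := r + 1)
    (fun d ω hω => hinv' _ (h.sg_mem he d.2) (h.sg_self he d.2) ω hω)
    fun ω hω => by have := h.card_orb_le he0 (hU ω hω); rwa [hr', pow_one] at this
  have hb2 := Finset.card_filter_le Ω' fun ω => ¬ ∀ d, (h.tau e).t d • ω = ω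
  rw [Nat.add_sub_cancel] at hb
  have hT : (r + 1) * T ≤ r * Ω'.card := by nlinarith
  have hz : ∀ c, c ≠ 0 → h.nu e Ω' c = 0 := by
    intro c hc
    by_contra h1
    have := a3 c hc
    have := hsig c
    have : sig s c ≤ T := by nlinarith [Nat.pos_of_ne_zero h1]
    nlinarith
  by_cases h1 : h.nu e Ω' 0 = 0
  · refine Or.inl fun ω hω hrω => (h.ud ((hA.le ω hω).trans h.om_le_isom)).full_of_le he
      (h.U_le_self fun y hy => ?_)
    by_contra hc
    push Not at hc
    have := (h.tau e).one_le_mu (h.pi e) (Ω := Ω') (mem_filter.2 ⟨hω, hrω⟩) hy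
    rw [h.mu_eq_nu (by omega) he he0 hinv' (h.Y_perp he hy) hc] at this
    by_cases hy0 : Q y = 0
    · rw [hy0] at this; omega
    · rw [hz _ hy0] at this; omega
  · right
    have : s 0 ≤ T := by nlinarith [Nat.pos_of_ne_zero h1]
    nlinarith

theorem lemB (hn : 7 ≤ finrank F V) {p ν N : ℕ} {s : F → ℕ} (hp : p.Prime) (hp0 : (p : F) = 0)
    (nm : Num (Nat.card F) p (finrank F V) ν N s) {Ω : Finset A} (hA : Act h.Om Ω)
    (hm : Ω.card < N) {e : V} (he : Q e = 0) (he0 : e ≠ 0)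
    (hs : ∀ c, (h.lev e c).card = Nat.card F * s c) (hr : ∀ ω ∈ Ω, ¬ h.Reg e ω) :
    (∀ ω ∈ Ω, TotSing B Q (h.U e ω) ∨ finrank F (h.U e ω) ≤ 2) ∨
      (8 ≤ finrank F V ∧ ∀ ω ∈ Ω, finrank F (h.U e ω) ≤ 3 ∧
        (TotSing B Q (h.U e ω) → finrank F (h.U e ω) ≤ 2)) := by
  have hinv : ∀ g ∈ h.Om, ∀ a : F, a ≠ 0 → g e = a • e → ∀ ω ∈ Ω, g • ω ∈ Ω :=
    fun g hg _ _ _ => hA.inv g hg
  have hinv' : ∀ g ∈ h.Om, g e = e → ∀ ω ∈ Ω, g • ω ∈ Ω := fun g hg _ => hA.inv g hg
  have hf := h.card_formula (by omega) he he0 hinv' hs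
  have ha : 1 ≤ ((h.tau e).orbs Ω).card := (hA.ne.image _).card_pos
  have small : ∀ ω ∈ Ω, ∀ y ∈ h.Y e ω, (∀ a : F, y ≠ a • e) → h.nu e Ω (Q y) < p →
      finrank F (h.U e ω) ≤ 2 := fun ω hω y hy hye hν =>
    (Submodule.finrank_mono (h.Y_line hn he he0 hinv' hp hp0 hω (hr ω hω) hy hye hν)).trans
      (finrank_span_pair_le e y)
  have tiny : ∀ ω : A, (∀ y ∈ h.Y e ω, ∃ a : F, y = a • e) → finrank F (h.U e ω) ≤ 2 := fun ω hY =>
    (Submodule.finrank_mono (h.U_le_self hY)).trans ((finrank_span_one_le e).trans (by omega))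
  by_cases hb : ∀ c, c ≠ 0 → h.nu e Ω c < p
  · refine Or.inl fun ω hω => ?_
    by_cases hY : ∀ y ∈ h.Y e ω, Q y = 0
    · refine Or.inl (h.form.totSing_span hY fun x hx y hy => ?_)
      have := hY _ (add_mem hx hy)
      rwa [h.qadd, hY x hx, hY y hy, zero_add, zero_add] at this
    · push Not at hY
      obtain ⟨y, hy, hQ⟩ := hY
      exact Or.inr (small ω hω y hy (fun a ha => hQ (by rw [ha, h.qsmul, he, mul_zero])) (hb _ hQ))
  push Not at hb
  obtain ⟨c₀, hc₀, hν⟩ := hb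
  rcases nm.a5 with a5 | ⟨hq, a5⟩
  · have := a5 c₀ hc₀
    have := h.sig_le hn he he0 hinv s c₀
    nlinarith
  have hoth : ∀ c, c ≠ c₀ → h.nu e Ω c < p := by
    intro c hc
    by_contra h1
    have := a5 c c₀ hc
    have h2 : ∑ x ∈ ({c, c₀} : Finset F), h.nu e Ω x * s x ≤ ∑ c, h.nu e Ω c * s c :=
      Finset.sum_le_sum_of_subset (Finset.subset_univ _)
    rw [Finset.sum_pair hc] at h2
    push Not at h1
    nlinarith [Nat.mul_le_mul_right (s c) h1, Nat.mul_le_mul_right (s c₀) hν]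
  have dich : ∀ ω ∈ Ω, finrank F (h.U e ω) ≤ 2 ∨
      ∀ y ∈ h.Y e ω, (∀ a : F, y ≠ a • e) → Q y = c₀ := fun ω hω => by
    by_contra hc
    push Not at hc
    obtain ⟨h1, y, hy, hye, hQ⟩ := hc
    have := small ω hω y hy hye (hoth _ hQ)
    omega
  rcases hq with ⟨hq, h8⟩ | hq
  · refine Or.inr ⟨h8, fun ω hω => (dich ω hω).elim (fun h1 => ⟨by omega, fun _ => h1⟩) fun h1 =>
      ⟨?_, fun ht => tiny ω fun y hy => ?_⟩⟩
    · by_contra h4
      obtain ⟨x, hx, hxe, hQ⟩ := h.exists_sing_notMem (W := h.U e ω) (Z := Submodule.span F {e})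
        (by have := finrank_span_one_le (F := F) e; omega)
      have hxY : x ∈ h.Y e ω := by
        clear hxe hQ
        induction hx using Submodule.span_induction with
        | mem x hx => exact hx
        | zero => exact zero_mem _
        | add x y _ _ hx hy => exact add_mem hx hy
        | smul a x _ hx =>
          by_cases ha : a = 0
          · simp [ha]
          · obtain ⟨b, -, hb⟩ := (Nat.card_eq_two_iff' (0 : F)).1 hq
            rw [hb a ha, ← hb 1 one_ne_zero, one_smul]; exact hx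
      exact hc₀ ((h1 x hxY fun a ha => hxe (Submodule.mem_span_singleton.2 ⟨a, ha.symm⟩)).symm.trans hQ)
    · by_contra hc
      push Not at hc
      exact hc₀ ((h1 y hy hc).symm.trans (ht.1 y (Submodule.subset_span hy)))
  · have h2 : (2 : F) ≠ 0 := two_ne_zero_of_odd_card (by
      rw [← Nat.card_eq_fintype_card, hq]; decide)
    refine Or.inl fun ω hω => Or.inr ((dich ω hω).elim id fun h1 => ?_)
    by_cases hY : ∀ y ∈ h.Y e ω, ∃ a : F, y = a • e
    · exact tiny ω hY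
    · push Not at hY
      obtain ⟨y, hy, hye⟩ := hY
      refine (Submodule.finrank_mono (Submodule.span_le.2 fun y' hy' => ?_)).trans
        (finrank_span_pair_le e y)
      by_contra hc
      have k : ∀ t a : F, y' + t • y ≠ a • e := fun t a ha =>
        hc (Submodule.mem_span_pair.2 ⟨a, -t, by rw [← ha]; module⟩)
      have e1 := h1 y hy hye
      have e2 := h1 y' hy' fun a => by simpa using k 0 a
      have e3 := h1 _ (add_mem hy' hy) fun a => by simpa using k 1 a
      have e4 := h1 _ (sub_mem hy' hy) fun a => by simpa [sub_eq_add_neg] using k (-1) a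
      rw [h.qadd, e1, e2] at e3
      rw [h.qsub, e1, e2] at e4
      exact hc₀ ((mul_eq_zero.1 (show 2 * c₀ = 0 by linear_combination e3 + e4)).resolve_left h2)

/-- singular vectors perpendicular to a totally singular line, outside it. -/
noncomputable def zs (_h : QC B Q) (e y : V) : Finset V :=
  univ.filter fun z => B e z = 0 ∧ B y z = 0 ∧ z ∉ Submodule.span F {e, y} ∧ Q z = 0

theorem mem_zs {e y z : V} :
    z ∈ h.zs e y ↔ B e z = 0 ∧ B y z = 0 ∧ z ∉ Submodule.span F {e, y} ∧ Q z = 0 := by simp [zs]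

omit h in
theorem finrank_pair {e y : V} (he0 : e ≠ 0) (hye : ∀ a : F, y ≠ a • e) :
    finrank F (Submodule.span F {e, y}) = 2 := by
  have := finrank_span_eq_card (li_pair he0 hye)
  rwa [show Set.range ![e, y] = {e, y} by simp [Set.pair_comm], Fintype.card_fin] at this

theorem card_zs {e y : V} (he : Q e = 0) (he0 : e ≠ 0) (hy : Q y = 0) (hey : B e y = 0)
    (hye : ∀ a : F, y ≠ a • e) {k : ℕ} (hk : finrank F V = k + 3) :
    (h.zs e y).card + Nat.card F ^ 2 + Nat.card F ^ (k + 1) =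
      (h.lev e 0).card + Nat.card F + Nat.card F ^ k := by
  have he0' : B e ≠ 0 := fun h0 => he0 (h.sep e fun y => by simp [h0])
  have d1 := finrank_ker_dual he0'
  have d2 := finrank_pair he0 hye
  have d3 := h.finrank_perp (Submodule.span F {e, y})
  set T := univ.filter fun z => B e z = 0 ∧ B y z ≠ 0
  set T' := univ.filter fun z => (B e z = 0 ∧ Q z = 0) ∧ B y z ≠ 0
  have t1 : T.card + Nat.card F ^ (k + 1) = Nat.card F ^ (k + 2) := by
    have e1 := card_filter_mem (LinearMap.ker (B e))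
    have e2 := card_filter_mem (perp B (Submodule.span F {e, y}))
    rw [card_eq_pow (F := F)] at e1 e2
    rw [show finrank F (LinearMap.ker (B e)) = k + 2 by omega] at e1
    rw [show finrank F (perp B (Submodule.span F {e, y})) = k + 1 by omega] at e2
    rw [← e1, ← e2, ← Finset.card_filter_add_card_filter_not
      (s := univ.filter fun x => x ∈ LinearMap.ker (B e)) (fun z => B y z ≠ 0), Finset.filter_filter,
      Finset.filter_filter]
    congr 2
    ext z; simp [mem_perp_span]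
  have t2 : T'.card * Nat.card F = T.card := by
    rw [Nat.card_eq_fintype_card, ← Finset.card_univ, ← Finset.card_product]
    refine Finset.card_bij (fun x _ => x.1 + x.2 • y) ?_ ?_ ?_
    · rintro ⟨z, t⟩ hz
      simp only [T, T', mem_product, mem_filter, mem_univ, true_and, and_true] at hz ⊢
      simpa [hz.1.1, hey, h.diag0 hy] using hz.2
    · rintro ⟨z, t⟩ hz ⟨z', t'⟩ hz' hh
      simp only [T', mem_product, mem_filter, mem_univ, true_and, and_true] at hz hz' hh
      have e1 : z' = z + (t - t') • y := by rw [sub_smul, ← add_sub_assoc, hh]; abel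
      have e2 := hz'.1.2
      rw [e1, h.qadd, h.qsmul, hz.1.2, hy, map_smul, h.comm z y] at e2
      have : t = t' := by
        have : (t - t') * B y z = 0 := by simpa using e2
        exact sub_eq_zero.1 ((mul_eq_zero.1 this).resolve_right hz.2)
      subst this
      simp [e1]
    · intro z hz
      simp only [T, mem_filter, mem_univ, true_and] at hz
      obtain ⟨c, hc⟩ := h.form.exists_add_smul_singular hy hz.2
      refine ⟨(z + c • y, -c), ?_, by simp⟩
      simp only [T', mem_product, mem_filter, mem_univ, true_and, and_true]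
      exact ⟨⟨by simp [hz.1, hey], hc⟩, by simpa [h.diag0 hy] using hz.2⟩
  have t3 : (univ.filter fun z => B e z = 0 ∧ Q z = 0).card = (h.lev e 0).card + Nat.card F := by
    rw [← card_line he0, ← card_filter_mem, ← Finset.card_filter_add_card_filter_not
      (s := univ.filter fun z => B e z = 0 ∧ Q z = 0) (fun z => z ∉ F ∙ e), Finset.filter_filter,
      Finset.filter_filter]
    congr 2
    · ext z
      simp only [mem_filter, mem_univ, true_and, h.mem_lev, Submodule.mem_span_singleton]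
      exact ⟨fun ⟨⟨a, b⟩, c⟩ => ⟨a, fun t ht => c ⟨t, ht.symm⟩, b⟩,
        fun ⟨a, b, c⟩ => ⟨⟨a, c⟩, fun ⟨t, ht⟩ => b t ht.symm⟩⟩
    · ext z
      simp only [mem_filter, mem_univ, true_and, not_not, and_iff_right_iff_imp]
      intro hz
      obtain ⟨a, rfl⟩ := Submodule.mem_span_singleton.1 hz
      simp [h.diag0 he, h.qsmul, he]
  have t4 : (univ.filter fun z => B e z = 0 ∧ Q z = 0).card =
      T'.card + ((h.zs e y).card + Nat.card F ^ 2) := by
    have e2 := card_filter_mem (Submodule.span F {e, y})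
    rw [card_eq_pow (F := F), d2] at e2
    rw [← e2, ← Finset.card_filter_add_card_filter_not
      (s := univ.filter fun z => B e z = 0 ∧ Q z = 0) (fun z => B y z ≠ 0), Finset.filter_filter,
      Finset.filter_filter, ← Finset.card_filter_add_card_filter_not
      (s := univ.filter fun z => (B e z = 0 ∧ Q z = 0) ∧ ¬ B y z ≠ 0)
      (fun z => z ∉ Submodule.span F {e, y}), Finset.filter_filter, Finset.filter_filter]
    congr 3
    · ext z
      simp only [mem_filter, mem_univ, true_and, h.mem_zs, not_not]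
      tauto
    · ext z
      simp only [mem_filter, mem_univ, true_and, not_not, and_iff_right_iff_imp]
      intro hz
      obtain ⟨a, b, rfl⟩ := Submodule.mem_span_pair.1 hz
      simp [h.diag0 he, h.diag0 hy, h.qsmul, h.qadd, he, hy, hey, h.refl hey]
  have t5 : T'.card + Nat.card F ^ k = Nat.card F ^ (k + 1) := by
    refine Nat.eq_of_mul_eq_mul_right (m := Nat.card F) Nat.card_pos ?_
    rw [add_mul, t2, ← pow_succ, ← pow_succ, t1]
  omega

/-- the part of `zs` covered by an orbit. -/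
noncomputable def cov (e y : V) (O : Finset A) : Finset V :=
  (h.zs e y).filter fun z => ∀ ω ∈ O, z ∈ h.U e ω

theorem U_eq {e : V} {ω ω' : A} (hω : ω' ∈ (h.tau e).orb ω) : h.U e ω' = h.U e ω := by
  rw [U, U, Y, Y, (h.tau e).Y_eq (h.pi e) hω]

theorem mem_cov {e y z : V} {ω : A} :
    z ∈ h.cov e y ((h.tau e).orb ω) ↔ z ∈ h.zs e y ∧ z ∈ h.U e ω := by
  rw [cov, mem_filter]
  exact and_congr_right fun _ => ⟨fun hz => hz ω ((h.tau e).self_mem_orb ω),
    fun hz ω' hω' => by rwa [h.U_eq hω']⟩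

theorem zs_subset (hn : 8 ≤ finrank F V) {Ω : Finset A} (hA : Act h.Om Ω) {e y : V} (he : Q e = 0)
    (he0 : e ≠ 0) (hye : ∀ a : F, y ≠ a • e) {ω : A} (hω : ω ∈ Ω) (hy : y ∈ h.Y e ω)
    (ht : TotSing B Q (h.U e ω)) (h3 : 3 ≤ finrank F (h.U e ω)) :
    h.zs e y ⊆ ((h.tau e).orbsY (h.pi e) Ω y).biUnion (h.cov e y) := by
  obtain ⟨y', hy', hy'e⟩ : ∃ y' ∈ h.Y e ω, y' ∉ Submodule.span F {e, y} := by
    by_contra hc
    push Not at hc
    have : finrank F (h.U e ω) ≤ 2 := (Submodule.finrank_mono (Submodule.span_le.2 hc)).trans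
      (finrank_span_pair_le e y)
    omega
  intro z hz
  obtain ⟨z1, z2, z3, z4⟩ := h.mem_zs.1 hz
  have m1 : y ∈ h.U e ω := Submodule.subset_span hy
  have m2 : y' ∈ h.U e ω := Submodule.subset_span hy'
  obtain ⟨g, hg, ge, gy, gz⟩ := h.trans3 hn he0 hye (z := y') (z' := z)
    (fun c d hcd => hy'e (Submodule.mem_span_pair.2 ⟨c, d, hcd.symm⟩))
    (fun c d hcd => z3 (Submodule.mem_span_pair.2 ⟨c, d, hcd.symm⟩)) (by rw [z4, ht.1 y' m2])
    (by rw [z1, h.Y_perp he hy']) (by rw [z2, ht.2 y m1 y' m2])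
  have k1 := (h.Y_map (h.om_le_isom hg) he).2 hy
  have k2 := (h.Y_map (h.om_le_isom hg) he).2 hy'
  rw [ge, gy] at k1
  rw [ge, gz] at k2
  exact Finset.mem_biUnion.2 ⟨_, ((h.tau e).mem_orbsY (h.pi e)).2 ⟨g • ω, hA.inv g hg ω hω, k1, rfl⟩,
    h.mem_cov.2 ⟨hz, Submodule.subset_span k2⟩⟩

theorem card_cov {e y : V} (he0 : e ≠ 0) (hye : ∀ a : F, y ≠ a • e) {ω : A} (hy : y ∈ h.Y e ω)
    {k : ℕ} (hk : finrank F (h.U e ω) ≤ k) :
    (h.cov e y ((h.tau e).orb ω)).card + Nat.card F ^ 2 ≤ Nat.card F ^ k := by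
  have e2 := card_filter_mem (Submodule.span F {e, y})
  rw [card_eq_pow (F := F), finrank_pair he0 hye] at e2
  refine le_trans ?_ (card_le_of_finrank hk)
  rw [← e2, ← card_filter_mem, ← Finset.card_union_of_disjoint]
  · refine Finset.card_le_card fun z hz => ?_
    simp only [mem_union, mem_filter, mem_univ, true_and, h.mem_cov] at hz ⊢
    rcases hz with hz | hz
    · exact hz.2
    · refine (Submodule.span_le.2 ?_ : Submodule.span F {e, y} ≤ h.U e ω) hz
      rintro t (rfl | rfl)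
      · exact Submodule.subset_span (by simpa using h.smul_mem_Y t ω 1)
      · exact Submodule.subset_span hy
  · exact Finset.disjoint_left.2 fun z h1 h2 =>
      (h.mem_zs.1 (h.mem_cov.1 h1).1).2.2.1 (mem_filter.1 h2).2

end QC

end Cfsg.Agent.H26.MI
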