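import Cfsg.Agent.H26.MI12
import Cfsg.Agent.H10.SpTv
import Cfsg.Agent.H10.Congr

/-! Fixed points of abelian groups, and products of commuting symplectic transvections. -/

set_option autoImplicit false
set_option linter.unusedSectionVars false

namespace Cfsg.Agent.H26.MI

open Finset Matrix Cfsg.Agent.H10
open scoped Classical

namespace Hm
variable {D E G A : Type*} [AddCommGroup D] [AddCommGroup E] [Group G] [MulAction G A]
  (τ : Hm D G) (π : Pr D E) [Fintype D] [Fintype E]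

theorem sum_Y (ω : A) (d : D) : ∑ y ∈ univ.filter (· ∈ τ.Y π ω), π.f d y =
    if τ.t d • ω = ω then (Nat.card (τ.Y π ω) : ℂ) else 0 := by
  split_ifs with h
  · rw [Finset.sum_congr rfl (g := fun _ => 1) fun y hy => (τ.mem_Y π).1 (by simpa using hy) d h, sum_const,
      Nat.card_eq_fintype_card, Fintype.card_subtype]
    simp
  · obtain ⟨y₀, hy₀, hne⟩ : ∃ y₀ ∈ τ.Y π ω, π.f d y₀ ≠ 1 := by
      by_contra hc
      push Not at hc
      exact h (τ.fix_of_Y π hc)
    have : ∑ y ∈ univ.filter (· ∈ τ.Y π ω), π.f d y =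
        ∑ y ∈ univ.filter (· ∈ τ.Y π ω), π.f d (y + y₀) := by
      refine Finset.sum_bij (fun y _ => y - y₀) ?_ ?_ ?_ ?_
      · intro y hy
        simp only [mem_filter, mem_univ, true_and] at hy ⊢
        exact sub_mem hy hy₀
      · intro a _ b _ h; simpa using h
      · intro y hy
        simp only [mem_filter, mem_univ, true_and] at hy
        exact ⟨y + y₀, by simpa using add_mem hy hy₀, by simp⟩
      · intro y _; simp
    simp only [π.add_r, ← Finset.sum_mul] at this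
    have h2 : (∑ y ∈ univ.filter (· ∈ τ.Y π ω), π.f d y) * (1 - π.f d y₀) = 0 := by
      linear_combination this
    exact (mul_eq_zero.1 h2).resolve_right (sub_ne_zero.2 hne.symm)

theorem fix_mul {Ω : Finset A} (hΩ : ∀ d, ∀ ω ∈ Ω, τ.t d • ω ∈ Ω) (d : D) :
    ((Ω.filter fun ω => τ.t d • ω = ω).card : ℂ) * Nat.card E =
      Nat.card D * ∑ y : E, τ.mu π Ω y * π.f d y := by
  have h1 : (Ω.filter fun ω => τ.t d • ω = ω).card =
      ∑ O ∈ τ.orbs Ω, (O.filter fun ω => τ.t d • ω = ω).card := by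
    rw [Finset.card_eq_sum_card_fiberwise (f := τ.orb) (t := τ.orbs Ω)
      fun ω hω => τ.mem_orbs.2 ⟨ω, (mem_filter.1 hω).1, rfl⟩]
    refine Finset.sum_congr rfl fun O hO => ?_
    obtain ⟨ω, hω, rfl⟩ := τ.mem_orbs.1 hO
    congr 1
    ext x
    simp only [mem_filter]
    constructor
    · rintro ⟨⟨_, h⟩, h'⟩; exact ⟨h' ▸ τ.self_mem_orb x, h⟩
    · rintro ⟨h, h'⟩
      refine ⟨⟨?_, h'⟩, τ.orb_eq h⟩
      obtain ⟨d, rfl⟩ := τ.mem_orb.1 h
      exact hΩ d ω hω
  rw [h1]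
  simp only [mu, orbsY, Finset.card_filter, Nat.cast_sum, Finset.sum_mul]
  rw [Finset.sum_comm (s := univ), Finset.mul_sum]
  refine Finset.sum_congr rfl fun O hO => ?_
  obtain ⟨ω, _, rfl⟩ := τ.mem_orbs.1 hO
  have h2 : ∀ y, ((if ∀ ω' ∈ τ.orb ω, y ∈ τ.Y π ω' then 1 else 0 : ℕ) : ℂ) * π.f d y =
      if y ∈ τ.Y π ω then π.f d y else 0 := fun y => by
    have : (∀ ω' ∈ τ.orb ω, y ∈ τ.Y π ω') ↔ y ∈ τ.Y π ω :=
      ⟨fun h => h ω (τ.self_mem_orb ω), fun h ω' h' => by rw [τ.Y_eq π h']; exact h⟩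
    simp only [this]
    split_ifs <;> simp
  have h3 : ∀ x ∈ τ.orb ω, (τ.t d • x = x ↔ τ.t d • ω = ω) := fun x hx => by
    rw [← τ.mem_st, τ.st_eq hx, τ.mem_st]
  simp only [h2]
  rw [← Finset.sum_filter, τ.sum_Y, Finset.sum_congr rfl
    (g := fun _ => ((if τ.t d • ω = ω then 1 else 0 : ℕ) : ℂ) * Nat.card E)
    fun x hx => by simp only [h3 x hx], sum_const]
  have := congrArg (Nat.cast (R := ℂ)) (τ.card_Y π ω)
  push_cast at this
  split_ifs
  · simp only [nsmul_eq_mul, Nat.cast_one, one_mul]; exact this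
  · simp

theorem sum_mu_le {Ω : Finset A} (T : Finset E)
    (hT : ∀ ω ∈ Ω, ∀ y ∈ T, ∀ y' ∈ T, y ∈ τ.Y π ω → y' ∈ τ.Y π ω → y = y') :
    ∑ y ∈ T, τ.mu π Ω y ≤ (τ.orbs Ω).card := by
  simp only [mu]
  rw [← Finset.card_biUnion]
  · exact Finset.card_le_card (Finset.biUnion_subset.2 fun y _ => Finset.filter_subset _ _)
  · intro y hy y' hy' hne
    refine Finset.disjoint_left.2 fun O h1 h2 => hne ?_
    obtain ⟨ω, hω, a, rfl⟩ := (τ.mem_orbsY π).1 h1
    exact hT ω hω y hy y' hy' a ((mem_filter.1 h2).2 ω (τ.self_mem_orb ω))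

end Hm

/-- lower bounds pass from a subgroup to a simple overgroup. -/
theorem lower_sub {Γ G : Type*} [Group Γ] [Group G] [Finite G] [IsSimpleGroup G] (φ : Γ →* G)
    {x : Γ} (hx : φ x ≠ 1) {N : ℕ} (h : ∀ K : Subgroup Γ, K ≠ ⊤ → N ≤ K.index)
    (H : Subgroup G) (hH : H ≠ ⊤) : N ≤ H.index := by
  by_contra hlt
  rcases H.normalCore_normal.eq_bot_or_eq_top with h0 | h0
  · refine hx ((Subgroup.eq_bot_iff_forall _).1 h0 _ fun g => ?_)
    have : H.comap ((MulAut.conj g).toMonoidHom.comp φ) = ⊤ := by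
      by_contra hne
      refine hlt ((h _ hne).trans ?_)
      rw [Subgroup.index_comap]
      rw [← H.relIndex_top_right]
      exact Subgroup.relIndex_le_of_le_right le_top
        (by rw [H.relIndex_top_right]; exact H.index_ne_zero_of_finite)
    exact (this.symm ▸ Subgroup.mem_top x : x ∈ H.comap _)
  · exact hH (top_le_iff.1 (h0 ▸ H.normalCore_le))

section tvs
variable {l : Type*} [Fintype l] [DecidableEq l] {F : Type*} [Field F] {ι : Type*} [Fintype ι]

local notation "𝔅" => spBilin _ _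

theorem tvs_aux (u : ι → l ⊕ l → F) (d : ι → F) (x : l ⊕ l → F) :
    (1 + ∑ i, d i • vecMulVec (u i) (J l F *ᵥ u i)) *ᵥ x = x + ∑ i, (d i * 𝔅 x (u i)) • u i := by
  rw [add_mulVec, one_mulVec, Matrix.sum_mulVec]
  congr 1
  refine Finset.sum_congr rfl fun i _ => ?_
  rw [smul_mulVec, vecMulVec_mulVec, spBilin_apply, dotProduct_comm, op_smul_eq_smul, mul_smul]

/-- a product of commuting transvections. -/
noncomputable def tvs (u : ι → l ⊕ l → F) (hu : ∀ i j, 𝔅 (u i) (u j) = 0) :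
    Hm (ι → F) (symplecticGroup l F) where
  t d := ⟨1 + ∑ i, d i • vecMulVec (u i) (J l F *ᵥ u i), mem_symplecticGroup_iff_form.2 fun x y => by
    simp only [tvs_aux, map_add, map_sum, map_smul, LinearMap.add_apply, LinearMap.sum_apply,
      LinearMap.smul_apply, hu, smul_eq_mul, mul_zero, Finset.sum_const_zero, add_zero,
      spB_swap (u _) y]
    rw [add_assoc, ← Finset.sum_add_distrib, Finset.sum_eq_zero fun i _ => by ring, add_zero]⟩
  add a b := sp_ext fun x => by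
    rw [sp_mul_mulVec, tvs_aux, tvs_aux, tvs_aux]
    simp only [map_add, map_sum, map_smul, LinearMap.add_apply,
      LinearMap.sum_apply, LinearMap.smul_apply, hu, smul_eq_mul, mul_zero, Finset.sum_const_zero,
      add_zero, Pi.add_apply, add_mul, add_smul, Finset.sum_add_distrib]
    abel

theorem tvs_mulVec {u : ι → l ⊕ l → F} (hu : ∀ i j, 𝔅 (u i) (u j) = 0) (d : ι → F)
    (x : l ⊕ l → F) : ((tvs u hu).t d).1 *ᵥ x = x + ∑ i, (d i * 𝔅 x (u i)) • u i := tvs_aux u d x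

theorem tvs_single [DecidableEq ι] {u : ι → l ⊕ l → F} (hu : ∀ i j, 𝔅 (u i) (u j) = 0) (i : ι)
    (c : F) : (tvs u hu).t (Pi.single i c) = stv (u i) c := sp_ext fun x => by
  rw [tvs_mulVec, stv_mulVec, Finset.sum_eq_single i (fun j _ hj => by simp [hj]) (by simp)]
  simp

theorem tvs_conj {u : ι → l ⊕ l → F} (hu : ∀ i j, 𝔅 (u i) (u j) = 0) {g : symplecticGroup l F}
    {σ : Equiv.Perm ι} (hg : ∀ i, g.1 *ᵥ u i = u (σ i)) (d : ι → F) :
    g * (tvs u hu).t d = (tvs u hu).t (d ∘ σ.symm) * g := sp_ext fun x => by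
  simp only [sp_mul_mulVec, tvs_mulVec, mulVec_add, Matrix.mulVec_sum, mulVec_smul, hg]
  rw [← Equiv.sum_comp σ (fun i => ((d ∘ σ.symm) i * _) • u i)]
  simp only [Function.comp, Equiv.symm_apply_apply, ← hg, sp_form]

end tvs

end Cfsg.Agent.H26.MI
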