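import Mathlib
import Cfsg.Agent.H26.O3

/-! The four-dimensional orthogonal space of plus type as a tensor square. -/

set_option autoImplicit false
set_option maxHeartbeats 400000

namespace Cfsg.Agent.H26

open Matrix Cfsg.Geo Module
open scoped Kronecker

variable {ι κ κ' β : Type} [Fintype ι] [DecidableEq ι] [Fintype κ] [DecidableEq κ]
  [Fintype κ'] [DecidableEq κ'] [Fintype β] [DecidableEq β] {F : Type*} [Field F] {σ : F →+* F}
  {G : Matrix ι ι F} {Q : (ι → F) → F}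

/-- the flip of the two tensor factors -/
def sw (κ : Type) [Fintype κ] [DecidableEq κ] (F : Type*) [Field F] : GL (κ × κ) F where
  val := (1 : Matrix (κ × κ) (κ × κ) F).submatrix (Equiv.prodComm κ κ) id
  inv := (1 : Matrix (κ × κ) (κ × κ) F).submatrix (Equiv.prodComm κ κ) id
  val_inv := by
    ext p q; rw [Matrix.mul_apply, Finset.sum_eq_single p.swap] <;> simp +contextual [Matrix.one_apply, eq_comm]
  inv_val := by
    ext p q; rw [Matrix.mul_apply, Finset.sum_eq_single p.swap] <;> simp +contextual [Matrix.one_apply, eq_comm]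

theorem sw_apply (p q : κ × κ) : (sw κ F).val p q = if p.swap = q then 1 else 0 := rfl

theorem sw_mul (x : Matrix (κ × κ) (κ × κ) F) (p q : κ × κ) : ((sw κ F).val * x) p q = x p.swap q := by
  simp [Matrix.mul_apply, sw_apply]

theorem mul_sw (x : Matrix (κ × κ) (κ × κ) F) (p q : κ × κ) : (x * (sw κ F).val) p q = x p q.swap := by
  simp [Matrix.mul_apply, sw_apply, Prod.swap_eq_iff_eq_swap]

theorem cj_sw (x y : Matrix κ κ F) : cj (sw κ F) (x ⊗ₖ y) = y ⊗ₖ x := by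
  ext p q
  rw [cj_apply, show ((sw κ F)⁻¹ : GL _ F).val = (sw κ F).val from rfl, mul_sw, sw_mul]
  simp [mul_comm]

theorem sw_mul_sw : sw κ F * sw κ F = 1 := Units.ext (sw κ F).val_inv

theorem det_sw : (sw (Fin 2) F).val.det = -1 := by
  rw [← Matrix.det_submatrix_equiv_self finProdFinEquiv.symm]
  simp [Matrix.det_succ_row_zero, Fin.sum_univ_succ, sw_apply, finProdFinEquiv, Fin.divNat,
    Fin.modNat, Fin.succAbove]

theorem pull_sw (G₀ : Matrix κ κ F) : pull (RingHom.id F) (G₀ ⊗ₖ G₀) (sw κ F) = G₀ ⊗ₖ G₀ := by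
  have h1 : (sw κ F).valᵀ = (sw κ F).val := by
    ext ⟨a, b⟩ ⟨c, d⟩; simp [sw_apply, eq_comm, and_comm]
  conv_rhs => rw [← cj_sw G₀ G₀, cj_apply]
  rw [pull, h1]; rfl

theorem hf_J₂ : HF (RingHom.id F) (J₂ F) (-1) := hf_alt alt_J₂ isUnit_J₂

theorem hf_JJ : HF (RingHom.id F) (J₂ F ⊗ₖ J₂ F) 1 := by
  simpa using (hf_J₂ (F := F)).kronecker (hf_J₂ (F := F))

theorem skew_JJ (h2 : (2 : F) ≠ 0) {x : Matrix (Fin 2 × Fin 2) (Fin 2 × Fin 2) F}
    (hx : adj (RingHom.id F) (J₂ F ⊗ₖ J₂ F) x = -x) {c : F} (hc : x * x = c • 1) :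
    ∃ s : Matrix (Fin 2) (Fin 2) F, x = s ⊗ₖ 1 ∨ x = 1 ⊗ₖ s := by
  have h1 := hf_JJ.mul_adj x
  rw [hx] at h1
  have h3 := fun p q => congrFun (congrFun h1 p) q
  simp only [Prod.forall, Fin.forall_fin_two, Matrix.mul_apply, Fintype.sum_prod_type,
    Fin.sum_univ_two, J₂, Matrix.kroneckerMap_apply, Matrix.map_apply, Matrix.neg_apply,
    Matrix.transpose_apply, RingHom.id_apply, Matrix.of_apply, Matrix.cons_val', Matrix.cons_val_zero,
    Matrix.cons_val_one, Matrix.cons_val_fin_one] at h3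
  obtain ⟨⟨⟨⟨a1, a2⟩, a3, a4⟩, ⟨b1, b2⟩, b3, b4⟩, ⟨⟨c1, c2⟩, c3, c4⟩, ⟨d1, d2⟩, d3, d4⟩ := h3
  obtain ⟨s, t, hs, ht, rfl⟩ : ∃ s t : Matrix (Fin 2) (Fin 2) F, s 1 1 = -s 0 0 ∧ t 1 1 = -t 0 0 ∧
      x = s ⊗ₖ 1 + 1 ⊗ₖ t := by
    refine ⟨!![(x (0, 0) (0, 0) + x (0, 1) (0, 1)) / 2, x (0, 0) (1, 0); x (1, 0) (0, 0),
      -((x (0, 0) (0, 0) + x (0, 1) (0, 1)) / 2)], !![(x (0, 0) (0, 0) - x (0, 1) (0, 1)) / 2,
      x (0, 0) (0, 1); x (0, 1) (0, 0), -((x (0, 0) (0, 0) - x (0, 1) (0, 1)) / 2)], rfl, rfl, ?_⟩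
    ext ⟨i, j⟩ ⟨k, l⟩
    fin_cases i <;> fin_cases j <;> fin_cases k <;> fin_cases l <;> simp <;> grind
  have h4 : ∀ s : Matrix (Fin 2) (Fin 2) F, s 1 1 = -s 0 0 → s * s = (-s.det) • 1 := fun s hs => by
    ext i j
    fin_cases i <;> fin_cases j <;> simp [Matrix.mul_apply, Matrix.det_fin_two, hs] <;> ring
  by_cases hs0 : s = 0
  · exact ⟨t, Or.inr (by simp [hs0])⟩
  by_cases ht0 : t = 0
  · exact ⟨s, Or.inl (by simp [ht0])⟩
  simp only [mul_add, add_mul, ← Matrix.mul_kronecker_mul, h4 s hs, h4 t ht, mul_one, one_mul,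
    Matrix.smul_kronecker, Matrix.kronecker_smul, Matrix.one_kronecker_one] at hc
  obtain ⟨d, hd, -, h5⟩ := exists_smul_of_kronecker_eq (a' := ((c + s.det + t.det) / 2) • 1) (b' := 1)
    (show s ⊗ₖ t = _ by
      rw [Matrix.smul_kronecker, Matrix.one_kronecker_one, div_eq_inv_mul, mul_smul,
        eq_inv_smul_iff₀ h2]
      linear_combination (norm := module) hc) hs0 ht0
  rw [h5] at ht
  exact absurd (mul_left_cancel₀ h2 (by simp at ht; linear_combination ht : 2 * d = 2 * 0)) hd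

theorem sim_JJ (h2 : (2 : F) ≠ 0) {g : GL (Fin 2 × Fin 2) F}
    (hg : g ∈ similarityGroup (𝔟 (J₂ F ⊗ₖ J₂ F))) :
    ∃ a b : GL (Fin 2) F, g = kronG a b ∨ g = sw (Fin 2) F * kronG a b := by
  have h1 : ∀ i j : Fin 2, i ≠ j → ∃ s : Matrix (Fin 2) (Fin 2) F,
      cj g (single i j 1 ⊗ₖ 1) = s ⊗ₖ 1 ∨ cj g (single i j 1 ⊗ₖ 1) = 1 ⊗ₖ s := fun i j hij =>
    skew_JJ h2 (c := 0) (by
      rw [hf_JJ.adj_cj hg, hf_J₂.adj_kronecker hf_J₂, hf_J₂.adj_one, adj_J₂, ← map_neg,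
        Matrix.trace_single_eq_of_ne _ _ _ hij, zero_smul, zero_sub, ← neg_one_smul F,
        Matrix.smul_kronecker, neg_one_smul]) (by
      rw [← map_mul, ← Matrix.mul_kronecker_mul, Matrix.single_mul_single_of_ne _ _ _ _ hij.symm]
      simp)
  have h3 : ∀ g : GL (Fin 2 × Fin 2) F, (∃ s, cj g (single 0 1 1 ⊗ₖ 1) = s ⊗ₖ 1) →
      (∃ s, cj g (single 1 0 1 ⊗ₖ 1) = s ⊗ₖ 1) → ∃ a b : GL (Fin 2) F, g = kronG a b := by
    rintro g ⟨s, hs⟩ ⟨t, ht⟩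
    obtain ⟨a, b, h⟩ := exists_eq_kronecker_of_normalizes g fun x =>
      ⟨x 0 0 • (s * t) + x 0 1 • s + x 1 0 • t + x 1 1 • (t * s), by
        have h4 : x = x 0 0 • (single 0 1 1 * single 1 0 1) + x 0 1 • single 0 1 1 +
            x 1 0 • single 1 0 1 + x 1 1 • (single 1 0 1 * single 0 1 1) := by
          ext i j; fin_cases i <;> fin_cases j <;> simp
        have h5 : ∀ u v : Matrix (Fin 2) (Fin 2) F, (u * v) ⊗ₖ (1 : Matrix (Fin 2) (Fin 2) F) =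
            u ⊗ₖ 1 * v ⊗ₖ 1 := fun u v => by rw [← Matrix.mul_kronecker_mul, one_mul]
        rw [← cj_apply]
        conv_lhs => rw [h4]
        simp only [Matrix.add_kronecker, Matrix.smul_kronecker, h5, map_add, map_smul, map_mul, hs, ht]⟩
    exact ⟨a, b, Units.ext h⟩
  have h4 : ∀ x y : Matrix (Fin 2 × Fin 2) (Fin 2 × Fin 2) F, cj g (single 0 1 1 ⊗ₖ 1) = x →
      cj g (single 1 0 1 ⊗ₖ 1) = y → x * y ≠ y * x := by
    rintro _ _ rfl rfl h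
    rw [← map_mul, ← map_mul, (cj g).injective.eq_iff] at h
    simpa [← Matrix.mul_kronecker_mul] using congrFun (congrFun h (0, 0)) (0, 0)
  obtain ⟨s, hs | hs⟩ := h1 0 1 (by simp) <;> obtain ⟨t, ht | ht⟩ := h1 1 0 (by simp)
  · exact let ⟨a, b, h⟩ := h3 g ⟨s, hs⟩ ⟨t, ht⟩; ⟨a, b, Or.inl h⟩
  · exact absurd (by simp [← Matrix.mul_kronecker_mul]) (h4 _ _ hs ht)
  · exact absurd (by simp [← Matrix.mul_kronecker_mul]) (h4 _ _ hs ht)
  · obtain ⟨a, b, h⟩ := h3 (sw _ F * g) ⟨s, by rw [cj_mul, hs, cj_sw]⟩ ⟨t, by rw [cj_mul, ht, cj_sw]⟩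
    exact ⟨a, b, Or.inr (by rw [← h, ← mul_assoc, sw_mul_sw, one_mul])⟩

theorem qf_self (h2 : (2 : F) ≠ 0) (h : HF (RingHom.id F) G 1) :
    QF (fun v => 𝔟 G v v) ((2 : F) • G) :=
  qf_fm (by rw [h.transpose, one_smul, two_smul]) (isUnit_smul' h2 h.unit)

theorem exists_pull_JJ [Finite F] (h2 : (2 : F) ≠ 0) (h : HF (RingHom.id F) G 1)
    (φ : ι ≃ Fin 2 × Fin 2) (hp : IsPlusTypeOn (fun v => 𝔟 G v v) ⊤) :
    ∃ T : GL ι F, pull (RingHom.id F) G T = (J₂ F ⊗ₖ J₂ F).submatrix φ φ := by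
  have h1 : HF (RingHom.id F) ((J₂ F ⊗ₖ J₂ F).submatrix φ φ) 1 := by
    simpa [unF, pull] using hf_JJ.unF φ.symm 1
  obtain ⟨T, hT⟩ := (qf_self h2 h1).exists_equiv (qf_self h2 h) (by simp [Fintype.card_congr φ]; decide)
    (iff_of_true (plus_of_pure (e := φ) (P := 1) fun x y => by
      simp [fm_comp_equiv, fm_kronecker, alt_J₂.fm_self]) hp)
  have h3 := (qf_self h2 h1).pull_eq (qf_self h2 h) hT
  rw [pull_smul] at h3
  exact ⟨T, smul_right_injective _ h2 h3⟩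

variable {H : Subgroup (GL ι F)} {e : ι ≃ κ × β} {P : GL ι F} {G₁ : Matrix κ κ F}
  {G₂ : Matrix β β F} {ε₁ ε₂ : F}

theorem trA_trans (e : ι ≃ κ) (φ : κ ≃ κ') (P : GL ι F) (x : Matrix κ' κ' F) :
    trA (e.trans φ) P x = trA e P (x.submatrix φ φ) := rfl

theorem Ten.reindex (h : Ten σ G H e P G₁ G₂ ε₁ ε₂) (φ : κ ≃ κ') :
    Ten σ G H (e.trans (φ.prodCongr (Equiv.refl β))) P (G₁.submatrix φ.symm φ.symm) G₂ ε₁ ε₂ := by
  refine ⟨by simpa [unF, pull] using h.hf₁.unF φ 1, h.hf₂, by rw [unF_trans, h.eq]; rfl,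
    fun g hg => ?_⟩
  obtain ⟨a, b, hab⟩ := mem_tenG.1 (h.le hg)
  refine mem_tenG.2 ⟨(trG φ 1).symm a, b, ?_⟩
  rw [hab, trA_trans, ← (trG φ 1).apply_symm_apply a]
  simp only [coe_trG, trA_apply, cj_apply, inv_one, Units.val_one, one_mul, mul_one,
    MulEquiv.symm_apply_apply]
  rfl

theorem det_of_mem_omega {g : GL ι F} (hg : g ∈ omegaGL Q) : g.val.det = 1 := by
  obtain ⟨x, hx, rfl⟩ := hg
  simpa [Units.ext_iff] using Abelianization.commutator_subset_ker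
    (Matrix.GeneralLinearGroup.det.comp (isometryGroup F Q).subtype) hx

theorem Ten.assoc {e : ι ≃ (κ × κ') × β} {G₁ : Matrix κ κ F} {G₁' : Matrix κ' κ' F} {ε ε' : F}
    (h : Ten σ G ⊥ e P (G₁ ⊗ₖ G₁') G₂ ε₁ ε₂) (h1 : HF σ G₁ ε) (h1' : HF σ G₁' ε')
    (hH : ∀ g ∈ H, ∃ a a' b, g = trG e P (kronG (kronG a a') b)) :
    Ten σ G H (e.trans (Equiv.prodAssoc κ κ' β)) P G₁ (G₁' ⊗ₖ G₂) ε (ε' * ε₂) := by
  refine ⟨h1, h1'.kronecker h.hf₂, ?_, fun g hg => ?_⟩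
  · rw [unF_trans, h.eq]; ext; simp [mul_assoc]
  · obtain ⟨a, a', b, rfl⟩ := hH g hg
    refine mem_tenG.2 ⟨a, kronG a' b, ?_⟩
    rw [trA_trans, coe_trG]
    congr 1; ext; simp [coe_kronG, mul_assoc]

/-- `O₄⁺ ⊗ O_b` with `b` odd, intersected with `SO`, lies in `Sp₂ ⊗ Sp_{2b}` -/
theorem Ten.of_JJ (h2 : (2 : F) ≠ 0) {e : ι ≃ (Fin 2 × Fin 2) × β}
    (h : Ten (RingHom.id F) G H e P (J₂ F ⊗ₖ J₂ F) G₂ 1 1) (ho : Odd (Fintype.card β))
    (hH : H ≤ isom (RingHom.id F) G) (hd : ∀ g ∈ H, g.val.det = 1) :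
    Ten (RingHom.id F) G H (e.trans (Equiv.prodAssoc _ _ β)) P (J₂ F) (J₂ F ⊗ₖ G₂) (-1) (-1) := by
  have : Nonempty β := Fintype.card_pos_iff.1 ho.pos
  simpa using (h.mono bot_le).assoc hf_J₂ hf_J₂ fun g hg => by
    obtain ⟨a, b, rfl⟩ := h.le hg
    obtain ⟨d, hd0, h3, h4⟩ := h.exists_pull one_ne_zero (by rw [one_smul]; exact mem_isom.1 (hH hg))
    obtain ⟨x, y, rfl | rfl⟩ := sim_JJ h2 (mem_similarityGroup_fm.2 ⟨d, hd0, h3⟩)
    · exact ⟨x, y, b, rfl⟩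
    exfalso
    have h5 := hd _ hg
    have h6 := congrArg Matrix.det h4
    rw [Units.val_mul, pull_mul, pull_sw, coe_kronG, pull_kronecker, pull_J₂, pull_J₂,
      Matrix.smul_kronecker, Matrix.kronecker_smul, smul_smul] at h3
    obtain rfl := smul_left_injective F hf_JJ.unit.ne_zero h3
    rw [det_pull_id, Matrix.det_smul, mul_left_inj' ((Matrix.isUnit_iff_isUnit_det _).1
      h.hf₂.unit).ne_zero, mul_one, inv_pow] at h6
    rw [coe_trG, det_trA, coe_kronG, Matrix.det_kronecker, Units.val_mul, Matrix.det_mul, det_sw,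
      coe_kronG, Matrix.det_kronecker, mul_pow, ho.neg_one_pow] at h5
    simp only [Fintype.card_prod, Fintype.card_fin, ← mul_pow] at h5
    rw [pow_mul b.val.det, h6, ← pow_mul, mul_comm 2, pow_mul, mul_assoc, ← mul_pow,
      mul_inv_cancel₀ (pow_ne_zero _ hd0)] at h5
    exact h2 (by linear_combination -h5)

end Cfsg.Agent.H26
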