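import Mathlib
import Cfsg.Agent.H26.O4
import Cfsg.Agent.H26.SpNum

/-! Orthogonal decompositions of quadratic spaces over small fields. -/

set_option autoImplicit false
set_option maxHeartbeats 400000

namespace Cfsg.Agent.H26

open Matrix Cfsg.Geo Module
open scoped Kronecker

variable {ι κ β : Type} [Fintype ι] [DecidableEq ι] [Fintype κ] [DecidableEq κ]
  [Fintype β] [DecidableEq β] {F : Type*} [Field F] {G : Matrix ι ι F} {Q : (ι → F) → F}

theorem QF.fm_of_comp (h : QF Q G) {Q₀ : (κ → F) → F} {G₀ : Matrix κ κ F} (h₀ : QF Q₀ G₀)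
    {φ : (κ → F) →ₗ[F] (ι → F)} (h1 : ∀ x, Q (φ x) = Q₀ x) (x y : κ → F) :
    𝔟 G (φ x) (φ y) = 𝔟 G₀ x y := by
  have h2 := h.add (φ x) (φ y)
  rw [← map_add, h1, h1, h1, h₀.add] at h2
  linear_combination -h2

theorem QF.inj_of_comp (h : QF Q G) {Q₀ : (κ → F) → F} {G₀ : Matrix κ κ F} (h₀ : QF Q₀ G₀)
    {φ : (κ → F) →ₗ[F] (ι → F)} (h1 : ∀ x, Q (φ x) = Q₀ x) : Function.Injective φ :=
  (injective_iff_map_eq_zero φ).2 fun x hx => h₀.hf.eq_zero_left fun y => by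
    rw [← h.fm_of_comp h₀ h1, hx]; simp [fm]

theorem QF.nondeg_range (h : QF Q G) {Q₀ : (κ → F) → F} {G₀ : Matrix κ κ F} (h₀ : QF Q₀ G₀)
    {φ : (κ → F) →ₗ[F] (ι → F)} (h1 : ∀ x, Q (φ x) = Q₀ x) :
    IsNondegenerateOn (𝔟 G) (LinearMap.range φ) := by
  rintro _ ⟨x, rfl⟩ hx
  obtain ⟨y, hy⟩ := exists_fm_ne_zero_left (σ := RingHom.id F) h₀.unit (v := x) (by
    rintro rfl; simp at hx)
  exact ⟨⟨φ y, ⟨y, rfl⟩, by rwa [h.fm_of_comp h₀ h1]⟩,
    ⟨φ y, ⟨y, rfl⟩, by rwa [h.fm_of_comp h₀ h1, h₀.comm]⟩⟩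

omit [Fintype ι] [DecidableEq ι] [Fintype κ] [DecidableEq κ] in
theorem isometric_range {φ ψ : (κ → F) →ₗ[F] (ι → F)} (hφ : Function.Injective φ)
    (hψ : Function.Injective ψ) (h : ∀ x, Q (ψ x) = Q (φ x)) [Fintype ι] [DecidableEq ι] :
    AreIsometricFor Q (LinearMap.range φ) (LinearMap.range ψ) :=
  ⟨(LinearEquiv.ofInjective φ hφ).symm.trans (LinearEquiv.ofInjective ψ hψ), fun w => by
    obtain ⟨x, rfl⟩ := (LinearEquiv.ofInjective φ hφ).surjective w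
    simp [h]⟩

theorem HF.indep_of_orth {σ : F →+* F} {ε : F} (h : HF σ G ε) {T : Type*}
    {D : T → Submodule F (ι → F)} (h1 : ∀ i, IsNondegenerateOn (fm σ G) (D i))
    (h2 : ∀ i j, i ≠ j → AreOrthogonalFor (fm σ G) (D i) (D j)) : iSupIndep D := fun i =>
  disjoint_iff.2 (h.disjoint_of_orth (h1 i) fun u hu v hv => h.mem_prp.1
    ((iSup₂_le fun j hj w hw => h.mem_prp.2 fun x hx => h2 i j (Ne.symm hj) x hx w hw :
      _ ≤ prp σ G (D i)) hv) u hu)

theorem QF.mk_odec (h : QF Q G) {t k : ℕ} {Q₀ : (Fin k → F) → F} {G₀ : Matrix (Fin k) (Fin k) F}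
    (h₀ : QF Q₀ G₀) (ht : 2 ≤ t) (hk : 0 < k) {φ : Fin t → (Fin k → F) →ₗ[F] (ι → F)}
    (h1 : ∀ i x, Q (φ i x) = Q₀ x) (h2 : ∀ i j, i ≠ j → ∀ x y, 𝔟 G (φ i x) (φ j y) = 0)
    (h3 : ⨆ i, LinearMap.range (φ i) = ⊤) :
    IsOrthogonalMDecomposition Q k fun i => LinearMap.range (φ i) := by
  have h4 : ∀ i j, i ≠ j → AreOrthogonalFor (𝔟 G) (LinearMap.range (φ i)) (LinearMap.range (φ j)) := by
    rintro i j hij _ ⟨x, rfl⟩ _ ⟨y, rfl⟩; exact h2 i j hij x y
  have h5 := fun i => h.nondeg_range h₀ (h1 i)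
  refine ⟨h.polar ▸ ⟨⟨ht, hk, fun i => ?_, h.hf.indep_of_orth h5 h4, h3⟩, h5, h4⟩, fun i j =>
    isometric_range (h.inj_of_comp h₀ (h1 i)) (h.inj_of_comp h₀ (h1 j)) fun x => by rw [h1, h1]⟩
  rw [LinearMap.finrank_range_of_inj (h.inj_of_comp h₀ (h1 i)), finrank_fun, Fintype.card_fin]

section blk
variable {t k : ℕ} {D : Fin t → Submodule F (ι → F)} {e : ι ≃ Fin k × Fin t} {P : GL ι F}

/-- the embedding of a block -/
def blkL (e : ι ≃ Fin k × Fin t) (P : GL ι F) (j : Fin t) : (Fin k → F) →ₗ[F] (ι → F) where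
  toFun x := P.val *ᵥ (blkVec j x ∘ e)
  map_add' x y := by
    rw [← Matrix.mulVec_add]; congr 1; ext i; simp only [blkVec, Function.comp, Pi.add_apply]
    split_ifs <;> simp
  map_smul' c x := by
    rw [← Matrix.mulVec_smul]; congr 1; ext i; simp [blkVec]

theorem Blk.range (h : Blk D e P) (j : Fin t) : LinearMap.range (blkL e P j) = D j := by
  ext v; rw [h.mem]; exact exists_congr fun x => eq_comm

/-- block coordinates for an orthogonal decomposition -/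
structure OBlk (Q : (ι → F) → F) (G : Matrix ι ι F) (D : Fin t → Submodule F (ι → F))
    (e : ι ≃ Fin k × Fin t) (P : GL ι F) (Qs : Fin t → (Fin k → F) → F)
    (Gs : Fin t → Matrix (Fin k) (Fin k) F) : Prop where
  blk : Blk D e P
  qf : ∀ j, QF (Qs j) (Gs j)
  eq : unF (RingHom.id F) e P G = Matrix.blockDiagonal Gs
  val : ∀ j x, Q (blkL e P j x) = Qs j x

variable {Qs Qs' : Fin t → (Fin k → F) → F} {Gs Gs' : Fin t → Matrix (Fin k) (Fin k) F}

theorem QF.exists_oblk (h : QF Q G) (hD : IsNondegenerateMDecomposition (𝔟 G) k D) :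
    ∃ (e : ι ≃ Fin k × Fin t) (P : GL ι F) (Qs : _) (Gs : _), OBlk Q G D e P Qs Gs := by
  obtain ⟨e, P, hB⟩ := exists_blk hD.decomp
  obtain ⟨Gs, h1, h2⟩ := hB.exists_eq h.hf hD.orthogonal
  exact ⟨e, P, _, Gs, hB, fun j => h.of_comp (φ := blkL e P j) (h2 j).unit fun x y => by
    rw [← fm_blkVec Gs j, ← h1, ← fm_unF]; rfl, h1, fun _ _ => rfl⟩

theorem OBlk.change (h : OBlk Q G D e P Qs Gs) (h' : ∀ j, QF (Qs' j) (Gs' j))
    (hT : ∀ j, ∃ T : GL (Fin k) F, ∀ x, Qs j (T.val *ᵥ x) = Qs' j x) :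
    ∃ P', OBlk Q G D e P' Qs' Gs' := by
  choose T hT using hT
  refine ⟨_, h.blk.change T, h', ?_, fun j x => ?_⟩
  · rw [unF_change h.eq]; congr 1; ext1 j; exact (h' j).pull_eq (h.qf j) (hT j)
  · rw [← hT, ← h.val]
    change Q (_ *ᵥ _) = Q (_ *ᵥ _)
    rw [Units.val_mul, ← Matrix.mulVec_mulVec, coe_trG, trA_mulVec, coe_blkG, blk_mulVec]; rfl

theorem OBlk.inj (h : OBlk Q G D e P Qs Gs) (hQ : QF Q G) (j : Fin t) :
    Function.Injective (blkL e P j) := hQ.inj_of_comp (h.qf j) (h.val j)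

theorem OBlk.plus_iff (h : OBlk Q G D e P Qs Gs) (hQ : QF Q G) (j : Fin t) :
    IsPlusTypeOn Q (D j) ↔ IsPlusTypeOn (Qs j) ⊤ :=
  h.blk.range j ▸ plus_range_iff (h.inj hQ j) (h.val j)

theorem OBlk.isometric_iff (h : OBlk Q G D e P Qs Gs) (hQ : QF Q G) (i j : Fin t) :
    AreIsometricFor Q (D i) (D j) ↔ ∃ T : GL (Fin k) F, ∀ x, Qs j (T.val *ᵥ x) = Qs i x := by
  rw [← h.blk.range, ← h.blk.range]
  constructor
  · rintro ⟨φ, hφ⟩
    obtain ⟨T, hT⟩ := exists_GL_of_equiv ((LinearEquiv.ofInjective _ (h.inj hQ i)).trans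
      (φ.trans (LinearEquiv.ofInjective _ (h.inj hQ j)).symm))
    refine ⟨T, fun x => ?_⟩
    rw [← h.val, ← h.val, hT, ← LinearEquiv.ofInjective_apply (h := h.inj hQ i), ← hφ,
      ← LinearEquiv.ofInjective_apply (h := h.inj hQ j)]
    simp
  · rintro ⟨T, hT⟩
    have h1 : LinearMap.range (blkL e P j) = LinearMap.range (blkL e P j ∘ₗ Matrix.toLin' T.val) := by
      rw [LinearMap.range_comp, LinearMap.range_eq_top.2 fun x =>
        ⟨_, mulVec_inv_mulVec T x⟩, Submodule.map_top]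
    rw [h1]
    exact isometric_range (h.inj hQ i) ((h.inj hQ j).comp fun x y hxy => by
      simpa using congrArg ((T⁻¹ : GL _ F).val *ᵥ ·) hxy) fun x => by simp [h.val, hT]

theorem OBlk.stab (h : OBlk Q G D e P Qs Gs) {g : GL ι F} (hg : g ∈ decompositionStabilizer D)
    (hi : g ∈ isometryGroup F Q) : ∃ (τ : Equiv.Perm (Fin t)) (a : Fin t → GL (Fin k) F),
      g.val = trA e P (H26.blk τ fun j => (a j).val) ∧
      (∀ j x, g.val *ᵥ blkL e P j x = blkL e P (τ j) ((a j).val *ᵥ x)) ∧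
      ∀ j x, Qs (τ j) ((a j).val *ᵥ x) = Qs j x := by
  obtain ⟨τ, a, ha⟩ := h.blk.stab g hg
  have h1 : ∀ j x, g.val *ᵥ blkL e P j x = blkL e P (τ j) ((a j).val *ᵥ x) := fun j x => by
    rw [ha]; exact (trA_mulVec _ _ _ _).trans (by rw [blk_mulVec]; rfl)
  exact ⟨τ, a, ha, h1, fun j x => by rw [← h.val, ← h1, mem_isometryGroup.1 hi, h.val]⟩

theorem QF.exists_oblk_const (h : QF Q G) (hD : IsOrthogonalMDecomposition Q k D) :
    ∃ (e : ι ≃ Fin k × Fin t) (P : GL ι F) (Q₀ : _) (G₀ : _),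
      OBlk Q G D e P (fun _ => Q₀) fun _ => G₀ := by
  obtain ⟨e, P, Qs, Gs, hB⟩ := h.exists_oblk (h.nondegDec hD)
  have i : Fin t := ⟨0, by have := hD.decomp.decomp.two_le; omega⟩
  obtain ⟨P', h1⟩ := hB.change (fun _ => hB.qf i) fun j => (hB.isometric_iff h i j).1 (hD.isometric i j)
  exact ⟨e, P', _, _, h1⟩

theorem QF.exists_oblk_even [Finite F] (h : QF Q G) (hD : IsNondegenerateMDecomposition (𝔟 G) k D)
    (hk : Even k) {Q₀ : (Fin k → F) → F} {G₀ : Matrix (Fin k) (Fin k) F} (h₀ : QF Q₀ G₀)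
    (hp : ∀ j, IsPlusTypeOn Q (D j) ↔ IsPlusTypeOn Q₀ ⊤) :
    ∃ (e : ι ≃ Fin k × Fin t) (P : GL ι F), OBlk Q G D e P (fun _ => Q₀) fun _ => G₀ := by
  obtain ⟨e, P, Qs, Gs, hB⟩ := h.exists_oblk hD
  obtain ⟨P', h1⟩ := hB.change (fun _ => h₀) fun j => h₀.exists_equiv (hB.qf j) (by simpa)
    ((hp j).symm.trans (hB.plus_iff h j))
  exact ⟨e, P', h1⟩

variable {Q₀ : (Fin k → F) → F} {G₀ : Matrix (Fin k) (Fin k) F}

theorem OBlk.refine (h : OBlk Q G D e P (fun _ => Q₀) fun _ => G₀) (hQ : QF Q G)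
    (hD : IsNondegenerateMDecomposition (𝔟 G) k D) {s k' : ℕ} (hs : 0 < s) (hk : 0 < k')
    {Q₁ : (Fin k' → F) → F} {G₁ : Matrix (Fin k') (Fin k') F} (h₁ : QF Q₁ G₁)
    {ψ : Fin s → (Fin k' → F) →ₗ[F] (Fin k → F)} (h1 : ∀ l x, Q₀ (ψ l x) = Q₁ x)
    (h2 : ∀ l l', l ≠ l' → ∀ x y, 𝔟 G₀ (ψ l x) (ψ l' y) = 0) (h3 : ⨆ l, LinearMap.range (ψ l) = ⊤)
    (h4 : ∀ a ∈ isometryGroup F Q₀, ∀ l, ∃ l', ∀ x, ∃ y, a.val *ᵥ ψ l x = ψ l' y) :
    ∃ D' : Fin (s * t) → Submodule F (ι → F), IsOrthogonalMDecomposition Q k' D' ∧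
      (∀ i, IsPlusTypeOn Q (D' i) ↔ IsPlusTypeOn Q₁ ⊤) ∧
      decompositionStabilizer D ⊓ isometryGroup F Q ≤ decompositionStabilizer D' := by
  let φ : Fin (s * t) → (Fin k' → F) →ₗ[F] (ι → F) := fun i =>
    blkL e P (finProdFinEquiv.symm i).2 ∘ₗ ψ (finProdFinEquiv.symm i).1
  have h5 : ∀ i x, Q (φ i x) = Q₁ x := fun i x => (h.val _ _).trans (h1 _ x)
  have h6 : IsOrthogonalMDecomposition Q k' fun i => LinearMap.range (φ i) := by
    refine hQ.mk_odec h₁ (by have := hD.decomp.two_le; nlinarith) hk h5 (fun i j hij x y => ?_) ?_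
    · by_cases h7 : (finProdFinEquiv.symm i).2 = (finProdFinEquiv.symm j).2
      · simp only [φ, LinearMap.comp_apply, h7]
        rw [hQ.fm_of_comp (h.qf (finProdFinEquiv.symm j).2) (h.val _)]
        exact h2 _ _ (fun h8 => hij (finProdFinEquiv.symm.injective (Prod.ext h8 h7))) x y
      · exact hD.orthogonal _ _ h7 _ (h.blk.range _ ▸ ⟨_, rfl⟩) _ (h.blk.range _ ▸ ⟨_, rfl⟩)
    · rw [eq_top_iff, ← hD.decomp.iSup_eq_top]
      refine iSup_le fun j => ?_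
      rw [← h.blk.range, ← Submodule.map_top, ← h3, Submodule.map_iSup]
      exact iSup_le fun l => le_iSup_of_le (finProdFinEquiv (l, j)) (by
        simp only [φ, Equiv.symm_apply_apply, LinearMap.range_comp]; rfl)
  refine ⟨_, h6, fun i => plus_range_iff (hQ.inj_of_comp h₁ (h5 i)) (h5 i), fun g hg =>
    le_decompositionStabilizer_of_map h6.decomp.decomp fun i => ?_⟩
  obtain ⟨τ, a, -, h7, h8⟩ := h.stab hg.1 hg.2
  obtain ⟨l', hl⟩ := h4 (a (finProdFinEquiv.symm i).2) (mem_isometryGroup.2 (h8 _))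
    (finProdFinEquiv.symm i).1
  refine ⟨finProdFinEquiv (l', τ (finProdFinEquiv.symm i).2), ?_⟩
  rintro _ ⟨x, rfl⟩
  obtain ⟨y, hy⟩ := hl x
  exact ⟨y, by simp only [φ, LinearMap.comp_apply, Equiv.symm_apply_apply, h7, hy]⟩

theorem OBlk.subCase [Fintype F] [Nonempty ι] (h : OBlk Q G D e P (fun _ => Q₀) fun _ => G₀)
    {F₀ : Subfield F} (h0 : F₀ ≠ ⊤) {c : F} (hc : c ≠ 0) (h1 : ∀ i j, c * G₀ i j ∈ F₀)
    (h2 : ∀ a ∈ isometryGroup F Q₀, ∀ i j, a.val i j ∈ F₀) {H : Subgroup (GL ι F)}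
    (hH : H ≤ isometryGroup F Q) (h3 : H ≤ decompositionStabilizer D) :
    SubCase (RingHom.id F) G H := by
  obtain ⟨F₁, r, h4, hr, h5⟩ := exists_prime_index_subfield F₀ h0
  refine ⟨F₁, r, P, c, hr, h5, hc, fun i j => h4 ?_, fun g hg =>
    (mem_subfieldSubgroup_iff _ _ _).2 ⟨1, one_ne_zero, fun i j => h4 ?_⟩⟩
  · have h6 := congrFun (congrFun h.eq (e i)) (e j)
    simp only [unF, Matrix.submatrix_apply, Equiv.symm_apply_apply, Matrix.blockDiagonal_apply] at h6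
    rw [h6]
    split_ifs
    · exact h1 _ _
    · simp
  · obtain ⟨τ, a, h6, -, h7⟩ := h.stab (h3 hg) (hH hg)
    rw [h6, trA_apply, cj_inv_cj, one_mul, Matrix.submatrix_apply, blk_apply]
    split_ifs
    · exact h2 _ (mem_isometryGroup.2 (h7 _)) _ _
    · simp

theorem OBlk.plus_top_iff [Finite F] (h : OBlk Q G D e P Qs Gs) (hQ : QF Q G) (h2 : (2 : F) ≠ 0)
    {m : ℕ} (hm : Fintype.card ι = 2 * m) :
    IsPlusTypeOn Q ⊤ ↔ IsSquare ((-1) ^ m * ∏ j, (Gs j).det) := by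
  rw [hQ.plus_iff_unF h2 hm e P, h.eq, Matrix.det_blockDiagonal]

end blk

theorem QF.det_ne (h : QF Q G) : G.det ≠ 0 := ((Matrix.isUnit_iff_isUnit_det _).1 h.unit).ne_zero

theorem QF.plus_odec_iff [Fintype F] (h : QF Q G) (h2 : (2 : F) ≠ 0) {t k m : ℕ}
    {D : Fin t → Submodule F (ι → F)} (hD : IsOrthogonalMDecomposition Q k D) (ht : Even t)
    (hm : Fintype.card ι = 2 * m) : IsPlusTypeOn Q ⊤ ↔ Fintype.card F ^ m % 4 = 1 := by
  obtain ⟨e, P, Q₀, G₀, hB⟩ := h.exists_oblk_const hD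
  obtain ⟨s, rfl⟩ := ht
  have i : Fin (s + s) := ⟨0, by have := hD.decomp.decomp.two_le; omega⟩
  rw [hB.plus_top_iff h h2 hm, Finset.prod_const, Finset.card_univ, Fintype.card_fin, ← two_mul,
    mul_comm 2 s, pow_mul, mul_comm, isSquare_sq_mul (pow_ne_zero _ (hB.qf i).det_ne),
    H11.isSquare_neg_one_pow_iff h2]

theorem QF.plus_pair_iff [Fintype F] (h : QF Q G) (h2 : (2 : F) ≠ 0) {k : ℕ}
    {D : Fin 2 → Submodule F (ι → F)} (hD : IsNondegenerateMDecomposition (𝔟 G) k D)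
    (hi : ¬ AreIsometricFor Q (D 0) (D 1)) : IsPlusTypeOn Q ⊤ ↔ Fintype.card F ^ k % 4 ≠ 1 := by
  obtain ⟨e, P, Qs, Gs, hB⟩ := h.exists_oblk hD
  have h3 : ¬ IsSquare ((Gs 0).det * (Gs 1).det) := fun h3 =>
    hi ((hB.isometric_iff h 0 1).2 ((hB.qf 0).exists_equiv_of_disc h2 (hB.qf 1) h3))
  rw [hB.plus_top_iff h h2 hD.decomp.h26_card.symm, Fin.prod_univ_two, Ne,
    ← H11.isSquare_neg_one_pow_iff h2]
  exact ⟨fun h4 h5 => h3 ((H11.isSquare_mul_iff_of_isSquare (by simp) h5).1 h4),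
    fun h4 => H11.isSquare_mul_of_not_isSquare h4 h3⟩

/-! ### small models -/

theorem QF.plus_two_iff (h : QF Q G) (hn : Fintype.card ι = 2) :
    IsPlusTypeOn Q ⊤ ↔ ∃ v, v ≠ 0 ∧ Q v = 0 := by
  constructor
  · rintro ⟨U, -, h1, h2⟩
    rw [finrank_top, finrank_fun, hn] at h2
    obtain ⟨v, hv, hv0⟩ := U.ne_bot_iff.1 (by rintro rfl; simp at h2)
    exact ⟨v, hv0, h1 v hv⟩
  · rintro ⟨v, hv, h1⟩
    refine ⟨F ∙ v, le_top, fun w hw => ?_, by rw [finrank_span_singleton hv, finrank_top, finrank_fun, hn]⟩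
    obtain ⟨c, rfl⟩ := Submodule.mem_span_singleton.1 hw
    rw [h.smul, h1, mul_zero]

theorem qf_hyp : QF (fun x : Fin 2 → F => x 0 * x 1) !![0, 1; 1, 0] :=
  ⟨fun c v => by simp; ring, fun u v => by simp [fm_eq_sum]; ring,
    (Matrix.isUnit_iff_isUnit_det _).2 (by simp)⟩

theorem qf_norm (h2 : (2 : F) = 0) :
    QF (fun x : Fin 2 → F => x 0 ^ 2 + x 0 * x 1 + x 1 ^ 2) !![0, 1; 1, 0] :=
  ⟨fun c v => by simp; ring, fun u v => by
    simp [fm_eq_sum]; linear_combination (u 0 * v 0 + u 1 * v 1) * h2,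
    (Matrix.isUnit_iff_isUnit_det _).2 (by simp)⟩

theorem qf_sumSq (h2 : (2 : F) ≠ 0) {c : F} (hc : c ≠ 0) :
    QF (fun x : κ → F => c * ∑ i, x i ^ 2) ((2 * c) • (1 : Matrix κ κ F)) :=
  ⟨fun c v => by simp [mul_pow, ← Finset.mul_sum]; ring, fun u v => by
    simp only [fm_smul, Pi.add_apply, add_sq, Finset.sum_add_distrib, mul_assoc, ← Finset.mul_sum]
    simp [fm, dotProduct]; ring, isUnit_smul' (mul_ne_zero h2 hc) isUnit_one⟩

theorem QF.exists_line_of_plus [Fintype F] (h : QF Q G) (hq : Fintype.card F ≤ 3)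
    {W : Submodule F (ι → F)} (hW : IsNondegenerateOn (𝔟 G) W) (h2 : finrank F W = 2)
    (hp : IsPlusTypeOn Q W) : ∃ v ∈ W, Q v = 1 ∧ ∀ w ∈ W, Q w = 1 → w ∈ F ∙ v := by
  obtain ⟨φ, G₀, h3, -, h4⟩ := h.exists_model hW h2
  obtain ⟨T, hT⟩ := (qf_hyp (F := F)).exists_equiv h3 (by simp) (iff_of_true
    ((qf_hyp.plus_two_iff (by simp)).2 ⟨![1, 0], by simp, by simp⟩) (h4.1 hp))
  refine ⟨_, (φ (T.val *ᵥ ![1, 1])).2, by simpa using hT ![1, 1], fun w hw h5 => ?_⟩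
  obtain ⟨x, hx⟩ := φ.surjective ⟨w, hw⟩
  obtain rfl : (φ x : ι → F) = w := congrArg Subtype.val hx
  rw [← mulVec_inv_mulVec T x] at h5 ⊢
  generalize (T⁻¹ : GL _ F).val *ᵥ x = y at h5 ⊢
  rw [hT] at h5
  have h6 := FiniteField.pow_card_sub_one_eq_one _ (left_ne_zero_of_mul (h5 ▸ one_ne_zero : y 0 * y 1 ≠ 0))
  have h7 : y 0 ^ 2 = 1 := by
    have : 1 < Fintype.card F := Fintype.one_lt_card
    rcases (by omega : Fintype.card F - 1 = 1 ∨ Fintype.card F - 1 = 2) with h7 | h7 <;> rw [h7] at h6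
    · rw [pow_one] at h6; simp [h6]
    · exact h6
  have h8 : y = y 0 • ![1, 1] := by
    ext i; fin_cases i
    · simp
    · simp; linear_combination y 0 * h5 - y 1 * h7
  refine Submodule.mem_span_singleton.2 ⟨y 0, ?_⟩
  rw [← Submodule.coe_smul, ← map_smul, ← Matrix.mulVec_smul, ← h8]

theorem QF.not_irr_of_planes [Fintype F] (h : QF Q G) (hq : Fintype.card F ≤ 3) {t : ℕ}
    {D : Fin t → Submodule F (ι → F)} (hD : IsNondegenerateMDecomposition (𝔟 G) 2 D)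
    (hp : ∀ i, IsPlusTypeOn Q (D i)) {H : Subgroup (GL ι F)} (hH : H ≤ isometryGroup F Q)
    (h1 : H ≤ decompositionStabilizer D) : ¬ Irr H := fun hirr => by
  choose v h2 h3 h4 using fun i => h.exists_line_of_plus hq (hD.nondegenerate i) (hD.decomp.finrank_eq i) (hp i)
  have ht := hD.decomp.two_le
  rcases hirr (Submodule.span F (Set.range v)) (fun g hg w hw => by
    refine (Submodule.span_le.2 ?_ : _ ≤ Submodule.comap (Matrix.toLin' g.val)
      (Submodule.span F (Set.range v))) hw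
    rintro _ ⟨i, rfl⟩
    obtain ⟨j, hj⟩ := mulVec_mem_of_mem_decompositionStabilizer (h1 hg) (h2 i)
    exact Submodule.span_mono (by simp) (h4 j _ hj ((mem_isometryGroup.1 (hH hg) _).trans (h3 i)))) with h5 | h5
  · have h6 := h3 ⟨0, by omega⟩
    rw [Submodule.span_eq_bot.1 h5 _ ⟨_, rfl⟩, h.zero] at h6
    exact zero_ne_one h6
  · have h6 := finrank_range_le_card (R := F) v
    rw [Set.finrank, h5, finrank_top, finrank_fun, ← hD.decomp.h26_card, Fintype.card_fin] at h6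
    omega

theorem OBlk.frame {t k : ℕ} {D : Fin t → Submodule F (ι → F)} {e : ι ≃ Fin k × Fin t} {P : GL ι F}
    {c : F} (h : OBlk Q G D e P (fun _ x => c * ∑ i, x i ^ 2) fun _ => (2 * c) • 1) (hQ : QF Q G)
    (hD : IsNondegenerateMDecomposition (𝔟 G) k D) (h2 : (2 : F) ≠ 0) (hc : c ≠ 0)
    (h1 : ∀ x : Fin k → F, ∑ i, x i ^ 2 = 1 → ∃ i, ∀ j, j ≠ i → x j = 0) :
    ∃ D' : Fin (k * t) → Submodule F (ι → F), IsOrthogonalMDecomposition Q 1 D' ∧
      decompositionStabilizer D ⊓ isometryGroup F Q ≤ decompositionStabilizer D' := by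
  obtain ⟨D', h3, -, h4⟩ := h.refine hQ hD hD.decomp.pos one_pos (qf_sumSq h2 hc)
    (ψ := fun l => LinearMap.single F (fun _ => F) l ∘ₗ LinearMap.proj 0)
    (fun l x => by simp [Pi.single_apply]) (fun l l' hl x y => by simp [fm_smul, fm, hl, Pi.single_apply])
    (eq_top_iff.2 fun x _ => by
      rw [← Finset.univ_sum_single x]
      exact sum_mem fun l _ => Submodule.mem_iSup_of_mem l ⟨fun _ => x l, rfl⟩) fun a ha l => by
      have h3 := mem_isometryGroup.1 ha (Pi.single l 1)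
      obtain ⟨i, hi⟩ := h1 (a.val *ᵥ Pi.single l 1) (by simpa [hc, Pi.single_apply] using h3)
      refine ⟨i, fun x => ⟨fun _ => a.val i l * x 0, ?_⟩⟩
      ext j
      by_cases hj : j = i
      · simp [hj]
      · simpa [hj] using Or.inl (hi j hj)
  exact ⟨D', h3, h4⟩

theorem sq_eq_of_card [Fintype F] {x : F} (hx : x ≠ 0) {k : ℕ} (h : Fintype.card F = k + 1) :
    x ^ k = 1 := by simpa [h] using FiniteField.pow_card_sub_one_eq_one x hx

theorem QF.exists_frame [Fintype F] (h : QF Q G) {t k : ℕ} {D : Fin t → Submodule F (ι → F)}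
    (hD : IsOrthogonalMDecomposition Q k D) (hk : (Fintype.card F = 3 ∧ k = 3) ∨
      (Fintype.card F = 3 ∧ k = 2 ∧ ∀ i, ¬ IsPlusTypeOn Q (D i)) ∨
      (Fintype.card F = 5 ∧ k = 2 ∧ ∀ i, IsPlusTypeOn Q (D i))) :
    ∃ D' : Fin (k * t) → Submodule F (ι → F), IsOrthogonalMDecomposition Q 1 D' ∧
      decompositionStabilizer D ⊓ isometryGroup F Q ≤ decompositionStabilizer D' := by
  have h2 : (2 : F) ≠ 0 := two_ne_zero_iff_odd.2 (by rcases hk with h | h | h <;> rw [h.1] <;> decide)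
  have h0 := FiniteField.cast_card_eq_zero F
  have hD' := h.nondegDec hD
  have hS := qf_sumSq (κ := Fin 2) h2 (one_ne_zero (α := F))
  rcases hk with ⟨hq, rfl⟩ | ⟨hq, rfl, hp⟩ | ⟨hq, rfl, hp⟩
  · obtain ⟨e, P, Q₀, G₀, hB⟩ := h.exists_oblk_const hD
    have i : Fin t := ⟨0, by have := hD'.decomp.two_le; omega⟩
    obtain ⟨c, T, hc, hT⟩ := (hB.qf i).hf.exists_pull_eq_smul h2 (hf_symm transpose_one isUnit_one)
      (by decide)
    obtain ⟨P', hB'⟩ := hB.change (fun _ => qf_sumSq h2 (div_ne_zero hc h2)) fun _ => ⟨T, fun x => by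
      refine mul_left_cancel₀ h2 ?_
      rw [← (hB.qf i).diag, fm_pull, hT, fm_smul]
      simp [fm, dotProduct, sq]; field_simp⟩
    refine hB'.frame h hD' h2 (div_ne_zero hc h2) fun x hx => ?_
    have h3 := fun j (hj : x j ≠ 0) => sq_eq_of_card hj (k := 2) hq
    rw [hq] at h0
    by_cases a : x 0 = 0 <;> by_cases b : x 1 = 0 <;> by_cases c : x 2 = 0 <;>
      simp_all [Fin.sum_univ_three, Fin.exists_fin_succ, Fin.forall_fin_succ] <;> grind
  · obtain ⟨e, P, hB⟩ := h.exists_oblk_even hD' even_two hS fun j => iff_of_false (hp j) fun h3 => by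
      obtain ⟨x, hx, h4⟩ := (hS.plus_two_iff (by simp)).1 h3
      have h3 := fun j (hj : x j ≠ 0) => sq_eq_of_card hj (k := 2) hq
      by_cases a : x 0 = 0 <;> by_cases b : x 1 = 0 <;>
        simp_all [funext_iff, Fin.forall_fin_succ] <;> grind
    refine hB.frame h hD' h2 one_ne_zero fun x hx => ?_
    have h3 := fun j (hj : x j ≠ 0) => sq_eq_of_card hj (k := 2) hq
    by_cases a : x 0 = 0 <;> by_cases b : x 1 = 0 <;>
      simp_all [Fin.exists_fin_succ, Fin.forall_fin_succ]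
  · rw [hq] at h0
    obtain ⟨e, P, hB⟩ := h.exists_oblk_even hD' even_two hS fun j => iff_of_true (hp j)
      ((hS.plus_two_iff (by simp)).2 ⟨![1, 2], by simp, by simp; linear_combination h0⟩)
    refine hB.frame h hD' h2 one_ne_zero fun x hx => ?_
    have h3 := fun j (hj : x j ≠ 0) => sq_eq_of_card hj (k := 4) hq
    by_cases a : x 0 = 0 <;> by_cases b : x 1 = 0 <;>
      simp_all [Fin.exists_fin_succ, Fin.forall_fin_succ]
    have h4 := h3.1
    have h5 := h3.2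
    grind

theorem subfield_bot_ne_top [Fintype F] (h : ¬ (Fintype.card F).Prime) : (⊥ : Subfield F) ≠ ⊤ := by
  obtain ⟨p, hp⟩ := CharP.exists F
  have := Fact.mk (CharP.char_is_prime F p)
  intro h1
  have h2 := Subfield.card_bot F p
  rw [h1, Nat.card_congr Subfield.topEquiv.toEquiv, Nat.card_eq_fintype_card] at h2
  exact h (h2 ▸ this.out)

theorem QF.subCase_of_four [Fintype F] (h : QF Q G) (hq : Fintype.card F = 4) {t : ℕ}
    {D : Fin t → Submodule F (ι → F)} (hD : IsNondegenerateMDecomposition (𝔟 G) 2 D)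
    (hp : ∀ i, IsPlusTypeOn Q (D i)) {H : Subgroup (GL ι F)} (hH : H ≤ isometryGroup F Q)
    (h1 : H ≤ decompositionStabilizer D) : SubCase (RingHom.id F) G H := by
  have : Nonempty ι := Fintype.card_pos_iff.1 (by have := hD.decomp.h26_card; have := hD.decomp.two_le; omega)
  have h2 : (2 : F) = 0 := by_contra fun h2 => absurd (hq ▸ two_ne_zero_iff_odd.1 h2) (by decide)
  obtain ⟨w, hw0, hw1⟩ := exists_sq_ne_one hq.ge
  have hw := sq_eq_of_card hw0 (k := 3) hq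
  obtain ⟨e, P, hB⟩ := h.exists_oblk_even hD even_two (qf_norm h2) fun j => iff_of_true (hp j)
    (((qf_norm h2).plus_two_iff (by simp)).2 ⟨![w, 1], by simp, by simp; grind⟩)
  refine hB.subCase (subfield_bot_ne_top (by rw [hq]; decide)) one_ne_zero
    (fun i j => by fin_cases i <;> fin_cases j <;> simp) (fun a ha i j => ?_) hH h1
  have h3 := mem_isometryGroup.1 ha (Pi.single j 1)
  have h4 : (Pi.single j 1 : Fin 2 → F) 0 ^ 2 + (Pi.single j 1 : Fin 2 → F) 0 *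
      (Pi.single j 1 : Fin 2 → F) 1 + (Pi.single j 1 : Fin 2 → F) 1 ^ 2 = 1 := by fin_cases j <;> simp
  rw [h4, Matrix.mulVec_single_one] at h3
  have h5 := fun i (hi : a.val i j ≠ 0) => sq_eq_of_card hi (k := 3) hq
  have h6 : ∀ x y : F, (x ≠ 0 → x ^ 3 = 1) → (y ≠ 0 → y ^ 3 = 1) → x ^ 2 + x * y + y ^ 2 = 1 →
      x ∈ (⊥ : Subfield F) := fun x y hx hy hxy => by
    by_cases h7 : x = 0
    · simp [h7]
    obtain rfl : x = 1 := by by_cases h8 : y = 0 <;> grind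
    simp
  fin_cases i
  · exact h6 _ _ (h5 0) (h5 1) h3
  · exact h6 (a.val 1 j) _ (h5 1) (h5 0) (by simp only [Matrix.col_apply] at h3; linear_combination h3)

theorem QF.subCase_of_frame [Fintype F] (h : QF Q G) (hq : ¬ (Fintype.card F).Prime) {t : ℕ}
    {D : Fin t → Submodule F (ι → F)} (hD : IsOrthogonalMDecomposition Q 1 D)
    {H : Subgroup (GL ι F)} (hH : H ≤ isometryGroup F Q) (h1 : H ≤ decompositionStabilizer D) :
    SubCase (RingHom.id F) G H := by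
  have ht := hD.decomp.decomp.two_le
  have : Nonempty ι := Fintype.card_pos_iff.1 (by have := hD.decomp.decomp.h26_card; omega)
  obtain ⟨e, P, Q₀, G₀, hB⟩ := h.exists_oblk_const hD
  have h2 := hB.qf ⟨0, by omega⟩
  have h3 := h2.det_ne
  rw [Matrix.det_unique] at h3
  refine hB.subCase (subfield_bot_ne_top hq) (inv_ne_zero h3) (fun i j => ?_) (fun a ha i j => ?_) hH h1
  · rw [Subsingleton.elim i default, Subsingleton.elim j default, inv_mul_cancel₀ h3]; simp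
  · have h4 := congrFun (congrFun (mem_isom.1 (h2.isometryGroup_le ha)) default) default
    simp only [pull, Matrix.mul_apply, Finset.univ_unique, Finset.sum_singleton, Matrix.transpose_apply,
      Matrix.map_apply, RingHom.id_apply] at h4
    rw [Subsingleton.elim i default, Subsingleton.elim j default]
    rcases mul_self_eq_one_iff.1 (mul_right_cancel₀ h3 (by linear_combination h4 :
      a.val default default * a.val default default * _ = 1 * _)) with h5 | h5 <;> rw [h5] <;> simp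

theorem QF.exists_planes [Fintype F] (h : QF Q G) (hq : Fintype.card F = 2) {t : ℕ}
    {D : Fin t → Submodule F (ι → F)} (hD : IsNondegenerateMDecomposition (𝔟 G) 4 D)
    (hp : ∀ i, IsPlusTypeOn Q (D i)) :
    ∃ D' : Fin (2 * t) → Submodule F (ι → F), IsOrthogonalMDecomposition Q 2 D' ∧
      (∀ i, ¬ IsPlusTypeOn Q (D' i)) ∧
      decompositionStabilizer D ⊓ isometryGroup F Q ≤ decompositionStabilizer D' := by
  have h2 : (2 : F) = 0 := by simpa [hq] using FiniteField.cast_card_eq_zero F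
  have h11 : (1 : F) + 1 = 0 := by rw [one_add_one_eq_two, h2]
  have h01 := eq_zero_or_one hq
  have hQ₀ : QF (fun x : Fin 4 → F => x 0 ^ 2 + x 0 * x 1 + x 1 ^ 2 + (x 2 ^ 2 + x 2 * x 3 + x 3 ^ 2))
      !![0, 1, 0, 0; 1, 0, 0, 0; 0, 0, 0, 1; 0, 0, 1, 0] :=
    ⟨fun c v => by simp; ring, fun u v => by
      simp [fm_eq_sum, Fin.sum_univ_four]
      linear_combination (u 0 * v 0 + u 1 * v 1 + u 2 * v 2 + u 3 * v 3) * h2,
      IsUnit.of_mul_eq_one !![0, 1, 0, 0; 1, 0, 0, 0; 0, 0, 0, 1; 0, 0, 1, 0] (by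
        ext i j; fin_cases i <;> fin_cases j <;> simp [Matrix.mul_apply, Fin.sum_univ_four])⟩
  obtain ⟨e, P, hB⟩ := h.exists_oblk_even hD (by decide) hQ₀ fun j => iff_of_true (hp j)
    ⟨LinearMap.range (Matrix.toLin' !![1, 0; 0, 1; 1, 0; 0, 1]), le_top, by
      rintro _ ⟨x, rfl⟩
      simp [Matrix.mulVec, dotProduct]; linear_combination (x 0 ^ 2 + x 0 * x 1 + x 1 ^ 2) * h2, by
      rw [LinearMap.finrank_range_of_inj fun x y hxy => by
        ext i; fin_cases i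
        · simpa [Matrix.mulVec, dotProduct] using congrFun hxy 0
        · simpa [Matrix.mulVec, dotProduct] using congrFun hxy 1]
      simp⟩
  obtain ⟨D', h3, h4, h5⟩ := hB.refine h hD two_pos two_pos (qf_norm h2)
    (ψ := ![Matrix.toLin' !![1, 0; 0, 1; 0, 0; 0, 0], Matrix.toLin' !![0, 0; 0, 0; 1, 0; 0, 1]])
    (fun l x => by fin_cases l <;> simp [Matrix.mulVec, dotProduct])
    (fun l l' hl x y => by
      fin_cases l <;> fin_cases l' <;> simp_all [Matrix.mulVec, dotProduct, fm_eq_sum, Fin.sum_univ_four])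
    (eq_top_iff.2 fun x _ => by
      have h3 : x = Matrix.toLin' !![1, 0; 0, 1; 0, 0; 0, 0] ![x 0, x 1] +
          Matrix.toLin' !![0, 0; 0, 0; 1, 0; 0, 1] ![x 2, x 3] := by
        ext i; fin_cases i <;> simp [Matrix.mulVec, dotProduct]
      rw [h3]
      exact add_mem (Submodule.mem_iSup_of_mem 0 ⟨_, rfl⟩) (Submodule.mem_iSup_of_mem 1 ⟨_, rfl⟩))
    fun a ha l => by
      have h3 : ∀ u v : Fin 4 → F, u 0 ^ 2 + u 0 * u 1 + u 1 ^ 2 + (u 2 ^ 2 + u 2 * u 3 + u 3 ^ 2) = 1 →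
          v 0 ^ 2 + v 0 * v 1 + v 1 ^ 2 + (v 2 ^ 2 + v 2 * v 3 + v 3 ^ 2) = 1 →
          u 0 * v 1 + u 1 * v 0 + u 2 * v 3 + u 3 * v 2 = 1 →
          (u 2 = 0 ∧ u 3 = 0 ∧ v 2 = 0 ∧ v 3 = 0) ∨ (u 0 = 0 ∧ u 1 = 0 ∧ v 0 = 0 ∧ v 1 = 0) := by
        intro u v
        rcases h01 (u 0) with a | a <;> rcases h01 (u 1) with b | b <;> rcases h01 (u 2) with c | c <;>
          rcases h01 (u 3) with d | d <;> simp [a, b, c, d, h11] <;>
          rcases h01 (v 0) with a | a <;> rcases h01 (v 1) with b | b <;> rcases h01 (v 2) with c | c <;>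
          rcases h01 (v 3) with d | d <;> simp [a, b, c, d, h11]
      have h4 : ∀ i j : Fin 4, (i, j) = (0, 1) ∨ (i, j) = (2, 3) →
          (a.val 2 i = 0 ∧ a.val 3 i = 0 ∧ a.val 2 j = 0 ∧ a.val 3 j = 0) ∨
          (a.val 0 i = 0 ∧ a.val 1 i = 0 ∧ a.val 0 j = 0 ∧ a.val 1 j = 0) := fun i j hij => by
        have h5 := mem_isometryGroup.1 ha (Pi.single i 1)
        have h6 := mem_isometryGroup.1 ha (Pi.single j 1)
        have h7 := fm_isom (hQ₀.isometryGroup_le ha) (Pi.single i 1) (Pi.single j 1)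
        rw [Matrix.mulVec_single_one] at h5 h6 h7
        rw [Matrix.mulVec_single_one] at h7
        refine h3 (a.val.col i) (a.val.col j) (h5.trans ?_) (h6.trans ?_)
          (Eq.trans (by simp [fm_eq_sum, Fin.sum_univ_four]) (h7.trans ?_)) <;>
        rcases hij with h | h <;> obtain ⟨rfl, rfl⟩ := h <;> simp [fm_eq_sum, Fin.sum_univ_four]
      fin_cases l
      · rcases h4 0 1 (Or.inl rfl) with h5 | h5
        · exact ⟨0, fun x => ⟨![a.val 0 0 * x 0 + a.val 0 1 * x 1, a.val 1 0 * x 0 + a.val 1 1 * x 1], by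
            ext i; fin_cases i <;> simp [Matrix.mulVec, dotProduct, Fin.sum_univ_four, h5]⟩⟩
        · exact ⟨1, fun x => ⟨![a.val 2 0 * x 0 + a.val 2 1 * x 1, a.val 3 0 * x 0 + a.val 3 1 * x 1], by
            ext i; fin_cases i <;> simp [Matrix.mulVec, dotProduct, Fin.sum_univ_four, h5]⟩⟩
      · rcases h4 2 3 (Or.inr rfl) with h5 | h5
        · exact ⟨0, fun x => ⟨![a.val 0 2 * x 0 + a.val 0 3 * x 1, a.val 1 2 * x 0 + a.val 1 3 * x 1], by
            ext i; fin_cases i <;> simp [Matrix.mulVec, dotProduct, Fin.sum_univ_four, h5]⟩⟩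
        · exact ⟨1, fun x => ⟨![a.val 2 2 * x 0 + a.val 2 3 * x 1, a.val 3 2 * x 0 + a.val 3 3 * x 1], by
            ext i; fin_cases i <;> simp [Matrix.mulVec, dotProduct, Fin.sum_univ_four, h5]⟩⟩
  refine ⟨D', h3, fun i h6 => ?_, h5⟩
  obtain ⟨x, hx, h7⟩ := ((qf_norm h2).plus_two_iff (by simp)).1 ((h4 i).1 h6)
  rcases h01 (x 0) with a | a <;> rcases h01 (x 1) with b | b <;>
    simp_all [funext_iff, Fin.forall_fin_succ]

end Cfsg.Agent.H26
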