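import Mathlib
import Cfsg.Agent.H26.O5

/-! Aschbacher's theorem for orthogonal groups. -/

set_option autoImplicit false
set_option maxHeartbeats 400000

namespace Cfsg.Agent.H26

open Matrix Cfsg.Geo Module
open scoped Kronecker

variable {ι κ β : Type} [Fintype ι] [DecidableEq ι] [Fintype κ] [DecidableEq κ]
  [Fintype β] [DecidableEq β] {F : Type*} [Field F] {G : Matrix ι ι F} {Q : (ι → F) → F}

/-- the refined list of geometric cases for the orthogonal groups -/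
inductive OCase [Fintype F] (Q : (ι → F) → F) (G : Matrix ι ι F) (rel : Subgroup (GL ι F) → Prop) : Prop
  | ts (W : Submodule F (ι → F)) (h1 : W ≠ ⊥) (h2 : IsTotallySingularQuad Q W)
      (h3 : IsPlusTypeOn Q ⊤ → 2 * finrank F W + 2 ≠ Fintype.card ι) (h : rel (subspaceStabilizer W))
  | nd (W : Submodule F (ι → F)) (h1 : W ≠ ⊥) (h2 : W ≠ ⊤) (h3 : IsNondegenerateOn (𝔟 G) W)
      (h4 : Odd (Fintype.card ι) → Even (finrank F W))
      (h5 : Even (Fintype.card ι) → 2 * finrank F W ≤ Fintype.card ι)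
      (h6 : 2 * finrank F W = Fintype.card ι → Even (finrank F W) ∧ ¬ IsPlusTypeOn Q ⊤)
      (h7 : finrank F W = 2 → IsPlusTypeOn Q W → 4 ≤ Fintype.card F) (h : rel (subspaceStabilizer W))
  | ns (v : ι → F) (hq : ¬ Odd (Fintype.card F)) (h1 : Q v ≠ 0) (h : rel (subspaceStabilizer (F ∙ v)))
  | ndO (k : ℕ) (D : Fin 2 → Submodule F (ι → F)) (hD : IsNondegenerateMDecomposition (𝔟 G) k D)
      (hk : Odd k) (h1 : ¬ AreIsometricFor Q (D 0) (D 1)) (h : rel (decompositionStabilizer D))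
  | dec (t k : ℕ) (D : Fin t → Submodule F (ι → F)) (hD : IsOrthogonalMDecomposition Q k D)
      (h1 : k = 1 → (Fintype.card F).Prime) (h2 : k = 3 → Fintype.card F ≠ 3)
      (h3 : k = 2 → ∀ i, IsPlusTypeOn Q (D i) → 7 ≤ Fintype.card F)
      (h4 : k = 2 → Fintype.card F ≠ 3)
      (h5 : k = 4 → ∀ i, IsPlusTypeOn Q (D i) → 3 ≤ Fintype.card F)
      (h : rel (decompositionStabilizer D))
  | pair (m : ℕ) (D : Fin 2 → Submodule F (ι → F)) (hD : IsMDecomposition m D)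
      (h1 : ∀ i, IsTotallySingularQuad Q (D i)) (hm : Even m) (h : rel (decompositionStabilizer D))
  | fld (r : ℕ) (K : Subalgebra F (Matrix ι ι F)) (hr : r.Prime) (hK : IsFieldSubalgebra r K)
      (h1 : IsSelfAdjointFor (𝔟 G) K) (h2 : Odd r → Fintype.card ι ≠ r ∧ Fintype.card ι ≠ 2 * r)
      (h3 : ¬ Odd (Fintype.card F) → 2 * r ∣ Fintype.card ι) (h : rel (subalgebraNormalizer K))
  | ufld (K : Subalgebra F (Matrix ι ι F)) (hK : IsFieldSubalgebra 2 K)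
      (h1 : IsAdjointClosedFor (𝔟 G) K) (h2 : ¬ IsSelfAdjointFor (𝔟 G) K)
      (h3 : ∀ k ∈ K, ∃ c : F, ∀ v, Q (k *ᵥ v) = c * Q v)
      (h4 : IsPlusTypeOn Q ⊤ → 4 ∣ Fintype.card ι) (h : rel (subalgebraNormalizer K))
  | tenS (a b : ℕ) (e : ι ≃ Fin a × Fin b) (P : GL ι F) (G₁ : Matrix (Fin a) (Fin a) F)
      (G₂ : Matrix (Fin b) (Fin b) F) (hq : Odd (Fintype.card F)) (h1 : 3 ≤ a) (h2 : a ≤ b)
      (h3 : a = b → Even a) (h4 : a = 3 → Fintype.card F ≠ 3)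
      (h5 : a = 3 → b = 4 → ¬ IsPlusTypeOn (fun v => 𝔟 G₂ v v) ⊤)
      (hT : Ten (RingHom.id F) G ⊥ e P G₁ G₂ 1 1) (h : rel (tensorProductSubgroup a b e P))
  | tenA (a b : ℕ) (e : ι ≃ Fin a × Fin b) (P : GL ι F) (G₁ : Matrix (Fin a) (Fin a) F)
      (G₂ : Matrix (Fin b) (Fin b) F) (ε₁ ε₂ : F) (h1 : 2 ≤ a) (h2 : a ≤ b)
      (h3 : a = 2 → 3 ≤ Fintype.card F) (h4 : Alt G₁) (h5 : Alt G₂)
      (hT : Ten (RingHom.id F) G ⊥ e P G₁ G₂ ε₁ ε₂)
      (h6 : ∀ (x : Fin a → F) (y : Fin b → F),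
        Q (P.val *ᵥ ((fun p : Fin a × Fin b => x p.1 * y p.2) ∘ e)) = 0)
      (h : rel (tensorProductSubgroup a b e P))
  | sub (F₀ : Subfield F) (r : ℕ) (P : GL ι F) (ζ : F) (hr : r.Prime)
      (hc : Fintype.card F = Nat.card F₀ ^ r) (h1 : ζ ≠ 0)
      (h2 : IsQuadFormRationalStructure (fun v => ζ * Q v) F₀ P)
      (h3 : Odd (Fintype.card ι) → IsQuadFormRationalStructure Q F₀ P)
      (h4 : Even (Fintype.card ι) → ¬ IsPlusTypeOn Q ⊤ → Odd r) (h : rel (subfieldSubgroup F₀ P))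
  | wr (k t : ℕ) (e : ι ≃ (Fin t → Fin k)) (P : GL ι F) (c : F) (G₀ : Matrix (Fin k) (Fin k) F)
      (hq : Odd (Fintype.card F)) (h1 : 2 ≤ t) (h2 : 3 ≤ k) (h3 : Odd k)
      (h4 : ¬ (Fintype.card F = 3 ∧ k = 3)) (hW : Wr (RingHom.id F) G ⊥ e P c G₀ 1)
      (h : rel (tensorWreathSubgroup k t e P))
  | other (k t : ℕ) (h1 : Even k) (h2 : 2 ≤ t) (h3 : Fintype.card ι = k ^ t)
      (h4 : k = 2 → IsPlusTypeOn Q ⊤)

variable {H : Subgroup (GL ι F)}

theorem QF.odd_of_nondeg [Fintype F] (h : QF Q G) {W : Submodule F (ι → F)}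
    (hW : IsNondegenerateOn (𝔟 G) W) (ho : Odd (finrank F W)) : Odd (Fintype.card F) :=
  two_ne_zero_iff_odd.1 fun h2 => Nat.not_even_iff_odd.2 ho ((h.alt h2).even_finrank h.unit hW)

theorem QF.odd_of_odd [Fintype F] (h : QF Q G) (ho : Odd (Fintype.card ι)) : Odd (Fintype.card F) :=
  two_ne_zero_iff_odd.1 fun h2 => Nat.not_even_iff_odd.2 ho ((h.alt h2).even_card' h.unit)

theorem QF.plus_of_pair {m : ℕ} {D : Fin 2 → Submodule F (ι → F)} (hD : IsMDecomposition m D)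
    (h1 : ∀ i, IsTotallySingularQuad Q (D i)) : IsPlusTypeOn Q ⊤ :=
  ⟨D 0, le_top, h1 0, by rw [hD.finrank_eq, finrank_top, finrank_fun, hD.h26_card]⟩

theorem QF.nondeg_span (h : QF Q G) (h2 : (2 : F) ≠ 0) {v : ι → F} (hv : Q v ≠ 0) :
    IsNondegenerateOn (𝔟 G) (F ∙ v) := fun w hw hw0 => by
  obtain ⟨c, rfl⟩ := Submodule.mem_span_singleton.1 hw
  have h3 : 𝔟 G (c • v) (c • v) ≠ 0 := by
    rw [h.diag, h.smul]; exact mul_ne_zero h2 (mul_ne_zero (pow_ne_zero _ (left_ne_zero_of_smul hw0)) hv)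
  exact ⟨⟨_, hw, h3⟩, _, hw, h3⟩

theorem exists_map_eq_of_irr (hirr : Irr H) {t k : ℕ} {D : Fin t → Submodule F (ι → F)}
    (hD : IsMDecomposition k D) (h : H ≤ decompositionStabilizer D) (i j : Fin t) :
    ∃ g ∈ H, (D i).map (Matrix.toLin' g.val) = D j := by
  by_contra hj
  let S : Set (Fin t) := {j | ∃ g ∈ H, (D i).map (Matrix.toLin' g.val) = D j}
  rcases hirr (⨆ l ∈ S, D l) (fun g hg v hv => by
    refine (iSup₂_le ?_ : _ ≤ Submodule.comap (Matrix.toLin' g.val) (⨆ l ∈ S, D l)) hv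
    rintro l ⟨g', hg', hl⟩
    obtain ⟨τ, hτ⟩ := h hg
    rw [← Submodule.map_le_iff_le_comap, hτ]
    exact le_biSup D ⟨g * g', H.mul_mem hg hg', by
      rw [Units.val_mul, Matrix.toLin'_mul, Submodule.map_comp, hl, hτ]⟩) with h1 | h1
  · obtain ⟨u, hu, hu0⟩ := hD.h26_exists_ne_zero i
    exact hu0 ((h1 ▸ le_biSup D (show i ∈ S from ⟨1, H.one_mem, by simp⟩) : D i ≤ ⊥) hu)
  · obtain ⟨u, hu, hu0⟩ := hD.h26_exists_ne_zero j
    exact hu0 (Submodule.disjoint_def.1 (hD.indep.disjoint_biSup (show j ∉ S from hj)) u hu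
      (h1 ▸ trivial))

theorem QF.oCase_of_nd [Fintype F] (hQ : QF Q G) (hn : 7 ≤ Fintype.card ι)
    (hH : H ≤ isometryGroup F Q) {W : Submodule F (ι → F)} (h1 : W ≠ ⊥) (h2 : W ≠ ⊤)
    (h3 : IsNondegenerateOn (𝔟 G) W) (h : Inv H W) : OCase Q G (H ≤ ·) := by
  have hs := hH.trans (hQ.isometryGroup_le.trans (isom_le_similarityGroup _ _))
  have hp : ∀ {W : Submodule F (ι → F)}, W ≠ ⊥ → W ≠ ⊤ →
      prp (RingHom.id F) G W ≠ ⊥ ∧ prp (RingHom.id F) G W ≠ ⊤ := fun {W} h1 h2 => by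
    have h4 := hQ.hf.finrank_prp W
    have h5 := Submodule.finrank_lt h2
    have h6 := Submodule.finrank_eq_zero.not.2 h1
    rw [finrank_fun] at h5
    constructor <;> intro h7 <;> rw [h7] at h4 <;>
      simp only [finrank_bot, finrank_top, finrank_fun] at h4 <;> omega
  wlog h4 : (Odd (Fintype.card ι) → Even (finrank F W)) ∧
      (Even (Fintype.card ι) → 2 * finrank F W ≤ Fintype.card ι) generalizing W
  · refine this (hp h1 h2).1 (hp h1 h2).2 (hQ.hf.nondeg_prp h3) (h.prp hs) ?_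
    have h5 := hQ.hf.finrank_prp W
    simp only [Nat.odd_iff, Nat.even_iff] at h4 ⊢
    omega
  by_cases h5 : finrank F W = 2 ∧ IsPlusTypeOn Q W ∧ Fintype.card F ≤ 3
  · obtain ⟨v, hv, h6, h7⟩ := hQ.exists_line_of_plus h5.2.2 h3 h5.1 h5.2.1
    have h8 : Inv H (F ∙ v) := fun g hg w hw => by
      obtain ⟨c, rfl⟩ := Submodule.mem_span_singleton.1 hw
      rw [Matrix.mulVec_smul]
      exact Submodule.smul_mem _ c (h7 _ (h g hg v hv) ((mem_isometryGroup.1 (hH hg) v).trans h6))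
    have h9 : Q v ≠ 0 := h6 ▸ one_ne_zero
    by_cases hq : Odd (Fintype.card F)
    swap
    · exact .ns v hq h9 h8.le
    have h10 := hQ.nondeg_span (two_ne_zero_iff_odd.2 hq) h9
    have h11 : finrank F (F ∙ v) = 1 := finrank_span_singleton fun h => h9 (h ▸ hQ.zero)
    have h12 : (F ∙ v) ≠ ⊥ := Submodule.finrank_eq_zero.not.1 (by omega)
    have h13 := ne_top_of_finrank (W := F ∙ v) (by omega)
    have h14 := hQ.hf.finrank_prp (F ∙ v)
    rcases Nat.even_or_odd (Fintype.card ι) with h15 | h15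
    · exact .nd _ h12 h13 h10 (fun h => absurd h15 (Nat.not_even_iff_odd.2 h)) (by omega) (by omega)
        (by omega) h8.le
    · rw [Nat.odd_iff] at h15
      exact .nd _ (hp h12 h13).1 (hp h12 h13).2 (hQ.hf.nondeg_prp h10)
        (fun _ => by rw [Nat.even_iff]; omega) (by rw [Nat.even_iff]; omega) (by omega) (by omega)
        (h8.prp hs).le
  by_cases h6 : 2 * finrank F W = Fintype.card ι ∧ ¬ (Even (finrank F W) ∧ ¬ IsPlusTypeOn Q ⊤)
  swap
  · exact .nd W h1 h2 h3 h4.1 h4.2 (by tauto) (fun a b => by by_contra c; exact h5 ⟨a, b, by omega⟩) h.le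
  have hD := hQ.hf.nondegDecomp_pair h3 (by omega) rfl h6.1
  have h7 : H ≤ decompositionStabilizer ![W, prp (RingHom.id F) G W] :=
    le_decompositionStabilizer_of_inv fun i => by fin_cases i; exacts [h, h.prp hs]
  by_cases h8 : AreIsometricFor Q W (prp (RingHom.id F) G W)
  swap
  · exact .ndO _ _ hD (Nat.not_even_iff_odd.1 fun h9 => h8
      (hQ.isometric_prp (by tauto) h3 h6.1 h9)) h8 h7
  have hD' : IsOrthogonalMDecomposition Q (finrank F W) ![W, prp (RingHom.id F) G W] :=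
    ⟨hQ.polar ▸ hD, fun i j => by
      fin_cases i <;> fin_cases j
      exacts [⟨.refl _ _, fun _ => rfl⟩, h8, AreIsometricFor.h26_symm h8, ⟨.refl _ _, fun _ => rfl⟩]⟩
  by_cases h9 : finrank F W = 4 ∧ Fintype.card F = 2 ∧ IsPlusTypeOn Q W
  · obtain ⟨D', h10, h11, h12⟩ := hQ.exists_planes h9.2.1 (h9.1 ▸ hD) fun i =>
      AreIsometricFor.h26_plus (hD'.isometric 0 i) h9.2.2
    exact .dec _ 2 D' h10 (by omega) (by omega) (fun _ i h => absurd h (h11 i)) (by omega) (by omega)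
      ((le_inf h7 hH).trans h12)
  have h10 : 1 < Fintype.card F := Fintype.one_lt_card
  exact .dec 2 _ _ hD' (by omega) (by omega) (by omega) (by omega) (fun a i b => by
    by_contra c; exact h9 ⟨a, by omega, AreIsometricFor.h26_plus (hD'.isometric i 0) b⟩) h7

theorem QF.oCase_of_red [Fintype F] (hQ : QF Q G) (hn : 7 ≤ Fintype.card ι) (hH : H ≤ omegaGL Q)
    (hirr : ¬ Irr H) : OCase Q G (H ≤ ·) := by
  have hi := hH.trans omegaGL_le
  obtain ⟨W, h1, h2, h3, h4, h5 | h5⟩ :=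
    hQ.hf.red (hH.trans (hQ.omega_le.trans (isom_le_similarityGroup _ _))) hirr
  swap
  · exact hQ.oCase_of_nd hn hi h1 h2 h5 h3
  rcases h4 (hQ.ker W h5) (fun v hv => hv.1) (fun g hg v hv =>
    ⟨h3 g hg v hv.1, (mem_isometryGroup.1 (hi hg) v).trans hv.2⟩) with h6 | h6
  · obtain ⟨v, hv, hv0⟩ := W.ne_bot_iff.1 h1
    have h7 : Q v ≠ 0 := fun h => hv0 (h6.le ⟨hv, h⟩)
    obtain rfl : (F ∙ v) = W := Submodule.eq_of_le_of_finrank_le
      ((Submodule.span_singleton_le_iff_mem _ _).2 hv) (by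
        rw [finrank_span_singleton hv0]
        by_contra h8
        obtain ⟨u, hu, hu0, h9⟩ := hQ.exists_singular h5 (by omega)
        exact hu0 (h6.le ⟨hu, h9⟩))
    exact .ns v (fun hq => mul_ne_zero (two_ne_zero_iff_odd.2 hq) h7
      ((hQ.diag v).symm.trans (h5 v hv v hv))) h7 h3.le
  have h7 : IsTotallySingularQuad Q W := fun v hv => (h6.ge hv).2
  by_cases h8 : IsPlusTypeOn Q ⊤ ∧ 2 * finrank F W + 2 = Fintype.card ι
  · obtain ⟨U, h9, h10, h11, h12⟩ := hQ.exists_max_of_pred (by omega) h8.1 h7 h8.2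
    exact .ts U (ne_bot_of_gt h9) h10 (by omega) ((le_inf h3.le hH).trans h12)
  · exact .ts W h1 h7 (by tauto) h3.le

theorem QF.oCase_of_sub [Fintype F] (hQ : QF Q G) (hn : 2 ≤ Fintype.card ι)
    (hd : Odd (Fintype.card ι) → ∀ F₀ : Subfield F, G.det ∈ F₀) (hH : H ≤ isometryGroup F Q)
    (hirr : Irr H) (h : SubCase (RingHom.id F) G H) : OCase Q G (H ≤ ·) := by
  rcases Nat.even_or_odd (Fintype.card ι) with he | ho
  · obtain ⟨F₀, r, P, c, hr, hc, h1, h2, h3, h4⟩ := h.quad hQ hirr hn hH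
    exact .sub F₀ r P c hr hc h1 h3 (fun h => absurd he (Nat.not_even_iff_odd.2 h)) (fun _ hp =>
      hr.odd_of_ne_two (by rintro rfl; exact hp (hQ.plus_of_sub he hc h1 h2 h3))) h4
  · obtain ⟨F₀, r, P, hr, hc, h1, h2⟩ :=
      h.orth_odd hQ (two_ne_zero_iff_odd.2 (hQ.odd_of_odd ho)) ho (hd ho)
    exact .sub F₀ r P 1 hr hc one_ne_zero (by simpa using h1) (fun _ => h1)
      (fun h => absurd h (Nat.not_even_iff_odd.2 ho)) h2

theorem QF.oCase_of_dec [Fintype F] (hQ : QF Q G) (hn : 2 ≤ Fintype.card ι)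
    (hd : Odd (Fintype.card ι) → ∀ F₀ : Subfield F, G.det ∈ F₀) (hH : H ≤ isometryGroup F Q)
    (hirr : Irr H) {t k : ℕ} {D : Fin t → Submodule F (ι → F)}
    (hD : IsNondegenerateMDecomposition (𝔟 G) k D) (h : H ≤ decompositionStabilizer D) :
    OCase Q G (H ≤ ·) := by
  have hD' : IsOrthogonalMDecomposition Q k D := ⟨hQ.polar ▸ hD, fun i j =>
    let ⟨_, hg, h1⟩ := exists_map_eq_of_irr hirr hD.decomp h i j; isometric_of_map (hH hg) h1⟩
  have hq : 1 < Fintype.card F := Fintype.one_lt_card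
  have h0 : ∀ {i}, IsPlusTypeOn Q (D i) → ∀ j, IsPlusTypeOn Q (D j) := fun {i} hi j =>
    AreIsometricFor.h26_plus (hD'.isometric i j) hi
  by_cases h1 : (Fintype.card F = 3 ∧ k = 3) ∨ (Fintype.card F = 3 ∧ k = 2 ∧ ∀ i, ¬ IsPlusTypeOn Q (D i)) ∨
      (Fintype.card F = 5 ∧ k = 2 ∧ ∀ i, IsPlusTypeOn Q (D i))
  · obtain ⟨D', h2, h3⟩ := hQ.exists_frame hD' h1
    exact .dec _ 1 D' h2 (fun _ => by rcases h1 with h | h | h <;> rw [h.1] <;> decide) (by omega)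
      (by omega) (by omega) (by omega) ((le_inf h hH).trans h3)
  by_cases h2 : k = 1 ∧ ¬ (Fintype.card F).Prime
  · obtain ⟨rfl, h2⟩ := h2
    exact hQ.oCase_of_sub hn hd hH hirr (hQ.subCase_of_frame h2 hD' hH h)
  by_cases h3 : k = 2 ∧ Fintype.card F = 4 ∧ ∀ i, IsPlusTypeOn Q (D i)
  · obtain ⟨rfl, h3, h4⟩ := h3
    exact hQ.oCase_of_sub hn hd hH hirr (hQ.subCase_of_four h3 hD h4 hH h)
  by_cases h4 : k = 4 ∧ Fintype.card F = 2 ∧ ∀ i, IsPlusTypeOn Q (D i)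
  · obtain ⟨rfl, h4, h5⟩ := h4
    obtain ⟨D', h6, h7, h8⟩ := hQ.exists_planes h4 hD h5
    exact .dec _ 2 D' h6 (by omega) (by omega) (fun _ i h => absurd h (h7 i)) (by omega) (by omega)
      ((le_inf h hH).trans h8)
  have h5 : k = 2 → ∀ i, IsPlusTypeOn Q (D i) → 7 ≤ Fintype.card F := by
    rintro rfl i hi
    have h6 : ¬ Fintype.card F ≤ 3 := fun h6 => hQ.not_irr_of_planes h6 hD (h0 hi) hH h hirr
    have h7 : Fintype.card F ≠ 6 := fun h7 => absurd (h7 ▸ FiniteField.isPrimePow_card F) (by decide +kernel)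
    have h8 : Fintype.card F ≠ 5 := fun h8 => h1 (.inr (.inr ⟨h8, rfl, h0 hi⟩))
    have h9 : Fintype.card F ≠ 4 := fun h9 => h3 ⟨rfl, h9, h0 hi⟩
    omega
  exact .dec t k D hD' (by tauto) (by tauto) h5 (fun a b => h1 (.inr (.inl ⟨b, a, fun i hi => by
    have := h5 a i hi; omega⟩))) (fun a i hi => by by_contra b; exact h4 ⟨a, by omega, h0 hi⟩) h

theorem QF.oCase_of_ufld [Fintype F] (hQ : QF Q G) (hn : 2 ≤ Fintype.card ι)
    (hH : H ≤ isometryGroup F Q) (hirr : Irr H) {K : Subalgebra F (Matrix ι ι F)}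
    (hK : IsFieldSubalgebra 2 K) (hA : AdjSt (RingHom.id F) G K)
    (hns : ¬ ∀ k ∈ K, adj (RingHom.id F) G k = k) (hst : Stable H K) : OCase Q G (H ≤ ·) := by
  have : Nonempty ι := Fintype.card_pos_iff.1 (by omega)
  have h1 := hQ.sim_of_ufld hK hA hns hirr hn hH hst
  obtain ⟨m, hm⟩ := field_degree_dvd hK
  exact .ufld K hK (hA.isAdjointClosedFor hQ.hf) (mt hQ.hf.isSelfAdjointFor_iff.1 hns) h1 (fun hp => by
    obtain ⟨s, hs⟩ := hQ.even_of_ufld hm hp hK hA h1; omega) hst.le_normalizer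

theorem QF.oCase_of_hasComm [Fintype F] (hQ : QF Q G) (hn : 2 ≤ Fintype.card ι)
    (hd : Odd (Fintype.card ι) → ∀ F₀ : Subfield F, G.det ∈ F₀) (hH : H ≤ omegaGL Q)
    (hirr : Irr H) (hc : HasComm (RingHom.id F) G H) : OCase Q G (H ≤ ·) := by
  have : Nonempty ι := Fintype.card_pos_iff.1 (by omega)
  have hi := hH.trans omegaGL_le
  have hi' := hH.trans hQ.omega_le
  obtain ⟨C, h1, h2, h3, h4⟩ := hc
  rcases hQ.hf.comm_case (hi'.trans (isom_le_similarityGroup _ _)) hirr h1 h2 h3 h4 with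
    ⟨t, k, D, hD, h⟩ | ⟨m, e, he', he, h5, hD, h6, h⟩ | ⟨r, K, hr, hK, h5, h6⟩
  · exact hQ.oCase_of_dec hn hd hi hirr hD h
  · have h7 : ∀ i, IsTotallySingularQuad Q (![colSp e, colSp (1 - e)] i) := fun i v hv => by
      by_cases h2 : (2 : F) = 0
      · obtain ⟨h8, h9⟩ := exists_qf_of_pair h2 (hQ.alt h2) hQ.unit hi' he h5
        rw [hQ.unique h8 hirr hn hi h9]
        fin_cases i <;> obtain ⟨w, rfl⟩ := mem_colSp.1 hv <;> beta_reduce
        · rw [Matrix.mulVec_mulVec, he', (hQ.alt h2).fm_self]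
        · rw [Matrix.mulVec_mulVec, mul_sub, he']; simp [fm]
      · exact (mul_eq_zero.1 ((hQ.diag v).symm.trans (h6 i v hv v hv))).resolve_left h2
    refine .pair m _ hD h7 (Nat.not_odd_iff_even.1 fun ho => ?_) h
    have h8 := hD.h26_card
    have h9 := hD.finrank_eq 0
    rcases hirr _ (inv_of_le ((le_inf h hH).trans (hQ.pair_le hD h7 ho))) with h10 | h10 <;>
      rw [h10] at h9 <;> simp at h9 <;> omega
  by_cases h7 : ∀ k ∈ K, adj (RingHom.id F) G k = k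
  swap
  · obtain rfl := hr.even_iff.1 ((h5.self_or_even hQ.hf hK).resolve_left h7)
    exact hQ.oCase_of_ufld hn hi hirr hK h5 h7 h6
  by_cases h8 : Odd r ∧ Fintype.card ι = 2 * r
  · obtain ⟨ω, z, h9, h10⟩ := hQ.ugen_of_field hK h7 h8.1 h8.2 hH hirr h6
    exact hQ.oCase_of_ufld hn hi hirr h9.isField (h9.adjSt hQ) (h9.not_self hQ) (h9.stable h10)
  have h9 := hQ.hf.isSelfAdjointFor_iff.2 h7
  exact .fld r K hr hK h9 (fun ho => ⟨fun h => hQ.not_irr_of_field hK h7 ho h hr.two_le hi h6 hirr,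
    fun h => h8 ⟨ho, h⟩⟩) (fun hq => sp_field_dvd hQ.hf hK h9 fun k hk =>
      (hQ.alt (by_contra fun h => hq (two_ne_zero_iff_odd.1 h))).fm_self_adj hQ.unit hK h5 hk (h7 k hk))
    h6.le_normalizer

theorem Ten.pure [Finite F] (hQ : QF Q G) {e : ι ≃ κ × β} {P : GL ι F} {G₁ : Matrix κ κ F}
    {G₂ : Matrix β β F} {ε₁ ε₂ : F} (h : Ten (RingHom.id F) G H e P G₁ G₂ ε₁ ε₂)
    (ha : 2 ≤ Fintype.card κ) (hb : 2 ≤ Fintype.card β) (hH : H ≤ isometryGroup F Q) (hirr : Irr H)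
    (h1 : (2 : F) ≠ 0 → Alt G₁) (x : κ → F) (y : β → F) :
    Q (P.val *ᵥ ((fun p : κ × β => x p.1 * y p.2) ∘ e)) = 0 := by
  by_cases h2 : (2 : F) = 0
  · obtain ⟨-, -, Q', h3, h4, h5⟩ := h.exists_qf' h2 ha hb (hH.trans hQ.isometryGroup_le) hirr
    rw [hQ.unique h3 hirr (by rw [Fintype.card_congr e, Fintype.card_prod]; nlinarith) hH h4, h5]
  · refine mul_left_cancel₀ h2 ?_
    rw [← hQ.diag, fm_unF, h.eq, fm_kronecker, (h1 h2).fm_self, zero_mul, mul_zero]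

theorem QF.oCase_of_tenA [Fintype F] (hQ : QF Q G) (hH : H ≤ isometryGroup F Q) (hirr : Irr H)
    (hc : ¬ HasComm (RingHom.id F) G H) {a b : ℕ} (ha : 2 ≤ a) (hb : a ≤ b) {e : ι ≃ Fin a × Fin b}
    {P : GL ι F} {G₁ : Matrix (Fin a) (Fin a) F} {G₂ : Matrix (Fin b) (Fin b) F} {ε₁ ε₂ : F}
    (h : Ten (RingHom.id F) G H e P G₁ G₂ ε₁ ε₂) (h1 : Alt G₁) (h2 : Alt G₂) : OCase Q G (H ≤ ·) := by
  have : Nonempty (Fin a) := ⟨⟨0, by omega⟩⟩
  have : Nonempty (Fin b) := ⟨⟨0, by omega⟩⟩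
  refine .tenA a b e P G₁ G₂ _ _ ha hb ?_ h1 h2 (h.mono bot_le)
    (h.pure hQ (by simpa) (by simp; omega) hH hirr fun _ => h1) (tenG_eq e P ▸ h.le)
  rintro rfl
  have h3 : 1 < Fintype.card F := Fintype.one_lt_card
  by_contra h4
  exact hc (h.hasComm hQ.hf (hasComm_GL2 (by omega) h.hf₁
    (h.sim (hH.trans (hQ.isometryGroup_le.trans (isom_le_similarityGroup _ _)))) (irr_projL hirr h.le)))

theorem QF.oCase_of_ten [Fintype F] (hQ : QF Q G) (hH : H ≤ omegaGL Q) (hirr : Irr H)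
    (hc : ¬ HasComm (RingHom.id F) G H) {a b : ℕ} (ha : 2 ≤ a) (hb : a ≤ b) {e : ι ≃ Fin a × Fin b}
    {P : GL ι F} {G₁ : Matrix (Fin a) (Fin a) F} {G₂ : Matrix (Fin b) (Fin b) F} {ε₁ ε₂ : F}
    (h : Ten (RingHom.id F) G H e P G₁ G₂ ε₁ ε₂) : OCase Q G (H ≤ ·) := by
  have : Nonempty (Fin a) := ⟨⟨0, by omega⟩⟩
  have : Nonempty (Fin b) := ⟨⟨0, by omega⟩⟩
  have hi := hH.trans omegaGL_le
  have hi' := hH.trans hQ.omega_le
  by_cases h2 : (2 : F) = 0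
  · obtain ⟨h3, h4, -⟩ := h.exists_qf' h2 (by simpa) (by simp; omega) hi' hirr
    exact hQ.oCase_of_tenA hi hirr hc ha hb h h3 h4
  have h3 := h.eps hQ.hf
  rcases h.hf₂.id_cases with rfl | rfl
  swap
  · obtain rfl : ε₁ = -1 := by linear_combination -h3
    exact hQ.oCase_of_tenA hi hirr hc ha hb h (h.hf₁.alt h2) (h.hf₂.alt h2)
  obtain rfl : ε₁ = 1 := by simpa using h3
  have hs := h.sim (hi'.trans (isom_le_similarityGroup _ _))
  have hq := two_ne_zero_iff_odd.1 h2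
  have h4 : 3 ≤ a := by
    by_contra h4
    obtain rfl : a = 2 := by omega
    exact hc (h.hasComm hQ.hf (hasComm_of_symm_two h2 h.hf₁ hs))
  have h5 : a = 3 → Fintype.card F ≠ 3 := by
    rintro rfl h5
    exact hc (h.hasComm hQ.hf (hasComm_O3 h5 (by simp) h.hf₁ hs (irr_projL hirr h.le)))
  by_cases h6 : a = b ∧ Odd a
  · obtain ⟨rfl, h6⟩ := h6
    obtain ⟨c, T, hc0, hT⟩ := h.hf₁.exists_pull_eq_smul h2 h.hf₂ (by simpa)
    have h7 := (hT ▸ h.change T).wr hc0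
    exact .wr a 2 _ _ c G₂ hq le_rfl h4 h6 (fun h => h5 h.2 h.1) (h7.mono bot_le) h7.le
  by_cases h7 : a = 3 ∧ b = 4 ∧ IsPlusTypeOn (fun v => 𝔟 G₂ v v) ⊤
  · obtain ⟨rfl, rfl, h7⟩ := h7
    obtain ⟨T, hT⟩ := exists_pull_JJ h2 h.hf₂ (finProdFinEquiv (m := 2) (n := 2)).symm h7
    have h8 := (hT ▸ h.swap.change T).reindex (finProdFinEquiv (m := 2) (n := 2)).symm
    rw [Matrix.submatrix_submatrix, Equiv.self_comp_symm, Matrix.submatrix_id_id] at h8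
    have h9 := ((h8.of_JJ h2 (by decide) hi' fun g hg => det_of_mem_omega (hH hg)).swap.reindex
      finProdFinEquiv).swap
    exact hQ.oCase_of_tenA hi hirr hc le_rfl (by norm_num) h9 alt_J₂ (h9.hf₂.alt h2)
  exact .tenS a b e P G₁ G₂ hq h4 hb (fun h => Nat.not_odd_iff_even.1 fun h' => h6 ⟨h, h'⟩) h5
    (by tauto) (h.mono bot_le) (tenG_eq e P ▸ h.le)

/-- **Aschbacher's theorem**, refined orthogonal case -/
theorem QF.cases [Fintype F] (hQ : QF Q G) (hn : 7 ≤ Fintype.card ι)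
    (hd : Odd (Fintype.card ι) → ∀ F₀ : Subfield F, G.det ∈ F₀) (hH : H ≤ omegaGL Q) :
    OCase Q G (H ≤ ·) ∨ InOrthogonalResidualClass H := by
  have : Nonempty ι := Fintype.card_pos_iff.1 (by omega)
  have hi := hH.trans omegaGL_le
  have hi' := hH.trans hQ.omega_le
  by_cases hirr : Irr H
  swap
  · exact Or.inl (hQ.oCase_of_red hn hH hirr)
  by_cases hc : HasComm (RingHom.id F) G H
  · exact Or.inl (hQ.oCase_of_hasComm (by omega) hd hH hirr hc)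
  rcases hQ.hf.cases (by omega) (hi'.trans (isom_le_similarityGroup _ _)) hirr hc with
    ⟨a, b, e, P, G₁, G₂, ε₁, ε₂, ha, hb, h⟩ | ⟨r, R, h1, h2, h, h'⟩ | ⟨P, h⟩ | ⟨N, t, m, e, P, L, h⟩
  · rcases le_total a b with h1 | h1
    · exact Or.inl (hQ.oCase_of_ten hH hirr hc ha h1 h)
    · exact Or.inl (hQ.oCase_of_ten hH hirr hc hb h1 h.swap)
  · obtain ⟨rfl, -⟩ := h.two_of_isom hQ.unit (h1.trans hi')
    obtain ⟨k, -, hk, -⟩ := h.dim
    have h3 : 2 ≤ k := by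
      by_contra h3
      have : 2 ^ k ≤ 2 ^ 1 := Nat.pow_le_pow_right two_pos (by omega)
      omega
    exact Or.inl (.other 2 k even_two h3 hk fun _ =>
      h'.plus hQ (h1.trans hi) (hk ▸ pow_dvd_pow 2 h3))
  · have hP := h.le.trans hi'
    by_cases h1 : ∃ F₀ : Subfield F, F₀ ≠ ⊤ ∧ ∀ g ∈ P, (g : Matrix ι ι F).trace ∈ F₀
    · obtain ⟨F₀, h1, h2⟩ := h1
      exact Or.inl (hQ.oCase_of_sub (by omega) hd hi hirr (hQ.hf.subCase h.nrm h.span hP h1 h2))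
    refine Or.inr ⟨P, h.isResidualCore fun F₀ h5 h6 => h1 ⟨F₀, h5, trace_mem_of_realisableOver h6⟩, ?_⟩
    rintro ⟨τ, f, h4, h5⟩
    obtain ⟨B, hB, -, rfl⟩ := unitary_eq_fm h4
    refine h1 ⟨fixF τ, fixF_ne_top ?_, fun g hg =>
      trace_mem_fixF hQ.unit hB (hP hg) (fixesForm_iff.1 h5 hg)⟩
    by_contra! h6
    exact h4.ne_refl (RingEquiv.ext h6)
  left
  obtain ⟨c, G₀, ε₀, hw, hL⟩ := h.exists_wr hQ.hf (h.le.trans hi')
  have h3 := h.two_le_m
  have h4 := h.two_le_t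
  have : Nonempty (Fin m) := ⟨⟨0, by omega⟩⟩
  have h5 : Fintype.card ι = m ^ t := by simpa using Fintype.card_congr e
  rcases Nat.even_or_odd m with h6 | h6
  · refine .other m t h6 h4 h5 ?_
    rintro rfl
    have h7 := ((h.ten hw ⟨0, by omega⟩).swap.reindex (Fintype.equivFin _)).swap
    refine plus_of_pure (h7.pure hQ (by simp) ?_ (h.le.trans hi) (irr_of_spanAlg_eq_top h.span) fun _ => ?_)
    · simp only [Fintype.card_pi, Fintype.card_fin, Finset.prod_const, Finset.card_univ,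
        Fintype.card_subtype_compl, Fintype.card_unique]
      exact Nat.le_self_pow (by omega) 2
    · obtain ⟨d, rfl⟩ := eq_smul_of_isom h.spanL isUnit_J₂
        (le_isom_of_perfect h.perfectL fun a _ => mem_similarityGroup_J₂ a) hL
      exact alt_smul (alt_smul alt_J₂ d) c
  have hq := hQ.odd_of_odd (h5 ▸ h6.pow)
  obtain rfl : ε₀ = 1 := hw.hf.id_cases.resolve_right (by
    rintro rfl
    exact Nat.not_even_iff_odd.2 h6
      (by simpa using (hw.hf.alt (two_ne_zero_iff_odd.2 hq)).even_card' hw.hf.unit))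
  refine .wr m t e P c G₀ hq h4 (by obtain ⟨s, hs⟩ := h6; omega) h6 ?_ (hw.mono bot_le) hw.le
  rintro ⟨h8, rfl⟩
  exact spanAlg_bot_ne_top (ι := Fin 3) (F := F) (by simp) (eq_bot_of_perfect_O3 h8 (by simp) hw.hf
    h.perfectL (hL.trans (isom_le_similarityGroup _ _)) ▸ h.spanL)

theorem OCase.eq_inf [Fintype F] (hQ : QF Q G) (hn : 7 ≤ Fintype.card ι) (hn' : Fintype.card ι < 27)
    (hH : IsMaximalIn (omegaGL Q) H) (h : OCase Q G (H ≤ ·)) : OCase Q G fun M => H = M ⊓ omegaGL Q := by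
  have h0 : 5 ≤ Fintype.card ι := by omega
  rcases h with ⟨W, h1, h2, h3, h⟩ | ⟨W, h1, h2, h3, h4, h5, h6, h7, h⟩ | ⟨v, hq, h1, h⟩ |
    ⟨k, D, hD, hk, h1, h⟩ | ⟨t, k, D, hD, h1, h2, h3, h4, h5, h⟩ | ⟨m, D, hD, h1, hm, h⟩ |
    ⟨r, K, hr, hK, h1, h2, h3, h⟩ | ⟨K, hK, h1, h2, h3, h4, h⟩ |
    ⟨a, b, e, P, G₁, G₂, hq, h1, h2, h3, h4, h5, hT, h⟩ |
    ⟨a, b, e, P, G₁, G₂, ε₁, ε₂, h1, h2, h3, h4, h5, hT, h6, h⟩ |
    ⟨F₀, r, P, ζ, hr, hc, h1, h2, h3, h4, h⟩ | ⟨k, t, e, P, c, G₀, hq, h1, h2, h3, h4, hW, h⟩ |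
    ⟨k, t, h1, h2, h3, h4⟩
  · exact .ts W h1 h2 h3 (eq_inf_of_isMaximalIn hH h
      (hQ.not_le_stab h0 h1 (ne_top_of_ts hQ.hf h1 (hQ.fm_eq_zero h2))))
  · exact .nd W h1 h2 h3 h4 h5 h6 h7 (eq_inf_of_isMaximalIn hH h (hQ.not_le_stab h0 h1 h2))
  · have h2 : finrank F (F ∙ v) = 1 := finrank_span_singleton fun h => h1 (h ▸ hQ.zero)
    exact .ns v hq h1 (eq_inf_of_isMaximalIn hH h (hQ.not_le_stab h0
      (Submodule.finrank_eq_zero.not.1 (by omega)) (ne_top_of_finrank (by omega))))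
  · exact .ndO k D hD hk h1 (eq_inf_of_isMaximalIn hH h (hQ.not_le_dec h0 hD))
  · exact .dec t k D hD h1 h2 h3 h4 h5 (eq_inf_of_isMaximalIn hH h (hQ.not_le_dec h0 (hQ.nondegDec hD)))
  · exact .pair m D hD h1 hm (eq_inf_of_isMaximalIn hH h (hQ.not_le_pair h0 hD h1))
  · exact .fld r K hr hK h1 h2 h3 (eq_inf_of_isMaximalIn hH h (hQ.not_le_field h0 hK hr.ne_one))
  · exact .ufld K hK h1 h2 h3 h4 (eq_inf_of_isMaximalIn hH h (hQ.not_le_field h0 hK (by omega)))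
  · exact .tenS a b e P G₁ G₂ hq h1 h2 h3 h4 h5 hT
      (eq_inf_of_isMaximalIn hH h (hQ.not_le_ten (by omega) (by omega) e P))
  · have h7 : Fintype.card ι = a * b := by simpa using Fintype.card_congr e
    exact .tenA a b e P G₁ G₂ _ _ h1 h2 h3 h4 h5 hT h6
      (eq_inf_of_isMaximalIn hH h (hQ.not_le_ten h1 (by nlinarith) e P))
  · exact .sub F₀ r P ζ hr hc h1 h2 h3 h4
      (eq_inf_of_isMaximalIn hH h (hQ.not_le_sub h0 (subfield_ne_top hr hc) P))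
  · have h6 : Fintype.card ι = k ^ t := by simpa using Fintype.card_congr e
    obtain rfl : t = 2 := by
      by_contra h7
      have : 3 ^ 3 ≤ k ^ t :=
        (Nat.pow_le_pow_left h2 3).trans (Nat.pow_le_pow_right (by omega) (by omega))
      omega
    exact .wr k 2 e P c G₀ hq h1 h2 h3 h4 hW
      (eq_inf_of_isMaximalIn hH h (hQ.not_le_wr (two_ne_zero_iff_odd.2 hq) h2 e P))
  · exact .other k t h1 h2 h3 h4

theorem QF.max [Fintype F] (hQ : QF Q G) (hn : 7 ≤ Fintype.card ι) (hn' : Fintype.card ι < 27)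
    (hd : Odd (Fintype.card ι) → ∀ F₀ : Subfield F, G.det ∈ F₀) (hH : IsMaximalIn (omegaGL Q) H) :
    (OCase Q G fun M => H = M ⊓ omegaGL Q) ∨ InOrthogonalResidualClass H :=
  (hQ.cases hn hd hH.1.le).imp_left fun h => h.eq_inf hQ hn hn' hH

theorem exists_qf_odd (m : ℕ) (h2 : (2 : F) ≠ 0) :
    ∃ G, QF (quadFormOdd m F) G ∧ ∀ F₀ : Subfield F, G.det ∈ F₀ := by
  have h := H11.isQuad_odd m F
  refine ⟨Matrix.fromBlocks ((2 : F) • 1) 0 0 (Matrix.fromBlocks 0 1 1 0),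
    ⟨fun c v => by rw [h.smul, sq]; rfl, fun u v => ?_, ?_⟩, fun F₀ => det_mem_subfield ?_⟩
  · rw [h.add, H11.bOdd_apply]
    simp [fm, Matrix.fromBlocks_mulVec, dotProduct, Finset.sum_add_distrib, Matrix.smul_mulVec]; ring
  · exact IsUnit.of_mul_eq_one (Matrix.fromBlocks ((2 : F)⁻¹ • 1) 0 0 (Matrix.fromBlocks 0 1 1 0)) (by
      simp [Matrix.fromBlocks_multiply, h2, smul_smul])
  · rintro (i | i | i) (j | j | j) <;> simp [Matrix.one_apply, apply_ite (· ∈ F₀)]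

end Cfsg.Agent.H26
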