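import Mathlib
import Cfsg.Agent.H26.O6
import Cfsg.Agent.H26.SU
import Cfsg.Agent.H26.SLMax

/-! Non-maximality of some geometric subgroups: tools. -/

set_option autoImplicit false
set_option maxHeartbeats 400000

namespace Cfsg.Agent.H26

open Matrix Cfsg.Geo Module
open scoped Kronecker commutatorElement

variable {ι κ β : Type} [Fintype ι] [DecidableEq ι] [Fintype κ] [DecidableEq κ]
  [Fintype β] [DecidableEq β] {F : Type*} [Field F] {σ : F →+* F} {G : Matrix ι ι F} {ε : F}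
  {Q : (ι → F) → F}

theorem exists_between {Γ : Type*} [Group Γ] {X A B : Subgroup Γ} (h1 : A ⊓ X ≤ B) (h2 : ¬ X ≤ B)
    (h3 : ∃ g ∈ X, g ∈ B ∧ g ∉ A) : ∃ K : Subgroup Γ, A ⊓ X < K ∧ K < X := by
  obtain ⟨g, hX, hB, hA⟩ := h3
  exact ⟨B ⊓ X, lt_of_le_of_ne (le_inf h1 inf_le_right) fun h => hA (h.ge ⟨hB, hX⟩).1,
    lt_of_le_of_ne inf_le_right fun h => h2 (h.ge.trans inf_le_left)⟩

theorem exists_of_not_le {Γ : Type*} [Group Γ] {X A B Y : Subgroup Γ} (h1 : Y ≤ X) (h2 : Y ≤ B)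
    (h3 : ¬ Y ≤ A) : ∃ g ∈ X, g ∈ B ∧ g ∉ A := by
  obtain ⟨g, hg, hA⟩ := SetLike.not_le_iff_exists.1 h3
  exact ⟨g, h1 hg, h2 hg, hA⟩

theorem not_max_of_between {Γ : Type*} [Group Γ] {X H : Subgroup Γ}
    (h : ∃ K : Subgroup Γ, H < K ∧ K < X) : ¬ IsMaximalIn X H := fun hm => by
  obtain ⟨K, h1, h2⟩ := h
  rcases hm.2 K h1.le h2.le with h | h
  · exact h1.ne' h
  · exact h2.ne h

theorem mem_stab_of_le {g : GL ι F} {W : Submodule F (ι → F)} (h : ∀ v ∈ W, g.val *ᵥ v ∈ W) :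
    g ∈ subspaceStabilizer W := by
  have h1 : W.map (Matrix.toLin' g.val) = W :=
    Submodule.eq_of_le_of_finrank_eq (by rintro _ ⟨v, hv, rfl⟩; exact h v hv) (finrank_map_GL g W)
  refine fun v => ⟨h v, fun hv => ?_⟩
  obtain ⟨w, hw, h2⟩ := h1.ge hv
  have h3 := congrArg ((g⁻¹ : GL ι F).val *ᵥ ·) h2
  simp only [Matrix.toLin'_apply] at h3
  erw [inv_mulVec_mulVec, inv_mulVec_mulVec] at h3
  exact h3 ▸ hw

theorem sl_two_stab {W U : Submodule F (ι → F)} (h0 : W ≠ ⊥) (h1 : W ≠ ⊤) {u x : ι → F}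
    (hu : u ∈ U) (hx : x ∉ U) (h : u ∉ W ⊔ F ∙ x) : ∃ K : Subgroup (GL ι F),
      subspaceStabilizer W ⊓ subspaceStabilizer U ⊓ specialLinear ι F < K ∧ K < specialLinear ι F := by
  obtain ⟨φ, h2, h3⟩ := exists_dual h
  refine exists_between (inf_le_left.trans inf_le_left) (sl_not_le_subspaceStabilizer h0 h1)
    ⟨tv x φ (h3 x (Submodule.mem_sup_right (Submodule.mem_span_singleton_self x))),
      tv_mem_specialLinear _ _ _, mem_stab_of_le fun v hv => ?_, fun hg => hx ?_⟩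
  · simpa [tv_mulVec, h3 v (Submodule.mem_sup_left hv)] using hv
  · have := (mem_subspaceStabilizer.1 hg.2 u).1 hu
    rwa [tv_mulVec, h2, one_smul, U.add_mem_iff_right hu] at this

theorem comm_mem_omega {a b : GL ι F} (ha : a ∈ isometryGroup F Q) (hb : b ∈ isometryGroup F Q) :
    ⁅a, b⁆ ∈ omegaGL Q :=
  ⟨⁅(⟨a, ha⟩ : isometryGroup F Q), ⟨b, hb⟩⁆,
    Subgroup.commutator_mem_commutator (Subgroup.mem_top _) (Subgroup.mem_top _), rfl⟩

theorem QF.mem_isometryGroup_of_span (h : QF Q G) {g : GL ι F} (hg : g ∈ isom (RingHom.id F) G)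
    {s : Set (ι → F)} (hs : Submodule.span F s = ⊤) (h1 : ∀ v ∈ s, Q (g.val *ᵥ v) = Q v) :
    g ∈ isometryGroup F Q := mem_isometryGroup.2 fun v => by
  induction hs.ge (Submodule.mem_top (x := v)) using Submodule.span_induction with
  | mem x hx => exact h1 x hx
  | zero => simp
  | add x y _ _ hx hy => rw [Matrix.mulVec_add, h.add, h.add, hx, hy, fm_isom hg]
  | smul c x _ hx => rw [Matrix.mulVec_smul, h.smul, h.smul, hx]

section dec
variable {t k t' k' : ℕ} {D : Fin t → Submodule F (ι → F)} {D' : Fin t' → Submodule F (ι → F)}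

theorem not_mem_dec_of_perp (hG : HF σ G ε) (hD : IsNondegenerateMDecomposition (fm σ G) k D)
    {g : GL ι F} {i : Fin t} {x u : ι → F} (hx : x ∈ D i) (hx0 : x ≠ 0) (hu0 : u ≠ 0)
    (hu : ∀ y ∈ D i, fm σ G y u = 0) (hg : g.val *ᵥ x = x + u) : g ∉ decompositionStabilizer D := by
  intro h
  obtain ⟨j, hj⟩ := mulVec_mem_of_mem_decompositionStabilizer h hx
  rw [hg] at hj
  by_cases hij : j = i
  · subst hij
    obtain ⟨⟨y, hy, h1⟩, -⟩ := hD.nondegenerate j u (((D j).add_mem_iff_right hx).1 hj) hu0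
    exact h1 (hu y hy)
  · obtain ⟨⟨y, hy, h1⟩, -⟩ := hD.nondegenerate i x hx hx0
    have := hD.orthogonal i j (Ne.symm hij) y hy _ hj
    rw [fm_add_right, hu y hy, add_zero] at this
    exact h1 this

theorem tvf_mem_dec (hD : IsNondegenerateMDecomposition (fm σ G) k D) {i : Fin t} {v : ι → F}
    (hv : v ∈ D i) (c : F) (h0 : fm σ G v v = 0) : tvf σ G v c h0 ∈ decompositionStabilizer D :=
  le_decompositionStabilizer_of_map hD.decomp fun j => ⟨j, fun x hx => by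
    rw [tvf_mulVec]
    by_cases h : j = i
    · subst h; exact add_mem hx ((D j).smul_mem _ hv)
    · simpa [hD.orthogonal j i h x hx v hv] using hx⟩

theorem QF.eich_mem_dec (h : QF Q G) (hD : IsNondegenerateMDecomposition (𝔟 G) k D) {i : Fin t}
    {u w : ι → F} (hu : Q u = 0) (huw : 𝔟 G u w = 0) (h1 : u ∈ D i) (h2 : w ∈ D i) :
    h.eich hu huw ∈ decompositionStabilizer D :=
  le_decompositionStabilizer_of_map hD.decomp fun j => ⟨j, fun x hx => by
    rw [h.eich_mulVec]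
    by_cases hj : j = i
    · subst hj
      exact sub_mem (sub_mem (add_mem hx ((D j).smul_mem _ h1)) ((D j).smul_mem _ h2))
        ((D j).smul_mem _ h1)
    · simpa [hD.orthogonal i j (Ne.symm hj) u h1 x hx, hD.orthogonal i j (Ne.symm hj) w h2 x hx]
        using hx⟩

theorem exists_not_mem_of_refine {X : Subgroup (GL ι F)} (hD : IsMDecomposition k D)
    (hD' : IsMDecomposition k' D') (ht : t < t') (hr : ∀ i, ∃ j, D' i ≤ D j)
    (hX : ∀ s s' : Equiv.Perm (Fin t'), ∃ g ∈ X, ∀ i, ∀ v ∈ D' i, g.val *ᵥ v ∈ D' (⁅s, s'⁆ i)) :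
    ∃ g ∈ X, g ∈ decompositionStabilizer D' ∧ g ∉ decompositionStabilizer D := by
  choose ρ hρ using hr
  obtain ⟨a, b, hab, h1⟩ := Fintype.exists_ne_map_eq_of_card_lt ρ (by simpa using ht)
  obtain ⟨c, hc⟩ : ∃ c, ρ c ≠ ρ a := by
    by_contra! h
    have := Fin.nontrivial_iff_two_le.2 hD.two_le
    obtain ⟨j, hj⟩ := exists_ne (ρ a)
    obtain ⟨u, hu, hu0⟩ := hD.h26_exists_ne_zero j
    exact hu0 (Submodule.disjoint_def.1 (hD.indep.pairwiseDisjoint hj) u hu
      ((iSup_le fun i => h i ▸ hρ i : iSup D' ≤ D (ρ a)) (hD'.iSup_eq_top ▸ trivial)))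
  have hca : c ≠ a := fun h => hc (h ▸ rfl)
  have hcb : c ≠ b := fun h => hc (h ▸ h1.symm)
  obtain ⟨g, hg, h2⟩ := hX (Equiv.swap a b) (Equiv.swap a c)
  refine ⟨g, hg, le_decompositionStabilizer_of_map hD' fun i => ⟨_, h2 i⟩, fun ⟨τ, hτ⟩ => ?_⟩
  have h3 : ∀ i, ρ (⁅Equiv.swap a b, Equiv.swap a c⁆ i) = τ (ρ i) := fun i => by
    obtain ⟨u, hu, hu0⟩ := hD'.h26_exists_ne_zero i
    by_contra hne
    have h4 : g.val *ᵥ u = 0 := Submodule.disjoint_def.1 (hD.indep.pairwiseDisjoint hne) _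
      (hρ _ (h2 i u hu)) (hτ (ρ i) ▸ ⟨u, hρ i hu, rfl⟩)
    exact hu0 (by simpa [h4] using (inv_mulVec_mulVec g u).symm)
  have h4 := h3 a
  have h5 := h3 b
  simp only [commutatorElement_def, Equiv.swap_inv, Equiv.Perm.mul_apply, Equiv.swap_apply_left,
    Equiv.swap_apply_right, Equiv.swap_apply_of_ne_of_ne hca hcb,
    Equiv.swap_apply_of_ne_of_ne hab.symm hcb.symm] at h4 h5
  exact hc (by rw [h5, ← h1, ← h4, h1])

variable {e : ι ≃ Fin k × Fin t} {P : GL ι F}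

/-- block permutations -/
def blkP (κ : Type) [Fintype κ] [DecidableEq κ] (F : Type*) [Field F] {T : Type} [Fintype T]
    [DecidableEq T] : Equiv.Perm T →* GL (κ × T) F :=
  MonoidHom.toHomUnits
    { toFun := fun τ => blk τ fun _ => (1 : Matrix κ κ F)
      map_one' := blk_one
      map_mul' := fun a b => by simp [blk_mul] }

theorem coe_blkP {T : Type} [Fintype T] [DecidableEq T] (τ : Equiv.Perm T) :
    (blkP κ F τ).val = blk τ fun _ => (1 : Matrix κ κ F) := rfl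

theorem blk_blkL {g : Matrix ι ι F} {τ : Equiv.Perm (Fin t)} {a : Fin t → Matrix (Fin k) (Fin k) F}
    (hg : g = trA e P (blk τ a)) (j : Fin t) (x : Fin k → F) :
    g *ᵥ blkL e P j x = blkL e P (τ j) (a j *ᵥ x) := by
  rw [hg]; exact (trA_mulVec _ _ _ _).trans (by rw [blk_mulVec]; rfl)

theorem coe_trG_blkP {T : Type} [Fintype T] [DecidableEq T] (e : ι ≃ κ × T) (P : GL ι F)
    (τ : Equiv.Perm T) : (trG e P (blkP κ F τ)).val = trA e P (blk τ fun _ => 1) := by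
  rw [coe_trG, coe_blkP]

theorem Blk.blkP_mem (h : Blk D e P) (τ : Equiv.Perm (Fin t)) (i : Fin t) (v : ι → F) (hv : v ∈ D i) :
    (trG e P (blkP (Fin k) F τ)).val *ᵥ v ∈ D (τ i) := by
  rw [← h.range] at hv ⊢
  obtain ⟨x, rfl⟩ := hv
  exact ⟨_, (blk_blkL (coe_trG_blkP e P τ) i x).symm⟩

theorem blkP_mem_isom {G₀ : Matrix (Fin k) (Fin k) F}
    (h : unF σ e P G = Matrix.blockDiagonal fun _ => G₀) (τ : Equiv.Perm (Fin t)) :
    trG e P (blkP (Fin k) F τ) ∈ isom σ G := by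
  rw [mem_isom]
  apply unF_injective σ e P
  rw [coe_trG_blkP, ← pull_unF, h, pull_blk]
  simp [pull]

theorem QF.refine_strict (h : QF Q G) (hD : IsMDecomposition k D)
    (hD' : IsOrthogonalMDecomposition Q k' D') (ht : t < t') (hr : ∀ i, ∃ j, D' i ≤ D j) :
    ∃ g ∈ omegaGL Q, g ∈ decompositionStabilizer D' ∧ g ∉ decompositionStabilizer D := by
  obtain ⟨e, P, Q₀, G₀, hB⟩ := h.exists_oblk_const hD'
  refine exists_not_mem_of_refine hD hD'.decomp.decomp ht hr fun s s' =>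
    ⟨_, ?_, hB.blk.blkP_mem ⁅s, s'⁆⟩
  have : ∀ τ, trG e P (blkP (Fin k') F τ) ∈ isometryGroup F Q := fun τ =>
    h.mem_isometryGroup_of_span (blkP_mem_isom hB.eq τ) (s := ⋃ i, D' i)
      (by rw [Submodule.span_iUnion]; simpa using hD'.decomp.decomp.iSup_eq_top) fun v hv => by
      obtain ⟨i, hi⟩ := Set.mem_iUnion.1 hv
      rw [← hB.blk.range] at hi
      obtain ⟨x, rfl⟩ := hi
      rw [blk_blkL (coe_trG_blkP e P τ), hB.val, hB.val, Matrix.one_mulVec]
  rw [map_commutatorElement, map_commutatorElement]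
  exact comm_mem_omega (this _) (this _)

theorem su_refine_strict [Finite F] (hG : HF σ G 1) (hne : ∃ a, σ a ≠ a) (hD : IsMDecomposition k D)
    (hD' : IsNondegenerateMDecomposition (fm σ G) k' D') (ht : t < t') (hr : ∀ i, ∃ j, D' i ≤ D j) :
    ∃ g ∈ isom σ G ⊓ specialLinear ι F,
      g ∈ decompositionStabilizer D' ∧ g ∉ decompositionStabilizer D := by
  obtain ⟨e, P, hB, h1⟩ := exists_blk_one hG hne hD'
  refine exists_not_mem_of_refine hD hD'.decomp ht hr fun s s' =>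
    ⟨_, ⟨blkP_mem_isom (G₀ := 1) (h1.trans Matrix.blockDiagonal_one.symm) _, ?_⟩,
      hB.blkP_mem ⁅s, s'⁆⟩
  rw [map_commutatorElement, map_commutatorElement]
  exact MonoidHom.mem_ker.2 (by rw [map_commutatorElement, commutatorElement_eq_one_iff_commute]; exact mul_comm _ _)

/-- the standard blocks -/
def blkD (e : ι ≃ Fin k × Fin t) (P : GL ι F) (j : Fin t) : Submodule F (ι → F) :=
  LinearMap.range (blkL e P j)

theorem fm_blkL {Gs : Fin t → Matrix (Fin k) (Fin k) F} (h : unF σ e P G = Matrix.blockDiagonal Gs)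
    (i j : Fin t) (x y : Fin k → F) :
    fm σ G (blkL e P i x) (blkL e P j y) = if i = j then fm σ (Gs i) x y else 0 := by
  refine (fm_unF σ e P G _ _).trans ?_
  rw [h]
  split_ifs with hij
  · subst hij; exact fm_blkVec _ _ _ _
  · simp [fm_eq_sum, Fintype.sum_prod_type, blkVec, Matrix.blockDiagonal_apply, hij]

theorem HF.nondeg_blkD (hG : HF σ G ε) (ht : 2 ≤ t) (hk : 0 < k)
    {Gs : Fin t → Matrix (Fin k) (Fin k) F} (h : H26.unF σ e P G = Matrix.blockDiagonal Gs) :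
    IsNondegenerateMDecomposition (fm σ G) k (blkD e P) := by
  have h0 := fun j => (hf_of_blockDiagonal (h ▸ hG.unF e P) j).unit
  have h4 : ∀ i j, i ≠ j → AreOrthogonalFor (fm σ G) (blkD e P i) (blkD e P j) := by
    rintro i j hij _ ⟨x, rfl⟩ _ ⟨y, rfl⟩; rw [fm_blkL h, if_neg hij]
  have h5 : ∀ i, IsNondegenerateOn (fm σ G) (blkD e P i) := by
    rintro i _ ⟨x, rfl⟩ hx
    have hx0 : x ≠ 0 := by rintro rfl; simp at hx
    obtain ⟨y, hy⟩ := exists_fm_ne_zero_left (σ := σ) (h0 i) hx0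
    obtain ⟨z, hz⟩ := exists_fm_ne_zero_right (σ := σ) (h0 i) hx0
    exact ⟨⟨_, ⟨y, rfl⟩, by rwa [fm_blkL h, if_pos rfl]⟩, ⟨_, ⟨z, rfl⟩, by rwa [fm_blkL h, if_pos rfl]⟩⟩
  refine ⟨⟨ht, hk, fun i => ?_, hG.indep_of_orth h5 h4, eq_top_iff.2 fun v _ => ?_⟩, h5, h4⟩
  · rw [blkD, LinearMap.finrank_range_of_inj, finrank_fun, Fintype.card_fin]
    intro x y hxy
    ext a
    simpa [blkVec] using congrFun (crd_injective e P hxy) (a, i)
  · obtain ⟨y, rfl⟩ := exists_crd e P v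
    have : P.val *ᵥ (y ∘ e) = ∑ j, blkL e P j fun a => y (a, j) := by
      change _ = ∑ j, P.val *ᵥ _
      rw [← Matrix.mulVec_sum]; congr 1; ext a; simp [blkVec]
    rw [this]
    exact sum_mem fun j _ => Submodule.mem_iSup_of_mem j ⟨_, rfl⟩

theorem Blk.eq_blkD (h : Blk D e P) : D = blkD e P := funext fun j => (h.range j).symm

/-- a form preserved by the stabiliser, for which the decomposition is orthogonal -/
theorem exists_isom_of_decomp' (hD : IsMDecomposition k D) {G₁ : Matrix (Fin k) (Fin k) F}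
    (hG₁ : HF σ G₁ ε) : ∃ (G : Matrix ι ι F) (e : ι ≃ Fin k × Fin t) (P : GL ι F), HF σ G ε ∧
      Blk D e P ∧ unF σ e P G = (Matrix.blockDiagonal fun _ => G₁) ∧
      IsNondegenerateMDecomposition (fm σ G) k D ∧
      ((∀ a : GL (Fin k) F, pull σ G₁ a = G₁) → decompositionStabilizer D ≤ isom σ G) := by
  obtain ⟨e, P, hB⟩ := exists_blk hD
  have h1 : HF σ (trF σ e P (Matrix.blockDiagonal fun _ : Fin t => G₁)) ε :=
    ⟨hG₁.inv, isUnit_trF _ _ (isUnit_blockDiagonal fun _ => hG₁.unit), by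
      rw [trF_conj hG₁.inv, ← trF_smul, Matrix.blockDiagonal_map _ _ (map_zero σ),
        Matrix.blockDiagonal_transpose, ← Matrix.blockDiagonal_smul]
      simp only [hG₁.herm]
      rfl⟩
  refine ⟨_, e, P, h1, hB, unF_trF _ _ _ _, hB.eq_blkD ▸ h1.nondeg_blkD hD.two_le hD.pos (unF_trF _ _ _ _),
    fun h g hg => ?_⟩
  obtain ⟨τ, a, ha⟩ := hB.stab g hg
  rw [mem_isom, ha, pull_trF, pull_blk]
  simp only [h]

/-- a tensor decomposition whose second factor is monomial -/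
theorem Ten.le_dec {H : Subgroup (GL ι F)} {G₁ : Matrix (Fin k) (Fin k) F} {ε₁ ε₂ c : F}
    (h : Ten σ G H e P G₁ (c • (1 : Matrix (Fin t) (Fin t) F)) ε₁ ε₂) (hG : HF σ G ε) (ht : 2 ≤ t)
    (hk : 0 < k) (hm : ∀ a ∈ similarityGroup (fm σ (c • (1 : Matrix (Fin t) (Fin t) F))), IsMono a.val) :
    IsNondegenerateMDecomposition (fm σ G) k (blkD e P) ∧
      H ⊓ isom σ G ≤ decompositionStabilizer (blkD e P) := by
  have hD := hG.nondeg_blkD ht hk (e := e) (P := P) (Gs := fun _ => c • G₁) (by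
    rw [h.eq]; ext ⟨a, i⟩ ⟨b, j⟩
    simp [Matrix.blockDiagonal_apply, Matrix.one_apply, mul_comm])
  refine ⟨hD, fun g hg => le_decompositionStabilizer_of_map hD.decomp fun i => ?_⟩
  have := Fin.pos_iff_nonempty.1 hk
  have := Fin.pos_iff_nonempty.1 (show 0 < t by omega)
  obtain ⟨a, b, rfl⟩ := h.le hg.1
  obtain ⟨d, hd, -, h2⟩ := h.exists_pull one_ne_zero ((mem_isom.1 hg.2).trans (one_smul _ _).symm)
  obtain ⟨j, hj⟩ := hm b (mem_similarityGroup_fm.2 ⟨_, by simp [hd], h2⟩) i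
  refine ⟨j, ?_⟩
  rintro _ ⟨x, rfl⟩
  refine ⟨b.val j i • a.val *ᵥ x, ?_⟩
  refine Eq.trans ?_ (trA_mulVec e P _ _).symm
  change P.val *ᵥ _ = _
  congr 2
  ext ⟨p, l⟩
  by_cases hl : l = j
  · simp [blkVec, hl, Matrix.mulVec, dotProduct, Fintype.sum_prod_type, Finset.mul_sum, mul_assoc,
      mul_left_comm, coe_kronG]
  · simp [blkVec, hl, Matrix.mulVec, dotProduct, Fintype.sum_prod_type, hj l hl, coe_kronG]

end dec

theorem unF_of_structure {a b : ℕ} {f₁ : (Fin a → F) → (Fin a → F) → F}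
    {f₂ : (Fin b → F) → (Fin b → F) → F} {e : ι ≃ Fin a × Fin b} {P : GL ι F}
    (h : IsTensorFormStructure σ (fm σ G) f₁ f₂ e P) :
    ∃ c : F, c ≠ 0 ∧ unF σ e P G = c • gramMatrix f₁ ⊗ₖ gramMatrix f₂ := by
  obtain ⟨c, hc, h⟩ := h
  exact ⟨c, hc, eq_of_fm_eq (σ := σ) fun x y => by rw [← fm_unF, h, fm_smul, formOfGram_eq]⟩

theorem isMono_of_sim_three [Fintype F] (hq : Fintype.card F = 3) {c : F} (hc : c ≠ 0)
    {a : GL (Fin 3) F} (ha : a ∈ similarityGroup (𝔟 (c • (1 : Matrix (Fin 3) (Fin 3) F)))) :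
    IsMono a.val := by
  rw [similarityGroup_smul hc] at ha
  obtain ⟨d, hd, h⟩ := mem_similarityGroup_fm.1 ha
  have h1 := congrArg Matrix.det h
  rw [det_pull_id, sq_eq_of_card (Matrix.isUnits_det_units a).ne_zero (k := 2) hq] at h1
  have h2 := sq_eq_of_card hd (k := 2) hq
  obtain rfl : d = 1 := by
    simp only [Matrix.det_one, mul_one, Matrix.det_smul, Fintype.card_fin] at h1
    linear_combination -h1 - d * h2
  intro l
  have h3 := congrFun (congrFun h l) l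
  have h0 := FiniteField.cast_card_eq_zero F
  rw [hq] at h0
  have h4 := fun j (hj : a.val j l ≠ 0) => sq_eq_of_card hj (k := 2) hq
  simp only [pull, mul_one, Matrix.mul_apply, Fin.sum_univ_three, Matrix.transpose_apply,
    Matrix.map_apply, RingHom.id_apply, one_smul, Matrix.one_apply_eq, ← sq] at h3
  by_cases x : a.val 0 l = 0 <;> by_cases y : a.val 1 l = 0 <;> by_cases z : a.val 2 l = 0 <;>
    simp_all [Fin.exists_fin_succ, Fin.forall_fin_succ] <;> grind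

end Cfsg.Agent.H26
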