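import Cfsg.Agent.H26.MS1
import Cfsg.Agent.H26.MU4

/-! Minimal index of the symplectic groups, I: root elements and subgroups containing them. -/

set_option autoImplicit false
set_option linter.unusedSectionVars false

namespace Cfsg.Agent.H26.MI.SQ

open Finset Matrix Cfsg.Agent.H10 Module
open scoped Classical

variable {l : Type*} [Fintype l] [DecidableEq l] {F : Type*} [Field F]

local notation "𝔅" => spBilin l F
local notation "𝕍" => (l ⊕ l → F)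
local notation "𝔾" => symplecticGroup l F

/-- the linear map of a symplectic matrix. -/
def ap (g : 𝔾) : 𝕍 →ₗ[F] 𝕍 := Matrix.mulVecLin g.1

theorem ap_def (g : 𝔾) (x : 𝕍) : ap g x = g.1 *ᵥ x := rfl
theorem ap_mul (g k : 𝔾) (x : 𝕍) : ap (g * k) x = ap g (ap k x) := sp_mul_mulVec g k x
theorem ap_one (x : 𝕍) : ap (1 : 𝔾) x = x := one_mulVec x
theorem gext {g k : 𝔾} (h : ∀ x, ap g x = ap k x) : g = k := sp_ext h
theorem ap_form (g : 𝔾) (x y : 𝕍) : 𝔅 (ap g x) (ap g y) = 𝔅 x y := sp_form g x y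
theorem inv_ap (g : 𝔾) (x : 𝕍) : ap g⁻¹ (ap g x) = x := sp_inv_mulVec g x
theorem ap_inv (g : 𝔾) (x : 𝕍) : ap g (ap g⁻¹ x) = x := sp_mulVec_inv g x
theorem ap_inj (g : 𝔾) {x y : 𝕍} (h : ap g x = ap g y) : x = y := by
  rw [← inv_ap g x, h, inv_ap]
theorem inv_fix {g : 𝔾} {e : 𝕍} (h : ap g e = e) : ap g⁻¹ e = e := by
  conv_lhs => rw [← h]
  exact inv_ap g e
theorem bs (v : 𝕍) : 𝔅 v v = 0 := spB_self v
theorem bsw (u v : 𝕍) : 𝔅 u v = - 𝔅 v u := spB_swap u v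
theorem brefl {u v : 𝕍} (h : 𝔅 u v = 0) : 𝔅 v u = 0 := spB_eq_zero_comm.1 h
theorem T_app (v : 𝕍) (c : F) (x : 𝕍) : ap (stv v c) x = x + (c * 𝔅 x v) • v := stv_mulVec v c x
theorem T_conj (g : 𝔾) (v : 𝕍) (c : F) : g * stv v c * g⁻¹ = stv (ap g v) c := stv_conj g v c
theorem T_fix {v x : 𝕍} (h : 𝔅 x v = 0) (c : F) : ap (stv v c) x = x := by
  rw [T_app, h, mul_zero, zero_smul, add_zero]
theorem perp_fix {g : 𝔾} {e w : 𝕍} (h : ap g e = e) (hw : 𝔅 w e = 0) : 𝔅 (ap g w) e = 0 := by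
  rw [← h, ap_form, hw]

/-- the elements of the unipotent radical of the stabiliser of `e`. -/
noncomputable def E (e w : 𝕍) (d : F) : 𝔾 := if h : 𝔅 w e = 0 then spq w e d h else 1

theorem E_app {e w : 𝕍} (h : 𝔅 w e = 0) (d : F) (x : 𝕍) :
    ap (E e w d) x = x + 𝔅 x e • w + (𝔅 x w + d * 𝔅 x e) • e := by
  rw [E, dif_pos h]; exact spq_mulVec w e d h x

theorem E_perp {e w x : 𝕍} (h : 𝔅 w e = 0) (d : F) (hx : 𝔅 x e = 0) :
    ap (E e w d) x = x + 𝔅 x w • e := by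
  rw [E_app h, hx]; simp

theorem E_fix {e w : 𝕍} (h : 𝔅 w e = 0) (d : F) : ap (E e w d) e = e := by
  rw [E_perp h d (bs e), brefl h, zero_smul, add_zero]

theorem E_mul {e w w' : 𝕍} (h : 𝔅 w e = 0) (h' : 𝔅 w' e = 0) (d d' : F) :
    E e w d * E e w' d' = E e (w + w') (d + d' + 𝔅 w' w) := by
  rw [E, dif_pos h, E, dif_pos h', E, dif_pos (by simp [h, h']), spq_mul]

theorem E_zero (e : 𝕍) (d : F) : E e 0 d = stv e d := by
  rw [E, dif_pos (by simp)]; rfl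

theorem E_inv {e w : 𝕍} (h : 𝔅 w e = 0) (d : F) : (E e w d)⁻¹ = E e (-w) (-d) := by
  rw [inv_eq_iff_mul_eq_one, E_mul h (by simp [h])]
  simp [bs, E_zero, stv_zero]

theorem E_conj (g : 𝔾) (e w : 𝕍) (d : F) : g * E e w d * g⁻¹ = E (ap g e) (ap g w) d := by
  by_cases h : 𝔅 w e = 0
  · rw [E, dif_pos h, E, dif_pos (by rw [ap_form, h]), spq_conj]; rfl
  · rw [E, dif_neg h, E, dif_neg (by rwa [ap_form]), mul_one, mul_inv_cancel]

theorem E_add_smul {e w : 𝕍} (h : 𝔅 w e = 0) (a d : F) : E e (w + a • e) d = E e w (d + 2 * a) :=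
  gext fun x => by
    rw [E_app (by simp [h, bs]), E_app h]
    simp only [map_add, map_smul, smul_eq_mul]
    module

theorem E_smul {e w : 𝕍} (h : 𝔅 w e = 0) (a d : F) : E (a • e) w d = E e (a • w) (a ^ 2 * d) :=
  gext fun x => by
    rw [E_app (by simp [h]), E_app (by simp [h])]
    simp only [map_smul, smul_eq_mul]
    module

theorem E_T {e w : 𝕍} (h : 𝔅 w e = 0) (d c : F) : E e w d * stv e c = E e w (d + c) := by
  rw [← E_zero, E_mul h (by simp)]; simp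

theorem T_E {e w : 𝕍} (h : 𝔅 w e = 0) (d c : F) : stv e c * E e w d = E e w (c + d) := by
  rw [← E_zero, E_mul (by simp) h]; simp

theorem exists_E {e : 𝕍} (he : e ≠ 0) {k : 𝔾} (h1 : ap k e = e)
    (h2 : ∀ x, 𝔅 x e = 0 → ∃ a : F, ap k x = x + a • e) : ∃ w d, 𝔅 w e = 0 ∧ k = E e w d := by
  obtain ⟨u, c, h, rfl⟩ := exists_eq_spq he (s := k) ⟨h1, h2⟩
  exact ⟨u, c, h, by rw [E, dif_pos h]⟩

/-- the elements of the centre of the unipotent radical of the line `⟨x, e⟩`. -/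
noncomputable def R (x e : 𝕍) (c b d : F) : 𝔾 := stv x c * E e (b • x) d

theorem R_app {x e : 𝕍} (h : 𝔅 x e = 0) (c b d : F) (v : 𝕍) :
    ap (R x e c b d) v = v + (c * 𝔅 v x + b * 𝔅 v e) • x + (b * 𝔅 v x + d * 𝔅 v e) • e := by
  rw [R, ap_mul, E_app (by simp [h]), T_app]
  simp only [map_add, map_smul, LinearMap.add_apply, LinearMap.smul_apply, smul_eq_mul, bs,
    brefl h]
  module

theorem R_mul {x e : 𝕍} (h : 𝔅 x e = 0) (c b d c' b' d' : F) :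
    R x e c b d * R x e c' b' d' = R x e (c + c') (b + b') (d + d') := gext fun v => by
  rw [ap_mul, R_app h, R_app h, R_app h]
  simp only [map_add, map_smul, LinearMap.add_apply, LinearMap.smul_apply, smul_eq_mul, bs,
    brefl h, h]
  module

theorem R_zero {x e : 𝕍} (h : 𝔅 x e = 0) : R x e 0 0 0 = 1 := gext fun v => by
  rw [R_app h, ap_one]; simp

theorem R_inv {x e : 𝕍} (h : 𝔅 x e = 0) (c b d : F) : (R x e c b d)⁻¹ = R x e (-c) (-b) (-d) := by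
  rw [inv_eq_iff_mul_eq_one, R_mul h]; simp [R_zero h]

theorem R_T (x e : 𝕍) (c : F) : R x e c 0 0 = stv x c := by
  rw [R, zero_smul, E_zero, stv_zero, mul_one]

theorem R_E (x e : 𝕍) (b d : F) : R x e 0 b d = E e (b • x) d := by rw [R, stv_zero, one_mul]

theorem R_T' (x e : 𝕍) (d : F) : R x e 0 0 d = stv e d := by rw [R_E, zero_smul, E_zero]

theorem R_TT (x e : 𝕍) (c d : F) : R x e c 0 d = stv x c * stv e d := by
  rw [R, zero_smul, E_zero]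

theorem R_shift {x e : 𝕍} (h : 𝔅 x e = 0) (γ c b d : F) :
    R (x + γ • e) e c b d = R x e c (b + c * γ) (d + 2 * b * γ + c * γ ^ 2) := gext fun v => by
  rw [R_app h, R_app (by simp [h, bs])]
  simp only [map_add, map_smul, smul_eq_mul]
  module

theorem R_swap {x e : 𝕍} (h : 𝔅 x e = 0) (c b d : F) : R x e c b d = R e x d b c :=
  gext fun v => by
    rw [R_app h, R_app (brefl h)]
    module

theorem R_conj (g : 𝔾) (x e : 𝕍) (c b d : F) :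
    g * R x e c b d * g⁻¹ = R (ap g x) (ap g e) c b d := by
  rw [R, R, ← map_smul, ← T_conj, ← E_conj]; group

theorem R_smul {x e : 𝕍} (h : 𝔅 x e = 0) (a c b d : F) :
    R (a • x) e c b d = R x e (a ^ 2 * c) (a * b) d := gext fun v => by
  rw [R_app h, R_app (by simp [h])]
  simp only [map_smul, smul_eq_mul]
  module

theorem T_shift {x e : 𝕍} (h : 𝔅 x e = 0) (γ c : F) :
    stv (x + γ • e) c = R x e c (c * γ) (c * γ ^ 2) := by
  rw [← R_T _ e, R_shift h]; simp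

/-! ### linear algebra -/

theorem ex_perp3 {u v w x : 𝕍} (hx : ∀ c d e : F, x ≠ c • u + d • v + e • w) :
    ∃ z, 𝔅 z x = 1 ∧ 𝔅 z u = 0 ∧ 𝔅 z v = 0 ∧ 𝔅 z w = 0 := by
  obtain ⟨φ, h1, h2, h3, h4⟩ := exists_dual_four hx
  obtain ⟨z, rfl⟩ := ((𝔅).toDual spBilin_nondegenerate).surjective φ
  exact ⟨z, h1, h2, h3, h4⟩

theorem ex_perp2 {u v x : 𝕍} (hx : ∀ c d : F, x ≠ c • u + d • v) :
    ∃ z, 𝔅 z x = 1 ∧ 𝔅 z u = 0 ∧ 𝔅 z v = 0 := by
  obtain ⟨z, h1, h2, h3, -⟩ := ex_perp3 (u := u) (v := v) (w := 0) (x := x) (by simpa using hx)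
  exact ⟨z, h1, h2, h3⟩

theorem ex_perp1 {u x : 𝕍} (hx : ∀ c : F, x ≠ c • u) : ∃ z, 𝔅 z x = 1 ∧ 𝔅 z u = 0 := by
  obtain ⟨z, h1, h2, -⟩ := ex_perp2 (u := u) (v := 0) (x := x) (by simpa using hx)
  exact ⟨z, h1, h2⟩

theorem mem_of_perp2 {u v x : 𝕍} (h : ∀ z, 𝔅 z u = 0 → 𝔅 z v = 0 → 𝔅 z x = 0) :
    ∃ c d : F, x = c • u + d • v := by
  by_contra hc
  push Not at hc
  obtain ⟨z, h1, h2, h3⟩ := ex_perp2 hc
  rw [h z h2 h3] at h1
  exact zero_ne_one h1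

theorem mem_of_perp1 {u x : 𝕍} (h : ∀ z, 𝔅 z u = 0 → 𝔅 z x = 0) : ∃ c : F, x = c • u :=
  exists_smul_of_perp h

theorem indep_swap {u v e : 𝕍} (hu : ∀ a : F, u ≠ a • e) (hv : ∀ a b : F, v ≠ a • u + b • e) :
    ∀ a b : F, u ≠ a • v + b • e := by
  intro a b h
  by_cases ha : a = 0
  · exact hu b (by rw [h, ha, zero_smul, zero_add])
  · refine hv a⁻¹ (-(a⁻¹ * b)) ?_
    rw [h, smul_add, smul_smul, inv_mul_cancel₀ ha, smul_smul]; module

theorem ex_two {u v e : 𝕍} (hu : ∀ a : F, u ≠ a • e) (hv : ∀ a b : F, v ≠ a • u + b • e)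
    (s t : F) : ∃ z, 𝔅 z e = 0 ∧ 𝔅 z u = s ∧ 𝔅 z v = t := by
  obtain ⟨z, h1, h2, h3⟩ := ex_perp2 hv
  obtain ⟨z', h1', h2', h3'⟩ := ex_perp2 (indep_swap hu hv)
  exact ⟨s • z' + t • z, by simp [h3, h3'], by simp [h2, h1'], by simp [h1, h2']⟩

theorem frk : finrank F 𝕍 = 2 * Fintype.card l := by simp [two_mul]

theorem ex_not1 (hl : 2 ≤ Fintype.card l) (e : 𝕍) : ∃ x, 𝔅 x e = 0 ∧ ∀ a : F, x ≠ a • e := by
  have h := finrank_le_inf_ker (⊤ : Submodule F 𝕍) ((𝔅).flip e)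
  rw [finrank_top, frk] at h
  obtain ⟨x, hx, h2⟩ := exists_not_one (U := ⊤ ⊓ LinearMap.ker ((𝔅).flip e)) (by omega) e
  exact ⟨x, hx.2, h2⟩

theorem ex_common (hl : 2 ≤ Fintype.card l) (e v : 𝕍) : ∃ x, x ≠ 0 ∧ 𝔅 x e = 0 ∧ 𝔅 x v = 0 := by
  have h := finrank_le_inf_ker (⊤ : Submodule F 𝕍) ((𝔅).flip e)
  have h' := finrank_le_inf_ker (⊤ ⊓ LinearMap.ker ((𝔅).flip e)) ((𝔅).flip v)
  rw [finrank_top, frk] at h
  obtain ⟨x, hx, h2⟩ := exists_ne_zero_of_finrank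
    (W := ⊤ ⊓ LinearMap.ker ((𝔅).flip e) ⊓ LinearMap.ker ((𝔅).flip v)) (by omega)
  exact ⟨x, h2, hx.1.2, hx.2⟩

theorem ex_not2 (hl : 3 ≤ Fintype.card l) (e v : 𝕍) :
    ∃ x, 𝔅 x e = 0 ∧ 𝔅 x v = 0 ∧ ∀ a b : F, x ≠ a • v + b • e := by
  have h := finrank_le_inf_ker (⊤ : Submodule F 𝕍) ((𝔅).flip e)
  have h' := finrank_le_inf_ker (⊤ ⊓ LinearMap.ker ((𝔅).flip e)) ((𝔅).flip v)
  rw [finrank_top, frk] at h
  obtain ⟨x, hx, h2⟩ := exists_not_two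
    (U := ⊤ ⊓ LinearMap.ker ((𝔅).flip e) ⊓ LinearMap.ker ((𝔅).flip v)) (by omega) v e
  exact ⟨x, hx.1.2, hx.2, h2⟩

theorem mem_pair4 (hl : Fintype.card l = 2) {e v w : 𝕍} (he : e ≠ 0) (hv : ∀ a : F, v ≠ a • e)
    (hve : 𝔅 v e = 0) (h1 : 𝔅 w e = 0) (h2 : 𝔅 w v = 0) : ∃ a b : F, w = a • v + b • e := by
  obtain ⟨f, hf⟩ := exists_spB_eq_one he
  obtain ⟨z, hz, hz'⟩ := ex_perp1 hv
  have a1 : LinearMap.ker ((𝔅).flip e) < ⊤ := lt_top_iff_ne_top.2 fun h => by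
    have : f ∈ LinearMap.ker ((𝔅).flip e) := h ▸ Submodule.mem_top
    exact zero_ne_one (this.symm.trans hf)
  have a2 : LinearMap.ker ((𝔅).flip e) ⊓ LinearMap.ker ((𝔅).flip v) < LinearMap.ker ((𝔅).flip e) :=
    lt_of_le_of_ne inf_le_left fun h => by
      have : z ∈ LinearMap.ker ((𝔅).flip e) ⊓ LinearMap.ker ((𝔅).flip v) := h.symm ▸ hz'
      exact zero_ne_one (this.2.symm.trans hz)
  have b1 := Submodule.finrank_lt_finrank_of_lt a1
  have b2 := Submodule.finrank_lt_finrank_of_lt a2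
  rw [finrank_top, frk] at b1
  have c : Submodule.span F {e, v} = LinearMap.ker ((𝔅).flip e) ⊓ LinearMap.ker ((𝔅).flip v) := by
    refine Submodule.eq_of_le_of_finrank_le (Submodule.span_le.2 ?_) ?_
    · rintro _ (rfl | rfl)
      · exact ⟨bs _, brefl hve⟩
      · exact ⟨hve, bs _⟩
    · rw [finrank_pair he hv]; omega
  obtain ⟨a, b, h⟩ := Submodule.mem_span_pair.1 (c ▸ ⟨h1, h2⟩ : w ∈ Submodule.span F {e, v})
  exact ⟨b, a, by rw [← h, add_comm]⟩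

theorem trans1 {v w : 𝕍} (hv : v ≠ 0) (hw : w ≠ 0) : ∃ g : 𝔾, ap g v = w := exists_sp_apply_eq hv hw

theorem li_pair {e v : 𝕍} (he : e ≠ 0) (hv : ∀ a : F, v ≠ a • e) : LinearIndependent F ![e, v] := by
  rw [LinearIndependent.pair_iff' he]
  exact fun a h => hv a h.symm

theorem trans2 {e v e' v' : 𝕍} (he : e ≠ 0) (hv : ∀ a : F, v ≠ a • e) (he' : e' ≠ 0)
    (hv' : ∀ a : F, v' ≠ a • e') (h : 𝔅 v' e' = 𝔅 v e) : ∃ g : 𝔾, ap g e = e' ∧ ap g v = v' :=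
  exists_sp_pair (li_pair he hv) (li_pair he' hv') (by rw [bsw, h, ← bsw])

end Cfsg.Agent.H26.MI.SQ
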