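import Cfsg.Agent.H26.SQ1

/-! Minimal index of the symplectic groups, II: the geometry of full points. -/

set_option autoImplicit false
set_option linter.unusedSectionVars false

namespace Cfsg.Agent.H26.MI.SQ

open Finset Matrix Cfsg.Agent.H10 Module
open scoped Classical

variable {l : Type*} [Fintype l] [DecidableEq l] {F : Type*} [Field F]

local notation "𝔅" => spBilin l F
local notation "𝕍" => (l ⊕ l → F)
local notation "𝔾" => symplecticGroup l F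

variable (H : Subgroup (symplecticGroup l F))

/-- all transvections with centre `e` lie in `H`. -/
def Fl (e : 𝕍) : Prop := ∀ c, stv e c ∈ H

/-- `w` lies in the image of `H ∩ Q_e`. -/
def In (e w : 𝕍) : Prop := 𝔅 w e = 0 ∧ ∃ d, E e w d ∈ H

/-- `H ∩ Q_e` is central. -/
def Rg (e : 𝕍) : Prop := ∀ w, In H e w → ∃ a : F, w = a • e

/-- `g ∈ H Q_e`. -/
def Cv (e : 𝕍) (g : 𝔾) : Prop := ∃ w d, 𝔅 w e = 0 ∧ g * E e w d ∈ H

/-- line type. -/
def LT (e : 𝕍) : Prop := ∃ v, 𝔅 v e = 0 ∧ (∀ a : F, v ≠ a • e) ∧ Fl H v ∧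
  (∀ b : F, E e (b • v) 0 ∈ H) ∧ ∀ w, In H e w → ∃ a b : F, w = a • v + b • e

variable {H}

theorem conj_mem {g k : 𝔾} (hg : g ∈ H) (hk : k ∈ H) : g * k * g⁻¹ ∈ H :=
  H.mul_mem (H.mul_mem hg hk) (H.inv_mem hg)

theorem fl_zero : Fl H 0 := fun c => by rw [stv_zero_left]; exact H.one_mem

theorem Fl.smul {e : 𝕍} (h : Fl H e) (a : F) : Fl H (a • e) := fun c => by
  rw [stv_smul]; exact h _

theorem fl_smul {e : 𝕍} {a : F} (ha : a ≠ 0) : Fl H (a • e) ↔ Fl H e :=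
  ⟨fun h => by simpa [smul_smul, inv_mul_cancel₀ ha] using h.smul a⁻¹, fun h => h.smul a⟩

theorem Fl.map {e : 𝕍} (h : Fl H e) {g : 𝔾} (hg : g ∈ H) : Fl H (ap g e) := fun c => by
  rw [← T_conj]; exact conj_mem hg (h c)

theorem Fl.add_np {x y : 𝕍} (hx : Fl H x) (hy : Fl H y) (h : 𝔅 x y ≠ 0) (a : F) :
    Fl H (x + a • y) := by
  have := hx.map (hy (a / 𝔅 x y))
  rwa [T_app, div_mul_cancel₀ _ h] at this

theorem ne_of_not_fl {e : 𝕍} (h : ¬ Fl H e) : e ≠ 0 := fun h0 => h (h0 ▸ fl_zero)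

theorem Fl.not_line {x e : 𝕍} (hx : Fl H x) (hx0 : x ≠ 0) (he : ¬ Fl H e) (a : F) : x ≠ a • e := by
  rintro rfl
  exact he ((fl_smul (smul_ne_zero_iff.1 hx0).1).1 hx)

theorem fl_of_mul {e : 𝕍} {a : F} (ha : a ≠ 0) (h : ∀ c, stv e (c * a) ∈ H) : Fl H e := fun c => by
  simpa [div_mul_cancel₀ _ ha] using h (c / a)

theorem T_of_E {e w : 𝕍} (hw : 𝔅 w e = 0) {d d' : F} (h : E e w d ∈ H) (h' : E e w d' ∈ H) :
    stv e (d - d') ∈ H := by
  have := H.mul_mem h (H.inv_mem h')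
  rw [E_inv hw, E_mul hw (by simp [hw])] at this
  simpa [E_zero, bs, sub_eq_add_neg] using this

theorem R_add {x e : 𝕍} (h : 𝔅 x e = 0) {c b d c' b' d' : F} (h1 : R x e c b d ∈ H)
    (h2 : R x e c' b' d' ∈ H) : R x e (c + c') (b + b') (d + d') ∈ H := by
  rw [← R_mul h]; exact H.mul_mem h1 h2

theorem R_sub {x e : 𝕍} (h : 𝔅 x e = 0) {c b d c' b' d' : F} (h1 : R x e c b d ∈ H)
    (h2 : R x e c' b' d' ∈ H) : R x e (c - c') (b - b') (d - d') ∈ H := by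
  have := H.mul_mem h1 (H.inv_mem h2)
  rwa [R_inv h, R_mul h, ← sub_eq_add_neg, ← sub_eq_add_neg, ← sub_eq_add_neg] at this

theorem E_of_fl {x e : 𝕍} (h : 𝔅 x e = 0) (hx : Fl H x) {γ : F} (hγ : Fl H (x + γ • e)) (c : F) :
    E e ((c * γ) • x) (c * γ ^ 2) ∈ H := by
  have h1 := hγ c
  have h2 := hx c
  rw [T_shift h] at h1
  rw [← R_T x e] at h2
  simpa [R_E] using R_sub h h1 h2

theorem In.add {e w w' : 𝕍} (h : In H e w) (h' : In H e w') : In H e (w + w') := by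
  obtain ⟨a, d, hd⟩ := h
  obtain ⟨a', d', hd'⟩ := h'
  exact ⟨by simp [a, a'], _, E_mul a a' d d' ▸ H.mul_mem hd hd'⟩

theorem In.map {e w : 𝕍} (h : In H e w) {g : 𝔾} (hg : g ∈ H) : In H (ap g e) (ap g w) := by
  obtain ⟨a, d, hd⟩ := h
  exact ⟨by rw [ap_form, a], d, E_conj g e w d ▸ conj_mem hg hd⟩

theorem In.add_smul {e w : 𝕍} (h : In H e w) (a : F) : In H e (w + a • e) := by
  obtain ⟨h0, d, hd⟩ := h
  exact ⟨by simp [h0, bs], d - 2 * a, by rwa [E_add_smul h0, sub_add_cancel]⟩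

/-- commutators in `H ∩ Q_e`. -/
theorem In.comm {e w w' : 𝕍} (h : In H e w) (h' : In H e w') : stv e (2 * 𝔅 w' w) ∈ H := by
  obtain ⟨a, d, hd⟩ := h
  obtain ⟨a', d', hd'⟩ := h'
  have h1 := E_mul a a' d d' ▸ H.mul_mem hd hd'
  have h2 := E_mul a' a d' d ▸ H.mul_mem hd' hd
  rw [add_comm w' w] at h2
  have := T_of_E (by simp [a, a']) h1 h2
  rwa [bsw w w', show d + d' + 𝔅 w' w - (d' + d + -𝔅 w' w) = 2 * 𝔅 w' w by ring] at this

theorem fl_of_line {x e : 𝕍} (h : 𝔅 x e = 0) {a : F} (ha : a ≠ 0) (ha1 : a ≠ 1)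
    (hx : ∀ γ : F, Fl H (x + γ • e)) : Fl H e := by
  have h0 : Fl H x := by simpa using hx 0
  refine fl_of_mul (sub_ne_zero.2 ha1) fun c => ?_
  have h1 := E_of_fl h h0 (hx a) (c / a)
  have h2 := E_of_fl h h0 (hx 1) c
  rw [div_mul_cancel₀ _ ha] at h1
  rw [mul_one] at h2
  have := T_of_E (by simp [h]) h1 h2
  rwa [show c / a * a ^ 2 - c * 1 ^ 2 = c * (a - 1) by field_simp] at this

theorem Fl.add (hH : ∀ e, ¬ Fl H e → Rg H e ∨ LT H e) {x y : 𝕍} (hx : Fl H x) (hy : Fl H y) :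
    Fl H (x + y) := by
  by_cases hxy : 𝔅 x y = 0
  swap
  · simpa using hx.add_np hy hxy 1
  by_contra he
  have hx0 : x ≠ 0 := by rintro rfl; exact he (by simpa using hy)
  have hxe : 𝔅 x (x + y) = 0 := by simp [bs, hxy]
  have h1 : Fl H (x + (-1 : F) • (x + y)) := by simpa using hy.smul (-1)
  have h2 : In H (x + y) (-x) := ⟨by simp [bs, hxy], _, by simpa using E_of_fl hxe hx h1 1⟩
  rcases hH _ he with hr | ⟨v, hv, hv1, hv2, hv3, hv4⟩
  · obtain ⟨a, ha⟩ := hr _ h2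
    exact hx.not_line hx0 he (-a) (by rw [neg_smul, ← ha, neg_neg])
  obtain ⟨a, b, hab⟩ := hv4 _ h2
  have ha : a ≠ 0 := by
    rintro rfl
    exact hx.not_line hx0 he (-b) (by rw [neg_smul, eq_neg_iff_add_eq_zero, ← neg_eq_iff_add_eq_zero,
      hab, zero_smul, zero_add])
  have key : ∀ γ : F, γ ≠ 0 → ¬ Fl H (v + γ • (x + y)) := fun γ hγ hf =>
    he (fl_of_mul (pow_ne_zero 2 hγ) fun c => by
      simpa using T_of_E (by rw [map_smul, LinearMap.smul_apply, hv, smul_zero])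
        (E_of_fl hv hv2 hf c) (hv3 _))
  have e1 : v + (b / a) • (x + y) = (-a⁻¹) • x := by
    rw [neg_smul, ← smul_neg, hab, smul_add a⁻¹, smul_smul, inv_mul_cancel₀ ha, one_smul, smul_smul,
      div_eq_inv_mul]
  have e2 : v + ((b + 1) / a) • (x + y) = a⁻¹ • y := by
    rw [add_div, add_smul, ← add_assoc, e1, one_div]; module
  by_cases hb : b = 0
  · exact key _ (div_ne_zero (by simp [hb]) ha) (e2 ▸ hy.smul _)
  · exact key _ (div_ne_zero hb ha) (e1 ▸ hx.smul _)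

/-- the subspace of full vectors. -/
def U (hH : ∀ e, ¬ Fl H e → Rg H e ∨ LT H e) : Submodule F 𝕍 where
  carrier := {x | Fl H x}
  zero_mem' := fl_zero
  add_mem' := Fl.add hH
  smul_mem' a _ hx := Fl.smul hx a

theorem agree {e : 𝕍} (he : e ≠ 0) (hr : Rg H e) {g k : 𝔾} (hg : g ∈ H) (hk : k ∈ H)
    (ge : ap g e = e) (ke : ap k e = e)
    (h : ∀ v, 𝔅 v e = 0 → ∃ a : F, ap g v = ap k v + a • e) {v : 𝕍} (hv : 𝔅 v e = 0) :
    ap g v = ap k v := by
  obtain ⟨w, d, hw, e1⟩ := exists_E he (k := k⁻¹ * g) (by rw [ap_mul, ge, inv_fix ke]) fun x hx => by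
    obtain ⟨a, ha⟩ := h x hx
    exact ⟨a, by rw [ap_mul, ha, map_add, map_smul, inv_ap, inv_fix ke]⟩
  obtain ⟨a, rfl⟩ := hr w ⟨hw, d, e1 ▸ H.mul_mem (H.inv_mem hk) hg⟩
  have : ap (k⁻¹ * g) v = v := by rw [e1, E_perp hw d hv]; simp [hv]
  rw [ap_mul] at this
  rw [← ap_inv k (ap g v), this]

theorem TE_app {e x w : 𝕍} (hx : 𝔅 x e = 0) (hw : 𝔅 w e = 0) (c d : F) {v : 𝕍} (hv : 𝔅 v e = 0) :
    ap (stv x c * E e w d) v = v + (c * 𝔅 v x) • x + 𝔅 v w • e := by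
  rw [ap_mul, E_perp hw d hv, map_add, map_smul, T_fix (brefl hx), T_app]

theorem TE_fix {e x w : 𝕍} (hx : 𝔅 x e = 0) (hw : 𝔅 w e = 0) (c d : F) :
    ap (stv x c * E e w d) e = e := by rw [ap_mul, E_fix hw, T_fix (brefl hx)]

/-- the structure of a regular point. -/
structure RP (H : Subgroup 𝔾) (e : 𝕍) : Prop where
  nf : ¬ Fl H e
  rg : Rg H e
  cv : ∀ x c, 𝔅 x e = 0 → Cv H e (stv x c)

theorem RP.perp {e : 𝕍} (s : RP H e) {x w : 𝕍} (hx : 𝔅 x e = 0) (hw : 𝔅 w e = 0) {c d : F}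
    (h : stv x c * E e w d ∈ H) (hxw : 𝔅 x w = 0) : ∃ β d', R x e c β d' ∈ H ∧
      ∀ v, 𝔅 v e = 0 → 𝔅 v w = β * 𝔅 v x := by
  have he := ne_of_not_fl s.nf
  obtain ⟨a, b, rfl⟩ := mem_of_perp2 (u := x) (v := e) (x := w) fun y hyx hye => by
    by_cases hy : ∃ a b : F, y = a • x + b • e
    · obtain ⟨a, b, rfl⟩ := hy
      simp [hxw, brefl hw]
    push Not at hy
    obtain ⟨w', d', hw', h'⟩ := s.cv y 1 hye
    obtain ⟨z, z1, z2, z3⟩ := ex_perp2 hy
    have a1 := TE_fix hx hw c d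
    have a2 := TE_fix hye hw' 1 d'
    have b1 : ∀ v, 𝔅 v e = 0 → ap (stv x c * E e w d * (stv y 1 * E e w' d')) v =
        v + (c * 𝔅 v x) • x + 𝔅 v y • y + (𝔅 v w + 𝔅 v w' + 𝔅 v y * 𝔅 y w) • e := fun v hv => by
      rw [ap_mul, TE_app hye hw' 1 d' hv, map_add, map_add, map_smul, map_smul, a1,
        TE_app hx hw c d hv, TE_app hx hw c d hye, hyx]
      module
    have b2 : ∀ v, 𝔅 v e = 0 → ap (stv y 1 * E e w' d' * (stv x c * E e w d)) v =
        v + (c * 𝔅 v x) • x + 𝔅 v y • y + (𝔅 v w + 𝔅 v w' + c * 𝔅 v x * 𝔅 x w') • e :=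
      fun v hv => by
        rw [ap_mul, TE_app hx hw c d hv, map_add, map_add, map_smul, map_smul, a2,
          TE_app hye hw' 1 d' hv, TE_app hye hw' 1 d' hx, brefl hyx]
        module
    have := agree he s.rg (H.mul_mem h h') (H.mul_mem h' h) (by rw [ap_mul, a2, a1])
      (by rw [ap_mul, a1, a2]) (fun v hv => ⟨𝔅 v y * 𝔅 y w - c * 𝔅 v x * 𝔅 x w', by
        rw [b1 v hv, b2 v hv]; module⟩) z3
    rw [b1 z z3, b2 z z3, add_right_inj, smul_left_inj he, z1, z2] at this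
    linear_combination this
  refine ⟨a, d + 2 * b, ?_, fun v hv => by simp [hv]⟩
  rwa [R, ← E_add_smul (by simp [hx])]

theorem line_even [Finite F] (h2 : (2 : F) = 0) (hH : ∀ e, ¬ Fl H e → Rg H e) {e x : 𝕍}
    (s : RP H e) (hx : 𝔅 x e = 0) (hxe : ∀ a : F, x ≠ a • e) : ∃ γ : F, Fl H (x + γ • e) := by
  have he := ne_of_not_fl s.nf
  haveI : CharP F 2 := (CharP.charP_iff_prime_eq_zero Nat.prime_two).2 h2
  have h1 : ∀ c, ∃ β d, R x e c β d ∈ H := fun c => by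
    by_cases hc : c = 0
    · exact ⟨0, 0, by rw [hc, R_zero hx]; exact H.one_mem⟩
    obtain ⟨w, d, hw, h⟩ := s.cv x c hx
    obtain ⟨z, z1, z2⟩ := ex_perp1 hxe
    have a1 := TE_fix hx hw c d
    have b1 : ∀ v, 𝔅 v e = 0 → ap (stv x c * E e w d * (stv x c * E e w d)) v =
        v + (c * 𝔅 v x * 𝔅 x w) • e := fun v hv => by
      rw [ap_mul, TE_app hx hw c d hv, map_add, map_add, map_smul, map_smul, a1,
        TE_app hx hw c d hv, TE_app hx hw c d hx, bs]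
      linear_combination (norm := module) (c * 𝔅 v x * h2) • x + (𝔅 v w * h2) • e
    have := agree he s.rg (H.mul_mem h h) H.one_mem (by rw [ap_mul, a1, a1]) (ap_one e)
      (fun v hv => ⟨_, by rw [b1 v hv, ap_one]⟩) z2
    rw [b1 z z2, ap_one, add_eq_left, smul_eq_zero, or_iff_left he, z1, mul_one] at this
    obtain ⟨β, d', h', -⟩ := s.perp hx hw h ((mul_eq_zero.1 this).resolve_left hc)
    exact ⟨β, d', h'⟩
  by_contra hc
  push Not at hc
  have h3 : ∀ c β d, c ≠ 0 → R x e c β d ∈ H → β ^ 2 = c * d := fun c β d h0 h => by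
    obtain ⟨γ, hγ⟩ := FiniteField.isSquare_of_char_two (ringChar.eq F 2) (d / c)
    have hγ' : d = c * γ ^ 2 := by rw [pow_two, ← hγ]; field_simp
    have hx' : 𝔅 (x + γ • e) e = 0 := by simp [hx, bs]
    have e1 : R x e c β d = E (x + γ • e) ((β - c * γ) • e) c := by
      rw [← R_E, ← R_swap hx', R_shift hx]
      congr 1
      · ring
      · rw [h2, hγ']; ring
    obtain ⟨a, ha⟩ := hH _ (hc γ) _ ⟨by simp [brefl hx, bs], c, e1 ▸ h⟩
    obtain ⟨z, z1, z2⟩ := ex_perp1 hxe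
    have e2 := congrArg (𝔅 z) ha
    simp only [map_smul, map_add, z1, z2, smul_eq_mul, mul_zero, add_zero, mul_one] at e2
    rw [← e2, zero_smul, smul_eq_zero, or_iff_left he, sub_eq_zero] at ha
    rw [ha, hγ']; ring
  obtain ⟨β, d, h⟩ := h1 1
  have e1 := h3 _ _ _ one_ne_zero h
  refine hc β fun c => ?_
  rw [T_shift hx]
  by_cases c0 : c = 0
  · simp [c0, R_zero hx]
  by_cases c1 : 1 + c = 0
  · have : c = 1 := by linear_combination c1 - h2
    rwa [this, one_mul, one_mul, e1, one_mul]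
  obtain ⟨β', d', h'⟩ := h1 c
  have e2 := h3 _ _ _ c0 h'
  have e3 := h3 _ _ _ c1 (R_add hx h h')
  have e4 : d' = c * β ^ 2 := by
    linear_combination e3 - (1 + c) * e1 - e2 + (d' - β * β') * h2
  have e5 : β' = c * β := by
    have : (β' - c * β) ^ 2 = 0 := by
      linear_combination e2 + c * e4 + (c ^ 2 * β ^ 2 - β' * c * β) * h2
    exact sub_eq_zero.1 (pow_eq_zero_iff two_ne_zero |>.1 this)
  rwa [← e4, ← e5]

end Cfsg.Agent.H26.MI.SQ
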