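import Cfsg.Agent.H26.SQ2

/-! Minimal index of the symplectic groups, III: existence of full points. -/

set_option autoImplicit false
set_option linter.unusedSectionVars false

namespace Cfsg.Agent.H26.MI.SQ

open Finset Matrix Cfsg.Agent.H10 Module
open scoped Classical

variable {l : Type*} [Fintype l] [DecidableEq l] {F : Type*} [Field F]

local notation "𝔅" => spBilin l F
local notation "𝕍" => (l ⊕ l → F)
local notation "𝔾" => symplecticGroup l F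

variable {H : Subgroup (symplecticGroup l F)}

theorem Cv.mul {e : 𝕍} {g k : 𝔾} (hg : Cv H e g) (hk : Cv H e k) (ke : ap k e = e) :
    Cv H e (g * k) := by
  obtain ⟨w, d, hw, h⟩ := hg
  obtain ⟨w', d', hw', h'⟩ := hk
  have h1 : 𝔅 (ap k⁻¹ w) e = 0 := perp_fix (inv_fix ke) hw
  refine ⟨ap k⁻¹ w + w', d + d' + 𝔅 w' (ap k⁻¹ w), by simp [h1, hw'], ?_⟩
  have h2 := E_conj k⁻¹ e w d
  rw [inv_fix ke] at h2
  rw [← E_mul h1 hw', ← h2]
  convert H.mul_mem h h' using 1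
  group

/-- `x` is full modulo the root group of `e`. -/
def W0 (H : Subgroup 𝔾) (e x : 𝕍) : Prop := 𝔅 x e = 0 ∧ ∀ c, ∃ d, R x e c 0 d ∈ H

theorem RP.w0 (h2 : (2 : F) ≠ 0) {e x : 𝕍} (s : RP H e) (hx : 𝔅 x e = 0)
    (hxe : ∀ a : F, x ≠ a • e) : ∃ γ : F, W0 H e (x + γ • e) := by
  have he := ne_of_not_fl s.nf
  obtain ⟨y, hyx, hy⟩ := ex_perp1 hxe
  have hxy : 𝔅 x y = -1 := by rw [bsw, hyx]
  have fx := T_fix (brefl hx) 1
  have fy := T_fix (brefl hy) 1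
  have n1 : ap (stv x 1 * stv y 1 * stv x 1) e = e := by rw [ap_mul, ap_mul, fx, fy, fx]
  have c1 : Cv H e (stv x 1 * stv y 1 * stv x 1) :=
    ((s.cv x 1 hx).mul (s.cv y 1 hy) fy).mul (s.cv x 1 hx) fx
  obtain ⟨u, d₀, hu, hk⟩ := c1.mul c1 n1
  set k := stv x 1 * stv y 1 * stv x 1 * (stv x 1 * stv y 1 * stv x 1) * E e u d₀ with hkd
  have k1 : ∀ v, 𝔅 v e = 0 →
      ap k v = v + (2 * 𝔅 v y) • x - (2 * 𝔅 v x) • y + 𝔅 v u • e := fun v hv => by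
    rw [hkd, ap_mul, E_perp hu _ hv, map_add, map_smul, ap_mul _ _ e, n1, n1]
    simp only [ap_mul, T_app, map_add, map_smul, LinearMap.add_apply, LinearMap.smul_apply,
      smul_eq_mul, bs, hxy, hyx]
    module
  have ke : ap k e = e := by rw [k1 e (bs e), brefl hx, brefl hy, brefl hu]; simp
  refine ⟨-(𝔅 x u / 2), by simp [hx, bs], fun c => ?_⟩
  obtain ⟨w, d, hw, h⟩ := s.cv x c hx
  have a1 := TE_fix hx hw c d
  have b1 : ∀ v, 𝔅 v e = 0 → ap (k * (stv x c * E e w d)) v =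
      v + (2 * 𝔅 v y - c * 𝔅 v x) • x - (2 * 𝔅 v x) • y +
        (𝔅 v u + 𝔅 v w + c * 𝔅 v x * 𝔅 x u) • e := fun v hv => by
    rw [ap_mul, TE_app hx hw c d hv, map_add, map_add, map_smul, map_smul, ke, k1 v hv, k1 x hx,
      hxy, bs]
    module
  have b2 : ∀ v, 𝔅 v e = 0 → ap (stv x c * E e w d * k) v =
      v + (2 * 𝔅 v y - c * 𝔅 v x) • x - (2 * 𝔅 v x) • y +
        (𝔅 v u + 𝔅 v w + (2 * 𝔅 v y * 𝔅 x w - 2 * 𝔅 v x * 𝔅 y w)) • e := fun v hv => by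
    rw [ap_mul, k1 v hv, map_add, map_sub, map_add, map_smul, map_smul, map_smul, a1,
      TE_app hx hw c d hv, TE_app hx hw c d hx, TE_app hx hw c d hy, hyx, bs]
    module
  have key : ∀ v, 𝔅 v e = 0 →
      c * 𝔅 v x * 𝔅 x u = 2 * 𝔅 v y * 𝔅 x w - 2 * 𝔅 v x * 𝔅 y w := fun v hv => by
    have := agree he s.rg (H.mul_mem hk h) (H.mul_mem h hk) (by rw [ap_mul, a1, ke])
      (by rw [ap_mul, ke, a1]) (fun v hv => ⟨c * 𝔅 v x * 𝔅 x u -
        (2 * 𝔅 v y * 𝔅 x w - 2 * 𝔅 v x * 𝔅 y w), by rw [b1 v hv, b2 v hv]; module⟩) hv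
    rwa [b1 v hv, b2 v hv, add_right_inj, smul_left_inj he, add_right_inj] at this
  have e1 := key x hx
  have e2 := key y hy
  rw [bs, hxy] at e1
  rw [bs, hyx] at e2
  have e3 : 𝔅 x w = 0 := (mul_eq_zero.1 (by linear_combination e1)).resolve_left h2
  obtain ⟨β, d', h', hβ⟩ := s.perp hx hw h e3
  have e4 := hβ y hy
  rw [hyx] at e4
  refine ⟨d' - c * (𝔅 x u / 2) ^ 2, ?_⟩
  rw [R_shift hx]
  convert h' using 2
  · field_simp
    linear_combination -e2 + 2 * e4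
  · ring

theorem W0.smul {e x : 𝕍} (h : W0 H e x) (a : F) : W0 H e (a • x) :=
  ⟨by simp [h.1], fun c => by
    obtain ⟨d, hd⟩ := h.2 (a ^ 2 * c)
    exact ⟨d, by rwa [R_smul h.1, mul_zero]⟩⟩

theorem W0.mv {e x y : 𝕍} (hy : W0 H e y) (hx : 𝔅 x e = 0) (hxy : 𝔅 x y ≠ 0) {c d : F}
    (h : R x e c 0 d ∈ H) (a : F) : R (x + a • y) e c 0 d ∈ H := by
  obtain ⟨d', h'⟩ := hy.2 (a / 𝔅 x y)
  have := conj_mem h' h
  rw [R_conj, R_app hy.1, R_app hy.1, hx, bs, brefl hy.1] at this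
  simpa [div_mul_cancel₀ _ hxy] using this

theorem W0.add_np {e x y : 𝕍} (hx : W0 H e x) (hy : W0 H e y) (hxy : 𝔅 x y ≠ 0) (a : F) :
    W0 H e (x + a • y) :=
  ⟨by simp [hx.1, hy.1], fun c => (hx.2 c).imp fun _ h => hy.mv hx.1 hxy h a⟩

theorem W0.cj {e x y : 𝕍} (hx : W0 H e x) (hy : W0 H e y) (hxy : 𝔅 x y ≠ 0) {c d : F}
    (h : R x e c 0 d ∈ H) : R y e c 0 d ∈ H := by
  have h1 := hy.add_np hx (fun h => hxy (brefl h)) (-1)
  simpa using h1.mv hx.1 (by simpa [bs] using hxy) h 1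

theorem RP.w0' (h2 : (2 : F) ≠ 0) {e x z : 𝕍} (s : RP H e) (hx : 𝔅 x e = 0) (hz : 𝔅 z e = 0)
    (hzx : 𝔅 z x = 1) : ∃ y, W0 H e y ∧ ∀ v, 𝔅 v e = 0 → 𝔅 y v = 𝔅 z v := by
  obtain ⟨γ, h⟩ := s.w0 h2 hz fun a h => by
    rw [h, map_smul, LinearMap.smul_apply, brefl hx, smul_zero] at hzx
    exact zero_ne_one hzx
  exact ⟨_, h, fun v hv => by simp [brefl hv]⟩

theorem RP.fl_tor (h2 : (2 : F) ≠ 0) {a : F} (ha : a ≠ 0) (ha1 : a ^ 2 ≠ 1) {e x : 𝕍} (s : RP H e)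
    (hx : W0 H e x) (hxe : ∀ a : F, x ≠ a • e) : Fl H x := by
  obtain ⟨z, z1, z2⟩ := ex_perp1 hxe
  obtain ⟨y, hy, hy'⟩ := s.w0' h2 hx.1 z2 z1
  have e1 : 𝔅 y x = 1 := by rw [hy' x hx.1, z1]
  refine fl_of_mul (sub_ne_zero.2 ha1) fun c => ?_
  obtain ⟨d, hd⟩ := hx.2 c
  have h1 := hy.cj (hx.smul a) (by simpa [e1] using ha)
    (hx.cj hy (by rw [bsw, e1]; simp) hd)
  rw [R_smul hx.1] at h1
  have := R_sub hx.1 h1 hd
  rwa [mul_zero, sub_zero, sub_self, R_T, show a ^ 2 * c - c = c * (a ^ 2 - 1) by ring] at this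

theorem RP.pair (h2 : (2 : F) ≠ 0) {e x y : 𝕍} (s : RP H e) (hx : W0 H e x) (hy : W0 H e y)
    (hxe : ∀ a : F, x ≠ a • e) (hye : ∀ a b : F, y ≠ a • x + b • e) :
    (∀ c d, R x e c 0 d ∈ H → R y e c 0 d ∈ H) ∧ (𝔅 x y = 0 → W0 H e (x + y)) := by
  obtain ⟨z, z1, z2, z3⟩ := ex_two hxe hye 1 1
  obtain ⟨u, hu, hu'⟩ := s.w0' h2 hx.1 z1 z2
  have e1 : 𝔅 u x = 1 := by rw [hu' x hx.1, z2]
  have e2 : 𝔅 u y = 1 := by rw [hu' y hy.1, z3]
  have e1' : 𝔅 x u = -1 := by rw [bsw, e1]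
  have e2' : 𝔅 y u = -1 := by rw [bsw, e2]
  refine ⟨fun c d h => hu.cj hy (by simp [e2]) (hx.cj hu (by simp [e1']) h), fun hxy => ?_⟩
  have := (hx.add_np hu (by simp [e1']) 1).add_np (hy.add_np hu (by simp [e2']) (-1))
    (by simpa [hxy, e1', e2, bs, one_add_one_eq_two] using h2) 1
  rwa [show x + (1 : F) • u + (1 : F) • (y + (-1 : F) • u) = x + y by module] at this

theorem RP.fl_three (h2 : (2 : F) ≠ 0) (hl : 3 ≤ Fintype.card l) {e x : 𝕍} (s : RP H e)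
    (hx : W0 H e x) (hxe : ∀ a : F, x ≠ a • e) : Fl H x := by
  obtain ⟨y₀, y1, y2, y3⟩ := ex_not2 hl e x
  obtain ⟨γ, hy⟩ := s.w0 h2 y1 fun a h => y3 0 a (by rw [h, zero_smul, zero_add])
  set y := y₀ + γ • e with hyd
  have hxy : 𝔅 x y = 0 := by simp [hyd, brefl y2, hx.1]
  have ind : ∀ t : F, t ≠ 0 → ∀ r a b : F, r • x + t • y ≠ a • x + b • e := fun t ht r a b h =>
    y3 ((a - r) / t) (b / t - γ) (by
      rw [← smul_right_inj ht, smul_add, smul_smul, smul_smul, mul_div_cancel₀ _ ht, mul_sub,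
        mul_div_cancel₀ _ ht]
      linear_combination (norm := module) h)
  have i1 : ∀ a b : F, y ≠ a • x + b • e := by simpa using ind 1 one_ne_zero 0
  have i2 : ∀ a b : F, -y ≠ a • x + b • e := by simpa using ind (-1) (by simp) 0
  have i3 : ∀ a b : F, x + y ≠ a • x + b • e := by simpa using ind 1 one_ne_zero 1
  have i4 : ∀ a b : F, x + -y ≠ a • x + b • e := by simpa using ind (-1) (by simp) 1
  have hy' : W0 H e (-y) := by simpa using hy.smul (-1)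
  have w1 := (s.pair h2 hx hy hxe i1).2 hxy
  have w2 := (s.pair h2 hx hy' hxe i2).2 (by simp [hxy])
  refine fl_of_mul h2 fun c => ?_
  obtain ⟨d, hd⟩ := hx.2 c
  have r1 := (s.pair h2 hx hy hxe i1).1 c d hd
  have r2 := (s.pair h2 hx w1 hxe i3).1 c d hd
  have r3 := (s.pair h2 hx w2 hxe i4).1 c d hd
  have e1 : R x e c 0 d * R x e c 0 d * (R y e c 0 d * R y e c 0 d) =
      R (x + y) e c 0 d * R (x + -y) e c 0 d * stv e (d + d) := gext fun v => by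
    simp only [ap_mul, R_app hx.1, R_app hy.1, R_app w1.1, R_app w2.1, T_app, map_add, map_smul,
      map_neg, LinearMap.add_apply, LinearMap.smul_apply, LinearMap.neg_apply, smul_eq_mul, bs,
      hxy, brefl hxy, hx.1, hy.1, brefl hx.1, brefl hy.1]
    module
  have e2 : R x e 0 0 (d + d) ∈ H := by
    rw [R_T']
    exact (H.mul_mem_cancel_left (H.mul_mem r2 r3)).1
      (e1 ▸ H.mul_mem (H.mul_mem hd hd) (H.mul_mem r1 r1))
  have := R_sub hx.1 (R_add hx.1 hd hd) e2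
  rwa [sub_self, add_zero, sub_self, sub_zero, R_T, ← mul_two] at this

theorem line_odd (h2 : (2 : F) ≠ 0) (h : 3 ≤ Fintype.card l ∨ ∃ a : F, a ≠ 0 ∧ a ^ 2 ≠ 1)
    {e x : 𝕍} (s : RP H e) (hx : 𝔅 x e = 0) (hxe : ∀ a : F, x ≠ a • e) :
    ∃ γ : F, Fl H (x + γ • e) := by
  obtain ⟨γ, hγ⟩ := s.w0 h2 hx hxe
  have h1 : ∀ a : F, x + γ • e ≠ a • e := fun a h => hxe (a - γ) (by rw [sub_smul, ← h]; simp)
  rcases h with h | ⟨a, ha, ha1⟩
  · exact ⟨γ, s.fl_three h2 h hγ h1⟩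
  · exact ⟨γ, s.fl_tor h2 ha ha1 hγ h1⟩

/-! ### the line type -/

theorem lt_of {e v : 𝕍} (hv : 𝔅 v e = 0) (hve : ∀ a : F, v ≠ a • e) (h1 : ∀ b : F, In H e (b • v))
    (h2 : ∀ w, In H e w → ∃ a b : F, w = a • v + b • e) (h3 : ∀ c, ∃ β d, R v e c β d ∈ H)
    {a β : F} (ha1 : a ^ 2 ≠ 1) {k : 𝔾} (hk : k ∈ H) (ke : ap k e = e)
    (kv : ap k v = a • v + β • e) : LT H e := by
  have ha : a - 1 ≠ 0 := fun h => ha1 (by rw [sub_eq_zero.1 h, one_pow])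
  set γ := β / (a - 1)
  have hγ : β = γ * (a - 1) := (div_mul_cancel₀ _ ha).symm
  have hv' : 𝔅 (v + γ • e) e = 0 := by simp [hv, bs]
  have kv' : ap k (v + γ • e) = a • (v + γ • e) := by
    rw [map_add, map_smul, ke, kv, hγ]; module
  have all : ∀ c b, R (v + γ • e) e c b 0 ∈ H := fun c b => by
    obtain ⟨b₀, d₀, r₀⟩ := h3 (c / (a ^ 2 - 1))
    obtain ⟨-, d₁, r₁⟩ := h1 (b / (a - 1) + c / (a ^ 2 - 1) * γ - b₀)
    rw [← R_E] at r₁
    have r := R_add hv r₀ r₁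
    have r' : R (v + γ • e) e (c / (a ^ 2 - 1)) (b / (a - 1))
        (d₀ + d₁ - 2 * (b / (a - 1)) * γ - c / (a ^ 2 - 1) * γ ^ 2) ∈ H := by
      rw [R_shift hv]; convert r using 2 <;> ring
    have r'' := conj_mem hk r'
    rw [R_conj, kv', ke, R_smul hv'] at r''
    have := R_sub hv' r'' r'
    have ha2 := sub_ne_zero.2 ha1
    convert this using 2
    · field_simp
    · field_simp
    · ring
  refine ⟨v + γ • e, hv', fun c h => hve (c - γ) (by rw [sub_smul, ← h]; simp),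
    fun c => R_T _ e c ▸ all c 0, fun b => R_E _ e b 0 ▸ all 0 b, fun w hw => ?_⟩
  obtain ⟨c, b, rfl⟩ := h2 w hw
  exact ⟨c, b - c * γ, by module⟩

theorem cv_line (hl : Fintype.card l = 2) {e v w : 𝕍} (he : e ≠ 0) (hv : 𝔅 v e = 0)
    (hve : ∀ a : F, v ≠ a • e) (hw : 𝔅 w e = 0) (hwv : 𝔅 w v = 0) {c d : F}
    (h : stv v c * E e w d ∈ H) : ∃ β d, R v e c β d ∈ H := by
  obtain ⟨a, b, rfl⟩ := mem_pair4 hl he hve hv hw hwv
  exact ⟨a, d + 2 * b, by rwa [R, ← E_add_smul (by simp [hv])]⟩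

theorem cv_odd (h2 : (2 : F) ≠ 0) (hl : Fintype.card l = 2) {e v : 𝕍} (he : ¬ Fl H e)
    (hv : 𝔅 v e = 0) (hve : ∀ a : F, v ≠ a • e) (h1 : ∀ b : F, In H e (b • v)) {c : F}
    (h : Cv H e (stv v c)) : ∃ β d, R v e c β d ∈ H := by
  obtain ⟨w, d, hw, h⟩ := h
  refine cv_line hl (ne_of_not_fl he) hv hve hw ?_ h
  by_contra hc
  have hc' : 𝔅 v w ≠ 0 := fun h => hc (brefl h)
  refine he (fl_of_mul (mul_ne_zero h2 hc') fun b => ?_)
  obtain ⟨h0, d', r⟩ := h1 b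
  have r' := conj_mem h r
  rw [E_conj, TE_fix hv hw, map_smul, TE_app hv hw c d hv, bs, mul_zero, zero_smul, add_zero,
    smul_add, smul_smul, E_add_smul h0] at r'
  have := T_of_E h0 r' r
  rwa [show d' + 2 * (b * 𝔅 v w) - d' = b * (2 * 𝔅 v w) by ring] at this

theorem cv_even (h2 : (2 : F) = 0) (hl : Fintype.card l = 2) {e v : 𝕍} (he : e ≠ 0)
    (hC : ∀ d, stv e d ∈ H → d = 0) (hv : 𝔅 v e = 0) (hve : ∀ a : F, v ≠ a • e)
    (h1 : ∀ b : F, In H e (b • v)) {a β : F} (ha : a ≠ 1) {k : 𝔾} (hk : k ∈ H) (ke : ap k e = e)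
    (kv : ap k v = a • v + β • e) {c : F} (h : Cv H e (stv v c)) : ∃ β d, R v e c β d ∈ H := by
  by_cases hc : c = 0
  · exact ⟨0, 0, by rw [hc, R_zero hv]; exact H.one_mem⟩
  have h0 : ∀ b : F, E e (b • v) 0 ∈ H := fun b => by
    obtain ⟨h0, d, r⟩ := h1 (b / (a - 1))
    have r' := conj_mem hk r
    rw [E_conj, ke, map_smul, kv, smul_add, smul_smul, smul_smul, E_add_smul (by simp [hv]), h2,
      zero_mul, add_zero, ← R_E] at r'
    rw [← R_E] at r ⊢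
    have ha' := sub_ne_zero.2 ha
    convert R_sub hv r' r using 2
    · ring
    · field_simp
    · ring
  obtain ⟨w, d, hw, h⟩ := h
  refine cv_line hl he hv hve hw ?_ h
  have e1 : stv v c * E e w d * (stv v c * E e w d) =
      E e ((c * 𝔅 w v) • v) (c * 𝔅 w v ^ 2) := gext fun x => by
    simp only [ap_mul, E_app hw, E_app (show 𝔅 ((c * 𝔅 w v) • v) e = 0 by simp [hv]), T_app,
      map_add, map_smul, LinearMap.add_apply, LinearMap.smul_apply, smul_eq_mul, bs, hw, hv,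
      brefl hw, brefl hv, bsw v w]
    linear_combination (norm := module) (𝔅 x e * h2) • w +
      ((c * 𝔅 x v + c * 𝔅 x e * 𝔅 w v) * h2) • v +
      ((𝔅 x w + d * 𝔅 x e - c * 𝔅 w v * 𝔅 x v - c * 𝔅 w v ^ 2 * 𝔅 x e) * h2) • e
  have := hC _ (T_of_E (by simp [hv]) (e1 ▸ H.mul_mem h h) (h0 _))
  simpa [hc] using this

end Cfsg.Agent.H26.MI.SQ
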