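import Cfsg.Agent.H26.SQ3

/-! Minimal index of the symplectic groups, IV: characteristic two, and fixed subspaces. -/

set_option autoImplicit false
set_option linter.unusedSectionVars false

namespace Cfsg.Agent.H26.MI.SQ

open Finset Matrix Cfsg.Agent.H10 Module
open scoped Classical

variable {l : Type*} [Fintype l] [DecidableEq l] {F : Type*} [Field F]

local notation "𝔅" => spBilin l F
local notation "𝕍" => (l ⊕ l → F)
local notation "𝔾" => symplecticGroup l F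

variable {H : Subgroup (symplecticGroup l F)}

/-- `H ∩ Q_e` induces a quadratic form on the line of `x`. -/
def PP (H : Subgroup 𝔾) (e x : 𝕍) (c : F) : Prop := ∀ s : F, E e ((c * s) • x) (c * s ^ 2) ∈ H

theorem getP (h2 : (2 : F) = 0) {e x w : 𝕍} (hx : 𝔅 x e = 0) (hw : In H e w) {k : 𝔾} (hk : k ∈ H)
    (ke : ap k e = e) {c a : F} (kw : ap k w = w + (c * 𝔅 w x) • x + a • e) :
    E e ((c * 𝔅 w x) • x) (c * 𝔅 w x ^ 2) ∈ H := by
  obtain ⟨h0, d, r⟩ := hw
  have h1 : 𝔅 (w + (c * 𝔅 w x) • x) e = 0 := by simp [h0, hx]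
  have r' := conj_mem hk r
  rw [E_conj, ke, kw, E_add_smul h1] at r'
  have := H.mul_mem r r'
  rw [E_mul h0 h1] at this
  convert this using 2
  · linear_combination (norm := module) (-h2) • w
  · simp only [map_add, map_smul, LinearMap.add_apply, LinearMap.smul_apply, smul_eq_mul, bs,
      bsw x w]
    linear_combination (c * 𝔅 w x ^ 2 - d - a) * h2

theorem fl_of_PP [Finite F] (h2 : (2 : F) = 0) {e x : 𝕍} (hx : 𝔅 x e = 0) {c c' : F} (hc : c ≠ 0)
    (hc' : c' ≠ 0) (hcc : c ≠ c') (h : PP H e x c) (h' : PP H e x c') : Fl H e := by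
  haveI : CharP F 2 := (CharP.charP_iff_prime_eq_zero Nat.prime_two).2 h2
  have hne : c⁻¹ - c'⁻¹ ≠ 0 := sub_ne_zero.2 fun h => hcc (inv_injective h)
  refine fl_of_mul hne fun t => ?_
  obtain ⟨b, rfl⟩ := FiniteField.isSquare_of_char_two (ringChar.eq F 2) t
  have h1 := h (b / c)
  have h3 := h' (b / c')
  rw [mul_div_cancel₀ _ hc] at h1
  rw [mul_div_cancel₀ _ hc'] at h3
  convert T_of_E (by simp [hx]) h1 h3 using 2
  field_simp

theorem small_false [Finite F] (h2 : (2 : F) = 0) (hl : 3 ≤ Fintype.card l) {a : F} (ha : a ≠ 0)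
    (ha1 : a ≠ 1) {e v : 𝕍} (hI : ∀ w, 𝔅 w e = 0 → 𝔅 w v = 0 → In H e w)
    (hC : ∀ x c, 𝔅 x e = 0 → 𝔅 x v = 0 → Cv H e (stv x c)) : Fl H e := by
  obtain ⟨x, x1, x2, x3⟩ := ex_not2 hl e v
  obtain ⟨z, z1, z2, z3⟩ := ex_perp2 x3
  have key : ∀ c, PP H e x c := fun c s => by
    obtain ⟨w, d, hw, h⟩ := hC x c x1 x2
    have h0 : 𝔅 (s • z) e = 0 := by simp [z3]
    have := getP h2 x1 (hI (s • z) h0 (by simp [z2])) h (TE_fix x1 hw c d) (TE_app x1 hw c d h0)
    simpa [z1] using this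
  exact fl_of_PP h2 x1 ha one_ne_zero ha1 (key a) (key 1)

theorem PP_of (h2 : (2 : F) = 0) {e x : 𝕍} (hx : 𝔅 x e = 0) (hI : ∀ w, 𝔅 w e = 0 → In H e w)
    {k : 𝔾} (hk : k ∈ H) (ke : ap k e = e) {c : F} {z : 𝕍} (z1 : 𝔅 z x = 1) (z2 : 𝔅 z e = 0)
    {a : F} (kz : ap k z = z + c • x + a • e) : PP H e x c := fun s => by
  have h0 : 𝔅 (s • z) e = 0 := by simp [z2]
  have := getP h2 hx (hI _ h0) hk ke (c := c) (a := s * a) (by
    rw [map_smul, kz]; simp only [map_smul, LinearMap.smul_apply, z1, smul_eq_mul]; module)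
  simpa [z1] using this

theorem stW_false [Finite F] (h2 : (2 : F) = 0) (hl : 2 ≤ Fintype.card l) {a : F} (ha : a ≠ 0)
    (ha1 : a ≠ 1) (hI : ∀ e, ¬ Fl H e → ∀ w, 𝔅 w e = 0 → In H e w) (x : 𝕍) : Fl H x := by
  by_contra hx
  have nf : ∀ y, 𝔅 y x = 0 → (∀ c : F, y ≠ c • x) → ¬ Fl H y := fun y hy hyx hf =>
    hx (fl_of_line hy ha ha1 fun γ => by
      obtain ⟨z, z1, z2⟩ := ex_perp1 hyx
      obtain ⟨h0, d, r⟩ := hI x hx ((-γ) • z) (by simp [z2])
      have := hf.map r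
      rwa [E_perp h0 d hy, map_smul, bsw y z, z1, smul_eq_mul, mul_neg, mul_one, neg_neg] at this)
  have key : ∀ e y : 𝕍, ¬ Fl H e → 𝔅 y e = 0 → (∀ c : F, y ≠ c • e) → ∀ b δ : F,
      E y (b • e) δ ∈ H → PP H e y δ := fun e y he hy hye b δ h => by
    obtain ⟨z, z1, z2⟩ := ex_perp1 hye
    have h0 : 𝔅 (b • e) y = 0 := by simp [brefl hy]
    refine PP_of h2 hy (hI e he) h (by rw [E_perp h0 _ (brefl hy)]; simp [bs]) z1 z2 (a := b) ?_
    rw [E_app h0, z1]; simp only [map_smul, z2, smul_eq_mul]; module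
  have zero : ∀ e, 𝔅 e x = 0 → (∀ c : F, e ≠ c • x) → ∀ δ, E x e δ ∈ H → δ = 0 :=
    fun e he hex δ h => by
      by_contra hδ
      have hxe : ∀ c : F, x ≠ c • e := fun c hc => by
        by_cases c0 : c = 0
        · exact ne_of_not_fl hx (by rw [hc, c0, zero_smul])
        · exact hex c⁻¹ (by rw [hc, smul_smul, inv_mul_cancel₀ c0, one_smul])
      have p := key e x (nf e he hex) (brefl he) hxe 1 δ (by rwa [one_smul])
      refine hx (fl_of_PP h2 he (mul_ne_zero hδ (pow_ne_zero 2 ha)) (mul_ne_zero hδ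
        (pow_ne_zero 2 one_ne_zero)) (fun h => ha1 ?_) (key x e hx he hex _ _ (p a))
        (key x e hx he hex _ _ (p 1)))
      have h3 : (a - 1) ^ 2 = 0 := by
        linear_combination mul_left_cancel₀ hδ h + (1 - a) * h2
      exact sub_eq_zero.1 (pow_eq_zero_iff two_ne_zero |>.1 h3)
  obtain ⟨w, w1, w2⟩ := ex_not1 hl x
  obtain ⟨z, z1, z2⟩ := ex_perp1 w2
  obtain ⟨-, d, r⟩ := hI x hx w w1
  obtain ⟨-, d', r'⟩ := hI x hx z z2
  have nz : ∀ t c : F, t • w + z ≠ c • x := fun t c h => by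
    have := congrArg (fun u => 𝔅 u w) h
    simp [bs, z1, brefl w1] at this
  have e1 := zero w w1 w2 d r
  have e2 := zero z z2 (by simpa using nz 0) d' r'
  have e3 := zero (w + z) (by simp [w1, z2]) (by simpa using nz 1) _
    (E_mul w1 z2 d d' ▸ H.mul_mem r r')
  rw [e1, e2, z1] at e3
  simp at e3

/-! ### the fixed point -/

theorem pt_of_hyp {U : Submodule F 𝕍} {e : 𝕍} (he : e ∉ U)
    (h : ∀ z, ∃ u ∈ U, ∃ a : F, z = u + a • e) : ∃ v, v ≠ 0 ∧ (∀ x ∈ U, 𝔅 v x = 0) ∧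
      ∀ v', (∀ x ∈ U, 𝔅 v' x = 0) → ∃ a : F, v' = a • v := by
  obtain ⟨φ, h1, h2⟩ := U.exists_dual_map_eq_bot_of_notMem he inferInstance
  obtain ⟨v, rfl⟩ := ((𝔅).toDual spBilin_nondegenerate).surjective φ
  have h1' : 𝔅 v e ≠ 0 := h1
  have h3 : ∀ x ∈ U, 𝔅 v x = 0 := fun x hx => by
    have : _ ∈ U.map ((𝔅).toDual spBilin_nondegenerate v) := ⟨x, hx, rfl⟩
    rw [h2] at this
    exact this
  refine ⟨v, fun h0 => h1' (by simp [h0]), h3, fun v' hv' => mem_of_perp1 fun z hz => ?_⟩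
  obtain ⟨u, hu, a, rfl⟩ := h z
  have e1 := brefl hz
  rw [map_add, map_smul, h3 u hu, zero_add, smul_eq_mul, mul_eq_zero, or_iff_left h1'] at e1
  rw [e1, zero_smul, add_zero]
  exact brefl (hv' u hu)

theorem eg_main (hl : 2 ≤ Fintype.card l) (hH : ∀ e, ¬ Fl H e → Rg H e ∨ LT H e)
    (line : ∀ e x, ¬ Fl H e → 𝔅 x e = 0 → (∀ a : F, x ≠ a • e) → ∃ γ : F, Fl H (x + γ • e))
    {e : 𝕍} (he : ¬ Fl H e) : ∃ e, ¬ Fl H e ∧ ∀ z, ∃ u ∈ U hH, ∃ a : F, z = u + a • e := by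
  have h1 : ∃ e u, ¬ Fl H e ∧ Fl H u ∧ 𝔅 u e ≠ 0 := by
    by_contra hc
    push Not at hc
    obtain ⟨x, x1, x2⟩ := ex_not1 hl e
    obtain ⟨γ, hγ⟩ := line e x he x1 x2
    obtain ⟨y, y1⟩ := exists_spB_eq_one (v := x + γ • e) fun h => x2 (-γ) (by
      rw [neg_smul, eq_neg_iff_add_eq_zero, h])
    have hy : Fl H y := by
      by_contra hy
      exact zero_ne_one ((brefl (hc y _ hy hγ)).symm.trans y1)
    have hey : ¬ Fl H (e + y) := fun h => he (by
      have := (U hH).sub_mem (show e + y ∈ U hH from h) (show y ∈ U hH from hy)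
      rwa [add_sub_cancel_right] at this)
    have := brefl (hc _ _ hey hγ)
    rw [map_add (𝔅) e y, LinearMap.add_apply, brefl (hc _ _ he hγ), y1, zero_add] at this
    exact one_ne_zero this
  obtain ⟨e, u, he, hu, hue⟩ := h1
  refine ⟨e, he, fun z => ?_⟩
  have h0 : 𝔅 (z - (𝔅 z e / 𝔅 u e) • u) e = 0 := by simp [div_mul_cancel₀ _ hue]
  by_cases hz : ∃ a : F, z - (𝔅 z e / 𝔅 u e) • u = a • e
  · obtain ⟨a, ha⟩ := hz
    exact ⟨_, (U hH).smul_mem (𝔅 z e / 𝔅 u e) hu, a, by rw [← ha]; simp⟩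
  push Not at hz
  obtain ⟨γ, hγ⟩ := line e _ he h0 hz
  exact ⟨_, (U hH).add_mem hγ ((U hH).smul_mem (𝔅 z e / 𝔅 u e) hu), -γ, by module⟩

/-! ### equivariance -/

section Act

variable {A : Type*} [MulAction (symplecticGroup l F) A]

open MulAction

theorem st_conj {g k : 𝔾} {ω : A} : g * k * g⁻¹ ∈ stabilizer 𝔾 (g • ω) ↔ k ∈ stabilizer 𝔾 ω := by
  simp [mul_smul]

theorem fl_act {g : 𝔾} {ω : A} {e : 𝕍} :
    Fl (stabilizer 𝔾 (g • ω)) (ap g e) ↔ Fl (stabilizer 𝔾 ω) e :=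
  forall_congr' fun c => by rw [← T_conj, st_conj]

theorem in_act {g : 𝔾} {ω : A} {e w : 𝕍} :
    In (stabilizer 𝔾 (g • ω)) (ap g e) (ap g w) ↔ In (stabilizer 𝔾 ω) e w :=
  and_congr (by rw [ap_form]) (exists_congr fun d => by rw [← E_conj, st_conj])

variable [Fintype F] [Fintype A]

theorem card_V : Fintype.card 𝕍 = Fintype.card F ^ (2 * Fintype.card l) := by simp [two_mul]

theorem pt_bound [IsPretransitive 𝔾 A] (Rel : A → 𝕍 → Prop)
    (hR : ∀ (g : 𝔾) ω v, Rel ω v → Rel (g • ω) (ap g v)) {ω₀ : A} {v₀ : 𝕍} (h0 : v₀ ≠ 0)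
    (h1 : Rel ω₀ v₀) (h2 : ∀ v, Rel ω₀ v → ∃ a : F, v = a • v₀) :
    Fintype.card F ^ (2 * Fintype.card l) - 1 ≤ Fintype.card A * (Fintype.card F - 1) := by
  have := card_mul_le_card_mul (s := univ.erase (0 : 𝕍)) (t := (univ : Finset A))
    (fun v ω => Rel ω v) (m := 1) (n := Fintype.card F - 1) (fun v hv => by
      obtain ⟨g, rfl⟩ := trans1 h0 (ne_of_mem_erase hv)
      exact card_pos.2 ⟨g • ω₀, by simpa using hR g _ _ h1⟩) (fun ω _ => by
      obtain ⟨g, rfl⟩ := exists_smul_eq 𝔾 ω₀ ω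
      rw [← card_univ, ← card_erase_of_mem (mem_univ (0 : F))]
      refine (card_le_card fun v hv => ?_).trans (card_image_le (f := fun a : F => a • ap g v₀))
      simp only [mem_bipartiteBelow, mem_erase, mem_univ, and_true] at hv
      obtain ⟨a, ha⟩ := h2 _ (by simpa using hR g⁻¹ _ _ hv.2)
      have e : v = a • ap g v₀ := by rw [← map_smul, ← ha, ap_inv]
      exact mem_image.2 ⟨a, by simpa using fun h => hv.1 (by rw [e, h, zero_smul]), e.symm⟩)
  rwa [card_erase_of_mem (mem_univ _), card_univ, card_univ, card_V, mul_one] at this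

theorem hyp_bound [IsPretransitive 𝔾 A] {ω : A}
    (hH : ∀ e, ¬ Fl (stabilizer 𝔾 ω) e → Rg (stabilizer 𝔾 ω) e ∨ LT (stabilizer 𝔾 ω) e) {e : 𝕍}
    (he : ¬ Fl (stabilizer 𝔾 ω) e) (h : ∀ z, ∃ u ∈ U hH, ∃ a : F, z = u + a • e) :
    Fintype.card F ^ (2 * Fintype.card l) - 1 ≤ Fintype.card A * (Fintype.card F - 1) := by
  obtain ⟨v, h0, h1, h2⟩ := pt_of_hyp (U := U hH) he h
  refine pt_bound (fun ω v => ∀ x, Fl (stabilizer 𝔾 ω) x → 𝔅 v x = 0) (fun g ω v hv x hx => ?_)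
    h0 h1 h2
  rw [← ap_inv g x] at hx ⊢
  rw [ap_form]
  exact hv _ (fl_act.1 hx)

theorem card_level {e : 𝕍} (he : e ≠ 0) (β : F) :
    (univ.filter fun v : 𝕍 => 𝔅 v e = β).card * Fintype.card F =
      Fintype.card F ^ (2 * Fintype.card l) := by
  obtain ⟨f, hf⟩ := exists_spB_eq_one he
  have h1 : ∀ β : F, (univ.filter fun v : 𝕍 => 𝔅 v e = β).card =
      (univ.filter fun v : 𝕍 => 𝔅 v e = 0).card := fun β =>
    card_bij' (fun v _ => v - β • f) (fun v _ => v + β • f)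
      (fun v hv => by simp only [mem_filter, mem_univ, true_and] at hv ⊢; simp [hv, hf])
      (fun v hv => by simp only [mem_filter, mem_univ, true_and] at hv ⊢; simp [hv, hf])
      (fun v _ => by simp) (fun v _ => by simp)
  rw [← card_V, ← card_univ (α := 𝕍), card_eq_sum_card_fiberwise (s := univ)
    (f := fun v : 𝕍 => 𝔅 v e) (t := univ) (fun _ _ => mem_univ _), sum_congr rfl fun β _ => h1 β, sum_const, h1 β,
    card_univ, smul_eq_mul, mul_comm]

theorem card_line' {e : 𝕍} (he : e ≠ 0) :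
    (univ.filter fun v : 𝕍 => ∃ a : F, v = a • e).card = Fintype.card F := by
  rw [← card_univ, ← card_image_of_injective univ (smul_left_injective F he)]
  congr 1
  ext v
  simp [eq_comm]

theorem dim4_bound [IsPretransitive 𝔾 A] (hl : Fintype.card l = 2) {ω : A}
    (hH : ∀ e, ¬ Fl (stabilizer 𝔾 ω) e → Rg (stabilizer 𝔾 ω) e ∨ LT (stabilizer 𝔾 ω) e) {e x : 𝕍}
    (he : ¬ Fl (stabilizer 𝔾 ω) e) (hx0 : x ≠ 0) (hx : Fl (stabilizer 𝔾 ω) x) :
    Fintype.card F ^ (2 * Fintype.card l) - 1 ≤ Fintype.card A * (Fintype.card F - 1) := by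
  by_cases h1 : ∀ v, Fl (stabilizer 𝔾 ω) v → ∃ a : F, v = a • x
  · exact pt_bound (fun ω v => Fl (stabilizer 𝔾 ω) v) (fun g ω v hv => fl_act.2 hv) hx0 hx h1
  push Not at h1
  obtain ⟨y, hy, hyx⟩ := h1
  by_cases h3 : 3 ≤ finrank F (U hH)
  · refine hyp_bound hH he fun z => ?_
    have a1 : U hH < U hH ⊔ F ∙ e := lt_of_le_of_ne le_sup_left fun h =>
      he (show e ∈ U hH from h ▸ Submodule.mem_sup_right (Submodule.mem_span_singleton_self e))
    have a2 := Submodule.finrank_lt_finrank_of_lt a1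
    have a3 : U hH ⊔ F ∙ e = ⊤ := Submodule.eq_top_of_finrank_eq (le_antisymm
      (Submodule.finrank_le _) (by rw [frk]; omega))
    obtain ⟨u, hu, w, hw, rfl⟩ := Submodule.mem_sup.1 (a3 ▸ Submodule.mem_top : z ∈ U hH ⊔ F ∙ e)
    obtain ⟨a, rfl⟩ := Submodule.mem_span_singleton.1 hw
    exact ⟨u, hu, a, rfl⟩
  have hq : 1 < Fintype.card F := Fintype.one_lt_card
  set q := Fintype.card F
  have c1 : ∀ ω' : A, (univ.filter fun v => Fl (stabilizer 𝔾 ω') v).card ≤ q ^ 2 := fun ω' => by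
    obtain ⟨g, rfl⟩ := exists_smul_eq 𝔾 ω ω'
    have b1 : (univ.filter fun v => v ∈ U hH).card ≤ q ^ 2 := by
      rw [card_filter_mem, card_eq_pow (F := F), Nat.card_eq_fintype_card]
      exact Nat.pow_le_pow_right hq.le (by omega)
    refine le_trans (card_le_card_of_injOn (ap g⁻¹) (fun v hv => ?_) fun _ _ _ _ => ap_inj _) b1
    simp only [coe_filter, mem_univ, true_and, Set.mem_ofPred_eq] at hv ⊢
    rw [← ap_inv g v] at hv
    exact fl_act.1 hv
  have c2 : ∀ v : 𝕍, v ≠ 0 → q + 1 ≤ (univ.filter fun ω' : A => Fl (stabilizer 𝔾 ω') v).card := by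
    intro v hv
    have := card_mul_le_card_mul (s := (univ.filter fun u : 𝕍 => 𝔅 u v = 𝔅 y x) \
      univ.filter fun u : 𝕍 => ∃ a : F, u = a • v)
      (t := univ.filter fun ω' : A => Fl (stabilizer 𝔾 ω') v)
      (fun u ω' => Fl (stabilizer 𝔾 ω') u) (m := 1) (n := q ^ 2 - q) (fun u hu => by
        simp only [mem_sdiff, mem_filter, mem_univ, true_and, not_exists] at hu
        obtain ⟨g, rfl, rfl⟩ := trans2 hx0 hyx hv hu.2 hu.1
        exact card_pos.2 ⟨g • ω, by simpa using ⟨fl_act.2 hx, fl_act.2 hy⟩⟩) (fun ω' hω => by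
        have d1 : (univ.filter fun u : 𝕍 => ∃ a : F, u = a • v) ⊆
            univ.filter fun v => Fl (stabilizer 𝔾 ω') v := fun u hu => by
          simp only [mem_filter, mem_univ, true_and] at hu hω ⊢
          obtain ⟨a, rfl⟩ := hu
          exact hω.smul a
        refine le_trans (card_le_card (t := (univ.filter fun v => Fl (stabilizer 𝔾 ω') v) \
          univ.filter fun u : 𝕍 => ∃ a : F, u = a • v) fun u hu => ?_) ?_
        · simp only [mem_bipartiteBelow, mem_sdiff, mem_filter, mem_univ, true_and] at hu ⊢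
          exact ⟨hu.2, hu.1.2⟩
        · rw [card_sdiff_of_subset d1, card_line' hv]
          exact Nat.sub_le_sub_right (c1 ω') _)
    have d2 := le_card_sdiff (univ.filter fun u : 𝕍 => ∃ a : F, u = a • v)
      (univ.filter fun u : 𝕍 => 𝔅 u v = 𝔅 y x)
    have d3 := card_level hv (𝔅 y x)
    rw [card_line' hv] at d2
    rw [hl, show 2 * 2 = 3 + 1 from rfl, pow_succ] at d3
    rw [Nat.eq_of_mul_eq_mul_right (by omega) d3] at d2
    by_contra hc
    have d4 := Nat.mul_le_mul_right (q ^ 2 - q) (Nat.lt_succ_iff.1 (not_le.1 hc))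
    have d5 : q ≤ q ^ 2 := Nat.le_self_pow two_ne_zero q
    have d6 : q ≤ q ^ 3 := Nat.le_self_pow three_ne_zero q
    have d7 : q ^ 3 - q ≤ q * (q ^ 2 - q) := d2.trans ((by simpa using this : _ ≤ _).trans d4)
    zify [d5, d6] at d7 hq
    nlinarith
  have := card_mul_le_card_mul (s := univ.erase (0 : 𝕍)) (t := (univ : Finset A))
    (fun v ω => Fl (stabilizer 𝔾 ω) v) (m := q + 1) (n := q ^ 2 - 1)
    (fun v hv => c2 v (ne_of_mem_erase hv)) (fun ω' _ => by
      refine le_trans (card_le_card (t := (univ.filter fun v => Fl (stabilizer 𝔾 ω') v).erase 0)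
        fun u hu => ?_) ?_
      · simpa using hu
      · rw [card_erase_of_mem (by simpa using fl_zero)]
        exact Nat.sub_le_sub_right (c1 ω') _)
  rw [card_erase_of_mem (mem_univ _), card_univ, card_univ, card_V,
    show q ^ 2 - 1 = (q - 1) * (q + 1) by rw [mul_comm, ← Nat.sq_sub_sq], ← mul_assoc] at this
  exact Nat.le_of_mul_le_mul_right this (by omega)

end Act

end Cfsg.Agent.H26.MI.SQ
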