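import Cfsg.Agent.H26.SQ4

/-! Minimal index of the symplectic groups, V: orbits of the root group and of `Q_e`. -/

set_option autoImplicit false
set_option linter.unusedSectionVars false

namespace Cfsg.Agent.H26.MI.SQ

open Finset Matrix Cfsg.Agent.H10 Module MulAction
open scoped Classical

variable {l : Type*} [Fintype l] [DecidableEq l] {F : Type*} [Field F] [Fintype F]

local notation "𝔅" => spBilin l F
local notation "𝕍" => (l ⊕ l → F)
local notation "𝔾" => symplecticGroup l F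

variable {A : Type*} [MulAction (symplecticGroup l F) A] [Fintype A]

/-- the root group of `e`. -/
noncomputable def tz (e : 𝕍) : Hm F 𝔾 where
  t c := stv e c
  add := stv_add e

/-- the self-pairing of the field. -/
noncomputable def pz (F : Type*) [Field F] [Fintype F] : Pr F F :=
  prOf (F := F) (fun d y => d * y) (fun _ _ _ => add_mul _ _ _) (fun _ _ _ => mul_add _ _ _)
    (fun _ _ _ => by simp [mul_left_comm]) (fun d h => by simpa using h 1)

/-- the characters of the root group trivial on `H`. -/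
def Yz (H : Subgroup 𝔾) (e : 𝕍) (y : F) : Prop := ∀ c, stv e c ∈ H → psi F (c * y) = 1

theorem mem_Yz {ω : A} {e : 𝕍} {y : F} : y ∈ (tz e).Y (pz F) ω ↔ Yz (stabilizer 𝔾 ω) e y :=
  (tz e).mem_Y (pz F)

theorem exists_yz {ω : A} {e : 𝕍} (h : ¬ Fl (stabilizer 𝔾 ω) e) :
    ∃ y, y ≠ 0 ∧ Yz (stabilizer 𝔾 ω) e y := by
  by_contra hc
  push Not at hc
  refine h fun c => (tz e).fix_of_Y (pz F) fun y hy => ?_
  by_cases h0 : y = 0
  · rw [h0]; exact (pz F).zero_r c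
  · exact (hc y h0 (mem_Yz.1 hy)).elim

theorem Yz.not_fl {H : Subgroup 𝔾} {e : 𝕍} {y : F} (h : Yz H e y) (hy : y ≠ 0) : ¬ Fl H e :=
  fun hf => hy (psi_nd fun c => h c (hf c))

theorem yz_act {g : 𝔾} {ω : A} {e : 𝕍} {y : F} :
    Yz (stabilizer 𝔾 (g • ω)) (ap g e) y ↔ Yz (stabilizer 𝔾 ω) e y :=
  forall_congr' fun c => by rw [← T_conj, st_conj]

theorem yz_fix {g : 𝔾} {ω : A} {e : 𝕍} (h : ap g e = e) {y : F} :
    Yz (stabilizer 𝔾 (g • ω)) e y ↔ Yz (stabilizer 𝔾 ω) e y := by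
  rw [← yz_act (g := g) (ω := ω), h]

theorem yz_smul {H : Subgroup 𝔾} {e : 𝕍} {y a : F} (ha : a ≠ 0) (h : Yz H e y) :
    Yz H (a • e) (a ^ 2 * y) := fun c hc => by
  rw [stv_smul] at hc
  rw [← h _ hc]; congr 1; ring

variable (A) in
/-- the number of root group orbits containing the character `y`. -/
noncomputable def mz (e : 𝕍) (y : F) : ℕ := (tz e).mu (pz F) (univ : Finset A) y

theorem card_A (e : 𝕍) : Fintype.card A = ∑ y : F, mz A e y := by
  have := (tz e).card_mul (pz F) (Ω := (univ : Finset A)) fun _ _ _ => mem_univ _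
  rw [mul_comm, card_univ] at this
  exact Nat.eq_of_mul_eq_mul_left Nat.card_pos this

theorem mz_sq {e : 𝕍} (he : e ≠ 0) {a : F} (ha : a ≠ 0) (y : F) : mz A e (a * a * y) = mz A e y := by
  obtain ⟨g, hg⟩ := trans1 he (smul_ne_zero (inv_ne_zero ha) he)
  have : Cj (tz e) (pz F) (tz e) (pz F) g (fun y => a * a * y) :=
    ⟨fun d => a⁻¹ ^ 2 * d, fun d => ⟨a ^ 2 * d, by field_simp⟩, fun d => by
      change g * stv e d = stv e _ * g
      rw [← stv_smul, ← hg, ← T_conj]; group, fun d y => by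
      change psi F _ = psi F _
      congr 1; field_simp⟩
  exact this.mu_eq (fun _ _ => mem_univ _) y

theorem mz_class {e : 𝕍} (he : e ≠ 0) {y : F} (hy : y ≠ 0) :
    mz A e 0 + (univ.image fun a : Fˣ => (a : F) * a * y).card * mz A e y ≤ Fintype.card A := by
  have h0 : (0 : F) ∉ univ.image fun a : Fˣ => (a : F) * a * y := by simp [hy]
  rw [card_A e, ← smul_eq_mul, ← sum_const, sum_congr rfl (g := mz A e) fun z hz => by
    obtain ⟨a, -, rfl⟩ := mem_image.1 hz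
    exact (mz_sq he a.ne_zero y).symm, ← sum_insert h0]
  exact sum_le_sum_of_subset (subset_univ _)

theorem mz_le (e : 𝕍) (y : F) : mz A e y ≤ mz A e 0 := by
  rw [mz, mz, Hm.mu_zero]; exact Hm.mu_le _ _ _ _

theorem mz_odd {e : 𝕍} (he : e ≠ 0) {y : F} (hy : y ≠ 0) :
    (Fintype.card F + 1) * mz A e y ≤ 2 * Fintype.card A := by
  have h1 := mz_class (A := A) he hy
  have h2 := (card_sq_class hy).1
  have h3 := mz_le (A := A) e y
  have h4 := Nat.mul_le_mul_right (mz A e y) h2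
  rw [Nat.card_eq_fintype_card] at h4
  obtain ⟨k, hk⟩ : ∃ k, Fintype.card F = k + 1 := ⟨_, (Nat.succ_pred_eq_of_pos Fintype.card_pos).symm⟩
  rw [hk, Nat.add_sub_cancel] at h4
  rw [hk]
  nlinarith

theorem mz_even (h2 : (2 : F) = 0) {e : 𝕍} (he : e ≠ 0) {y : F} (hy : y ≠ 0) :
    mz A e 0 + (Fintype.card F - 1) * mz A e y ≤ Fintype.card A := by
  have h1 := mz_class (A := A) he hy
  rwa [(card_sq_class hy).2 h2, Nat.card_eq_fintype_card] at h1

variable (A) in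
/-- the orbit relation of the root group. -/
def zs (e : 𝕍) : Setoid A where
  r ω ω' := ∃ c, stv e c • ω = ω'
  iseqv := ⟨fun ω => ⟨0, by rw [stv_zero, one_smul]⟩, fun ⟨c, h⟩ => ⟨-c, by
    rw [← stv_inv, ← h, inv_smul_smul]⟩, fun ⟨c, h⟩ ⟨d, h'⟩ => ⟨d + c, by
    rw [stv_add, mul_smul, h, h']⟩⟩

variable (A) in
/-- the orbits of the root group. -/
def ZO (e : 𝕍) : Type _ := Quotient (zs A e)

/-- the orbit of a point. -/
def mk (e : 𝕍) (ω : A) : ZO A e := Quotient.mk _ ω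

theorem mk_eq {e : 𝕍} {ω ω' : A} : mk e ω = mk e ω' ↔ ∃ c, stv e c • ω = ω' := Quotient.eq

theorem mk_surj {e : 𝕍} (O : ZO A e) : ∃ ω, mk e ω = O := Quotient.exists_rep O

noncomputable instance (e : 𝕍) : Fintype (ZO A e) := @Fintype.ofFinite _ (Quotient.finite _)

/-- the stabiliser of a vector. -/
def Ge (e : 𝕍) : Subgroup 𝔾 where
  carrier := {g | ap g e = e}
  one_mem' := ap_one e
  mul_mem' {a b} ha hb := by
    change ap _ e = e
    rw [ap_mul, show ap b e = e from hb]; exact ha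
  inv_mem' h := inv_fix h

theorem T_comm {g : 𝔾} {e : 𝕍} (h : ap g e = e) (c : F) : g * stv e c = stv e c * g :=
  commute_stv_of_fix h c

instance (e : 𝕍) : MulAction (Ge e) (ZO A e) where
  smul g := Quotient.map (g.1 • ·) fun _ _ ⟨c, h⟩ => ⟨c, by
    rw [← h, ← mul_smul, ← mul_smul, T_comm g.2]⟩
  one_smul O := by
    obtain ⟨ω, rfl⟩ := mk_surj O
    exact congrArg (mk e) (one_smul _ ω)
  mul_smul a b O := by
    obtain ⟨ω, rfl⟩ := mk_surj O
    exact congrArg (mk e) (mul_smul _ _ ω)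

variable (A) in
/-- the action on orbits. -/
def rho (e : 𝕍) : Ge e →* Equiv.Perm (ZO A e) := MulAction.toPermHom _ _

theorem rho_mk {e : 𝕍} (g : Ge e) (ω : A) : rho A e g • mk e ω = mk e (g.1 • ω) := rfl

/-- the perpendicular of `e`. -/
noncomputable def Kp (e : 𝕍) : Submodule F 𝕍 := LinearMap.ker ((𝔅).flip e)

noncomputable instance (e : 𝕍) : Fintype (Kp e) := Fintype.ofFinite _

variable (A) in
/-- the action of `Q_e / Z_e` on the root group orbits. -/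
noncomputable def tw (e : 𝕍) : Hm (Kp e) (Equiv.Perm (ZO A e)) where
  t w := rho A e ⟨E e w 0, E_fix w.2 0⟩
  add a b := Equiv.ext fun O => by
    obtain ⟨ω, rfl⟩ := mk_surj O
    refine mk_eq.2 ⟨𝔅 b.1 a.1, ?_⟩
    change _ • E e (a.1 + b.1) 0 • ω = E e a 0 • E e b 0 • ω
    rw [← mul_smul, ← mul_smul, E_mul a.2 b.2, T_E (w := a.1 + b.1) (a + b).2]
    simp

theorem tw_mk {e : 𝕍} (w : Kp e) (ω : A) : (tw A e).t w • mk e ω = mk e (E e w 0 • ω) := rfl

/-- the pairing between `e^⊥` and `V`. -/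
noncomputable def pw (e : 𝕍) : Pr (Kp e) 𝕍 :=
  prOf (F := F) (fun d y => 𝔅 d.1 y) (fun _ _ _ => by simp) (fun _ _ _ => map_add _ _ _)
    (fun _ _ _ => map_smul _ _ _) (fun d h => Subtype.ext (spBilin_nondegenerate.1 _ h))

/-- the annihilator of the image of `H ∩ Q_e`. -/
def Yw (H : Subgroup 𝔾) (e v : 𝕍) : Prop := ∀ w, In H e w → psi F (𝔅 w v) = 1

theorem tw_fix {e : 𝕍} {w : Kp e} {ω : A} :
    (tw A e).t w • mk e ω = mk e ω ↔ In (stabilizer 𝔾 ω) e w := by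
  rw [tw_mk, mk_eq, In, and_iff_right (show 𝔅 w.1 e = 0 from w.2)]
  exact exists_congr fun c => by rw [← mul_smul, T_E w.2, add_zero]; rfl

theorem mem_Yw {e v : 𝕍} {ω : A} : v ∈ (tw A e).Y (pw e) (mk e ω) ↔ Yw (stabilizer 𝔾 ω) e v := by
  rw [Hm.mem_Y]
  exact ⟨fun h w hw => h ⟨w, hw.1⟩ (tw_fix.2 hw), fun h w hw => h w (tw_fix.1 hw)⟩

theorem in_of_yw {e w : 𝕍} {ω : A} (hw : 𝔅 w e = 0)
    (h : ∀ v, Yw (stabilizer 𝔾 ω) e v → 𝔅 w v = 0) : In (stabilizer 𝔾 ω) e w :=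
  (tw_fix (w := ⟨w, hw⟩)).1 ((tw A e).fix_of_Y (pw e) fun v hv => by
    change psi F (𝔅 w v) = 1
    rw [h v (mem_Yw.1 hv), AddChar.map_zero_eq_one])

theorem yw_self (H : Subgroup 𝔾) (e : 𝕍) (a : F) : Yw H e (a • e) := fun w hw => by
  simp [hw.1]

theorem Yw.add {H : Subgroup 𝔾} {e v v' : 𝕍} (h : Yw H e v) (h' : Yw H e v') : Yw H e (v + v') :=
  fun w hw => by rw [map_add, AddChar.map_add_eq_mul, h w hw, h' w hw, one_mul]

theorem Yw.sub {H : Subgroup 𝔾} {e v v' : 𝕍} (h : Yw H e v) (h' : Yw H e v') : Yw H e (v - v') :=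
  fun w hw => by rw [map_sub, AddChar.map_sub_eq_div, h w hw, h' w hw, div_one]

theorem Yw.perp {H : Subgroup 𝔾} {e v : 𝕍} (h : Yw H e v) : 𝔅 v e = 0 :=
  brefl (psi_nd fun c => by
    have := h (c • e) ⟨by simp [bs], -(2 * c), by
      rw [← zero_add (c • e), E_add_smul (by simp), neg_add_cancel, E_zero, stv_zero]
      exact H.one_mem⟩
    simpa using this)

theorem Rg.yw {H : Subgroup 𝔾} {e v : 𝕍} (h : Rg H e) (hv : 𝔅 v e = 0) : Yw H e v := fun w hw => by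
  obtain ⟨a, rfl⟩ := h w hw
  simp [brefl hv]

theorem rg_of_yw {H : Subgroup 𝔾} {e : 𝕍} (h : ∀ v, 𝔅 v e = 0 → Yw H e v) : Rg H e := fun w hw =>
  mem_of_perp1 fun z hz => brefl (psi_nd fun c => by simpa using h (c • z) (by simp [hz]) w hw)

theorem yw_act {g : 𝔾} {ω : A} {e v : 𝕍} (h : Yw (stabilizer 𝔾 ω) e v) :
    Yw (stabilizer 𝔾 (g • ω)) (ap g e) (ap g v) := fun w hw => by
  rw [← ap_inv g w] at hw ⊢
  rw [ap_form]
  exact h _ (in_act.1 hw)

theorem yw_smul {H : Subgroup 𝔾} {e v : 𝕍} {a : F} (ha : a ≠ 0) (h : Yw H e v) :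
    Yw H (a • e) (a • v) := fun w hw => by
  obtain ⟨h0, d, hd⟩ := hw
  have h1 : 𝔅 w e = 0 := by simpa [ha] using h0
  rw [E_smul h1] at hd
  simpa using h (a • w) ⟨by simp [h1], _, hd⟩

theorem cjw {e : 𝕍} (g : Ge e) : Cj (tw A e) (pw e) (tw A e) (pw e) (rho A e g) (ap g.1) :=
  ⟨fun d => ⟨ap g.1 d, perp_fix g.2 d.2⟩, fun d => ⟨⟨ap g.1⁻¹ d, perp_fix (inv_fix g.2) d.2⟩,
    Subtype.ext (ap_inv _ _)⟩, fun d => by
      change rho A e g * rho A e _ = rho A e _ * rho A e g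
      rw [← map_mul, ← map_mul]
      congr 1
      refine Subtype.ext ?_
      change g.1 * E e d 0 = E e (ap g.1 d) 0 * g.1
      have := E_conj g.1 e d 0
      rw [show ap g.1 e = e from g.2] at this
      rw [← this]; group, fun d y => congrArg (psi F) (ap_form _ _ _)⟩

/-- invariant sets of orbits. -/
def Inv (e : 𝕍) (Ω : Finset (ZO A e)) : Prop := ∀ g : Ge e, ∀ O ∈ Ω, rho A e g • O ∈ Ω

variable (A) in
/-- the orbits containing the character `y`. -/
noncomputable def Oy (e : 𝕍) (y : F) : Finset (ZO A e) :=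
  univ.filter fun O => ∃ ω, mk e ω = O ∧ Yz (stabilizer 𝔾 ω) e y

theorem mem_Oy {e : 𝕍} {y : F} {ω : A} : mk e ω ∈ Oy A e y ↔ Yz (stabilizer 𝔾 ω) e y := by
  simp only [Oy, mem_filter, mem_univ, true_and]
  refine ⟨fun ⟨ω', h, h'⟩ => ?_, fun h => ⟨ω, rfl, h⟩⟩
  obtain ⟨c, rfl⟩ := mk_eq.1 h
  exact (yz_fix (T_fix (bs e) c)).2 h'

theorem inv_Oy (e : 𝕍) (y : F) : Inv e (Oy A e y) := fun g O hO => by
  obtain ⟨ω, rfl⟩ := mk_surj O
  rw [rho_mk, mem_Oy, yz_fix g.2]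
  exact mem_Oy.1 hO

theorem card_Oy (e : 𝕍) (y : F) : (Oy A e y).card ≤ mz A e y := by
  have h : ∀ O : ZO A e, mk e (Quotient.out O) = O := Quotient.out_eq
  refine card_le_card_of_injOn (fun O => (tz e).orb (Quotient.out O)) (fun O hO => ?_)
    fun O _ O' _ hh => ?_
  · exact mem_coe.2 (((tz e).mem_orbsY (pz F)).2 ⟨_, mem_univ _,
      mem_Yz.2 (mem_Oy.1 (by rw [h]; exact hO)), rfl⟩)
  · rw [← h O, ← h O', mk_eq]
    exact (tz e).mem_orb.1 (by rw [show (tz e).orb _ = _ from hh]; exact (tz e).self_mem_orb _)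

theorem card_Kp {e : 𝕍} (he : e ≠ 0) :
    Nat.card (Kp e) * Fintype.card F = Fintype.card F ^ (2 * Fintype.card l) := by
  rw [← card_filter_mem, ← card_level he 0]
  congr 2

theorem card_orbw {e : 𝕍} (he : e ≠ 0) (O : ZO A e) :
    ((tw A e).orb O).card * Fintype.card F = Nat.card ((tw A e).Y (pw e) O) := by
  have h := (tw A e).card_Y (pw e) O
  rw [Nat.card_eq_fintype_card, card_V, ← card_Kp he, mul_left_comm] at h
  exact Nat.eq_of_mul_eq_mul_left Nat.card_pos h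

theorem cnt {e v : 𝕍} (he : e ≠ 0) (hv : 𝔅 v e = 0) (hve : ∀ a : F, v ≠ a • e) {Q : ℕ}
    (hQ : Fintype.card F ^ (2 * Fintype.card l) = Q * Fintype.card F * Fintype.card F)
    {Ω : Finset (ZO A e)} (hΩ : Inv e Ω) :
    ((tw A e).orbs Ω).card + (Q - 1) * (tw A e).mu (pw e) Ω v ≤ Ω.card := by
  have h := (tw A e).card_mul (pw e) (Ω := Ω) fun d => hΩ _
  have hq : 0 < Fintype.card F := Fintype.card_pos
  rw [Nat.card_eq_fintype_card, card_V, ← card_Kp he, mul_left_comm] at h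
  replace h := Nat.eq_of_mul_eq_mul_left Nat.card_pos h
  set L := univ.filter fun v : 𝕍 => ∃ a : F, v = a • e
  set K := univ.filter fun v : 𝕍 => 𝔅 v e = 0
  have h1 : L ⊆ K := fun u hu => by
    obtain ⟨a, rfl⟩ := (mem_filter.1 hu).2
    simp [K, bs]
  have h2 : K.card = Q * Fintype.card F :=
    Nat.eq_of_mul_eq_mul_right hq ((card_level he 0).trans hQ)
  have h3 : ∑ u ∈ L, (tw A e).mu (pw e) Ω u = Fintype.card F * ((tw A e).orbs Ω).card := by
    rw [← card_line' he, ← smul_eq_mul, ← sum_const]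
    refine sum_congr rfl fun u hu => ?_
    obtain ⟨a, rfl⟩ := (mem_filter.1 hu).2
    refine congrArg card (Finset.ext fun T => ?_)
    rw [Hm.mem_orbsY, Hm.mem_orbs]
    refine exists_congr fun O => and_congr_right fun _ => and_iff_right ?_
    obtain ⟨ω, rfl⟩ := mk_surj O
    exact mem_Yw.2 (yw_self _ _ _)
  have h4 : ∑ u ∈ K \ L, (tw A e).mu (pw e) Ω u =
      Fintype.card F * ((Q - 1) * (tw A e).mu (pw e) Ω v) := by
    rw [← mul_assoc, Nat.mul_sub_one, mul_comm _ Q, ← h2, ← card_line' he, ← card_sdiff_of_subset h1,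
      ← smul_eq_mul, ← sum_const]
    refine sum_congr rfl fun u hu => ?_
    simp only [K, L, mem_sdiff, mem_filter, mem_univ, true_and, not_exists] at hu
    obtain ⟨g, g1, rfl⟩ := trans2 he hve he hu.2 (hu.1.trans hv.symm)
    exact (cjw ⟨g, g1⟩).mu_eq (hΩ _) v
  have h5 : ∑ u ∈ K, (tw A e).mu (pw e) Ω u ≤ ∑ u, (tw A e).mu (pw e) Ω u :=
    sum_le_sum_of_subset (subset_univ _)
  rw [← h, ← sum_sdiff h1, h3, h4, ← mul_add, mul_comm Ω.card, add_comm] at h5
  exact Nat.le_of_mul_le_mul_left h5 hq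

theorem small {e v : 𝕍} (he : e ≠ 0) (hv : 𝔅 v e = 0) (hve : ∀ a : F, v ≠ a • e) {Q : ℕ}
    (hQ : Fintype.card F ^ (2 * Fintype.card l) = Q * Fintype.card F * Fintype.card F)
    {Ω : Finset (ZO A e)} (hΩ : Inv e Ω) {O : ZO A e} (hO : O ∈ Ω)
    (hvO : v ∈ (tw A e).Y (pw e) O) {k : ℕ} (hk : ((tw A e).orb O).card ≤ k) :
    ∃ r, r ≤ ((tw A e).orbs Ω).card ∧ r + (Q - 1) ≤ k * r ∧ r + (Q - 1) ≤ Ω.card := by
  set Ω' := Ω.filter fun O => ((tw A e).orb O).card ≤ k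
  have h1 : Inv e Ω' := fun g O hO => mem_filter.2 ⟨hΩ g O (mem_filter.1 hO).1, by
    rw [(cjw g).orb]; exact card_image_le.trans (mem_filter.1 hO).2⟩
  have h2 := cnt he hv hve hQ h1
  have h3 := (tw A e).one_le_mu (pw e) (Ω := Ω') (mem_filter.2 ⟨hO, hk⟩) hvO
  have h4 := Nat.mul_le_mul_left (Q - 1) h3
  have h5 : Ω'.card ≤ Ω.card := card_filter_le _ _
  have h6 : Ω'.card ≤ k * ((tw A e).orbs Ω').card := by
    rw [(tw A e).card_eq_sum (Ω := Ω') fun d => h1 _, mul_comm]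
    refine sum_le_card_nsmul _ _ _ fun T hT => ?_
    obtain ⟨O, hO, rfl⟩ := (tw A e).mem_orbs.1 hT
    exact (mem_filter.1 hO).2
  exact ⟨((tw A e).orbs Ω').card, card_le_card (image_subset_image (filter_subset _ _)), by omega,
    by omega⟩

end Cfsg.Agent.H26.MI.SQ
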