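import Cfsg.Agent.H26.SQ4

/-! Irreducible subgroups of `Sp_{2n}(q)`, `q` even, containing a complement to a root group in
`Q_e`: construction of the invariant quadratic form. -/

set_option autoImplicit false
set_option linter.unusedSectionVars false

namespace Cfsg.Agent.H26.MI.SQ

open Finset Matrix Cfsg.Agent.H10 Cfsg.Agent.H11 Module
open scoped Classical

variable {l : Type*} [Fintype l] [DecidableEq l] {F : Type*} [Field F]

local notation "𝔅" => spBilin l F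
local notation "𝕍" => (l ⊕ l → F)
local notation "𝔾" => symplecticGroup l F

variable {H : Subgroup (symplecticGroup l F)}

/-- `H ∩ Q_e` covers `Q_e / Z_e`. -/
def Big (H : Subgroup 𝔾) (e : 𝕍) : Prop := ∀ w, 𝔅 w e = 0 → In H e w

/-- irreducibility. -/
def Irr (H : Subgroup 𝔾) : Prop :=
  ∀ W : Submodule F 𝕍, (∀ g ∈ H, ∀ w ∈ W, ap g w ∈ W) → W = ⊥ ∨ W = ⊤

theorem Big.map {e : 𝕍} (h : Big H e) {g : 𝔾} (hg : g ∈ H) : Big H (ap g e) := fun w hw => by
  rw [← ap_inv g w] at hw ⊢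
  exact (h _ (by rwa [ap_form] at hw)).map hg

theorem Big.smul {e : 𝕍} (h : Big H e) {a : F} (ha : a ≠ 0) : Big H (a • e) := fun w hw => by
  have h1 : 𝔅 w e = 0 := by simpa [ha] using hw
  obtain ⟨-, d, hd⟩ := h (a • w) (by simp [h1])
  exact ⟨hw, d / a ^ 2, by rwa [E_smul h1, mul_div_cancel₀ _ (pow_ne_zero 2 ha)]⟩

theorem Big.shift {e x : 𝕍} (he : Big H e) (hx : 𝔅 x e = 0) (hxe : ∀ a : F, x ≠ a • e) (γ : F) :
    ∃ g ∈ H, ap g x = x + γ • e := by
  obtain ⟨z, z1, z2⟩ := ex_perp1 hxe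
  obtain ⟨h0, d, r⟩ := he ((-γ) • z) (by simp [z2])
  exact ⟨_, r, by rw [E_perp h0 d hx, map_smul, bsw x z, z1, smul_eq_mul, mul_neg, mul_one,
    neg_neg]⟩

theorem Big.line {e x : 𝕍} (he : Big H e) (h : Big H x) (hx : 𝔅 x e = 0)
    (hxe : ∀ a : F, x ≠ a • e) (γ : F) : Big H (x + γ • e) := by
  obtain ⟨g, hg, e1⟩ := he.shift hx hxe γ
  exact e1 ▸ h.map hg

theorem Irr.ex_np (h : Irr H) {u e : 𝕍} (hu : u ≠ 0) (he : e ≠ 0) :
    ∃ g ∈ H, 𝔅 (ap g u) e ≠ 0 := by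
  by_contra hc
  push Not at hc
  let Z : Submodule F 𝕍 :=
    { carrier := {v | ∀ g ∈ H, 𝔅 (ap g u) v = 0}
      add_mem' := fun ha hb g hg => by rw [map_add, ha g hg, hb g hg, add_zero]
      zero_mem' := fun g _ => map_zero _
      smul_mem' := fun c v hv g hg => by rw [map_smul, hv g hg, smul_zero] }
  rcases h Z (fun k hk w hw g hg => by
    rw [← ap_inv k (ap g u), ap_form, ← ap_mul]; exact hw _ (H.mul_mem (H.inv_mem hk) hg)) with h | h
  · exact he ((Submodule.mem_bot F).1 (h ▸ (hc : e ∈ Z)))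
  · obtain ⟨z, hz⟩ := exists_spB_eq_one hu
    have := (h ▸ Submodule.mem_top : z ∈ Z) 1 H.one_mem
    rw [ap_one] at this
    exact zero_ne_one ((brefl this).symm.trans hz)

theorem Irr.partner (h : Irr H) {e : 𝕍} (he : e ≠ 0) (hb : Big H e) :
    ∃ f, Big H f ∧ 𝔅 f e = 1 ∧ (Fl H e → Fl H f) := by
  obtain ⟨g, hg, h1⟩ := h.ex_np he he
  exact ⟨(𝔅 (ap g e) e)⁻¹ • ap g e, (hb.map hg).smul (inv_ne_zero h1), by
    simp [inv_mul_cancel₀ h1], fun hf => (hf.map hg).smul _⟩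

theorem all_full (hi : Irr H) {e : 𝕍} (he : e ≠ 0) (hb : Big H e) (hf : Fl H e) (x : 𝕍) :
    Fl H x := by
  obtain ⟨f, -, f2, f3⟩ := hi.partner he hb
  have hE : ∀ w d, 𝔅 w e = 0 → E e w d ∈ H := fun w d hw => by
    obtain ⟨-, d', h⟩ := hb w hw
    have := H.mul_mem h (hf (d - d'))
    rwa [E_T hw, add_sub_cancel] at this
  have key : ∀ x, 𝔅 x e ≠ 0 → Fl H x := fun x hx => by
    have h0 : 𝔅 ((𝔅 x e)⁻¹ • x - f) e = 0 := by simp [f2, inv_mul_cancel₀ hx]
    have := ((f3 hf).map (hE _ (-𝔅 f ((𝔅 x e)⁻¹ • x - f)) h0)).smul (𝔅 x e)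
    rw [E_app h0, f2] at this
    simpa [smul_smul, mul_inv_cancel₀ hx] using this
  by_cases hx : 𝔅 x e = 0
  swap
  · exact key x hx
  by_cases hxe : ∃ a : F, x = a • e
  · obtain ⟨a, rfl⟩ := hxe
    exact hf.smul a
  push Not at hxe
  obtain ⟨z, z1, z2⟩ := ex_perp1 hxe
  have h1 : 𝔅 (f + (1 - 𝔅 f x) • z) x = 1 := by simp [z1]
  have h2 : 𝔅 (f + (1 - 𝔅 f x) • z) e = 1 := by simp [z2, f2]
  set u := f + (1 - 𝔅 f x) • z
  have := (key (x + u) (by simp [hx, h2])).add_np (key u (by simp [h2]))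
    (by simp [bs, bsw x u, h1]) (-1)
  simpa using this

theorem indep_symm {e x : 𝕍} (hx : x ≠ 0) (h : ∀ a : F, e ≠ a • x) (he : e ≠ 0) (a : F) :
    x ≠ a • e := fun hc => by
  by_cases c0 : a = 0
  · exact hx (by rw [hc, c0, zero_smul])
  · exact h a⁻¹ (by rw [hc, smul_smul, inv_mul_cancel₀ c0, one_smul])

theorem Big.pp (h2 : (2 : F) = 0) {e y : 𝕍} (he : Big H e) (hy : 𝔅 y e = 0)
    (hye : ∀ c : F, y ≠ c • e) {b δ : F} (h : E y (b • e) δ ∈ H) : PP H e y δ := by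
  obtain ⟨z, z1, z2⟩ := ex_perp1 hye
  have h0 : 𝔅 (b • e) y = 0 := by simp [brefl hy]
  refine PP_of h2 hy he h (by rw [E_perp h0 _ (brefl hy)]; simp [bs]) z1 z2 (a := b) ?_
  rw [E_app h0, z1]; simp only [map_smul, z2, smul_eq_mul]; module

/-- lines of big points are singular. -/
def P1 (H : Subgroup 𝔾) : Prop := ∀ e x, e ≠ 0 → Big H e → Big H x → 𝔅 x e = 0 →
  (∀ a : F, x ≠ a • e) → ∀ b d : F, E e (b • x) d ∈ H → d = 0

theorem p1_big [Finite F] (h2 : (2 : F) = 0) {a : F} (ha : a ≠ 0) (ha1 : a ≠ 1)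
    (nf : ∀ x, x ≠ 0 → Big H x → ¬ Fl H x) : P1 H := fun e x he be bx hx hxe b δ h => by
  by_contra hδ
  have hx0 : x ≠ 0 := by simpa using hxe 0
  have p := bx.pp h2 (brefl hx) (indep_symm he hxe hx0) h
  refine nf e he be (fl_of_PP h2 hx (mul_ne_zero hδ (pow_ne_zero 2 ha)) (mul_ne_zero hδ
    (pow_ne_zero 2 one_ne_zero)) (fun h => ha1 ?_) (be.pp h2 hx hxe (p a)) (be.pp h2 hx hxe (p 1)))
  have h3 : (a - 1) ^ 2 = 0 := by linear_combination mul_left_cancel₀ hδ h + (1 - a) * h2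
  exact sub_eq_zero.1 (pow_eq_zero_iff two_ne_zero |>.1 h3)

theorem C_two (hF : ∀ c : F, c = 0 ∨ c = 1) {e : 𝕍} (he : ¬ Fl H e) {d : F} (h : stv e d ∈ H) :
    d = 0 := by
  rcases hF d with rfl | rfl
  · rfl
  refine (he fun c => ?_).elim
  rcases hF c with rfl | rfl
  · rw [stv_zero]; exact H.one_mem
  · exact h

theorem p1_two (h2 : (2 : F) = 0) (hF : ∀ c : F, c = 0 ∨ c = 1) (hl : 3 ≤ Fintype.card l)
    (nf : ∀ x, x ≠ 0 → Big H x → ¬ Fl H x) : P1 H := fun e x he be bx hx hxe b δ h => by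
  refine C_two hF (nf e he be) ?_
  rcases hF b with rfl | rfl
  · rwa [zero_smul, E_zero] at h
  rw [one_smul] at h
  obtain ⟨u, u1, u2, u3⟩ := ex_not2 hl e x
  obtain ⟨v, v1, v2, v3⟩ := ex_perp2 u3
  obtain ⟨-, d, r⟩ := bx u u2
  obtain ⟨-, d', r'⟩ := be v v3
  have r2 := conj_mem r r'
  rw [E_conj, E_perp u2 d (brefl hx), brefl u1, zero_smul, add_zero, E_perp u2 d v2, v1,
    one_smul] at r2
  have r3 := H.mul_mem r2 (H.inv_mem r')
  rw [E_inv v3, E_mul (by simp [v3, hx]) (by simp [v3]), add_neg_cancel_comm] at r3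
  simpa [bs, v2] using T_of_E hx h r3

/-- the standing hypotheses. -/
structure Hy (H : Subgroup 𝔾) (e f : 𝕍) : Prop where
  h2 : (2 : F) = 0
  hl : 2 ≤ Fintype.card l
  p1 : P1 H
  be : Big H e
  bf : Big H f
  ef : 𝔅 f e = 1

namespace Hy

variable {e f : l ⊕ l → F} (s : Hy H e f)
include s

theorem fe : 𝔅 e f = 1 := by rw [bsw, s.ef]; linear_combination -s.h2

theorem symm : Hy H f e := ⟨s.h2, s.hl, s.p1, s.bf, s.be, s.fe⟩

theorem ne : e ≠ 0 := by rintro rfl; simpa using s.ef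

theorem not_e {w : 𝕍} (h0 : w ≠ 0) (hf : 𝔅 w f = 0) (a : F) : w ≠ a • e := by
  rintro rfl
  rw [map_smul, LinearMap.smul_apply, s.fe, smul_eq_mul, mul_one] at hf
  exact h0 (by rw [hf, zero_smul])

theorem big_f {w : 𝕍} (he : 𝔅 w e = 0) (hf : 𝔅 w f = 0) {d : F} (h : E e w d ∈ H) :
    Big H (f + w + d • e) := by
  have := s.bf.map h
  rwa [E_app he, s.ef, brefl hf, one_smul, zero_add, mul_one] at this

theorem big_of {x w : 𝕍} (he : 𝔅 w e = 0) (hx : 𝔅 x e = 1) (h0 : w ≠ 0) (hxw : 𝔅 w x = 0)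
    (b1 : Big H x) (b2 : Big H (x + w)) : Big H w := by
  have := b1.line b2 (by simp [bs, hxw]) (fun a h => by
    have h1 := congrArg (fun u => 𝔅 u e) h
    simp only [map_add, map_smul, LinearMap.add_apply, LinearMap.smul_apply, hx, he, smul_eq_mul,
      add_zero, mul_one] at h1
    rw [← h1, one_smul, add_eq_left] at h
    exact h0 h) (-1)
  simpa using this

theorem big_w {w : 𝕍} (he : 𝔅 w e = 0) (hf : 𝔅 w f = 0) (h0 : w ≠ 0) (h : E e w 0 ∈ H) :
    Big H w :=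
  s.big_of he s.ef h0 hf s.bf (by simpa using s.big_f he hf h)

theorem zero_of {w : 𝕍} (he : 𝔅 w e = 0) (hf : 𝔅 w f = 0) (h0 : w ≠ 0) (h : Big H w) {b d : F}
    (hd : E e (b • w) d ∈ H) : d = 0 :=
  s.p1 e w s.ne s.be h he (s.not_e h0 hf) b d hd

variable [Finite F]

theorem surj {w : 𝕍} (he : 𝔅 w e = 0) (hf : 𝔅 w f = 0) (h0 : w ≠ 0) (h : ¬ Big H w) (d : F) :
    ∃ t : F, E e (t • w) d ∈ H ∧ ∀ d', E e (t • w) d' ∈ H → d' = d := by
  choose φ hφ using fun t : F => (s.be (t • w) (by simp [he])).2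
  have key : ∀ t t' d : F, E e (t • w) d ∈ H → E e (t' • w) d ∈ H → t = t' := fun t t' d h1 h3 => by
    by_contra hne
    have h4 := H.mul_mem h1 (H.inv_mem h3)
    rw [E_inv (by simp [he]), E_mul (by simp [he]) (by simp [he]), ← sub_eq_add_neg, ← sub_smul]
      at h4
    have h5 := sub_ne_zero.2 hne
    refine h (by simpa [smul_smul, inv_mul_cancel₀ h5] using (s.big_w (by simp [he]) (by simp [hf])
      (smul_ne_zero h5 h0) (by simpa [bs] using h4)).smul (inv_ne_zero h5))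
  have hs := Finite.surjective_of_injective (f := φ) fun t t' e1 => key t t' _ (hφ t) (e1 ▸ hφ t')
  obtain ⟨t, rfl⟩ := hs d
  refine ⟨t, hφ t, fun d' h' => ?_⟩
  obtain ⟨t', rfl⟩ := hs d'
  rw [key t t' _ h' (hφ t')]

theorem ex_w : ∃ w, w ≠ 0 ∧ 𝔅 w e = 0 ∧ 𝔅 w f = 0 := ex_common s.hl e f

theorem C0 {d : F} (h : stv e d ∈ H) : d = 0 := by
  obtain ⟨w, h0, he, hf⟩ := s.ex_w
  by_cases hb : Big H w
  · exact s.zero_of he hf h0 hb (b := 0) (by rwa [zero_smul, E_zero])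
  · obtain ⟨t, h1, h3⟩ := s.surj he hf h0 hb 0
    have := H.mul_mem h1 h
    rw [E_T (by simp [he]), zero_add] at this
    exact h3 d this

theorem uniq {w : 𝕍} (hw : 𝔅 w e = 0) {d d' : F} (h : E e w d ∈ H) (h' : E e w d' ∈ H) : d = d' :=
  sub_eq_zero.1 (s.C0 (T_of_E hw h h'))

theorem homog₀ {w : 𝕍} (he : 𝔅 w e = 0) (hf : 𝔅 w f = 0) {d : F} (h : E e w d ∈ H) (a : F) :
    E e (a • w) (a ^ 2 * d) ∈ H := by
  by_cases ha : a = 0
  · simp [ha, E_zero, stv_zero]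
  by_cases h0 : w = 0
  · rw [h0, E_zero] at h
    simp [h0, s.C0 h, E_zero, stv_zero]
  by_cases hb : Big H w
  · obtain ⟨-, d', h'⟩ := s.be (a • w) (by simp [he])
    rwa [s.zero_of he hf h0 hb (b := 1) (d := d) (by rwa [one_smul]), mul_zero,
      ← s.zero_of he hf h0 hb h']
  obtain ⟨t₁, r₁, -⟩ := s.symm.surj hf he h0 hb 1
  obtain ⟨t₂, r₂, -⟩ := s.surj he hf h0 hb (a + 1)
  obtain ⟨t₃, r₃, -⟩ := s.symm.surj hf he h0 hb a⁻¹
  have hk := H.mul_mem r₃ (H.mul_mem r₂ r₁)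
  set k := E f (t₃ • w) a⁻¹ * (E e (t₂ • w) (a + 1) * E f (t₁ • w) 1) with hkd
  have a1 : ∀ t : F, 𝔅 (t • w) e = 0 := fun t => by simp [he]
  have a2 : ∀ t : F, 𝔅 (t • w) f = 0 := fun t => by simp [hf]
  have kw : ap k w = w := by
    simp [hkd, ap_mul, E_perp (a1 _) _ he, E_perp (a2 _) _ hf, bs]
  have ke : ap k e = a • e + (t₁ + t₂ + a * t₃) • w := by
    simp only [hkd, ap_mul, E_app (a1 _), E_app (a2 _), map_add, map_smul, LinearMap.add_apply,
      LinearMap.smul_apply, smul_eq_mul, bs, he, hf, brefl he, brefl hf, s.ef, s.fe]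
    have i1 : a⁻¹ * a = 1 := inv_mul_cancel₀ ha
    linear_combination (norm := module) (s.h2) • e + (t₃ * s.h2) • w +
      (i1 + (1 + a⁻¹) * s.h2) • f
  have hβ : t₁ + t₂ + a * t₃ = 0 := by
    by_contra hβ
    have b1 := s.be.map hk
    rw [ke] at b1
    have b2 := s.be.line b1 (by simp [bs, he]) (fun c hc => s.not_e (smul_ne_zero hβ h0) (a2 _)
      (c - a) (by rw [sub_smul, ← hc]; simp)) (-a)
    have b3 := b2.smul (inv_ne_zero hβ)
    rw [neg_smul, add_neg_cancel_comm, smul_smul, inv_mul_cancel₀ hβ, one_smul] at b3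
    exact hb b3
  have := conj_mem hk h
  rwa [E_conj, kw, ke, hβ, zero_smul, add_zero, E_smul he] at this

theorem homog {u : 𝕍} (he : 𝔅 u e = 0) {d : F} (h : E e u d ∈ H) (a : F) :
    E e (a • u) (a ^ 2 * d) ∈ H := by
  have h1 : 𝔅 (u + (-𝔅 u f) • e) e = 0 := by simp [he, bs]
  have h3 := s.homog₀ h1 (by simp [s.fe]) (d := d) (by rwa [E_add_smul he, s.h2, zero_mul, add_zero]) a
  rwa [smul_add, smul_smul, E_add_smul (by simp [he]), s.h2, zero_mul, add_zero] at h3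

theorem hyp_line {δ : F} (h : Big H (f + δ • e)) : δ = 0 := by
  by_contra hδ
  obtain ⟨w, h0, he, hf, hb⟩ : ∃ w, w ≠ 0 ∧ 𝔅 w e = 0 ∧ 𝔅 w f = 0 ∧ ¬ Big H w := by
    by_contra hc
    push Not at hc
    obtain ⟨w, h0, he, hf⟩ := s.ex_w
    obtain ⟨z, z1, z2, z3⟩ := ex_perp2 (u := e) (v := f) (x := w) fun a b hab => by
      have e1 := congrArg (fun u => 𝔅 u e) hab
      simp only [he, map_add, map_smul, LinearMap.add_apply, LinearMap.smul_apply, bs, s.ef,
        smul_eq_mul, mul_zero, zero_add, mul_one] at e1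
      exact s.not_e h0 hf a (by rw [hab, ← e1, zero_smul, add_zero])
    have z0 : ∀ t : F, t • w + z ≠ 0 := fun t h => by
      have := congrArg (fun u => 𝔅 u w) h
      simp [bs, z1] at this
    obtain ⟨-, d, r⟩ := s.be w he
    obtain ⟨-, d', r'⟩ := s.be z z2
    have e1 := s.zero_of he hf h0 (hc w h0 he hf) (b := 1) (by rwa [one_smul])
    have z0' : z ≠ 0 := by simpa using z0 0
    have e2 := s.zero_of z2 z3 z0' (hc z z0' z2 z3) (b := 1) (by rwa [one_smul])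
    have z1' : w + z ≠ 0 := by simpa using z0 1
    have e3 := s.zero_of (w := w + z) (by simp [he, z2]) (by simp [hf, z3]) z1'
      (hc _ z1' (by simp [he, z2]) (by simp [hf, z3])) (b := 1)
      (by rw [one_smul]; exact E_mul he z2 d d' ▸ H.mul_mem r r')
    rw [e1, e2, z1] at e3
    simp at e3
  obtain ⟨t, r, -⟩ := s.surj he hf h0 hb δ
  have ht : t ≠ 0 := by
    rintro rfl
    rw [zero_smul, E_zero] at r
    exact hδ (s.C0 r)
  have b1 := s.big_f (by simp [he]) (by simp [hf]) r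
  have b2 := (s.big_of (x := f + δ • e) (w := t • w) (by simp [he]) (by simp [s.ef, bs])
    (smul_ne_zero ht h0) (by simp [he, hf]) h (by rwa [add_right_comm])).smul (inv_ne_zero ht)
  rw [smul_smul, inv_mul_cancel₀ ht, one_smul] at b2
  exact hb b2

/-- the function on `e^⊥`. -/
noncomputable def dE (_s : Hy H e f) (w : 𝕍) : F :=
  if h : ∃ d, E e w d ∈ H then h.choose else 0

theorem dE_mem {w : 𝕍} (hw : 𝔅 w e = 0) : E e w (s.dE w) ∈ H := by
  have h := (s.be w hw).2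
  rw [dE, dif_pos h]; exact h.choose_spec

theorem dE_eq {w : 𝕍} (hw : 𝔅 w e = 0) {d : F} (h : E e w d ∈ H) : s.dE w = d :=
  s.uniq hw (s.dE_mem hw) h

/-- the invariant quadratic form. -/
noncomputable def Q (x : 𝕍) : F := 𝔅 x e * 𝔅 x f + s.dE (x - 𝔅 x e • f)

theorem perp_e (x : 𝕍) : 𝔅 (x - 𝔅 x e • f) e = 0 := by simp [s.ef]

theorem isQuad : IsQuad (𝔅) s.Q := by
  refine IsQuad.of_add_smul (fun x y => ?_) fun c x => ?_
  · have h := H.mul_mem (s.dE_mem (s.perp_e x)) (s.dE_mem (s.perp_e y))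
    rw [E_mul (s.perp_e x) (s.perp_e y)] at h
    have e1 : x + y - 𝔅 (x + y) e • f = x - 𝔅 x e • f + (y - 𝔅 y e • f) := by
      simp only [map_add, LinearMap.add_apply]; module
    rw [Q, Q, Q, e1, s.dE_eq (e1 ▸ s.perp_e (x + y)) h]
    simp only [map_add, map_sub, map_smul, LinearMap.add_apply, LinearMap.sub_apply,
      LinearMap.smul_apply, smul_eq_mul, bs, bsw y x, bsw f x]
    linear_combination (𝔅 y e * 𝔅 x f - 𝔅 x y) * s.h2
  · have h := s.homog (s.perp_e x) (s.dE_mem (s.perp_e x)) c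
    have e1 : c • x - 𝔅 (c • x) e • f = c • (x - 𝔅 x e • f) := by
      simp only [map_smul, LinearMap.smul_apply, smul_eq_mul]; module
    rw [Q, Q, e1, s.dE_eq (e1 ▸ s.perp_e (c • x)) h]
    simp only [map_smul, LinearMap.smul_apply, smul_eq_mul]
    ring

theorem Q_big {x : 𝕍} (hx : Big H x) : s.Q x = 0 := by
  by_cases h : 𝔅 x e = 0
  · rw [Q, h, zero_mul, zero_add, zero_smul, sub_zero]
    by_cases hxe : ∃ a : F, x = a • e
    · obtain ⟨a, rfl⟩ := hxe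
      refine s.dE_eq h ?_
      rw [← zero_add (a • e), E_add_smul (by simp), s.h2, E_zero]
      simp [stv_zero]
    · push Not at hxe
      exact s.p1 e x s.ne s.be hx h hxe 1 _ (by rw [one_smul]; exact s.dE_mem h)
  have key : ∀ x, Big H x → 𝔅 x e = 1 → s.Q x = 0 := fun x hx h => by
    have h0 := s.perp_e x
    have h1 := hx.map (s.dE_mem h0)
    rw [h, one_smul] at h0 h1
    rw [E_app h0, h, map_sub, bs] at h1
    have e1 : x + (1 : F) • (x - f) + (0 - 𝔅 x f + s.dE (x - f) * 1) • e = f + s.Q x • e := by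
      rw [Q, h, one_smul, one_smul]
      linear_combination (norm := module) s.h2 • x - s.h2 • f - (𝔅 x f * s.h2) • e
    exact s.hyp_line (e1 ▸ h1)
  have := key _ (hx.smul (inv_ne_zero h)) (by simp [inv_mul_cancel₀ h])
  rw [s.isQuad.smul'] at this
  simpa [h] using this

theorem Q_inv (hi : Irr H) {g : 𝔾} (hg : g ∈ H) (x : 𝕍) : s.Q (ap g x) = s.Q x := by
  let Z : Submodule F 𝕍 :=
    { carrier := {v | ∀ g ∈ H, s.Q (ap g v) = s.Q v}
      add_mem' := fun ha hb g hg => by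
        rw [map_add, s.isQuad.add', s.isQuad.add', ha g hg, hb g hg, ap_form]
      zero_mem' := fun g _ => by rw [map_zero]
      smul_mem' := fun c v hv g hg => by rw [map_smul, s.isQuad.smul', s.isQuad.smul', hv g hg] }
  rcases hi Z (fun k hk w hw g hg => by
    rw [← ap_mul, hw _ (H.mul_mem hg hk), hw _ hk]) with h | h
  · exact (s.ne ((Submodule.mem_bot F).1 (h ▸ (show e ∈ Z from fun g hg => by
      rw [s.Q_big (s.be.map hg), s.Q_big s.be])))).elim
  · exact (h ▸ Submodule.mem_top : x ∈ Z) g hg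

theorem E_Q (hi : Irr H) {u x : 𝕍} (hu : Big H u) (hx : 𝔅 x u = 1) {w : 𝕍} (hw : 𝔅 w u = 0) :
    E u w (s.Q w) ∈ H := by
  obtain ⟨-, d, h⟩ := hu w hw
  have := s.Q_inv hi h x
  rw [E_app hw, hx, s.isQuad.add', s.isQuad.add', s.isQuad.smul', s.isQuad.smul', s.Q_big hu] at this
  simp only [map_add, map_smul, LinearMap.add_apply, LinearMap.smul_apply, smul_eq_mul, hx,
    hw] at this
  rwa [show s.Q w = d by linear_combination this - (𝔅 x w + d) * s.h2]

end Hy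

end Cfsg.Agent.H26.MI.SQ
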