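import Cfsg.Agent.H26.SR1
import Cfsg.Agent.H26.SQ5
import Cfsg.Agent.H10.SmallIso2
import Cfsg.Agent.S5945

/-! Irreducible subgroups of `Sp_{2n}(q)`, `q` even, containing a complement to a root group in
`Q_e`: identification. -/

set_option autoImplicit false
set_option linter.unusedSectionVars false

namespace Cfsg.Agent.H26.MI.SQ

open Finset Matrix Cfsg.Agent.H10 Cfsg.Agent.H11 Module
open scoped Classical

section orth

variable {F : Type*} [Field F] {V : Type*} [AddCommGroup V] [Module F V] [FiniteDimensional F V]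
  {B : V →ₗ[F] V →ₗ[F] F} {Q : V → F}

theorem dick_eichSub (h : IsQuad B Q) (hB : B.SeparatingLeft) {g : Isom B Q} (hg : g ∈ h.eichSub) :
    dick g.1 = 0 := by
  have : h.eichSub ≤ (h.dickHom hB).ker := h.eichSub_le fun u w hu huw => by
    change Multiplicative.ofAdd (dick _) = 1
    rw [ofAdd_eq_one]
    by_cases h0 : u = 0
    · subst h0; rw [h.eich_zero_left]; exact dick_one
    by_cases h1 : ∃ c : F, w = c • u
    · obtain ⟨c, rfl⟩ := h1
      rw [h.eich_smul_self]; exact dick_one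
    push Not at h1
    have hc := clQuad h hB
    have e1 : movS (h.eich hu huw).1 = Submodule.span F {u, w} := by
      refine le_antisymm (fun y hy => ?_) (Submodule.span_le.2 ?_)
      · obtain ⟨x, rfl⟩ := mem_movS.1 hy
        exact Submodule.mem_span_pair.2 ⟨B w x - Q w * B u x, -B u x, by rw [h.eich_apply]; module⟩
      obtain ⟨x, x1, x2⟩ := QC.exists_perp_not hc (A := F ∙ u) (x := w) fun hm => by
        obtain ⟨c, hc⟩ := Submodule.mem_span_singleton.1 hm
        exact h1 c hc.symm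
      have x3 := x1 u (Submodule.mem_span_singleton_self u)
      have m1 : u ∈ movS (h.eich hu huw).1 := mem_movS.2 ⟨x, by rw [h.eich_apply, x2, x3]; simp⟩
      obtain ⟨y, hy⟩ := hc.exists_ne h0
      have m2 : (B u y)⁻¹ • ((B w y - Q w * B u y) • u - ((h.eich hu huw).1 y - y)) ∈
          movS (h.eich hu huw).1 := Submodule.smul_mem _ _ (Submodule.sub_mem _
        (Submodule.smul_mem _ _ m1) (mem_movS.2 ⟨y, rfl⟩))
      have m3 : w = (B u y)⁻¹ • ((B w y - Q w * B u y) • u - ((h.eich hu huw).1 y - y)) := by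
        rw [h.eich_apply, eq_inv_smul_iff₀ hy]; module
      rw [← m3] at m2
      exact Set.insert_subset_iff.2 ⟨m1, Set.singleton_subset_iff.2 m2⟩
    rw [dick, e1, finrank_pair h0 h1]; rfl
  exact ofAdd_eq_one.1 (this hg)

theorem orth_cases [Finite F] (h : IsQuad B Q) (hB : B.SeparatingLeft) (h2 : (2 : F) = 0)
    (hn : 3 ≤ finrank F V) {e f : V} (he : Q e = 0) (hf : Q f = 0) (hef : B e f = 1)
    {M : Subgroup (Isom B Q)} (hM : h.eichSub ≤ M) : M = ⊤ ∨ ∀ g, g ∈ M ↔ dick g.1 = 0 := by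
  haveI : CharP F 2 := (CharP.charP_iff_prime_eq_zero Nat.prime_two).2 h2
  haveI := h.eichSub_normal
  obtain ⟨y, hy, hy0⟩ := h.exists_nonsingular_hperp hB hn he hf hef
  have c1 : ∀ u, Q u ≠ 0 → h.reflO u * h.reflO y ∈ h.eichSub := fun u hu => by
    obtain ⟨g, hg, a, b, e1, -⟩ := h.exists_eichSub_pair hB he hf hef u
    have q1 : Q u = a * b := by
      rw [← g.2.2 u, e1]; simp [h.add', h.smul', he, hf, hef]; ring
    have ha : a ≠ 0 := by rintro rfl; exact hu (by simpa using q1)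
    have hb : b ≠ 0 := by rintro rfl; exact hu (by simpa using q1)
    obtain ⟨c, hc⟩ := FiniteField.isSquare_of_char_two (ringChar.eq F 2) (b / a / Q y)
    have hc0 : c ≠ 0 := by
      rintro rfl
      exact div_ne_zero (div_ne_zero hb ha) hy0 (by simpa using hc)
    obtain ⟨k, hk, a', b', e2, e3⟩ := h.exists_eichSub_pair hB he hf hef (c • y)
    rw [e3 (smul_ne_zero hc0 fun h0 => hy0 (by rw [h0, (clQuad h hB).Q_zero]))
      (Submodule.smul_mem _ _ hy)] at e2
    have q2 : b' = b / a := by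
      have := k.2.2 (c • y)
      rw [e2, h.smul' c, ← hc] at this
      simpa [h.add', h.smul', he, hf, hef, div_mul_cancel₀ _ hy0] using this
    have e4 : g.1 u = a • k.1 (c • y) := by
      rw [e1, e2, q2, smul_add, smul_smul, smul_smul, mul_one, mul_div_cancel₀ _ ha]
    have e5 : g * h.reflO u * g⁻¹ = k * h.reflO y * k⁻¹ := by
      rw [h.conj_reflO, h.conj_reflO, e4, h.reflO_smul ha, map_smul, h.reflO_smul hc0]
    have e6 : h.reflO u * h.reflO y =
        g⁻¹ * k * (h.reflO y * (k⁻¹ * g) * (h.reflO y)⁻¹) := by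
      rw [h.reflO_inv, show h.reflO u = g⁻¹ * (k * h.reflO y * k⁻¹) * g by rw [← e5]; group]; group
    rw [e6]
    exact mul_mem (mul_mem (inv_mem hg) hk)
      (Subgroup.Normal.conj_mem inferInstance _ (mul_mem (inv_mem hk) hg) _)
  have rr := h.reflO_mul_self y
  have cj : ∀ g ∈ h.eichSub, h.reflO y * g * h.reflO y ∈ h.eichSub := fun g hg => by
    simpa [h.reflO_inv] using Subgroup.Normal.conj_mem inferInstance _ hg (h.reflO y)
  let K : Subgroup (Isom B Q) :=
    { carrier := {g | g ∈ h.eichSub ∨ g * h.reflO y ∈ h.eichSub}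
      one_mem' := Or.inl (one_mem _)
      mul_mem' := by
        rintro a b (ha | ha) (hb | hb)
        · exact Or.inl (mul_mem ha hb)
        · exact Or.inr (by rw [mul_assoc]; exact mul_mem ha hb)
        · refine Or.inr ?_
          have := mul_mem ha (cj b hb)
          rwa [← mul_assoc, ← mul_assoc, mul_assoc a, rr, mul_one] at this
        · refine Or.inl ?_
          have := mul_mem ha (cj _ hb)
          rwa [← mul_assoc, ← mul_assoc, ← mul_assoc, mul_assoc a, rr, mul_one, mul_assoc, rr,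
            mul_one] at this
      inv_mem' := by
        rintro a (ha | ha)
        · exact Or.inl (inv_mem ha)
        · refine Or.inr ?_
          have := cj _ (inv_mem ha)
          rwa [_root_.mul_inv_rev, h.reflO_inv, ← mul_assoc, rr, one_mul] at this }
  have hK : ∀ g, g ∈ h.eichSub ∨ g * h.reflO y ∈ h.eichSub := fun g =>
    (h.isom_induction hB K (fun v hv => Or.inr (c1 v hv))
      (fun u w hu huw _ => Or.inl (h.eich_mem_eichSub hu huw)) ▸ Subgroup.mem_top g : g ∈ K)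
  by_cases hk : ∃ k ∈ M, dick k.1 ≠ 0
  · obtain ⟨k, hk, hk'⟩ := hk
    have r1 : h.reflO y ∈ M := (M.mul_mem_cancel_left hk).1
      (hM ((hK k).resolve_left fun h0 => hk' (dick_eichSub h hB h0)))
    exact Or.inl (eq_top_iff.2 fun g _ => (hK g).elim (hM ·) fun h0 =>
      (M.mul_mem_cancel_right r1).1 (hM h0))
  push Not at hk
  refine Or.inr fun g => ⟨hk g, fun hg => hM ((hK g).resolve_right fun h0 => ?_)⟩
  have := dick_eichSub h hB h0
  rw [h.dick_mul_reflO hB g hy0, hg] at this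
  exact absurd this (by decide)

end orth

variable {l : Type*} [Fintype l] [DecidableEq l] {F : Type*} [Field F]

local notation "𝔅" => spBilin l F
local notation "𝕍" => (l ⊕ l → F)
local notation "𝔾" => symplecticGroup l F

variable {H : Subgroup (symplecticGroup l F)}

/-- the linear equivalence of a symplectic matrix. -/
noncomputable def lin : 𝔾 →* (𝕍 ≃ₗ[F] 𝕍) := (isomGroup (𝔅)).subtype.comp spEquiv.toMonoidHom

theorem lin_app (g : 𝔾) (x : 𝕍) : lin g x = ap g x := rfl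

theorem rank_lin (g : 𝔾) : finrank F (movS (lin g)) = (g.1 - 1).rank := by
  have : (lin g : 𝕍 →ₗ[F] 𝕍) - LinearMap.id = (g.1 - 1).mulVecLin := LinearMap.ext fun x => by
    rw [Matrix.mulVecLin_apply, sub_mulVec, one_mulVec]; rfl
  rw [Matrix.rank, movS, this]

theorem Hy.cases [Finite F] {e f : 𝕍} (s : Hy H e f) (hi : Irr H) :
    (∀ g : 𝔾, g ∈ H ↔ ∀ x, s.Q (ap g x) = s.Q x) ∨
      ∀ g : 𝔾, g ∈ H ↔ (∀ x, s.Q (ap g x) = s.Q x) ∧ Even (g.1 - 1).rank := by
  have hq := s.isQuad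
  have hB : (𝔅).SeparatingLeft := spBilin_nondegenerate.1
  have hc := clQuad hq hB
  have m1 : H.map lin ≤ Isom (𝔅) s.Q := by
    rintro _ ⟨g, hg, rfl⟩
    exact hq.mem_isom.2 (s.Q_inv hi hg)
  have fl : ∀ {u x : 𝕍}, Big H u → 𝔅 x u = 1 → hc.Full (H.map lin) u := fun {u x} hu hx =>
    ⟨s.Q_big hu, fun w c hw hcw => ⟨_, s.E_Q hi hu hx (brefl hw), LinearEquiv.ext fun v => by
      rw [lin_app, E_app (brefl hw), hc.eich_apply (s.Q_big hu) hw, show c = s.Q w from hcw,
        bsw v u, bsw v w]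
      linear_combination (norm := module) (-𝔅 w v * s.h2) • u⟩⟩
  have m2 := hc.om_le_of_full m1 (fl s.be s.ef) (fl s.bf s.fe) (by simp [s.fe])
  have m3 : hq.eichSub ≤ (H.map lin).comap (Isom (𝔅) s.Q).subtype := hq.eichSub_le fun u w a b => by
    refine m2 ?_
    convert hc.eich_mem_om (c := s.Q w) a b rfl using 1
    ext x : 1
    exact (hq.eich_apply a b x).trans (by rw [hc.eich_apply a b]; simp)
  have inj : ∀ g : 𝔾, lin g ∈ H.map lin → g ∈ H := fun g ⟨k, hk, e1⟩ =>
    (gext fun x => LinearEquiv.congr_fun e1 x : k = g) ▸ hk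
  rcases orth_cases hq hB s.h2 (by rw [frk]; have := s.hl; omega) (s.Q_big s.be) (s.Q_big s.bf)
    s.fe m3 with h | h
  · exact Or.inl fun g => ⟨fun hg => s.Q_inv hi hg, fun hg => inj g
      (h ▸ Subgroup.mem_top _ : (⟨lin g, hq.mem_isom.2 hg⟩ : Isom (𝔅) s.Q) ∈
        (H.map lin).comap (Isom (𝔅) s.Q).subtype)⟩
  · refine Or.inr fun g => ⟨fun hg => ⟨s.Q_inv hi hg, ?_⟩, fun hg => inj g ?_⟩
    · rw [← rank_lin, ← dick_eq_zero_iff]
      exact (h ⟨lin g, m1 ⟨g, hg, rfl⟩⟩).1 ⟨g, hg, rfl⟩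
    · exact (h ⟨lin g, hq.mem_isom.2 hg.1⟩).2 (by
        rw [dick_eq_zero_iff]; exact (rank_lin g).symm ▸ hg.2)

theorem exc_trans (h2 : (2 : F) = 0) (hF : ∀ c : F, c = 0 ∨ c = 1) (hi : Irr H) {e x : 𝕍}
    (he : e ≠ 0) (be : Big H e) (bx : Big H x) (hx : 𝔅 x e = 0) (hxe : ∀ a : F, x ≠ a • e)
    (h : E e x 1 ∈ H) {z : 𝕍} (hz : z ≠ 0) : ∃ g ∈ H, ap g e = z := by
  set O : 𝕍 → Prop := fun v => ∃ g ∈ H, ap g e = v
  have o1 : ∀ v, O v → ∀ g ∈ H, O (ap g v) := fun v ⟨k, hk, e1⟩ g hg =>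
    ⟨g * k, H.mul_mem hg hk, by rw [ap_mul, e1]⟩
  have o2 : ∀ v, O v → Big H v := fun v ⟨k, hk, e1⟩ => e1 ▸ be.map hk
  have o3 : ∀ v u, O v → Big H u → 𝔅 v u = 0 → (∀ a : F, v ≠ a • u) → O (v + u) :=
    fun v u hv hu h1 h3 => by
      obtain ⟨g, hg, e1⟩ := hu.shift h1 h3 1
      simpa [e1] using o1 v hv g hg
  have two : ∀ u : 𝕍, u + u = 0 := fun u => by rw [← two_smul F, h2, zero_smul]
  obtain ⟨g, hg, h1⟩ := hi.ex_np he he
  set f := ap g e
  have hf : 𝔅 f e = 1 := (hF _).resolve_left h1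
  have hf' : 𝔅 e f = 1 := by rw [bsw, hf]; linear_combination -h2
  have of : O f := ⟨g, hg, rfl⟩
  set y := x + 𝔅 x f • e with hy
  have y1 : 𝔅 y e = 0 := by simp [hy, hx, bs]
  have y2 : 𝔅 y f = 0 := by simp only [hy, map_add, map_smul, LinearMap.add_apply,
    LinearMap.smul_apply, hf', smul_eq_mul]; linear_combination 𝔅 x f * h2
  have y3 : E e y 1 ∈ H := by rwa [hy, E_add_smul hx, h2, zero_mul, add_zero]
  have a1 := o1 f of _ y3
  rw [E_app y1, hf, brefl y2, one_smul, zero_add, mul_one, one_smul] at a1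
  have a2 := o3 _ y a1 (be.line bx hx hxe _) (by simp [bs, brefl y1, brefl y2]) fun a ha => by
    have := congrArg (fun u => 𝔅 u e) ha
    simp [hf, y1, bs] at this
  rw [add_right_comm, add_assoc f y, two, add_zero] at a2
  have a3 : ∀ z, 𝔅 z e = 1 → O z := fun z hz => by
    have h0 : 𝔅 (z - f) e = 0 := by simp [hz, hf]
    obtain ⟨-, d, r⟩ := be _ h0
    have b1 := o1 f of _ r
    have b2 := o1 _ a2 _ r
    rw [map_add, E_fix h0] at b2
    rw [E_app h0, hf, one_smul, add_sub_cancel] at b1 b2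
    rcases hF (𝔅 f (z - f) + d * 1) with h | h
    · rwa [h, zero_smul, add_zero] at b1
    · rwa [h, one_smul, add_assoc, two, add_zero] at b2
  rcases hF (𝔅 z e) with h0 | h0
  swap
  · exact a3 z h0
  by_cases hze : ∃ a : F, z = a • e
  · obtain ⟨a, rfl⟩ := hze
    rcases hF a with rfl | rfl
    · simp at hz
    · exact ⟨1, H.one_mem, by simp [ap_one]⟩
  push Not at hze
  obtain ⟨u, u1, u2⟩ := ex_perp1 (indep_symm he hze hz)
  have := o3 _ u (a3 (z + u) (by simp [h0, u1])) (o2 u (a3 u u1)) (by simp [bs, brefl u2])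
    fun a ha => by
      have h3 := congrArg (fun u => 𝔅 u e) ha
      simp only [map_add, map_smul, LinearMap.add_apply, LinearMap.smul_apply, h0, u1,
        smul_eq_mul, zero_add, mul_one] at h3
      rw [← h3, one_smul, add_eq_right] at ha
      exact hz ha
  rwa [add_assoc, two, add_zero] at this

variable (l F) in
/-- the natural module as a set acted on. -/
def Vec : Type _ := l ⊕ l → F

instance : MulAction (symplecticGroup l F) (Vec l F) where
  smul g v := ap g v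
  one_smul := ap_one
  mul_smul := ap_mul

/-- a vector as a point. -/
def toVec (v : 𝕍) : Vec l F := v

theorem exc_card [Fintype F] (hq : Fintype.card F = 2) (hl : Fintype.card l = 2) (h2 : (2 : F) = 0)
    (hF : ∀ c : F, c = 0 ∨ c = 1) (hi : Irr H) {e x : 𝕍}
    (he : e ≠ 0) (be : Big H e) (bx : Big H x) (hx : 𝔅 x e = 0) (hxe : ∀ a : F, x ≠ a • e)
    (h : E e x 1 ∈ H) : 120 ≤ Nat.card H := by
  have h1 : MulAction.orbit H (toVec e) = ({0}ᶜ : Set 𝕍) := Set.ext fun z => ⟨by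
    rintro ⟨g, rfl⟩
    exact sp_mulVec_ne_zero g.1 he, fun hz => by
      obtain ⟨g, hg, e1⟩ := exc_trans h2 hF hi he be bx hx hxe h hz
      exact ⟨⟨g, hg⟩, e1⟩⟩
  have h3 : (MulAction.stabilizer H (toVec e)).index = 15 := by
    rw [MulAction.index_stabilizer, h1]
    change ({0}ᶜ : Set 𝕍).ncard = 15
    rw [Set.ncard_compl, Set.ncard_singleton, Nat.card_eq_fintype_card, card_V, hq, hl]
    rfl
  obtain ⟨y, y1, y2⟩ := ex_perp1 hxe
  obtain ⟨f, hf⟩ := exists_spB_eq_one he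
  set K := (spQv e).comap H.subtype
  have k1 : K ≤ MulAction.stabilizer H (toVec e) := fun g hg => hg.1
  have hx0 : x ≠ 0 := by simpa using hxe 0
  have r : E x e 1 ∈ H := by
    have := bx.pp h2 (brefl hx) (indep_symm he hxe hx0) (b := 1) (δ := 1) (by rwa [one_smul]) 1
    rwa [one_pow, mul_one, one_smul] at this
  have k2 : K ≠ MulAction.stabilizer H (toVec e) := fun hk => by
    have : (⟨_, r⟩ : H) ∈ K := by
      rw [hk]
      change ap (E x e 1) e = e
      rw [E_perp (brefl hx) _ (brefl hx)]; simp [bs]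
    obtain ⟨a, ha⟩ := this.2 y y2
    change ap (E x e 1) y = _ at ha
    rw [E_app (brefl hx), y1, y2] at ha
    exact hxe (a - 1) (by linear_combination (norm := module) ha)
  have k3 : Nat.card (F × F) ≤ Nat.card K := Nat.card_le_card_of_surjective
    (fun k => (𝔅 f (ap k.1.1 x - x), 𝔅 f (ap k.1.1 y - y))) fun ⟨s, t⟩ => by
      have h0 : 𝔅 (t • x - s • y) e = 0 := by simp [hx, y2]
      obtain ⟨-, d, r⟩ := be _ h0
      refine ⟨⟨⟨_, r⟩, E_fix h0 d, fun v hv => ⟨_, E_perp h0 d hv⟩⟩, ?_⟩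
      simp [E_perp h0 d hx, E_perp h0 d y2, hf, bs, bsw x y, y1]
  rw [Nat.card_prod, Nat.card_eq_fintype_card, hq] at k3
  obtain ⟨k, hk⟩ := Subgroup.card_dvd_of_le k1
  have k4 : k ≠ 1 := by
    rintro rfl
    exact k2 (Subgroup.eq_of_le_of_card_ge k1 (by rw [hk, mul_one]))
  have k5 : k ≠ 0 := by
    rintro rfl
    exact Nat.card_pos.ne' hk
  rw [← (MulAction.stabilizer H (toVec e)).index_mul_card, h3, hk]
  have := Nat.mul_le_mul k3 (show 2 ≤ k by omega)
  omega

theorem six_cases (K : Subgroup (Equiv.Perm (Fin 6))) (h : 120 ≤ Nat.card K) (hK : K ≠ ⊤) :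
    Nonempty (K ≃* alternatingGroup (Fin 6)) ∨ Nonempty (K ≃* Equiv.Perm (Fin 5)) := by
  have h1 := K.index_mul_card
  rw [Nat.card_perm, Nat.card_eq_fintype_card (α := Fin 6), Fintype.card_fin] at h1
  have h2 : K.index ≤ 6 := by
    by_contra hc
    have := Nat.mul_le_mul (not_le.1 hc) h
    rw [h1] at this
    simp [Nat.factorial] at this
  by_cases h6 : K.index = 6
  · exact Or.inr (S5945.result.2.1 K h6)
  have h3 : K.normalCore ≠ ⊥ := fun h0 => by
    rw [Subgroup.normalCore_eq_ker, MonoidHom.ker_eq_bot_iff] at h0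
    have := Nat.card_le_card_of_injective _ h0
    rw [Nat.card_perm, Nat.card_perm, Nat.card_eq_fintype_card, Fintype.card_fin] at this
    exact absurd (this.trans (Nat.factorial_le (show K.index ≤ 5 by omega))) (by decide)
  have h4 := (Equiv.Perm.alternatingGroup_le_of_normal (α := Fin 6) (by simp)
    ((Subgroup.nontrivial_iff_ne_bot _).2 h3)).trans K.normalCore_le
  have h5 := Subgroup.index_dvd_of_le h4
  rw [alternatingGroup.index_eq_two] at h5
  rcases (Nat.dvd_prime Nat.prime_two).1 h5 with h | h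
  · exact (hK (Subgroup.index_eq_one.1 h)).elim
  · exact Or.inl ⟨MulEquiv.subgroupCongr (Equiv.Perm.eq_alternatingGroup_of_index_eq_two h)⟩

theorem le_spQv [Fintype F] (h2 : (2 : F) = 0) {a : 𝕍} (ha : a ≠ 0) {N : Subgroup 𝔾}
    (hN : IsPGroup 2 N) (h1 : ∀ k ∈ N, ap k a = a)
    (h3 : ∀ g, ap g a = a → ∀ k ∈ N, g⁻¹ * k * g ∈ N) : N ≤ spQv a := by
  haveI : Fact (Nat.Prime 2) := ⟨Nat.prime_two⟩
  have hle : ∀ k : N, (F ∙ a) ≤ (F ∙ a).comap (ap k.1) := fun k => by
    rw [Submodule.span_singleton_le_iff_mem, Submodule.mem_comap, h1 k k.2]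
    exact Submodule.mem_span_singleton_self a
  letI : MulAction N (𝕍 ⧸ (F ∙ a)) :=
    { smul := fun k => (F ∙ a).mapQ (F ∙ a) (ap k.1) (hle k)
      one_smul := fun x => Submodule.Quotient.induction_on _ x fun v =>
        congrArg Submodule.Quotient.mk (ap_one v)
      mul_smul := fun k k' x => Submodule.Quotient.induction_on _ x fun v =>
        congrArg Submodule.Quotient.mk (ap_mul _ _ v) }
  have hd : 2 ∣ Nat.card (𝕍 ⧸ (F ∙ a)) := by
    have e1 := Submodule.finrank_quotient_add_finrank (F ∙ a)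
    have e2 : 0 < Fintype.card l := Fintype.card_pos_iff.2 (by
      by_contra hc
      rw [not_nonempty_iff] at hc
      exact ha (Subsingleton.elim _ _))
    rw [finrank_span_singleton ha, frk] at e1
    rw [card_eq_pow (F := F), Nat.card_eq_fintype_card]
    exact dvd_pow (Nat.dvd_of_mod_eq_zero (two_eq_zero_iff_even_card.1 h2)) (by omega)
  obtain ⟨b, hb, hb0⟩ := hN.exists_fixed_point_of_prime_dvd_card_of_fixed_point _ hd (a := 0)
    fun k => map_zero ((F ∙ a).mapQ (F ∙ a) (ap k.1) (hle k))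
  obtain ⟨x, rfl⟩ := Submodule.Quotient.mk_surjective _ b
  have hx : ∀ c : F, x ≠ c • a := fun c h => hb0 ((Submodule.Quotient.mk_eq_zero _).2
    (h ▸ Submodule.smul_mem _ _ (Submodule.mem_span_singleton_self a))).symm
  have fx : ∀ k ∈ N, ∃ c : F, ap k x = x + c • a := fun k hk => by
    obtain ⟨c, hc⟩ := Submodule.mem_span_singleton.1 ((Submodule.Quotient.eq _).1 (hb ⟨k, hk⟩))
    exact ⟨c, by rw [hc]; exact (add_sub_cancel _ _).symm⟩
  have all : ∀ z, (∀ c : F, z ≠ c • a) → 𝔅 z a = 𝔅 x a → ∀ k ∈ N, ∃ c : F, ap k z = z + c • a :=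
    fun z hz hza k hk => by
      obtain ⟨g, g1, rfl⟩ := trans2 ha hx ha hz hza
      obtain ⟨c, hc⟩ := fx _ (h3 g g1 k hk)
      refine ⟨c, ?_⟩
      rw [ap_mul, ap_mul] at hc
      rw [← ap_inv g (ap k _), hc, map_add, map_smul, g1]
  refine fun k hk => ⟨h1 k hk, fun z hz => ?_⟩
  by_cases hza : ∃ c : F, z = c • a
  · obtain ⟨c, rfl⟩ := hza
    exact ⟨0, by change ap k _ = _; rw [map_smul, h1 k hk]; simp⟩
  push Not at hza
  by_cases h0 : 𝔅 x a = 0
  · exact all z hza (hz.trans h0.symm) k hk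
  obtain ⟨c, hc⟩ := all (x + z) (fun c h => h0 (by simpa [hz, bs] using congrArg (𝔅 · a) h))
    (by simp [hz]) k hk
  obtain ⟨c', hc'⟩ := fx k hk
  rw [map_add, hc'] at hc
  exact ⟨c - c', by change ap k _ = _; linear_combination (norm := module) hc⟩

theorem rank_stv {a : 𝕍} (ha : a ≠ 0) {d : F} (hd : d ≠ 0) : ((stv a d).1 - 1).rank = 1 := by
  suffices movS (lin (stv a d)) = F ∙ a by rw [← rank_lin, this, finrank_span_singleton ha]
  refine le_antisymm (fun y hy => ?_) ((Submodule.span_singleton_le_iff_mem _ _).2 ?_)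
  · obtain ⟨x, rfl⟩ := mem_movS.1 hy
    rw [lin_app, T_app, add_sub_cancel_left]
    exact Submodule.smul_mem _ _ (Submodule.mem_span_singleton_self a)
  · obtain ⟨x, hx⟩ := exists_spB_eq_one ha
    exact mem_movS.2 ⟨d⁻¹ • x, by simp [lin_app, T_app, hx, smul_smul, inv_mul_cancel₀ hd]⟩

theorem big_of_card [Fintype F] {a : 𝕍} (ha : a ≠ 0) {X : Subgroup 𝔾} (hX : X ≤ spQv a)
    (hc : Nat.card X * Fintype.card F * Fintype.card F = Fintype.card F ^ (2 * Fintype.card l))
    (ht : ∀ k ∈ X, (k.1 - 1).rank ≠ 1) : Big X a := by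
  choose w d hw hk using fun k : X => exists_E ha (hX k.2).1 (hX k.2).2
  have inj : Function.Injective fun p : X × F => (⟨w p.1 + p.2 • a, show 𝔅 _ a = 0 by
      simp [hw, bs]⟩ : Kp a) := fun ⟨k, c⟩ ⟨k', c'⟩ h => by
    have h1 : w k + c • a = w k' + c' • a := congrArg Subtype.val h
    have h3 : w k = w k' + (c' - c) • a := by linear_combination (norm := module) h1
    have h4 := hk k
    rw [h3, E_add_smul (hw k')] at h4
    have h5 := T_of_E (hw k') (h4 ▸ k.2) (hk k' ▸ k'.2)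
    have h6 := by_contra fun h0 => ht _ h5 (rank_stv ha h0)
    obtain rfl : k = k' := Subtype.ext (by rw [h4, hk k', sub_eq_zero.1 h6])
    rw [add_right_inj] at h1
    rw [smul_left_injective F ha h1]
  have hs := (Function.Injective.bijective_of_nat_card_le inj (le_of_eq (by
    rw [Nat.card_prod, Nat.card_eq_fintype_card (α := F)]
    exact Nat.eq_of_mul_eq_mul_right Fintype.card_pos ((card_Kp ha).trans hc.symm)))).2
  intro u hu
  obtain ⟨⟨k, c⟩, h⟩ := hs ⟨u, hu⟩
  obtain rfl : w k + c • a = u := congrArg Subtype.val h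
  exact In.add_smul ⟨hw k, d k, hk k ▸ k.2⟩ c

theorem main [Fintype F] (h2 : (2 : F) = 0) {n : ℕ} (hn : 2 ≤ n)
    {H : Subgroup (symplecticGroup (Fin n) F)} (hi : Irr H) {a : Fin n ⊕ Fin n → F} (ha : a ≠ 0)
    (hb : Big H a) : H = ⊤ ∨ (∃ Q, IsQuad (spBilin (Fin n) F) Q ∧
      ((∀ g, g ∈ H ↔ ∀ x, Q (ap g x) = Q x) ∨
        ∀ g, g ∈ H ↔ (∀ x, Q (ap g x) = Q x) ∧ Even (g.1 - 1).rank)) ∨
      Fintype.card F = 2 ∧ n = 2 ∧ (Nonempty (H ≃* alternatingGroup (Fin 6)) ∨
        Nonempty (H ≃* Equiv.Perm (Fin 5))) := by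
  by_cases h0 : H = ⊤
  · exact Or.inl h0
  have nf : ∀ x, x ≠ 0 → Big H x → ¬ Fl H x := fun x hx bx hf =>
    h0 (sp_eq_top_of_stv_mem H (all_full hi hx bx hf))
  by_cases hp : P1 H
  · obtain ⟨f, f1, f2, -⟩ := hi.partner ha hb
    have s : Hy H a f := ⟨h2, by simpa using hn, hp, hb, f1, f2⟩
    exact Or.inr (Or.inl ⟨s.Q, s.isQuad, s.cases hi⟩)
  have hF : ∀ c : F, c = 0 ∨ c = 1 := fun c => by
    by_contra hc
    push Not at hc
    exact hp (p1_big h2 hc.1 hc.2 nf)
  have hq : Fintype.card F = 2 := by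
    rw [← card_univ, show (univ : Finset F) = {0, 1} from by ext c; simpa using hF c,
      card_pair zero_ne_one]
  obtain rfl : n = 2 := by
    by_contra hc
    exact hp (p1_two h2 hF (by simp; omega) nf)
  refine Or.inr (Or.inr ⟨hq, rfl, ?_⟩)
  unfold P1 at hp
  push Not at hp
  obtain ⟨e, x, he, be, bx, hx, hxe, b, d, h, hd⟩ := hp
  obtain rfl := (hF d).resolve_left hd
  rcases hF b with rfl | rfl
  · rw [zero_smul, E_zero] at h
    exact (hd (C_two hF (nf e he be) h)).elim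
  rw [one_smul] at h
  have hc := exc_card hq (by simp) h2 hF hi he be bx hx hxe h
  obtain ⟨φ⟩ := Sp4_two_equiv (F := F) (by rwa [Nat.card_eq_fintype_card])
  have e1 := φ.subgroupMap H
  rcases six_cases (H.map φ.toMonoidHom) (hc.trans_eq (Nat.card_congr e1.toEquiv)) (fun h =>
    h0 (Subgroup.map_injective (f := φ.toMonoidHom) φ.injective (by
      rw [h, Subgroup.map_top_of_surjective _ φ.surjective]))) with ⟨⟨ψ⟩⟩ | ⟨⟨ψ⟩⟩
  · exact Or.inl ⟨e1.trans ψ⟩
  · exact Or.inr ⟨e1.trans ψ⟩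

/-- the inclusion in the general linear group. -/
def toGL : 𝔾 →* GL (l ⊕ l) F where
  toFun A := ⟨A.1, (A⁻¹).1, sp_mul_inv A, sp_inv_mul A⟩
  map_one' := Units.ext rfl
  map_mul' _ _ := Units.ext rfl

theorem toGL_inj : Function.Injective (toGL (l := l) (F := F)) := fun _ _ h =>
  Subtype.ext (congrArg Units.val h)

theorem exists_toGL {g : GL (l ⊕ l) F} (h : ∀ u v, 𝔅 (g.1 *ᵥ u) (g.1 *ᵥ v) = 𝔅 u v) :
    ∃ k, toGL k = g := ⟨⟨g.1, mem_symplecticGroup_iff_form.2 h⟩, Units.ext rfl⟩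

end Cfsg.Agent.H26.MI.SQ
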