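import Cfsg.Agent.L1.Se0
import Cfsg.Agent.H20.Invol

set_option autoImplicit false

namespace Cfsg.Agent.L1Se
open Subgroup Equiv
universe u
variable {G : Type u} [Group G] [Finite G] {ε : W →* G} {σ : G} {x : W}

def pT1_D : Subgroup W where
  carrier := {w | ∃ i j : Fin 3, w = zE ^ i.val * zF ^ j.val}
  one_mem' := ⟨0, 0, by simp⟩
  mul_mem' := by
    rintro _ _ ⟨i, j, rfl⟩ ⟨k, l, rfl⟩
    exact (by decide +kernel : ∀ i j k l : Fin 3, ∃ a b : Fin 3,
      zE ^ i.val * zF ^ j.val * (zE ^ k.val * zF ^ l.val) = zE ^ a.val * zF ^ b.val) i j k l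
  inv_mem' := by
    rintro _ ⟨i, j, rfl⟩
    exact (by decide +kernel : ∀ i j : Fin 3, ∃ a b : Fin 3,
      (zE ^ i.val * zF ^ j.val)⁻¹ = zE ^ a.val * zF ^ b.val) i j

theorem pT1_card : Nat.card pT1_D = 9 := by
  have : Function.Bijective (fun p : Fin 3 × Fin 3 =>
      (⟨zE ^ p.1.val * zF ^ p.2.val, p.1, p.2, rfl⟩ : pT1_D)) := by
    refine ⟨fun p q e => ?_, fun ⟨_, i, j, e⟩ => ⟨(i, j), Subtype.ext e.symm⟩⟩
    have := (by decide +kernel : ∀ i j k l : Fin 3,
      zE ^ i.val * zF ^ j.val = zE ^ k.val * zF ^ l.val → i = k ∧ j = l) _ _ _ _ (congrArg Subtype.val e)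
    exact Prod.ext this.1 this.2
  rw [← Nat.card_eq_of_bijective _ this]; simp

set_option synthInstance.maxSize 4000 in
theorem pT1_F1 {d : W} (hd : d ∈ pT1_D) : d ^ 3 = 1 ∧ d * tE = tE * d ∧ d * zE = zE * d ∧ d * zF = zF * d ∧ d ≠ tE ∧
    d ≠ eA * eE ∧ d ≠ eB * eE ∧ d * tE ≠ eA * eE ∧ d * tE ≠ eB * eE ∧
    (d = 1 ∨ d = zE ∨ d = zE⁻¹ ∨ d = zF ∨ d = zF⁻¹ ∨ d = zE * zF ∨ d = (zE * zF)⁻¹ ∨
      d = eA * (zE * zF) * eA⁻¹ ∨ d = (eA * (zE * zF) * eA⁻¹)⁻¹) := by
  obtain ⟨i, j, rfl⟩ := hd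
  revert i j; decide +kernel

theorem pT1_F2 (w : W) (h : w * tE = tE * w) : ∃ i j : Fin 3, ∃ k l m : Fin 2,
    w = zE ^ i.val * zF ^ j.val * tE ^ k.val * eE ^ l.val * eA ^ m.val := by
  obtain ⟨a, b⟩ := w
  obtain ⟨i, l, h1⟩ := (by decide +kernel : ∀ a : Perm (Fin 3), ∃ i : Fin 3, ∃ l : Fin 2,
    a = zE.1 ^ i.val * eE.1 ^ l.val) a
  obtain ⟨j, k, m, h2⟩ := (by decide +kernel : ∀ b : Perm (Fin 5), b * tE.2 = tE.2 * b →
    ∃ j : Fin 3, ∃ k m : Fin 2, b = zF.2 ^ j.val * tE.2 ^ k.val * eA.2 ^ m.val) b (congrArg Prod.snd h)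
  refine ⟨i, j, k, l, m, Prod.ext ?_ ?_⟩
  · simpa [zE, zF, tE, eE, eA] using h1
  · simpa [zE, zF, tE, eE, eA] using h2

theorem pT1_F3 {w d : W} (h : w * tE = tE * w) (hd : d ∈ pT1_D) : w * d * w⁻¹ ∈ pT1_D := by
  have k : ∀ w : W, (∀ i j : Fin 3, ∃ a b : Fin 3, w * (zE ^ i.val * zF ^ j.val) * w⁻¹ =
      zE ^ a.val * zF ^ b.val) → w ∈ normalizer (pT1_D : Set W) := fun w hw =>
    mem_normalizer_fintype (by rintro _ ⟨i, j, rfl⟩; exact hw i j)
  obtain ⟨i, j, k1, l, m, rfl⟩ := pT1_F2 w h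
  refine (mem_normalizer_iff.1 (mul_mem (mul_mem (mul_mem (mul_mem (pow_mem ?_ _) (pow_mem ?_ _))
    (pow_mem ?_ _)) (pow_mem ?_ _)) (pow_mem ?_ _)) d).1 hd <;> exact k _ (by decide +kernel)

theorem pT1_F4 {w : W} (h1 : w * zE = zE * w) (h2 : w * zF = zF * w) : w ∈ pT1_D ∨ w * tE ∈ pT1_D := by
  obtain ⟨a, b⟩ := w
  obtain ⟨i, h3⟩ := (by decide +kernel : ∀ a : Perm (Fin 3), a * zE.1 = zE.1 * a → ∃ i : Fin 3,
    a = zE.1 ^ i.val) a (congrArg Prod.fst h1)
  obtain ⟨j, h4⟩ := (by decide +kernel : ∀ b : Perm (Fin 5), b * zF.2 = zF.2 * b →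
    ∃ j : Fin 3, b = zF.2 ^ j.val ∨ b * tE.2 = zF.2 ^ j.val) b (congrArg Prod.snd h2)
  rcases h4 with h4 | h4
  · exact Or.inl ⟨i, j, Prod.ext (by simpa [zE, zF] using h3) (by simpa [zE, zF] using h4)⟩
  · exact Or.inr ⟨i, j, Prod.ext (by simpa [zE, zF, tE] using h3) (by simpa [zE, zF, tE] using h4)⟩

omit [Finite G] in
theorem pT1_cc (g a : G) :
    Nat.card (centralizer ({g * a * g⁻¹} : Set G)) = Nat.card (centralizer ({a} : Set G)) := by
  have : centralizer ({g * a * g⁻¹} : Set G) = (centralizer {a}).map (MulAut.conj g).toMonoidHom := by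
    ext c
    constructor
    · intro h
      refine ⟨g⁻¹ * c * g, mem_centralizer_singleton_iff.2 ?_, by simp [mul_assoc]⟩
      have := mem_centralizer_singleton_iff.1 h
      calc _ = g⁻¹ * (c * (g * a * g⁻¹)) * g := by group
        _ = _ := by rw [this]; group
    · rintro ⟨c, hc, rfl⟩
      have := mem_centralizer_singleton_iff.1 hc
      refine mem_centralizer_singleton_iff.2 ?_
      simp only [MulEquiv.coe_toMonoidHom, MulAut.conj_apply]
      calc _ = g * (c * a) * g⁻¹ := by group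
        _ = _ := by rw [this]; group
  rw [this, card_map_of_injective (MulAut.conj g).injective]

omit [Finite G] in
theorem pT1_ci (a : G) : centralizer ({a⁻¹} : Set G) = centralizer ({a} : Set G) := by
  ext c
  simp only [mem_centralizer_singleton_iff]
  exact ⟨fun h => (Commute.inv_right_iff.1 h).eq, fun h => (Commute.inv_right (a := c) h).eq⟩

theorem pT1_rz (h : SA ε σ x) {g : G} (hg : g * ε zE * g⁻¹ ∈ zpowers (ε zE)) : g ∈ ε.range :=
  (h.rng g).2 (mem_normalizer_fintype (by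
    rintro _ ⟨k, rfl⟩
    simp only
    rw [← conj_zpow]; exact zpow_mem hg k))

omit [Finite G] in
theorem pT1_sz (h : SA ε σ x) : σ * ε zF * σ⁻¹ = ε zE := by
  rw [← h.sz]
  calc _ = (σ * σ) * ε zE * (σ * σ)⁻¹ := by group
    _ = _ := by rw [h.ss]; group

theorem pT1_sD (h : SA ε σ x) : σ ∈ normalizer ((pT1_D.map ε : Subgroup G) : Set G) :=
  mem_normalizer_fintype (by
    rintro _ ⟨_, ⟨i, j, rfl⟩, rfl⟩
    have : σ * ε (zE ^ i.val * zF ^ j.val) * σ⁻¹ =
        (σ * ε zE * σ⁻¹) ^ i.val * (σ * ε zF * σ⁻¹) ^ j.val := by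
      rw [conj_pow, conj_pow]; simp [mul_assoc]
    rw [this, h.sz, pT1_sz h]
    exact mul_mem (pow_mem (⟨zF, ⟨0, 1, by simp⟩, rfl⟩ : ε zF ∈ pT1_D.map ε) _)
      (pow_mem (⟨zE, ⟨1, 0, by simp⟩, rfl⟩ : ε zE ∈ pT1_D.map ε) _))

theorem pT1_rD (h : SA ε σ x) {g : G} (hg : g ∈ ε.range) (ht : g * ε tE = ε tE * g) :
    g ∈ normalizer ((pT1_D.map ε : Subgroup G) : Set G) := by
  obtain ⟨w, rfl⟩ := hg
  refine mem_normalizer_fintype ?_
  rintro _ ⟨d, hd, rfl⟩
  exact ⟨_, pT1_F3 (h.inj (by simpa using ht)) hd, by simp⟩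

theorem pT1_nD (h : SA ε σ x) {g : G} (hg : g ∈ normalizer ((pT1_D.map ε : Subgroup G) : Set G)) :
    g ∈ ε.range ∨ σ * g ∈ ε.range := by
  obtain ⟨d, hd, e⟩ := (mem_normalizer_iff.1 hg (ε zE)).1 ⟨zE, ⟨1, 0, by simp⟩, rfl⟩
  have c := pT1_cc g (ε zE)
  have cy := h.cy
  rw [h.cz, ← e] at c
  have k : σ * g * ε zE * (σ * g)⁻¹ = σ * ε d * σ⁻¹ := by rw [e]; group
  rcases (pT1_F1 hd).2.2.2.2.2.2.2.2.2 with f | f | f | f | f | f | f | f | f <;> subst f
  · have : ε zE = ε 1 := by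
      rw [map_one] at e ⊢; exact conj_eq_one_iff.1 e.symm
    exact absurd (h.inj this) (by decide +kernel)
  · exact Or.inl (pT1_rz h (e ▸ mem_zpowers _))
  · exact Or.inl (pT1_rz h (e ▸ by simp))
  · exact Or.inr (pT1_rz h (by rw [k, pT1_sz h]; simp))
  · exact Or.inr (pT1_rz h (by rw [k, map_inv, conj_inv.symm, pT1_sz h]; simp))
  · rw [map_mul] at c; omega
  · rw [map_inv, pT1_ci, map_mul] at c; omega
  · rw [map_mul, map_mul, map_inv, pT1_cc, map_mul] at c; omega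
  · rw [map_inv, pT1_ci, map_mul, map_mul, map_inv, pT1_cc, map_mul] at c; omega

theorem pT1_yD (h : SA ε σ x) : centralizer ({ε zE * ε zF} : Set G) ≤
    normalizer ((pT1_D.map ε : Subgroup G) : Set G) := by
  set D := pT1_D.map ε with hD
  set H := centralizer ({ε zE * ε zF} : Set G) ⊓ normalizer (D : Set G) with hH
  have c9 : Nat.card D = 9 := by rw [hD, card_map_of_injective h.inj, pT1_card]
  have l1 : D ≤ H ⊓ ε.range := by
    rintro _ ⟨d, hd, rfl⟩
    refine ⟨⟨mem_centralizer_singleton_iff.2 ?_, le_normalizer (⟨d, hd, rfl⟩ : ε d ∈ D)⟩, d, rfl⟩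
    obtain ⟨-, -, a, b, -⟩ := pT1_F1 hd
    rw [← map_mul, ← map_mul, ← map_mul, ← mul_assoc, a, mul_assoc, b, mul_assoc]
  have n1 : Nat.card ↥(H ⊓ ε.range) ≠ 9 := fun e => by
    have e2 := eq_of_le_of_card_ge l1 (by rw [e, c9])
    have : ε tE ∈ D := e2 ▸ ⟨⟨mem_centralizer_singleton_iff.2 (by
      rw [← map_mul, ← map_mul, ← map_mul]; congr 1; decide +kernel), pT1_rD h ⟨_, rfl⟩ rfl⟩, _, rfl⟩
    obtain ⟨d, hd, e3⟩ := this
    exact (pT1_F1 hd).2.2.2.2.1 (h.inj e3)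
  have n2 : Nat.card ↥(H ⊓ ε.range) ≠ Nat.card H := fun e => by
    have e2 := eq_of_le_of_card_ge (inf_le_left : H ⊓ ε.range ≤ H) (by rw [e])
    have : σ ∈ H ⊓ ε.range := e2.symm ▸ ⟨mem_centralizer_singleton_iff.2 (by
      have c : ε zF * ε zE = ε zE * ε zF := by rw [← map_mul, ← map_mul]; congr 1
      calc _ = (σ * ε zE * σ⁻¹) * (σ * ε zF * σ⁻¹) * σ := by group
        _ = _ := by rw [h.sz, pT1_sz h, c]), pT1_sD h⟩
    obtain ⟨w, e3⟩ := this.2
    have := h.sz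
    rw [← e3, ← map_inv, ← map_mul, ← map_mul] at this
    have := congrArg Prod.fst (h.inj this)
    exact absurd (conj_eq_one_iff.1 this) (by decide +kernel)
  have d1 := card_dvd_of_le l1
  have d2 := card_dvd_of_le (inf_le_left : H ⊓ ε.range ≤ H)
  have d3 := card_le_of_le (inf_le_left : H ≤ _)
  have d4 := Nat.le_of_dvd Nat.card_pos d2
  have d5 : 0 < Nat.card ↥(H ⊓ ε.range) := Nat.card_pos
  rw [h.cy] at d3
  rw [c9] at d1
  have : Nat.card H = 36 := by
    generalize Nat.card ↥(H ⊓ ε.range) = a at *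
    generalize Nat.card H = b at *
    have : a = 18 ∨ a = 27 ∨ a = 36 := by omega
    rcases this with rfl | rfl | rfl <;> omega
  have e := eq_of_le_of_card_ge (inf_le_left : H ≤ _) (by rw [this, h.cy])
  rw [← e]; exact inf_le_right

theorem pT1_cD (h : SA ε σ x) {g : G} {d : W} (hd : d ∈ pT1_D) (d1 : d ≠ 1)
    (ht : g * ε tE = ε tE * g) (e : g * ε d = ε d * g) :
    g ∈ normalizer ((pT1_D.map ε : Subgroup G) : Set G) := by
  have c := mem_centralizer_singleton_iff.2 e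
  have k1 : ∀ g : G, g * ε tE = ε tE * g → g ∈ centralizer ({ε zE} : Set G) →
      g ∈ normalizer ((pT1_D.map ε : Subgroup G) : Set G) := fun g ht c =>
    pT1_rD h (pT1_rz h (by rw [mem_centralizer_singleton_iff.1 c]; simp)) ht
  have k2 : g ∈ centralizer ({ε zF} : Set G) →
      g ∈ normalizer ((pT1_D.map ε : Subgroup G) : Set G) := fun c => by
    have := k1 (σ * g * σ⁻¹) (by
      rw [← h.st]
      calc _ = σ * (g * ε tE) * σ⁻¹ := by group
        _ = _ := by rw [ht]; group) (mem_centralizer_singleton_iff.2 (by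
      rw [← pT1_sz h]
      calc _ = σ * (g * ε zF) * σ⁻¹ := by group
        _ = _ := by rw [mem_centralizer_singleton_iff.1 c]; group))
    simpa [mul_assoc] using mul_mem (mul_mem (inv_mem (pT1_sD h)) this) (pT1_sD h)
  have k3 : g ∈ centralizer ({ε (eA * (zE * zF) * eA⁻¹)} : Set G) →
      g ∈ normalizer ((pT1_D.map ε : Subgroup G) : Set G) := fun c => by
    have nA := pT1_rD h (g := ε eA) ⟨_, rfl⟩ (by rw [← map_mul, ← map_mul]; congr 1; decide +kernel)
    have c' := mem_centralizer_singleton_iff.1 c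
    simp only [map_mul, map_inv] at c'
    have := pT1_yD h (show (ε eA)⁻¹ * g * ε eA ∈ _ from mem_centralizer_singleton_iff.2 (by
      calc _ = (ε eA)⁻¹ * (g * (ε eA * (ε zE * ε zF) * (ε eA)⁻¹)) * ε eA := by group
        _ = _ := by rw [c']; group))
    simpa [mul_assoc] using mul_mem (mul_mem nA this) (inv_mem nA)
  rcases (pT1_F1 hd).2.2.2.2.2.2.2.2.2 with f | f | f | f | f | f | f | f | f <;> subst f
  · exact absurd rfl d1
  · exact k1 g ht c
  · rw [map_inv, pT1_ci] at c; exact k1 g ht c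
  · exact k2 c
  · rw [map_inv, pT1_ci] at c; exact k2 c
  · rw [map_mul] at c; exact pT1_yD h c
  · rw [map_inv, pT1_ci, map_mul] at c; exact pT1_yD h c
  · exact k3 c
  · rw [map_inv, pT1_ci] at c; exact k3 c

theorem pT1_aux (t : T33.{u}) (h : SA ε σ x) (hx : x = eA ∨ x = eB) {X : Type u} [Group X] [Finite X]
    (C : Subgroup G) (hC : C = centralizer ({ε tE} : Set G)) (q : C →* X) (hs : Function.Surjective q)
    (hq : ∀ g, q g = 1 ↔ g.1 = 1 ∨ g.1 = ε tE) : ND ε σ ∨ Nonempty (X ≃* Perm (Fin 6)) := by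
  set D := pT1_D.map ε with hD
  have mC : ∀ {g}, g ∈ C ↔ g * ε tE = ε tE * g := hC ▸ mem_centralizer_singleton_iff
  have tt : ε tE * ε tE = 1 := by rw [← map_mul, show tE * tE = 1 by decide +kernel, map_one]
  have t1 : ε tE ≠ 1 := fun e => absurd (h.inj (e.trans (map_one ε).symm)) (by decide +kernel)
  have mW : ∀ {w : W}, w * tE = tE * w → ε w ∈ C := fun e => mC.2 (by rw [← map_mul, e, map_mul])
  have DC : D ≤ C := by rintro _ ⟨d, hd, rfl⟩; exact mW (pT1_F1 hd).2.1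
  have D3 : ∀ d ∈ D, d ^ 3 = 1 := by
    rintro _ ⟨d, hd, rfl⟩; rw [← map_pow, (pT1_F1 hd).1, map_one]
  have Dc : ∀ d ∈ D, ∀ d' ∈ D, d * d' = d' * d := by
    rintro _ ⟨d, hd, rfl⟩ _ ⟨_, ⟨i, j, rfl⟩, rfl⟩
    obtain ⟨-, -, a, b, -⟩ := pT1_F1 hd
    rw [← map_mul, ← map_mul]; congr 1
    exact (((show Commute d zE from a).pow_right _).mul_right ((show Commute d zF from b).pow_right _)).eq
  have L0 : ∀ a b : C, q a = q b → b.1 = a.1 ∨ b.1 = a.1 * ε tE := fun a b e => by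
    rcases (hq (a⁻¹ * b)).1 (by rw [map_mul, map_inv, e, inv_mul_cancel]) with f | f
    · left; exact (inv_mul_eq_one.1 f).symm
    · right; rw [← f]; simp
  have L1 : ∀ a b : C, a.1 ^ 3 = 1 → b.1 ^ 3 = 1 → q a = q b → a.1 = b.1 := fun a b ha hb e => by
    rcases L0 a b e with f | f
    · exact f.symm
    · rw [f, (show Commute a.1 (ε tE) from mC.1 a.2).mul_pow, ha, one_mul, pow_succ, pow_two, tt,
        one_mul] at hb
      exact absurd hb t1
  let f : D →* X := q.comp (inclusion DC)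
  have fi : Function.Injective f := fun a b e => Subtype.ext (L1 _ _ (D3 _ a.2) (D3 _ b.2) e)
  set S := f.range with hS
  have c9 : Nat.card S = 9 := by
    rw [← Nat.card_congr (MonoidHom.ofInjective fi).toEquiv, hD, card_map_of_injective h.inj, pT1_card]
  have qt : q ⟨ε tE, mC.2 rfl⟩ = 1 := (hq _).2 (Or.inr rfl)
  have qS : ∀ g : C, q g ∈ S ↔ g.1 ∈ D ∨ g.1 * ε tE ∈ D := fun g => by
    constructor
    · rintro ⟨d, e⟩
      rcases L0 _ _ e with k | k
      · left; rw [k]; exact d.2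
      · right; rw [k, mul_assoc, tt, mul_one]; exact d.2
    · rintro (k | k)
      · exact ⟨⟨_, k⟩, rfl⟩
      · refine ⟨⟨_, k⟩, ?_⟩
        change q (g * ⟨ε tE, mC.2 rfl⟩) = q g
        rw [map_mul, qt, mul_one]
  have L2 : ∀ g : C, q g ∈ normalizer (S : Set X) ↔ g.1 ∈ normalizer (D : Set G) := fun g => by
    constructor
    · intro hg
      refine mem_normalizer_fintype fun d hd => ?_
      obtain ⟨d', e⟩ := (mem_normalizer_iff.1 hg (f ⟨d, hd⟩)).1 ⟨_, rfl⟩
      have := L1 (inclusion DC d') (g * ⟨d, DC hd⟩ * g⁻¹) (D3 _ d'.2)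
        (by simp [conj_pow, D3 d hd]) (by rw [map_mul, map_mul, map_inv]; exact e)
      have e2 : (d' : G) = g * d * (g : G)⁻¹ := this
      rw [← e2]; exact d'.2
    · intro hg
      refine mem_normalizer_fintype ?_
      rintro _ ⟨d, rfl⟩
      refine ⟨⟨_, (mem_normalizer_iff.1 hg d.1).1 d.2⟩, ?_⟩
      change q (g * inclusion DC d * g⁻¹) = _
      rw [map_mul, map_mul, map_inv]; rfl
  have L4 : ∀ (g : C) (d : D), q g * f d = f d * q g → g.1 * d.1 = d.1 * g.1 := fun g d e => by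
    have := L1 (g * inclusion DC d * g⁻¹) (inclusion DC d) (by simp [conj_pow, D3 d d.2]) (D3 _ d.2)
      (by rw [map_mul, map_mul, map_inv]; exact mul_inv_eq_iff_eq_mul.2 e)
    exact mul_inv_eq_iff_eq_mul.1 this
  have pS : IsPGroup 3 S := IsPGroup.of_card (n := 2) (by rw [c9]; norm_num)
  have ix : ¬ 3 ∣ S.index := fun e => by
    obtain ⟨P, hP⟩ := h.syl
    have k1 := (card_dvd_of_surjective q hs).trans (card_subgroup_dvd_card C)
    rw [← S.card_mul_index, c9, ← (P : Subgroup G).card_mul_index, hP] at k1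
    exact P.not_dvd_index (e.trans (Nat.dvd_of_mul_dvd_mul_left (by norm_num) k1))
  have zD : ε zE ∈ D := ⟨zE, ⟨1, 0, by simp⟩, rfl⟩
  have zD' : ε zF ∈ D := ⟨zF, ⟨0, 1, by simp⟩, rfl⟩
  have cS : centralizer (S : Set X) = S := by
    refine le_antisymm (fun c hc => ?_) ?_
    · obtain ⟨g, rfl⟩ := hs c
      have a := L4 g ⟨_, zD⟩ (hc _ ⟨_, rfl⟩).symm
      have b := L4 g ⟨_, zD'⟩ (hc _ ⟨_, rfl⟩).symm
      obtain ⟨w, e⟩ := pT1_rz h (g := g.1) (by rw [a]; simp)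
      rw [← e] at a b
      rw [qS, ← e]
      rcases pT1_F4 (w := w) (h.inj (by simpa using a)) (h.inj (by simpa using b)) with k | k
      · exact Or.inl ⟨_, k, rfl⟩
      · exact Or.inr ⟨_, k, map_mul _ _ _⟩
    · rintro _ ⟨d, rfl⟩ _ ⟨d', rfl⟩
      rw [← map_mul, ← map_mul]; congr 1; exact Subtype.ext (Dc _ d'.2 _ d.2)
  have dih : Nonempty (normalizer (S : Set X) ⧸ S.subgroupOf (normalizer (S : Set X)) ≃* DihedralGroup 4) := by
    let K : Subgroup G := C ⊓ normalizer (D : Set G)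
    let ψ0 : K →* normalizer (S : Set X) := (q.comp (inclusion inf_le_left)).codRestrict _
      fun k => (L2 _).2 k.2.2
    let ψ := (QuotientGroup.mk' (S.subgroupOf (normalizer (S : Set X)))).comp ψ0
    have ψ1 : ∀ k : K, ψ k = 1 ↔ k.1 ∈ D ∨ k.1 * ε tE ∈ D := fun k =>
      (QuotientGroup.eq_one_iff _).trans (qS _)
    have ψs : Function.Surjective ψ := (QuotientGroup.mk'_surjective _).comp fun n => by
      obtain ⟨g, e⟩ := hs n.1
      exact ⟨⟨g.1, g.2, (L2 g).1 (e ▸ n.2)⟩, Subtype.ext e⟩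
    have mK : ∀ {w : W}, w * tE = tE * w → ε w ∈ K := fun e => ⟨mW e, pT1_rD h ⟨_, rfl⟩ (mC.1 (mW e))⟩
    have sK : σ ∈ K := ⟨mC.2 (mul_inv_eq_iff_eq_mul.1 h.st), pT1_sD h⟩
    have eK : ε eE ∈ K := mK (by decide +kernel)
    have is : σ⁻¹ = σ := inv_eq_of_mul_eq_one_right h.ss
    let a := ψ ⟨σ, sK⟩
    let b := ψ ⟨ε eE, eK⟩
    have aa : a * a = 1 := by rw [← map_mul, ← map_one ψ]; congr 1; exact Subtype.ext h.ss
    have bb : b * b = 1 := by
      rw [← map_mul, ← map_one ψ]; congr 1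
      exact Subtype.ext (by simp only [MulMemClass.mk_mul_mk]; rw [← map_mul, show eE * eE = 1 by decide +kernel, map_one]; rfl)
    have xe : (x * eE) * tE = tE * (x * eE) := by rcases hx with rfl | rfl <;> decide +kernel
    have c2 : (a * b) ^ 2 = ψ ⟨_, mK xe⟩ := by
      rw [← map_mul, ← map_pow]; congr 1
      refine Subtype.ext ?_
      change (σ * ε eE) ^ 2 = ε (x * eE)
      rw [map_mul, ← h.se, is, pow_two]; group
    have n2 : (a * b) ^ 2 ≠ 1 := by
      rw [c2, Ne, ψ1]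
      rintro (⟨d, hd, e⟩ | ⟨d, hd, e⟩)
      · have := h.inj e
        rcases hx with rfl | rfl
        · exact (pT1_F1 hd).2.2.2.2.2.1 this
        · exact (pT1_F1 hd).2.2.2.2.2.2.1 this
      · have : d = x * eE * tE := h.inj (e.trans (map_mul _ _ _).symm)
        have : d * tE = x * eE := by rw [this, mul_assoc, show tE * tE = 1 by decide +kernel, mul_one]
        rcases hx with rfl | rfl
        · exact (pT1_F1 hd).2.2.2.2.2.2.2.1 this
        · exact (pT1_F1 hd).2.2.2.2.2.2.2.2.1 this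
    have c4 : (a * b) ^ 4 = 1 := by
      rw [show 4 = 2 * 2 from rfl, pow_mul, c2, ← map_pow, ← map_one ψ]; congr 1
      refine Subtype.ext ?_
      change ε (x * eE) ^ 2 = 1
      rw [← map_pow, show (x * eE) ^ 2 = 1 by rcases hx with rfl | rfl <;> decide +kernel, map_one]
    have o4 : orderOf (a * b) = 4 := orderOf_eq_prime_pow (p := 2) (n := 1) n2 c4
    have ia : a⁻¹ = a := inv_eq_of_mul_eq_one_right aa
    have ib : b⁻¹ = b := inv_eq_of_mul_eq_one_right bb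
    have inv : a * (a * b) * a⁻¹ = (a * b)⁻¹ := by rw [← mul_assoc, aa, one_mul, mul_inv_rev, ib]
    obtain ⟨e⟩ := H20.closure_inverts_equiv_dihedral (t := a) (c := a * b) (by omega) aa inv (fun hm => by
      have : a * (a * b) = (a * b) * a := (mem_centralizer_singleton_iff.1
        ((zpowers_le.2 (mem_centralizer_singleton_iff.2 rfl) : zpowers (a * b) ≤ centralizer {a * b}) hm))
      rw [this, mul_inv_cancel_right] at inv
      exact n2 (by rw [pow_two]; nth_rewrite 2 [inv]; simp))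
    rw [o4] at e
    have top : closure {a, a * b} = ⊤ := by
      set H := closure {a, a * b} with hH
      have aH : a ∈ H := subset_closure (by simp)
      have bH : b ∈ H := by
        simpa using mul_mem (inv_mem aH) (subset_closure (by simp) : a * b ∈ H)
      let H2 : Subgroup G := (H.comap ψ).map K.subtype
      have m2 : ∀ k : K, ψ k ∈ H → k.1 ∈ H2 := fun k hk => ⟨k, hk, rfl⟩
      have m1 : ∀ k : K, ψ k = 1 → k.1 ∈ H2 := fun k hk => m2 k (hk ▸ one_mem _)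
      have sH : σ ∈ H2 := m2 _ aH
      have eH : ε eE ∈ H2 := m2 _ bH
      have tH : ε tE ∈ H2 := m1 ⟨_, mK rfl⟩ ((ψ1 _).2 (Or.inr (by change ε tE * ε tE ∈ D; rw [tt]; exact one_mem _)))
      have zH : ε zE ∈ H2 := m1 ⟨_, mK (by decide +kernel)⟩ ((ψ1 _).2 (Or.inl zD))
      have zH' : ε zF ∈ H2 := m1 ⟨_, mK (by decide +kernel)⟩ ((ψ1 _).2 (Or.inl zD'))
      have xH : ε x ∈ H2 := h.se ▸ mul_mem (mul_mem sH eH) (inv_mem sH)
      have AH : ε eA ∈ H2 := by
        rcases hx with rfl | rfl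
        · exact xH
        · rw [show eA = eB * tE by decide +kernel, map_mul]; exact mul_mem xH tH
      have rH : ∀ g ∈ ε.range, g ∈ C → g ∈ H2 := by
        rintro _ ⟨w, rfl⟩ hc
        obtain ⟨i, j, k, l, m, rfl⟩ := pT1_F2 w (h.inj (by simpa using mC.1 hc))
        simp only [map_mul, map_pow]
        exact mul_mem (mul_mem (mul_mem (mul_mem (pow_mem zH _) (pow_mem zH' _)) (pow_mem tH _))
          (pow_mem eH _)) (pow_mem AH _)
      refine eq_top_iff.2 fun y _ => ?_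
      obtain ⟨k, rfl⟩ := ψs y
      have : k.1 ∈ H2 := by
        rcases pT1_nD h k.2.2 with r | r
        · exact rH _ r k.2.1
        · simpa using mul_mem (inv_mem sH) (rH _ r (mul_mem sK.1 k.2.1))
      obtain ⟨k', hk', e⟩ := this
      rw [← Subtype.ext e]; exact hk'
    exact ⟨(topEquiv.symm.trans (MulEquiv.subgroupCongr top.symm)).trans e⟩
  obtain ⟨e8⟩ := dih
  rcases t X (pS.toSylow ix) S rfl c9 cS e8 (by
    rintro _ ⟨⟨_, d, hd, rfl⟩, rfl⟩ n1 c hc
    obtain ⟨g, rfl⟩ := hs c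
    exact (L2 g).2 (pT1_cD h hd (fun e => n1 (by
      subst e
      rw [← map_one f]; congr 1; exact Subtype.ext (map_one ε))) (mC.1 g.2)
      (L4 g _ (mem_centralizer_singleton_iff.1 hc)))) with hn | hn
  · exact Or.inl fun g hg => pT1_nD h ((L2 ⟨g, mC.2 hg.eq⟩).1 (by rw [normalizer_eq_top_iff.2 hn]; trivial))
  · exact Or.inr hn

theorem pT1 (t : T33.{u}) (h : SA ε σ x) (hx : x = eA ∨ x = eB) : ND ε σ ∨ ∃ π : centralizer ({ε tE} : Set G) →* Perm (Fin 6), Function.Surjective π ∧ ∀ g, π g = 1 ↔ g.1 = 1 ∨ g.1 = ε tE := by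
  have tt : ε tE * ε tE = 1 := by rw [← map_mul, show tE * tE = 1 by decide +kernel, map_one]
  let Z : Subgroup (centralizer ({ε tE} : Set G)) :=
    { carrier := {g | g.1 = 1 ∨ g.1 = ε tE}
      one_mem' := Or.inl rfl
      mul_mem' := by
        rintro a b (ha | ha) (hb | hb) <;> change a.1 * b.1 = 1 ∨ a.1 * b.1 = _ <;> simp [ha, hb, tt]
      inv_mem' := by
        rintro a (ha | ha) <;> change a.1⁻¹ = 1 ∨ a.1⁻¹ = _ <;>
          simp [ha, inv_eq_of_mul_eq_one_right tt] }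
  haveI : Z.Normal := ⟨by
    rintro n (hn | hn) g
    · left; simp [hn]
    · right
      have := mem_centralizer_singleton_iff.1 g.2
      simp [hn, this]⟩
  have hq : ∀ g, QuotientGroup.mk' Z g = 1 ↔ g.1 = 1 ∨ g.1 = ε tE := fun g => QuotientGroup.eq_one_iff g
  rcases pT1_aux t h hx _ rfl (QuotientGroup.mk' Z) (QuotientGroup.mk'_surjective Z) hq with r | ⟨⟨e⟩⟩
  · exact Or.inl r
  · exact Or.inr ⟨e.toMonoidHom.comp (QuotientGroup.mk' Z), e.surjective.comp (QuotientGroup.mk'_surjective Z),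
      fun g => by rw [← hq]; simp⟩

end Cfsg.Agent.L1Se
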